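import Cfsg.Statements.S3011
import Cfsg.Agent.H11.ZStar
import Cfsg.Agent.H11.CharP
import Cfsg.Agent.H6.Baer
import Cfsg.Agent.H6.Q8
import Cfsg.Agent.H6.Iso

set_option autoImplicit false
open Cfsg

namespace Cfsg.Agent.S3011

open Subgroup H16 H16.H11
open H1 hiding card_inf_mul_relIndex card_mul_relIndex card_sup_dvd isPiHallOf_map_subtype isPiHallOf_top
open H15 hiding card_cj cent_anti cent_bot cent_comm cent_le_cent1 cent_le_norm cent_sup cent_zpowers cj_bot cj_cent cj_cj_inv cj_comm cj_eq_bot cj_eq_iff cj_eq_top cj_inf cj_inj cj_inv_cj cj_le_cj cj_le_iff cj_le_of_mem cj_lt_cj cj_mono cj_norm cj_one cj_sup cj_top comm_le_inf comm_le_left comm_le_right comm_of_cyclic comm_of_le comm_sup le_cj_iff mem_cent mem_cent1 mem_cj mem_norm_of_cj_le norm_bot norm_top relIndex_cj relIndex_dvd_of_le_right relIndex_pos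
open scoped commutatorElement


/-- Let G be a finite group and V a nontrivial elementary abelian 2-subgroup of G of order at most 4 such that, whenever an element of V inverts an element h of G of odd order, some nontrivial element of V commutes with h. Then V meets O₂(G) nontrivially. (The case of order at most 4 has a short argument from the Baer–Suzuki theorem.) -/
theorem result {G : Type*} [Group G] [Finite G] (V : Subgroup G) (hV : Cfsg.IsElementaryAbelian 2 V) (hV1 : V ≠ ⊥) (hS : Cfsg.IsSidkiPair V) (h4 : Nat.card V ≤ 4) : V ⊓ Cfsg.pCore 2 G ≠ ⊥ := by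
  intro h0
  have pp := Nat.prime_two
  obtain ⟨P⟩ := (inferInstance : Nonempty (Sylow 2 G))
  have sq1 : ∀ v ∈ V, v * v = 1 := fun v hv => by rw [← sq]; exact hV.2 v hv
  have odd1 : ∀ x : G, Odd (orderOf x) → x = x⁻¹ → x = 1 := fun x h1 h2 =>
    _root_.H11.eq_one_of_pow_coprime (Nat.coprime_two_left.2 h1)
      (by rw [sq, ← eq_inv_iff_mul_eq_one]; exact h2) (pow_orderOf_eq_one x)
  have inv : ∀ v ∈ V, v ≠ 1 → ∃ h : G, h ≠ 1 ∧ Odd (orderOf h) ∧ v * h * v⁻¹ = h⁻¹ ∧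
      ∃ w ∈ V, w ≠ 1 ∧ w * h * w⁻¹ = h := fun v hv h1 => by
    obtain ⟨h, a, b, c, -⟩ := H6.exists_odd_inverted (orderOf_of_pow pp (hV.2 v hv) h1) P fun h =>
      h1 (eq_one_of_mem_bot h0 ⟨hv, (pCore_eq_normalCore_sylow P).ge h⟩)
    obtain ⟨w, d, e, f⟩ := hS h v hv b c
    exact ⟨h, a, b, c, w, d, e, by rw [f, mul_inv_cancel_right]⟩
  obtain ⟨v0, hv0, v1⟩ := exists_ne_one hV1
  obtain ⟨h, h1, h2, h3, w, hw, w1, h4'⟩ := inv v0 hv0 v1
  obtain ⟨k, k1, k2, k3, v, hv, v2, k4⟩ := inv w hw w1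
  have four : ∀ x ∈ V, x ≠ 1 → x = w ∨ x = v ∨ x = w * v := fun x hx x1 => by
    have c1 := card_zpowers_of_pow pp (hV.2 w hw) w1
    have c2 := card_zpowers_of_pow pp (hV.2 v hv) v2
    have hc : zpowers w ≤ C[zpowers v] := comm_cent hV.1 (zpowers_le.2 hw) (zpowers_le.2 hv)
    have hA := E2_sup pp c1 c2 (fun e => by
      rcases (H6.mem_zpowers_ord2 (sq1 v hv)).1 (e.le (mem_zpowers w)) with e | rfl
      · exact w1 e
      · exact k1 (odd1 k k2 (k4.symm.trans k3))) hc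
    obtain ⟨a, ha, b, hb, rfl⟩ := (mem_sup_r (norm_of_cent hc)).1 ((eq_of_le_of_card (sup_le
      (zpowers_le.2 hw) (zpowers_le.2 hv)) (h4.trans hA.2.ge)).ge hx)
    rcases (H6.mem_zpowers_ord2 (sq1 w hw)).1 ha with rfl | rfl <;>
      rcases (H6.mem_zpowers_ord2 (sq1 v hv)).1 hb with rfl | rfl
    · exact (x1 (one_mul 1)).elim
    · exact Or.inr (Or.inl (one_mul _))
    · exact Or.inl (mul_one _)
    · exact Or.inr (Or.inr rfl)
  clear h4
  have h4 := h4'
  have cj2 : ∀ x : G, w * v * x * (w * v)⁻¹ = w * (v * x * v⁻¹) * w⁻¹ := fun x => by group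
  have h5 : v * h * v⁻¹ = h⁻¹ := by
    rcases four v0 hv0 v1 with rfl | rfl | rfl
    · exact (h1 (odd1 h h2 (h4.symm.trans h3))).elim
    · exact h3
    · rw [cj2, ← congrArg (·⁻¹) h4, conj_inv, mul_left_inj, mul_right_inj] at h3; exact h3
  have h6 : w * (k * h * k⁻¹) * w⁻¹ = k⁻¹ * h * k := by
    rw [← conj_mul, ← conj_mul, ← conj_inv, k3, h4, inv_inv]
  have h7 : v * (k * h * k⁻¹) * v⁻¹ = (k * h * k⁻¹)⁻¹ := by
    rw [← conj_mul, ← conj_mul, ← conj_inv, k4, h5]; group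
  have o2 : Odd (orderOf (k * k)) := by
    rw [← sq]; exact k2.of_dvd_nat (orderOf_pow_dvd 2)
  have h8 : Commute h k := by
    obtain ⟨x, hx, x1, x2⟩ := hS _ v hv (by rwa [orderOf_cj]) h7
    rw [← mul_inv_eq_iff_eq_mul] at x2
    rcases four x hx x1 with rfl | rfl | rfl
    · have : Commute h (k ^ 2) := by
        rw [h6] at x2
        rw [sq, Commute, SemiconjBy, show h * (k * k) = k * (k⁻¹ * h * k) * k by group, x2]; group
      obtain ⟨n, hn⟩ := k2
      have e : k = (k ^ 2) ^ (n + 1) := by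
        rw [← pow_mul, show 2 * (n + 1) = 2 * n + 1 + 1 by ring, pow_succ, ← hn, pow_orderOf_eq_one,
          one_mul]
      rw [e]; exact this.pow_right _
    · exact (h1 (H16.conj_eq_one_iff.1 (odd1 _ (by rwa [orderOf_cj]) (x2.symm.trans h7)))).elim
    · rw [cj2, h7, ← conj_inv, h6] at x2
      refine (h1 (odd1 h h2 (eq_inv_iff_mul_eq_one.2 (H6.eq_inv_of_odd_inverts o2 ?_)))).elim
      rw [show k * k * h * (k * k)⁻¹ = k * (k * h * k⁻¹) * k⁻¹ by group, ← x2]; group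
  have o3 : Odd (orderOf (h * k)) := (h2.mul k2).of_dvd_nat h8.orderOf_mul_dvd_mul_orderOf
  have h9 : w * v * (h * k) * (w * v)⁻¹ = (h * k)⁻¹ := by
    rw [cj2, ← conj_mul (b := v), h5, k4, ← conj_mul, ← conj_inv, h4, k3, mul_inv_rev, h8.inv_inv.eq]
  obtain ⟨x, hx, x1, x2⟩ := hS _ _ (mul_mem hw hv) o3 h9
  rw [← mul_inv_eq_iff_eq_mul] at x2
  rcases four x hx x1 with rfl | rfl | rfl
  · rw [← conj_mul, h4, k3, mul_right_inj] at x2
    exact k1 (odd1 k k2 x2.symm)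
  · rw [← conj_mul, h5, k4, mul_left_inj] at x2
    exact h1 (odd1 h h2 x2.symm)
  · obtain rfl := eq_inv_of_mul_eq_one_right (odd1 _ o3 (x2.symm.trans h9))
    rw [← conj_inv, h4] at k3
    exact k1 (odd1 _ k2 k3)

end Cfsg.Agent.S3011
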