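import Cfsg.Statements.S3012
import Cfsg.Agent.H11.Bar

set_option autoImplicit false
open Cfsg

namespace Cfsg.Agent.S3012

open Subgroup H16 H16.H11
open H1 hiding card_inf_mul_relIndex card_mul_relIndex card_sup_dvd isPiHallOf_map_subtype isPiHallOf_top
open H15 hiding card_cj cent_anti cent_bot cent_comm cent_le_cent1 cent_le_norm cent_sup cent_zpowers cj_bot cj_cent cj_cj_inv cj_comm cj_eq_bot cj_eq_iff cj_eq_top cj_inf cj_inj cj_inv_cj cj_le_cj cj_le_iff cj_le_of_mem cj_lt_cj cj_mono cj_norm cj_one cj_sup cj_top comm_le_inf comm_le_left comm_le_right comm_of_cyclic comm_of_le comm_sup le_cj_iff mem_cent mem_cent1 mem_cj mem_norm_of_cj_le norm_bot norm_top relIndex_cj relIndex_dvd_of_le_right relIndex_pos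
open scoped commutatorElement


/-- Let G be a finite group, V a nontrivial elementary abelian 2-subgroup of G satisfying the Sidki pair condition (every odd-order element inverted by an element of V commutes with a nontrivial element of V), and K a normal subgroup of G with V ∩ K = 1. Then the image of V in G/K satisfies the Sidki pair condition in G/K. -/
theorem result {G : Type*} [Group G] [Finite G] (V K : Subgroup G) [K.Normal] (hV : Cfsg.IsElementaryAbelian 2 V) (hV1 : V ≠ ⊥) (hS : Cfsg.IsSidkiPair V) (hVK : V ⊓ K = ⊥) : Cfsg.IsSidkiPair (V.map (QuotientGroup.mk' K)) := by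
  let f := QuotientGroup.mk' K
  rintro h _ ⟨v, hv, rfl⟩ ho hi
  obtain ⟨h, rfl⟩ := QuotientGroup.mk'_surjective K h
  change f v * f h * (f v)⁻¹ = (f h)⁻¹ at hi
  have v2 : v⁻¹ = v := inv_eq_of_mul_eq_one_right (by rw [← sq]; exact hV.2 v hv)
  let y := h * (v * h⁻¹ * v⁻¹)
  have h1 : v * y * v⁻¹ = y⁻¹ := by
    have v3 : v * v = 1 := by rw [← sq]; exact hV.2 v hv
    simp only [y, mul_inv_rev, inv_inv, v2, mul_assoc, v3, mul_one]
  have h2 : f y = f h ^ 2 := by
    simp only [y, map_mul, map_inv]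
    rw [← conj_inv, hi, inv_inv, sq]
  obtain ⟨k, m, hm, e⟩ := Nat.exists_eq_two_pow_mul_odd (orderOf_pos y).ne'
  obtain ⟨w, hw, w1, h3⟩ := hS (y ^ 2 ^ k) v hv (hm.of_dvd_nat (orderOf_dvd_of_pow_eq_one (by
    rw [← pow_mul, ← e, pow_orderOf_eq_one]))) (by rw [← conj_pow, h1, inv_pow])
  refine ⟨f w, mem_map_of_mem f hw, fun h4 => w1 (eq_one_of_mem_bot hVK
    ⟨hw, (QuotientGroup.eq_one_iff w).1 h4⟩), ?_⟩
  have h5 : f h ^ 2 ^ (k + 1) ∈ C1[f w] := mem_cent1.2 (by
    rw [pow_succ', pow_mul, ← h2, ← map_pow, ← map_mul, ← h3, map_mul])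
  refine (mem_cent1.1 (zpowers_le.2 h5 (mem_zpowers_pow_iff.2 ?_))).symm
  exact Nat.Coprime.pow_left _ (Nat.coprime_two_left.2 ho)

end Cfsg.Agent.S3012
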