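import Cfsg.Statements.S0054
import Cfsg.Agent.H25.Prim
import Cfsg.Agent.H1.Basic

set_option autoImplicit false
open Cfsg

namespace Cfsg.Agent.S0054

/-- A regular normal subgroup of a finite 2-transitive group is elementary abelian: it is commutative and all its elements have order dividing one prime. -/
theorem result {G : Type*} [Group G] [Finite G]
    {X : Type*} [Nonempty X] [MulAction G X] (h2 : MulAction.IsMultiplyPretransitive G X 2)
    (N : Subgroup G) [N.Normal] (htrans : MulAction.IsPretransitive N X) (hreg : ∀ x : X, MulAction.stabilizer N x = ⊥) :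
    IsMulCommutative N ∧ ∃ p : ℕ, p.Prime ∧ ∀ n ∈ N, n ^ p = 1 := by
  obtain ⟨x⟩ := ‹Nonempty X›
  have : Finite X := Finite.of_surjective (fun n : N => n • x) fun y => htrans.exists_smul_eq x y
  rcases subsingleton_or_nontrivial X with hX | hX
  · have h : ∀ n ∈ N, n = 1 := fun n hn => by
      have : (⟨n, hn⟩ : N) ∈ MulAction.stabilizer N x := Subsingleton.elim _ _
      rw [hreg] at this
      exact congrArg Subtype.val (Subgroup.mem_bot.1 this)
    exact ⟨H1.isMulCommutative_iff'.2 fun a ha b _ => by simp [h a ha], 2, Nat.prime_two,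
      fun n hn => by simp [h n hn]⟩
  · obtain ⟨p, -, hp, -, -, h1, h3⟩ := H25.elemAb_of_regular_normal h2 N htrans hreg
    exact ⟨H1.isMulCommutative_iff'.2 h1, p, hp, h3⟩

end Cfsg.Agent.S0054
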