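import Cfsg.Statements.S1220
import Cfsg.Agent.H17.Be1

set_option autoImplicit false
open Cfsg

namespace Cfsg.Agent.S1220

open H17 Cfsg


/-- Let H be a strongly embedded subgroup of the finite group G. Then either G acts doubly transitively on the cosets of H (H permutes transitively the cosets gH with g ∉ H), or every Sylow 2-subgroup of G is cyclic or generalized quaternion and G = O(G)H. -/
theorem result {G : Type*} [Group G] [Finite G] (H : Subgroup G) (hH : Cfsg.IsStronglyEmbedded H) : (∀ g₁ g₂ : G, g₁ ∉ H → g₂ ∉ H → ∃ h ∈ H, g₂⁻¹ * (h * g₁) ∈ H) ∨ ((∀ S : Sylow 2 G, IsCyclic S ∨ ∃ m : ℕ, 1 ≤ m ∧ Nonempty ((S : Subgroup G) ≃* QuaternionGroup (2 ^ m))) ∧ Cfsg.oddCore G ⊔ H = ⊤) := by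
  by_cases h4 : H15.Bd.Four (⊤ : Subgroup G)
  · obtain ⟨S, hS⟩ := (H15.Bd.base_of_se hH h4).con ((1 : G) : G ⧸ H)
    have key : ∀ g : G, g ∉ H → g • ((1 : G) : G ⧸ H) ≠ (1 : G) := fun g hg e =>
      hg (H15.Bd.St_one H ▸ e)
    refine Or.inl fun g₁ g₂ h1 h2 => ?_
    obtain ⟨x, hx, e⟩ := hS.trans g₁ trivial g₂ trivial (key g₁ h1) (key g₂ h2)
    refine ⟨x, H15.Bd.St_one H ▸ (hS.le hx).2, (H6.smul_mk_eq_iff _ _ _).1 ?_⟩
    simpa using e
  · exact Or.inr ⟨fun S => H17.Be.cyc_or_quat h4 S.2, H17.Be.core_sup hH h4⟩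

end Cfsg.Agent.S1220
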