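import Cfsg.Statements.S3761
import Cfsg.Agent.H7.CycSelf
import Cfsg.Agent.H8.Cyc

set_option autoImplicit false
open Cfsg

namespace Cfsg.Agent.S3761

open Subgroup

/-- Let G be a finite non-abelian p-group with a cyclic normal subgroup U of order p^n such that C_G(U) = U. Then either p = 2 and G is dihedral, generalized quaternion or semidihedral of order 2^(n+1); or, writing U₁ for the subgroup generated by the p-th powers of elements of U and M = C_G(U₁), the subgroup U has index p in M and the subgroup Ω₁(M) generated by the elements of M of order dividing p is elementary abelian of order p² and characteristic in G. -/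
theorem result {G : Type*} [Group G] [Finite G] {p : ℕ} [Fact p.Prime] (hG : IsPGroup p G) (hna : ¬ IsMulCommutative G) (U : Subgroup G) [U.Normal] (hU : IsCyclic U) (n : ℕ) (hUn : Nat.card U = p ^ n) (hC : Subgroup.centralizer (U : Set G) = U) : (p = 2 ∧ Nat.card G = 2 ^ (n + 1) ∧ ((∃ m : ℕ, Nonempty (G ≃* DihedralGroup m)) ∨ (∃ m : ℕ, Nonempty (G ≃* QuaternionGroup m)) ∨ Cfsg.IsQuasiDihedral G)) ∨ (U.relIndex (Subgroup.centralizer (Cfsg.powerClosure p 1 U : Set G)) = p ∧ Cfsg.IsElementaryAbelian p (Cfsg.omegaOne p (Subgroup.centralizer (Cfsg.powerClosure p 1 U : Set G))) ∧ Nat.card ↥(Cfsg.omegaOne p (Subgroup.centralizer (Cfsg.powerClosure p 1 U : Set G))) = p ^ 2 ∧ (Cfsg.omegaOne p (Subgroup.centralizer (Cfsg.powerClosure p 1 U : Set G))).Characteristic) := by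
  obtain ⟨a, rfl⟩ := H8.exists_zpowers_eq_of_isCyclic hU
  rw [Nat.card_zpowers] at hUn
  have htop : zpowers a ≠ ⊤ := fun h => hna (by
    haveI := isCyclic_iff_exists_zpowers_eq_top.2 ⟨a, h⟩
    infer_instance)
  have hm : 2 ≤ n := by
    by_contra hm
    have : zpowers a ≤ center G := H9.le_center_of_card_le_prime hG (by
      rw [Nat.card_zpowers, hUn]
      exact (Nat.pow_le_pow_right (Fact.out : p.Prime).pos (by omega)).trans (pow_one p).le)
    exact htop (hC ▸ centralizer_eq_top_iff_subset.2 this)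
  obtain ⟨m, rfl⟩ : ∃ m, n = m + 2 := ⟨n - 2, by omega⟩
  rw [H7.powerClosure_zpowers, pow_one]
  by_cases hp : p = 2
  · subst hp
    rcases H7.dqs_or_exists_modular hG hUn hC htop with ⟨h1, h2⟩ | ⟨h1, b, h2, h3⟩
    · refine Or.inl ⟨rfl, by rw [← (zpowers a).card_mul_index, h1, Nat.card_zpowers, hUn, pow_succ _ (m + 2)], ?_⟩
      rcases h2.iso with ⟨k, h⟩ | ⟨k, h, x, y, e1, e2, e3⟩ | ⟨k, h⟩
      · exact Or.inl ⟨_, h⟩
      · exact Or.inr (Or.inr ⟨k + 3, by omega, h, x, y, e1, e2, e3⟩)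
      · exact Or.inr (Or.inl ⟨_, h⟩)
    obtain ⟨r, rfl⟩ : ∃ r, m = r + 1 := ⟨m - 1, by omega⟩
    obtain ⟨t, e1, e2, e3, e4⟩ := H7.exists_modular_two hUn h3 h2
    obtain ⟨f1, f2, f3, f4⟩ := H7.modular_omega hUn hC e1 e2 e3 e4
    exact Or.inr ⟨f1, f2 ▸ f3, f2 ▸ f4, H7.omega_characteristic_two hUn hC⟩
  · obtain ⟨h1, t, e1, e2, e4⟩ := H7.exists_modular_odd hp hG hUn hC htop
    obtain ⟨f1, f2, f3, f4⟩ := H7.modular_omega hUn hC e1 e2 (h1 t e2) e4
    exact Or.inr ⟨f1, f2 ▸ f3, f2 ▸ f4, H7.omegaOne_characteristic_of_forall_mem fun x hx =>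
      H9.mem_centralizer_zpowers.2 (h1 x hx)⟩

end Cfsg.Agent.S3761
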