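import Cfsg.Statements.S3076
import Cfsg.Agent.H11.ZStar
import Cfsg.Agent.H15.TB

set_option autoImplicit false
open Cfsg

namespace Cfsg.Agent.S3076

open Subgroup H16 H16.H11
open H1 hiding card_inf_mul_relIndex card_mul_relIndex card_sup_dvd isPiHallOf_map_subtype isPiHallOf_top
open H15 hiding card_cj cent_anti cent_bot cent_comm cent_le_cent1 cent_le_norm cent_sup cent_zpowers cj_bot cj_cent cj_cj_inv cj_comm cj_eq_bot cj_eq_iff cj_eq_top cj_inf cj_inj cj_inv_cj cj_le_cj cj_le_iff cj_le_of_mem cj_lt_cj cj_mono cj_norm cj_one cj_sup cj_top comm_le_inf comm_le_left comm_le_right comm_of_cyclic comm_of_le comm_sup le_cj_iff mem_cent mem_cent1 mem_cj mem_norm_of_cj_le norm_bot norm_top relIndex_cj relIndex_dvd_of_le_right relIndex_pos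
open scoped commutatorElement

section
variable {L : Type*} [Group L] [Finite L] {p : ℕ} [hp : Fact p.Prime]

theorem le_up {K N : Subgroup L} [K.Normal] [N.Normal] (h : IsPiNat {p} (K.relIndex N)) :
    N ≤ (pCore p (L ⧸ K)).comap (QuotientGroup.mk' K) := by
  haveI := Subgroup.Normal.map ‹N.Normal› _ (QuotientGroup.mk'_surjective K)
  exact map_le_iff_le_comap.1 (le_pCore (pg_iff.1 (by
    rw [isPiSubgroup_iff, card_map_mk'_eq_relIndex]; exact h)))

theorem idx_up (K : Subgroup L) [K.Normal] :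
    IsPiNat {p} (K.relIndex ((pCore p (L ⧸ K)).comap (QuotientGroup.mk' K))) := by
  rw [← card_map_mk'_eq_relIndex]
  exact (isPi_pCore.of_le (map_comap_le _ _)).nat

theorem aux {H T C : Subgroup L} [H.Normal] [C.Normal] (hH : Pg[p] H) (hT : Sy[p] T ⊤)
    (hC : C = C[H]) :
    (H ≤ (pCore p (L ⧸ C)).comap (QuotientGroup.mk' C) ∧
      ¬ p ∣ H.relIndex ((pCore p (L ⧸ C)).comap (QuotientGroup.mk' C))) ↔
    (T ⊓ C ≤ H ∧ pPrimePCore p L = H ⊔ C) := by
  have i1 := idx_up (p := p) C
  have i2 : IsPiNat {p} ((pPrimeCore p L).relIndex (pPrimePCore p L)) := idx_up _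
  have h1 : pPrimeCore p L ≤ C := hC ▸ cent_of_inf_bot le_normalizer_of_normal
    le_normalizer_of_normal (isPi_pPrimeCore.inf_eq_bot' hH)
  have h2 : C ≤ (pCore p (L ⧸ C)).comap (QuotientGroup.mk' C) :=
    (QuotientGroup.ker_mk' C).ge.trans (ker_le_comap _ _)
  have h3 := hl_inf hT le_top (le_normalizer_of_normal (H := C))
  have i3 : IsPiNat {p} (C.relIndex (H ⊔ C)) := by
    rw [relIndex_sup_right]; exact hH.relIndex C
  have B : T ⊓ C ≤ H → ∀ N : Subgroup L, N.Normal → C ≤ N → IsPiNat {p} (C.relIndex N) →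
      N ≤ pPrimePCore p L := fun h N _ a b => by
    refine le_up ?_
    rw [← relIndex_mul_relIndex _ _ _ h1 a]
    refine IsPiNat.mul ?_ b
    have h4 := hl_idx (burnside_amb h3 (inf_le_left.trans (hC.le.trans (cent_anti h))))
    rw [compl_compl] at h4
    haveI := normal_of_top (le_norm_piCoreOf {p}ᶜ (le_normalizer_of_normal (K := ⊤) (H := C)))
    exact h4.of_dvd (relIndex_dvd_of_le_left _ (le_pPrimeCore (isPi_piCoreOf _ _).coprime_p))
  constructor
  · rintro ⟨a, b⟩
    have h4 := sy_mk a hH b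
    have h5 : T ⊓ C ≤ H := le_hl_of_norm' h4 (inf_le_right.trans h2) le_normalizer_of_normal
      (hl_pi h3)
    refine ⟨h5, le_antisymm (le_trans (le_up (i2.of_dvd (relIndex_dvd_of_le_left _ h1))) ?_)
      (B h5 _ inferInstance le_sup_right i3)⟩
    rw [sup_comm, sup_eq_of_idx h2 a i1 (hl_idx h4)]
  · rintro ⟨a, b⟩
    have h4 := le_antisymm (le_up i3) ((B a _ inferInstance h2 i1).trans b.le)
    rw [← h4, relIndex_sup_left]
    exact ⟨le_sup_left, not_dvd_relIndex_of_le (sy_not_dvd h3 hp.out) a⟩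

end


/-- Let P be a Sylow p-subgroup of the finite group G and H ≤ P a subgroup with N_P(H) a Sylow p-subgroup of N_G(H). Let N be the preimage in N_G(H) of O_p(N_G(H)/C_G(H)). Then H is a Sylow p-subgroup of N if and only if C_P(H) ≤ H and O_{p',p}(N_G(H)) = H·C_G(H). -/
theorem result {G : Type*} [Group G] [Finite G] {p : ℕ} [Fact p.Prime]
    (P : Sylow p G) (H : Subgroup G) (hHP : H ≤ (P : Subgroup G))
    (hSyl : ¬ p ∣ ((P : Subgroup G) ⊓ Subgroup.normalizer (H : Set G)).relIndex (Subgroup.normalizer (H : Set G)))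
    [hC : ((Subgroup.centralizer (H : Set G)).subgroupOf (Subgroup.normalizer (H : Set G))).Normal] :
    (H ≤ ((Cfsg.pCore p (↥(Subgroup.normalizer (H : Set G)) ⧸
              (Subgroup.centralizer (H : Set G)).subgroupOf (Subgroup.normalizer (H : Set G)))).comap
            (QuotientGroup.mk' _)).map (Subgroup.normalizer (H : Set G)).subtype ∧
      ¬ p ∣ H.relIndex (((Cfsg.pCore p (↥(Subgroup.normalizer (H : Set G)) ⧸
              (Subgroup.centralizer (H : Set G)).subgroupOf (Subgroup.normalizer (H : Set G)))).comap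
            (QuotientGroup.mk' _)).map (Subgroup.normalizer (H : Set G)).subtype)) ↔
    ((P : Subgroup G) ⊓ Subgroup.centralizer (H : Set G) ≤ H ∧
      (Cfsg.pPrimePCore p ↥(Subgroup.normalizer (H : Set G))).map (Subgroup.normalizer (H : Set G)).subtype =
        H ⊔ Subgroup.centralizer (H : Set G)) := by
  have pH : Pg[p] H := (hl_pi (sy_top_of_sylow P)).of_le hHP
  have hT := (sy_mk inf_le_right (hl_pi (sy_top_of_sylow P)).inf_left hSyl).subgroupOf le_rfl
  rw [subgroupOf_self] at hT
  have h1 := le_norm H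
  have h2 := cent_le_norm H
  haveI := normal_subgroupOf (le_refl N[H])
  have := aux (pH.subgroupOf N[H]) hT (subgroupOf_cent h1)
  rw [subgroupOf_le_iff' h1, ← relIndex_map_map_of_injective _ _ (subtype_injective N[H]),
    map_subgroupOf h1] at this
  rw [this, ← (map_injective (subtype_injective N[H])).eq_iff, Subgroup.map_sup, map_subgroupOf h1,
    map_subgroupOf h2]
  refine and_congr_left' ?_
  rw [← subgroupOf_le_iff (D := N[H]) (inf_le_right.trans h2), inf_subgroupOf_right]
  rfl

end Cfsg.Agent.S3076
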