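import Cfsg.Statements.S2354
import Cfsg.Agent.H26.SzBasic

set_option autoImplicit false
open Cfsg

namespace Cfsg.Agent.S2354

open Polynomial Matrix

/-- left exponent -/
def l (x : ℕ × Bool) : ℕ := if x.2 then 2 * x.1 + 1 else 2 * x.1 + 2
/-- right exponent -/
def r (x : ℕ × Bool) : ℕ := if x.2 then 2 * x.1 + 2 else 2 * x.1 + 1

theorem r_ne_l {x y : ℕ × Bool} (h : x.1 = y.1 → x.2 = y.2) : r x ≠ l y := by
  obtain ⟨i, _ | _⟩ := x <;> obtain ⟨j, _ | _⟩ := y <;> simp [l, r] at h ⊢ <;> omega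

theorem l_pos (x : ℕ × Bool) : 0 < l x := by unfold l; split_ifs <;> omega
theorem r_pos (x : ℕ × Bool) : 0 < r x := by unfold r; split_ifs <;> omega

theorem deg {F : Type*} [Field F] {a b : ℕ} (h : a ≠ b) (ha : 0 < a) (hb : 0 < b) :
    0 < (X ^ a + X ^ b : F[X]).natDegree ∧ (X ^ a + X ^ b : F[X]).natDegree ≤ a + b := by
  rcases lt_or_gt_of_ne h with h | h
  · rw [natDegree_add_eq_right_of_natDegree_lt (by simpa using h), natDegree_X_pow]; omega
  · rw [natDegree_add_eq_left_of_natDegree_lt (by simpa using h), natDegree_X_pow]; omega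

variable {G : Type*} [Group G] {F : Type*} [Field F] [Fintype F] {m : ℕ} (N : H26.SzModel G F m)

/-- the element substituted for a letter -/
noncomputable def el (t : F) (x : ℕ × Bool) : G := N.u 0 (t ^ l x) * N.w * N.u 0 (t ^ r x)

theorem main (x : ℕ × Bool) (L : List (ℕ × Bool)) (h : FreeGroup.IsReduced (x :: L)) :
    ∃ v : Fin 4 → F[X], v 3 ≠ 0 ∧ (∀ i, (v i).natDegree ≤ (v 3).natDegree) ∧
      (v 3).natDegree + 2 ^ (m + 1) * l x ≤ 2 ^ (m + 1) * ((x :: L).map fun y => l y + r y).sum ∧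
      ∀ t, N.ρ (N.u 0 (t ^ l x) * ((x :: L).map (el N t)).prod) *ᵥ ![1, 0, 0, 0] = fun i => (v i).eval t := by
  have := N.charP
  induction L generalizing x with
  | nil =>
    refine ⟨![0, 0, 0, 1], by simp, fun i => by fin_cases i <;> simp, by simp [mul_add], fun t => ?_⟩
    simp only [List.map_cons, List.map_nil, List.prod_cons, List.prod_nil, mul_one, el, ← mul_assoc,
      N.u_zero_sq, one_mul, map_mul, N.ρ_u, N.ρ_w, ← mulVec_mulVec]
    ext i
    fin_cases i <;> simp [H26.Sz.uM, H26.Sz.wM, mulVec, dotProduct, Fin.sum_univ_four]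
  | cons y L ih =>
    rw [FreeGroup.isReduced_cons_cons] at h
    obtain ⟨v, h0, h1, h2, h3⟩ := ih y h.2
    obtain ⟨d1, d2⟩ := deg (F := F) (r_ne_l h.1) (r_pos x) (l_pos y)
    have hβ : ∀ t, t ^ r x + t ^ l y = (X ^ r x + X ^ l y : F[X]).eval t := fun t => by simp
    generalize (X ^ r x + X ^ l y : F[X]) = β at d1 d2 hβ
    have hβ0 : β ≠ 0 := by rintro rfl; simp at d1
    have hr : 2 ≤ 2 ^ (m + 1) := by
      rw [pow_succ]; have := Nat.one_le_two_pow (n := m); omega
    have e1 : (β ^ 2 ^ (m + 1) * v 3).natDegree = 2 ^ (m + 1) * β.natDegree + (v 3).natDegree := by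
      rw [natDegree_mul (pow_ne_zero _ hβ0) h0, natDegree_pow]
    have e2 : ∀ i j, (v i + β * v j).natDegree ≤ β.natDegree + (v 3).natDegree := fun i j =>
      (natDegree_add_le _ _).trans (max_le ((h1 i).trans (by omega))
        (natDegree_mul_le.trans (by have := h1 j; omega)))
    have e3 : β.natDegree < 2 ^ (m + 1) * β.natDegree := by nlinarith
    have e4 : (v 0 + β * v 2 + β ^ 2 ^ (m + 1) * v 3).natDegree =
        2 ^ (m + 1) * β.natDegree + (v 3).natDegree := by
      rw [natDegree_add_eq_right_of_natDegree_lt (by have := e2 0 2; omega), e1]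
    refine ⟨![v 3, v 2, v 1 + β * v 3, v 0 + β * v 2 + β ^ 2 ^ (m + 1) * v 3], ?_, fun i => ?_, ?_,
      fun t => ?_⟩
    · change v 0 + β * v 2 + β ^ 2 ^ (m + 1) * v 3 ≠ 0
      intro e
      rw [e, natDegree_zero] at e4
      omega
    · change _ ≤ (v 0 + β * v 2 + β ^ 2 ^ (m + 1) * v 3).natDegree
      fin_cases i
      · change (v 3).natDegree ≤ _; omega
      · change (v 2).natDegree ≤ _; have := h1 2; omega
      · change (v 1 + β * v 3).natDegree ≤ _; have := e2 1 3; omega
      · exact le_rfl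
    · change (v 0 + β * v 2 + β ^ 2 ^ (m + 1) * v 3).natDegree + _ ≤ _
      rw [e4, List.map_cons, List.sum_cons]
      have := Nat.mul_le_mul_left (2 ^ (m + 1)) d2
      simp only [mul_add] at this ⊢
      omega
    · have e : N.u 0 (t ^ l x) * ((x :: y :: L).map (el N t)).prod =
          N.w * N.u 0 (β.eval t) * (N.u 0 (t ^ l y) * ((y :: L).map (el N t)).prod) := by
        rw [List.map_cons, List.prod_cons, ← hβ, ← N.u_zero_mul]
        simp only [el, ← mul_assoc, N.u_zero_sq, one_mul]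
        rw [mul_assoc (N.w * N.u 0 (t ^ r x)) (N.u 0 (t ^ l y)), N.u_zero_sq, mul_one]
      rw [e, map_mul, ← mulVec_mulVec, h3, map_mul, ← mulVec_mulVec, N.ρ_u, N.ρ_w]
      ext i
      fin_cases i <;>
        simp [H26.Sz.uM, H26.Sz.wM, H26.Sz.ff, mulVec, dotProduct, Fin.sum_univ_four, N.σ_apply]


/-- A non-trivial law holds in only finitely many Suzuki groups: for every non-trivial element w of the free group on countably many generators there is N such that for q = 2^(2m+1) with m ≥ N some substitution of elements of the Suzuki group over the field with q elements into w is not the identity. -/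
theorem result (w : FreeGroup ℕ) (hw : w ≠ 1) :
    ∃ N : ℕ, ∀ (F : Type*) [Field F] [Fintype F] (m : ℕ), 1 ≤ m → N ≤ m →
      Fintype.card F = 2 ^ (2 * m + 1) →
      ∃ f : ℕ → ↥(Cfsg.Lie.Sz F (2 ^ (m + 1))), FreeGroup.lift f w ≠ 1 := by
  classical
  refine ⟨(w.toWord.map fun y => l y + r y).sum, fun F _ _ m hm hN hF => ?_⟩
  let N := H26.Sz.lieModel hm hF
  by_contra hc
  push Not at hc
  have h1 := FreeGroup.isReduced_toWord (x := w)
  have h2 : ∀ t, (w.toWord.map (el N t)).prod = 1 := fun t => by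
    rw [← hc fun i => el N t (i, true)]
    nth_rewrite 2 [← FreeGroup.mk_toWord (x := w)]
    rw [FreeGroup.lift_mk]
    congr 2
    ext1 ⟨i, _ | _⟩
    · simp only [cond_false, el, l, r, _root_.mul_inv_rev, N.w_inv, inv_eq_of_mul_eq_one_right (N.u_zero_sq _),
        mul_assoc]
      simp
    · rfl
  have h3 := mt FreeGroup.toWord_eq_nil_iff.1 hw
  generalize w.toWord = L at hN h1 h2 h3
  obtain _ | ⟨x, L⟩ := L
  · exact h3 rfl
  obtain ⟨v, h0, -, h4, h5⟩ := main N x L h1
  apply h0
  apply Polynomial.eq_zero_of_natDegree_lt_card_of_eval_eq_zero (v 3) Function.injective_id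
  · intro t
    have := congrFun (h5 t) 3
    rw [h2, mul_one, N.ρ_u] at this
    simpa [H26.Sz.uM, mulVec, dotProduct, Fin.sum_univ_four] using this.symm
  · rw [hF]
    have h6 := Nat.mul_le_mul_left (2 ^ (m + 1)) hN
    have h7 := Nat.mul_lt_mul_of_pos_left (Nat.lt_two_pow_self (n := m)) (Nat.two_pow_pos (m + 1))
    rw [← pow_add, show m + 1 + m = 2 * m + 1 by ring] at h7
    omega

end Cfsg.Agent.S2354
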