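import Cfsg.Statements.S2353
import Cfsg.Agent.S2354

set_option autoImplicit false
open Cfsg

namespace Cfsg.Agent.S2353


open Polynomial Matrix
open Cfsg.Agent.S2354 (l r r_ne_l l_pos r_pos)

variable {F : Type*} [Field F]

/-- upper unitriangular -/
def u (a : F) : SpecialLinearGroup (Fin 2) F := ⟨!![1, a; 0, 1], by simp [det_fin_two]⟩
/-- Weyl element -/
def wv : SpecialLinearGroup (Fin 2) F := ⟨!![0, -1; 1, 0], by simp [det_fin_two]⟩

theorem cm (A B : Matrix.SpecialLinearGroup (Fin 2) F) : (A * B).1 = A.1 * B.1 := rfl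
theorem u_add (a b : F) : u a * u b = u (a + b) := by
  apply Subtype.ext; rw [cm]
  ext i j; fin_cases i <;> fin_cases j <;> simp [u, add_comm]
theorem u_zero : u (0 : F) = 1 := by
  ext i j; fin_cases i <;> fin_cases j <;> simp [u]
theorem u_inv (a : F) : (u a)⁻¹ = u (-a) := by
  rw [inv_eq_iff_mul_eq_one, u_add, add_neg_cancel, u_zero]

theorem wv_sq : (wv * wv : SpecialLinearGroup (Fin 2) F) ∈ Subgroup.center _ := by
  rw [Matrix.SpecialLinearGroup.mem_center_iff]
  refine ⟨-1, by simp, ?_⟩
  rw [cm]
  ext i j; fin_cases i <;> fin_cases j <;> simp [wv]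

/-- the element substituted for a letter -/
def el (t : F) (x : ℕ × Bool) : SpecialLinearGroup (Fin 2) F := u (t ^ l x) * wv * u (-t ^ r x)

theorem deg {a b : ℕ} (h : a ≠ b) (ha : 0 < a) (hb : 0 < b) :
    0 < (X ^ b - X ^ a : F[X]).natDegree ∧ (X ^ b - X ^ a : F[X]).natDegree ≤ a + b := by
  rcases lt_or_gt_of_ne h with h | h
  · rw [natDegree_sub_eq_left_of_natDegree_lt (by simpa using h), natDegree_X_pow]; omega
  · rw [natDegree_sub_eq_right_of_natDegree_lt (by simpa using h), natDegree_X_pow]; omega

theorem main (x : ℕ × Bool) (L : List (ℕ × Bool)) (h : FreeGroup.IsReduced (x :: L)) :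
    ∃ v : Fin 2 → F[X], v 1 ≠ 0 ∧ (v 0).natDegree ≤ (v 1).natDegree ∧
      (v 1).natDegree + l x ≤ ((x :: L).map fun y => l y + r y).sum ∧
      ∀ t : F, (u (-t ^ l x) * ((x :: L).map (el t)).prod).1 *ᵥ ![1, 0] = fun i => (v i).eval t := by
  induction L generalizing x with
  | nil =>
    refine ⟨![0, 1], by simp, by simp, by simp, fun t => ?_⟩
    simp only [List.map_cons, List.map_nil, List.prod_cons, List.prod_nil, mul_one, el, ← mul_assoc,
      u_add, neg_add_cancel, u_zero, one_mul, cm]
    ext i
    fin_cases i <;> simp [u, wv, mulVec, dotProduct, Fin.sum_univ_two]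
  | cons y L ih =>
    rw [FreeGroup.isReduced_cons_cons] at h
    obtain ⟨v, h0, h1, h2, h3⟩ := ih y h.2
    obtain ⟨d1, d2⟩ := deg (F := F) (r_ne_l h.1) (r_pos x) (l_pos y)
    have hβ : ∀ t : F, -t ^ r x + t ^ l y = (X ^ l y - X ^ r x : F[X]).eval t := fun t => by
      simp; ring
    generalize (X ^ l y - X ^ r x : F[X]) = β at d1 d2 hβ
    have hβ0 : β ≠ 0 := by rintro rfl; simp at d1
    have e1 : (β * v 1).natDegree = β.natDegree + (v 1).natDegree := natDegree_mul hβ0 h0
    have e4 : (v 0 + β * v 1).natDegree = β.natDegree + (v 1).natDegree := by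
      rw [natDegree_add_eq_right_of_natDegree_lt (by omega), e1]
    refine ⟨![-v 1, v 0 + β * v 1], ?_, ?_, ?_, fun t => ?_⟩
    · change v 0 + β * v 1 ≠ 0
      intro e
      rw [e, natDegree_zero] at e4
      omega
    · change (-v 1).natDegree ≤ (v 0 + β * v 1).natDegree
      rw [natDegree_neg]; omega
    · change (v 0 + β * v 1).natDegree + _ ≤ _
      rw [e4, List.map_cons, List.sum_cons]
      omega
    · have e : u (-t ^ l x) * ((x :: y :: L).map (el t)).prod =
          wv * u (β.eval t) * (u (-t ^ l y) * ((y :: L).map (el t)).prod) := by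
        rw [List.map_cons, List.prod_cons, ← hβ, ← u_add]
        simp only [el, ← mul_assoc, u_add, neg_add_cancel, u_zero, one_mul]
        rw [mul_assoc wv (u (-t ^ r x + t ^ l y)), u_add, add_neg_cancel_right]
      rw [e, cm, ← mulVec_mulVec, h3, cm]
      ext i
      fin_cases i <;> simp [u, wv, mulVec, dotProduct, Fin.sum_univ_two]


/-- A non-trivial law holds in PSL_2 over only finitely many finite fields: for every non-trivial element w of the free group on countably many generators there is N such that over every finite field with at least N elements some substitution of elements of PSL_2 into w is not the identity. -/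
theorem result (w : FreeGroup ℕ) (hw : w ≠ 1) :
    ∃ N : ℕ, ∀ (F : Type*) [Field F] [Fintype F], N ≤ Fintype.card F →
      ∃ f : ℕ → Matrix.ProjectiveSpecialLinearGroup (Fin 2) F, FreeGroup.lift f w ≠ 1 := by
  classical
  refine ⟨(w.toWord.map fun y => l y + r y).sum + 1, fun F _ _ hN => ?_⟩
  by_contra hc
  push Not at hc
  have h1 := FreeGroup.isReduced_toWord (x := w)
  have h2 : ∀ t : F, (w.toWord.map (el t)).prod ∈ Subgroup.center _ := fun t => by
    rw [← QuotientGroup.eq_one_iff]
    rw [← hc fun i => QuotientGroup.mk (el t (i, true))]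
    nth_rewrite 2 [← FreeGroup.mk_toWord (x := w)]
    rw [FreeGroup.lift_mk]
    change QuotientGroup.mk' _ _ = _
    rw [map_list_prod, List.map_map]
    congr 2
    ext1 ⟨i, _ | _⟩
    · simp only [cond_false, Function.comp, QuotientGroup.mk'_apply]
      rw [eq_inv_iff_mul_eq_one, ← QuotientGroup.mk_mul, QuotientGroup.eq_one_iff]
      have e : el t (i, false) * el t (i, true) = u (t ^ (2 * i + 2)) * (wv * wv) * (u (t ^ (2 * i + 2)))⁻¹ := by
        simp only [el, l, r, u_inv, Bool.false_eq_true, if_false, if_true, mul_assoc]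
        rw [← mul_assoc (u (-t ^ (2 * i + 1))), u_add, neg_add_cancel, u_zero, one_mul]
      rw [e]
      exact Subgroup.Normal.conj_mem inferInstance _ wv_sq _
    · rfl
  have h3 := mt FreeGroup.toWord_eq_nil_iff.1 hw
  generalize w.toWord = L at hN h1 h2 h3
  obtain _ | ⟨x, L⟩ := L
  · exact h3 rfl
  obtain ⟨v, h0, -, h4, h5⟩ := main (F := F) x L h1
  apply h0
  apply Polynomial.eq_zero_of_natDegree_lt_card_of_eval_eq_zero (v 1) Function.injective_id
  · intro t
    have := congrFun (h5 t) 1
    obtain ⟨c, -, hc⟩ := Matrix.SpecialLinearGroup.mem_center_iff.1 (h2 t)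
    rw [cm, ← hc] at this
    simpa [u, mulVec, dotProduct, Fin.sum_univ_two, Matrix.mul_apply] using this.symm
  · omega

end Cfsg.Agent.S2353
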