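import Cfsg.Statements.S0064
import Cfsg.Agent.H5.Fstar

set_option autoImplicit false
open Cfsg

namespace Cfsg.Agent.S0064

/-- A finite group is nilpotent exactly when each of its subgroups is subnormal. -/
theorem result {G : Type*} [Group G] [Finite G] :
    Group.IsNilpotent G ↔ ∀ H : Subgroup G, H.IsSubnormal := by
  constructor
  · intro h H
    exact H5.sn_top_iff.1 (H5.sn_of_isNilpotent (Group.isNilpotent_top.2 h) le_top)
  · intro h
    refine H1.isNilpotent_of_coatom_normal fun H hH => ?_
    obtain ⟨K, hK, h1, h2⟩ := (h H).exists_normal_and_le_and_lt_top_of_ne hH.1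
    have : H = K := by
      by_contra hne
      exact h2.ne (hH.2 K (lt_of_le_of_ne h1 hne))
    exact this ▸ hK

end Cfsg.Agent.S0064
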