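import Cfsg.Statements.S0094
import Cfsg.Agent.H3.Critical

set_option autoImplicit false
open Cfsg

namespace Cfsg.Agent.S0094

/-- In a special p-group every central element has order dividing p. -/
theorem result {P : Type*} [Group P] [Finite P] {p : ℕ} [Fact p.Prime] (h : Cfsg.IsSpecial p P) (z : P) (hz : z ∈ Subgroup.center P) : z ^ p = 1 := by
  obtain ⟨hP, h1, h2⟩ := h
  have hz' := hz
  rw [← h2, commutator_eq_closure] at hz'
  induction hz' using Subgroup.closure_induction with
  | mem x hx =>
    obtain ⟨a, b, rfl⟩ := hx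
    rw [← H9.commutator_pow_left (H9.commute_of_mem_center hz a),
      commutatorElement_eq_one_iff_mul_comm]
    exact (Subgroup.mem_center_iff.mp (h1 ▸ H3.pow_mem_frattini hP a) b).symm
  | one => simp
  | mul x y hx hy ihx ihy =>
    rw [← commutator_eq_closure, h2] at hx hy
    rw [(H9.commute_of_mem_center hy x).mul_pow, ihx hx, ihy hy, one_mul]
  | inv x hx ih =>
    rw [inv_pow, ih ((Subgroup.inv_mem_iff _).mp hz), inv_one]

end Cfsg.Agent.S0094
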