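import Cfsg.Statements.S0112
import Cfsg.Agent.H6.MaxCl

set_option autoImplicit false
open Cfsg

namespace Cfsg.Agent.S0112

/-- A p-group with a self-centralizing subgroup of order p^2 is of maximal class. -/
theorem result {X : Type*} [Group X] [Finite X] {p : ℕ} [Fact p.Prime] (n : ℕ) (hX : Nat.card X = p ^ n) (A : Subgroup X) (hA : Nat.card A = p ^ 2) (hC : Subgroup.centralizer (A : Set X) = A) : Group.nilpotencyClass X = n - 1 := by
  have hp : p.Prime := Fact.out
  have hP := IsPGroup.of_card hX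
  haveI := hP.isNilpotent
  obtain ⟨m, rfl⟩ : ∃ m, n = m + 2 := ⟨n - 2, by
    have := Nat.le_of_dvd Nat.card_pos (Subgroup.card_subgroup_dvd_card A)
    rw [hA, hX, Nat.pow_le_pow_iff_right hp.one_lt] at this
    omega⟩
  haveI : Nontrivial X := Finite.one_lt_card_iff_nontrivial.1 (hX ▸ Nat.one_lt_pow (by omega) hp.one_lt)
  have hZ : Subgroup.center X ≤ A := hC ▸ Subgroup.center_le_centralizer _
  by_cases h : A ≤ Subgroup.center X
  · refine H6.class_of_card_cent m X 1 hX ?_
    rw [← hA, ← hC, Subgroup.centralizer_eq_top_iff_subset.2 h]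
    exact Subgroup.card_le_of_le le_top
  obtain ⟨a, ha, ha'⟩ := SetLike.not_le_iff_exists.1 h
  refine H6.class_of_card_cent m X a hX ?_
  have h1 : Subgroup.center X ⊔ Subgroup.zpowers a = A := by
    refine Subgroup.eq_of_le_of_card_ge (sup_le hZ (Subgroup.zpowers_le.2 ha)) ?_
    rw [hA]
    refine H9.pow_lt_of_not_le (hP.to_subgroup _) (not_le.2 (lt_of_le_of_lt ?_ (H3.card_lt_of_lt
      (left_lt_sup.2 fun h => ha' (h (Subgroup.mem_zpowers a))))))
    exact H9.pow_lt_of_not_le (k := 0) (hP.to_subgroup _) (by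
      rw [pow_zero, not_le, Subgroup.one_lt_card_iff_ne_bot]; exact Group.IsNilpotent.center_ne_bot X)
  rw [← hA, ← hC, ← h1, H9.centralizer_sup_zpowers]
  exact Subgroup.card_le_of_le (le_inf (fun x _ z hz => (Subgroup.mem_center_iff.1 hz x).symm) le_rfl)

end Cfsg.Agent.S0112
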