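import Cfsg.Statements.S0282
import Cfsg.Agent.S0827

set_option autoImplicit false
open Cfsg

namespace Cfsg.Agent.S0282

/-- PSU_3(2) is a solvable group of order 72. -/
theorem result {F : Type*} [Field F] [Fintype F] (hF : Fintype.card F = 4) : Nat.card (Cfsg.PSU 3 F 2) = 72 ∧ Group.IsSolvable (Cfsg.PSU 3 F 2) := by
  obtain ⟨N, _, h1, -, ⟨j⟩⟩ := S0827.result hF
  have h2 : Nat.card (PSU 3 F 2 ⧸ N) = 8 := by
    rw [Nat.card_congr j.toEquiv, Nat.card_eq_fintype_card, QuaternionGroup.card]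
  haveI : Fact (Nat.Prime 3) := ⟨Nat.prime_three⟩
  have := (IsPGroup.of_card (p := 3) (n := 2) h1).isNilpotent
  have := (IsPGroup.of_card (p := 2) (n := 3) h2).isNilpotent
  exact ⟨by rw [N.card_eq_card_quotient_mul_card_subgroup, h1, h2],
    (Group.isSolvable_iff_subgroup_quotient N).mpr ⟨inferInstance, inferInstance⟩⟩

end Cfsg.Agent.S0282
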