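import Cfsg.Statements.S0340
import Cfsg.Agent.H26.ZS16

set_option autoImplicit false
open Cfsg

namespace Cfsg.Agent.S0340


/-- Classification of Zassenhaus groups, simple case, order-level form: a finite simple Zassenhaus group is
isomorphic to `PSL₂(F)` for some finite field `F` or is simple of Suzuki order. -/
theorem result {G Ω : Type*} [Group G] [Finite G] [MulAction G Ω]
    [Finite Ω] (hZ : Cfsg.IsZassenhausGroup G Ω) [IsSimpleGroup G] :
    (∃ (F : Type) (_ : Field F) (_ : Fintype F), Nonempty (G ≃* Matrix.ProjectiveSpecialLinearGroup (Fin 2) F)) ∨ Cfsg.IsSuzuki G := by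
  have hZ : H26.Zas G Ω := hZ
  obtain ⟨a, b, hab⟩ := hZ.exists_pair
  obtain ⟨H, hK⟩ := hZ.z3.exists_ker hab
  by_cases hc : IsMulCommutative H
  · obtain ⟨K, _, _, -, h2⟩ := hZ.psl_of_comm hK hc
    exact Or.inl ⟨K, inferInstance, inferInstance, h2⟩
  · obtain ⟨m, hm, h1, h2, -⟩ := hZ.suzuki hK hab hc
    refine Or.inr ⟨‹_›, m, hm, ?_⟩
    rw [hZ.z3.card_G hK hab, h2, ← h1, Nat.add_sub_cancel]
    ring

end Cfsg.Agent.S0340
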