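import Cfsg.Statements.S0446
-- import your own Cfsg.Agent.* helpers here

set_option autoImplicit false
open Cfsg

namespace Cfsg.Agent.S0446

/-- Every finite group of even order contains a 2-central involution, i.e. an element of order 2 in the centre of some Sylow 2-subgroup. -/
theorem result {G : Type*} [Group G] [Finite G] (h : Even (Nat.card G)) : ∃ t : G, Cfsg.IsTwoCentralInvolution t := by
  obtain ⟨P⟩ : Nonempty (Sylow 2 G) := inferInstance
  have h1 : Nontrivial P := by
    rw [← Finite.one_lt_card_iff_nontrivial]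
    have := P.card_eq_multiplicity
    have h2 : 0 < (Nat.card G).factorization 2 :=
      Nat.prime_two.factorization_pos_of_dvd Nat.card_pos.ne' (even_iff_two_dvd.1 h)
    rw [this]
    exact Nat.one_lt_two_pow h2.ne'
  have h2 := P.2.center_nontrivial
  have h3 : IsPGroup 2 (Subgroup.center P) := P.2.to_subgroup _
  obtain ⟨k, hk0, hk⟩ := h3.nontrivial_iff_card.1 h2
  obtain ⟨x, hx⟩ := exists_prime_orderOf_dvd_card' (G := Subgroup.center P) 2
    (by rw [hk]; exact dvd_pow_self 2 hk0.ne')
  refine ⟨((x : P) : G), ?_, P, x.1.2, fun y hy => ?_⟩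
  · rw [Subgroup.orderOf_coe, Subgroup.orderOf_coe, hx]
  · have := Subgroup.mem_center_iff.1 x.2 ⟨y, hy⟩
    exact congrArg Subtype.val this

end Cfsg.Agent.S0446
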