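import Cfsg.Statements.S0447
import Cfsg.Agent.H7.AltCov2

set_option autoImplicit false
open Cfsg

namespace Cfsg.Agent.S0447

open Equiv in
theorem sq_ne {n : ℕ} {H : Type} [Group H] [Finite H]
    (h : Cfsg.IsNonsplitDoubleCover H (alternatingGroup (Fin n))) {π : H →* Perm (Fin n)} (c : H7.AC π)
    (hc : ∀ z, π z = 1 ↔ z ∈ Subgroup.center H) {a b i j : Fin n} (hab : a ≠ b) (hi : i ≠ a)
    (hi' : i ≠ b) (hj : j ≠ a) (hj' : j ≠ b) (hij : i ≠ j) {x : H} (hx : π x = swap a j * swap b i) :
    x ^ 2 ≠ 1 := fun e => by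
  have h2 : ∀ z, π z = 1 → z ^ 2 = 1 := fun z hz => by
    have := pow_card_eq_one' (G := Subgroup.center H) (x := ⟨z, (hc z).1 hz⟩)
    rw [h.1] at this
    exact congrArg Subtype.val this
  obtain ⟨Y, hY⟩ := c.el_cop (by decide) h2
  obtain ⟨z, -, -, hz, D, d1, d2⟩ := c.main hY hab hi hi' hj hj' hij
  obtain ⟨w, hw, e1⟩ := c.exists_z (a := Y (H7.c3 a b i) * Y (H7.c3 a b j)) (b := x) (by
    rw [map_mul, hY.map _ (H7.c3_three hab hi hi'), hY.map _ (H7.c3_three hab hj hj'), hx,
      H7.c3_mul hab hi hi' hj hj' hij])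
  rw [e1, (c.cen w hw x).mul_pow, h2 w hw, e, one_mul] at hz
  refine h.2.2 D (Subgroup.isComplement'_of_disjoint_and_mul_eq_univ ?_ ?_)
  · rw [Subgroup.disjoint_def]
    intro w h1 h2
    simpa [← hz] using d1 w h2 ((hc w).2 h1)
  · refine Set.eq_univ_of_forall fun g => ?_
    obtain ⟨d, hd, e⟩ := d2 g
    exact ⟨g * d⁻¹, (hc _).1 (by simp [e]), d, hd, by simp⟩

/-- Involutions in double covers of alternating groups: for n ≤ 7, a finite non-split double cover of the alternating group of degree n has exactly one element of order 2 (the central one); for degree 8 there is a non-split double cover with two distinct involutions. -/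
theorem result : (∀ (n : ℕ) (H : Type) (_ : Group H) (_ : Finite H), n ≤ 7 → Cfsg.IsNonsplitDoubleCover H (alternatingGroup (Fin n)) → ∀ x y : H, orderOf x = 2 → orderOf y = 2 → x = y) ∧ ∃ (H : Type) (_ : Group H) (_ : Finite H), Cfsg.IsNonsplitDoubleCover H (alternatingGroup (Fin 8)) ∧ ∃ x y : H, x ≠ y ∧ orderOf x = 2 ∧ orderOf y = 2 := by
  open Equiv commutatorElement in
  refine ⟨fun n H _ _ hn h => ?_, ?_⟩
  · obtain ⟨e⟩ := h.2.1
    obtain ⟨c, hc⟩ := H7.AC.of_equiv le_rfl e
    generalize (((alternatingGroup (Fin n)).subtype.comp e.toMonoidHom).comp (QuotientGroup.mk' _)) = π at c hc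
    have key : ∀ x : H, orderOf x = 2 → x ∈ Subgroup.center H := fun x hx => by
      by_contra h0
      have h1 : x ^ 2 = 1 := hx ▸ pow_orderOf_eq_one x
      haveI := Fact.mk Nat.prime_two
      have h2 : orderOf (π x) = 2 := orderOf_eq_prime (by rw [← map_pow, h1, map_one]) (mt (hc x).1 h0)
      obtain ⟨k, hk⟩ := Perm.cycleType_prime_order (h2 ▸ Nat.prime_two)
      have h3 := (π x).sum_cycleType_le
      have h4 := Perm.sign_of_cycleType (π x)
      rw [c.even, hk, h2] at h4
      rw [hk, h2] at h3 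
      simp only [Multiset.sum_replicate, smul_eq_mul, Fintype.card_fin, Multiset.card_replicate] at h3 h4
      obtain rfl : k = 1 := by
        have : k < 3 := by omega
        interval_cases k
        · exact absurd h4 (by decide)
        · rfl
        · exact absurd h4 (by decide)
      obtain ⟨a, b, i, j, a1, a2, a3, a4, a5, a6⟩ := H7.exists_four (X := Fin n) (by simpa using h3)
      obtain ⟨g, hg⟩ := isConj_iff.1 (Perm.isConj_iff_cycleType_eq.2 ((Perm.cycleType_swap_mul_swap_of_nodup
        (x := a) (y := j) (z := b) (t := i) (by simp [a1, a2.symm, a3.symm, a4.symm, a5, a6.symm])).trans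
        (show {2, 2} = (π x).cycleType by rw [hk, h2]; rfl)))
      refine sq_ne h c hc (g.injective.ne a1) (g.injective.ne a2) (g.injective.ne a3) (g.injective.ne a4)
        (g.injective.ne a5) (g.injective.ne a6) ?_ h1
      rw [← hg, ← conj_mul, ← swap_apply_apply, ← swap_apply_apply]
    intro x y hx hy
    obtain ⟨u, -, hu⟩ := (Nat.card_eq_two_iff' (1 : Subgroup.center H)).1 h.1
    have k : ∀ x : H, ∀ hx : orderOf x = 2, x = u := fun x hx =>
      congrArg Subtype.val (hu ⟨x, key x hx⟩ fun e => by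
        rw [show x = 1 from congrArg Subtype.val e, orderOf_one] at hx; omega)
    rw [k x hx, k y hy]
  · obtain ⟨H, _, _, z, hz, ho, hd, _, ⟨e⟩⟩ := H7.exists_alt_cover (n := 8) (by decide)
    obtain ⟨c, hc⟩ := H7.AC.of_equiv (Subgroup.zpowers_le.2 hz) e
    have h1 : Subgroup.zpowers z = Subgroup.center H := le_antisymm (Subgroup.zpowers_le.2 hz) fun g hg => by
      have : e g ∈ Subgroup.center (alternatingGroup (Fin 8)) := Subgroup.mem_center_iff.2 fun k => by
        obtain ⟨k, rfl⟩ := e.surjective k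
        obtain ⟨k, rfl⟩ := QuotientGroup.mk_surjective k
        rw [← map_mul, ← map_mul, ← QuotientGroup.mk_mul, Subgroup.mem_center_iff.1 hg k]; rfl
      rw [alternatingGroup.center_eq_bot (by simp), Subgroup.mem_bot] at this
      simpa using this
    have h : Cfsg.IsNonsplitDoubleCover H (alternatingGroup (Fin 8)) := by
      refine ⟨by rw [← h1, Nat.card_zpowers, ho],
        ⟨(QuotientGroup.quotientMulEquivOfEq h1.symm).trans e⟩, fun K hK => ?_⟩
      have h2 : commutator H ≤ K := Subgroup.commutator_le.2 fun x _ y _ => by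
        obtain ⟨⟨a, b⟩, rfl⟩ := hK.2 x
        obtain ⟨⟨c, d⟩, rfl⟩ := hK.2 y
        have := H8.comm_mul_center (g := (b : H)) (h := d) a.2 c.2
        simp only
        rw [← Subgroup.mem_center_iff.1 a.2, ← Subgroup.mem_center_iff.1 c.2, this]
        exact mul_mem (mul_mem (mul_mem b.2 d.2) (inv_mem b.2)) (inv_mem d.2)
      rw [Subgroup.disjoint_def.1 hK.disjoint hz (h2 hd), orderOf_one] at ho
      omega
    refine ⟨H, inferInstance, inferInstance, h, ?_⟩
    generalize (((alternatingGroup (Fin 8)).subtype.comp e.toMonoidHom).comp (QuotientGroup.mk' _)) = π at c hc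
    rw [h1] at hc
    obtain ⟨a, ha⟩ := c.surj (H7.c3 0 1 2) (by decide)
    obtain ⟨b, hb⟩ := c.surj (swap 0 1 * swap 2 3) (by decide)
    obtain ⟨y, hy⟩ := c.surj (swap 4 5 * swap 6 7) (by decide)
    have hx : π ⁅a, b⁆ = swap 0 3 * swap 1 2 := by rw [map_commutatorElement, ha, hb]; decide
    have h3 : Commute y ⁅a, b⁆ := c.commute_comm (by rw [hy, ha, commute_iff_eq]; decide) (by rw [hy, hb, commute_iff_eq]; decide)
    generalize ⁅a, b⁆ = x at hx h3
    obtain ⟨u, -, hu⟩ := (Nat.card_eq_two_iff' (1 : Subgroup.center H)).1 h.1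
    have k : ∀ x : H, π (x ^ 2) = 1 → x ^ 2 ≠ 1 → x ^ 2 = u := fun x h1 h2 =>
      congrArg Subtype.val (hu ⟨_, (hc _).1 h1⟩ fun e => h2 (congrArg Subtype.val e))
    have k1 := k x (by rw [map_pow, hx]; decide) (sq_ne h c hc (a := 0) (j := 3) (b := 1) (i := 2)
      (by decide) (by decide) (by decide) (by decide) (by decide) (by decide) hx)
    have k2 := k y (by rw [map_pow, hy]; decide) (sq_ne h c hc (a := 4) (j := 5) (b := 6) (i := 7)
      (by decide) (by decide) (by decide) (by decide) (by decide) (by decide) hy)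
    have k3 : π (y * x) ≠ 1 := by rw [map_mul, hx, hy]; decide
    haveI := Fact.mk Nat.prime_two
    refine ⟨z, y * x, fun e => k3 ((hc _).2 (e ▸ hz)), ho, orderOf_eq_prime ?_ fun e => k3 (by simp [e])⟩
    rw [h3.mul_pow, k1, k2, ← sq, ← h.1]
    exact congrArg Subtype.val (pow_card_eq_one' (x := u))

end Cfsg.Agent.S0447
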