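import Cfsg.Statements.S0454
import Cfsg.Agent.H28.LyZ2
import Cfsg.Agent.H28.LyQ
import Cfsg.Agent.H29.Quot

set_option autoImplicit false
open Cfsg

namespace Cfsg.Agent.S0454

/-- Existence of the Lyons group: there is a transitive permutation group of degree 8835156, simple of order 51765179004000000, whose point stabiliser is simple of the order of a group of type G2, and which has an involution whose centraliser is a non-split double cover of the alternating group of degree 11. -/
theorem result : ∃ H : Subgroup (Equiv.Perm (Fin 8835156)), Cfsg.IsLy H ∧ MulAction.IsPretransitive H (Fin 8835156) ∧ Cfsg.IsG2 (MulAction.stabilizer H (0 : Fin 8835156)) ∧ ∃ t : H, orderOf t = 2 ∧ Cfsg.IsNonsplitDoubleCover (Subgroup.centralizer ({t} : Set H)) (alternatingGroup (Fin 11)) := by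
  have := H28.ly_simple
  have := H28.lyH_simple
  obtain ⟨K, e, h3, ⟨g⟩⟩ := H29.exists_perm_rep H28.lyH H28.lyH_index (by norm_num)
  obtain ⟨o, h1, ⟨f⟩, h2⟩ := H28.ly_2A11 H28.lyct_le
  generalize H28.ev H28.lyX [0, 0, 0, 0] = t at o h1 f h2
  let c : Subgroup.centralizer ({t} : Set _) ≃* Subgroup.centralizer ({e t} : Set K) :=
    (e.subgroupMap _).trans (MulEquiv.subgroupCongr (by
      ext x
      obtain ⟨x, rfl⟩ := e.surjective x
      simp [Subgroup.mem_centralizer_singleton_iff, ← map_mul]))
  have hc : (Subgroup.center _).map c.toMonoidHom = Subgroup.center _ := by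
    ext x
    obtain ⟨x, rfl⟩ := c.surjective x
    rw [Subgroup.mem_map_equiv, c.symm_apply_apply, Subgroup.mem_center_iff, Subgroup.mem_center_iff, c.surjective.forall]
    simp only [← map_mul, c.apply_eq_iff_eq]
  refine ⟨K, ⟨e.symm.isSimpleGroup, (Nat.card_congr e.toEquiv).symm.trans H28.ly_card⟩, h3,
    ⟨g.symm.isSimpleGroup, 5, (Nat.prime_five.prime).isPrimePow, by norm_num,
      (Nat.card_congr g.toEquiv).symm.trans (H28.lyH_card.trans (by norm_num))⟩, e t, (e.orderOf_eq t).trans o,
    by rw [← hc, Subgroup.card_map_of_injective c.injective, h1],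
    ⟨(QuotientGroup.congr _ _ c hc).symm.trans f⟩, fun L hL => h2 (L.comap c.toMonoidHom) ?_⟩
  refine Subgroup.isComplement'_of_disjoint_and_mul_eq_univ ?_ ?_
  · rw [Subgroup.disjoint_def]
    intro x a b
    exact c.injective ((Subgroup.disjoint_def.1 hL.disjoint (hc ▸ Subgroup.mem_map_of_mem _ a) b).trans (map_one c).symm)
  · rw [← Subgroup.normal_mul, ← Subgroup.comap_map_eq_self_of_injective (f := c.toMonoidHom) c.injective
      (Subgroup.center _), hc, Subgroup.comap_sup_eq _ _ _ c.surjective, hL.sup_eq_top, Subgroup.comap_top,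
      Subgroup.coe_top]

end Cfsg.Agent.S0454
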