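import Cfsg.Statements.S0472
import Cfsg.Agent.H28.Fi23b
set_option maxRecDepth 100000
-- import your own Cfsg.Agent.* helpers here

set_option autoImplicit false
open Cfsg

namespace Cfsg.Agent.S0472
open H27 H28


/-- The Fischer group of order 4089470473293004800 exists as a 3-transposition group: a simple group of that order generated by a conjugacy class of 31671 3-transpositions, the centraliser of each being a non-split double cover of a simple group of order 64561751654400. -/
theorem result : ∃ (G : Type) (_ : Group G) (_ : Finite G), Cfsg.IsFi23 G ∧ ∃ D : Set G, Cfsg.IsThreeTranspositionClass D ∧ Nat.card D = 31671 ∧ ∀ d ∈ D, ∃ (K : Type) (_ : Group K), Cfsg.IsFi22 K ∧ Cfsg.IsNonsplitDoubleCover (Subgroup.centralizer ({d} : Set G)) K := by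
  obtain ⟨d, h1, h2, h3⟩ := fi23_tt
  have := fi23_simple
  refine ⟨Cfsg.Spor.Fi23, inferInstance, inferInstance, ⟨fi23_simple, fi23_card⟩, _, tt_class_of_simple h1, h3,
    fun x hx => ⟨Cfsg.Spor.Fi22, inferInstance, ⟨fi22_simple, fi22_card⟩, ?_⟩⟩
  obtain ⟨e⟩ := centralizer_equiv_of_conj hx
  exact nonsplit_congr (e.trans (MulEquiv.subgroupCongr (h2.trans fi23_stab))) fi23_cover

end Cfsg.Agent.S0472
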