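import Cfsg.Statements.S0473
import Cfsg.Agent.H9.He24
import Cfsg.Agent.H28.Np3
import Cfsg.Agent.S1695
-- import your own Cfsg.Agent.* helpers here

set_option autoImplicit false
open Cfsg

namespace Cfsg.Agent.S0473

open H28 in
theorem res_split {G M : Type*} [Group G] [Group M] {D : Set G} {E : Set M} {d : G} {π : G → M} (r : Res D d E π)
    (σ : G →* ℤˣ) (hd : σ d = -1) : Nonempty (↥(σ.ker ⊓ Subgroup.centralizer {d}) ≃* M) := by
  have c : ∀ x ∈ σ.ker ⊓ Subgroup.centralizer {d}, Commute d x := fun x hx => mem_cent1.1 hx.2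
  refine ⟨MulEquiv.ofBijective (r.hom _ c) ⟨(injective_iff_map_eq_one _).2 fun x hx =>
    ((r.ker x (c _ x.2)).1 hx).elim (fun e => Subtype.ext e) fun e => absurd (hd.symm.trans (e ▸ x.2.1)) (by decide), fun m => ?_⟩⟩
  obtain ⟨x, a, b⟩ := r.sur m
  rcases Int.units_eq_one_or (σ x) with k | k
  · exact ⟨⟨x, k, mem_cent1.2 a⟩, b⟩
  · refine ⟨⟨d * x, ?_, mem_cent1.2 ((Commute.refl d).mul_right a)⟩, ?_⟩
    · change σ _ = 1; rw [map_mul, k, hd]; rfl
    · change π _ = m; rw [r.mul _ _ (Commute.refl d) a, r.self, one_mul, b]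
open H28 in
theorem fi23_sub {d : F24} (hd : d ∈ E24) : IsFi23 ↥(sgn24.ker ⊓ Subgroup.centralizer {d}) := by
  obtain ⟨π, r⟩ := m24.lv.res d hd
  obtain ⟨e⟩ := res_split r sgn24 (sgn24_eq d hd)
  have := fi23_simple
  exact ⟨e.isSimpleGroup, (Nat.card_congr e.toEquiv).trans fi23_card⟩

/-- The largest Fischer 3-transposition group: a group of order 2 · 1255205709190661721292800 generated by a conjugacy class of 306936 3-transpositions, in which a transposition centraliser has order 2 · 4089470473293004800 and contains a simple subgroup of order 4089470473293004800; its subgroup of index 2 is simple and contains simple subgroups of orders 4089470473293004800 and 4030387200. -/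
theorem result : ∃ (G : Type) (_ : Group G) (_ : Finite G), Nat.card G = 2 * 1255205709190661721292800 ∧ ∃ D : Set G, Cfsg.IsThreeTranspositionClass D ∧ Nat.card D = 306936 ∧ (∀ d ∈ D, Nat.card (Subgroup.centralizer ({d} : Set G)) = 2 * 4089470473293004800 ∧ ∃ K : Subgroup G, K ≤ Subgroup.centralizer ({d} : Set G) ∧ Cfsg.IsFi23 K) ∧ ∃ H : Subgroup G, H.index = 2 ∧ Cfsg.IsFi24' H ∧ (∃ K : Subgroup H, Cfsg.IsFi23 K) ∧ (∃ K : Subgroup H, Cfsg.IsHe K) := by
  obtain ⟨d, hd⟩ := H28.m24.ne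
  refine ⟨H28.F24, inferInstance, inferInstance, H28.f24_card.trans (by norm_num), H28.E24, H28.e24_class, H28.m24.c0,
    fun d hd => ⟨?_, _, inf_le_right, fi23_sub hd⟩, H28.sgn24.ker, H28.ker24_index, ⟨H28.ker24_simple, H28.ker24_card⟩, ?_, ?_⟩
  · have := H28.m24.lv.card1 hd
    rw [H28.m24.card, H28.m24.c0, H28.cn_one] at this
    omega
  · have e := Subgroup.subgroupOfEquivOfLe (inf_le_left : H28.sgn24.ker ⊓ Subgroup.centralizer {d} ≤ _)
    have := (fi23_sub hd).1
    exact ⟨_, e.isSimpleGroup, (Nat.card_congr e.toEquiv).trans (fi23_sub hd).2⟩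
  · obtain ⟨-, ε, xs, h⟩ := H9.fr24 H28.m24.lv.tg H28.e24_prim H28.m24.type
    obtain ⟨H, ⟨e⟩⟩ := H9.he24 h
    obtain ⟨a, b⟩ := Cfsg.Agent.S1695.result
    have := e.isSimpleGroup
    have c := (Nat.card_congr e.toEquiv).trans b
    have p : ⁅H, H⁆ = H := Subgroup.isPerfect_iff.1 (H28.qs_of_simple (G := H) (by rw [c]; norm_num)).1.1
    have e' := Subgroup.subgroupOfEquivOfLe (H := H) (K := H28.sgn24.ker)
      (H28.f24_commutator ▸ p.ge.trans (Subgroup.commutator_mono le_top le_top))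
    exact ⟨_, e'.isSimpleGroup, (Nat.card_congr e'.toEquiv).trans c⟩

end Cfsg.Agent.S0473
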