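import Cfsg.Statements.S0518
import Cfsg.Agent.H10.JC6

set_option autoImplicit false
open Cfsg H10

namespace Cfsg.Agent.S0518

/-- Let G be a finite group of characteristic 2 type with trivial 2-core in which every 2-local subgroup is solvable
and, for every Sylow 2-subgroup S, the centralizer of the set of central involutions of S lies in the normalizer of S.
Then either G has a strongly embedded subgroup, or the subgroup generated by the elements of odd order has two distinct
maximal 2-local subgroups, each isomorphic to the symmetric group of degree 4, whose intersection has order 8. -/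
theorem result {G : Type*} [Group G] [Finite G]
    (hL : Cfsg.IsCharacteristicTwoType G) (hO : Cfsg.pCore 2 G = ⊥)
    (hN : ∀ N : Subgroup G, Cfsg.IsTwoLocal N → Group.IsSolvable N)
    (hZ : ∀ S : Sylow 2 G,
      Subgroup.centralizer {z : G | z ∈ (S : Subgroup G) ∧ z ^ 2 = 1 ∧ ∀ s ∈ (S : Subgroup G), s * z = z * s} ≤
        Subgroup.normalizer ((S : Subgroup G) : Set G))
    (H : Subgroup G) (hH : H = Subgroup.closure {g : G | Odd (orderOf g)}) :
    (∃ K : Subgroup G, Cfsg.IsStronglyEmbedded K) ∨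
      ∃ M₁ M₂ : Subgroup H, M₁ ≠ M₂ ∧ Cfsg.IsMaximalTwoLocal M₁ ∧ Cfsg.IsMaximalTwoLocal M₂ ∧
        Nonempty (M₁ ≃* Equiv.Perm (Fin 4)) ∧ Nonempty (M₂ ≃* Equiv.Perm (Fin 4)) ∧ Nat.card ↥(M₁ ⊓ M₂) = 8 := by
  have h : ZN G := ⟨hL, hN, fun S => le_trans (Subgroup.centralizer_le fun z hz =>
    mem_ZO.2 ⟨hz.1, mem_CC.2 hz.2.2, hz.2.1⟩) (hZ S)⟩
  have e : H = resOf 2 (⊤ : Subgroup G) := by
    rw [hH, ← closure_odd_eq]
    simp
  have : H.Normal := e ▸ normal_of_top_le_NN (le_NN_resOf _)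
  refine (h.se_or_pp hO).imp id fun ⟨T, K₁, L₁, K₂, L₂, pp⟩ => ?_
  have am := pp.am'
  have n1 := pp.nc'
  have n2 := pp.symm.nc'
  have a1 := pp.inf_res'
  have a2 := pp.symm.inf_res'
  rw [← e] at a1 a2
  have eq : ∀ L : Subgroup G, Nonempty (↥(L ⊓ H) ≃* Equiv.Perm (Fin 4)) →
      Nonempty (↥(L.subgroupOf H) ≃* Equiv.Perm (Fin 4)) := fun L ⟨x⟩ => by
    rw [← Subgroup.inf_subgroupOf_right]
    exact ⟨(Subgroup.subgroupOfEquivOfLe inf_le_right).trans x⟩
  refine ⟨L₁.subgroupOf H, L₂.subgroupOf H, fun k => ?_, am.max_inf n1 n2 e.ge a1 pp.u1.max,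
    am.symm.max_inf n2 n1 e.ge a2 pp.u2.max, eq _ (am.s4_inf n1 n2 e.ge a1),
    eq _ (am.symm.s4_inf n2 n1 e.ge a2), ?_⟩
  · have := congrArg (Subgroup.map H.subtype) k
    rw [Subgroup.subgroupOf_map_subtype, Subgroup.subgroupOf_map_subtype] at this
    exact am.W_not_le n1 n2 (by
      rw [← am.O_inf n1 n2 e.ge a1, this, am.symm.O_inf n2 n1 e.ge a2]; exact WW_le _)
  · rw [← card_map_subtype, Subgroup.map_inf _ _ _ H.subtype_injective,
      Subgroup.subgroupOf_map_subtype, Subgroup.subgroupOf_map_subtype, ← inf_inf_distrib_right,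
      am.inf_eq, am.card_inf n1 n2 e.ge a1]

end Cfsg.Agent.S0518
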