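import Cfsg.Statements.S0658
import Cfsg.Agent.H4.PConstr

set_option autoImplicit false
open Cfsg

namespace Cfsg.Agent.S0658

/-- In a group of characteristic p type all of whose p-locals are p-stable (p odd), the normalizer of Z(J(P)) contains the normalizer of every nontrivial subgroup of the Sylow p-subgroup P. -/
theorem result {G : Type*} [Group G] [Finite G] {p : ℕ} [Fact p.Prime] (hp : p ≠ 2) (hloc : ∀ Q : Subgroup G, IsPGroup p Q → Q ≠ ⊥ → Cfsg.pPrimeCore p ↥(Subgroup.normalizer (Q : Set G)) = ⊥ ∧ Cfsg.IsPConstrained p ↥(Subgroup.normalizer (Q : Set G)) ∧ Cfsg.IsPStable p ↥(Subgroup.normalizer (Q : Set G))) (P : Sylow p G) (Q : Subgroup G) (hQP : Q ≤ (P : Subgroup G)) (hQ1 : Q ≠ ⊥) : Subgroup.normalizer (Q : Set G) ≤ Subgroup.normalizer (Cfsg.centerThompsonAOf ((P : Subgroup G)) : Set G) := by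
  rw [H4.centerThompsonAOf_eq]
  set M := Subgroup.normalizer (Cfsg.centerThompsonOf 0 (P : Subgroup G) : Set G) with hM
  have hPM : (P : Subgroup G) ≤ M :=
    (H15.le_norm_self _).trans (H4.normalizer_le_normalizer_centerThompsonOf _)
  have zj : ∀ Q R : Subgroup G, IsPGroup p Q → Q ≠ ⊥ → R ≤ Subgroup.normalizer (Q : Set G) →
      IsPGroup p R → ¬ p ∣ R.relIndex (Subgroup.normalizer (Q : Set G)) →
      Subgroup.normalizer (Q : Set G) ≤
        Subgroup.normalizer (Cfsg.centerThompsonOf 0 R : Set G) := by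
    intro Q R hQ hQ1 h1 h2 h3
    obtain ⟨h0, hc, hs⟩ := hloc Q hQ hQ1
    exact H4.le_normalizer_centerThompsonOf (fun S => H4.centerThompsonOf_normal hp (Or.inl rfl)
      ((H4.isPConstrained_iff_of_eq_bot h0).1 hc) (H4.IsPStable.isPStableOn hs) S) h1 h2 h3
  by_contra hcon
  obtain ⟨Q, ⟨hQ, hQ1, hR1, hQM⟩, hmax⟩ := Set.exists_max_image
    {Q : Subgroup G | IsPGroup p Q ∧ Q ≠ ⊥ ∧
      (P : Subgroup G) ⊓ Subgroup.normalizer (Q : Set G) ≠ ⊥ ∧ ¬ Subgroup.normalizer (Q : Set G) ≤ M}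
    (fun Q => Nat.card ((P : Subgroup G) ⊓ Subgroup.normalizer (Q : Set G) : Subgroup G))
    (Set.toFinite _) ⟨Q, P.2.to_le hQP, hQ1,
      fun h => hQ1 (eq_bot_iff.2 (h ▸ le_inf hQP (H15.le_norm_self Q))), hcon⟩
  set R := (P : Subgroup G) ⊓ Subgroup.normalizer (Q : Set G) with hR
  have hRp : IsPGroup p R := P.2.to_le inf_le_left
  have big : ∀ Q' R' : Subgroup G, IsPGroup p Q' → Q' ≠ ⊥ → R' ≤ P →
      R' ≤ Subgroup.normalizer (Q' : Set G) → Nat.card R < Nat.card R' →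
      Subgroup.normalizer (Q' : Set G) ≤ M := by
    intro Q' R' h1 h2 h3 h4 h5
    by_contra h6
    have h7 := H11.card_le_of_le (le_inf h3 h4)
    have := hmax Q' ⟨h1, h2, fun h => by
      rw [h, Subgroup.card_bot] at h7
      have := Nat.card_pos (α := R); omega, h6⟩
    omega
  by_cases hRP : R = P
  · exact hQM (zj Q P hQ hQ1 (hRP ▸ inf_le_right) P.2
      (H3.sylow_not_dvd_relIndex P (hRP ▸ inf_le_right)))
  have hlt := H3.lt_inf_normalizer_of_isPGroup P.2 (lt_of_le_of_ne inf_le_left hRP)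
  have hNR : Subgroup.normalizer (R : Set G) ≤ M :=
    big R _ hRp hR1 inf_le_left inf_le_right (H1.card_lt_of_lt hlt)
  obtain ⟨T, hRT, hTN, hT, hTi⟩ := H3.exists_sylowIn hRp (inf_le_right : R ≤ _)
  rcases hRT.lt_or_eq with hlt2 | rfl
  · have hlt3 := H3.lt_inf_normalizer_of_isPGroup hT hlt2
    obtain ⟨m, hm, hmP⟩ := H3.exists_conj_le_of_sylowIn P.2 (H3.sylow_not_dvd_relIndex P hPM)
      (hT.to_le (inf_le_left : T ⊓ Subgroup.normalizer (R : Set G) ≤ T)) (inf_le_right.trans hNR)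
    apply hQM
    have := big (Q.map (MulAut.conj m⁻¹).toMonoidHom)
      ((T ⊓ Subgroup.normalizer (R : Set G)).map (MulAut.conj m⁻¹).toMonoidHom) (hQ.map _)
      (fun h => hQ1 (H15.cj_eq_bot.1 h))
      (by rintro _ ⟨t, ht, rfl⟩; simpa using hmP t ht)
      (H15.cj_le_norm (inf_le_left.trans hTN)) (by rw [H15.card_cj]; exact H1.card_lt_of_lt hlt3)
    rw [← H15.cj_norm, H15.cj_le_iff, inv_inv, H15.cj_of_mem hm] at this
    exact this
  · exact hQM ((zj Q R hQ hQ1 hTN hT hTi).trans (big _ _ (hRp.to_le (H4.centerThompsonOf_le _))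
      (H4.centerThompsonOf_zero_ne_bot hRp hR1) inf_le_left
      (inf_le_right.trans (H4.normalizer_le_normalizer_centerThompsonOf _)) (H1.card_lt_of_lt hlt)))

end Cfsg.Agent.S0658
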