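import Cfsg.Statements.S3681
import Cfsg.Agent.H25.Bochert

set_option autoImplicit false
open Cfsg

namespace Cfsg.Agent.S3681

/-- Bochert's bound for primitive groups. Let a finite group G act faithfully and primitively on a finite set Ω with n elements, and suppose the image of G in the symmetric group of Ω does not contain the alternating group of Ω. Then |G| · ⌊(n + 1)/2⌋! ≤ n!, that is, the index of G in the symmetric group is at least ⌊(n + 1)/2⌋!. -/
theorem result {G Ω : Type*} [Group G] [Finite G] [MulAction G Ω] [FaithfulSMul G Ω] [Fintype Ω] [DecidableEq Ω]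
    (hprim : MulAction.IsPreprimitive G Ω) (hA : ¬ alternatingGroup Ω ≤ (MulAction.toPermHom G Ω).range) :
    Nat.card G * Nat.factorial ((Fintype.card Ω + 1) / 2) ≤ Nat.factorial (Fintype.card Ω) := by
  obtain ⟨s, h1, h2⟩ := H25.exists_small_base hprim hA
  have h3 := H25.card_le_descFactorial s h2
  rw [← Nat.factorial_mul_descFactorial (show s.card ≤ Fintype.card Ω by omega), mul_comm]
  exact Nat.mul_le_mul (Nat.factorial_le (by omega)) h3

end Cfsg.Agent.S3681
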