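import Cfsg.Statements.S0679
import Cfsg.Agent.H19.D11a
import Cfsg.Agent.S0675
import Cfsg.Agent.S0676
import Cfsg.Agent.S4706
import Cfsg.Agent.S1013
import Cfsg.Agent.S0498
import Cfsg.Agent.S3681

set_option autoImplicit false
open Cfsg

namespace Cfsg.Agent.S0679
open MulAction Subgroup H25 H19.D11 Equiv

instance : Fact (Nat.Prime 11) := ⟨by norm_num⟩

theorem arith : ∀ m ∈ Nat.divisors 1728, m ≤ 504 →
    ((2 * m) % 11 = 1 → m = 6 ∨ m = 72) ∧ (m % 11 = 1 → 9 ∣ m → m = 144) := by
  decide +kernel

theorem cases {α : Type*} [Fintype α] [DecidableEq α] (hα : Fintype.card α = 11)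
    (G : Subgroup (Equiv.Perm α)) [IsPretransitive G α] (hG : ¬ Group.IsSolvable G)
    (hA : ¬ alternatingGroup α ≤ G) :
    (Nat.card G = 660 ∧ IsSimpleGroup G) ∨ Nat.card G = 7920 ∨ Nat.card G = 15840 := by
  have hα' : Nat.card α = 11 := by rw [Nat.card_eq_fintype_card, hα]
  have h2 := (Cfsg.Agent.S0675.result (hα ▸ Fact.out) G).resolve_left hG
  have hprim := isPreprimitive_of_is_two_pretransitive h2
  have i2 : 2 ∣ G.index := by
    by_contra h; exact hA (alt_le_of_not_dvd_index G hprim Nat.prime_two (by omega) (by omega) h)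
  have i3 : 3 ∣ G.index := by
    by_contra h; exact hA (alt_le_of_not_dvd_index G hprim Nat.prime_three (by omega) (by omega) h)
  have i5 : 5 ∣ G.index := by
    by_contra h; exact hA (alt_le_of_not_dvd_index G hprim Nat.prime_five (by omega) (by omega) h)
  have i7 : 7 ∣ G.index := by
    by_contra h
    exact hA (alt_le_of_not_dvd_index G hprim (by norm_num) (by omega) (by omega) h)
  obtain ⟨i, hi⟩ : 210 ∣ G.index := by omega
  have e := G.index_mul_card
  rw [Nat.card_perm, hα', hi] at e
  obtain ⟨a, b, hab⟩ := Fintype.exists_pair_of_one_lt_card (α := α) (by omega)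
  have e4 := card_two hα G h2 hab
  have hB := Cfsg.Agent.S3681.result hprim (by
    intro h; apply hA; refine h.trans ?_
    rintro _ ⟨g, rfl⟩; exact g.2)
  rw [hα] at hB
  norm_num [Nat.factorial] at e hB
  generalize Nat.card (fixingSubgroup G ({a, b} : Set α)) = m at e4
  have e5 : m ∣ 1728 := ⟨i, by rw [e4] at e; nlinarith⟩
  have har := arith m (Nat.mem_divisors.2 ⟨e5, by norm_num⟩) (by omega)
  obtain ⟨P⟩ : Nonempty (Sylow 11 G) := inferInstance
  obtain ⟨d, n, hd, hn, hN, h'⟩ := sylow_count_prime_degree hα' P
  have hd1 : d ≠ 1 := fun h => normalizer_ne_of_prime_degree hα' hG P (by rw [hN, h])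
  have hP := card_sylow_of_prime_degree hα' P
  unfold Nat.ModEq at hn
  have hd' : d = 2 ∨ d = 5 ∨ d = 10 := by
    have := Nat.le_of_dvd (by norm_num) hd
    interval_cases d <;> omega
  rcases hd' with rfl | rfl | rfl
  · exfalso
    rcases Cfsg.Agent.S4706.result (by norm_num) hα G P (by omega) with h | ⟨k, -, -, -, hk, -⟩
    · refine hG (solvable_of_normal_prime_degree hα' (P : Subgroup G) (fun h => ?_) ?_)
      · rw [h, card_bot] at hP; omega
      · have := isCyclic_of_prime_card hP
        infer_instance
    · have : 2 ^ k = 10 := by omega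
      have h4 : k < 4 := (Nat.pow_lt_pow_iff_right (a := 2) (by norm_num)).1 (by omega)
      interval_cases k <;> omega
  · rcases har.1 (by omega) with rfl | rfl
    · refine Or.inl ⟨by omega, Cfsg.Agent.S1013.result hα G P ?_ ?_⟩
      · have := (normalizer ((P : Subgroup G) : Set G)).card_mul_index
        rw [P.card_eq_index_normalizer]
        rw [hN, e4] at this
        change 1 < (normalizer ((P : Subgroup G) : Set G)).index
        omega
      · have := ((P : Subgroup G).subgroupOf
          (normalizer ((P : Subgroup G) : Set G))).card_mul_index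
        rw [Nat.card_congr (subgroupOfEquivOfLe le_normalizer).toEquiv, hP, hN] at this
        have e : ((P : Subgroup G).subgroupOf
          (normalizer ((P : Subgroup G) : Set G))).index = 5 := by omega
        rw [e]; norm_num
    · exact Or.inr (Or.inl (by omega))
  · have h3 := Cfsg.Agent.S0676.result hα G hG P (by rw [hN]; decide)
    obtain ⟨x⟩ : Nonempty (Fin 3 ↪ α) :=
      Function.Embedding.nonempty_of_card_le (by rw [hα, Fintype.card_fin]; norm_num)
    have := card_of_multi h3 x
    rw [hα, show Nat.descFactorial 11 3 = 990 by decide] at this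
    have := har.2 (by omega) (by omega)
    exact Or.inr (Or.inr (by omega))

/-- A non-solvable transitive permutation group on 11 points that does not contain the alternating group is either sharply 4-transitive (of order 7920) or isomorphic to the projective special linear group of degree 2 over the field with 11 elements. -/
theorem result {α : Type*} [Fintype α] [DecidableEq α] (hα : Fintype.card α = 11) (G : Subgroup (Equiv.Perm α)) [MulAction.IsPretransitive G α] (hG : ¬ Group.IsSolvable G) (hA : ¬ alternatingGroup α ≤ G) : (MulAction.IsMultiplyPretransitive G α 4 ∧ ∀ x : Fin 4 ↪ α, MulAction.stabilizer G x = ⊥) ∨ Nonempty (G ≃* Matrix.ProjectiveSpecialLinearGroup (Fin 2) (ZMod 11)) := by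
  have hα' : Nat.card α = 11 := by rw [Nat.card_eq_fintype_card, hα]
  have h2 := (Cfsg.Agent.S0675.result (hα ▸ Fact.out) G).resolve_left hG
  let N : Subgroup G := (alternatingGroup α).subgroupOf G
  have hNi : N.index ∣ 2 := by
    have : Nontrivial α := Fintype.one_lt_card_iff_nontrivial.1 (by omega)
    have := relIndex_dvd_index_of_normal (alternatingGroup α) G
    rwa [alternatingGroup.index_eq_two] at this
  have hNc := N.card_mul_index
  have hi : N.index = 1 ∨ N.index = 2 := (Nat.dvd_prime Nat.prime_two).1 hNi
  have hle : N.index = 1 → G ≤ alternatingGroup α := fun h =>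
    subgroupOf_eq_top.1 (index_eq_one.1 h)
  rcases cases hα G hG hA with ⟨hc, hs⟩ | hc | hc
  · exact Or.inr (Cfsg.Agent.S0498.result 11 (Or.inl rfl) (by omega) (ZMod.card 11))
  · have := simple_7920 hα' hc
    have hl : G ≤ alternatingGroup α := by
      rcases this.eq_bot_or_eq_top_of_normal N inferInstance with h | h
      · rw [h, card_bot, ← h] at hNc; omega
      · exact subgroupOf_eq_top.1 h
    have hs := sharp hα G h2 hA hl hc
    exact Or.inl ⟨four hα G hc hs, hs⟩
  · exfalso
    rcases hi with hi | hi
    · obtain ⟨a, b, hab⟩ := Fintype.exists_pair_of_one_lt_card (α := α) (by omega)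
      have e4 := card_two hα G h2 hab
      set H := fixingSubgroup G ({a, b} : Set α) with hH
      have hmem : ∀ g : G, g ∈ H ↔ g • a = a ∧ g • b = b := by
        intro g; simp [hH, mem_fixingSubgroup_iff]
      obtain ⟨Q, hQ⟩ := Sylow.exists_subgroup_card_pow_prime (G := H) 2 (n := 4) (by omega)
      obtain ⟨c, hca, hcb, -, horb⟩ := two_grp hα G h2 hA (R := Q) (IsPGroup.of_card hQ)
        (fun r => r.1.1.2) (fun r => hle hi r.1.1.2) hab (fun r => ((hmem _).1 r.1.2).1)
        (fun r => ((hmem _).1 r.1.2).2)
      obtain ⟨d, hd⟩ : ({a, b, c}ᶜ : Set α).Nonempty :=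
        Set.nonempty_of_ncard_ne_zero (by rw [ncard_compl3 hα hab hca.symm hcb.symm]; omega)
      simp only [Set.mem_compl_iff, Set.mem_insert_iff, Set.mem_singleton_iff, not_or] at hd
      have h1 := horb d hd.1 hd.2.1 hd.2.2
      have h3 := Set.ncard_le_card (orbit Q d)
      omega
    · have h0 : N ≠ ⊥ := fun h => by rw [h, card_bot, ← h] at hNc; omega
      have := prim_of_prime_degree (G := G) hα'
      have ht := normal_transitive_of_primitive (α := α) N h0
      let e := N.equivMapOfInjective G.subtype G.subtype_injective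
      have : IsPretransitive (N.map G.subtype) α := ⟨fun x y => by
        obtain ⟨n, hn⟩ := exists_smul_eq N x y
        exact ⟨e n, hn⟩⟩
      have hns : ¬ Group.IsSolvable (N.map G.subtype) := fun hs =>
        hG (solvable_of_normal_prime_degree hα' N h0
          (Group.isSolvable_of_isSolvable_injective (f := e.toMonoidHom) e.injective))
      have h2' := (Cfsg.Agent.S0675.result (hα ▸ Fact.out) _).resolve_left hns
      have hc' : Nat.card (N.map G.subtype) = 7920 := by
        rw [card_map_of_injective G.subtype_injective]; rw [hi] at hNc; omega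
      have hs := sharp hα _ h2' (fun h => hA (h.trans (map_subtype_le N))) (by
        rintro _ ⟨x, hx, rfl⟩; exact hx) hc'
      have h4 := four hα _ hc' hs
      refine not_big hα G ⟨fun x y => ?_⟩ hA hc
      obtain ⟨g, hg⟩ := h4.exists_smul_eq x y
      exact ⟨⟨g.1, map_subtype_le N g.2⟩, hg⟩

end Cfsg.Agent.S0679
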