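import Cfsg.Statements.S0699
import Cfsg.Agent.H25.MultNorm
import Cfsg.Agent.H25.JSet

set_option autoImplicit false
open Cfsg

namespace Cfsg.Agent.S0699

open MulAction Subgroup
open scoped Pointwise

theorem wagner {G α : Type*} [Group G] [Finite G] [Finite α] [MulAction G α] [FaithfulSMul G α]
    (hodd : Odd (Nat.card α)) (h5 : 5 ≤ Nat.card α) (hG : IsMultiplyPretransitive G α 3)
    (N : Subgroup G) [hNn : N.Normal] (hN : N ≠ ⊥) : IsMultiplyPretransitive N α 3 := by
  classical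
  have : Fact (Nat.Prime 2) := ⟨Nat.prime_two⟩
  have h2 : IsMultiplyPretransitive N α 2 := by
    refine (H25.jordan_normal 1 (by omega) hG N hN).resolve_right fun ⟨_, h1, h2⟩ => ?_
    have hG2 : IsMultiplyPretransitive G α 2 := isMultiplyPretransitive_of_le (n := 3) (by omega)
      (by omega)
    have := isPreprimitive_of_is_two_pretransitive hG2
    have := H25.normal_transitive_of_primitive (α := α) N hN
    obtain ⟨a⟩ : Nonempty α := (Nat.card_pos_iff.1 (by omega)).1
    have hP : IsPGroup 2 N := fun x => ⟨1, Subtype.ext (by rw [pow_one, sq]; exact h1 x x.2)⟩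
    obtain ⟨j, hj⟩ := IsPGroup.iff_card.1 hP
    rw [H25.card_eq_of_regular a (h2 a)] at hj
    rcases j with _ | j
    · omega
    · rw [hj, pow_succ] at hodd
      exact (Nat.not_odd_iff_even.2 (even_two.mul_left _)) hodd
  refine H25.multi_succ_of_fix h2 fun s hs c d hc hd => ?_
  obtain ⟨a, b, hab, rfl⟩ := Finset.card_eq_two.1 hs
  simp only [Finset.mem_insert, Finset.mem_singleton, not_or] at hc hd
  let K : Subgroup G := N ⊓ stabilizer G ({a, b} : Set α)
  have hK : ∀ k, k ∈ K ↔ k ∈ N ∧ (k • a = a ∧ k • b = b ∨ k • a = b ∧ k • b = a) := fun k => by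
    rw [mem_inf, mem_stabilizer_iff, Set.smul_set_insert, Set.smul_set_singleton,
      Set.pair_eq_pair_iff]
  let L : Subgroup K := stabilizer K (a, b)
  have hL : L.index = 2 := by
    obtain ⟨w, hw1, hw2⟩ := is_two_pretransitive_iff.1 h2 hab hab.symm
    rw [index_eq_two_iff]
    refine ⟨⟨w, (hK _).2 ⟨w.2, Or.inr ⟨hw1, hw2⟩⟩⟩, fun k => ?_⟩
    have e1 : (w : G) • a = b := hw1
    have e2 : (w : G) • b = a := hw2
    simp only [L, mem_stabilizer_iff, Subgroup.smul_def, Prod.smul_mk, Prod.mk.injEq, coe_mul,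
      mul_smul, e1, e2]
    rcases ((hK _).1 k.2).2 with ⟨h1, h2⟩ | ⟨h1, h2⟩ <;> simp [h1, h2, hab, hab.symm]
  obtain ⟨P⟩ : Nonempty (Sylow 2 K) := inferInstance
  have hPL : ¬ Nat.card (P : Subgroup K) ∣ Nat.card L := by
    rintro ⟨t, ht⟩
    have e1 := L.index_mul_card
    have e2 := (P : Subgroup K).index_mul_card
    apply P.not_dvd_index
    rw [hL, ht, ← e2, mul_comm _ t, ← mul_assoc] at e1
    exact ⟨t, (Nat.eq_of_mul_eq_mul_right Nat.card_pos e1).symm⟩
  have hLN : Nat.card L = Nat.card (stabilizer N (a, b)) := Nat.card_congr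
    ⟨fun x => ⟨⟨x.1.1, x.1.2.1⟩, x.2⟩, fun x => ⟨⟨x.1.1, (hK _).2 ⟨x.1.2, Or.inl
      (Prod.ext_iff.1 x.2)⟩⟩, x.2⟩, fun _ => rfl, fun _ => rfl⟩
  have huniq : ∀ u v : α, (∀ g ∈ (P : Subgroup K), g • u = u) → (∀ g ∈ (P : Subgroup K), g • v = v) →
      u = v := by
    intro u v hu hv
    by_contra huv
    apply hPL
    rw [hLN, H25.card_stabilizer_pair_eq h2 hab huv]
    let f : (P : Subgroup K) →* stabilizer N (u, v) :=
      { toFun := fun g => ⟨⟨g.1.1, g.1.2.1⟩, Prod.ext (hu g g.2) (hv g g.2)⟩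
        map_one' := rfl
        map_mul' := fun _ _ => rfl }
    exact card_dvd_of_injective f fun x y h => Subtype.ext (Subtype.ext
      (congrArg (fun t : stabilizer N (u, v) => (t.1 : G)) h))
  have hfix : ∀ c : α, c ≠ a → c ≠ b → ∃ x ∈ orbit K c, ∀ g ∈ (P : Subgroup K), g • x = x := by
    intro c hca hcb
    refine H25.exists_fixed_of_not_dvd (P : Subgroup K) P.isPGroup' _
      (fun q _ x hx => by rw [← smul_orbit q c]; exact Set.smul_mem_smul_set hx) fun h => ?_
    have := h.trans (H25.ncard_orbit_dvd K {a, b}ᶜ (Set.toFinite _) ?_ ?_ (x := c) (by simp [hca, hcb]))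
    · have e := Set.ncard_add_ncard_compl ({a, b} : Set α)
      rw [Set.ncard_pair hab] at e
      obtain ⟨m, hm⟩ := hodd
      omega
    · intro k hk x hx
      simp only [Set.mem_compl_iff, Set.mem_insert_iff, Set.mem_singleton_iff, not_or] at hx ⊢
      rcases ((hK _).1 hk).2 with ⟨h1, h2⟩ | ⟨h1, h2⟩
      · exact ⟨fun h => hx.1 (smul_left_cancel k (h.trans h1.symm)),
          fun h => hx.2 (smul_left_cancel k (h.trans h2.symm))⟩
      · exact ⟨fun h => hx.2 (smul_left_cancel k (h.trans h2.symm)),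
          fun h => hx.1 (smul_left_cancel k (h.trans h1.symm))⟩
    · intro x hx y hy
      simp only [Set.mem_compl_iff, Set.mem_insert_iff, Set.mem_singleton_iff, not_or] at hx hy
      obtain ⟨g, g1, g2, g3⟩ := H25.three_trans_iff.1 hG a b x a b y hab (Ne.symm hx.1)
        (Ne.symm hx.2) hab (Ne.symm hy.1) (Ne.symm hy.2)
      refine ⟨g, g3, fun k hk => (hK _).2 ⟨hNn.conj_mem k hk.1 g, ?_⟩⟩
      simp only [mul_smul, inv_smul_eq_iff.2 g1.symm, inv_smul_eq_iff.2 g2.symm]
      rcases ((hK _).1 hk).2 with ⟨h1, h2⟩ | ⟨h1, h2⟩ <;> simp [h1, h2, g1, g2]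
  obtain ⟨x, ⟨k, rfl⟩, hx⟩ := hfix c hc.1 hc.2
  obtain ⟨y, ⟨l, rfl⟩, hy⟩ := hfix d hd.1 hd.2
  have e : k • c = l • d := huniq _ _ hx hy
  obtain ⟨u, hu, huL⟩ : ∃ u ∈ (P : Subgroup K), u ∉ L := by
    by_contra h
    push Not at h
    exact hPL (card_dvd_of_le h)
  have key : ∀ m : K, m ∈ L → m • c = d → ∃ g : N, (∀ x ∈ ({a, b} : Finset α), g • x = x) ∧ g • c = d := by
    intro m hm hm'
    refine ⟨⟨m.1, m.2.1⟩, fun x hx => ?_, hm'⟩
    simp only [Finset.mem_insert, Finset.mem_singleton] at hx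
    rcases hx with rfl | rfl
    · exact congrArg Prod.fst hm
    · exact congrArg Prod.snd hm
  by_cases hm : l⁻¹ * k ∈ L
  · exact key _ hm (by rw [mul_smul, e, inv_smul_smul])
  · refine key (l⁻¹ * u * k) ?_ (by rw [mul_smul, mul_smul, show u • k • c = k • c from hx u hu, e, inv_smul_smul])
    have := L.normal_of_index_eq_two hL
    have h' : k⁻¹ * u * k ∉ L := fun h => huL (by simpa [mul_assoc] using this.conj_mem _ h k)
    rw [show l⁻¹ * u * k = (l⁻¹ * k) * (k⁻¹ * u * k) by group, mul_mem_iff_of_index_two hL]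
    tauto

/-- Wagner's Theorem: a non-trivial normal subgroup of a triply transitive permutation group of odd degree at least 5 is triply transitive. -/
theorem result {α : Type*} [Fintype α] [DecidableEq α] (G : Subgroup (Equiv.Perm α)) (hodd : Odd (Fintype.card α)) (h5 : 5 ≤ Fintype.card α) (hG : MulAction.IsMultiplyPretransitive G α 3) (N : Subgroup G) [N.Normal] (hN : N ≠ ⊥) : MulAction.IsMultiplyPretransitive N α 3 := by
  exact wagner (by rwa [Nat.card_eq_fintype_card]) (by rwa [Nat.card_eq_fintype_card]) hG N hN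

end Cfsg.Agent.S0699
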