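import Cfsg.Statements.S0955
import Cfsg.Agent.H19.Main1
import Cfsg.Agent.H1.Cores

set_option autoImplicit false
open Cfsg

namespace Cfsg.Agent.S0955
open H17 H19

/-- Let D be a defect group of a block of the finite group G relative to a maximal ideal M of the algebraic integers containing the prime p. Then D is the largest normal p-subgroup of its own normalizer: O_p(N_G(D)) = D. -/
theorem result {G : Type*} [Group G] [Finite G] (p : ℕ) [Fact p.Prime] (M : Ideal Cfsg.AlgInt) (hM : Cfsg.IsPModular p M) (B : Set (Cfsg.IrrCharacter G)) (hB : Cfsg.IsPBlock M B) (D : Subgroup G) (hD : Cfsg.IsDefectGroup p M B D) : (Cfsg.pCore p (Subgroup.normalizer (D : Set G))).map (Subgroup.normalizer (D : Set G)).subtype = D := by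
  obtain ⟨O, hO, _⟩ := exists_over hM
  obtain ⟨β, rfl⟩ := hO.exists_blk hB
  rw [hO.isDefectGroup_iff hM] at hD
  obtain ⟨b, -, h2⟩ := hD.exists_induces (H20.le_nrm_self D) (H20.cent_le_nrm D) le_rfl
  have := H10.normal_subgroupOf (le_refl (H20.nrm D))
  rw [le_antisymm (h2.normal_le (H1.isPGroup_pCore p)) (H1.le_pCore h2.isPGroup)]
  exact H10.map_subgroupOf_of_le (H20.le_nrm_self D)

end Cfsg.Agent.S0955
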