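import Cfsg.Statements.S1070
import Cfsg.Agent.H24.TwE6

set_option autoImplicit false
open Cfsg

namespace Cfsg.Agent.S1070

/-- ²E₆(q) is simple for every `q`. -/
theorem result {K : Type*} [Field K] [Fintype K] {q : ℕ} (hq : IsPrimePow q) (hK : Fintype.card K = q ^ 2) :
    IsSimpleGroup ↥(Cfsg.Lie.twistedE6 K q) ∧ ¬ IsMulCommutative ↥(Cfsg.Lie.twistedE6 K q) := by
  obtain ⟨f, hf, hq'⟩ := H24.E6.exists_f hq hK
  have : ∀ K : Finset (Fin 4), K.Nonempty → Kᶜ.Nonempty →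
      ∃ p : Fin 4 × Fin 4, p.1 ∈ K ∧ p.2 ∉ K ∧ ¬ CoxeterMatrix.F₄.M p.1 p.2 ∣ 2 := by decide +kernel
  exact (H24.E6.pack f hf hq').simple (H24.E6.perf f hf (H24.E6.exists_sq hq.one_lt hK)) _ (H24.E6.ord f hf)
    fun K h1 h2 => let ⟨_, a, b, c⟩ := this K h1 h2; ⟨_, a, _, b, c⟩

end Cfsg.Agent.S1070
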