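import Cfsg.Statements.S1073
import Cfsg.Agent.H24.TwG2

set_option autoImplicit false
open Cfsg

namespace Cfsg.Agent.S1073

/-- ²G₂(3^(2m+1)) is simple for `m ≥ 1`. -/
theorem result {K : Type*} [Field K] [Fintype K] {m : ℕ} (hm : 1 ≤ m) (hK : Fintype.card K = 3 ^ (2 * m + 1)) :
    IsSimpleGroup ↥(Cfsg.Lie.twistedG2 K (3 ^ m)) ∧ ¬ IsMulCommutative ↥(Cfsg.Lie.twistedG2 K (3 ^ m)) := by
  obtain ⟨h3, f, hf, hq⟩ := H24.G2.exists_f hK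
  refine (H24.G2.pack h3 f hf hq).simple (H24.G2.perf h3 f hf (H24.G2.exists_sq hK) (H24.G2.exists_ne hK hm)) _
    (fun _ _ => rfl) fun K ⟨a, h1⟩ ⟨b, h2⟩ => ?_
  rw [Subsingleton.elim b a, Finset.mem_compl] at h2
  exact absurd h1 h2

end Cfsg.Agent.S1073
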