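import Cfsg.Statements.S1075
import Cfsg.Agent.H9.Re1
import Cfsg.Agent.S1069
import Cfsg.Agent.S1011

set_option autoImplicit false
open Cfsg

namespace Cfsg.Agent.S1075

/-- The derived subgroup of ²G₂(3) (θ = identity over the field with three elements) has order 504 = 1512/3 and is isomorphic to PSL₂ over the field with eight elements. -/
theorem result {L : Type*} [Field L] [Fintype L] (hL : Fintype.card L = 8) :
    Nat.card ↥(commutator ↥(Cfsg.Lie.twistedG2 (ZMod 3) 1)) = 504 ∧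
      Nonempty (↥(commutator ↥(Cfsg.Lie.twistedG2 (ZMod 3) 1)) ≃* Matrix.ProjectiveSpecialLinearGroup (Fin 2) L) := by
  obtain ⟨N, h1, h2⟩ := H9Re.ree3
  have hG : Nat.card (Cfsg.Lie.twistedG2 (ZMod 3) 1) = 1512 :=
    Cfsg.Agent.S1069.result (K := ZMod 3) (m := 0) (ZMod.card 3)
  haveI := Nat.finite_of_card_ne_zero (hG.trans_ne (by norm_num))
  rw [H9Re.comm_eq h2 hG]
  exact ⟨h2, Cfsg.Agent.S1011.result h2 hL⟩

end Cfsg.Agent.S1075
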