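import Cfsg.Statements.S1163
import Cfsg.Agent.H26.SzFix

set_option autoImplicit false
open Cfsg

namespace Cfsg.Agent.S1163


/-- For the Suzuki group Sz(q), q = 2^(2m+1) ≥ 8, realised as the elements g of Sp₄(F) with g* = g^θ (θ the 2^(m+1)-th power map, so that θ² is squaring): `|Sz(q)| = q² (q - 1) (q² + 1)`, and there is a Sylow 2-subgroup `S` whose normaliser `H` has order `q²(q-1)` and index `q² + 1`, the action of `Sz(q)` on the cosets of `H` is doubly transitive, and `S` acts regularly on the cosets other than `H` itself. -/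
theorem result {F : Type*} [Field F] [Fintype F] {m : ℕ} (hm : 1 ≤ m) (hF : Fintype.card F = 2 ^ (2 * m + 1)) :
    Nat.card ↥(Cfsg.Lie.Sz F (2 ^ (m + 1))) = (2 ^ (2 * m + 1)) ^ 2 * (2 ^ (2 * m + 1) - 1) * ((2 ^ (2 * m + 1)) ^ 2 + 1) ∧
    ∃ S : Sylow 2 ↥(Cfsg.Lie.Sz F (2 ^ (m + 1))),
      Nat.card (Subgroup.normalizer ((S : Subgroup ↥(Cfsg.Lie.Sz F (2 ^ (m + 1)))) : Set ↥(Cfsg.Lie.Sz F (2 ^ (m + 1))))) = (2 ^ (2 * m + 1)) ^ 2 * (2 ^ (2 * m + 1) - 1) ∧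
      (Subgroup.normalizer ((S : Subgroup ↥(Cfsg.Lie.Sz F (2 ^ (m + 1)))) : Set ↥(Cfsg.Lie.Sz F (2 ^ (m + 1))))).index = (2 ^ (2 * m + 1)) ^ 2 + 1 ∧
      MulAction.IsMultiplyPretransitive ↥(Cfsg.Lie.Sz F (2 ^ (m + 1))) (↥(Cfsg.Lie.Sz F (2 ^ (m + 1))) ⧸ Subgroup.normalizer ((S : Subgroup ↥(Cfsg.Lie.Sz F (2 ^ (m + 1)))) : Set ↥(Cfsg.Lie.Sz F (2 ^ (m + 1))))) 2 ∧
      ∀ x y : ↥(Cfsg.Lie.Sz F (2 ^ (m + 1))) ⧸ Subgroup.normalizer ((S : Subgroup ↥(Cfsg.Lie.Sz F (2 ^ (m + 1)))) : Set ↥(Cfsg.Lie.Sz F (2 ^ (m + 1)))),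
        x ≠ (QuotientGroup.mk 1) → y ≠ (QuotientGroup.mk 1) → ∃! s : ↥(S : Subgroup ↥(Cfsg.Lie.Sz F (2 ^ (m + 1)))), (s : ↥(Cfsg.Lie.Sz F (2 ^ (m + 1)))) • x = y := by
  set M := H26.Sz.lieModel hm hF
  refine ⟨by rw [M.card_G, hF]; ring, M.sylowQ, ?_⟩
  rw [M.coe_sylowQ, M.normalizer_Q]
  have hact : ∀ (g k : ↥(Cfsg.Lie.Sz F (2 ^ (m + 1)))), (g : _ ⧸ M.B) = k ↔ g • M.inf = k • M.inf := by
    intro g k
    rw [QuotientGroup.eq, M.mem_B_iff, mul_smul, inv_smul_eq_iff, eq_comm]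
  refine ⟨by rw [M.card_B, hF], by rw [M.index_B, hF], ?_, ?_⟩
  · have h2 := M.two_transitive
    rw [MulAction.is_two_pretransitive_iff] at h2 ⊢
    intro a b c d hab hcd
    obtain ⟨a, rfl⟩ := QuotientGroup.mk_surjective a
    obtain ⟨b, rfl⟩ := QuotientGroup.mk_surjective b
    obtain ⟨c, rfl⟩ := QuotientGroup.mk_surjective c
    obtain ⟨d, rfl⟩ := QuotientGroup.mk_surjective d
    rw [Ne, hact] at hab hcd
    obtain ⟨g, h1, h2⟩ := h2 hab hcd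
    refine ⟨g, ?_, ?_⟩ <;> rw [MulAction.Quotient.smul_mk, hact, smul_eq_mul, mul_smul] <;> assumption
  · intro x y hx hy
    obtain ⟨x, rfl⟩ := QuotientGroup.mk_surjective x
    obtain ⟨y, rfl⟩ := QuotientGroup.mk_surjective y
    rw [Ne, hact, one_smul] at hx hy
    obtain ⟨a, b, ha⟩ := (M.pt_cases _).resolve_left hx
    obtain ⟨c, d, hc⟩ := (M.pt_cases _).resolve_left hy
    refine ⟨⟨M.u c d * (M.u a b)⁻¹, M.Q.mul_mem (M.u_mem_Q _ _) (M.Q.inv_mem (M.u_mem_Q _ _))⟩, ?_, ?_⟩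
    · simp only
      rw [MulAction.Quotient.smul_mk, hact, smul_eq_mul, mul_smul, mul_smul, ha, hc, ← M.u_smul_zero a b,
        inv_smul_smul, M.u_smul_zero]
    · rintro ⟨s, hs⟩ h
      simp only at h
      rw [MulAction.Quotient.smul_mk, hact, smul_eq_mul, mul_smul, ha, hc] at h
      apply Subtype.ext
      simp only
      by_contra hne
      have h1 : (M.u c d)⁻¹ * s * M.u a b ≠ 1 := fun h => hne (by
        rw [← mul_one s, ← mul_inv_cancel (M.u a b), ← mul_assoc, ← one_mul (s * _),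
          ← mul_inv_cancel (M.u c d), mul_assoc (M.u c d), ← mul_assoc (M.u c d)⁻¹, h, mul_one])
      have := M.eq_inf_of_fix (M.Q.mul_mem (M.Q.mul_mem (M.Q.inv_mem (M.u_mem_Q c d)) hs) (M.u_mem_Q a b))
        h1 (p := M.pt 0 0) (by rw [mul_smul, mul_smul, M.u_smul_zero, h, inv_smul_eq_iff, M.u_smul_zero])
      exact M.pt_ne_inf _ _ this

end Cfsg.Agent.S1163
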