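import Cfsg.Statements.S1164
import Cfsg.Agent.H7.CT3

set_option autoImplicit false
open Cfsg

namespace Cfsg.Agent.S1164

open H24 H7 Cfsg.Lie

/-- Curtis–Tits: for the Chevalley datum of type D₄, F₄, E₆, E₇ or E₈ and a field `K` with at least four elements, there is an isomorphism from the group presented by the Curtis–Tits relators (additivity, the commutator relators and the `h̄`-relators only for roots inside a common rank-two subsystem spanned by two fundamental roots, all other generators killed) onto the group of Steinberg's presentation, sending each generator `x̄_r(t)` with `r` in such a subsystem to `x̄_r(t)`. -/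
theorem result (D : Cfsg.Lie.ChevalleyDatum)
    (hD : D ∈ [Cfsg.Lie.chevD4, Cfsg.Lie.chevF4, Cfsg.Lie.chevE6, Cfsg.Lie.chevE7, Cfsg.Lie.chevE8])
    (K : Type*) [Field K] [Fintype K] (hK : 4 ≤ Fintype.card K) :
    ∃ e : D.CurtisTitsGroup K ≃* D.SteinbergGroup K,
      ∀ (i j r : ℕ) (t : K), D.InRankTwoSub i j r →
        e (PresentedGroup.mk (D.curtisTitsRels K) (D.stX r t)) = D.stGen K r t := by
  classical
  obtain ⟨T, h⟩ := exists_tab (D := D) (by simp at hD ⊢; tauto)
  have e1 : ∀ (i j : Fin D.rank) (r : Fin D.nroots), h.cd.InJ {i, j} r → D.InRankTwoSub i j r :=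
    fun i j r hr => ⟨r.2, i.2, j.2, fun k hk h1 h2 => (h.co_eq' r ⟨k, hk⟩).symm.trans
      ((h.cd.co_eq_zero_iff r _).2 (hr _ (by simp [Fin.ext_iff, h1, h2])))⟩
  have e2 : ∀ i j r (H : D.InRankTwoSub i j r), h.cd.InJ {⟨i, H.2.1⟩, ⟨j, H.2.2.1⟩} ⟨r, H.1⟩ :=
    fun i j r H k hk => (h.cd.co_eq_zero_iff _ _).1 ((h.co_eq' _ k).trans
      (H.2.2.2 k k.2 (by rintro rfl; simp at hk) (by rintro rfl; simp at hk)))
  let y : Fin D.nroots × K → D.SteinbergGroup K := fun p =>
    if ∃ i j, D.InRankTwoSub i j p.1 then (h.stb K).x p.1 p.2 else 1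
  have e3 : ∀ i j r, h.cd.InJ {i, j} r → ∀ t, FreeGroup.lift y (FreeGroup.of (r, t)) = (h.stb K).x r t :=
    fun i j r hr t => by rw [FreeGroup.lift_apply_of]; exact if_pos ⟨_, _, e1 i j r hr⟩
  have hy : ∀ g ∈ D.curtisTitsRels K, FreeGroup.lift y g = 1 := by
    rintro _ (((⟨r, t, hr, H, rfl⟩ | ⟨i, j, r, t, u, H, rfl⟩) | ⟨i, j, r, s, t, u, H, H', h1, h2, rfl⟩) |
      ⟨i, j, r, t, u, H, ht, hu, rfl⟩)
    · rw [ChevalleyDatum.stX, dif_pos hr, FreeGroup.lift_apply_of]
      exact if_neg (by simpa using H)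
    · simp only [map_mul, map_inv, ChevalleyDatum.stX, dif_pos H.1, e3 _ _ _ (e2 i j r H), St0.x_add,
        mul_inv_cancel]
    · have a1 := e2 i j r H
      have a2 := e2 i j s H'
      lift r to Fin D.nroots using H.1
      lift s to Fin D.nroots using H'.1
      simp only [map_mul, map_inv, h.map_stX _ r.2, h.map_stX _ s.2, h.map_commWord, h.fin_val,
        mul_inv_eq_one, e3 _ _ _ a1, e3 _ _ _ a2]
      rw [mul_assoc, (h.stb K).comm r s t u (fun e => h1 (congrArg Fin.val e))
        (fun e => h2 ((congrArg Fin.val e).trans (h.val_neg' r))),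
        List.map_congr_left fun c hc => e3 _ _ _ (InJ_comb a1 a2 (h.cd.terms_rt r s c hc).1) _]
      group
    · have a1 := e2 i j r H
      lift r to Fin D.nroots using H.1
      have : ∀ t, FreeGroup.lift y (D.stH r t) = (h.stb K).h r t := fun t => by
        rw [ChevalleyDatum.stH, h.map_stWord]
        · simp only [ChevalleyDatum.hWord, ChevalleyDatum.nWord, h.fin_neg, St0.h, St0.n, mul_assoc,
            List.map_append, List.map_cons, List.map_nil, h.fin_val, e3 _ _ _ a1,
            e3 _ _ _ (h.cd.InJ_neg.2 a1), List.prod_append, List.prod_cons, List.prod_nil, mul_one]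
        · have := h.neg_lt' r.2
          simp [ChevalleyDatum.hWord, ChevalleyDatum.nWord, this]
      simp only [map_mul, map_inv, this, h.stb_r3 K r t u ht hu, mul_inv_cancel]
  let θ : D.CurtisTitsGroup K →* D.SteinbergGroup K := PresentedGroup.toGroup hy
  have hθ : ∀ g, θ (PresentedGroup.mk _ g) = FreeGroup.lift y g := fun _ => rfl
  obtain ⟨S', s1, s2⟩ := curtis_tits (S := h.stb K) (θ := θ)
    (z := fun r t => PresentedGroup.mk _ (FreeGroup.of (r, t))) fun i j => ⟨e3 i j, fun r hr t u => by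
      have := PresentedGroup.one_of_mem (rels := D.curtisTitsRels K)
        (Or.inl (Or.inl (Or.inr ⟨i, j, r, t, u, e1 i j r hr, rfl⟩)))
      simp only [map_mul, map_inv, h.map_stX _ r.2, h.fin_val, mul_inv_eq_one] at this
      exact this.symm, fun r s hr hs h1 h2 t u => by
      have := PresentedGroup.one_of_mem (rels := D.curtisTitsRels K) (Or.inl (Or.inr
        ⟨i, j, r, s, t, u, e1 i j r hr, e1 i j s hs, fun e => h1 (Fin.ext e),
          fun e => h2 (Fin.ext (e.trans (h.val_neg' r).symm)), rfl⟩))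
      simp only [map_mul, map_inv, h.map_stX _ r.2, h.map_stX _ s.2, h.fin_val, mul_inv_eq_one,
        h.map_commWord] at this
      rw [← this]; group⟩
  let ψ := h.liftS S' (St0_r3 (h.stb K) S')
  have hψ : ∀ r t, ψ ((h.stb K).x r t) = S'.x r t := h.liftS_x S' _
  refine ⟨MonoidHom.toMulEquiv θ ψ (PresentedGroup.ext fun p => ?_) (PresentedGroup.ext fun p => ?_),
    fun i j r t H => ?_⟩
  · change ψ (FreeGroup.lift y (FreeGroup.of p)) = PresentedGroup.mk _ (FreeGroup.of p)
    by_cases H : ∃ i j, D.InRankTwoSub i j p.1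
    · obtain ⟨i, j, H⟩ := H
      rw [e3 _ _ _ (e2 i j _ H), hψ, s2 _ _ _ (e2 i j _ H)]
    · rw [FreeGroup.lift_apply_of, show y p = 1 from if_neg H, map_one]
      have := PresentedGroup.one_of_mem (rels := D.curtisTitsRels K)
        (Or.inl (Or.inl (Or.inl ⟨p.1, p.2, p.1.2, by simpa using H, rfl⟩)))
      rw [h.map_stX _ p.1.2, h.fin_val] at this
      exact this.symm
  · exact (congrArg θ (hψ p.1 p.2)).trans (s1 _ _)
  · rw [h.stGen_eq K H.1, ← e3 _ _ _ (e2 i j r H), ChevalleyDatum.stX, dif_pos H.1]; rfl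

end Cfsg.Agent.S1164
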