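import Cfsg.Statements.S1221
import Cfsg.Agent.H17.Be1

set_option autoImplicit false
open Cfsg

namespace Cfsg.Agent.S1221

open H17 Cfsg


/-- Let H be a strongly embedded subgroup of the finite group G. Then O(H) ≤ O(G): the largest normal subgroup of odd order of H lies in the largest normal subgroup of odd order of G. -/
theorem result {G : Type*} [Group G] [Finite G] (H : Subgroup G) (hH : Cfsg.IsStronglyEmbedded H) : (Cfsg.oddCore ↥H).map H.subtype ≤ Cfsg.oddCore G := by
  rw [oddCore, H15.pPrimeCore_map_subtype]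
  have ho := H15.Bd.odd_core H
  have hn := H15.le_norm_piCoreOf_self {2}ᶜ H
  by_cases h4 : H15.Bd.Four (⊤ : Subgroup G)
  · obtain ⟨h1, _, t, Q, h, hQ⟩ := H17.Be.se_hom hH h4
      (QuotientGroup.mk'_surjective (pPrimeCore 2 G)) (QuotientGroup.ker_mk' _)
    have h2 := H17.Be.odd_eq_bot h.r1 hQ (N := (piCoreOf {2}ᶜ H).map (QuotientGroup.mk' _))
      (by rw [MulAction.stabilizer_quotient]; exact Subgroup.map_mono (H15.piCoreOf_le _ _))
      (by rw [MulAction.stabilizer_quotient]
          exact (Subgroup.map_mono hn).trans (Subgroup.le_normalizer_map _))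
      (ho.of_dvd_nat (Subgroup.card_map_dvd _ _))
    rwa [Subgroup.map_eq_bot_iff, QuotientGroup.ker_mk'] at h2
  · have h1 := H17.Be.core_sup hH h4
    rw [oddCore, H15.pPrimeCore_eq_piCoreOf] at *
    have h2 := H15.le_norm_piCoreOf_self {2}ᶜ (⊤ : Subgroup G)
    refine le_sup_left.trans (H15.le_piCoreOf le_top (h1.ge.trans (sup_le (H15.le_norm_of_le le_sup_right)
      (H15.le_norm_sup hn (le_top.trans h2)))) ?_)
    exact H15.Cfsg.IsPiSubgroup.sup_of_le_norm (H15.isPi_piCoreOf _ _) (H15.isPi_piCoreOf _ _)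
      (le_top.trans h2)

end Cfsg.Agent.S1221
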