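import Cfsg.Statements.S1248
import Cfsg.Agent.H6.U34b
import Cfsg.Agent.H6.U34c

set_option autoImplicit false
open Cfsg

namespace Cfsg.Agent.S1248

/-- Let F be a field with 16 elements and S a Sylow 2-subgroup of PSU(3) over F (the unitary group U₃(4)). Then |S| = 64; the centre Z(S) is a Klein four-group and coincides with the subgroup generated by the involutions of S and with the derived subgroup; and every element of S ⧸ Z(S) squares to the identity, S ⧸ Z(S) having order 16. -/
theorem result {F : Type*} [Field F] [Fintype F] (hF : Fintype.card F = 16) (S : Sylow 2 (Cfsg.PSU 3 F 4)) : Nat.card S = 64 ∧ IsKleinFour (Subgroup.center (S : Subgroup (Cfsg.PSU 3 F 4))) ∧ Subgroup.center (S : Subgroup (Cfsg.PSU 3 F 4)) = Subgroup.closure {x : (S : Subgroup (Cfsg.PSU 3 F 4)) | orderOf x = 2} ∧ Subgroup.center (S : Subgroup (Cfsg.PSU 3 F 4)) = commutator (S : Subgroup (Cfsg.PSU 3 F 4)) ∧ Nat.card ((S : Subgroup (Cfsg.PSU 3 F 4)) ⧸ Subgroup.center (S : Subgroup (Cfsg.PSU 3 F 4))) =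 16 ∧ ∀ x : (S : Subgroup (Cfsg.PSU 3 F 4)) ⧸ Subgroup.center (S : Subgroup (Cfsg.PSU 3 F 4)), x ^ 2 = 1 := by
  obtain ⟨π, i, h⟩ := H6.isU34_sylow hF S
  refine ⟨h.card, h.center_eq ▸ h.four, ?_, h.center_eq.trans h.commutator_eq.symm, ?_, fun x => ?_⟩
  · rw [h.center_eq]
    refine le_antisymm (fun x hx => ?_) ((Subgroup.closure_le _).2 fun x hx => ?_)
    · by_cases h1 : x = 1
      · rw [h1]; exact one_mem _
      · exact Subgroup.subset_closure
          (orderOf_eq_prime (pow_two x ▸ h.mul_self_eq_one.2 (h.mem_range.1 hx)) h1)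
    · exact h.mem_range.2 (h.mul_self_eq_one.1 (by
      have := pow_orderOf_eq_one x
      rwa [show orderOf x = 2 from hx, pow_two] at this))
  · rw [← Subgroup.index_eq_card, h.center_eq, h.index_range]
  · obtain ⟨x, rfl⟩ := QuotientGroup.mk_surjective x
    rw [← QuotientGroup.mk_pow, QuotientGroup.eq_one_iff, h.center_eq, pow_two, h.sq]
    exact ⟨_, rfl⟩

end Cfsg.Agent.S1248
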