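import Cfsg.Statements.S1255
import Cfsg.Agent.H6.DH
import Cfsg.Agent.S0107

set_option autoImplicit false
open Cfsg

namespace Cfsg.Agent.S1255

/-- Let X be a finite group whose Sylow 2-subgroup S is dihedral of order 2m ≥ 4. Then X has no subgroup of index 2 and no isolated involution if and only if either all involutions of X are conjugate, or for every Klein four-subgroup U ≤ S the index |N_X(U) : C_X(U)| equals 3 when |S| = 4 and equals 6 when |S| > 4. -/
theorem result {X : Type*} [Group X] [Finite X] (S : Sylow 2 X) (m : ℕ) (hm : 2 ≤ m) (eS : (S : Subgroup X) ≃* DihedralGroup m) : ((∀ H : Subgroup X, H.index ≠ 2) ∧ (∀ z : X, ¬ Cfsg.IsIsolatedInvolution z)) ↔ ((∀ a b : X, orderOf a = 2 → orderOf b = 2 → IsConj a b) ∨ (∀ U : Subgroup X, U ≤ S → IsKleinFour U → (Subgroup.centralizer (U : Set X)).relIndex (Subgroup.normalizer (U : Set X)) = (if Nat.card S = 4 then 3 else 6))) := by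
  obtain ⟨k, x, y, h, hc⟩ := H6.dh_sub S.isPGroup' hm eS
  constructor
  · rintro ⟨h1, -⟩
    left
    obtain _ | k := k
    · have h4 : IsKleinFour (S : Subgroup X) := by
        have := Subgroup.eq_of_le_of_card_ge (h.T_le 0) (by rw [hc, (h.T_four 0).card_four]; rfl)
        exact this ▸ h.T_four 0
      rcases H6.kleinFour_sylow_cases S h4 with h2 | h2
      · exact h2.1
      · obtain ⟨N, hN, hN'⟩ := H6.normal_complement_of_no_fusion S h2.1
        obtain ⟨H, -, hH⟩ := H6.exists_index_prime_of_normal (p := 2) N (k := 1)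
          (hN'.symm.index_eq_card.trans hc)
        exact absurd hH (h1 H)
    · intro a b ha hb
      have hm' : m = 2 ^ (k + 2) := by
        have := (Nat.card_congr eS.toEquiv).symm.trans hc
        rw [DihedralGroup.nat_card, pow_succ'] at this
        omega
      subst hm'
      exact isConj_iff.2 (S0107.result S (k + 2) (by omega) ⟨eS⟩
        (H6.pResidual_eq_top_of_no_index_two h1) a b ha hb)
  · intro h1
    have h2 : ∀ a b : X, orderOf a = 2 → orderOf b = 2 → IsConj a b := by
      rcases h1 with h1 | h1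
      · exact h1
      · have h3 : ∀ U : Subgroup X, U ≤ S → IsKleinFour U → ¬ H6.NoOdd U := fun U hU hU4 =>
          H6.not_noOdd_of_relIndex (by rw [h1 U hU hU4]; split_ifs <;> norm_num)
        exact fun a b ha hb => (h.conj_all h3 ha).symm.trans (h.conj_all h3 hb)
    refine ⟨fun H hH => ?_, fun z hz => ?_⟩
    · haveI := Subgroup.normal_of_index_eq_two hH
      have h3 : ∃ a ∈ H, orderOf a = 2 := by
        by_cases e1 : x ^ ((2 : ℤ) ^ k) ∈ H
        · exact ⟨_, e1, h.ord_z⟩
        by_cases e2 : y ∈ H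
        · exact ⟨_, e2, h.ord_y⟩
        exact ⟨_, (Subgroup.mul_mem_iff_of_index_two hH).2 (iff_of_false e1 e2), h.ord_xy _⟩
      obtain ⟨a, ha, ha2⟩ := h3
      refine H6.no_index_of_sylow_le S (h.le_of_ord2 fun g _ hg => ?_) hH
      obtain ⟨c, rfl⟩ := isConj_iff.1 (h2 a g ha2 hg)
      exact Subgroup.Normal.conj_mem inferInstance a ha c
    · have := H6.iso_eq_of_commute hz (h2 _ _ hz.1 h.ord_z) (h2 _ _ hz.1 h.ord_y)
        (h.z_comm h.yS).symm
      exact h.ny ⟨_, this⟩

end Cfsg.Agent.S1255
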