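import Cfsg.Statements.S1313
import Cfsg.Agent.H5.Fstar

set_option autoImplicit false
open Cfsg

namespace Cfsg.Agent.S1313

/-- For a finite group H, |H| ≤ |F*(H)|!. -/
theorem result {H : Type*} [Group H] [Finite H] : Nat.card H ≤ Nat.factorial (Nat.card ↥(Cfsg.generalizedFittingSubgroup H)) := by
  classical
  set F := Cfsg.generalizedFittingSubgroup H
  have hker : (MulAut.conjNormal (H := F)).ker ≤ F := by
    refine le_trans ?_ H5.centralizer_fstar_le
    intro g hg x hx
    have := congrArg (fun φ : MulAut F => ((φ ⟨x, hx⟩ : F) : H)) (MonoidHom.mem_ker.1 hg)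
    simp only [MulAut.conjNormal_apply, MulAut.one_apply] at this
    rw [mul_inv_eq_iff_eq_mul] at this
    exact this.symm
  have h1 : Nat.card H = Nat.card (MulAut.conjNormal (H := F)).ker *
      Nat.card (MulAut.conjNormal (H := F)).range := by
    rw [← Subgroup.index_ker, Subgroup.card_mul_index]
  have h2 : Nat.card (MulAut.conjNormal (H := F)).ker ≤ Nat.card F := Subgroup.card_le_of_le hker
  have h3 : Nat.card (MulAut F) ≤ (Nat.card F - 1).factorial := by
    let φ : MulAut F → Equiv.Perm {x : F // x ≠ 1} := fun α =>
      Equiv.Perm.subtypePerm α.toEquiv (fun x => by simp)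
    have hφ : Function.Injective φ := by
      intro α β h
      ext x
      by_cases hx : x = 1
      · simp [hx]
      · have := congrArg (fun σ : Equiv.Perm {x : F // x ≠ 1} => ((σ ⟨x, hx⟩ : {x : F // x ≠ 1}) : F)) h
        exact congrArg Subtype.val this
    have := Nat.card_le_card_of_injective φ hφ
    rw [Nat.card_perm] at this
    have h4 : Nat.card {x : F // x ≠ 1} = Nat.card F - 1 := by
      have := Fintype.ofFinite F
      simp [Nat.card_eq_fintype_card, Fintype.card_subtype_compl]
    rwa [h4] at this
  have h5 : Nat.card (MulAut.conjNormal (H := F)).range ≤ Nat.card (MulAut F) :=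
    Subgroup.card_le_card_group _
  have h6 : 0 < Nat.card F := Nat.card_pos
  calc Nat.card H ≤ Nat.card F * (Nat.card F - 1).factorial := by
        rw [h1]; exact Nat.mul_le_mul h2 (h5.trans h3)
    _ = (Nat.card F).factorial := Nat.mul_factorial_pred h6.ne'

end Cfsg.Agent.S1313
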