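import Cfsg.Statements.S1324
import Cfsg.Agent.H1.Coprime2

set_option autoImplicit false
open Cfsg

namespace Cfsg.Agent.S1324

/-- Let A be a noncyclic elementary abelian p-subgroup of a finite group H normalizing a subgroup X of order prime to p. Then X is generated by the subgroups X ∩ C_H(B), B ranging over the subgroups of A of index at most p. -/
theorem result {H : Type*} [Group H] [Finite H] (p : ℕ) [Fact p.Prime] (A X : Subgroup H) (hA : Cfsg.IsElementaryAbelian p A) (hA2 : p ^ 2 ≤ Nat.card ↥A) (hX : ¬ p ∣ Nat.card ↥X) (hAX : A ≤ Subgroup.normalizer (X : Set H)) : X = ⨆ B : {B : Subgroup H // B ≤ A ∧ B.relIndex A ≤ p}, X ⊓ Subgroup.centralizer ((B : Subgroup H) : Set H) := by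
  have := hA.1
  have hp : p.Prime := Fact.out
  refine le_antisymm ?_ (iSup_le fun _ => inf_le_left)
  refine H1.le_of_forall_cocyclic_centralizer_le hAX
    (H1.IsPGroup.coprime_card (H1.isPGroup_of_pow_eq_one hA.2)
      (hp.coprime_iff_not_dvd.2 hX).symm) fun B hB ⟨a, ha, h⟩ => ?_
  refine le_iSup (fun B : {B : Subgroup H // B ≤ A ∧ B.relIndex A ≤ p} =>
    X ⊓ Subgroup.centralizer ((B : Subgroup H) : Set H)) ⟨B, hB, ?_⟩
  have hn : Subgroup.zpowers a ≤ Subgroup.normalizer (B : Set H) :=
    (Subgroup.zpowers_le.2 ha).trans (((Subgroup.le_centralizer A).trans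
      (Subgroup.centralizer_le hB)).trans (Subgroup.centralizer_le_normalizer _))
  rw [← h, sup_comm, H1.relIndex_sup_of_le_normalizer hn]
  refine Nat.le_of_dvd hp.pos ((Subgroup.relIndex_dvd_card _ _).trans ?_)
  rw [Nat.card_zpowers]
  exact orderOf_dvd_of_pow_eq_one (hA.2 a ha)

end Cfsg.Agent.S1324
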