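import Cfsg.Statements.S1349
import Cfsg.Agent.H5.Eigen
import Cfsg.Agent.S0206

set_option autoImplicit false
open Cfsg

namespace Cfsg.Agent.S1349

/-- Let G be finite, L ≤ G solvable of odd order, and A an elementary abelian 2-subgroup of order 2^d (d ≥ 1) normalizing L with C_A(L) = 1. Then there are subgroups A_1, …, A_d of A of order 2 generating A and subgroups L_1, …, L_d of L such that each A_i ⊔ L_i is dihedral of order 2 n_i with n_i odd and at least 3, and A_i ⊔ L_i commutes elementwise with A_j ⊔ L_j for i ≠ j. -/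
theorem result {G : Type*} [Group G] [Finite G] (L A : Subgroup G) (hLs : Group.IsSolvable ↥L) (hLodd : Odd (Nat.card ↥L)) (hA : Cfsg.IsElementaryAbelian 2 A) (d : ℕ) (hd : 1 ≤ d) (hAd : Nat.card ↥A = 2 ^ d) (hAL : A ≤ Subgroup.normalizer (L : Set G)) (hfaith : A ⊓ Subgroup.centralizer (L : Set G) = ⊥) : ∃ (Ai : Fin d → Subgroup G) (Li : Fin d → Subgroup G) (n : Fin d → ℕ), (∀ i, Ai i ≤ A ∧ Nat.card ↥(Ai i) = 2 ∧ Li i ≤ L ∧ Odd (n i) ∧ 3 ≤ n i ∧ Nonempty (↥(Ai i ⊔ Li i) ≃* DihedralGroup (n i))) ∧ (⨆ i, Ai i) = A ∧ ∀ i j, i ≠ j → ∀ x ∈ Ai i ⊔ Li i, ∀ y ∈ Ai j ⊔ Li j, x * y = y * x := by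
  have hc : (Nat.card L).Coprime 2 := Nat.coprime_two_right.2 hLodd
  obtain ⟨B, h1, h2, h3, h4⟩ := H5.exists_abelian_faithful hA hAL hLs hc hfaith
  obtain ⟨a, y, k1, k2, k3⟩ := H5.dihedral_aux d A B hA hAd h2 (H5.coprime_of_le hc h1) h3 h4
  refine ⟨fun i => Subgroup.zpowers (a i), fun i => Subgroup.zpowers (y i), fun i => orderOf (y i),
    fun i => ?_, k3, fun i j hij => ?_⟩
  · obtain ⟨e1, e2, e3, e4, e5⟩ := k1 i
    have ho : Odd (orderOf (y i)) := hLodd.of_dvd_nat (Subgroup.orderOf_dvd_natCard L (h1 e3))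
    have aa : a i * a i = 1 := by rw [← pow_two]; exact hA.2 _ e1
    have ai : (a i)⁻¹ = a i := inv_eq_of_mul_eq_one_left aa
    refine ⟨Subgroup.zpowers_le.2 e1, by rw [Nat.card_zpowers, e2], Subgroup.zpowers_le.2 (h1 e3), ho,
      ?_, ?_⟩
    · have := orderOf_eq_one_iff.not.2 e4
      obtain ⟨k, hk⟩ := ho
      change 3 ≤ orderOf (y i)
      omega
    · have e6 : orderOf (a i * y i) = 2 := by
        refine orderOf_eq_prime (by rw [ai] at e5; rw [pow_two, ← mul_assoc, e5, inv_mul_cancel])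
          fun e => ?_
        rw [eq_inv_of_mul_eq_one_right e, orderOf_inv, e2] at ho
        exact absurd ho (by decide)
      obtain ⟨e⟩ := Cfsg.Agent.S0206.result (a i) (a i * y i) e2 e6 fun e => e4 (by simpa using e)
      rw [← mul_assoc, aa, one_mul] at e
      have : Subgroup.closure ({a i, a i * y i} : Set G) =
          Subgroup.zpowers (a i) ⊔ Subgroup.zpowers (y i) := by
        rw [H9.closure_pair_eq]
        refine le_antisymm (sup_le le_sup_left (Subgroup.zpowers_le.2 (mul_mem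
          (Subgroup.mem_sup_left (Subgroup.mem_zpowers _))
          (Subgroup.mem_sup_right (Subgroup.mem_zpowers _))))) (sup_le le_sup_left
          (Subgroup.zpowers_le.2 ?_))
        have : y i = a i * (a i * y i) := by rw [← mul_assoc, aa, one_mul]
        nth_rewrite 2 [this]
        exact mul_mem (Subgroup.mem_sup_left (Subgroup.mem_zpowers _))
          (Subgroup.mem_sup_right (Subgroup.mem_zpowers _))
      exact ⟨(MulEquiv.subgroupCongr this.symm).trans e⟩
  · have : Subgroup.zpowers (a i) ⊔ Subgroup.zpowers (y i) ≤ Subgroup.centralizer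
        ((Subgroup.zpowers (a j) ⊔ Subgroup.zpowers (y j) : Subgroup G) : Set G) := by
      rw [H5.centralizer_sup, H5.centralizer_zpowers, H5.centralizer_zpowers]
      simp only [sup_le_iff, le_inf_iff, Subgroup.zpowers_le, Subgroup.mem_centralizer_singleton_iff]
      exact ⟨⟨H5.elemAb_comm hA (k1 i).1 (k1 j).1, (k2 j i hij.symm).symm⟩, k2 i j hij,
        h2 (k1 j).2.2.1 _ (k1 i).2.2.1⟩
    exact fun x hx z hz => (this hx z hz).symm

end Cfsg.Agent.S1349
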