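import Cfsg.Statements.S5560
import Cfsg.Agent.H6.ZS

set_option autoImplicit false
open Cfsg

namespace Cfsg.Agent.S5560

/-- A Z*-type result for an odd prime p. Let G be a finite group and d an involution of G such that the product of any two conjugates of d has order a power of p. Then the product of any two conjugates of d lies in the largest normal p-subgroup O_p(G); in other words the conjugacy class of d lies in the coset O_p(G)d, and d is central modulo O_p(G). -/
theorem result {G : Type*} [Group G] [Finite G] {p : ℕ} (hp : p.Prime) (hp2 : p ≠ 2)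
    (d : G) (hd : orderOf d = 2)
    (hprod : ∀ a ∈ conjugatesOf d, ∀ b ∈ conjugatesOf d, ∃ k : ℕ, orderOf (a * b) = p ^ k) :
    ∀ a ∈ conjugatesOf d, ∀ b ∈ conjugatesOf d, a * b ∈ Cfsg.pCore p G := by
  have hc : ∀ g : G, g * d * g⁻¹ ∈ conjugatesOf d := fun g => isConj_iff.2 ⟨g, rfl⟩
  have hd' := H6.ord2_inv hd
  have hiso : Cfsg.IsIsolatedInvolution d := by
    refine ⟨hd, fun g hg => ?_⟩
    obtain ⟨k, hk⟩ := hprod _ (hc g) d (IsConj.refl d)
    have h1 : (g * d * g⁻¹ * d) * (g * d * g⁻¹ * d) = 1 := by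
      have h2 := H6.ord2_mul_self (H6.ord2_conj hd g)
      have h3 := H6.ord2_mul_self hd
      calc (g * d * g⁻¹ * d) * (g * d * g⁻¹ * d) = (g * d * g⁻¹) * (d * (g * d * g⁻¹)) * d := by group
        _ = (g * d * g⁻¹) * (g * d * g⁻¹) * (d * d) := by rw [hg.eq]; group
        _ = 1 := by rw [h2, h3, mul_one]
    have h4 := H6.eq_one_of_odd_of_sq (by rw [hk]; exact (hp.odd_of_ne_two hp2).pow) h1
    rw [← hd'] at h4
    rw [hd'] at h4
    have := mul_eq_one_iff_eq_inv.1 h4
    rw [this, hd']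
  have key := H6.mem_pCore_of_isolated hp hiso (fun g => by rw [hd']; exact hprod _ (hc g) d (IsConj.refl d))
  intro a ha b hb
  obtain ⟨g, rfl⟩ := isConj_iff.1 ha
  obtain ⟨h, rfl⟩ := isConj_iff.1 hb
  have := (Cfsg.pCore p G).mul_mem (key g) ((Cfsg.pCore p G).inv_mem (key h))
  convert this using 1
  have h5 : (h * d * h⁻¹ * d⁻¹)⁻¹ = d * (h * d⁻¹ * h⁻¹) := by group
  rw [h5, hd']
  have h3 := H6.ord2_mul_self hd
  calc g * d * g⁻¹ * (h * d * h⁻¹) = g * d * g⁻¹ * (d * d) * (h * d * h⁻¹) := by rw [h3, mul_one]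
    _ = _ := by group

end Cfsg.Agent.S5560
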