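import Cfsg.Statements.S1618
import Cfsg.Agent.H6.ZS
import Cfsg.Agent.S5560

set_option autoImplicit false
open Cfsg

namespace Cfsg.Agent.S1618

/-- A group generated by a class of involutions whose pairwise products (of distinct members) have p-power order for a fixed odd prime p has nilpotent derived subgroup. -/
theorem result {G : Type*} [Group G] [Finite G] (p : ℕ) (hp : p.Prime) (hodd : p ≠ 2) {D : Set G} (hinv : ∀ d ∈ D, orderOf d = 2) (hconj : ∃ d ∈ D, D = conjugatesOf d) (hgen : Subgroup.closure D = ⊤) (hprod : ∀ x ∈ D, ∀ y ∈ D, x ≠ y → ∃ k : ℕ, orderOf (x * y) = p ^ k) : Group.IsNilpotent ↥(commutator G) := by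
  obtain ⟨d, hd, rfl⟩ := hconj
  haveI := Fact.mk hp
  have key := Cfsg.Agent.S5560.result hp hodd d (hinv d hd) (by
    intro a ha b hb
    by_cases hab : a = b
    · subst hab
      exact ⟨0, by rw [H6.ord2_mul_self (hinv a ha), orderOf_one, pow_zero]⟩
    · exact hprod a ha b hb hab)
  have hle : commutator G ≤ Cfsg.pCore p G := by
    rw [← Subgroup.Normal.quotient_commutative_iff_commutator_le]
    have h1 : ∀ x : G, (QuotientGroup.mk x : G ⧸ Cfsg.pCore p G) ∈ Subgroup.zpowers (QuotientGroup.mk d : G ⧸ Cfsg.pCore p G) := by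
      intro x
      have hx : x ∈ Subgroup.closure (conjugatesOf d) := hgen ▸ Subgroup.mem_top x
      induction hx using Subgroup.closure_induction with
      | mem a ha =>
        have h2 := (QuotientGroup.eq_one_iff _).2 (key a ha d hd)
        rw [QuotientGroup.mk_mul] at h2
        rw [mul_eq_one_iff_eq_inv.1 h2]
        exact inv_mem (Subgroup.mem_zpowers _)
      | one => exact one_mem _
      | mul a b _ _ ha hb => rw [QuotientGroup.mk_mul]; exact mul_mem ha hb
      | inv a _ ha => rw [QuotientGroup.mk_inv]; exact inv_mem ha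
    refine ⟨⟨fun a b => ?_⟩⟩
    obtain ⟨a, rfl⟩ := QuotientGroup.mk_surjective a
    obtain ⟨b, rfl⟩ := QuotientGroup.mk_surjective b
    obtain ⟨m, hm⟩ := h1 a
    obtain ⟨n, hn⟩ := h1 b
    rw [← hm, ← hn]
    exact zpow_mul_comm _ _ _
  exact ((H1.isPGroup_pCore p).to_le hle).isNilpotent

end Cfsg.Agent.S1618
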