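import Cfsg.Statements.S1644
import Cfsg.Agent.H26.JRU
import Cfsg.Agent.H26.JR5

set_option autoImplicit false
open Cfsg

namespace Cfsg.Agent.S1644


/-- The first Janko group recognised by an involution centraliser, at the level of isomorphism: a finite simple group with abelian Sylow 2-subgroups of order 8 and an involution whose centraliser is isomorphic to Z/2 × A₅ is isomorphic to the subgroup of GL(7, 11) generated by the two explicit Janko matrices. -/
theorem result {G : Type*} [Group G] [Finite G] [IsSimpleGroup G] (S : Sylow 2 G) (hS : IsMulCommutative (S : Subgroup G)) (h8 : Nat.card S = 8) (t : G) (ht : orderOf t = 2) (e : (Subgroup.centralizer ({t} : Set G)) ≃* Multiplicative (ZMod 2) × alternatingGroup (Fin 5)) : Cfsg.Spor.IsoJ1 G := by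
  obtain ⟨T, hT⟩ := (H10.isPGroup_zpowers_of_orderOf_eq ht).exists_le_sylow
  have : IsMulCommutative (T : Subgroup G) := ⟨⟨fun a b => (T.equiv S).injective (by
    rw [map_mul, map_mul, hS.1.1])⟩⟩
  obtain ⟨S, h⟩ := H26.J.jr_of_a5 ‹_› ht (Nat.odd_iff.2 (Nat.two_dvd_ne_zero.1 fun k =>
    T.not_dvd_index (k.trans (Subgroup.index_dvd_of_le fun x hx =>
      Subgroup.mem_centralizer_singleton_iff.2 (congrArg Subtype.val
        (this.1.1 ⟨x, hx⟩ ⟨t, hT (Subgroup.mem_zpowers t)⟩)))))) e
  exact h.isoJ1

end Cfsg.Agent.S1644
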