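import Cfsg.Statements.S1707
import Cfsg.Agent.H28.Hn
set_option maxRecDepth 100000
-- import your own Cfsg.Agent.* helpers here

set_option autoImplicit false
open Cfsg

namespace Cfsg.Agent.S1707
open H27 H28


/-- In the presented Harada–Norton group (generators x, y, z, t), the subgroup generated by the images of x, y, z has index 1539000. -/
theorem result : (((Subgroup.closure ({Cfsg.Spor.HN.x, Cfsg.Spor.HN.y, Cfsg.Spor.HN.z} : Set (FreeGroup Cfsg.Spor.HN.Gen))).map (PresentedGroup.mk (Cfsg.Spor.coxRelators Cfsg.Spor.HN.edges ∪ {r | r ∈ Cfsg.Spor.HN.extra})))).index = 1539000 := by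
  rw [open Cfsg.Spor.HN in hnB.map_closure [x, y, z] (by simp) (W := [[0], [2], [4]]) (by decide +kernel)]
  exact index_eq_of_card (hn_H3 ▸ hn_Hcard) (by norm_num) hn_card

end Cfsg.Agent.S1707
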