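import Cfsg.Statements.S1892
import Cfsg.Agent.H10.Act
import Cfsg.Agent.H1.PSolv
import Cfsg.Agent.H1.Coprime

set_option autoImplicit false
open Cfsg

namespace Cfsg.Agent.S1892

open H10

/-- Let S be a finite p-solvable group with no nontrivial normal subgroup of order prime to p, A a p-subgroup of S, and Q a nontrivial A-invariant subgroup of order prime to p with [A, Q] = Q. Then the commutator [O_p(S), A, Q] is nontrivial. -/
theorem result {S : Type*} [Group S] [Finite S] {p : ℕ} [Fact p.Prime]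
    (hS : Cfsg.IsPSolvable p S) (hred : Cfsg.pPrimeCore p S = ⊥)
    (A Q : Subgroup S) (hA : IsPGroup p A) (hQ : ¬ p ∣ Nat.card Q) (hQ1 : Q ≠ ⊥)
    (hinv : ∀ a ∈ A, ∀ x ∈ Q, a * x * a⁻¹ ∈ Q) (hAQ : ⁅A, Q⁆ = Q) :
    ⁅⁅Cfsg.pCore p S, A⁆, Q⁆ ≠ ⊥ := by
  intro h
  have hAn : A ≤ NN(Q) := le_NN_iff.2 hinv
  have hc : (Nat.card Q).Coprime p := ((Nat.Prime.coprime_iff_not_dvd Fact.out).2 hQ).symm
  have h1 : ⁅⁅A, Q⁆, pCore p S⁆ ≤ ⁅pCore p S, A⁆ :=
    three_subgroups (right_le_NN_comm _ _) ((comm_eq_bot'.1 h).trans (CC_le_NN _))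
      (left_le_NN_comm _ _)
      (Subgroup.commutator_mono (comm_le_right (le_NN_of_normal _ _)) le_rfl) (h ▸ bot_le)
  rw [hAQ, Subgroup.commutator_comm] at h1
  have h2 := H1.le_centralizer_of_commutator_commutator_eq_bot (A := Q) (K := pCore p S)
    (le_NN_of_normal _ _) (H1.IsPGroup.coprime_card (H1.isPGroup_pCore p) hc).symm
    (eq_bot_iff.2 ((Subgroup.commutator_mono h1 le_rfl).trans h.le))
  have h3 := h2.trans (H1.IsPSolvable.centralizer_pCore_le hS hred)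
  exact hQ1 (by
    rw [← H1.inf_eq_bot_of_isPGroup_of_coprime (H1.isPGroup_pCore p) hc, inf_eq_right.2 h3])

end Cfsg.Agent.S1892
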