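import Cfsg.Statements.S1893
import Cfsg.Agent.H10.SCN

set_option autoImplicit false
open Cfsg H10

namespace Cfsg.Agent.S1893

/-- Let S be a finite solvable group, π a set of primes containing neither 2 nor 3, H a Hall π-subgroup of S, and A a self-centralizing normal subgroup of the Fitting subgroup F(H). Then C_S(A) = A × D for a normal subgroup D of C_S(A) whose order has no prime divisor in π. -/
theorem result {S : Type*} [Group S] [Finite S] [Group.IsSolvable S]
    (π : Set ℕ) (h2 : 2 ∉ π) (h3 : 3 ∉ π) (H : Subgroup S) (hH : Cfsg.IsPiHall π H)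
    (A : Subgroup S) (hA : Cfsg.IsSCN ((Cfsg.fittingSubgroup H).map H.subtype) A) :
    ∃ D : Subgroup S, D ≤ Subgroup.centralizer (A : Set S) ∧
      (∀ c ∈ Subgroup.centralizer (A : Set S), ∀ d ∈ D, c * d * c⁻¹ ∈ D) ∧
      A ⊓ D = ⊥ ∧ A ⊔ D = Subgroup.centralizer (A : Set S) ∧
      ∀ q : ℕ, q.Prime → q ∣ Nat.card D → q ∉ π := by
  set O := piCore πᶜ S with hO
  let f := QuotientGroup.mk' O
  have hf : Function.Surjective f := QuotientGroup.mk'_surjective O
  have hHπ : IsPiSubgroup π H := hH.1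
  have hOπ : IsPiSubgroup πᶜ O := H1.isPiNat_card_piCore _
  have hHO : H ⊓ O = ⊥ := H15.Cfsg.IsPiSubgroup.inf_eq_bot hHπ hOπ
  change IsSCN (fittingOf H) A at hA
  have hAH : A ≤ H := hA.1.trans (H15.fittingOf_le H)
  have hAc : A ≤ Subgroup.centralizer (A : Set S) := hA.2.2.ge.trans inf_le_right
  have hinj : Function.Injective (f.comp H.subtype) := by
    rw [injective_iff_map_eq_one]
    intro x hx
    have : (x : S) ∈ H ⊓ O := ⟨x.2, (QuotientGroup.eq_one_iff _).1 hx⟩
    rw [hHO] at this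
    exact Subtype.ext this
  have hR : (fittingOf H).map f = fittingOf (H.map f) := by
    have := H15.map_fittingOf hinj (⊤ : Subgroup H)
    rw [H15.fittingOf_top, ← Subgroup.map_map, ← Subgroup.map_map, ← MonoidHom.range_eq_map,
      Subgroup.range_subtype] at this
    exact this
  have hHq : IsPiHallOf π (H.map f) ⊤ := by
    have := H1.IsPiHallOf.map (H1.isPiHallOf_top.2 hH) f
    rwa [Subgroup.map_top_of_surjective _ hf] at this
  have hFn := H15.nilpotent_fittingOf (⊤ : Subgroup (S ⧸ O))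
  have hFπ : IsPiSubgroup π (fittingOf (⊤ : Subgroup (S ⧸ O))) := by
    have e := H15.piCoreOf_sup_compl hFn π
    have e2 : piCoreOf πᶜ (fittingOf (⊤ : Subgroup (S ⧸ O))) = ⊥ := by
      refine eq_bot_iff.2 ((H15.piCoreOf_fittingOf_le _ _).trans ?_)
      rw [H15.piCoreOf_top, H1.piCore_quotient_piCore]
    rw [e2, sup_bot_eq] at e
    rw [← e]
    exact H15.isPi_piCoreOf _ _
  have hFR : fittingOf (⊤ : Subgroup (S ⧸ O)) ≤ (fittingOf H).map f := by
    rw [hR]
    exact H15.le_fittingOf (H1.IsPiHallOf.le_of_normalizes hHq le_top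
      (H15.le_norm_fittingOf_of_le le_top) hFπ) (H15.le_norm_fittingOf_of_le le_top) hFn
  have hCq : Subgroup.centralizer (A.map f : Set (S ⧸ O)) ≤ A.map f := by
    refine scn_cent_le (R := (fittingOf H).map f) (hR ▸ H15.nilpotent_fittingOf _) hFR
      (fun q hq hd => ?_) ⟨Subgroup.map_mono hA.1, ?_, le_antisymm ?_ ?_⟩
    · have : q ∈ π := hHπ q hq (hd.trans ((Subgroup.card_map_dvd _ _).trans
        (Subgroup.card_dvd_of_le (H15.fittingOf_le H))))
      have h4 : q ≠ 4 := by rintro rfl; norm_num at hq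
      have := hq.two_le
      have h2' : q ≠ 2 := by rintro rfl; contradiction
      have h3' : q ≠ 3 := by rintro rfl; contradiction
      omega
    · exact (Subgroup.map_mono hA.2.1).trans (Subgroup.le_normalizer_map f)
    · rintro _ ⟨⟨y, hy, rfl⟩, hc⟩
      refine ⟨y, hA.2.2.le ⟨hy, fun a ha => ?_⟩, rfl⟩
      have h1 := hc (f a) ⟨a, ha, rfl⟩
      rw [← map_mul, ← map_mul] at h1
      have hyH : y ∈ H := H15.fittingOf_le H hy
      exact congrArg Subtype.val (hinj (a₁ := ⟨a * y, mul_mem (hAH ha) hyH⟩)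
        (a₂ := ⟨y * a, mul_mem hyH (hAH ha)⟩) h1)
    · refine le_inf (Subgroup.map_mono hA.1) ?_
      rintro _ ⟨y, hy, rfl⟩ _ ⟨a, ha, rfl⟩
      rw [← map_mul, ← map_mul, hAc hy a ha]
  refine ⟨Subgroup.centralizer (A : Set S) ⊓ O, inf_le_left, fun c hc d hd =>
    ⟨Subgroup.mul_mem _ (Subgroup.mul_mem _ hc hd.1) (Subgroup.inv_mem _ hc), Subgroup.Normal.conj_mem inferInstance d hd.2 c⟩,
    eq_bot_iff.2 ((inf_le_inf hAH inf_le_right).trans hHO.le), le_antisymm (sup_le hAc inf_le_left)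
      fun c hc => ?_, fun q hq hd => hOπ q hq (hd.trans (Subgroup.card_dvd_of_le inf_le_right))⟩
  obtain ⟨a, ha, e⟩ : f c ∈ A.map f := hCq (by
    rintro _ ⟨a, ha, rfl⟩
    rw [← map_mul, ← map_mul, hc a ha])
  have h1 : a⁻¹ * c ∈ O := QuotientGroup.eq.1 e
  rw [show c = a * (a⁻¹ * c) by group]
  exact Subgroup.mul_mem_sup ha ⟨Subgroup.mul_mem _ (Subgroup.inv_mem _ (hAc ha)) hc, h1⟩

end Cfsg.Agent.S1893
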