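import Cfsg.Statements.S1894
import Cfsg.Agent.H10.Act
import Cfsg.Agent.H7.PGrp

set_option autoImplicit false
open Cfsg

namespace Cfsg.Agent.S1894

open H10

/-- Let P be a finite p-group, A a normal subgroup of P and B an abelian subgroup of A that is normal in P. Then some subgroup C of A containing B is normal in P and is self-centralizing and normal in A (C ∈ SCN(A)). -/
theorem result {P : Type*} [Group P] [Finite P] {p : ℕ} [Fact p.Prime] (hP : IsPGroup p P)
    (A : Subgroup P) [A.Normal] (B : Subgroup P) [B.Normal] (hBA : B ≤ A) (hB : IsMulCommutative B) :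
    ∃ C : Subgroup P, C.Normal ∧ B ≤ C ∧ Cfsg.IsSCN A C := by
  obtain ⟨C, hBC, hC⟩ := Finite.exists_le_maximal
    (p := fun C : Subgroup P => C.Normal ∧ C ≤ A ∧ C ≤ CC(C))
    (a := B) ⟨inferInstance, hBA, isMulCommutative_iff_le_CC.1 hB⟩
  obtain ⟨hn, hCA, hCC⟩ := hC.1
  refine ⟨C, hn, hBC, hCA, le_NN_of_normal _ _, le_antisymm ?_ (le_inf hCA hCC)⟩
  by_contra h
  have hN : (A ⊓ CC(C)).Normal := inferInstance
  have h1 := H7.inf_center_ne_bot (hP.to_quotient C) ((A ⊓ CC(C)).map (QuotientGroup.mk' C))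
    (by rwa [Ne, Subgroup.map_eq_bot_iff, QuotientGroup.ker_mk'])
  obtain ⟨⟨_, ⟨x, hx, rfl⟩, hx2⟩, hx3⟩ := Subgroup.ne_bot_iff_exists_ne_one.1 h1
  have hxC : x ∉ C := fun h0 => hx3 (Subtype.ext ((QuotientGroup.eq_one_iff x).2 h0))
  refine hxC (hC.2 (y := C ⊔ Subgroup.zpowers x) ⟨?_, sup_le hCA (Subgroup.zpowers_le.2 hx.1), ?_⟩
    le_sup_left (Subgroup.mem_sup_right (Subgroup.mem_zpowers x)))
  · refine normal_of_top_le_NN (le_NN_of_cj_le fun g _ => ?_)
    rw [cj_sup, cj_eq_of_normal, cj_zpowers]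
    refine sup_le le_sup_left (Subgroup.zpowers_le.2 ?_)
    have : g * x * g⁻¹ * x⁻¹ ∈ C := by
      rw [← QuotientGroup.eq_one_iff]
      have := Subgroup.mem_center_iff.1 hx2 (g : P ⧸ C)
      simp only [QuotientGroup.mk'_apply] at this
      simp [this]
    simpa using Subgroup.mul_mem _ (Subgroup.mem_sup_left this)
      (Subgroup.mem_sup_right (Subgroup.mem_zpowers x))
  · have h2 : Subgroup.zpowers x ≤ CC(C) := Subgroup.zpowers_le.2 hx.2
    rw [CC_sup]
    exact sup_le (le_inf hCC (le_CC_symm h2))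
      (le_inf h2 (isMulCommutative_iff_le_CC.1 inferInstance))

end Cfsg.Agent.S1894
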