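import Cfsg.Statements.S1898
import Cfsg.Agent.H3.Critical
import Cfsg.Agent.H10.Cores

set_option autoImplicit false
open Cfsg

namespace Cfsg.Agent.S1898

open scoped commutatorElement

/-- Let X be a finite 2-group whose derived subgroup is elementary abelian and central. Then the subgroup generated by the elements of order dividing 4 has exponent dividing 4, and every automorphism of X fixing each element of order dividing 4 has 2-power order. -/
theorem result {X : Type*} [Group X] [Finite X] (hX : IsPGroup 2 X)
    (hel : Cfsg.IsElementaryAbelian 2 (commutator X)) (hcen : commutator X ≤ Subgroup.center X) :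
    (∀ x ∈ Subgroup.closure {g : X | g ^ 4 = 1}, x ^ 4 = 1) ∧
      ∀ φ : MulAut X, (∀ g : X, g ^ 4 = 1 → φ g = g) → ∃ k : ℕ, φ ^ (2 ^ k) = 1 := by
  have : Fact (Nat.Prime 2) := ⟨Nat.prime_two⟩
  refine ⟨fun x hx => ?_, fun φ hφ => ?_⟩
  · induction hx using Subgroup.closure_induction with
    | mem x hx => exact hx
    | one => exact one_pow _
    | inv x _ h => rw [inv_pow, h, inv_one]
    | mul x y _ _ hx hy =>
      have hm : ⁅y, x⁆ ∈ commutator X :=
        Subgroup.commutator_mem_commutator (Subgroup.mem_top _) (Subgroup.mem_top _)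
      have h2 := hel.2 _ hm
      have hc := Subgroup.mem_center_iff.1 (hcen hm)
      set c := ⁅y, x⁆ with hcd
      have e : y * x = c * (x * y) := by rw [hcd, commutatorElement_def]; group
      have e1 : (x * y) ^ 2 = c * (x ^ 2 * y ^ 2) := by
        calc (x * y) ^ 2 = x * (y * x) * y := by rw [pow_two]; group
          _ = x * c * (x * y * y) := by rw [e]; group
          _ = _ := by rw [hc x]; simp only [pow_two, mul_assoc]
      have e2 : y * x ^ 2 = x ^ 2 * y := by
        calc y * x ^ 2 = (y * x) * x := by rw [pow_two, mul_assoc]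
          _ = c * (x * y) * x := by rw [e]
          _ = c * x * (y * x) := by group
          _ = c * (x * c) * (x * y) := by rw [e]; group
          _ = c ^ 2 * (x ^ 2 * y) := by rw [hc x]; simp only [pow_two, mul_assoc]
          _ = _ := by rw [h2, one_mul]
      have h3 : Commute (x ^ 2) (y ^ 2) := (show Commute (x ^ 2) y from e2.symm).pow_right 2
      have h4 : Commute c (x ^ 2 * y ^ 2) := (hc _).symm
      rw [show 4 = 2 * 2 from rfl, pow_mul, e1, h4.mul_pow, h3.mul_pow, h2, ← pow_mul, ← pow_mul]
      simp [hx, hy]
  · have : Finite (MulAut X) := Finite.of_injective _ DFunLike.coe_injective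
    obtain ⟨k, hk⟩ := H10.exists_pow_coprime (p := 2) (isOfFinOrder_of_finite φ)
    refine ⟨k, H3.aut_eq_one_of_fix_omega hX hk fun x hx => ?_⟩
    have h4 : x ^ 4 = 1 := by
      rcases hx with hx | hx
      · rw [show 4 = 2 * 2 from rfl, pow_mul, hx, one_pow]
      · exact hx.2
    have := hφ x h4
    generalize 2 ^ k = m
    induction m with
    | zero => rfl
    | succ m ih => rw [pow_succ, MulAut.mul_apply, this, ih]

end Cfsg.Agent.S1898
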