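import Cfsg.Statements.S1899

set_option autoImplicit false
open Cfsg

namespace Cfsg.Agent.S1899



/-- Let a dihedral group of order 2n, n odd and n > 1, act on a finite abelian 2-group A through automorphisms d and t with d^n = 1, t² = 1 and t d t⁻¹ = d⁻¹, and suppose that d fixes only the identity. Then A is the internal direct product of C_A(t) and its image under d. -/
theorem result {A : Type*} [CommGroup A] [Finite A] (hA : IsPGroup 2 A)
    {n : ℕ} (hn : Odd n) (hn1 : 1 < n) (d t : MulAut A) (hd : d ^ n = 1) (ht : t ^ 2 = 1) (hdt : t * d * t⁻¹ = d⁻¹)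
    (hfix : ∀ a : A, d a = a → a = 1) :
    (MulEquiv.toMonoidHom t).eqLocus (MonoidHom.id A) ⊓ ((MulEquiv.toMonoidHom t).eqLocus (MonoidHom.id A)).map d.toMonoidHom = ⊥ ∧
      (MulEquiv.toMonoidHom t).eqLocus (MonoidHom.id A) ⊔ ((MulEquiv.toMonoidHom t).eqLocus (MonoidHom.id A)).map d.toMonoidHom = ⊤ := by
  obtain ⟨m, rfl⟩ := hn
  have htt : ∀ a, t (t a) = a := fun a => by
    rw [← MulAut.mul_apply, ← sq, ht]; rfl
  have h1 : ∀ a, d (t (d a)) = t a := fun a => by
    have : d * t * d = t := by
      have := mul_inv_eq_iff_eq_mul.1 hdt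
      rw [mul_assoc, this]; group
    exact DFunLike.congr_fun this a
  have h2 : ∀ a, d (d a) = a → a = 1 := fun a h => hfix a (by
    have h3 : ∀ k, (d ^ (2 * k)) a = a := fun k => by
      induction k with
      | zero => rfl
      | succ k ih => rw [mul_add, pow_add, MulAut.mul_apply, mul_one, sq, MulAut.mul_apply, h, ih]
    have := DFunLike.congr_fun hd a
    rwa [pow_succ', MulAut.mul_apply, h3] at this)
  constructor
  · rw [eq_bot_iff]
    rintro _ ⟨h3, b, hb, rfl⟩
    have h3 : t (d b) = d b := h3
    have hb : t b = b := hb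
    have := h1 b
    rw [h3, hb] at this
    rw [h2 b this]; simp
  · let f : A →* A := MonoidHom.id A / (d * d).toMonoidHom
    have hf : Function.Surjective f := Finite.surjective_of_injective
      ((injective_iff_map_eq_one f).2 fun a ha => h2 a (div_eq_one.1 ha).symm)
    refine eq_top_iff.2 fun a _ => ?_
    obtain ⟨x, rfl⟩ := hf a
    have e : f x = (x * t x) * d ((d x * t (d x))⁻¹) := by
      show x / d (d x) = _
      rw [map_inv, map_mul, h1, mul_inv, mul_mul_mul_comm, mul_inv_cancel, mul_one, div_eq_mul_inv]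
    rw [e]
    refine Subgroup.mul_mem_sup ?_ ⟨_, inv_mem ?_, rfl⟩
    · show t (x * t x) = x * t x
      rw [map_mul, htt, mul_comm]
    · show t (d x * t (d x)) = d x * t (d x)
      rw [map_mul, htt, mul_comm]

end Cfsg.Agent.S1899
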