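import Cfsg.Statements.S1900
import Cfsg.Agent.H1.Coprime2
import Cfsg.Agent.H9.Collect
import Cfsg.Agent.H10.Act
import Cfsg.Agent.H5.SigGrp

set_option autoImplicit false
open Cfsg

namespace Cfsg.Agent.S1900

open Subgroup in
theorem lemU {S : Type*} [Group S] {K A B X N : Subgroup S} [N.Normal] (h : K ≤ A ⊔ B)
    (hA : A ≤ centralizer (X : Set S)) (hB : B ≤ N) : ⁅K, X⁆ ≤ N := by
  have : K ≤ (centralizer (X.map (QuotientGroup.mk' N) : Set (S ⧸ N))).comap (QuotientGroup.mk' N) := by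
    refine h.trans (sup_le (fun a ha => ?_) fun b hb => ?_)
    · rintro _ ⟨x, hx, rfl⟩
      rw [← map_mul, ← map_mul, hA ha x hx]
    · rw [mem_comap, show QuotientGroup.mk' N b = 1 from (QuotientGroup.eq_one_iff b).2 (hB hb)]
      exact one_mem _
  refine commutator_le.2 fun k hk x hx => (QuotientGroup.eq_one_iff _).1 ?_
  exact (map_commutatorElement (QuotientGroup.mk' N) k x).trans
    (commutatorElement_eq_one_iff_mul_comm.2 (this hk _ ⟨x, hx, rfl⟩).symm)

open Subgroup in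
theorem lemT {S : Type*} [Group S] {C D X N : Subgroup S} [N.Normal]
    (hC : C ≤ centralizer (X : Set S)) (hD : D ≤ ⁅D, X⁆) (h : ⁅⁅C, D⁆, X⁆ ≤ N) : ⁅C, D⁆ ≤ N := by
  rw [commutator_comm C D]
  refine (commutator_mono hD le_rfl).trans (H9.three_subgroups ?_ h)
  rw [commutator_comm X, commutator_eq_bot_iff_le_centralizer.2 hC, commutator_bot_left]
  exact bot_le

/-- Let S = PQ be a finite group with P a normal Sylow p-subgroup and Q elementary abelian of order q², q a prime different from p. If exactly two subgroups X₁, X₂ of order q in Q have a nontrivial centralizer in P, then P is the internal direct product of C_P(X₁) and C_P(X₂): they commute elementwise, meet trivially and generate P. -/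
theorem result {S : Type*} [Group S] [Finite S] {p q : ℕ} [Fact p.Prime] [Fact q.Prime] (hpq : p ≠ q)
    (P : Sylow p S) [(P : Subgroup S).Normal] (Q : Subgroup S) (hQ : Cfsg.IsElementaryAbelian q Q) (hQc : Nat.card Q = q ^ 2)
    (hS : (P : Subgroup S) ⊔ Q = ⊤)
    (X₁ X₂ : Subgroup S) (h₁ : X₁ ≤ Q) (h₂ : X₂ ≤ Q) (h₁₂ : X₁ ≠ X₂) (hc₁ : Nat.card X₁ = q) (hc₂ : Nat.card X₂ = q)
    (hf₁ : (P : Subgroup S) ⊓ Subgroup.centralizer (X₁ : Set S) ≠ ⊥)
    (hf₂ : (P : Subgroup S) ⊓ Subgroup.centralizer (X₂ : Set S) ≠ ⊥)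
    (honly : ∀ X : Subgroup S, X ≤ Q → Nat.card X = q →
      (P : Subgroup S) ⊓ Subgroup.centralizer (X : Set S) ≠ ⊥ → X = X₁ ∨ X = X₂) :
    ⁅(P : Subgroup S) ⊓ Subgroup.centralizer (X₁ : Set S), (P : Subgroup S) ⊓ Subgroup.centralizer (X₂ : Set S)⁆ = ⊥ ∧
      ((P : Subgroup S) ⊓ Subgroup.centralizer (X₁ : Set S)) ⊓ ((P : Subgroup S) ⊓ Subgroup.centralizer (X₂ : Set S)) = ⊥ ∧
      ((P : Subgroup S) ⊓ Subgroup.centralizer (X₁ : Set S)) ⊔ ((P : Subgroup S) ⊓ Subgroup.centralizer (X₂ : Set S)) = P := by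
  open Subgroup in
  have hq : q.Prime := Fact.out
  haveI := hQ.1
  have hPp := P.isPGroup'
  have hcop : ∀ X ≤ Q, ∀ K ≤ (P : Subgroup S), (Nat.card X).Coprime (Nat.card K) := fun X hX K hK => by
    obtain ⟨k, hk⟩ := IsPGroup.iff_card.1 (hPp.to_le hK)
    exact hk ▸ ((hQc ▸ ((Nat.coprime_primes hq Fact.out).2 hpq.symm).pow_left 2).coprime_dvd_left
      (card_dvd_of_le hX)).pow_right k
  have hz : ∀ a ∈ Q, a ≠ 1 → Nat.card (zpowers a) = q := fun a ha h1 => by
    rw [Nat.card_zpowers, orderOf_eq_prime (hQ.2 a ha) h1]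
  have hcz : ∀ a : S, centralizer (zpowers a : Set S) = centralizer {a} := fun a => by
    rw [zpowers_eq_closure, centralizer_closure]
  have hgen : ∀ K ≤ (P : Subgroup S), Q ≤ normalizer (K : Set S) →
      K ≤ K ⊓ centralizer (X₁ : Set S) ⊔ K ⊓ centralizer (X₂ : Set S) := fun K hK hn =>
    H1.le_of_forall_centralizer_le (H5.not_isCyclic_of_elemAb hQ hQc.ge) hn (hcop Q le_rfl K hK)
      fun a ha h1 => by
        rw [← hcz]
        by_cases h0 : (P : Subgroup S) ⊓ centralizer (zpowers a : Set S) = ⊥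
        · exact ((inf_le_inf_right _ hK).trans h0.le).trans bot_le
        · rcases honly _ ((zpowers_le).2 ha) (hz a ha h1) h0 with h | h
          · rw [h]; exact le_sup_left
          · rw [h]; exact le_sup_right
  have hsup := le_antisymm (sup_le inf_le_left inf_le_left) (hgen P le_rfl le_normalizer_of_normal)
  have hinf : ((P : Subgroup S) ⊓ centralizer (X₁ : Set S)) ⊓ ((P : Subgroup S) ⊓
      centralizer (X₂ : Set S)) = ⊥ := by
    have key : ∀ {X Y : Subgroup S}, X ≠ Y → Nat.card X = q → Nat.card Y = q → ∃ x ∈ X, x ∉ Y :=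
      fun hne hX hY => SetLike.not_le_iff_exists.1 fun h =>
        hne (eq_of_le_of_card_ge h (hX ▸ hY.le))
    obtain ⟨x, hx, hx'⟩ := key h₁₂ hc₁ hc₂
    obtain ⟨y, hy, hy'⟩ := key h₁₂.symm hc₂ hc₁
    have h3 : x * y ∉ X₁ := fun h => hy' ((X₁.mul_mem_cancel_left hx).1 h)
    have h4 : x * y ∉ X₂ := fun h => hx' ((X₂.mul_mem_cancel_right hy).1 h)
    have h5 := mul_mem (h₁ hx) (h₂ hy)
    by_contra h0
    refine (honly (zpowers (x * y)) ((zpowers_le).2 h5) (hz _ h5 fun h => h3 (h ▸ one_mem _))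
      fun h => h0 (eq_bot_iff.2 fun z hz => h.le ⟨hz.1.1, ?_⟩)).elim
      (fun h => h3 (h ▸ mem_zpowers _)) fun h => h4 (h ▸ mem_zpowers _)
    rw [hcz]
    exact mem_centralizer_singleton_iff.2 ((show Commute x z from hz.1.2 x hx).mul_left
      (hz.2.2 y hy)).symm
  refine ⟨?_, hinf, hsup⟩
  have hQX : ∀ X ≤ Q, Q ≤ normalizer (centralizer (X : Set S) : Set S) := fun X hX =>
    le_trans (show Q ≤ centralizer (X : Set S) from
      fun a ha x hx => H1.isMulCommutative_iff'.1 hQ.1 x (hX hx) a ha) le_normalizer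
  have hQC : ∀ X ≤ Q, Q ≤ normalizer (((P : Subgroup S) ⊓ centralizer (X : Set S) : Subgroup S) : Set S) :=
    fun X hX => H1.le_normalizer_inf le_normalizer_of_normal (hQX X hX)
  have hD : ∀ X ≤ Q, ∀ Y ≤ Q, ((P : Subgroup S) ⊓ centralizer (X : Set S)) ⊓ centralizer (Y : Set S) = ⊥ →
      (P : Subgroup S) ⊓ centralizer (X : Set S) ≤ ⁅(P : Subgroup S) ⊓ centralizer (X : Set S), Y⁆ :=
    fun X hX Y hY h => by
      have := H1.commutator_sup_centralizer (hY.trans (hQC X hX)) (hcop Y hY _ inf_le_left)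
        (Or.inr (H1.isSolvable_of_le (by have := hPp.isNilpotent; infer_instance) inf_le_left))
      rw [h, sup_bot_eq] at this
      exact this.ge
  have hD1 := hD X₁ h₁ X₂ h₂ (eq_bot_iff.2 fun z hz => hinf.le ⟨hz.1, hz.1.1, hz.2⟩)
  have hD2 := hD X₂ h₂ X₁ h₁ (eq_bot_iff.2 fun z hz => hinf.le ⟨⟨hz.1.1, hz.2⟩, hz.1⟩)
  have hQK := H1.le_normalizer_commutator (hQC X₁ h₁) (hQC X₂ h₂)
  have c1 : (P : Subgroup S) ⊓ centralizer (X₁ : Set S) ≤ centralizer (X₁ : Set S) := inf_le_right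
  have c2 : (P : Subgroup S) ⊓ centralizer (X₂ : Set S) ≤ centralizer (X₂ : Set S) := inf_le_right
  generalize (P : Subgroup S) ⊓ centralizer (X₁ : Set S) = C at *
  generalize (P : Subgroup S) ⊓ centralizer (X₂ : Set S) = D at *
  have hKP : ⁅C, D⁆ ≤ P := (commutator_le_sup C D).trans hsup.le
  haveI : (⁅C, D⁆ : Subgroup S).Normal := normalizer_eq_top_iff.1 (top_le_iff.1 (hS ▸ sup_le
    (hsup ▸ sup_le (H10.left_le_NN_comm C D) (H10.right_le_NN_comm C D)) hQK))
  have hL : ⁅⁅C, D⁆, (P : Subgroup S)⁆ ≤ ⁅C, D⁆ := commutator_le_left _ _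
  haveI : (⁅C, D⁆ ⊓ centralizer (X₂ : Set S) ⊔ ⁅⁅C, D⁆, (P : Subgroup S)⁆).Normal :=
    normalizer_eq_top_iff.1 (top_le_iff.1 (hS ▸ sup_le
      (le_normalizer_iff_commutator_le_left.2 ((commutator_mono (sup_le inf_le_left hL) le_rfl).trans le_sup_right))
      (H1.le_normalizer_sup (H1.le_normalizer_inf hQK (hQX _ h₂)) le_normalizer_of_normal)))
  have h1 := lemT c1 hD2 (lemU (N := ⁅C, D⁆ ⊓ centralizer (X₂ : Set S) ⊔ ⁅⁅C, D⁆, (P : Subgroup S)⁆)
    (hgen _ hKP hQK) inf_le_right le_sup_left)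
  have h2 := lemU h1 inf_le_right le_rfl
  have h3 := lemT c2 hD1 ((commutator_mono (commutator_comm D C).le le_rfl).trans h2)
  rw [commutator_comm D C] at h3
  exact H10.eq_bot_of_le_comm hPp hKP le_rfl h3

end Cfsg.Agent.S1900
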