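import Cfsg.Statements.S1901
import Cfsg.Agent.H10.Act
import Cfsg.Agent.H1.PSolv
import Cfsg.Agent.H1.Coprime

set_option autoImplicit false
open Cfsg

namespace Cfsg.Agent.S1901

open H10

universe u

theorem aux {p : ℕ} [Fact p.Prime] (n : ℕ) : ∀ (G : Type u) [Group G] [Finite G], Nat.card G = n →
    IsPSolvable p G → ∀ Q X P : Subgroup G, IsSylowIn p P ⊤ → (Nat.card Q).Coprime p →
    Q ≤ NN(P) → IsPGroup p X → X ≤ NN(Q) → X ≤ CC(Q) := by
  induction n using Nat.strong_induction_on with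
  | _ n ih =>
  intro G _ _ hn hG Q X P hP hQ hQP hX hXQ
  have key : ∀ (N : Subgroup G) [N.Normal], N ≠ ⊥ → ⁅Q, X⁆ ≤ Q ⊓ N := by
    intro N _ hN
    refine le_inf (comm_le_left hXQ) ?_
    have := ih _ (hn ▸ H1.card_quotient_lt hN) (G ⧸ N) rfl (H1.IsPSolvable.quotient hG N)
      (Q.map (QuotientGroup.mk' N)) (X.map (QuotientGroup.mk' N)) (P.map (QuotientGroup.mk' N))
      (hP.map_top (QuotientGroup.mk'_surjective N))
      (hQ.coprime_dvd_left (Subgroup.card_map_dvd _ _)) (map_le_NN_map _ hQP) (hX.map _)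
      (map_le_NN_map _ hXQ)
    rwa [← comm_eq_bot', ← Subgroup.map_commutator, Subgroup.map_eq_bot_iff,
      QuotientGroup.ker_mk'] at this
  rcases subsingleton_or_nontrivial G with h | h
  · exact (Subsingleton.elim _ _).le
  rcases H1.IsPSolvable.core_ne_bot hG with h | h
  · have := key _ h
    rw [inf_comm, H1.inf_eq_bot_of_isPGroup_of_coprime (H1.isPGroup_pCore p) hQ, le_bot_iff] at this
    exact comm_eq_bot'.1 this
  · have h1 : P ≤ CC(Q ⊓ pPrimeCore p G) := by
      rw [← comm_eq_bot', eq_bot_iff,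
        ← H1.inf_eq_bot_of_isPGroup_of_coprime hP.isPGroup (H1.coprime_card_pPrimeCore p)]
      exact le_inf (comm_le_right (inf_le_left.trans hQP))
        ((Subgroup.commutator_mono inf_le_right le_rfl).trans (comm_le_left (le_NN_of_normal _ _)))
    have h2 := (hP.of_le (h1.trans (CC_le_NN _)) le_top).le_of_normal h1 (NN_le_NN_CC _) hX
      (le_NN_inf hXQ (le_NN_of_normal _ _))
    exact H1.le_centralizer_of_commutator_le (key _ h) (le_CC_symm h2)
      (H1.IsPGroup.coprime_card hX (hQ.coprime_dvd_left (Subgroup.card_dvd_of_le inf_le_left)))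

/-- Let G be a finite p-solvable group and Q a subgroup of order prime to p such that p divides the index of C_G(Q) in N_G(Q). Then Q normalizes no Sylow p-subgroup of G. -/
theorem result {G : Type*} [Group G] [Finite G] {p : ℕ} [Fact p.Prime]
    (hG : Cfsg.IsPSolvable p G) (Q : Subgroup G) (hQ : ¬ p ∣ Nat.card Q)
    (hA : p ∣ (Subgroup.centralizer (Q : Set G)).relIndex (Subgroup.normalizer (Q : Set G)))
    (P : Sylow p G) : ¬ Q ≤ Subgroup.normalizer ((P : Subgroup G) : Set G) := by
  intro h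
  obtain ⟨X, hX⟩ := exists_isSylowIn p NN(Q)
  have := aux _ G rfl hG Q X P (isSylowIn_top P) ((Nat.Prime.coprime_iff_not_dvd Fact.out).2 hQ).symm
    h hX.isPGroup hX.le
  exact hX.not_dvd_relIndex (hA.trans (Subgroup.relIndex_dvd_of_le_left _ this))

end Cfsg.Agent.S1901
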