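import Cfsg.Statements.S1902
import Cfsg.Agent.H15.TB
import Cfsg.Agent.H10.AG

set_option autoImplicit false
open Cfsg H10

namespace Cfsg.Agent.S1902

/-- Let p be an odd prime, G a finite p-solvable group, and B an elementary abelian subgroup of order p² such that B is the subgroup generated by the elements of order p of some Sylow p-subgroup of C_G(b₀), for some nontrivial b₀ ∈ B. Then every B-invariant subgroup of G of order prime to p lies in O_{p'}(G). -/
theorem result {G : Type*} [Group G] [Finite G] {p : ℕ} [Fact p.Prime] (hp : p ≠ 2)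
    (hG : Cfsg.IsPSolvable p G) (B : Subgroup G) (hB : Cfsg.IsElementaryAbelian p B) (hBc : Nat.card B = p ^ 2)
    (b₀ : G) (hb₀ : b₀ ∈ B) (hb₁ : b₀ ≠ 1) (P : Sylow p ↥(Subgroup.centralizer ({b₀} : Set G)))
    (hBP : B = Subgroup.closure {x : G | x ∈ ((P : Subgroup ↥(Subgroup.centralizer ({b₀} : Set G))).map
      (Subgroup.centralizer ({b₀} : Set G)).subtype : Subgroup G) ∧ orderOf x = p})
    (Q : Subgroup G) (hQ : ¬ p ∣ Nat.card Q) (hinv : ∀ b ∈ B, ∀ x ∈ Q, b * x * b⁻¹ ∈ Q) :
    Q ≤ Cfsg.pPrimeCore p G := by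
  have hp' : p.Prime := Fact.out
  have hBp : IsPGroup p B := IsPGroup.of_card hBc
  refine H15.PCon.le_core_of_tb_top (H15.pcon_of_psolvable hG) hp (A := B) ?_ ?_ ?_ ?_
  · intro r hr hd h
    rw [Set.mem_singleton_iff] at h
    exact hQ (h ▸ hd)
  · intro r hr hd
    rw [hBc] at hd
    exact (Nat.prime_dvd_prime_iff_eq hr hp').1 (hr.dvd_of_dvd_pow hd)
  · intro b hb
    rw [Subgroup.mem_normalizer_iff]
    intro h
    refine ⟨fun hh => hinv b hb h hh, fun hh => ?_⟩
    have := hinv b⁻¹ (B.inv_mem hb) _ hh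
    simpa [mul_assoc] using this
  · intro x hx hxp
    have hBN : B ≤ Subgroup.normalizer (Q : Set G) := by
      intro b hb
      rw [Subgroup.mem_normalizer_iff]
      intro h
      refine ⟨fun hh => hinv b hb h hh, fun hh => ?_⟩
      have := hinv b⁻¹ (B.inv_mem hb) _ hh
      simpa [mul_assoc] using this
    apply hBN
    have hxc : ∀ b ∈ B, b * x = x * b := fun b hb => hx b hb
    have hBC : B ≤ (Subgroup.centralizer ({b₀} : Set G)) := by
      intro b hb
      rw [Subgroup.mem_centralizer_iff]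
      intro y hy
      rw [Set.mem_singleton_iff] at hy
      subst hy
      have := hB.1.is_comm.comm ⟨y, hb₀⟩ ⟨b, hb⟩
      exact congrArg Subtype.val this
    have hxC : x ∈ (Subgroup.centralizer ({b₀} : Set G)) := by
      rw [Subgroup.mem_centralizer_iff]
      intro y hy
      rw [Set.mem_singleton_iff] at hy
      subst hy
      exact hxc _ hb₀
    have hzp : IsPGroup p (Subgroup.zpowers x) := by
      intro g
      obtain ⟨g, k, rfl⟩ := g
      refine ⟨1, Subtype.ext ?_⟩
      simp only [pow_one, Subgroup.coe_pow, Subgroup.coe_one]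
      rw [← zpow_natCast, ← zpow_mul, mul_comm, zpow_mul, zpow_natCast, hxp, one_zpow]
    have hzN : Subgroup.zpowers x ≤ Subgroup.normalizer (B : Set G) := by
      rw [Subgroup.zpowers_le]
      exact Subgroup.centralizer_le_normalizer _ hx
    have hE : IsPGroup p ↥(Subgroup.zpowers x ⊔ B) := hzp.to_sup_of_normal_right' hBp hzN
    have hEC : Subgroup.zpowers x ⊔ B ≤ (Subgroup.centralizer ({b₀} : Set G)) := sup_le (by rwa [Subgroup.zpowers_le]) hBC
    have hE' : IsPGroup p ↥((Subgroup.zpowers x ⊔ B).subgroupOf (Subgroup.centralizer ({b₀} : Set G))) := hE.comap_subtype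
    obtain ⟨P', hP'⟩ := hE'.exists_le_sylow
    obtain ⟨c, rfl⟩ := MulAction.exists_smul_eq (Subgroup.centralizer ({b₀} : Set G)) P P'
    have key : ∀ y ∈ Subgroup.zpowers x ⊔ B, y ^ p = 1 → (c : G)⁻¹ * y * c ∈ B := by
      intro y hy hyp
      by_cases hy1 : y = 1
      · subst hy1; simp
      rw [hBP]
      apply Subgroup.subset_closure
      refine ⟨?_, ?_⟩
      · have h1 : (⟨y, hEC hy⟩ : (Subgroup.centralizer ({b₀} : Set G))) ∈ ((c • P : Sylow p (Subgroup.centralizer ({b₀} : Set G))) : Subgroup (Subgroup.centralizer ({b₀} : Set G))) := hP' (by simpa [Subgroup.mem_subgroupOf] using hy)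
        rw [Sylow.coe_subgroup_smul, Subgroup.mem_pointwise_smul_iff_inv_smul_mem] at h1
        refine ⟨_, h1, ?_⟩
        simp
      · have : (c : G)⁻¹ * y * c = MulAut.conj (c : G)⁻¹ y := by simp
        rw [this, MulEquiv.orderOf_eq]
        exact orderOf_eq_prime hyp hy1
    have hle : B.map (MulAut.conj (c : G)⁻¹).toMonoidHom ≤ B := by
      intro z hz
      obtain ⟨y, hy, rfl⟩ := hz
      have := key y (Subgroup.mem_sup_right hy) (hB.2 y hy)
      simpa using this
    have heq : B.map (MulAut.conj (c : G)⁻¹).toMonoidHom = B := by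
      apply Subgroup.eq_of_le_of_card_ge hle
      rw [Subgroup.card_map_of_injective (MulAut.conj (c : G)⁻¹).injective]
    have h2 := key x (Subgroup.mem_sup_left (Subgroup.mem_zpowers x)) hxp
    rw [← heq] at h2
    obtain ⟨y, hy, hyx⟩ := h2
    have : y = x := by simpa using hyx
    exact this ▸ hy

end Cfsg.Agent.S1902
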