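import Cfsg.Statements.S1903
import Cfsg.Agent.H22.QC
import Cfsg.Agent.H22.QB
import Cfsg.Agent.H6.SU1
import Cfsg.Agent.H6.U34c
import Cfsg.Agent.H3.Transfer2

set_option autoImplicit false
open Cfsg

namespace Cfsg.Agent.S1903

open Subgroup H22.QA Matrix
attribute [-simp] H23.conj_apply

theorem src {G : Type*} [Group G] [Finite G] (hG : Nat.card G = 320)
    (hD : Nat.card (commutator G) = 64) (hZ : IsKleinFour (center (commutator G))) : H320 G := by
  have : Fact (Nat.Prime 5) := ⟨by norm_num⟩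
  have : Fact (Nat.Prime 2) := ⟨by norm_num⟩
  obtain ⟨x, hx⟩ := exists_prime_orderOf_dvd_card' (G := G) 5 (by rw [hG]; norm_num)
  have hc : (commutator G).IsComplement' (zpowers x) :=
    isComplement'_of_coprime (by rw [hD, Nat.card_zpowers, hx, hG])
      (by rw [hD, Nat.card_zpowers, hx]; norm_num)
  have dec : ∀ g : G, ∃ q ∈ commutator G, ∃ k : ℤ, g = q * x ^ k := fun g => by
    obtain ⟨⟨q, y, k, rfl⟩, h⟩ := hc.2 g
    exact ⟨q, q.2, k, h.symm⟩
  let α : MulAut (commutator G) := MulAut.conjNormal x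
  have a5 : ∀ y, α (α (α (α (α y)))) = y := fun y =>
    MulEquiv.congr_fun (show α ^ 5 = 1 by rw [← map_pow, ← hx, pow_orderOf_eq_one, map_one]) y
  have hZa : ∀ y ∈ center (commutator G), α y ∈ center (commutator G) := fun y hy => by
    rw [mem_center_iff] at hy ⊢
    intro g
    obtain ⟨g, rfl⟩ := α.surjective g
    rw [← map_mul, hy, map_mul]
  have zfix : ∀ z ∈ center (commutator G), α z = z := by
    have c4 := hZ.card_four
    have h1 := card_fix (p := 5) α.toMonoidHom a5 _ hZa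
    have h2 : Nat.card (center (commutator G) ⊓ α.toMonoidHom.eqLocus (MonoidHom.id _) :
      Subgroup (commutator G)) ≤ 4 := c4 ▸ card_le_of_le inf_le_left
    have h3 : center (commutator G) ⊓ α.toMonoidHom.eqLocus (MonoidHom.id _) = center _ :=
      eq_of_le_of_card_ge inf_le_left (by rw [c4] at h1 ⊢; unfold Nat.ModEq at h1; omega)
    intro z hz
    exact (h3.ge hz).2
  have hi : (commutator G).index = 5 := by
    have := (commutator G).card_mul_index
    rw [hD, hG] at this; omega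
  let P : Sylow 2 G := (IsPGroup.of_card (p := 2) (n := 6) hD).toSylow (by rw [hi]; norm_num)
  have hzc : ∀ z ∈ center (commutator G), (z : G) ∈ ⁅commutator G, commutator G⁆ := fun z hz => by
    refine H3.mem_commutator_sylow_of_central P z.2 z.2 ?_
    rw [mem_center_iff]
    intro g
    obtain ⟨q, hq, k, rfl⟩ := dec g
    have h1 : Commute x z := by
      have : x * z * x⁻¹ = z := congrArg Subtype.val (zfix z hz)
      rw [mul_inv_eq_iff_eq_mul] at this; exact this
    have h2 : q * z = z * q := congrArg Subtype.val (mem_center_iff.1 hz ⟨q, hq⟩)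
    rw [mul_assoc, (h1.zpow_left k).eq, ← mul_assoc, h2, mul_assoc]
  have hmap : (commutator (commutator G)).map (commutator G).subtype = ⁅commutator G, commutator G⁆ := by
    rw [_root_.commutator_def (commutator G : Subgroup G), map_commutator, ← MonoidHom.range_eq_map,
      range_subtype]
  refine ⟨hG, commutator G, inferInstance, x, hx, hD, hZ, fun z hz => ?_, ?_⟩
  · have := hzc z hz
    rw [← hmap] at this
    obtain ⟨w, hw, e⟩ := this
    rwa [← show w = z from Subtype.ext e]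
  · by_contra hn
    push Not at hn
    let K := ⁅commutator G, commutator G⁆
    have h1 : ∀ q ∈ commutator G, Commute (x : G ⧸ K) (q : G ⧸ K) := fun q hq => by
      have := (QuotientGroup.eq_one_iff (N := K) _).2 (hzc _ (hn ⟨q, hq⟩))
      change ((x * q * x⁻¹ * q⁻¹ : G) : G ⧸ K) = 1 at this
      simp only [QuotientGroup.mk_mul, QuotientGroup.mk_inv, mul_inv_eq_iff_eq_mul, one_mul] at this
      exact this
    have h2 : ∀ q ∈ commutator G, ∀ r ∈ commutator G, Commute (q : G ⧸ K) (r : G ⧸ K) :=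
      fun q hq r hr => by
      have := (QuotientGroup.eq_one_iff (N := K) _).2 (commutator_mem_commutator hq hr)
      simp only [commutatorElement_def, QuotientGroup.mk_mul, QuotientGroup.mk_inv, one_mul,
        mul_inv_eq_iff_eq_mul] at this
      exact this
    have h3 : commutator G ≤ K := by
      rw [_root_.commutator_def, commutator_le]
      intro a _ b _
      obtain ⟨q, hq, k, rfl⟩ := dec a
      obtain ⟨r, hr, l, rfl⟩ := dec b
      rw [← QuotientGroup.eq_one_iff]
      change QuotientGroup.mk' K _ = 1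
      rw [map_commutatorElement, commutatorElement_eq_one_iff_commute]
      simp only [map_mul, map_zpow, QuotientGroup.mk'_apply]
      exact ((h2 q hq r hr).mul_right ((h1 q hq).symm.zpow_right l)).mul_left
        (((h1 r hr).zpow_left k).mul_right (Commute.zpow_zpow_self _ _ _))
    have hp : IsPGroup 2 (commutator G) := IsPGroup.of_card (n := 6) hD
    have : Nontrivial (commutator G) := Finite.one_lt_card_iff_nontrivial.1 (by omega)
    have := hp.isNilpotent
    have h4 := Group.IsSolvable.commutator_lt_top_of_nontrivial (commutator G)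
    apply h4.ne
    rw [eq_top_iff]
    intro z _
    have := h3 z.2
    simp only [K] at this
    rw [← hmap] at this
    obtain ⟨w, hw, e⟩ := this
    rwa [← show w = z from Subtype.ext e]

section
variable {E : Type*} [Field E] [Fintype E] [CharP E 2] {q : ℕ} {hE : Fintype.card E = q ^ 2} {α : E}

local notation "σ" => H23.conj hE
open H6 H6.SUM

def u0 (hE : Fintype.card E = q ^ 2) : UG hE := ⟨0, 1, by simp [CharTwo.add_self_eq_zero]⟩

theorem unit (hα : σ α = α + 1) (g : Cfsg.SU 3 E q) :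
    (cm α g)ᵀ * !![0, 0, 1; 0, 1, 0; 1, 0, 0] * (cm α g).map σ = !![0, 0, 1; 0, 1, 0; 1, 0, 0] := by
  have t0 : (2 : E) = 0 := CharTwo.two_eq_zero
  have hJ : (pM α)ᵀ * (pM α).map σ = !![0, 0, 1; 0, 1, 0; 1, 0, 0] := by
    ext i j
    fin_cases i <;> fin_cases j <;> simp [pM, Matrix.mul_apply, Fin.sum_univ_three, hα] <;> grind
  have hg := (H13.mem_SU_iff_mat hE).1 g.2
  have h1 : (pI α)ᵀ * (pM α)ᵀ = 1 := by rw [← transpose_mul, pM_pI, transpose_one]
  have h2 : (pM α).map σ * (pI α).map σ = 1 := by rw [← Matrix.map_mul, pM_pI]; simp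
  change (pI α * g.1.1 * pM α)ᵀ * _ * (pI α * g.1.1 * pM α).map σ = _
  rw [← hJ]
  simp only [transpose_mul, Matrix.map_mul, Matrix.mul_assoc]
  rw [← Matrix.mul_assoc (pI α)ᵀ, h1, Matrix.one_mul, ← Matrix.mul_assoc ((pM α).map σ), h2,
    Matrix.one_mul, ← Matrix.mul_assoc g.1.1ᵀ, hg, Matrix.one_mul]

theorem det_cm (g : Cfsg.SU 3 E q) : (cm α g).det = 1 := by
  change (pI α * g.1.1 * pM α).det = 1
  rw [det_mul, det_mul, g.1.2, mul_one, ← det_mul, pI_pM, det_one]

theorem dec (hα : σ α = α + 1) {g : Cfsg.SU 3 E q} (hg : g * UG.toSU (u0 hE) = UG.toSU (u0 hE) * g) :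
    ∃ (u : UG hE) (m : Eˣ), σ m * m = 1 ∧ g = UG.toSU u * hH hα m := by
  have t0 : (2 : E) = 0 := CharTwo.two_eq_zero
  have h1 := congrArg (cm α) hg
  rw [map_mul, map_mul, cm_x] at h1
  have h2 := unit hα g
  have h3 := det_cm (α := α) g
  generalize hN : cm α g = N at h1 h2 h3
  have a := fun i j => congrFun (congrFun h1 i) j
  have a1 := a 0 0
  have a2 := a 0 1
  have a3 := a 0 2
  have a4 := a 1 2
  simp [Matrix.mul_apply, Fin.sum_univ_three, u0] at a1 a2 a3 a4
  have a5 : N 2 2 = N 0 0 := by linear_combination -a3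
  have b := fun i j => congrFun (congrFun h2 i) j
  have b1 := b 0 2
  have b2 := b 1 2
  have b3 := b 2 2
  simp [Matrix.mul_apply, Fin.sum_univ_three, a1, a2, a4, a5] at b1 b2 b3
  simp [det_fin_three, a1, a2, a4, a5] at h3
  have h0 : N 0 0 ≠ 0 := left_ne_zero_of_mul_eq_one b1
  have hs : σ (N 0 0) = (N 0 0)⁻¹ := eq_inv_of_mul_eq_one_right b1
  have h11 : N 1 1 = (N 0 0)⁻¹ * (N 0 0)⁻¹ := by field_simp; linear_combination h3
  refine ⟨⟨N 1 2 * σ (N 0 0), N 0 2 * σ (N 0 0), ?_⟩, Units.mk0 _ h0, by simp [mul_comm, b1], cm_inj α ?_⟩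
  · simp only [map_mul, H23.conj_conj]
    linear_combination b3 - (N 1 2 * σ (N 1 2)) * b1 - (N 1 2 * σ (N 1 2)) * t0
  · rw [map_mul, cm_x, cm_h, hN]
    rw [hs, h11] at b2
    have b4 : N 0 1 = (N 0 0)⁻¹ * σ (N 1 2) := by
      field_simp at b2 ⊢
      linear_combination b2 - σ (N 1 2) * t0
    ext i j
    fin_cases i <;> fin_cases j <;>
      simp [Matrix.mul_apply, Fin.sum_univ_three, a1, a2, a4, a5, hs, h11, b4, H23.conj_conj] <;>
      field_simp

end

section
variable {E : Type*} [Field E] [Fintype E] [CharP E 2] (hE : Fintype.card E = 4 ^ 2)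
local notation "σ" => H23.conj hE
open H6 H6.SUM

theorem tgt : H320 (centralizer {UG.toSU (u0 hE)}) := by
  obtain ⟨α, hα⟩ : ∃ α : E, σ α = α + 1 := by
    obtain ⟨ω, h⟩ := exists_omega hE
    exact ⟨ω, by linear_combination h - ω * (CharTwo.two_eq_zero : (2 : E) = 0)⟩
  have M := um hα (by norm_num)
  set C := centralizer {UG.toSU (u0 hE)} with hC
  have mU : ∀ u : UG hE, UG.toSU u ∈ C := fun u => by
    rw [hC, mem_centralizer_singleton_iff, ← map_mul, ← map_mul]
    congr 1
    ext <;> simp [u0, add_comm]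
  have cj : ∀ (m : Eˣ) (u : UG hE), σ m * m = 1 → ∃ v : UG hE, v.a = m ^ 2 * u.a ∧ v.s = u.s ∧
      hH hα m * UG.toSU u * (hH hα m)⁻¹ = UG.toSU v := fun m u hm => by
    have h5 : (m : E) ^ 5 = 1 := by rw [← hm, H23.conj_apply, pow_succ]
    refine ⟨⟨m ^ 2 * u.a, u.s, ?_⟩, rfl, rfl, M.hx _ _ _ ?_ (by simp [hm])⟩
    · rw [u.tr, map_mul, map_pow]
      linear_combination (-(σ u.a * u.a) * (σ m * m + 1)) * hm
    · have := m.ne_zero
      simp only [H23.conj_apply]
      field_simp
      linear_combination (-u.a) * h5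
  have mH : ∀ m : Eˣ, σ m * m = 1 → hH hα m ∈ C := fun m hm => by
    obtain ⟨v, h1, h2, h3⟩ := cj m (u0 hE) hm
    rw [hC, mem_centralizer_singleton_iff, ← mul_inv_eq_iff_eq_mul, h3]
    congr 1
    exact UG.ext (by simpa [u0] using h1) h2
  have km : ∀ m : Eˣ, m ∈ (powMonoidHom (4 + 1) : Eˣ →* Eˣ).ker ↔ σ m * m = 1 := fun m => by
    rw [MonoidHom.mem_ker, powMonoidHom_apply, ← Units.val_inj, H23.conj_apply, ← pow_succ]; simp
  have cC : Nat.card C = 320 := by
    rw [← Nat.card_congr (Equiv.ofBijective (fun p : UG hE × (powMonoidHom (4 + 1) : Eˣ →* Eˣ).ker =>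
      (⟨UG.toSU p.1 * hH hα p.2, mul_mem (mU _) (mH _ ((km _).1 p.2.2))⟩ : C)) ⟨?_, ?_⟩),
      Nat.card_prod, UG.card, H23.card_ker_pow_succ hE]
    · rfl
    · rintro ⟨u, m⟩ ⟨v, n⟩ e
      have e' : UG.toSU u * hH hα m = UG.toSU v * hH hα n := congrArg Subtype.val e
      obtain ⟨h1, h2⟩ := M.one (v⁻¹ * u) (m.1 * (n.1)⁻¹) (by
        rw [map_mul, map_mul, map_inv, map_inv, mul_assoc, ← mul_assoc (UG.toSU u), e']; group)
      exact Prod.ext (inv_mul_eq_one.1 h1).symm (Subtype.ext (mul_inv_eq_one.1 h2))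
    · rintro ⟨g, hg⟩
      obtain ⟨u, m, hm, rfl⟩ := dec hα (mem_centralizer_singleton_iff.1 hg)
      exact ⟨(u, ⟨m, (km m).2 hm⟩), rfl⟩
  let j : UG hE →* C := UG.toSU.codRestrict C mU
  have ji : Function.Injective j := fun u v e => UG.toSU_injective (congrArg Subtype.val e)
  have hn : j.range.Normal := ⟨by
    rintro _ ⟨u, rfl⟩ ⟨g, hg⟩
    obtain ⟨w, m, hm, rfl⟩ := dec hα (mem_centralizer_singleton_iff.1 hg)
    obtain ⟨v, -, -, h3⟩ := cj m u hm
    refine ⟨w * v * w⁻¹, Subtype.ext ?_⟩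
    change UG.toSU (w * v * w⁻¹) = _ * UG.toSU u * _
    rw [map_mul, map_mul, map_inv, ← h3]
    simp [mul_assoc]⟩
  obtain ⟨l, hl⟩ := H13.exists_unit_orderOf (K := E) (d := 5) (by rw [hE]; norm_num)
  have hl5 : l ^ 5 = 1 := by rw [← hl, pow_orderOf_eq_one]
  have hl' : σ l * l = 1 := (km l).1 hl5
  let e := MonoidHom.ofInjective ji
  obtain ⟨π, i, h⟩ := (isU34_UG (hF := hE)).of_equiv e
  refine ⟨cC, j.range, hn, ⟨hH hα l, mH l hl'⟩, ?_, h.card, h.center_eq ▸ h.four,
    (h.center_eq.trans h.commutator_eq.symm).le, ?_⟩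
  · rw [← orderOf_coe, ← hl]
    refine orderOf_injective (hH hα) ((injective_iff_map_eq_one _).2 fun m hm => ?_) l
    exact (M.one 1 m (by simpa using hm)).2
  · obtain ⟨u, hu⟩ := (su_qx hE).surj (.ofAdd 1)
    have hu' : u.a = 1 := hu
    obtain ⟨v, h1, -, h3⟩ := cj l u hl'
    refine ⟨e u, fun hz => ?_⟩
    have e1 : MulAut.conjNormal (⟨hH hα l, mH l hl'⟩ : C) (e u) = e v := Subtype.ext (Subtype.ext h3)
    rw [e1, ← map_inv, ← map_mul, h.center_eq, h.mem_range, ← h.mul_self_eq_one, ← map_mul,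
      map_eq_one_iff _ e.injective, UG.mul_self_eq_one, UG.mul_a, UG.inv_a, h1, hu', mul_one,
      CharTwo.add_eq_zero, ← Units.val_pow_eq_pow_val, Units.val_eq_one,
      ← orderOf_dvd_iff_pow_eq_one, hl] at hz
    omega

end

/-- A finite group of order 320 whose derived subgroup has order 64 and has centre a Klein four-group is isomorphic to the centralizer of an involution in PSU₃(4). -/
theorem result {G : Type*} [Group G] [Finite G] (hG : Nat.card G = 320) (hD : Nat.card (commutator G) = 64)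
    (hZ : IsKleinFour (Subgroup.center (commutator G)))
    {F : Type*} [Field F] [Fintype F] (hF : Fintype.card F = 16) :
    ∃ t : Cfsg.PSU 3 F 4, orderOf t = 2 ∧ Nonempty (G ≃* Subgroup.centralizer ({t} : Set (Cfsg.PSU 3 F 4))) := by
  have := H6.charP_of_card_sixteen hF
  have hE : Fintype.card F = 4 ^ 2 := hF
  let e : Cfsg.SU 3 F 4 ≃* Cfsg.PSU 3 F 4 := MulEquiv.ofBijective (QuotientGroup.mk' _)
    ⟨H6.mk_PSU34_injective hE, QuotientGroup.mk'_surjective _⟩
  have := Fact.mk Nat.prime_two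
  refine ⟨e (H6.UG.toSU (u0 hE)), ?_, ?_⟩
  · rw [MulEquiv.orderOf_eq, orderOf_injective _ H6.UG.toSU_injective]
    exact orderOf_eq_prime (pow_two (u0 hE) ▸ H6.UG.mul_self_eq_one.2 rfl)
      fun h => one_ne_zero (congrArg H6.UG.s h)
  · obtain ⟨f⟩ := (src hG hD hZ).iso (tgt hE)
    refine ⟨f.trans ((e.subgroupMap _).trans (MulEquiv.subgroupCongr ?_))⟩
    ext x
    obtain ⟨x, rfl⟩ := e.surjective x
    rw [mem_centralizer_singleton_iff, ← map_mul, ← map_mul, e.injective.eq_iff,
      ← mem_centralizer_singleton_iff]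
    exact mem_map_iff_mem e.injective

end Cfsg.Agent.S1903
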