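import Cfsg.Statements.S1905
import Cfsg.Agent.H10.Spe
import Cfsg.Agent.H6.SE

set_option autoImplicit false
open Cfsg

namespace Cfsg.Agent.S1905

open H10

/-- Let M be a subgroup of even order of a finite group S such that M contains the centralizer in S of each of its involutions and the normal core of M in S has odd order. Then all involutions of S are conjugate. If moreover N_S(X) ≤ M for a Sylow 2-subgroup X of M and I is an involution in the centre of X, then all involutions of M are conjugate in M and M = M₀ C_M(I) for some subgroup M₀ of M of odd order. -/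
theorem result {S : Type*} [Group S] [Finite S] (M : Subgroup S) (hM : Even (Nat.card M))
    (hC : ∀ i ∈ M, orderOf i = 2 → Subgroup.centralizer ({i} : Set S) ≤ M) (hcore : Odd (Nat.card M.normalCore)) :
    (∀ x y : S, orderOf x = 2 → orderOf y = 2 → IsConj x y) ∧
      ∀ (X : Sylow 2 M) (I : M), I ∈ (Subgroup.center ↥(X : Subgroup ↥M)).map (X : Subgroup ↥M).subtype → orderOf I = 2 →
        Subgroup.normalizer (((X : Subgroup M).map M.subtype : Subgroup S) : Set S) ≤ M →
        (∀ x y : M, orderOf x = 2 → orderOf y = 2 → IsConj x y) ∧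
          ∃ M₀ : Subgroup M, Odd (Nat.card M₀) ∧
            ∀ m : M, ∃ a ∈ M₀, ∃ c ∈ Subgroup.centralizer ({I} : Set M), m = a * c := by
  have : Fact (Nat.Prime 2) := ⟨Nat.prime_two⟩
  obtain ⟨i, hi, hi2⟩ := H6.exists_ord2_mem_of_even hM
  obtain ⟨u, hu, huM⟩ : ∃ u : S, orderOf u = 2 ∧ u ∉ M := by
    by_contra h
    push Not at h
    exact H6.odd_card_iff.1 hcore i (fun g => h _ (H6.ord2_conj hi2 g)) hi2
  have key : ∀ x y : S, orderOf x = 2 → orderOf y = 2 → x ∈ M → y ∉ M → IsConj x y := by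
    intro x y hx hy hxM hyM
    refine H6.isConj_of_odd (H6.ord2_mul_self hx) (H6.ord2_mul_self hy) ?_
    rw [← Nat.not_even_iff_odd]
    intro he
    obtain ⟨h1, h2, h3⟩ := H6.exists_central_inv (H6.ord2_mul_self hx) (H6.ord2_mul_self hy) he
    exact hyM (hC _ (hC x hxM hx (H6.mem_cent_iff_commute.2 h2)) h1
      (H6.mem_cent_iff_commute.2 h3.symm))
  refine ⟨fun x y hx hy => ?_, fun X I _ hI hN => ?_⟩
  · by_cases h1 : x ∈ M <;> by_cases h2 : y ∈ M
    · exact (key x u hx hu h1 huM).trans (key y u hy hu h2 huM).symm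
    · exact key x y hx hy h1 h2
    · exact (key y x hy hx h2 h1).symm
    · exact (key i x hi2 hx hi h1).symm.trans (key i y hi2 hy hi h2)
  have hX := isSylowIn_map_subtype X
  have hs := spe_of_centralizers (fun h => huM (h.ge (Subgroup.mem_top u))) hX
    (fun x hx => hC x (hX.le hx)) hN
  have hse : IsStronglyEmbedded M := H6.stronglyEmbedded_iff.2
    ⟨hs.2.1, ⟨i, hi, hi2⟩, fun g t ht htM hg => spe_mem_elt hs htM ht hg⟩
  have h1 : ∀ x y : M, orderOf x = 2 → orderOf y = 2 → ∃ k : M, (k : S) ∈ cj u M ∧ k * x * k⁻¹ = y := by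
    intro x y hx hy
    obtain ⟨k, hk, e1, e2⟩ := H6.se_exists_inverted_conj hse hu huM
      (by rwa [Subgroup.orderOf_coe]) x.2 (by rwa [Subgroup.orderOf_coe]) y.2
    refine ⟨⟨k, hk⟩, ?_, Subtype.ext e2⟩
    rw [← inv_mem_iff]
    exact e1 ▸ conj_mem_cj hk
  refine ⟨fun x y hx hy => (h1 x y hx hy).elim fun k hk => isConj_iff.2 ⟨k, hk.2⟩,
    (cj u M).subgroupOf M, ?_, fun m => ?_⟩
  · rw [← card_map_subtype, Subgroup.subgroupOf_map_subtype, inf_comm, ← Nat.not_even_iff_odd,
      even_iff_two_dvd]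
    exact (spe_iff_inf.1 hs).2.2 u huM
  · obtain ⟨k, hk, e⟩ := h1 I _ hI (H6.ord2_conj hI m)
    refine ⟨k, hk, k⁻¹ * m, H6.mem_cent_singleton.2 ?_, by group⟩
    calc k⁻¹ * m * I = k⁻¹ * (m * I * m⁻¹) * m := by group
      _ = _ := by rw [← e]; group

end Cfsg.Agent.S1905
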