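import Cfsg.Statements.S1907
import Cfsg.Agent.H10.Act
import Cfsg.Agent.H1.PSolv
import Cfsg.Agent.H1.Hall

set_option autoImplicit false
open Cfsg

namespace Cfsg.Agent.S1907

open H10

/-- Let P be a Sylow p-subgroup of a finite group G, H = P ∩ O_{p',p}(G), N = N_G(H) and D = O_{p'}(G). (a) If y is an element of p-power order of N and d ∈ D with d⁻¹ y d ∈ N, then d = d₁ d₂ with d₁ ∈ C_D(y) and d₂ ∈ C_D(H). (b) Two elements of P that are conjugate in G are conjugate in N. -/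
theorem result {G : Type*} [Group G] [Finite G] {p : ℕ} [Fact p.Prime] (P : Sylow p G) :
    (∀ y ∈ Subgroup.normalizer (((P : Subgroup G) ⊓ Cfsg.pPrimePCore p G : Subgroup G) : Set G), (∃ k : ℕ, orderOf y = p ^ k) →
      ∀ d ∈ Cfsg.pPrimeCore p G, d⁻¹ * y * d ∈ Subgroup.normalizer (((P : Subgroup G) ⊓ Cfsg.pPrimePCore p G : Subgroup G) : Set G) →
        ∃ d₁ ∈ Cfsg.pPrimeCore p G ⊓ Subgroup.centralizer ({y} : Set G),
          ∃ d₂ ∈ Cfsg.pPrimeCore p G ⊓ Subgroup.centralizer (((P : Subgroup G) ⊓ Cfsg.pPrimePCore p G : Subgroup G) : Set G), d = d₁ * d₂) ∧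
    ∀ x y : G, x ∈ (P : Subgroup G) → y ∈ (P : Subgroup G) → IsConj x y →
      ∃ n ∈ Subgroup.normalizer (((P : Subgroup G) ⊓ Cfsg.pPrimePCore p G : Subgroup G) : Set G), n * x * n⁻¹ = y := by
  set H := (P : Subgroup G) ⊓ pPrimePCore p G with hH
  have hHp : IsPGroup p H := P.isPGroup'.to_le inf_le_left
  have ha : ∀ y ∈ NN(H), (∃ k : ℕ, orderOf y = p ^ k) → ∀ d ∈ pPrimeCore p G, d⁻¹ * y * d ∈ NN(H) →
      ∃ d₁ ∈ pPrimeCore p G ⊓ Subgroup.centralizer ({y} : Set G), ∃ d₂ ∈ pPrimeCore p G ⊓ CC(H),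
        d = d₁ * d₂ := by
    rintro y hy ⟨k, hk⟩ d hd h
    have hy2 := isPGroup_zpowers_of_orderOf hk
    obtain ⟨c, hc, e⟩ := H1.glauberman_subgroup_conj (A := Subgroup.zpowers y) (K := pPrimeCore p G)
      (le_NN_of_normal _ _) (H1.IsPGroup.coprime_card hy2 (H1.coprime_card_pPrimeCore p))
      (Or.inl inferInstance) (H := H) hd (Subgroup.zpowers_le.2 hy) (by
        rw [Subgroup.zpowers_le, cj_smul, ← cj_normalizer, mem_cj]; exact h)
    rw [CC_zpowers] at hc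
    refine ⟨c, hc, c⁻¹ * d, ?_, by group⟩
    rw [← H1.inf_normalizer_eq_inf_centralizer (le_NN_of_normal _ _) (by
      rw [inf_comm]; exact H1.inf_eq_bot_of_isPGroup_of_coprime hHp (H1.coprime_card_pPrimeCore p))]
    refine ⟨Subgroup.mul_mem _ (Subgroup.inv_mem _ hc.1) hd, mem_NN.2 ?_⟩
    rw [cj_smul, cj_smul] at e
    rw [cj_mul, ← e, cj_inv_cj]
  refine ⟨ha, fun x y hx hy hxy => ?_⟩
  obtain ⟨g, rfl⟩ := isConj_iff.1 hxy
  have hS : IsSylowIn p H (pPrimePCore p G) :=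
    (isSylowIn_top P).inf_normal le_top (le_NN_of_normal _ _)
  have hPN : (P : Subgroup G) ≤ NN(H) := le_NN_inf (le_NN_self _) (le_NN_of_normal _ _)
  obtain ⟨n, hn, a, ha1, rfl⟩ := hS.frattini'' le_top (le_NN_of_normal _ _) (Subgroup.mem_top g)
  rw [← H1.sylowOf_sup_pPrimeCore (H1.isPiHallOf_singleton_iff.2
    ⟨hS.le, hHp, hS.not_dvd_relIndex⟩)] at ha1
  obtain ⟨h, hh, d, hd, rfl⟩ := (mem_sup_of_NN (le_NN_of_normal _ _)).1 ha1
  have hm : n * h ∈ NN(H) := Subgroup.mul_mem _ hn.2 (le_NN_self _ hh)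
  obtain ⟨d₁, h1, d₂, h2, e⟩ := ha x (hPN hx) (orderOf_eq_pow_of_mem P.isPGroup' hx) d⁻¹
    (Subgroup.inv_mem _ hd) (by
      have := conj_mem_of_mem_NN' (le_NN_self _ hm) (hPN hy)
      simpa [mul_assoc] using this)
  refine ⟨n * h * d₂⁻¹, Subgroup.mul_mem _ hm (Subgroup.inv_mem _ (CC_le_NN _ h2.2)), ?_⟩
  have h3 := Subgroup.mem_centralizer_singleton_iff.1 h1.2
  rw [inv_eq_iff_eq_inv] at e
  rw [e]
  calc n * h * d₂⁻¹ * x * (n * h * d₂⁻¹)⁻¹ = n * h * d₂⁻¹ * d₁⁻¹ * (d₁ * x) * (n * h * d₂⁻¹)⁻¹ := by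
        group
    _ = _ := by rw [h3]; group

end Cfsg.Agent.S1907
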