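import Cfsg.Statements.S1924
import Cfsg.Agent.S0111
import Cfsg.Agent.H6.DH
import Cfsg.Agent.H10.Cores
import Cfsg.Agent.H15.TB

set_option autoImplicit false
open Cfsg

namespace Cfsg.Agent.S1924

open Subgroup in
theorem sign_lemma {R : Type*} [Group R] [Finite R] (T : Subgroup R) (d : R) (hd : Even (orderOf d))
    {k : ℕ} (hk : Odd k) (hi : T.index = orderOf d * k)
    (hf : ∀ i : ℕ, d ^ i ≠ 1 → ∀ g : R, g * d ^ i * g⁻¹ ∉ T) : ∃ M : Subgroup R, M.index = 2 := by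
  classical
  have := Fintype.ofFinite (R ⧸ T)
  set φ := MulAction.toPermHom R (R ⧸ T)
  have hfix : ∀ (i : ℕ) (x : R ⧸ T), (φ d ^ i) x = x → d ^ i = 1 := fun i x e => by_contra fun h => by
    obtain ⟨g, rfl⟩ := QuotientGroup.mk_surjective x
    rw [← map_pow] at e
    have := QuotientGroup.eq.1 (show ((d ^ i * g : R) : R ⧸ T) = g from e)
    exact hf i h g⁻¹ (by simpa [mul_assoc] using inv_mem this)
  have h1 : (φ d).cycleType = Multiset.replicate (φ d).cycleType.card (orderOf d) :=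
    Multiset.eq_replicate_of_mem fun n hn => by
      refine Nat.dvd_antisymm ((Equiv.Perm.dvd_of_mem_cycleType hn).trans (orderOf_map_dvd _ _)) ?_
      obtain ⟨c, τ, e, h2, h3, rfl⟩ := Equiv.Perm.mem_cycleType_iff.1 hn
      obtain ⟨x, hx, -⟩ := id h3
      refine orderOf_dvd_of_pow_eq_one (hfix _ x ?_)
      rw [e, h2.commute.mul_pow, ← h3.orderOf, pow_orderOf_eq_one, one_mul]
      exact Equiv.Perm.pow_apply_eq_self_of_apply_eq_self ((h2 x).resolve_left hx) _
  have hd1 : d ≠ 1 := fun e => by simp [e] at hd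
  have h2 := Equiv.Perm.sum_cycleType (φ d)
  rw [show (φ d).support = Finset.univ from Finset.eq_univ_iff_forall.2 fun x =>
    Equiv.Perm.mem_support.2 fun e => hd1 (by simpa using hfix 1 x (by simpa using e)),
    Finset.card_univ, ← Nat.card_eq_fintype_card, ← index_eq_card, hi] at h2
  have h3 : (φ d).cycleType.card = k := by
    rw [h1, Multiset.sum_replicate, smul_eq_mul, mul_comm] at h2
    exact Nat.eq_of_mul_eq_mul_left (orderOf_pos d) h2
  have h4 : Equiv.Perm.sign (φ d) = -1 := by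
    rw [Equiv.Perm.sign_of_cycleType, h2, h3]
    exact Odd.neg_one_pow ((hd.mul_right k).add_odd hk)
  refine ⟨(Equiv.Perm.sign.comp φ).ker, ?_⟩
  rw [index_ker, MonoidHom.range_eq_top.2 fun u => ?_, card_top, Nat.card_eq_fintype_card,
    Fintype.card_units_int]
  rcases Int.units_eq_one_or u with rfl | rfl
  exacts [⟨1, map_one _⟩, ⟨d, h4⟩]

/-- A consequence of Thompson's transfer lemma. Let G be a finite group, L a subgroup with O²(L) = L, T a Sylow 2-subgroup of L and S a Sylow 2-subgroup of G containing T. Suppose D ≤ S is a dihedral subgroup of order at least 4 (the four-group counts) with D ∩ T = 1 and S = TD as a set of products (so |S| = |T|·|D|), and C ≤ D is cyclic of index 2 in D. If no involution of D outside C is G-conjugate to an involution of the subgroup generated by T and C, and the involution of C is not G-conjugate to any involution of T, then G has a normal subgroup K, containing every Sylow 2-subgroup of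 L as a Sylow 2-subgroup, with G = KD. -/
theorem result {G : Type*} [Group G] [Finite G] (L T S D C : Subgroup G) (hL : Cfsg.pResidual 2 ↥L = ⊤)
    (hTL : T ≤ L) (hT2 : IsPGroup 2 T) (hTsyl : ¬ 2 ∣ T.relIndex L)
    (hS2 : IsPGroup 2 S) (hSsyl : ¬ 2 ∣ S.index) (hTS : T ≤ S)
    (hDS : D ≤ S) (hDih : ∃ n : ℕ, 2 ≤ n ∧ Nonempty (↥D ≃* DihedralGroup n)) (hDT : D ⊓ T = ⊥) (hTD : T ⊔ D = S) (hTDc : Nat.card T * Nat.card D = Nat.card S)
    (hCD : C ≤ D) (hC : IsCyclic ↥C) (hCi : C.relIndex D = 2)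
    (h1 : ∀ x ∈ D, x ∉ C → orderOf x = 2 → ∀ g : G, g * x * g⁻¹ ∈ T ⊔ C → False)
    (h2 : ∀ c ∈ C, orderOf c = 2 → ∀ g : G, g * c * g⁻¹ ∈ T → False) :
    ∃ K : Subgroup G, K.Normal ∧ K ⊔ D = ⊤ ∧
      ∀ T' : Subgroup G, T' ≤ L → IsPGroup 2 T' → ¬ 2 ∣ T'.relIndex L → T' ≤ K ∧ ¬ 2 ∣ T'.relIndex K := by
  obtain ⟨n, hn, ⟨e⟩⟩ := hDih
  obtain ⟨k, x, y, h, hc⟩ := H6.dh_sub (hS2.to_le hDS) hn e
  have hmul : ∀ s ∈ S, ∃ d ∈ D, ∃ t ∈ T, d * t = s := fun s hs => by
    have hb : Function.Bijective fun q : D × T => (⟨q.1 * q.2, mul_mem (hDS q.1.2) (hTS q.2.2)⟩ : S) := by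
      refine (Nat.bijective_iff_injective_and_card _).2 ⟨fun a b e => ?_, by
        rw [Nat.card_prod, mul_comm, hTDc]⟩
      have e1 : (a.1 : G) * a.2 = b.1 * b.2 := congrArg Subtype.val e
      have e2 : (b.1 : G)⁻¹ * a.1 = b.2 * (a.2 : G)⁻¹ := by
        rw [inv_mul_eq_iff_eq_mul, ← mul_assoc, ← e1, mul_inv_cancel_right]
      have e3 : (b.1 : G)⁻¹ * a.1 = 1 := Subgroup.mem_bot.1 (hDT.le
        (Subgroup.mem_inf.2 ⟨mul_mem (inv_mem b.1.2) a.1.2, e2 ▸ mul_mem b.2.2 (inv_mem a.2.2)⟩))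
      exact Prod.ext (Subtype.ext (inv_mul_eq_one.1 e3).symm)
        (Subtype.ext (mul_inv_eq_one.1 (e2.symm.trans e3)).symm)
    obtain ⟨q, hq⟩ := hb.2 ⟨s, hs⟩
    exact ⟨q.1, q.1.2, q.2, q.2.2, congrArg Subtype.val hq⟩
  have hord : ∀ u ∈ D, u ∉ C → orderOf u = 2 := fun u hu huC => by
    obtain ⟨g, rfl⟩ := (Subgroup.isCyclic_iff_exists_zpowers_eq_top C).1 hC
    have a1 := H1.card_inf_mul_relIndex (Subgroup.zpowers g) D
    rw [inf_eq_left.2 hCD, hCi, hc, pow_succ] at a1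
    obtain ⟨j, rfl | rfl⟩ := (h.mem u).1 hu
    swap
    · exact h.ord_xy j
    obtain ⟨i, rfl | rfl⟩ := (h.mem g).1 (hCD (Subgroup.mem_zpowers g))
    · refine (huC ((Subgroup.eq_of_le_of_card_ge (Subgroup.zpowers_le.2 (zpow_mem (Subgroup.mem_zpowers x) i))
        ?_).ge (zpow_mem (Subgroup.mem_zpowers x) j))).elim
      rw [Nat.card_zpowers, h.ox]; omega
    · rw [Nat.card_zpowers, h.ord_xy] at a1
      refine H6.ord2_of ?_ fun e => huC (e ▸ one_mem _)
      rw [← zpow_add, ← two_mul, zpow_mul, zpow_two, ← pow_two, (by omega : 2 = 2 ^ (k + 1)), ← h.ox,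
        pow_orderOf_eq_one, one_zpow]
  have hS : H10.IsSylowIn 2 S ⊤ := H10.isSylowIn_of_not_dvd le_top hS2 (by rwa [Subgroup.relIndex_top_right])
  obtain ⟨P, rfl⟩ := hS.exists_sylow_top
  have hLR : L ≤ pResidual 2 G := by
    have := H3.map_subtype_pResidual_le (p := 2) L
    rwa [hL, H15.map_top_subtype] at this
  have hQ : (T ⊔ C).relIndex P = 2 := by
    rw [H10.relIndex_eq_of_mul hDS fun m hm => let ⟨d, hd, t, ht, e⟩ := hmul m hm
      ⟨d, hd, t, Subgroup.mem_sup_left ht, e⟩]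
    refine ((Nat.dvd_prime Nat.prime_two).1 (hCi ▸ Subgroup.relIndex_dvd_of_le_left D le_sup_right)).resolve_left
      fun e => ?_
    obtain ⟨u, hu, huC⟩ := SetLike.not_le_iff_exists.1 (mt Subgroup.relIndex_eq_one.2 (by rw [hCi]; omega) : ¬ D ≤ C)
    exact h1 u hu huC (hord u hu huC) 1 (by simpa using Subgroup.relIndex_eq_one.1 e hu)
  have hD0 : D ⊓ pResidual 2 G ≤ C := fun u hu => by_contra fun huC => by
    rcases S0111.result P _ (sup_le hTS (hCD.trans hDS)) hQ u (hord u hu.1 huC) (hDS hu.1)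
      fun e => h1 u hu.1 huC (hord u hu.1 huC) 1 (by simpa using e) with ⟨M, -, a1, a2⟩ | ⟨g, hg⟩
    exacts [a2 (H6.pResidual_le_of_index_two a1 hu.2), h1 u hu.1 huC (hord u hu.1 huC) g hg]
  have hodd : ¬ 2 ∣ ((P : Subgroup G) ⊓ pResidual 2 G).relIndex (pResidual 2 G) := open H15 in
    (((H15.syl_top_sylow P).inf_normal le_top (H15.le_norm_normal _ _)).not_dvd_idx Nat.prime_two rfl)
  have hidx : T.relIndex (pResidual 2 G) = Nat.card (D ⊓ pResidual 2 G : Subgroup G) *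
      ((P : Subgroup G) ⊓ pResidual 2 G).relIndex (pResidual 2 G) := by
    rw [← Subgroup.relIndex_mul_relIndex T _ _ (le_inf hTS (hTL.trans hLR)) inf_le_right,
      H10.relIndex_eq_of_mul (inf_le_inf_right _ hDS) fun m hm => let ⟨d, hd, t, ht, e⟩ := hmul m hm.1
        ⟨d, ⟨hd, (mul_mem_cancel_right (hLR (hTL ht))).1 (e ▸ hm.2)⟩, t, ht, e⟩,
      ← H1.card_inf_mul_relIndex T, ← inf_assoc, inf_comm T, hDT, bot_inf_eq, Subgroup.card_bot, one_mul]
  have hbot : D ⊓ pResidual 2 G = ⊥ := by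
    obtain ⟨d, hd⟩ := (Subgroup.isCyclic_iff_exists_zpowers_eq_top _).1 (Subgroup.isCyclic_of_le hD0)
    have hdm := hd.le (Subgroup.mem_zpowers d)
    by_contra hne
    obtain ⟨M, hM⟩ := sign_lemma (T.subgroupOf (pResidual 2 G)) ⟨d, hdm.2⟩ (k := _) (by
      rw [Subgroup.orderOf_mk, ← Nat.card_zpowers, hd, even_iff_two_dvd]
      exact H10.dvd_card_of_isPGroup_ne_bot (hS2.to_le (inf_le_left.trans hDS)) hne)
      (Nat.not_even_iff_odd.1 (mt even_iff_two_dvd.1 hodd))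
      (by rw [Subgroup.orderOf_mk, ← Nat.card_zpowers, hd]; exact hidx) fun i hi g hg => by
        obtain ⟨c, hc1, hc2⟩ := H10.exists_orderOf_eq_of_ne_bot (P := Subgroup.zpowers (d ^ i))
          (hS2.to_le (Subgroup.zpowers_le.2 (hDS (pow_mem hdm.1 i))))
          (mt Subgroup.zpowers_eq_bot.1 fun e => hi (Subtype.ext e))
        obtain ⟨j, rfl⟩ := hc1
        exact h2 _ (zpow_mem (pow_mem (hD0 hdm) i) j) hc2 g (by
          beta_reduce; rw [← conj_zpow]; exact zpow_mem hg j)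
    have := H6.pResidual_le_of_index_two hM
    rw [H3.pResidual_pResidual, top_le_iff] at this
    simp [this] at hM
  refine ⟨pResidual 2 G, inferInstance, ?_, fun T' a1 a2 a3 => ⟨a1.trans hLR, fun e => hodd ?_⟩⟩
  · rw [← H3.pResidual_sup_sylow P, ← hTD, ← sup_assoc, sup_eq_left.2 (hTL.trans hLR)]
  · have b1 := H1.card_inf_mul_relIndex T' (pResidual 2 G)
    rw [← H1.card_inf_mul_relIndex T (pResidual 2 G), inf_eq_left.2 (a1.trans hLR), inf_eq_left.2 (hTL.trans hLR), hidx, hbot,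
      Subgroup.card_bot, one_mul, (H10.isSylowIn_of_not_dvd a1 a2 a3).card_eq
        (H10.isSylowIn_of_not_dvd hTL hT2 hTsyl)] at b1
    exact Nat.eq_of_mul_eq_mul_left Nat.card_pos b1 ▸ e

end Cfsg.Agent.S1924
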