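import Cfsg.Statements.S1935
import Cfsg.Agent.H17.Ol4

set_option autoImplicit false
open Cfsg

namespace Cfsg.Agent.S1935

open H17 Cfsg


/-- Let p ≥ 5 be a prime and, inside an ambient finite group, let G be a p-subgroup acting faithfully by conjugation on an elementary abelian p-subgroup V that it normalizes (only the identity of G centralizes V). Suppose V is an F-module for G: some nontrivial elementary abelian subgroup E of G satisfies #E · #C_V(E) ≥ #V. Then G contains such an offender A that moreover acts quadratically on V ([V, A, A] = 1) and is normal in its normal closure in G. -/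
theorem result {Ω : Type*} [Group Ω] [Finite Ω] (p : ℕ) [Fact p.Prime] (hp : 5 ≤ p) (V G : Subgroup Ω) (hV : Cfsg.IsElementaryAbelian p V) (hG : IsPGroup p ↥G) (hGV : G ≤ Subgroup.normalizer (V : Set Ω)) (hfaith : G ⊓ Subgroup.centralizer (V : Set Ω) = ⊥) (hF : ∃ E : Subgroup Ω, E ≤ G ∧ E ≠ ⊥ ∧ Cfsg.IsElementaryAbelian p E ∧ Nat.card ↥V ≤ Nat.card ↥E * Nat.card ↥(V ⊓ Subgroup.centralizer (E : Set Ω))) : ∃ A : Subgroup Ω, A ≤ G ∧ A ≠ ⊥ ∧ Cfsg.IsElementaryAbelian p A ∧ Nat.card ↥V ≤ Nat.card ↥A * Nat.card ↥(V ⊓ Subgroup.centralizer (A : Set Ω)) ∧ ⁅⁅V, A⁆, A⁆ = ⊥ ∧ ∀ g ∈ Subgroup.closure {x : Ω | ∃ h ∈ G, ∃ a ∈ A, x = h * a * h⁻¹}, ∀ a ∈ A, g * a * g⁻¹ ∈ A := by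
  obtain ⟨E, h1, h2, h3, h4⟩ := hF
  obtain ⟨A, k1, k2, k3, k4, k5, k6⟩ := H17.Ol.final' (by omega) hV hG hGV hfaith h1 h2 h3 h4
  refine ⟨A, k1, k2, k3, k4, k5, fun g hg a ha => ?_⟩
  have : g ∈ Subgroup.normalizer (A : Set Ω) := by
    refine (Subgroup.closure_le _).2 ?_ hg
    rintro _ ⟨h, hh, b, hb, rfl⟩
    exact Subgroup.mem_normalizer_fintype (k6 h hh b hb)
  exact (Subgroup.mem_normalizer_iff.1 this a).1 ha

end Cfsg.Agent.S1935
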