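import Cfsg.Statements.S1939
import Cfsg.Agent.H10.SylowIn

set_option autoImplicit false
open Cfsg

namespace Cfsg.Agent.S1939

open H10

/-- Let S be a Sylow p-subgroup of the finite group G and a an element of S that is the only G-conjugate of a lying in S. Then every power of a has the same property: for every n, the only G-conjugate of a^n lying in S is a^n. -/
theorem result {G : Type*} [Group G] [Finite G] {p : ℕ} [Fact p.Prime] (S : Sylow p G) (a : G)
    (haS : a ∈ (S : Subgroup G)) (hwc : ∀ g : G, g * a * g⁻¹ ∈ (S : Subgroup G) → g * a * g⁻¹ = a) (n : ℕ) :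
    ∀ g : G, g * a ^ n * g⁻¹ ∈ (S : Subgroup G) → g * a ^ n * g⁻¹ = a ^ n := by
  intro g hg
  have hc : ∀ s ∈ (S : Subgroup G), s * a * s⁻¹ = a := fun s hs =>
    hwc s (Subgroup.mul_mem _ (Subgroup.mul_mem _ hs haS) (Subgroup.inv_mem _ hs))
  set b := g * a ^ n * g⁻¹ with hb
  have h1 : cj g S ≤ Subgroup.centralizer ({b} : Set G) := by
    rw [hb, ← cj_centralizer_singleton, cj_le_cj]
    intro s hs
    rw [Subgroup.mem_centralizer_singleton_iff]
    exact (show Commute s a from mul_inv_eq_iff_eq_mul.1 (hc s hs)).pow_right n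
  have h2 : Subgroup.zpowers a ≤ Subgroup.centralizer ({b} : Set G) := by
    rw [Subgroup.zpowers_le, Subgroup.mem_centralizer_singleton_iff]
    exact (mul_inv_eq_iff_eq_mul.1 (hc b hg)).symm
  obtain ⟨c, hc1, hc2⟩ := (((isSylowIn_top S).cj_top g).of_le h1 le_top).exists_cj_le
    (S.isPGroup'.to_le (Subgroup.zpowers_le.2 haS)) h2
  have h3 := hwc (g⁻¹ * c) (by
    have := mem_cj.1 (hc2 (conj_mem_cj (Subgroup.mem_zpowers a)))
    simpa [mul_assoc] using this)
  rw [Subgroup.mem_centralizer_singleton_iff] at hc1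
  have h4 : g⁻¹ * c * a ^ n * (g⁻¹ * c)⁻¹ = a ^ n := by rw [← conj_pow, h3]
  calc b = c⁻¹ * (c * b) := by group
    _ = c⁻¹ * (g * a ^ n * g⁻¹ * c) := by rw [hc1]
    _ = c⁻¹ * (g * (g⁻¹ * c * a ^ n * (g⁻¹ * c)⁻¹) * g⁻¹ * c) := by rw [h4]
    _ = _ := by group

end Cfsg.Agent.S1939
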