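import Cfsg.Statements.S1940
import Cfsg.Agent.H10.Act

set_option autoImplicit false
open Cfsg

namespace Cfsg.Agent.S1940

/-- Let the finite group L act by automorphisms on the finite abelian group M, and let N be an L-invariant subgroup of M such that M/N is a p-group on which L acts trivially (every l • m lies in the coset mN). If every element of M is a product of an element of N and an element fixed by a Sylow p-subgroup T of L, then every element of M is a product of an element of N and an element fixed by all of L. -/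
theorem result {L : Type*} [Group L] [Finite L] {M : Type*} [CommGroup M] [Finite M] [MulDistribMulAction L M]
    {p : ℕ} [Fact p.Prime] (N : Subgroup M) (hN : ∀ (l : L) (m : M), m ∈ N → l • m ∈ N)
    (hquot : IsPGroup p (M ⧸ N)) (htriv : ∀ (l : L) (m : M), (l • m) * m⁻¹ ∈ N) (T : Sylow p L)
    (hT : ∀ m : M, ∃ n ∈ N, ∃ c : M, (∀ t ∈ (T : Subgroup L), t • c = c) ∧ m = n * c) :
    ∀ m : M, ∃ n ∈ N, ∃ c : M, (∀ l : L, l • c = c) ∧ m = n * c := by
  classical
  intro m
  obtain ⟨n, hn, c, hc, rfl⟩ := hT m
  have : Fintype (L ⧸ (T : Subgroup L)) := Fintype.ofFinite _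
  set d : M := ∏ q : L ⧸ (T : Subgroup L), q.out • c with hd
  have hq : ∀ (l : L), ((l : L ⧸ (T : Subgroup L)).out) • c = l • c := fun l => by
    obtain ⟨t, ht⟩ := QuotientGroup.mk_out_eq_mul (T : Subgroup L) l
    rw [ht, mul_smul, hc t t.2]
  have h1 : ∀ l : L, l • d = d := fun l => by
    rw [hd, Finset.smul_prod']
    refine Fintype.prod_equiv (MulAction.toPerm l) _ _ fun q => ?_
    rw [← mul_smul, ← hq]
    congr 2
    conv_rhs => rw [← q.out_eq']
    rfl
  have h2 : (d : M ⧸ N) = (c : M ⧸ N) ^ (T : Subgroup L).index := by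
    rw [hd, ← QuotientGroup.mk'_apply, map_prod, Subgroup.index, Nat.card_eq_fintype_card,
      ← Finset.card_univ, ← Finset.prod_const]
    refine Finset.prod_congr rfl fun q _ => ?_
    rw [QuotientGroup.mk'_apply, QuotientGroup.eq_iff_div_mem, div_eq_mul_inv]
    exact htriv _ _
  obtain ⟨k, hk⟩ := hquot (c : M ⧸ N)
  have hcop : ((T : Subgroup L).index).Coprime (orderOf (c : M ⧸ N)) :=
    (((Nat.Prime.coprime_iff_not_dvd Fact.out).2 T.not_dvd_index).symm.pow_right k).coprime_dvd_right
      (orderOf_dvd_of_pow_eq_one hk)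
  obtain ⟨j, hj⟩ := exists_pow_eq_self_of_coprime hcop
  refine ⟨n * (c * (d ^ j)⁻¹), N.mul_mem hn ?_, d ^ j, fun l => by rw [smul_pow', h1], by group⟩
  rw [← div_eq_mul_inv, ← QuotientGroup.eq_iff_div_mem, QuotientGroup.mk_pow, h2, hj]

end Cfsg.Agent.S1940
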