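import Cfsg.Statements.S1941
import Cfsg.Agent.H1.Gasch
import Cfsg.Agent.H1.Fitting
import Cfsg.Agent.H5.Fstar

set_option autoImplicit false
open Cfsg

namespace Cfsg.Agent.S1941



/-- Let G be a finite group with no nontrivial normal subgroup of order prime to p, T a Sylow p-subgroup of G and E(G) the layer of G (the subgroup generated by its components). An automorphism of G of p-power order that fixes T and E(G) elementwise is inner. -/
theorem result {G : Type*} [Group G] [Finite G] {p : ℕ} [Fact p.Prime] (hcore : Cfsg.pPrimeCore p G = ⊥)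
    (T : Sylow p G) (α : MulAut G) (hα : ∃ j : ℕ, orderOf α = p ^ j) (hfixT : ∀ x ∈ (T : Subgroup G), α x = x)
    (hfixE : ∀ x ∈ Cfsg.layer G, α x = x) : ∃ g : G, ∀ x : G, α x = g * x * g⁻¹ := by
  let F := generalizedFittingSubgroup G
  let Z := Subgroup.centralizer (F : Set G)
  have hZ : Z ≤ pCore p G := H1.fitting_eq_pCore hcore ▸ H5.centralizer_fstar_le_fitting
  have hF : ∀ x ∈ F, α x = x := fun x hx => by
    have : F ≤ α.toMonoidHom.eqLocus (MonoidHom.id G) := sup_le hfixE
      (H1.fitting_eq_pCore hcore ▸ (H1.pCore_le_sylow T).trans hfixT)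
    exact this hx
  haveI : IsMulCommutative Z := H1.isMulCommutative_iff'.2 fun a ha b hb =>
    hb a (H5.centralizer_fstar_le ha)
  have hc : ∀ g, α g * g⁻¹ ∈ Z := fun g x hx => by
    have h1 := hF x hx
    have h2 := hF _ (Subgroup.Normal.conj_mem' inferInstance x hx g)
    rw [map_mul, map_mul, map_inv, h1] at h2
    calc x * (α g * g⁻¹) = α g * ((α g)⁻¹ * x * α g) * g⁻¹ := by group
      _ = _ := by rw [h2]; group
  obtain ⟨k, hk⟩ := IsPGroup.iff_card.1 ((H1.isPGroup_pCore p).to_le hZ)
  obtain ⟨b, hb⟩ := H1.IsCr.exists_principal (A := Z) (U := T) (f := fun g => ⟨_, hc g⟩)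
    (fun u _ v _ => Subtype.ext (by simp [mul_assoc])) (fun u hu => Subtype.ext (by simp [hfixT u hu]))
    (hk ▸ ((Nat.Prime.coprime_iff_not_dvd Fact.out).2 T.not_dvd_index).pow_left k)
  refine ⟨b, fun x => ?_⟩
  have : α x * x⁻¹ = b * (x * b * x⁻¹)⁻¹ := congrArg Subtype.val (hb x)
  rw [mul_inv_eq_iff_eq_mul.1 this]; group

end Cfsg.Agent.S1941
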