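import Cfsg.Statements.S2799
import Cfsg.Agent.H3.FS4

set_option autoImplicit false
open Cfsg

namespace Cfsg.Agent.S2799

/-- Let S be a Sylow p-subgroup of the finite group G, J(S) the subgroup generated by the abelian subgroups of S of largest order, and x an element of S lying in the centre of N_G(J(S)). Assume that p is odd, or that x is a p-th power of an element of Z(S), or that the symmetric group of degree 4 is not involved in G. Then x is weakly closed in S with respect to G: every G-conjugate of x that lies in S equals x. -/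
theorem result {G : Type*} [Group G] [Finite G] {p : ℕ} [Fact p.Prime] (S : Sylow p G) (x : G) (hxS : x ∈ (S : Subgroup G)) (hxZ : x ∈ (Subgroup.center ↥(Subgroup.normalizer ((Cfsg.thompsonSubgroupAOf (S : Subgroup G)) : Set G))).map (Subgroup.normalizer ((Cfsg.thompsonSubgroupAOf (S : Subgroup G)) : Set G)).subtype) (h : p ≠ 2 ∨ (∃ z ∈ (S : Subgroup G) ⊓ Subgroup.centralizer ((S : Subgroup G) : Set G), z ^ p = x) ∨ ¬ Cfsg.Involves (Equiv.Perm (Fin 4)) G) : ∀ g : G, g * x * g⁻¹ ∈ (S : Subgroup G) → g * x * g⁻¹ = x := by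
  have hJ : thompsonSubgroupAOf (S : Subgroup G) ≤ S := Subgroup.map_subtype_le _
  have hF := H13.saturated_group S
  obtain ⟨N, hN⟩ := H14.Fus.exists_normalizerSystem (groupFusionSystem (S : Subgroup G)) hJ
  have hSN := H3.thompsonA_le_normalizer S.2
  rw [H4.map_center_subtype] at hxZ
  have h1 : x ∈ N.center := Subgroup.zpowers_le.1 (H13.le_center (H13.central_of_fix
    (S.2.to_le (H13.normalizerIn_le _ _)) (H13.saturated_normalizer S.2 hF
      (H13.fullyNormalized_of_normal hJ hSN) hN) (Subgroup.zpowers_le.2 ⟨hxS, hSN hxS⟩)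
    fun P σ hσ y hy hyx => by
      obtain ⟨-, τ, h1, h2, h3⟩ := (H13.mor_normalizer_iff hN).1 hσ
      obtain ⟨-, -, g, e⟩ := H13.mor_group_iff.1 h1
      have h4 : g ∈ Subgroup.normalizer ((thompsonSubgroupAOf (S : Subgroup G) : Subgroup G) : Set G) :=
        H13.maps_cj_iff.1 (h3.congr fun z hz => e z (Subgroup.mem_sup_right hz))
      rw [← h2 y hy, e y (Subgroup.mem_sup_left hy),
        (Subgroup.zpowers_le.2 hxZ.2 hyx) g h4, mul_inv_cancel_right]))
  have h2 : x ∈ (groupFusionSystem (S : Subgroup G)).center := by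
    rcases or_left_comm.1 h with ⟨z, hz, rfl⟩ | h
    · exact H3.mho_inf_center_le H3.isCharPFunctor_thompsonA H3.quadratic_thompsonA S.2 hF hN
        ⟨H9.pow_mem_powerClosure_one hz, h1⟩
    · exact (H3.center_eq_thompson S.2 hF (H3.odd_or_group S h) hN).le h1
  intro g hg
  refine H13.central_fix (H13.central_center _) (P := Subgroup.zpowers x) (f := fun y => g * y * g⁻¹)
    (H13.mor_group_iff.2 ⟨Subgroup.zpowers_le.2 hxS, ?_, g, fun _ _ => rfl⟩) (Subgroup.mem_zpowers x) h2
  rintro _ ⟨k, rfl⟩
  beta_reduce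
  rw [← conj_zpow]
  exact Subgroup.zpow_mem _ hg k

end Cfsg.Agent.S2799
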