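import Cfsg.Statements.S1945
import Cfsg.Agent.H7.WClosed
import Cfsg.Agent.S2799
import Cfsg.Agent.H4.Thompson

set_option autoImplicit false
open Cfsg

namespace Cfsg.Agent.S1945



/-- Let S be a Sylow p-subgroup of the finite group G, and assume that p is odd or that G is solvable. The elements of S each of which is its only G-conjugate in S form a subgroup W of Z(S); W is then a direct factor of Z(S): there is a subgroup K of Z(S) with W ∩ K = 1 and WK = Z(S). (For p = 2 and G not solvable this can fail.) -/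
theorem result {G : Type*} [Group G] [Finite G] {p : ℕ} [Fact p.Prime] (S : Sylow p G) (h : p ≠ 2 ∨ Group.IsSolvable G) :
    ∃ W K : Subgroup G, (∀ x : G, x ∈ W ↔ (x ∈ (S : Subgroup G) ∧ ∀ g : G, g * x * g⁻¹ ∈ (S : Subgroup G) → g * x * g⁻¹ = x)) ∧
      K ≤ ((S : Subgroup G) ⊓ Subgroup.centralizer ((S : Subgroup G) : Set G)) ∧ W ⊓ K = ⊥ ∧ W ⊔ K = ((S : Subgroup G) ⊓ Subgroup.centralizer ((S : Subgroup G) : Set G)) := by
  rcases h with h | h
  · have hJ : thompsonSubgroupAOf (S : Subgroup G) ≤ S := Subgroup.map_subtype_le _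
    refine H7.weaklyClosed_direct_factor S hJ ?_ ?_ fun x hx hc => ?_
    · rw [H4.thompsonSubgroupAOf_eq]
      exact (H4.center_le_centerThompsonOf_zero _).trans (H4.centerThompsonOf_le_thompsonOf _)
    · rw [H4.thompsonSubgroupAOf_eq]
      exact Subgroup.le_normalizer.trans (H4.normalizer_le_normalizer_thompsonOf _)
    · refine Cfsg.Agent.S2799.result S x (hJ hx) ?_ (Or.inl h)
      rw [H4.map_center_subtype]
      exact ⟨Subgroup.le_normalizer hx, hc⟩
  · exact H7.weaklyClosed_direct_factor_of_le S (inf_le_right.trans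
      (H1.IsPSolvable.centralizer_sylow_le (H1.isPSolvable_of_isSolvable p h) S))

end Cfsg.Agent.S1945
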