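import Cfsg.Statements.S1948
import Cfsg.Agent.H10.Act
import Cfsg.Agent.H1.PSolv
import Cfsg.Agent.H1.Hall

set_option autoImplicit false
open Cfsg

namespace Cfsg.Agent.S1948

open H10

/-- Let S be a Sylow p-subgroup of the finite group G. Then G = N_G(S)·O_{p'}(G) if and only if G is p-constrained and N_G(S) controls fusion in S, in the sense that whenever a subgroup Q of S has a conjugate g Q g⁻¹ inside S, the element g is a product n c with n normalizing S and c centralizing Q. -/
theorem result {G : Type*} [Group G] [Finite G] {p : ℕ} [Fact p.Prime] (S : Sylow p G) :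
    Subgroup.normalizer ((S : Subgroup G) : Set G) ⊔ Cfsg.pPrimeCore p G = ⊤ ↔
      (Cfsg.IsPConstrained p G ∧
        ∀ Q : Subgroup G, Q ≤ (S : Subgroup G) → ∀ g : G, Q.map (MulAut.conj g).toMonoidHom ≤ (S : Subgroup G) →
          ∃ n ∈ Subgroup.normalizer ((S : Subgroup G) : Set G), ∃ c ∈ Subgroup.centralizer (Q : Set G), g = n * c) := by
  constructor
  · intro h
    refine ⟨?_, fun Q hQ g hg => ?_⟩
    · have hn : ((S : Subgroup G) ⊔ pPrimeCore p G).Normal := normal_of_top_le_NN (by
        rw [← h]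
        exact sup_le (le_NN_sup le_rfl (le_NN_of_normal _ _)) (le_sup_right.trans (le_NN_self _)))
      refine H1.IsPSolvable.isPConstrained (H1.IsPSolvable.of_normal_quotient
        ((S : Subgroup G) ⊔ pPrimeCore p G) (H1.IsPSolvable.sup
          (H1.isPSolvable_of_isPGroup S.isPGroup')
          (H1.isPSolvable_of_coprime (H1.coprime_card_pPrimeCore p)) (le_NN_of_normal _ _))
        (H1.isPSolvable_of_not_dvd fun h0 => S.not_dvd_index
          (h0.trans (Subgroup.index_dvd_of_le le_sup_left))))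
    · obtain ⟨n, hn, d, hd, rfl⟩ := (mem_sup_of_NN (le_NN_of_normal _ _)).1 (h.ge (Subgroup.mem_top g))
      refine ⟨n, hn, d, fun q hq => ?_, rfl⟩
      rw [cj_def, cj_mul, cj_le_iff, cj_eq_of_mem_NN (Subgroup.inv_mem _ hn)] at hg
      have : d * q * d⁻¹ * q⁻¹ ∈ (S : Subgroup G) ⊓ pPrimeCore p G :=
        ⟨Subgroup.mul_mem _ (hg (conj_mem_cj hq)) (Subgroup.inv_mem _ (hQ hq)), by
          rw [mul_assoc, mul_assoc, ← mul_assoc q]
          exact Subgroup.mul_mem _ hd (Subgroup.Normal.conj_mem inferInstance _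
            (Subgroup.inv_mem _ hd) q)⟩
      rw [H1.inf_eq_bot_of_isPGroup_of_coprime S.isPGroup' (H1.coprime_card_pPrimeCore p),
        Subgroup.mem_bot, mul_inv_eq_one, mul_inv_eq_iff_eq_mul] at this
      exact this.symm
  · rintro ⟨h1, h2⟩
    set H := (S : Subgroup G) ⊓ pPrimePCore p G with hH
    have hS : IsSylowIn p H (pPrimePCore p G) :=
      (isSylowIn_top S).inf_normal le_top (le_NN_of_normal _ _)
    have h3 : pPrimePCore p G ≤ NN((S : Subgroup G)) ⊔ pPrimeCore p G := by
      rw [← H1.sylowOf_sup_pPrimeCore (H1.isPiHallOf_singleton_iff.2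
        ⟨hS.le, hS.isPGroup, hS.not_dvd_relIndex⟩)]
      exact sup_le_sup_right (inf_le_left.trans (le_NN_self _)) _
    have h4 := h1 hS.toSylow
    rw [hS.map_toSylow] at h4
    rw [eq_top_iff, ← hS.frattini_sup le_top (le_NN_of_normal _ _)]
    refine sup_le h3 fun g hg => ?_
    obtain ⟨n, hn, c, hc, rfl⟩ := h2 H inf_le_left g ((cj_eq_of_mem_NN hg.2).le.trans inf_le_left)
    exact Subgroup.mul_mem _ (Subgroup.mem_sup_left hn) (h3 (h4 hc))

end Cfsg.Agent.S1948
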