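import Cfsg.Statements.S1949
import Cfsg.Agent.H3.Misc3

set_option autoImplicit false
open Cfsg

namespace Cfsg.Agent.S1949

/-- Let P be a finite p-group and G a group of automorphisms of P containing the inner automorphisms. Then there is a G-invariant subgroup D of P, contained in the subgroup generated by the elements x⁻¹α(x) with x in P and α in O^p(G), of exponent dividing p when p is odd and dividing 4 when p = 2, with [D, P] ≤ Z(D), such that every automorphism in G of order prime to p that fixes D elementwise is the identity; moreover every maximal abelian subgroup A of D is normal in P and every automorphism in G fixing A elementwise has p-power order. -/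
theorem result {P : Type*} [Group P] [Finite P] {p : ℕ} [Fact p.Prime] (hP : IsPGroup p P)
    (G : Subgroup (MulAut P)) (hG : Cfsg.Inn P ≤ G) :
    ∃ D : Subgroup P,
      (∀ α ∈ G, D.map α.toMonoidHom = D) ∧
      D ≤ Subgroup.closure {y : P | ∃ α ∈ Cfsg.pResidual p ↥G, ∃ x : P, y = x⁻¹ * (α : MulAut P) x} ∧
      (∀ d ∈ D, d ^ p = 1 ∨ (p = 2 ∧ d ^ 4 = 1)) ∧
      ⁅D, (⊤ : Subgroup P)⁆ ≤ D ⊓ Subgroup.centralizer (D : Set P) ∧
      (∀ α ∈ G, (orderOf α).Coprime p → (∀ d ∈ D, α d = d) → α = 1) ∧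
      ∀ A : Subgroup P, A ≤ D → IsMulCommutative ↥A →
        (∀ B : Subgroup P, A ≤ B → B ≤ D → IsMulCommutative ↥B → B = A) →
        A.Normal ∧ ∀ α ∈ G, (∀ a ∈ A, α a = a) → ∃ k : ℕ, orderOf α = p ^ k := by
  have hp : p.Prime := Fact.out
  obtain ⟨D₀, hch, hs, hcm, hdet⟩ := H3.exists_small_char_comm hP
  have hD₀ : ∀ α : MulAut P, ∀ x ∈ D₀, α x ∈ D₀ := fun α x hx =>
    Subgroup.characteristic_iff_map_le.mp hch α ⟨x, hx, rfl⟩
  set D := Subgroup.closure {y : P | ∃ α ∈ Cfsg.pResidual p ↥G, ∃ x ∈ D₀,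
    y = x⁻¹ * (α : MulAut P) x} with hD
  have hDD : D ≤ D₀ := (Subgroup.closure_le _).mpr <| by
    rintro _ ⟨α, -, x, hx, rfl⟩
    exact D₀.mul_mem (D₀.inv_mem hx) (hD₀ _ _ hx)
  have hinv : ∀ α ∈ G, D.map α.toMonoidHom ≤ D := fun α hα => by
    rw [hD, MonoidHom.map_closure]
    refine Subgroup.closure_mono ?_
    rintro _ ⟨_, ⟨β, hβ, x, hx, rfl⟩, rfl⟩
    refine ⟨⟨α, hα⟩ * β * ⟨α, hα⟩⁻¹, H3.pResidual_normal.conj_mem _ hβ _, α x, hD₀ _ _ hx, ?_⟩
    simp
  have hinv' : ∀ α ∈ G, D.map α.toMonoidHom = D := fun α hα =>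
    Subgroup.eq_of_le_of_card_ge (hinv α hα) (Subgroup.card_map_of_injective α.injective).ge
  have hn : D.Normal := ⟨fun x hx g => hinv _ (hG ⟨g, rfl⟩) ⟨x, hx, rfl⟩⟩
  have hc : ⁅D, (⊤ : Subgroup P)⁆ ≤ D ⊓ Subgroup.centralizer (D : Set P) :=
    le_inf (Subgroup.commutator_le_left _ _) ((Subgroup.commutator_mono hDD le_rfl).trans
      (hcm.trans (Subgroup.centralizer_le hDD)))
  have hdet' : ∀ α ∈ G, (orderOf α).Coprime p → (∀ d ∈ D, α d = d) → α = 1 := by
    intro α hα hco h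
    refine hdet α hco fun x hx => H3.aut_fix_of_fix (h _ (Subgroup.subset_closure
      ⟨⟨α, hα⟩, H3.mem_pResidual_of_coprime (by rwa [Subgroup.orderOf_mk]), x, hx, rfl⟩))
      (hP.orderOf_coprime hco.symm _).symm
  refine ⟨D, hinv', Subgroup.closure_mono ?_, fun d hd => hs d (hDD hd), hc, hdet',
    fun A hA hAc hmax => ?_⟩
  · rintro _ ⟨α, hα, x, -, rfl⟩
    exact ⟨α, hα, x, rfl⟩
  have hself : ∀ x ∈ D, x ∈ Subgroup.centralizer (A : Set P) → x ∈ A := fun x hx hxc => by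
    have := hmax (A ⊔ Subgroup.zpowers x) le_sup_left (sup_le hA (Subgroup.zpowers_le.mpr hx))
      (H9.isMulCommutative_sup_zpowers hAc hxc)
    exact this ▸ Subgroup.mem_sup_right (Subgroup.mem_zpowers x)
  have hAn : A.Normal := ⟨fun x hx g => by
    have h1 := hc (Subgroup.commutator_mem_commutator (hA (A.inv_mem hx)) (Subgroup.mem_top g))
    have h2 := hself _ h1.1 (Subgroup.centralizer_le hA h1.2)
    have := A.mul_mem hx h2
    rwa [commutatorElement_def, show x * (x⁻¹ * g * x⁻¹⁻¹ * g⁻¹) = g * x * g⁻¹ by group] at this⟩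
  refine ⟨hAn, fun α hα h => ?_⟩
  have : Finite (MulAut P) := inferInstance
  obtain ⟨a, b, ⟨k, hk⟩, hb, hab⟩ := H3.exists_pPart_mul_pPrimePart (p := p) α (orderOf_pos α).ne'
  have hfix : ∀ x ∈ A, (α ^ b) x = x := fun x hx => by
    clear hb hab
    induction b with
    | zero => rfl
    | succ b ih => rw [pow_succ, MulAut.mul_apply, h x hx, ih]
  have h1 : α ^ b = 1 := by
    refine hdet' _ (G.pow_mem hα b) hb fun d hd => H3.aut_fix_of_fix (hfix _ (hself _ ?_
      (H3.aut_inv_mul_mem_centralizer hfix d))) (hP.orderOf_coprime hb.symm _).symm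
    exact D.mul_mem (D.inv_mem hd) (hinv _ (G.pow_mem hα b) ⟨d, hd, rfl⟩)
  rw [h1, mul_one] at hab
  exact ⟨k, by rw [← hab, hk]⟩

end Cfsg.Agent.S1949
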