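import Cfsg.Statements.S1950
import Cfsg.Agent.H7.Pair4
import Cfsg.Agent.H1.CycSyl
import Cfsg.Agent.H9.GY

set_option autoImplicit false
open Cfsg

namespace Cfsg.Agent.S1950

open H17 H19 H7.Pr Subgroup

theorem core {G : Type*} [Group G] [Finite G] {p : ℕ} [Fact p.Prime] (hO : pPrimeCore p G = ⊥)
    (P : Sylow p G) (hP : IsCyclic ↥(P : Subgroup G))
    (h : ∀ x y : G, orderOf x = p → orderOf y = p →
      IsPSolvable p ↥(Subgroup.closure ({x, y} : Set G))) : IsPSolvable p G := by
  by_cases hd : p ∣ Nat.card G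
  swap
  · exact H1.isPSolvable_of_not_dvd hd
  by_cases h0 : pCore p G = ⊥
  swap
  · obtain ⟨Z, hZ, -, hC, -⟩ := H1.cyclic_sylow_normal hO P hP h0
    have hPn : (P : Subgroup G).Normal := hC ▸ inferInstance
    exact H1.IsPSolvable.of_normal_quotient (P : Subgroup G)
      (H1.isPSolvable_of_isPGroup P.isPGroup') (H1.isPSolvable_of_not_dvd P.not_dvd_index)
  obtain ⟨h1, h2, h3⟩ := H1.cyclic_sylow_simple hO hd P hP h0
  set F := generalizedFittingSubgroup G
  have hS := (H10.isSylowIn_top P).of_le h3 le_top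
  have := Fintype.ofFinite ((P : Subgroup G).subgroupOf F)
  refine (not_cyclic h2 (H10.isSylowIn_subgroupOf_top hS)
    (isCyclic_of_surjective _ (subgroupOfEquivOfLe h3).symm.surjective) ?_ fun a b ha hb => ?_).elim
  · rw [Ne, subgroupOf_eq_bot, disjoint_iff, inf_eq_left.2 h3]
    exact P.ne_bot_of_dvd_card hd
  · have := h a b (by rw [orderOf_coe, ha]) (by rw [orderOf_coe, hb])
    refine H1.IsPSolvable.of_equiv ?_ (equivMapOfInjective _ F.subtype F.subtype_injective).symm
    rwa [MonoidHom.map_closure, Set.image_pair]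

/-- Let G be a finite group whose Sylow p-subgroups are cyclic. Then G is p-solvable if and only if every two elements of order p of G generate a p-solvable subgroup. -/
theorem result {G : Type*} [Group G] [Finite G] {p : ℕ} [Fact p.Prime] (P : Sylow p G) (hP : IsCyclic ↥(P : Subgroup G)) :
    Cfsg.IsPSolvable p G ↔ ∀ x y : G, orderOf x = p → orderOf y = p → Cfsg.IsPSolvable p ↥(Subgroup.closure ({x, y} : Set G)) := by
  refine ⟨fun h x y _ _ => H1.IsPSolvable.subgroup h _, fun h => ?_⟩
  have hOc := H1.coprime_card_pPrimeCore (G := G) p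
  refine H1.IsPSolvable.of_normal_quotient _ (H1.isPSolvable_of_coprime hOc) ?_
  set f := QuotientGroup.mk' (pPrimeCore p G) with hf
  refine core (H1.pPrimeCore_quotient_pPrimeCore p)
    (P.mapSurjective (QuotientGroup.mk'_surjective _))
    (isCyclic_of_surjective _ (f.subgroupMap_surjective (P : Subgroup G))) fun x y hx hy => ?_
  obtain ⟨a, ha, rfl⟩ := H9.exists_lift_orderOf _ hOc x hx
  obtain ⟨b, hb, rfl⟩ := H9.exists_lift_orderOf _ hOc y hy
  have := H1.IsPSolvable.map (h a b ha hb) f
  rwa [MonoidHom.map_closure, Set.image_pair] at this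

end Cfsg.Agent.S1950
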