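import Cfsg.Statements.S1951
import Cfsg.Agent.H7.Pair3

set_option autoImplicit false
open Cfsg

namespace Cfsg.Agent.S1951

open H17 H19 H7.Pr Subgroup

/-- Let p be a prime and P a nontrivial elementary abelian Sylow p-subgroup of a finite nonabelian simple group G whose nonidentity elements are all conjugate in G. Suppose that two elements of P are conjugate in G only if they are conjugate in N_G(P), that the centralizer of every element of order p of P has a normal p-complement, and that every two elements of order p of G generate a p-solvable subgroup. Then p = 2. -/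
theorem result {G : Type*} [Group G] [Finite G] [IsSimpleGroup G] (hG : ¬ IsMulCommutative G) {p : ℕ} [Fact p.Prime] (P : Sylow p G)
    (hP1 : (P : Subgroup G) ≠ ⊥) (hPe : Cfsg.IsElementaryAbelian p (P : Subgroup G))
    (hconj : ∀ x ∈ (P : Subgroup G), ∀ y ∈ (P : Subgroup G), x ≠ 1 → y ≠ 1 → ∃ g : G, g * x * g⁻¹ = y)
    (ha : ∀ x ∈ (P : Subgroup G), ∀ y ∈ (P : Subgroup G), (∃ g : G, g * x * g⁻¹ = y) →
      ∃ n ∈ Subgroup.normalizer ((P : Subgroup G) : Set G), n * x * n⁻¹ = y)
    (hb : ∀ x ∈ (P : Subgroup G), orderOf x = p → Cfsg.HasNormalPComplement p ↥(Subgroup.centralizer ({x} : Set G)))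
    (hc : ∀ x y : G, orderOf x = p → orderOf y = p → Cfsg.IsPSolvable p ↥(Subgroup.closure ({x, y} : Set G))) :
    p = 2 := by
  classical
  have := Fintype.ofFinite (P : Subgroup G)
  have hcm : (P : Subgroup G) ≤ centralizer ((P : Subgroup G) : Set G) := fun x hx =>
    mem_centralizer_iff.2 fun y hy => congrArg Subtype.val (hPe.1.1.1 ⟨y, hy⟩ ⟨x, hx⟩)
  have he : ∀ z ∈ (P : Subgroup G), z ≠ 1 → orderOf z = p := fun z hz h1 =>
    orderOf_eq_prime (hPe.2 z hz) h1
  have hS := H10.isSylowIn_top P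
  have haf : AF p (P : Subgroup G) := by
    refine ⟨hS, hcm, fun y hy h1 n hn => mem_centralizer_iff.2 fun u hu => ?_⟩
    have hle : (P : Subgroup G) ≤ centralizer {y} := fun x hx =>
      mem_centralizer_singleton_iff.2 (mem_centralizer_iff.1 (hcm hy) x hx)
    obtain ⟨φ, h2, h3, -⟩ := exists_proj (hS.of_le hle le_top) (hb y hy (he y hy h1))
    have h4 : n * u * n⁻¹ ∈ (P : Subgroup G) := (mem_normalizer_iff.1 hn.2 u).1 hu
    have h5 := h3 (⟨n, hn.1⟩ * ⟨u, hle hu⟩ * ⟨n, hn.1⟩⁻¹) h4
    rw [map_mul, map_mul, map_inv, h3 ⟨u, hle hu⟩ hu,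
      ← mem_centralizer_iff.1 (hcm (h2 _)) _ hu, mul_inv_cancel_right] at h5
    exact eq_mul_inv_iff_mul_eq.1 h5
  obtain ⟨z, hz⟩ := ((P : Subgroup G).ne_bot_iff_exists_ne_one).1 hP1
  have hz' : (z : G) ≠ 1 := fun e => hz (Subtype.ext e)
  obtain ⟨r, hr⟩ : ∃ r, Nat.card (P : Subgroup G) = r + 1 :=
    Nat.exists_eq_succ_of_ne_zero Nat.card_pos.ne'
  have hnum : sg p (P : Subgroup G) (fun _ => 1) = r := by
    rw [sg_elem he]
    rw [Finset.sum_const, Finset.card_univ, ← Nat.card_eq_fintype_card, hr]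
    simp
  have h : PS p (P : Subgroup G) (Nat.card (centralizer ({(z : G)} : Set G))) r :=
    ⟨haf, fun x hx ho => card_centralizer_of_isConj
      (isConj_iff.2 (hconj x hx z z.2 (pelt_of_ord ho).2 hz')), hnum, by
        have := (P : Subgroup G).one_lt_card_iff_ne_bot.2 hP1
        omega, hc⟩
  refine (h.elem he).2.2 ?_
  have h1 := sum_conj haf (haf.pelt z.2) hz'
  rw [Finset.sum_congr rfl (g := fun x : (P : Subgroup G) => fK p (x : G) * 1) fun x _ => by
    by_cases a : (x : G) = 1
    · rw [if_neg (by simpa [a] using hz'.symm), fK, if_neg (by simpa [a] using (Fact.out : p.Prime).one_lt.ne),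
        zero_mul]
    · rw [if_pos (isConj_iff.2 (hconj x x.2 z z.2 a hz')), fK_of_ord (he _ x.2 a), one_mul]] at h1
  exact_mod_cast h1.symm.trans hnum

end Cfsg.Agent.S1951
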