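import Cfsg.Statements.S1952
import Cfsg.Agent.H14.WrQuot
import Cfsg.Agent.H14.Defs

set_option autoImplicit false
set_option linter.unusedVariables false
set_option linter.style.haveILetI false
open Cfsg Cfsg.FusionSystem Equiv H13 H14.Fus
open scoped commutatorElement

namespace Cfsg.Agent.S1952

/-- Let P be a finite p-group with a normal elementary abelian subgroup A of index p, and let x ∈ A and y ∈ P with y outside A. If the product of the p conjugates y^(-i) x y^i (i = 0, …, p−1) is not the identity, then the wreath product Z_p ≀ Z_p, realised as a Sylow p-subgroup of the symmetric group of degree p², is a homomorphic image of P. -/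
theorem result {P : Type*} [Group P] [Finite P] {p : ℕ} [Fact p.Prime] (hP : IsPGroup p P) (A : Subgroup P) [A.Normal]
    (hA : Cfsg.IsElementaryAbelian p A) (hidx : A.index = p) (x y : P) (hx : x ∈ A) (hy : y ∉ A)
    (hprod : ((List.range p).map (fun i => (y ^ i)⁻¹ * x * y ^ i)).prod ≠ 1) :
    ∃ (Q : Sylow p (Equiv.Perm (Fin (p ^ 2)))) (f : P →* ↥(Q : Subgroup (Equiv.Perm (Fin (p ^ 2))))), Function.Surjective f := by
  classical
  haveI := hA.1
  letI : CommGroup A := { (inferInstance : Group A) with mul_comm := fun a b => mul_comm' a b }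
  have hm : ∀ i, (y ^ i)⁻¹ * x * y ^ i ∈ A := fun i => Subgroup.Normal.conj_mem' inferInstance x hx _
  let z : ℕ → A := fun i => ⟨_, hm i⟩
  have h1 : ∏ i ∈ Finset.range p, z i ≠ 1 := fun h2 => hprod (by
    rw [Finset.prod_range, ← List.prod_ofFn] at h2
    have := congrArg A.subtype h2
    rw [map_list_prod, map_one, List.map_ofFn] at this
    rw [← this, List.range_eq_range', List.ofFn_eq_map, ← List.range_eq_range', ← List.map_coe_finRange_eq_range,
      List.map_map]
    rfl)
  obtain ⟨φ, hφ⟩ := exists_zmod_char (p := p) (fun b : A => Subtype.ext (hA.2 _ b.2)) h1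
  refine exists_wreath_quot hP A hidx (fun a => if h : a ∈ A then Multiplicative.toAdd (φ ⟨a, h⟩) else 0)
    (fun a ha b hb => ?_) (u := y) hx ?_
  · simp only [ha, hb, A.mul_mem ha hb, dif_pos]
    rw [← toAdd_mul, ← map_mul]; rfl
  · simp only [hm, dif_pos]
    rw [map_prod] at hφ
    rw [← toAdd_prod]
    exact hφ

end Cfsg.Agent.S1952
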