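import Cfsg.Statements.S1953
import Cfsg.Agent.H12.QdX
import Cfsg.Agent.H10.SylowIn

set_option autoImplicit false
open Cfsg

namespace Cfsg.Agent.S1953

open H12 Subgroup
open H5 hiding cj_inv_cj

theorem sf_ulift {G : Type*} [Group G] [Finite G] {p : ℕ} [Fact p.Prime] (hp : p ≠ 2)
    (h : ¬ H4.IsSec (qd p) (⊤ : Subgroup G)) {S : Subgroup G} (hS : SylIn p S ⊤) :
    SF (𝒩 (kLow S)) S := by
  rw [← induced_kInfLower, ← fusCtl_single_iff]
  exact fc_kinf (Or.inl rfl) (fun Y _ hY => by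
    have := IsSec.finite hY
    exact stable_of_qdFree hp fun h1 => h (hY.trans h1)) G (isSec_self G) S hS

/-- Let p be an odd prime and P a Sylow p-subgroup of the finite group G, and suppose that for no p-subgroup Q of G does N_G(Q)/C_G(Q) have a section isomorphic to SL₂(p). Call a subgroup Q of P centric-radical when Z(Q) is a Sylow p-subgroup of C_G(Q) and the only normal subgroup X of N_G(Q) containing Q·C_G(Q) such that the index of Q·C_G(Q) in X is a power of p is Q·C_G(Q) itself (that is, N_G(Q)/Q·C_G(Q) has no nontrivial normal p-subgroup). Then there is a centric-radical subgroup Q of P contained in every centric-radical subgroup of P; it is normal in P, and N_G(Q) controls strong fusion in P: whenever a subgroup A of P has g A g⁻¹ ≤ P, the element g is a product h c with h in N_G(Q) and c centralizing A. -/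
theorem result {G : Type*} [Group G] [Finite G] {p : ℕ} [Fact p.Prime] (hp : p ≠ 2) (P : Sylow p G)
    (hfree : ∀ Q : Subgroup G, IsPGroup p ↥Q → ¬ ∃ (H K : Subgroup G) (_ : (K.subgroupOf H).Normal),
      Subgroup.centralizer (Q : Set G) ≤ K ∧ K ≤ H ∧ H ≤ Subgroup.normalizer (Q : Set G) ∧
      Nonempty ((↥H ⧸ K.subgroupOf H) ≃* Matrix.SpecialLinearGroup (Fin 2) (ZMod p)))
    (cr : Subgroup G → Prop)
    (hcr : ∀ Q : Subgroup G, cr Q ↔ (Q ≤ (P : Subgroup G) ∧
      (∃ R : Sylow p ↥(Subgroup.centralizer (Q : Set G)),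
        (R : Subgroup ↥(Subgroup.centralizer (Q : Set G))).map (Subgroup.centralizer (Q : Set G)).subtype = Q ⊓ Subgroup.centralizer (Q : Set G)) ∧
      ∀ X : Subgroup G, X ≤ Subgroup.normalizer (Q : Set G) →
        (∀ n ∈ Subgroup.normalizer (Q : Set G), X.map (MulAut.conj n).toMonoidHom = X) →
        Q ⊔ Subgroup.centralizer (Q : Set G) ≤ X → (∃ k : ℕ, (Q ⊔ Subgroup.centralizer (Q : Set G)).relIndex X = p ^ k) →
        X = Q ⊔ Subgroup.centralizer (Q : Set G))) :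
    ∃ Q : Subgroup G, cr Q ∧ (∀ R : Subgroup G, cr R → Q ≤ R) ∧ (∀ x ∈ (P : Subgroup G), Q.map (MulAut.conj x).toMonoidHom = Q) ∧
      ∀ A : Subgroup G, A ≤ (P : Subgroup G) → ∀ g : G, A.map (MulAut.conj g).toMonoidHom ≤ (P : Subgroup G) →
        ∃ h ∈ Subgroup.normalizer (Q : Set G), ∃ c ∈ Subgroup.centralizer (A : Set G), g = h * c := by
  have hS := sylIn_top P
  have h1 : ¬ H4.IsSec (qd p) (⊤ : Subgroup G) := fun h => by
    obtain ⟨Q, H, φ, h2, -, h3, h4, h5, h6⟩ := exists_sl2_of_qd (p := p) (F := ZMod p) h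
    have e : (φ.ker.map H.subtype).subgroupOf H = φ.ker :=
      comap_map_eq_self_of_injective H.subtype_injective _
    have : ((φ.ker.map H.subtype).subgroupOf H).Normal := by rw [e]; infer_instance
    refine hfree Q h2 ⟨H, φ.ker.map H.subtype, this, ?_, map_subtype_le _, h4,
      ⟨(QuotientGroup.quotientMulEquivOfEq e).trans (QuotientGroup.quotientKerEquivOfSurjective φ h5)⟩⟩
    exact (map_subgroupOf_eq_of_le h3).ge.trans (map_mono h6)
  obtain ⟨Q, ⟨hQ1, hQ2, hQ3, hQ4⟩, hmax⟩ := Finite.exists_le_maximal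
    (p := fun Q : Subgroup G => Q ≤ P ∧ (P : Subgroup G) ≤ 𝒩 Q ∧ (P : Subgroup G) ⊓ 𝒞 Q ≤ Q ∧
      SF (𝒩 Q) P) ⟨kLow_le _, by
        rw [← induced_kInfLower]; exact le_normalizer_induced isCharPFunctor_kInfLower P.2,
      centric_kLow P.2, sf_ulift hp h1 hS⟩ |>.imp fun _ h => h.2
  have hQp := P.2.to_le hQ1
  have hN : SylIn p (P : Subgroup G) (𝒩 Q) := hS.of_le hQ2 le_top
  have hC : Centric p Q := centric_of_extremal (S := P) (by rwa [inf_eq_left.2 hQ2, top_inf_eq]) hQ3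
  refine ⟨Q, (hcr Q).2 ⟨hQ1, ⟨(hC.sylIn hQp).toSylow, (hC.sylIn hQp).map_toSylow⟩, ?_⟩, ?_,
    fun x hx => H7.cj_eq_self_iff.2 (hQ2 hx), fun A hA g hg => ?_⟩
  · rintro X hX1 hX2 hX3 ⟨k, hk⟩
    have hX4 : 𝒩 Q ≤ 𝒩 X := fun n hn => H7.cj_eq_self_iff.1 (hX2 n hn)
    have h2 := hN.inf_of_le hX4 hX1
    have h3 : res p X ≤ oppOf p (𝒩 Q) := by
      refine res_le_iff.2 fun x hx hc => ?_
      have h4 : x ∈ Q ⊔ 𝒞 Q := by
        have : ((Q ⊔ 𝒞 Q).subgroupOf X).Normal := (normal_subgroupOf_iff_le_normalizer hX3).2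
          (hX1.trans (H1.le_normalizer_sup le_rfl (H7.normalizer_le_normalizer_centralizer Q)))
        exact H4.mem_of_pow_mem_of_coprime_orderOf
          (((Q ⊔ 𝒞 Q).subgroupOf X).pow_index_mem ⟨x, hx⟩) (by
            rw [show ((Q ⊔ 𝒞 Q).subgroupOf X).index = p ^ k from hk]; exact hc.pow_right k)
      have h5 : Q ⊔ 𝒞 Q ≤ ppOf p (𝒩 Q) := (sup_le le_sup_left (hC.le_sup hQp)).trans
        (sup_le (le_ppOf_of_normal hQp le_normalizer le_rfl) (oppOf_le_ppOf _ _))
      exact res_le_of_pow_mem (p := p) (fun y hy => exists_pow_mem_oppOf hy) (mem_res (h5 h4) hc)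
    have h4 : SF (𝒩 Q ⊓ 𝒩 ((P : Subgroup G) ⊓ X : Subgroup G)) P := by
      refine hQ4.of_sup_coprime P.2 (le_inf hQ2 (H1.le_normalizer_inf le_normalizer (hQ2.trans hX4)))
        (coprime_card_oppOf p (𝒩 Q)) (inf_le_left.trans (self_le_normalizer_oppOf p _))
        fun g hg => ?_
      obtain ⟨x, hx, hxg⟩ := h2.frattini (hX4 hg)
      refine (mul_mem_cancel_left ?_).1 (mem_sup_right ⟨mul_mem (hX1 hx) hg, hxg⟩)
      exact (h2.sup_res.ge.trans (sup_le_sup h3 (le_inf (inf_le_right.trans hX1) le_normalizer))) hx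
    have h5 : Q ≤ (P : Subgroup G) ⊓ X := le_inf hQ1 (le_sup_left.trans hX3)
    have h6 := hmax (y := (P : Subgroup G) ⊓ X) ⟨inf_le_left,
      H1.le_normalizer_inf le_normalizer (hQ2.trans hX4),
      ((inf_le_inf_left _ (centralizer_le h5)).trans hQ3).trans h5,
      fun A hA g hg => (h4 A hA g hg).imp fun x hx => ⟨hx.1.2, hx.2⟩⟩ h5
    refine le_antisymm (h2.sup_res.ge.trans (sup_le (h3.trans (le_trans ?_ le_sup_right))
      (h6.trans le_sup_left))) hX3
    exact oppOf_le_centralizer hQp le_normalizer le_rfl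
  · intro R hR
    obtain ⟨hR1, ⟨T, hT⟩, hR2⟩ := (hcr R).1 hR
    have hRC : Centric p R := centric_of_sylIn (hT ▸ sylIn_map_subtype T)
    have hn : 𝒩 R ≤ 𝒩 (R ⊔ 𝒞 R : Subgroup G) :=
      H1.le_normalizer_sup le_rfl (H7.normalizer_le_normalizer_centralizer R)
    have hle : R ⊔ 𝒞 R ≤ 𝒩 R := sup_le le_normalizer (centralizer_le_normalizer _)
    have h2 := hR2 ((Q ⊓ 𝒩 R) ⊔ (R ⊔ 𝒞 R)) (sup_le inf_le_right hle) (fun n hn' => by
      obtain ⟨x, hx, e⟩ := hQ4 R hR1 n ((H7.cj_eq_self_iff.2 hn').le.trans hR1)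
      have hc : x⁻¹ * n ∈ 𝒞 R := conj_eq_iff_mem_centralizer.1 fun a ha => (e a ha).symm
      have hxR : x ∈ 𝒩 R := by
        have := mul_mem hn' (inv_mem (centralizer_le_normalizer _ hc))
        simpa using this
      rw [← mul_inv_cancel_left x n, ← H7.cj_cj, H7.cj_eq_self_of_mem (mem_sup_right (mem_sup_right hc)),
        H7.cj_sup, H7.cj_inf, H7.cj_eq_self_iff.2 hx, H7.cj_eq_self_of_mem hxR,
        H7.cj_eq_self_iff.2 (hn hxR)]) le_sup_right (by
      obtain ⟨k, hk⟩ := IsPGroup.iff_card.1 (hQp.to_inf_left (K := 𝒩 R))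
      rw [H10.relIndex_sup_of_NN (inf_le_right.trans hn)]
      exact (Nat.dvd_prime_pow Fact.out).1 (hk ▸ relIndex_dvd_card _ _) |>.imp fun _ h => h.2)
    refine le_of_inf_normalizer_le P.2 hR1 hQ1 (hR1.trans hQ2) fun x hx => ?_
    obtain ⟨a, ha, c, hc, rfl⟩ := (H7.mem_sup_of_le_normalizer
      (le_normalizer.trans (H7.normalizer_le_normalizer_centralizer R))).1 (h2.le (mem_sup_left hx))
    exact mul_mem ha (hRC P P.2 hR1 ⟨(mul_mem_cancel_left (hR1 ha)).1 (hQ1 hx.1), hc⟩)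
  · obtain ⟨x, hx, e⟩ := hQ4 A hA g hg
    exact ⟨x, hx, x⁻¹ * g, conj_eq_iff_mem_centralizer.1 fun a ha => (e a ha).symm, by group⟩

end Cfsg.Agent.S1953
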