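import Cfsg.Statements.S1954
import Cfsg.Agent.H10.SylowIn
import Cfsg.Agent.H13.Normal
import Cfsg.Agent.H13.Grp

set_option autoImplicit false
open Cfsg H10

namespace Cfsg.Agent.S1954

open Subgroup

/-- Let N be a normal subgroup of the finite group G, P a Sylow p-subgroup of G, and V a subgroup of P ∩ N normal in P ∩ N such that N_N(V) controls strong fusion in P ∩ N with respect to N (whenever a subgroup A of P ∩ N has n A n⁻¹ ≤ P ∩ N for some n in N, then n = h c with h in N_N(V) and c in C_N(A)). Let W be the subgroup generated by the conjugates of V under N_G(P ∩ N). Then N_G(W) controls strong fusion in P with respect to G. -/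
theorem result {G : Type*} [Group G] [Finite G] {p : ℕ} [Fact p.Prime] (N : Subgroup G) [N.Normal] (P : Sylow p G) (V : Subgroup G)
    (hV : V ≤ (P : Subgroup G) ⊓ N) (hVn : ∀ x ∈ (P : Subgroup G) ⊓ N, V.map (MulAut.conj x).toMonoidHom = V)
    (hctrl : ∀ A : Subgroup G, A ≤ (P : Subgroup G) ⊓ N → ∀ n ∈ N, A.map (MulAut.conj n).toMonoidHom ≤ (P : Subgroup G) ⊓ N →
      ∃ h ∈ N ⊓ Subgroup.normalizer (V : Set G), ∃ c ∈ N ⊓ Subgroup.centralizer (A : Set G), n = h * c)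
    (W : Subgroup G) (hW : W = Subgroup.closure (⋃ x ∈ Subgroup.normalizer (((P : Subgroup G) ⊓ N : Subgroup G) : Set G),
      ((V.map (MulAut.conj x).toMonoidHom : Subgroup G) : Set G))) :
    ∀ A : Subgroup G, A ≤ (P : Subgroup G) → ∀ g : G, A.map (MulAut.conj g).toMonoidHom ≤ (P : Subgroup G) →
        ∃ h ∈ Subgroup.normalizer (W : Set G), ∃ c ∈ Subgroup.centralizer (A : Set G), g = h * c := by
  have hW' : W = ⨆ x ∈ NN((P : Subgroup G) ⊓ N), cj x V := by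
    rw [hW, Subgroup.closure_iUnion]
    refine iSup_congr fun x => ?_
    rw [Subgroup.closure_iUnion]
    exact iSup_congr fun _ => Subgroup.closure_eq _
  clear hW
  set Q := (P : Subgroup G) ⊓ N with hQ
  let Ctl : Subgroup G → Prop := fun X => X ≤ Q ∧ ∀ A : Subgroup G, A ≤ Q → ∀ n ∈ N, cj n A ≤ Q →
    ∃ h ∈ N ⊓ NN(X), ∃ c ∈ N ⊓ CC(A), n = h * c
  have hN : ∀ x n : G, n ∈ N → x * n * x⁻¹ ∈ N := fun x n hn => ‹N.Normal›.conj_mem n hn x
  have c1 : ∀ x ∈ NN(Q), Ctl (cj x V) := fun x hx => by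
    refine ⟨cj_le_of_mem_NN hx hV, fun A hA n hn h1 => ?_⟩
    obtain ⟨h, hh, c, hc, e⟩ := hctrl (cj x⁻¹ A) (cj_le_of_mem_NN (inv_mem hx) hA) (x⁻¹ * n * x)
      (by simpa using hN x⁻¹ n hn) (by
        rw [cj_def, ← cj_mul, mul_inv_cancel_right, cj_mul]
        exact cj_le_of_mem_NN (inv_mem hx) h1)
    refine ⟨x * h * x⁻¹, ⟨hN _ _ hh.1, ?_⟩, x * c * x⁻¹, ⟨hN _ _ hc.1, ?_⟩, ?_⟩
    · exact cj_normalizer x V ▸ conj_mem_cj hh.2
    · have := conj_mem_cj (g := x) hc.2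
      rwa [cj_centralizer, cj_cj_inv] at this
    · calc n = x * (x⁻¹ * n * x) * x⁻¹ := by group
        _ = _ := by rw [e]; group
  have c2 : ∀ X Y, Ctl X → Ctl Y → Ctl (X ⊔ Y) := fun X Y hX hY => by
    refine ⟨sup_le hX.1 hY.1, fun A hA n hn h1 => ?_⟩
    obtain ⟨h, hh, c, hc, rfl⟩ := hX.2 A hA n hn h1
    obtain ⟨h', hh', c', hc', e⟩ := hY.2 (A ⊔ X) (sup_le hA hX.1) h hh.1 (by
      rw [cj_mul, cj_eq_of_mem_NN (CC_le_NN _ hc.2)] at h1
      rw [cj_sup, cj_eq_of_mem_NN hh.2]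
      exact sup_le h1 hX.1)
    refine ⟨h', ⟨hh'.1, mem_NN_sup ?_ hh'.2⟩, c' * c,
      ⟨mul_mem hc'.1 hc.1, mul_mem (CC_anti le_sup_left hc'.2) hc.2⟩, by rw [e, mul_assoc]⟩
    rw [eq_mul_inv_of_mul_eq e.symm]
    exact mul_mem hh.2 (inv_mem (CC_le_NN _ (CC_anti le_sup_right hc'.2)))
  have c3 : Ctl W := by
    have h1 : cj 1 V ≤ W := hW' ▸ le_iSup₂_of_le 1 (one_mem _) le_rfl
    obtain ⟨X, hX⟩ := (Set.toFinite {X | X ≤ W ∧ Ctl X}).exists_maximal
      ⟨_, h1, c1 1 (one_mem _)⟩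
    have : W ≤ X := hW' ▸ iSup₂_le fun x hx => le_sup_right.trans (hX.2
      ⟨sup_le hX.1.1 (hW' ▸ le_iSup₂_of_le x hx le_rfl), c2 _ _ hX.1.2 (c1 x hx)⟩ le_sup_left)
    exact le_antisymm hX.1.1 this ▸ hX.1.2
  have c4 : NN(Q) ≤ NN(W) := le_NN_of_cj_le fun g hg => by
    rw [hW', cj_iSup]
    refine iSup_le fun x => ?_
    rw [cj_iSup]
    exact iSup_le fun hx => cj_mul g x V ▸ le_iSup₂_of_le (g * x) (mul_mem hg hx) le_rfl
  have c5 : ∀ i, NN(W) ≤ NN(W.lowerCentralSeries i) := fun i => by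
    induction i with
    | zero => exact le_rfl
    | succ i ih => exact le_NN_commutator ih le_rfl
  have c6 : ∀ i, W.lowerCentralSeries i ≤ W := fun i => W.lowerCentralSeries_antitone (Nat.zero_le i)
  have hWP : W ≤ P := c3.1.trans inf_le_left
  have hS : IsSylowIn p Q N := (isSylowIn_top P).inf_normal le_top (le_NN_of_normal _ _)
  have sc : ∀ i, (groupFusionSystem (P : Subgroup G)).StronglyClosed (W.lowerCentralSeries i) := by
    refine fun i => ⟨(c6 i).trans hWP, fun R hR φ ⟨_, h1, g, hg⟩ x => ?_⟩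
    obtain ⟨a, ha, b, hb, rfl⟩ := hS.frattini' le_top (le_NN_of_normal _ _) (mem_top g)
    have h2 := conj_mem_of_mem_NN (c5 i (c4 hb.2)) (hR x.2)
    have e : a * b * x * (a * b)⁻¹ = a * (b * x * b⁻¹) * a⁻¹ := by group
    have h3 := c3.1 (c6 i h2)
    obtain ⟨h, hh, c, hc, rfl⟩ := c3.2 (zpowers (b * x * b⁻¹)) (zpowers_le.2 h3) a ha (by
      rw [cj_zpowers, zpowers_le]
      exact ⟨e ▸ hg x ▸ h1 x, hN _ _ h3.2⟩)
    have h4 := mem_CC.1 hc.2 _ (mem_zpowers _)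
    have : h * c * (b * x * b⁻¹) * (h * c)⁻¹ = h * (b * x * b⁻¹) * h⁻¹ := by
      calc _ = h * (c * (b * x * b⁻¹)) * c⁻¹ * h⁻¹ := by group
        _ = _ := by rw [← h4]; group
    rw [hg, e, this]
    exact conj_mem_of_mem_NN (c5 i hh.2) h2
  obtain ⟨n, hn⟩ := H13.exists_lowerCentralSeries_eq_bot P.2 hWP
  have hnorm := H13.normal_of_chain P.2 (H13.saturated_group P) (Q := W)
    (fun i => W.lowerCentralSeries (n - i)) (by simpa using hn) (n := n) (by simp) (fun i => sc _)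
    fun i hi => by
      have : n - i = n - (i + 1) + 1 := by omega
      rw [this]; exact le_rfl
  intro A hA g hg
  obtain ⟨ψ, ⟨-, -, h, hh⟩, h1, h2⟩ := hnorm.2 A (conjHom A g)
    ⟨hA, fun x => hg (conj_mem_cj x.2), g, fun _ => rfl⟩
  refine ⟨h, mem_NN_of_conj_mem fun w hw => ?_, h⁻¹ * g, mem_CC.2 fun a ha => ?_, by group⟩
  · rw [← h2]
    exact ⟨⟨w, mem_sup_right hw⟩, hw, hh _⟩
  · have e : h * a * h⁻¹ = g * a * g⁻¹ := (hh _).symm.trans (h1 ⟨a, ha⟩)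
    calc _ = h⁻¹ * (h * a * h⁻¹) * g := by group
      _ = _ := by rw [e]; group

end Cfsg.Agent.S1954
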