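import Cfsg.Statements.S1956
import Cfsg.Agent.H6.Misc

set_option autoImplicit false
open Cfsg

namespace Cfsg.Agent.S1956

/-- Let P be a Sylow p-subgroup of the finite group G such that every element of P of order dividing p (dividing 4 when p = 2) is central in P. Then the fusion of these elements is controlled by N_G(P): if such an element a of P has g a g⁻¹ in P, then g = n c with n normalizing P and c commuting with a. -/
theorem result {G : Type*} [Group G] [Finite G] {p : ℕ} [Fact p.Prime] (P : Sylow p G)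
    (hcen : ∀ a ∈ (P : Subgroup G), (a ^ p = 1 ∨ (p = 2 ∧ a ^ 4 = 1)) → ∀ y ∈ (P : Subgroup G), a * y = y * a) :
    ∀ a ∈ (P : Subgroup G), (a ^ p = 1 ∨ (p = 2 ∧ a ^ 4 = 1)) → ∀ g : G, g * a * g⁻¹ ∈ (P : Subgroup G) →
      ∃ n ∈ Subgroup.normalizer ((P : Subgroup G) : Set G), ∃ c : G, c * a = a * c ∧ g = n * c := by
  intro a ha h g hg
  obtain ⟨n, hn, e⟩ := H6.burnside_fusion_comm P (x := a) (y := g * a * g⁻¹)
    (fun s hs => (hcen a ha h s hs).symm) (fun s hs => (hcen _ hg (by
      simp only [conj_pow, ← MulAut.conj_apply, EmbeddingLike.map_eq_one_iff]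
      simpa using h) s hs).symm) (isConj_iff.2 ⟨g, rfl⟩)
  refine ⟨n, hn, n⁻¹ * g, ?_, by group⟩
  calc n⁻¹ * g * a = n⁻¹ * (g * a * g⁻¹) * g := by group
    _ = _ := by rw [← e]; group

end Cfsg.Agent.S1956
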