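import Cfsg.Statements.S1988
import Cfsg.Agent.H12.NPC

set_option autoImplicit false
universe u
open Cfsg

namespace Cfsg.Agent.S1988

open H12 Subgroup

/-- Let p be an odd prime, G a finite group with Sylow p-subgroup S and K the lower K-infinity subgroup of S. If N_G(K) has a normal p-complement, or if N_G(K)/C_G(K) is a p-group (every element of N_G(K) of order prime to p centralizes K), then G has a normal p-complement. -/
theorem result {G : Type u} [Group G] [Finite G] {p : ℕ} [Fact p.Prime] (hp : p ≠ 2) (S : Sylow p G) (h : Cfsg.HasNormalPComplement p ↥(Subgroup.normalizer ((Cfsg.inducedFunctor Cfsg.kInfLower (S : Subgroup G) : Subgroup G) : Set G)) ∨ ∀ g ∈ Subgroup.normalizer ((Cfsg.inducedFunctor Cfsg.kInfLower (S : Subgroup G) : Subgroup G) : Set G), (orderOf g).Coprime p → g ∈ Subgroup.centralizer ((Cfsg.inducedFunctor Cfsg.kInfLower (S : Subgroup G) : Subgroup G) : Set G)) : Cfsg.HasNormalPComplement p G := by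
  have hW := isCharPFunctor_kInfLower.{u} (p := p)
  refine npc_of_sec hW S ?_ fun K R _ h1 _ h3 T _ => ?_
  · rcases h with h | h
    · exact h
    · refine npc_normalizer (sylIn_top S) (le_normalizer_induced hW S.2) ?_ (res_le_iff.2 h)
      rw [induced_kInfLower]; exact centric_kLow S.2
  · exact kinf_normal_of_stable (Or.inl rfl)
      (fun V _ => stable_of_abelian hp h3 _ (isSec_quotient V)) h1 (sylIn_top T)

end Cfsg.Agent.S1988
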