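import Cfsg.Statements.S2111
import Cfsg.Agent.H26.SzMult
import Cfsg.Agent.S0102

set_option autoImplicit false
open Cfsg

namespace Cfsg.Agent.S2111


/-- Schur multipliers of the Suzuki groups: for q = 2^(2m+1) with m ≥ 2 the Schur multiplier of Sz(q) is trivial (here the Schur multiplier is described through stem extensions, as in the definitions); q = 8 is exceptional. -/
theorem result {F : Type*} [Field F] [Fintype F] {m : ℕ} (hm : 2 ≤ m) (hF : Fintype.card F = 2 ^ (2 * m + 1)) : Cfsg.HasCyclicSchurMultiplier ↥(Cfsg.Lie.Sz F (2 ^ (m + 1))) 1 := by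
  let N := H26.Sz.lieModel (show 1 ≤ m by omega) hF
  have := N.finite
  refine ⟨⟨_, inferInstance, inferInstance, MonoidHom.id _, ⟨Function.surjective_id, by simp, by simp⟩, ?_⟩, ?_⟩
  · rw [MonoidHom.ker_id]
    exact ⟨MulEquiv.ofUnique⟩
  · rintro Γ _ _ σ ⟨h1, h2, h3⟩
    have hΓ : commutator Γ = ⊤ := by
      have h4 : (commutator Γ).map σ = ⊤ := by
        rw [map_commutator_eq, MonoidHom.range_eq_top.2 h1, ← commutator_def, N.perfect]
      rw [← Subgroup.comap_map_eq_self h3, h4, Subgroup.comap_top]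
    have h5 : Nat.card σ.ker = 1 := by
      by_contra h
      obtain ⟨p, hp, hd⟩ := Nat.exists_prime_and_dvd h
      have : Fact p.Prime := ⟨hp⟩
      by_cases h2' : p = 2
      · subst h2'
        obtain ⟨z, hz⟩ := exists_prime_orderOf_dvd_card' 2 hd
        have := N.odd_of_stem h1 h2 hm z.2 (h3 z.2)
        rw [Subgroup.orderOf_coe, hz] at this
        exact absurd this (by decide)
      · exact Cfsg.Agent.S0102.result N.perfect (fun P => N.isCyclic_of_odd_pgroup h2' P.isPGroup') σ h1 h2 hΓ hd
    have := (Nat.card_eq_one_iff_unique.1 h5).1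
    exact ⟨1, fun x => ⟨1, Subsingleton.elim _ _⟩⟩

end Cfsg.Agent.S2111
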