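import Cfsg.Statements.S2126
import Cfsg.Agent.H26.SzAut

set_option autoImplicit false
open Cfsg

namespace Cfsg.Agent.S2126


/-- Outer automorphisms of the Suzuki groups: for q = 2^(2m+1) with m ≥ 1 the outer automorphism group of Sz(q) has order 2m + 1 (field automorphisms only). -/
theorem result {F : Type*} [Field F] [Fintype F] {m : ℕ} (hm : 1 ≤ m) (hF : Fintype.card F = 2 ^ (2 * m + 1)) : Nat.card (Cfsg.Out ↥(Cfsg.Lie.Sz F (2 ^ (m + 1)))) = 2 * m + 1 := by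
  let N := H26.Sz.lieModel hm hF
  rw [← H26.card_ringEquiv hF]
  refine (Nat.card_congr (Equiv.ofBijective
    (fun τ : F ≃+* F => (QuotientGroup.mk (N.fieldAut τ) : Cfsg.Out _)) ⟨fun τ τ' h => ?_, fun x => ?_⟩)).symm
  · obtain ⟨g, hg⟩ := QuotientGroup.eq.1 h
    exact N.fieldAut_inj (g := g) (by rw [hg, mul_inv_cancel_left])
  · obtain ⟨α, rfl⟩ := QuotientGroup.mk_surjective x
    obtain ⟨g, τ, rfl⟩ := N.exists_aut_eq α
    refine ⟨τ, QuotientGroup.eq.2 ?_⟩
    rw [← mul_assoc]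
    exact (Cfsg.innNormal _).conj_mem' _ ⟨g, rfl⟩ _

end Cfsg.Agent.S2126
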