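import Cfsg.Statements.S2132
import Cfsg.Agent.H29.McC

set_option autoImplicit false
open Cfsg

namespace Cfsg.Agent.S2132

/-- The McLaughlin group (as a two-vector stabiliser in the automorphism group of the rank-24 lattice) has a single conjugacy class of involutions, and the centraliser of an involution is a non-split double cover of the alternating group of degree 8. -/
theorem result : (∀ x y : ↥Cfsg.Spor.McL, orderOf x = 2 → orderOf y = 2 → IsConj x y) ∧ ∃ t : ↥Cfsg.Spor.McL, orderOf t = 2 ∧ Cfsg.IsNonsplitDoubleCover ↥(Subgroup.centralizer ({t} : Set ↥Cfsg.Spor.McL)) ↥(alternatingGroup (Fin 8)) := by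
  obtain ⟨St, k⟩ := H29.cMc_key
  have hN := (Nat.card_congr H27.mclEquiv.symm.toEquiv).trans H27.card_CMc
  have := Nat.finite_of_card_ne_zero (hN.trans_ne (by norm_num))
  exact H29.mc_cent (H29.cMcM.comap H27.mclEquiv.symm.toMonoidHom H27.mclEquiv.symm.injective) rfl rfl rfl
    (fun c hc => let ⟨g, _, r⟩ := H29.cMc_valid.1 c hc
      ⟨H27.mclEquiv g, trivial, H29.cMcM.R_congr r (H27.mclEquiv.symm_apply_apply g).symm⟩)
    (k.comap _ _) hN (fun _ _ _ a b => a.trans b.symm)
    (fun c g => H29.a2_24.model_lt _ H29.cMc_inj (by decide +kernel) c _)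

end Cfsg.Agent.S2132
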