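import Cfsg.Statements.S2162
import Cfsg.Agent.H16.LA4
-- import your own Cfsg.Agent.* helpers here

set_option autoImplicit false
open Cfsg

namespace Cfsg.Agent.S2162

open H16 Polynomial in
/-- Conjugacy of involutions in the special linear group over a finite field of characteristic two, in dimension at least 3: two elements of order 2 of SL_n(F) are conjugate in SL_n(F) exactly when the matrices a − 1 and b − 1 have the same rank (the rank of a − 1 is the dimension of the commutator space [V, a]). -/
theorem result {F : Type*} [Field F] [Fintype F] [CharP F 2] {n : ℕ} (hn : 3 ≤ n) (a b : Matrix.SpecialLinearGroup (Fin n) F) (ha : orderOf a = 2) (hb : orderOf b = 2) :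
    IsConj a b ↔ ((a : Matrix (Fin n) (Fin n) F) - 1).rank = ((b : Matrix (Fin n) (Fin n) F) - 1).rank := by
  have h2 : ∀ c : Matrix.SpecialLinearGroup (Fin n) F, orderOf c = 2 → (c.1 - 1) ^ 2 = 0 := fun c hc => by
    have := Fact.mk Nat.prime_two
    have := (pow_char_pow_eq_one_iff 2 c.1 1).1 ((SL_pow_eq_one_iff c _).1 (by
      rw [pow_one, ← hc]; exact pow_orderOf_eq_one c))
    simpa using this
  have h3 := edM_of_sq_zero (h2 a ha)
  have h4 := edM_of_sq_zero (h2 b hb)
  constructor
  · intro h
    have h5 := edM_eq_of_SL_isConj h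
    have := uni_rank h3.1
    have := uni_rank (h5 ▸ h3.1 : edM b.1 = _)
    omega
  · intro h
    refine SL_isConj_of_edM (by rw [h3.1, h4.1, h]) fun c hc => ?_
    have : Nonempty (Fin n) := ⟨⟨0, by omega⟩⟩
    obtain ⟨q, hq⟩ := exists_mem_edM a.1
    have h5 : q.natDegree ∈ jt a.1 := Multiset.mem_map_of_mem _ hq
    have h6 := jt_pos h5
    have h7 := (uni_pow_eq_zero_iff (edM_eq_uni (h2 a ha)) 2).1 (h2 a ha) _ h5
    obtain h8 | h8 : q.natDegree = 1 ∨ q.natDegree = 2 := by omega
    · simpa [h8] using exists_comm_det_powM hq c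
    · have := Fact.mk Nat.prime_two
      obtain ⟨d, rfl⟩ := surjective_frobenius F 2 c
      simpa [h8, frobenius_def] using exists_comm_det_powM hq d

end Cfsg.Agent.S2162
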