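import Cfsg.Statements.S2163
import Cfsg.Agent.H16.LA4
-- import your own Cfsg.Agent.* helpers here

set_option autoImplicit false
open Cfsg

namespace Cfsg.Agent.S2163

open H16 Polynomial in
/-- Over a finite field of characteristic two and for n ≥ 3: for every ℓ with 1 ≤ ℓ and 2ℓ ≤ n, the matrix j_ℓ that is the identity plus the entries 1 in positions (n − ℓ + i, i) for i < ℓ (an identity block of size ℓ in the lower left corner) lies in SL_n(F), has order 2, and j_ℓ − 1 has rank ℓ. Together with the conjugacy criterion by rank, these matrices represent the conjugacy classes of involutions of SL_n(F). -/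
theorem result {F : Type*} [Field F] [Fintype F] [CharP F 2] {n : ℕ} (hn : 3 ≤ n) (ℓ : ℕ) (h1 : 1 ≤ ℓ) (h2 : 2 * ℓ ≤ n) :
    ∃ a : Matrix.SpecialLinearGroup (Fin n) F, (a : Matrix (Fin n) (Fin n) F) = 1 + Matrix.of (fun i j : Fin n => if j.val < ℓ ∧ i.val = j.val + (n - ℓ) then (1 : F) else 0) ∧ orderOf a = 2 ∧ ((a : Matrix (Fin n) (Fin n) F) - 1).rank = ℓ := by
  classical
  set N : Matrix (Fin n) (Fin n) F := Matrix.of (fun i j : Fin n => if j.val < ℓ ∧ i.val = j.val + (n - ℓ) then (1 : F) else 0) with hN
  have hNN : N * N = 0 := by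
    ext i j
    simp only [hN, Matrix.mul_apply, Matrix.of_apply, Matrix.zero_apply]
    refine Finset.sum_eq_zero fun k _ => ?_
    split_ifs with h1 h2 <;> simp
    omega
  have hD1 : N * Matrix.diagonal (fun j : Fin n => if j.val < ℓ then (1 : F) else 0) = N := by
    ext i j
    simp only [hN, Matrix.mul_diagonal, Matrix.of_apply]
    split_ifs with h1 h2 <;> simp_all
  have hD2 : N.transpose * N = Matrix.diagonal (fun j : Fin n => if j.val < ℓ then (1 : F) else 0) := by
    ext i j
    simp only [hN, Matrix.mul_apply, Matrix.of_apply, Matrix.transpose_apply, Matrix.diagonal_apply]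
    by_cases hi : i.val < ℓ
    · rw [Finset.sum_eq_single ⟨i.val + (n - ℓ), by omega⟩]
      · by_cases hij : i = j
        · subst hij; simp [hi]
        · have : ¬ i.val = j.val := fun h => hij (Fin.ext h)
          simp [hij, this]
      · intro b _ hb
        rw [if_neg, zero_mul]
        exact fun h => hb (Fin.ext h.2)
      · simp
    · simp [hi]
  have hr : (Matrix.diagonal (fun j : Fin n => if j.val < ℓ then (1 : F) else 0)).rank = ℓ := by
    rw [Matrix.rank_diagonal]
    simp only [ne_eq, ite_eq_right_iff, one_ne_zero, imp_false, not_not]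
    rw [Fintype.card_subtype]
    simpa using Fin.card_filter_val_lt (n := n) (m := ℓ) |>.trans (by omega)
  have hrank : N.rank = ℓ := by
    apply le_antisymm
    · have := Matrix.rank_mul_le_right N (Matrix.diagonal (fun j : Fin n => if j.val < ℓ then (1 : F) else 0))
      rwa [hD1, hr] at this
    · have := Matrix.rank_mul_le_right N.transpose N
      rwa [hD2, hr] at this
  have hdet : (1 + N).det = 1 := by
    have := det_of_sub_pow_eq_zero (A := 1 + N) (c := 1) (k := 2) (by simp [pow_two, hNN])
    simpa using this
  refine ⟨⟨1 + N, hdet⟩, rfl, ?_, by simpa using hrank⟩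
  have := Fact.mk Nat.prime_two
  refine orderOf_eq_prime ((SL_pow_eq_one_iff _ _).2 ?_) fun h => ?_
  · have := (pow_char_pow_eq_one_iff 2 (1 + N) 1).2 (by simp [pow_two, hNN])
    simpa using this
  · have : N = 0 := by simpa using congrArg Subtype.val h
    rw [this, Matrix.rank_zero] at hrank
    omega

end Cfsg.Agent.S2163
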