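import Cfsg.Statements.S2164
import Cfsg.Agent.H14.Wall3
import Cfsg.Agent.S2162

set_option autoImplicit false
set_option linter.unusedVariables false
set_option linter.style.haveILetI false
open Cfsg H14.Wall H16 H23 Polynomial
open scoped Matrix

namespace Cfsg.Agent.S2164

/-- Conjugacy of involutions in the special unitary group SU_n(q), q even, n ≥ 3, realised over the field F with q² elements as the matrices of determinant 1 preserving the form Σ u_i v_i^q: for two elements of order 2 of SU_n(q) the following are equivalent — they are conjugate in SU_n(q); they are conjugate in SL_n(F); the matrices a − 1 and b − 1 have the same rank. -/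
theorem result {F : Type*} [Field F] [Fintype F] [CharP F 2] {n q : ℕ} (hF : Fintype.card F = q ^ 2) (hn : 3 ≤ n) (a b : ↥(Cfsg.SU n F q)) (ha : orderOf a = 2) (hb : orderOf b = 2) :
    (IsConj a b ↔ IsConj (a : Matrix.SpecialLinearGroup (Fin n) F) (b : Matrix.SpecialLinearGroup (Fin n) F)) ∧
    (IsConj a b ↔ (((a : Matrix.SpecialLinearGroup (Fin n) F) : Matrix (Fin n) (Fin n) F) - 1).rank = (((b : Matrix.SpecialLinearGroup (Fin n) F) : Matrix (Fin n) (Fin n) F) - 1).rank) := by
  have ha' : orderOf (a : Matrix.SpecialLinearGroup (Fin n) F) = 2 := by rwa [Subgroup.orderOf_coe]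
  have hb' : orderOf (b : Matrix.SpecialLinearGroup (Fin n) F) = 2 := by rwa [Subgroup.orderOf_coe]
  have h0 := Cfsg.Agent.S2162.result hn _ _ ha' hb'
  have h1 : IsConj a b ↔ IsConj (a : Matrix.SpecialLinearGroup (Fin n) F)
      (b : Matrix.SpecialLinearGroup (Fin n) F) := by
    refine ⟨fun h => (Cfsg.SU n F q).subtype.map_isConj h, fun h => ?_⟩
    haveI := Fact.mk Nat.prime_two
    have h2 : (a.1.1 - 1) ^ 2 = 0 := by
      have := (pow_char_pow_eq_one_iff 2 a.1.1 1).1 ((SL_pow_eq_one_iff _ _).1 (by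
        rw [pow_one, ← ha']; exact pow_orderOf_eq_one _))
      simpa using this
    haveI : Nonempty (Fin n) := ⟨⟨0, by omega⟩⟩
    obtain ⟨f, hf⟩ := exists_mem_edM a.1.1
    obtain ⟨e, he1, he2, rfl⟩ := (sub_pow_eq_zero_iff_edM a.1.1 1 2).1 (by simpa using h2) f hf
    refine SU_isConj_of hF (edM_eq_of_SL_isConj h) fun μ hμ => ?_
    obtain ⟨ν, hν, hν'⟩ : ∃ ν : F, conj hF ν * ν = 1 ∧ ν ^ e = μ := by
      obtain rfl | rfl : e = 1 ∨ e = 2 := by omega
      · exact ⟨μ, hμ, pow_one μ⟩
      · obtain ⟨d, rfl⟩ := surjective_frobenius F 2 μ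
        refine ⟨d, ?_, rfl⟩
        apply frobenius_inj F 2
        rw [map_one, ← hμ]
        simp only [frobenius_def, map_pow, mul_pow]
    obtain ⟨P, h3, h4, h5⟩ := U_comm_det_pow (conj_conj hF) (conj_ne_id hF)
      ((mem_SU_ct hF).1 a.2) (s := {(X - C 1) ^ e}) (by simpa using hf)
      (by rw [Multiset.map_singleton, dual_pow, dual_X_sub_C _ one_ne_zero, map_one, inv_one]) hν
    refine ⟨P, h3, h4, ?_⟩
    rw [h5, Multiset.map_singleton, Multiset.sum_singleton, natDegree_X_sub_C_pow', hν']
  exact ⟨h1, h1.trans h0⟩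

end Cfsg.Agent.S2164
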