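import Cfsg.Statements.S2165
import Cfsg.Agent.H14.Wall3

set_option autoImplicit false
set_option linter.unusedVariables false
set_option linter.style.haveILetI false
open Cfsg H14.Wall H16 H23 Polynomial
open scoped Matrix

namespace Cfsg.Agent.S2165

/-- In SU_n(q), q even, n ≥ 3 (matrices of determinant 1 over the field with q² elements preserving Σ u_i v_i^q): for every ℓ with 1 ≤ ℓ and 2ℓ ≤ n, the permutation matrix of the involution of {0, …, n−1} exchanging i and n − ℓ + i for each i < ℓ lies in SU_n(q), has order 2, and differs from the identity by a matrix of rank ℓ. So every rank between 1 and n/2 occurs for involutions of SU_n(q). -/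
theorem result {F : Type*} [Field F] [Fintype F] [CharP F 2] {n q : ℕ} (hF : Fintype.card F = q ^ 2) (hn : 3 ≤ n) (ℓ : ℕ) (h1 : 1 ≤ ℓ) (h2 : 2 * ℓ ≤ n) :
    ∃ a : ↥(Cfsg.SU n F q), (((a : Matrix.SpecialLinearGroup (Fin n) F) : Matrix (Fin n) (Fin n) F) = Matrix.of (fun i j : Fin n => if (j.val < ℓ ∧ i.val = j.val + (n - ℓ)) ∨ (i.val < ℓ ∧ j.val = i.val + (n - ℓ)) ∨ (i = j ∧ ℓ ≤ i.val ∧ i.val < n - ℓ) then (1 : F) else 0)) ∧ orderOf a = 2 ∧ ((((a : Matrix.SpecialLinearGroup (Fin n) F) : Matrix (Fin n) (Fin n) F)) - 1).rank = ℓ := by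
  classical
  let t : Fin n → Fin n := fun j => if h : j.val < ℓ then ⟨j.val + (n - ℓ), by omega⟩
    else if h' : n - ℓ ≤ j.val then ⟨j.val - (n - ℓ), by omega⟩ else j
  have hv : ∀ j, (t j).val = if j.val < ℓ then j.val + (n - ℓ) else if n - ℓ ≤ j.val then
      j.val - (n - ℓ) else j.val := by
    intro j; simp only [t]; split_ifs <;> rfl
  have ht : Function.Involutive t := by
    intro j
    apply Fin.ext
    have := j.2
    rw [hv, hv]; split_ifs <;> omega
  let π : Equiv.Perm (Fin n) := ht.toPerm t
  set A : Matrix (Fin n) (Fin n) F := π.permMatrix F with hA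
  have hAe : ∀ i j, A i j = if j.val = (t i).val then 1 else 0 := by
    intro i j
    simp only [hA, Equiv.Perm.permMatrix, PEquiv.toMatrix_apply, Equiv.toPEquiv_apply,
      Option.mem_def, Option.some.injEq, Fin.ext_iff, eq_comm]
    rfl
  have hl : ∀ (X : Matrix (Fin n) (Fin n) F) i j, (A * X) i j = X (t i) j := by
    intro X i j
    rw [hA, Equiv.Perm.permMatrix, PEquiv.toMatrix_toPEquiv_mul]; rfl
  have hr : ∀ (X : Matrix (Fin n) (Fin n) F) i j, (X * A) i j = X i (t j) := by
    intro X i j
    rw [hA, Equiv.Perm.permMatrix, PEquiv.mul_toMatrix_toPEquiv]; rfl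
  have hAA : A * A = 1 := by
    ext i j
    rw [hl, hAe, ht i, Matrix.one_apply]
    simp only [Fin.ext_iff, eq_comm]
  haveI := Fact.mk Nat.prime_two
  have hdet : A.det = 1 := by
    apply frobenius_inj F 2
    rw [frobenius_def, sq, ← Matrix.det_mul, hAA, Matrix.det_one, map_one]
  set D : Matrix (Fin n) (Fin n) F := Matrix.diagonal (fun j : Fin n => if j.val < ℓ then (1 : F) else 0)
    with hD
  have hrD : D.rank = ℓ := by
    rw [hD, Matrix.rank_diagonal]
    simp only [ne_eq, ite_eq_right_iff, one_ne_zero, imp_false, not_not]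
    rw [Fintype.card_subtype]
    simpa using Fin.card_filter_val_lt (n := n) (m := ℓ) |>.trans (by omega)
  have h3 : A - 1 = (A - 1) * D * (1 - A) := by
    ext i j
    have := i.2
    have := j.2
    rw [mul_sub, mul_one, Matrix.sub_apply ((A - 1) * D), hr, hD, Matrix.mul_diagonal,
      Matrix.mul_diagonal]
    simp only [Matrix.sub_apply, hAe, Matrix.one_apply, Fin.ext_iff, hv]
    split_ifs <;> first | omega | simp
  have h4 : D = D * ((A - 1) * -D) := by
    ext i j
    have := i.2
    have := j.2
    rw [hD, Matrix.diagonal_neg, Matrix.diagonal_mul, Matrix.mul_diagonal]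
    simp only [Matrix.sub_apply, hAe, Matrix.one_apply, Fin.ext_iff, hv, Matrix.diagonal_apply]
    split_ifs <;> first | omega | simp
  have hrank : (A - 1).rank = ℓ := by
    apply le_antisymm
    · rw [h3, ← hrD]
      exact (Matrix.rank_mul_le_left _ _).trans (Matrix.rank_mul_le_right _ _)
    · rw [← hrD, h4]
      exact (Matrix.rank_mul_le_right _ _).trans (Matrix.rank_mul_le_left _ _)
  refine ⟨mkSU hF A (U_permMatrix _ _) hdet, ?_, ?_, hrank⟩
  · ext i j
    have := i.2
    have := j.2
    rw [mkSU_val, hAe, Matrix.of_apply, hv]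
    simp only [Fin.ext_iff]
    split_ifs <;> first | omega | rfl
  · refine orderOf_eq_prime (Subtype.ext (Subtype.ext ?_)) fun h => ?_
    · rw [sq]; exact hAA
    · have : A = 1 := congrArg (fun x : SU n F q => x.1.1) h
      rw [this, sub_self, Matrix.rank_zero] at hrank
      omega

end Cfsg.Agent.S2165
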