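import Cfsg.Statements.S2166
import Cfsg.Agent.H14.Wall13

set_option autoImplicit false
set_option linter.unusedVariables false
set_option linter.style.haveILetI false
open Cfsg H14.Wall H16 H23 Polynomial
open scoped Matrix

namespace Cfsg.Agent.S2166

/-- Conjugacy of involutions in the symplectic group Sp_{2m}(F), F a finite field of characteristic two, m ≥ 2 (Sp taken as the matrices A with A J Aᵀ = J, acting on column vectors, with the alternating form f(u, v) = u ⬝ (J v)). For an involution t write V(t) for the set of vectors v with f(v, t v) = 0 (a subspace). Two involutions a, b are conjugate in Sp_{2m}(F) exactly when a − 1 and b − 1 have the same rank and, in case that rank is even, V(a) and V(b) have the same number of elements. -/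
theorem result {F : Type*} [Field F] [Fintype F] [CharP F 2] {m : ℕ} (hm : 2 ≤ m) (a b : ↥(Matrix.symplecticGroup (Fin m) F)) (ha : orderOf a = 2) (hb : orderOf b = 2) :
    IsConj a b ↔ ((((a : ↥(Matrix.symplecticGroup (Fin m) F)) : Matrix (Fin m ⊕ Fin m) (Fin m ⊕ Fin m) F) - 1).rank = (((b : ↥(Matrix.symplecticGroup (Fin m) F)) : Matrix (Fin m ⊕ Fin m) (Fin m ⊕ Fin m) F) - 1).rank ∧
      (Even (((a : ↥(Matrix.symplecticGroup (Fin m) F)) : Matrix (Fin m ⊕ Fin m) (Fin m ⊕ Fin m) F) - 1).rank → Nat.card {v : Fin m ⊕ Fin m → F // Cfsg.sympForm m F v (Matrix.mulVec ((a : ↥(Matrix.symplecticGroup (Fin m) F)) : Matrix (Fin m ⊕ Fin m) (Fin m ⊕ Fin m) F) v) = 0} = Nat.card {v : Fin m ⊕ Fin m → F // Cfsg.sympForm m F v (Matrix.mulVec ((b : ↥(Matrix.symplecticGroup (Fin m) F)) : Matrix (Fin m ⊕ Fin m) (Fin m ⊕ Fin m) F) v) = 0})) := by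
  have h1 := map_sq_eq_one (spE m F) (ha ▸ pow_orderOf_eq_one a)
  have h2 := map_sq_eq_one (spE m F) (hb ▸ pow_orderOf_eq_one b)
  rw [isConj_equiv (spE m F), invol_isConj_iff h1 h2 (spForm_nondeg m), rk_spE, rk_spE]
  refine and_congr_right fun _ => imp_congr_right fun _ => ?_
  have h3 := card_V (spForm_nondeg m) h1
  have h4 := card_V (spForm_nondeg m) h2
  simp only [spForm_B, finrank_sp] at h3 h4
  have h5 : Fintype.card F ^ (2 * m - 1) < Fintype.card F ^ (2 * m) :=
    Nat.pow_lt_pow_right Fintype.one_lt_card (by omega)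
  rcases h3 with ⟨h3, h3'⟩ | ⟨h3, -, h3'⟩ <;> rcases h4 with ⟨h4, h4'⟩ | ⟨h4, -, h4'⟩
  · exact iff_of_true (iff_of_true h3 h4) (h3'.trans h4'.symm)
  · exact iff_of_false (fun h => h4 (h.1 h3)) fun h => h5.ne' (h3'.symm.trans (h.trans h4'))
  · exact iff_of_false (fun h => h3 (h.2 h4)) fun h => h5.ne (h3'.symm.trans (h.trans h4'))
  · exact iff_of_true (iff_of_false h3 h4) (h3'.trans h4'.symm)

end Cfsg.Agent.S2166
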