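import Cfsg.Statements.S2178
import Cfsg.Agent.H24.Cent

set_option autoImplicit false
set_option maxHeartbeats 400000
open Cfsg

namespace Cfsg.Agent.S2178

open H24 Cfsg.Lie in
theorem aux {F : Type*} [Field F] [CharP F 2] {J : List ℕ} {i0 : Fin chevF4.rank} {r a b c : ℕ}
    (H : tabF4.chkCent 2 J [r] [] [] (fun _ => 1) = true)
    (H1 : (J.filter (· < tabF4.l)).map (fun j => tabF4.neg (tabF4.simple j)) = [a, b, c] ∧ r < 48 ∧ a < 48 ∧ b < 48 ∧
      c < 48 ∧ ∀ i : Fin chevF4.rank, ((i : ℕ) ∉ J → i = i0) ∧ tabF4.wtv r i = if i = i0 then 1 else 0)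
    (t : GL chevF4.Idx F) (ht : (t : Matrix chevF4.Idx chevF4.Idx F) = chevF4.x F r 1) :
    chevF4.group F ⊓ Subgroup.centralizer {t} = chevF4.posUnipotent F ⊔ chevF4.rootSubgroup F a ⊔
      chevF4.rootSubgroup F b ⊔ chevF4.rootSubgroup F c := by
  obtain ⟨H1, hr, ha, hb, hc, H2⟩ := H1
  have h := tabF4_chk
  have e : t = (h.st F).prod ([r].map h.fin) 1 := by
    rw [h.x_eq F hr] at ht
    rw [Units.ext ht]
    simp only [List.map_cons, List.map_nil, St0.prod_cons, St0.prod_nil, mul_one, Pi.one_apply]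
    rw [← h.fin_val ⟨_, hr⟩]
  rw [h.group_eq, e, h.cent (h.st F) (h.r3 F) (CharP.cast_eq_zero F 2) H (by simp +contextual) (fun c hc i hi => by
      simpa [(H2 _).2, (H2 i).1 hi] using hc) (by simp), h.posUnipotent_eq, H1, h.rootSubgroup_eq F ⟨a, ha⟩,
      h.rootSubgroup_eq F ⟨b, hb⟩, h.rootSubgroup_eq F ⟨c, hc⟩, St0.U, ← St0.XS_union, ← St0.XS_union, ← St0.XS_union]
  congr 1
  ext s
  simp only [← h.pos_iff, Set.mem_union, Set.mem_setOf_eq, Set.mem_singleton_iff, Fin.ext_iff, or_assoc]
  simp; rfl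

/-- Centralizers of the long and the short root involutions in the Chevalley group G of type F₄ over a finite field F of characteristic two (this problem's root numbering for type F₄, from the Chevalley data module: fundamental roots p₁, p₂ short, p₃, p₄ long, with indices 33, 27, 25, 24, their negatives 14, 20, 22, 23; highest root 47, highest short root 44; U the subgroup generated by the positive root subgroups). For an element t of G with matrix x_47(1): the centralizer of t in G is the subgroup generated by U and the root subgroups X_{−p₁}, X_{−p₂}, X_{−p₃} (the unipotent radical of the maximal parabolic subgroup whose Levi factor has fundamental roots p₁, p₂, p₃, together with that Levi factor's root subgroups; the Levi factor is of type C₃). For an element u of G with matrix x_44(1): the centralizer of u in G is generated by U and X_{−p₂}, X_{−p₃}, X_{−p₄} (the same construction for the Levi factor with fundamental roots p₂, p₃, p₄, of type B₃). -/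
theorem result {F : Type*} [Field F] [Fintype F] [CharP F 2] (t u : GL Cfsg.Lie.chevF4.Idx F) (ht : (t : Matrix Cfsg.Lie.chevF4.Idx Cfsg.Lie.chevF4.Idx F) = Cfsg.Lie.chevF4.x F 47 1) (hu : (u : Matrix Cfsg.Lie.chevF4.Idx Cfsg.Lie.chevF4.Idx F) = Cfsg.Lie.chevF4.x F 44 1) :
    Cfsg.Lie.chevF4.group F ⊓ Subgroup.centralizer {t} = Cfsg.Lie.chevF4.posUnipotent F ⊔ Cfsg.Lie.chevF4.rootSubgroup F 14 ⊔ Cfsg.Lie.chevF4.rootSubgroup F 20 ⊔ Cfsg.Lie.chevF4.rootSubgroup F 22 ∧
    Cfsg.Lie.chevF4.group F ⊓ Subgroup.centralizer {u} = Cfsg.Lie.chevF4.posUnipotent F ⊔ Cfsg.Lie.chevF4.rootSubgroup F 20 ⊔ Cfsg.Lie.chevF4.rootSubgroup F 22 ⊔ Cfsg.Lie.chevF4.rootSubgroup F 23 := by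
  exact ⟨aux (J := [0, 1, 2]) (i0 := ⟨3, by decide⟩) (by decide +kernel) (by decide +kernel) t ht,
    aux (J := [1, 2, 3]) (i0 := ⟨0, by decide⟩) (by decide +kernel) (by decide +kernel) u hu⟩

end Cfsg.Agent.S2178
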