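import Cfsg.Statements.S2179
import Cfsg.Agent.H24.Cent

set_option autoImplicit false
set_option maxHeartbeats 400000
open Cfsg

namespace Cfsg.Agent.S2179

open H24 Cfsg.Lie in
theorem aux {F : Type*} [Field F] {r s : ℕ} (hr : r < 48) (hs : s < 48) {t : GL chevF4.Idx F}
    (ht : (t : Matrix chevF4.Idx chevF4.Idx F) = chevF4.x F r 1 * chevF4.x F s 1) :
    t = (tabF4_chk.st F).prod ([r, s].map tabF4_chk.fin) 1 := by
  rw [tabF4_chk.x_eq F hr, tabF4_chk.x_eq F hs, ← Units.val_mul] at ht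
  rw [Units.ext ht]
  simp only [List.map_cons, List.map_nil, St0.prod_cons, St0.prod_nil, mul_one, Pi.one_apply]
  rw [← tabF4_chk.fin_val ⟨_, hr⟩, ← tabF4_chk.fin_val ⟨_, hs⟩]

theorem aux1 {G : Type*} [Group G] {a b c z : G} (h1 : a * b * a⁻¹ = b * z) (h2 : Commute a c) (h3 : Commute z c) :
    a * (b * c) * a⁻¹ = b * c * z := by
  rw [mul_assoc b, ← h3.eq, ← mul_assoc b, ← h1, mul_assoc _ a⁻¹, h2.inv_left.eq]; group

theorem aux2 {G : Type*} [Group G] {a b c z : G} (h1 : a * c * a⁻¹ = c * z) (h2 : Commute a b) :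
    a * (b * c) * a⁻¹ = b * c * z := by
  rw [mul_assoc b, ← h1, ← mul_assoc a, h2.eq]; group

/-- Centralizers of the two remaining classes of involutions in the Chevalley group G of type F₄ over a finite field F of characteristic two (this problem's root numbering for type F₄, from the Chevalley data module: p₁, p₂ short, p₃, p₄ long with indices 33, 27, 25, 24 and negatives 14, 20, 22, 23; U generated by the positive root subgroups). For an element of G with matrix x_47(1)x_44(1) (highest root times highest short root): its centralizer in G is generated by U, X_{−p₂} and X_{−p₃}. For an element of G with matrix x_39(1)x_45(1) (roots (1,2,2,1) and (2,4,2,1), an orthogonal short/long pair): its centralizer in G is generated by X_{p₁}, X_{−p₁}, X_{p₄}, X_{−p₄} and the root subgroups of all positive roots other than p₂ (27), p₃ (25), p₁ + p₂ (34) and p₃ + p₄ (26). -/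
theorem result {F : Type*} [Field F] [Fintype F] [CharP F 2] (w v : GL Cfsg.Lie.chevF4.Idx F) (hw : (w : Matrix Cfsg.Lie.chevF4.Idx Cfsg.Lie.chevF4.Idx F) = Cfsg.Lie.chevF4.x F 47 1 * Cfsg.Lie.chevF4.x F 44 1) (hv : (v : Matrix Cfsg.Lie.chevF4.Idx Cfsg.Lie.chevF4.Idx F) = Cfsg.Lie.chevF4.x F 39 1 * Cfsg.Lie.chevF4.x F 45 1) :
    Cfsg.Lie.chevF4.group F ⊓ Subgroup.centralizer {w} = Cfsg.Lie.chevF4.posUnipotent F ⊔ Cfsg.Lie.chevF4.rootSubgroup F 20 ⊔ Cfsg.Lie.chevF4.rootSubgroup F 22 ∧
    Cfsg.Lie.chevF4.group F ⊓ Subgroup.centralizer {v} = Cfsg.Lie.chevF4.rootSubgroup F 33 ⊔ Cfsg.Lie.chevF4.rootSubgroup F 14 ⊔ Cfsg.Lie.chevF4.rootSubgroup F 24 ⊔ Cfsg.Lie.chevF4.rootSubgroup F 23 ⊔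
      Subgroup.closure {g : GL Cfsg.Lie.chevF4.Idx F | ∃ (r : ℕ) (c : F), Cfsg.Lie.chevF4.IsPosRoot r ∧ r ∉ [27, 25, 34, 26] ∧ (g : Matrix Cfsg.Lie.chevF4.Idx Cfsg.Lie.chevF4.Idx F) = Cfsg.Lie.chevF4.x F r c} := by
  have hp := CharP.cast_eq_zero F 2
  have hx : ∀ r, r < 48 → Lie.chevF4.rootSubgroup F r = (H24.tabF4_chk.st F).XS {s | (s : ℕ) = r} := fun r hr => by
    rw [H24.tabF4_chk.rootSubgroup_eq F ⟨r, hr⟩]; congr 1; ext s; exact Fin.ext_iff
  have hw' : ∀ i : Fin Lie.chevF4.rank, H24.tabF4.wtv 47 i = (if i = ⟨3, by decide⟩ then 1 else 0) ∧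
      H24.tabF4.wtv 44 i = (if i = ⟨0, by decide⟩ then 1 else 0) ∧
      ((i : ℕ) ∉ [1, 2] → i = ⟨3, by decide⟩ ∨ i = ⟨0, by decide⟩) := by decide +kernel
  constructor
  · rw [H24.tabF4_chk.group_eq, aux (by decide) (by decide) hw, H24.tabF4_chk.cent (H24.tabF4_chk.st F) (H24.tabF4_chk.r3 F) hp (J := [1, 2]) (l1 := []) (l2 := [])
      (k := fun _ => 1) (by decide +kernel) (fun w H => by
        have : ∀ a ∈ [47, 44] ++ [], ∀ r ∈ [47, 44], H24.tabF4.len a = H24.tabF4.len r → a = r := by decide +kernel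
        exact fun r hr => this _ (H r hr).1 r hr (H r hr).2.1) (fun c hc i hi => by
        simp only [List.mem_cons, List.not_mem_nil, or_false, forall_eq_or_imp, forall_eq, (hw' _).1, (hw' _).2.1] at hc
        rcases (hw' i).2.2 hi with rfl | rfl
        · simpa using hc.1
        · simpa using hc.2) (by simp), H24.tabF4_chk.posUnipotent_eq, hx 20 (by decide), hx 22 (by decide), H24.St0.U,
      ← H24.St0.XS_union, ← H24.St0.XS_union]
    congr 1
    ext s
    simp only [← H24.tabF4_chk.pos_iff, Set.mem_union, Set.mem_setOf_eq, or_assoc]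
    exact or_congr (by simp; rfl) (by revert s; decide +kernel)
  · rw [H24.tabF4_chk.group_eq, aux (by decide) (by decide) hv, H24.tabF4_chk.cent (H24.tabF4_chk.st F) (H24.tabF4_chk.r3 F) hp (J := [0, 3]) (l1 := [40, 44, 46, 47])
      (l2 := [27, 34, 25, 26]) (k := fun r => if r = 39 then 3 else 2) (by decide +kernel) (fun w H => by
        have : ∀ a ∈ [39, 45] ++ [40, 44, 46, 47], ∀ b ∈ [39, 45] ++ [40, 44, 46, 47],
          H24.tabF4.len a = H24.tabF4.len 39 → H24.tabF4.len b = H24.tabF4.len 45 → H24.tabF4.A a b = H24.tabF4.A 39 45 →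
          a = 39 ∧ b = 45 := by decide +kernel
        simpa using this _ (H 39 (by simp)).1 _ (H 45 (by simp)).1 (H 39 (by simp)).2.1 (H 45 (by simp)).2.1
          ((H 39 (by simp)).2.2 45 (by simp))) ?_ ?_, hx 33 (by decide), hx 14 (by decide), hx 24 (by decide),
      hx 23 (by decide), show {g : GL Lie.chevF4.Idx F | ∃ (r : ℕ) (c : F), Lie.chevF4.IsPosRoot r ∧
        r ∉ [27, 25, 34, 26] ∧ (g : Matrix Lie.chevF4.Idx Lie.chevF4.Idx F) = Lie.chevF4.x F r c} =
        {g : GL Lie.chevF4.Idx F | ∃ (r : ℕ) (c : F), (Lie.chevF4.IsPosRoot r ∧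
        r ∉ [27, 25, 34, 26]) ∧ (g : Matrix Lie.chevF4.Idx Lie.chevF4.Idx F) = Lie.chevF4.x F r c} by
          simp only [and_assoc], H24.tabF4_chk.closure_eq F _ fun r hr => hr.1.1]
    · simp only [← H24.St0.XS_union]
      congr 1
      ext s
      simp only [Set.mem_union, Set.mem_setOf_eq]
      revert s; decide +kernel
    · change ∀ c : Fin 4 → Fˣ, (∀ r ∈ [39, 45], ∏ i : Fin 4, c i ^ H24.tabF4.wtv r i = 1) →
        ∀ i : Fin 4, (i : ℕ) ∉ [0, 3] → c i = 1
      intro c hc i hi
      have e : ∀ i : Fin 4, H24.tabF4.wtv 39 i = ![0, -1, 1, 0] i ∧ H24.tabF4.wtv 45 i = ![0, 2, -1, 0] i := by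
        decide +kernel
      simp only [List.mem_cons, List.not_mem_nil, or_false, forall_eq_or_imp, forall_eq, (e _).1, (e _).2,
        Fin.prod_univ_four] at hc
      simp at hc
      obtain ⟨h1, h2⟩ := hc
      rw [inv_mul_eq_one] at h1
      rw [← h1, sq, mul_inv_cancel_right] at h2
      fin_cases i <;> simp at hi
      exacts [h2, h1 ▸ h2]
    · refine (H24.tabF4_chk.st F).eq_zero_of_conj (z := fun r => H24.tabF4_chk.fin (if r.1 = 27 then 40 else if r.1 = 34 then 44 else if r.1 = 25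
          then 46 else 47)) (y := fun r => H24.tabF4_chk.fin (if r.1 = 40 then 27 else if r.1 = 44 then 34 else if r.1 = 46
          then 25 else 26)) (c := ((1 : ℤ) : F)) (by simp)
        (by decide +kernel) (by simp only [← H24.tabF4_chk.posB_iff]; decide +kernel) (by decide +kernel) ?_ ?_
      · simp only [List.map_cons, List.map_nil, H24.St0.prod_cons, H24.St0.prod_nil, mul_one, Pi.one_apply,
          List.mem_cons, List.not_mem_nil, or_false, forall_eq_or_imp, forall_eq]
        exact ⟨fun s => aux1 (H24.tabF4_chk.conj_single _ (r := 40) (by decide +kernel) s)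
            (H24.tabF4_chk.commuteP _ hp (by decide +kernel) _ _) (H24.tabF4_chk.commuteP _ hp (by decide +kernel) _ _),
          fun s => aux1 (H24.tabF4_chk.conj_single _ (r := 44) (by decide +kernel) s)
            (H24.tabF4_chk.commuteP _ hp (by decide +kernel) _ _) (H24.tabF4_chk.commuteP _ hp (by decide +kernel) _ _),
          fun s => aux2 (H24.tabF4_chk.conj_single _ (r := 46) (by decide +kernel) s) (H24.tabF4_chk.commuteP _ hp (by decide +kernel) _ _),
          fun s => aux2 (H24.tabF4_chk.conj_single _ (r := 47) (by decide +kernel) s) (H24.tabF4_chk.commuteP _ hp (by decide +kernel) _ _)⟩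
      · intro a ha b hb
        exact H24.tabF4_chk.commuteP _ hp (by revert a b; decide +kernel)

end Cfsg.Agent.S2179
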