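import Cfsg.Statements.S2180
import Cfsg.Agent.H24.Cent

set_option autoImplicit false
set_option maxHeartbeats 400000
open Cfsg

namespace Cfsg.Agent.S2180

open H24 Cfsg.Lie in
theorem aux {F : Type*} [Field F] {r : ℕ} (hr : r < 12) {t : GL chevG2.Idx F}
    (ht : (t : Matrix chevG2.Idx chevG2.Idx F) = chevG2.x F r 1) :
    t = (tabG2_chk.st F).prod ([r].map tabG2_chk.fin) 1 := by
  rw [tabG2_chk.x_eq F hr] at ht
  rw [Units.ext ht]
  simp only [List.map_cons, List.map_nil, St0.prod_cons, St0.prod_nil, mul_one, Pi.one_apply]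
  rw [← tabG2_chk.fin_val ⟨_, hr⟩]

/-- Centralizers of involutions in the Chevalley group G of type G₂ over a finite field F of characteristic two with at least four elements (this problem's root numbering for type G₂, from the Chevalley data module: a = p₁ short with index 7, b = p₂ long with index 6, −a = 4, −b = 5, 2a + b = 9, 3a + b = 10, 3a + 2b = 11; U generated by the positive root subgroups). For an element z of G with matrix x_{3a+2b}(1): the centralizer of z in G is generated by U and X_{−a}. For an element t of G with matrix x_{2a+b}(1): the centralizer of t in G is generated by X_{2a+b}, X_{3a+b}, X_{3a+2b}, X_b and X_{−b}. -/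
theorem result {F : Type*} [Field F] [Fintype F] [CharP F 2] (hF : 4 ≤ Fintype.card F) (z t : GL Cfsg.Lie.chevG2.Idx F) (hz : (z : Matrix Cfsg.Lie.chevG2.Idx Cfsg.Lie.chevG2.Idx F) = Cfsg.Lie.chevG2.x F 11 1) (ht : (t : Matrix Cfsg.Lie.chevG2.Idx Cfsg.Lie.chevG2.Idx F) = Cfsg.Lie.chevG2.x F 9 1) :
    Cfsg.Lie.chevG2.group F ⊓ Subgroup.centralizer {z} = Cfsg.Lie.chevG2.posUnipotent F ⊔ Cfsg.Lie.chevG2.rootSubgroup F 4 ∧
    Cfsg.Lie.chevG2.group F ⊓ Subgroup.centralizer {t} = Cfsg.Lie.chevG2.rootSubgroup F 9 ⊔ Cfsg.Lie.chevG2.rootSubgroup F 10 ⊔ Cfsg.Lie.chevG2.rootSubgroup F 11 ⊔ Cfsg.Lie.chevG2.rootSubgroup F 6 ⊔ Cfsg.Lie.chevG2.rootSubgroup F 5 := by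
  have hx : ∀ r, r < 12 → Lie.chevG2.rootSubgroup F r = (H24.tabG2_chk.st F).XS {s | (s : ℕ) = r} := fun r hr => by
    rw [H24.tabG2_chk.rootSubgroup_eq F ⟨r, hr⟩]; congr 1; ext s; exact Fin.ext_iff
  have hw : ∀ i : Fin Lie.chevG2.rank, H24.tabG2.wtv 11 i = (if i = ⟨1, by decide⟩ then 1 else 0) ∧
      H24.tabG2.wtv 9 i = (if i = ⟨0, by decide⟩ then 1 else 0) ∧ ((i : ℕ) ∉ [0] → i = ⟨1, by decide⟩) ∧
      ((i : ℕ) ∉ [1] → i = ⟨0, by decide⟩) := by decide +kernel
  constructor
  · rw [H24.tabG2_chk.group_eq, aux (by decide) hz, H24.tabG2_chk.cent (H24.tabG2_chk.st F) (H24.tabG2_chk.r3 F) (CharP.cast_eq_zero F 2) (J := [0]) (l1 := []) (l2 := [])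
      (k := fun _ => 1) (by decide +kernel) (by simp +contextual) (fun c hc i hi => by
        simpa [(hw _).1, (hw i).2.2.1 hi] using hc) (by simp), H24.tabG2_chk.posUnipotent_eq, hx 4 (by decide), H24.St0.U,
      ← H24.St0.XS_union]
    congr 1
    ext s
    simp only [← H24.tabG2_chk.pos_iff, Set.mem_union, Set.mem_setOf_eq]
    exact or_congr (by simp; rfl) (by revert s; decide +kernel)
  · rw [H24.tabG2_chk.group_eq, aux (by decide) ht, H24.tabG2_chk.cent (H24.tabG2_chk.st F) (H24.tabG2_chk.r3 F) (CharP.cast_eq_zero F 2) (J := [1]) (l1 := [10, 11])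
      (l2 := [7, 8]) (k := fun _ => 1) (by decide +kernel) (fun w H => by
        have : ∀ a ∈ [9] ++ [10, 11], H24.tabG2.len a = H24.tabG2.len 9 → a = 9 := by decide +kernel
        simpa using this _ (H 9 (by simp)).1 (H 9 (by simp)).2.1) (fun c hc i hi => by
        simpa [(hw _).2.1, (hw i).2.2.2 hi] using hc) ?_, hx 9 (by decide), hx 10 (by decide), hx 11 (by decide),
      hx 6 (by decide), hx 5 (by decide)]
    · simp only [← H24.St0.XS_union]
      congr 1
      ext s
      simp only [Set.mem_union, Set.mem_setOf_eq]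
      revert s; decide +kernel
    · have h3 : ((3 : ℤ) : F) ≠ 0 := by
        rw [show ((3 : ℤ) : F) = 1 + ((2 : ℕ) : F) by push_cast; ring, CharP.cast_eq_zero F 2, add_zero]; exact one_ne_zero
      refine (H24.tabG2_chk.st F).eq_zero_of_conj (z := fun r => H24.tabG2_chk.fin (r + 3)) (y := fun r => H24.tabG2_chk.fin (r - 3)) h3
        (by decide +kernel) (by simp only [← H24.tabG2_chk.posB_iff]; decide +kernel) (by decide +kernel) ?_ ?_
      · simp only [List.map_cons, List.map_nil, H24.St0.prod_cons, H24.St0.prod_nil, mul_one, Pi.one_apply,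
          List.mem_cons, List.not_mem_nil, or_false, forall_eq_or_imp, forall_eq]
        exact ⟨H24.tabG2_chk.conj_single _ (r := 10) (by decide +kernel), H24.tabG2_chk.conj_single _ (r := 11) (by decide +kernel)⟩
      · intro a ha b hb
        exact H24.tabG2_chk.commuteP _ (CharP.cast_eq_zero F 2) (by revert a b; decide +kernel)

end Cfsg.Agent.S2180
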