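import Cfsg.Statements.S2182
import Cfsg.Agent.H24.InvChk
import Cfsg.Agent.H24.TwE6

set_option autoImplicit false
set_option maxHeartbeats 400000
open Cfsg

namespace Cfsg.Agent.S2182

section
open H24 Cfsg.Lie

def ol : List ℕ := [3, 0, 2, 1, 2, 3]

def W0 : List ℕ := [0, 1, 2, 0, 3, 1, 2, 0, 3, 2, 4, 3, 1, 2, 0, 3, 2, 4, 3, 1, 5, 4, 3, 1, 2, 0, 3, 2, 4, 3, 1, 5, 4, 3, 2, 0]

def cls : List (List (List ℕ × ℕ)) := [[], [([1, 3, 2, 0, 4, 3, 1, 2, 3, 4], 5)], [([2, 0, 3, 1, 2, 3, 4], 5), ([0, 4, 3, 1, 2, 3, 4], 5)], [([2, 0,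
    3, 1, 2, 3, 4], 5), ([0, 4, 3, 1, 2, 3, 4], 5), ([3, 1, 2, 3], 4)], [([1, 3, 2, 0, 4, 3, 1, 2, 3, 4], 5), ([0,
    2, 3, 4], 5)], [([1, 3, 2, 0, 4, 3, 1, 2, 3, 4], 5), ([0, 2, 3, 4], 5), ([2], 3), ([3], 4)], [([2, 0, 4, 3, 1,
    2, 3, 4], 5), ([0, 3, 1, 2, 3, 4], 5), ([3, 1, 2, 3], 4)], [([1, 3, 2, 0, 4, 3, 1, 2, 3, 4], 5), ([0, 2, 3,
    4], 5), ([2, 3], 4), ([], 3)]]

def EE : List (ℕ × ℕ) := [(9,0), (0,0), (8,0), (0,0), (0,0), (0,0), (0,0), (0,0), (8,0x42), (0,0), (1,0x242), (0,0), (0,0), (0,0),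
    (0,0), (0,0), (0,0), (0,0), (0,0), (0,0), (7,0), (0,0), (5,0), (0,0), (0,0), (0,0), (0,0), (0,0), (6,0),
    (0,0), (4,0), (0,0), (0,0), (7,0x1365), (0,0), (5,0x1365), (0,0), (0,0), (0,0), (0,0), (0,0), (5,0x136542),
    (0,0), (1,0x12426), (0,0), (0,0), (0,0), (0,0), (0,0), (0,0), (0,0), (0,0), (0,0), (1,0x131565), (0,0),
    (1,0x1231565), (0,0), (0,0), (0,0), (0,0), (0,0), (3,0), (0,0), (2,0)]

theorem k0 : band (decide (cls.map tabE6.rootc = [] :: [[71], [68, 66], [68, 66, 53], [71, 60], [71, 60, 43, 40], [69, 65, 53], [71, 60, 44, 39]]))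
    (band (allL cls fun c => tabE6.okW (Tab.wordc c)) (tabE6.chkJs morE6.ph ol W0 cls EE 0)) = true := by decide +kernel

theorem r0 : tabE6.chkRk [71] 22 = true := by decide +kernel
theorem r1 : tabE6.chkRk [68, 66] 32 = true := by decide +kernel
theorem r2 : tabE6.chkRk [68, 66, 53] 38 = true := by decide +kernel

variable {F : Type*} [Field F] [Fintype F] [CharP F 2] {M : Subgroup (chevE6.group F)}

theorem x1 (c : tabE6_chk.Cx M morE6.ph ol) :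
    Cj M (tabE6_chk.yw F [0]) (tabE6_chk.yw F [71]) :=
  c.cjW [1, 3, 4, 2, 3, 0, 2, 1, 3, 4, 5, 4, 3, 2, 1, 3, 4, 0, 2, 3, 1] (by decide +kernel)

theorem x2 (c : tabE6_chk.Cx M morE6.ph ol) :
    Cj M (tabE6_chk.yw F [3, 5]) (tabE6_chk.yw F [68, 66]) :=
  c.cjW [0, 2, 3, 4, 5, 1, 3, 4, 2, 3, 0, 2, 1, 3, 4, 5, 0, 2, 3, 4, 1, 3, 2, 0] (by decide +kernel)

theorem x4 (c : tabE6_chk.Cx M morE6.ph ol) :
    Cj M (tabE6_chk.yw F [0, 11]) (tabE6_chk.yw F [68, 66, 71]) :=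
  (c.cjF [[21, 23]] (b := [3, 5, 11]) (by decide +kernel)).trans
    (c.cjW [0, 2, 3, 4, 5, 1, 3, 4, 2, 3, 0, 2, 1, 3, 4, 5, 0, 2, 3, 4, 1, 3, 2, 0] (by decide +kernel))

theorem x3 (c : tabE6_chk.Cx M morE6.ph ol) :
    Cj M (tabE6_chk.yw F [3, 5, 18]) (tabE6_chk.yw F [68, 66, 53]) :=
  c.cjW [0, 2, 3, 4, 5, 1, 3, 4, 2, 3, 0, 2, 1, 3, 4, 5, 3, 4, 2, 3, 0, 2, 1, 3, 4, 2, 3, 0, 2, 1, 3, 2, 0] (by decide +kernel)

theorem x6 (c : tabE6_chk.Cx M morE6.ph ol) :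
    Cj M (tabE6_chk.yw F [2, 6, 18]) (tabE6_chk.yw F [68, 66, 53]) :=
  ((c.cjF [[37, 42], [36, 56], [14, 33]] (b := [4, 16, 6]) (by decide +kernel)).trans
    (c.cjW [5, 0] (by decide +kernel))).trans (x3 c)

theorem x5 (c : tabE6_chk.Cx M morE6.ph ol) :
    Cj M (tabE6_chk.yw F [0, 11, 28, 31]) (tabE6_chk.yw F [68, 66, 53]) :=
  ((c.cjF [[21, 23], [18], [8]] (b := [31, 28, 11]) (by decide +kernel)).trans
    (c.cjW [0, 2, 3, 4, 5, 2, 3, 4, 0, 2, 3, 2, 1, 0] (by decide +kernel))).trans (x3 c)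

theorem x7 (c : tabE6_chk.Cx M morE6.ph ol) :
    Cj M (tabE6_chk.yw F [0, 11, 27, 32]) (tabE6_chk.yw F [68, 66, 53]) :=
  ((c.cjF [[49, 61], [37, 42], [9, 19]] (b := [11, 27, 7, 17]) (by decide +kernel)).trans
    (c.cjW [5, 1, 3, 4, 0, 2, 3, 1] (by decide +kernel))).trans (x5 c)

theorem cover (c : tabE6_chk.Cx M morE6.ph ol) :
    ∀ t ∈ M, orderOf t = 2 → ∃ y ∈ [[71], [68, 66], [68, 66, 53], [68, 66, 71]], Cj M t (tabE6_chk.yw F y) :=
  c.classes' W0 cls EE k0 (by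
    simp only [List.forall_mem_cons]
    exact ⟨⟨[71], by simp, (c.cjN (by decide +kernel)).trans (x1 c)⟩,
      ⟨[68, 66], by simp, (c.cjN (by decide +kernel)).trans (x2 c)⟩,
      ⟨[68, 66, 53], by simp, (c.cjN (by decide +kernel)).trans (x3 c)⟩,
      ⟨[68, 66, 71], by simp, (c.cjN (by decide +kernel)).trans (x4 c)⟩,
      ⟨[68, 66, 53], by simp, (c.cjN (by decide +kernel)).trans (x5 c)⟩,
      ⟨[68, 66, 53], by simp, (c.cjN (by decide +kernel)).trans (x6 c)⟩,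
      ⟨[68, 66, 53], by simp, (c.cjN (by decide +kernel)).trans (x7 c)⟩, by simp⟩)

theorem ords : ∀ l ∈ [[71], [68, 66], [68, 66, 53]], orderOf (tabE6_chk.yw F l) = 2 := by
  simp only [List.forall_mem_cons]
  exact ⟨tabE6_chk.ord_yw (by decide +kernel) r0, tabE6_chk.ord_yw (by decide +kernel) r1, tabE6_chk.ord_yw (by decide +kernel) r2, by simp⟩

theorem ncj (M : Subgroup (chevE6.group F)) : [[71], [68, 66], [68, 66, 53]].Pairwise fun a b => ¬ Cj M (tabE6_chk.yw F a) (tabE6_chk.yw F b) := by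
  simp only [List.pairwise_cons, List.forall_mem_cons]
  exact ⟨⟨tabE6_chk.ncj_rk r0 r1 (by decide) M, tabE6_chk.ncj_rk r0 r2 (by decide) M, by simp⟩,
    ⟨tabE6_chk.ncj_rk r1 r2 (by decide) M, by simp⟩,
    by simp, List.Pairwise.nil⟩

theorem fuse (f : F →+* F) (hf : ∀ t, f (f t) = t) (hn : ∃ a, f a ≠ a) :
    Cj ((E6.z f hf).G1 (E6.O f hf)) (tabE6_chk.yw F [68, 66, 71]) (tabE6_chk.yw F [68, 66]) := by
  obtain ⟨a, ha⟩ := hn
  have h0 : a + f a ≠ 0 := fun h => ha (CharTwo.add_eq_zero.1 h).symm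
  have h1 : 1 + a / (a + f a) + f (a / (a + f a)) = 0 := by
    rw [map_div₀, map_add, hf, add_comm (f a) a, add_assoc, ← add_div, div_self h0, CharTwo.add_self_eq_zero]
  generalize a / (a + f a) = t at h1
  have e := tabE6_chk.word_eq (F := F) (CharP.cast_eq_zero F 2)
    (w1 := [(48, [(1, 1, 0)]), (50, [(1, 0, 1)])] ++ w1 [68, 66, 71])
    (w2 := w1 [68, 66] ++ [(71, [(1, 0, 0), (1, 1, 0), (1, 0, 1)]), (48, [(1, 1, 0)]), (50, [(1, 0, 1)])])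
    (by decide +kernel) t (f t)
  have z : ∀ r s, r < tabE6.n ∧ morE6.ph r = s → ∀ t, (E6.z f hf).σ ((tabE6_chk.grp F).x (tabE6_chk.fin r) t) =
      (tabE6_chk.grp F).x (tabE6_chk.fin s) (f t) := fun r s H t => by
    rw [Tw.σ_x, E6.zρ f hf H]
    refine congrArg _ ((tabE6_chk.td_τ morE6_chk f Nat.cast_zero E6.π E6.hπ (E6.surj f hf) H.1 t).trans ?_)
    rcases morE6.ep_eq r with h | h <;> simp [h, E6.ex1, CharTwo.neg_eq]
  refine Cj.of_mul (u := (tabE6_chk.grp F).x (tabE6_chk.fin 48) t * (tabE6_chk.grp F).x (tabE6_chk.fin 50) (f t))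
    ((E6.sub f hf).U_le ⟨Subgroup.mul_mem _
      ((tabE6_chk.grp F).x_mem_U ((tabE6_chk.isP_iff _).1 (by decide +kernel)) _)
      ((tabE6_chk.grp F).x_mem_U ((tabE6_chk.isP_iff _).1 (by decide +kernel)) _), ?_⟩) ?_
  · refine (Tw.mem_Fx _).2 ?_
    rw [map_mul, z 48 50 (by decide +kernel), z 50 48 (by decide +kernel), hf]
    exact (tabE6_chk.commute _ (by decide +kernel) _ _).eq
  · simpa [Tab.Chk.wrd, Tab.Chk.yw, w1, evP, ← add_assoc, h1, mul_assoc] using e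

end

/-- The twisted group ²E₆(q), q even, realised inside the Chevalley group of type E₆ over the field K with q² elements, has exactly three conjugacy classes of elements of order 2. -/
theorem result {K : Type*} [Field K] [Fintype K] [CharP K 2] (q : ℕ) (hK : Fintype.card K = q ^ 2) :
    (ConjClasses.mk '' {g : ↥(Cfsg.Lie.twistedE6 K q) | orderOf g = 2}).ncard = 3 := by
  have hq : IsPrimePow q := (isPrimePow_pow_iff two_ne_zero).1 (hK ▸ FiniteField.isPrimePow_card K)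
  obtain ⟨f, hf, hfq⟩ := H24.E6.exists_f hq hK
  have c := H24.tabE6_chk.cx_tw _ _ _ _ _ _ _ (H24.E6.sub f hf) (H24.E6.hJ f hf)
  have hn : ∃ a, f a ≠ a := by
    by_contra! h
    have h1 := hq.one_lt
    have h2 := (H24.card_fixed K h1 hK).2
    rw [Nat.card_congr (Equiv.subtypeUnivEquiv fun t => (hfq t).symm.trans (h t)), Nat.card_eq_fintype_card, hK] at h2
    nlinarith
  refine c.ncard (((H24.E6.z f hf).G1 (H24.E6.O f hf)).equivMapOfInjective _ (Subgroup.subtype_injective _) |>.trans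
    (MulEquiv.subgroupCongr (H24.E6.gen_eq f hf hfq).symm)) _ (by decide +kernel) ords (fun t ht h2 => ?_) (ncj _)
  obtain ⟨y, hy, e⟩ := cover c t ht h2
  simp only [List.mem_cons, List.not_mem_nil, or_false] at hy
  rcases hy with rfl | rfl | rfl | rfl
  exacts [⟨_, by simp, e⟩, ⟨_, by simp, e⟩, ⟨_, by simp, e⟩, ⟨_, by simp, e.trans (fuse f hf hn)⟩]

end Cfsg.Agent.S2182
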