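import Cfsg.Statements.S2184
import Cfsg.Agent.H24.InvF4

set_option autoImplicit false
set_option maxHeartbeats 400000
open Cfsg

namespace Cfsg.Agent.S2184

/-- The twisted group ²F₄(q), q = 2^(2m+1) with m ≥ 0 (realised inside the Chevalley group of type F₄ over the field K with q elements, θ the 2^m-th power map), has exactly two conjugacy classes of elements of order 2; and so does the Tits group, the commutator subgroup of ²F₄(2). -/
theorem result {K : Type*} [Field K] [Fintype K] (m : ℕ) (hK : Fintype.card K = 2 ^ (2 * m + 1)) :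
    (ConjClasses.mk '' {g : ↥(Cfsg.Lie.twistedF4 K (2 ^ m)) | orderOf g = 2}).ncard = 2 ∧ (ConjClasses.mk '' {g : Cfsg.Lie.TitsGroup | orderOf g = 2}).ncard = 2 := by
  obtain ⟨h2, f, hf, hq⟩ := H24.F4.exists_f hK
  have : CharP K 2 := (CharP.charP_iff_prime_eq_zero Nat.prime_two).2 (by exact_mod_cast h2)
  have c := H24.InvF4.cx h2 f hf
  refine ⟨c.ncard (H24.InvF4.iso h2 f hf hq) _ (by decide +kernel) H24.InvF4.ords (H24.InvF4.cover c)
    (H24.InvF4.ncj _), ?_⟩
  exact H24.InvF4.gen2 rfl _ H24.InvF4.hf2 (fun t => (pow_one t).symm) H24.InvF4.cover2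

end Cfsg.Agent.S2184
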