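import Cfsg.Statements.S2186
import Cfsg.Agent.H24.Cent

set_option autoImplicit false
set_option maxHeartbeats 400000
open Cfsg

namespace Cfsg.Agent.S2186

open H24 in
theorem aux0 {ι Φ : Type} [Fintype ι] [DecidableEq ι] [Fintype Φ] [DecidableEq Φ] {R : CD ι Φ} {F : Type*} [Field F]
    [Fintype F] [CharP F 2] {G : Type*} [Group G] (S : St R F G) {r : Φ}
    (hr : ∀ s, R.Pos s → ∀ t u, Commute (S.x s t) (S.x r u)) {g : G} (hg : g ∈ S.Gr) :
    IsPGroup 2 ↥(S.XS {r} ⊔ (S.XS {r}).map (MulAut.conj g).toMonoidHom) ∨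
    ∃ h ∈ S.Gr, (S.XS {r} ⊔ (S.XS {r}).map (MulAut.conj g).toMonoidHom).map (MulAut.conj h).toMonoidHom =
      S.XS {r} ⊔ S.XS {R.neg r} := by
  obtain ⟨b, hb, s, e⟩ := S.pair_conj hr hg
  by_cases hs : s = R.neg r
  · exact Or.inr ⟨b, S.B_le_Gr hb, by rw [e, hs]⟩
  left
  obtain ⟨f, h1, h2⟩ : ∃ f : (ι → ℤ) →ₗ[ℤ] ℤ, 0 < f (R.rt r) ∧ 0 < f (R.rt s) := by
    by_cases e : s = r
    · refine ⟨R.Av r, ?_⟩
      rw [e, and_self, ← RS.A_def, RS.A_self]; norm_num
    · exact R.exists_f_pos e hs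
  have h3 : IsPGroup 2 (S.XS {r | 0 < f (R.rt r)}) := S.isPGroup_XS 2 (f := f) (RS.closed_f_pos f) fun r hr => hr
  have h4 : S.XS {r} ⊔ S.XS {s} ≤ S.XS {r | 0 < f (R.rt r)} :=
    sup_le (S.XS_mono (Set.singleton_subset_iff.2 h1)) (S.XS_mono (Set.singleton_subset_iff.2 h2))
  have := h3.to_le h4
  rw [← e] at this
  exact this.of_equiv (Subgroup.equivMapOfInjective _ (MulAut.conj b).toMonoidHom (MulAut.conj b).injective).symm

open H24 Cfsg.Lie in
theorem aux {F : Type*} [Field F] [Fintype F] [CharP F 2] {D : ChevalleyDatum} {T : Tab} (h : T.Chk D)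
    (H : (allLt T.n fun s => bor (bnot (T.posB s)) (decide (T.CmP 2 [] s (T.n - 1)))) = true)
    (g : GL D.Idx F) (hg : g ∈ D.group F) :
    IsPGroup 2 ↥(D.rootSubgroup F (D.nroots - 1) ⊔ (D.rootSubgroup F (D.nroots - 1)).map (MulAut.conj g).toMonoidHom) ∨
    ∃ h ∈ D.group F, (D.rootSubgroup F (D.nroots - 1) ⊔ (D.rootSubgroup F (D.nroots - 1)).map (MulAut.conj g).toMonoidHom).map (MulAut.conj h).toMonoidHom = D.rootSubgroup F (D.nroots - 1) ⊔ D.rootSubgroup F 0 := by
  simp only [allLt_iff, bor_iff, bnot_iff, decide_eq_true_eq] at H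
  obtain ⟨r, hr⟩ : ∃ r : Fin D.nroots, (r : ℕ) = D.nroots - 1 := ⟨⟨_, Nat.sub_lt h.npos one_pos⟩, rfl⟩
  have h0 : (h.cd.neg r : ℕ) = 0 := (h.val_neg r).trans (by rw [hr, h.hn]; exact Nat.sub_self _)
  rw [← hr, ← h0, h.rootSubgroup_eq, h.rootSubgroup_eq]
  rw [h.group_eq] at hg ⊢
  exact aux0 (h.st F) (fun s hs => h.commuteP _ (CharP.cast_eq_zero F 2) (by
    rw [hr.trans (congrArg (· - 1) h.hn)]
    exact (H s (h.lt_n s)).resolve_left fun H => H ((h.posB_iff s).2 hs))) hg

/-- Let G be the Chevalley group of type G₂ (over a field with at least four elements), D₄, E₆, E₇ or E₈ over a finite field F of characteristic two, and let X be the root subgroup of the highest root (the last root index) — a long root subgroup, of order |F|. For every g in G, the subgroup generated by X and its conjugate g X g⁻¹ is either a 2-group or is conjugate by an element of G to the subgroup generated by X and the root subgroup of the lowest root (index 0, the negative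 of the highest root), which is a copy of SL₂(F). -/
theorem result {F : Type*} [Field F] [Fintype F] [CharP F 2] (D : Cfsg.Lie.ChevalleyDatum) (hD : D ∈ [Cfsg.Lie.chevG2, Cfsg.Lie.chevD4, Cfsg.Lie.chevE6, Cfsg.Lie.chevE7, Cfsg.Lie.chevE8]) (hF : D = Cfsg.Lie.chevG2 → 4 ≤ Fintype.card F) (g : GL D.Idx F) (hg : g ∈ D.group F) :
    IsPGroup 2 ↥(D.rootSubgroup F (D.nroots - 1) ⊔ (D.rootSubgroup F (D.nroots - 1)).map (MulAut.conj g).toMonoidHom) ∨
    ∃ h ∈ D.group F, (D.rootSubgroup F (D.nroots - 1) ⊔ (D.rootSubgroup F (D.nroots - 1)).map (MulAut.conj g).toMonoidHom).map (MulAut.conj h).toMonoidHom = D.rootSubgroup F (D.nroots - 1) ⊔ D.rootSubgroup F 0 := by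
  simp only [List.mem_cons, List.not_mem_nil, or_false] at hD
  rcases hD with rfl | rfl | rfl | rfl | rfl
  · exact aux H24.tabG2_chk (by decide +kernel) g hg
  · exact aux H24.tabD4_chk (by decide +kernel) g hg
  · exact aux H24.tabE6_chk (by decide +kernel) g hg
  · exact aux H24.tabE7_chk (by decide +kernel) g hg
  · exact aux H24.tabE8_chk (by decide +kernel) g hg

end Cfsg.Agent.S2186
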