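import Cfsg.Statements.S2189
import Cfsg.Agent.H14.SF7

set_option autoImplicit false
set_option linter.unusedVariables false
set_option linter.style.haveILetI false
open Cfsg H24 H14.SF

namespace Cfsg.Agent.S2189

/-- Finite subgroups of an adjoint Chevalley group over an algebraically closed field that contain the group over a finite subfield. Let k be an algebraically closed field of prime characteristic p, G the Chevalley group of type G₂, B₂, D₄, F₄, E₆, E₇ or E₈ over k (the matrix group generated by the root elements x_s(t), t ∈ k), and q = p^a with a ≥ 1. Let L be the subgroup generated by the root elements x_s(t) with t^q = t (the Chevalley group over the field of q elements inside G), and let M be a finite subgroup of G containing L. Then for some r ≥ 1, M contains every root element x_s(t) with t^(q^r) = t and every element of M is a matrix all of whose entries c satisfy c^(q^r) = c (so M lies between the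 Chevalley group over the field with q^r elements and the group of points of G fixed by the q^r-th power map). -/
theorem result {k : Type*} [Field k] [IsAlgClosed k] (p : ℕ) [Fact p.Prime] [CharP k p] (D : Cfsg.Lie.ChevalleyDatum) (hD : D ∈ [Cfsg.Lie.chevG2, Cfsg.Lie.chevB2, Cfsg.Lie.chevD4, Cfsg.Lie.chevF4, Cfsg.Lie.chevE6, Cfsg.Lie.chevE7, Cfsg.Lie.chevE8]) (a : ℕ) (ha : 1 ≤ a) (M : Subgroup (GL D.Idx k)) (hMfin : Finite ↥M) (hMG : M ≤ D.group k)
    (hLM : Subgroup.closure {g : GL D.Idx k | ∃ (s : ℕ) (t : k), t ^ (p ^ a) = t ∧ (g : Matrix D.Idx D.Idx k) = D.x k s t} ≤ M) :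
    ∃ r : ℕ, 1 ≤ r ∧ Subgroup.closure {g : GL D.Idx k | ∃ (s : ℕ) (t : k), t ^ ((p ^ a) ^ r) = t ∧ (g : Matrix D.Idx D.Idx k) = D.x k s t} ≤ M ∧
      ∀ g ∈ M, ∀ i j : D.Idx, ((g : Matrix D.Idx D.Idx k) i j) ^ ((p ^ a) ^ r) = (g : Matrix D.Idx D.Idx k) i j := by
  obtain ⟨T, h⟩ := exists_tab hD
  have hq : 1 < p ^ a := Nat.one_lt_pow (by omega) (Fact.out : p.Prime).one_lt
  have hMf : (M : Set (GL D.Idx k)).Finite := hMfin
  choose! s0 hs0 hs1 using fun g (hg : g ∈ M) => exists_params h (hMG hg)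
  let N := Nat.card M
  let T0 : Set k := ⋃ r ∈ Set.Icc 1 N, {t | t ^ (p ^ a) ^ r = t}
  have hT0 : T0.Finite := (Set.finite_Icc 1 N).biUnion fun r hr => finite_pow_eq (Nat.one_lt_pow (by
    have := hr.1; omega) hq)
  obtain ⟨A, K, _, _, _, ψ, a1, a2⟩ := exists_spec p (s := ((⋃ g ∈ (M : Set (GL D.Idx k)), s0 g) ∪ T0) ∪
    ((⋃ g ∈ (M : Set (GL D.Idx k)), ⋃ t ∈ T0, Set.range fun x : Fin D.nroots × D.Idx × D.Idx =>
      g.1 x.2.1 x.2.2 - D.x k x.1 t x.2.1 x.2.2) ∪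
    ⋃ g ∈ (M : Set (GL D.Idx k)), ⋃ r ∈ Set.Icc 1 N, Set.range fun x : D.Idx × D.Idx =>
      g.1 x.1 x.2 ^ (p ^ a) ^ r - g.1 x.1 x.2))
    (((hMf.biUnion hs0).union hT0).union ((hMf.biUnion fun _ _ => hT0.biUnion fun _ _ => Set.finite_range _).union
      (hMf.biUnion fun _ _ => (Set.finite_Icc 1 N).biUnion fun _ _ => Set.finite_range _)))
  have b1 : ∀ g ∈ M, ∃ g' ∈ D.group K, (g, g') ∈ red ψ := fun g hg => exists_red h ψ (hs1 g hg A fun x hx =>
    a1 (Or.inl (Or.inl (Set.mem_biUnion hg hx))))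
  have b2 : ∀ {g : GL D.Idx k} {a b : GL D.Idx K}, (g, a) ∈ red ψ → (g, b) ∈ red ψ → a = b := fun h1 h2 =>
    Units.ext (Matrix.ext fun i j => by
      obtain ⟨x, x1, x2⟩ := red_entry ψ h1 i j
      obtain ⟨y, y1, y2⟩ := red_entry ψ h2 i j
      rw [← x2, ← y2, Subtype.ext (x1.trans y1.symm)])
  let M' : Subgroup (GL D.Idx K) := (red ψ ⊓ M.prod ⊤).map (MonoidHom.snd _ _)
  have b3 : ∀ g', g' ∈ M' ↔ ∃ g ∈ M, (g, g') ∈ red ψ := fun g' =>
    ⟨fun ⟨x, hx, e⟩ => ⟨x.1, hx.2.1, e ▸ hx.1⟩, fun ⟨g, h1, h2⟩ => ⟨(g, g'), ⟨h2, h1, trivial⟩, rfl⟩⟩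
  have b4 : ∀ r (t : A), (t : k) ^ p ^ a = t → (h.st K).x r (ψ t) ∈ M' := fun r t ht =>
    (b3 _).2 ⟨_, hLM (Subgroup.subset_closure ⟨r, t, ht, h.coe_x k r t⟩), x_red h ψ r t⟩
  obtain ⟨E, e1, e2, e3⟩ := main_fin hD p (M := M') (fun g' hg => by
    obtain ⟨g, h1, h2⟩ := (b3 g').1 hg
    obtain ⟨g'', h3, h4⟩ := b1 g h1
    exact b2 h4 h2 ▸ h3) fun g s e => by
      by_cases hs : s < D.nroots
      · have := b4 ⟨s, hs⟩ 1 (by simp)
        rw [map_one] at this
        rwa [show g = _ from Units.ext (e.trans (h.x_eq K hs 1))]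
      · rw [show g = 1 from Units.ext (by rw [e, Cfsg.Lie.ChevalleyDatum.x, dif_neg hs]; rfl)]
        exact one_mem _
  have hN : 1 ≤ N := Nat.card_pos
  let _ := ZMod.algebra k p
  let f : GaloisField p a →+* k := (IsAlgClosed.lift : GaloisField p a →ₐ[ZMod p] k).toRingHom
  have c0 := GaloisField.card p a (by omega)
  have c1 : ∀ x, f x ^ p ^ a = f x := fun x => by
    have := Fintype.ofFinite (GaloisField p a)
    rw [← map_pow, ← c0, Nat.card_eq_fintype_card, FiniteField.pow_card]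
  let f' : GaloisField p a →+* K := ψ.comp (f.codRestrict A fun x =>
    a1 (Or.inl (Or.inr (Set.mem_biUnion (show 1 ∈ Set.Icc 1 N from ⟨le_rfl, hN⟩) (by simpa using c1 x)))))
  obtain ⟨r, hr, c2⟩ := H4.exists_card_pow_of_le (E := f'.fieldRange) (E' := E) (by
    rintro _ ⟨x, rfl⟩
    exact e2 _ _ _ h.npos (h.coe_x K ⟨0, h.npos⟩ _) (b4 _ _ (c1 x)))
  rw [H4.card_fieldRange, c0] at c2
  have c3 : r ∈ Set.Icc 1 N := by
    refine ⟨Nat.pos_of_ne_zero hr, ((Nat.lt_pow_self hq).le.trans c2.ge).trans ?_⟩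
    choose φ h1 h2 using fun t : E => (b3 _).1 (e1 _ _ t t.2 (h.coe_x K ⟨0, h.npos⟩ t))
    exact Nat.card_le_card_of_injective (fun t => (⟨φ t, h1 t⟩ : M)) fun s t e => Subtype.ext
      ((h.st K).x_inj _ (b2 (h2 s) (by rw [show φ s = φ t from congrArg Subtype.val e]; exact h2 t)))
  refine ⟨r, c3.1, (Subgroup.closure_le _).2 ?_, fun g hg i j => ?_⟩
  · rintro g ⟨s, t, ht, e⟩
    by_cases hs : s < D.nroots
    swap
    · rw [show g = 1 from Units.ext (by rw [e, Cfsg.Lie.ChevalleyDatum.x, dif_neg hs]; rfl)]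
      exact one_mem _
    have ht0 : t ∈ T0 := Set.mem_biUnion c3 ht
    let t' : A := ⟨t, a1 (Or.inl (Or.inr ht0))⟩
    obtain ⟨m, h1, h2⟩ := (b3 _).1 (e1 _ _ (ψ t') (H4.mem_subfield_iff.2 (by
      rw [c2, ← map_pow]; exact congrArg ψ (Subtype.ext ht))) (h.coe_x K ⟨s, hs⟩ _))
    rw [show g = m from Units.ext (Matrix.ext fun i j => ?_)]
    · exact h1
    obtain ⟨x, x1, x2⟩ := red_entry ψ h2 i j
    obtain ⟨y, y1, y2⟩ := red_entry ψ (x_red h ψ ⟨s, hs⟩ t') i j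
    rw [h.coe_x] at y1
    have := a2 (x - y) (Or.inr (Or.inl (Set.mem_biUnion h1 (Set.mem_biUnion ht0 ⟨(⟨s, hs⟩, i, j), by
      simp [x1, y1, t']⟩)))) (by rw [map_sub, x2, y2, sub_self])
    rw [e, ← x1, sub_eq_zero.1 this, y1]
  · obtain ⟨g', -, h1⟩ := b1 g hg
    obtain ⟨x, x1, x2⟩ := red_entry ψ h1 i j
    have := a2 (x ^ (p ^ a) ^ r - x) (Or.inr (Or.inr (Set.mem_biUnion hg (Set.mem_biUnion c3 ⟨(i, j), by
      simp [x1]⟩)))) (by
        rw [map_sub, map_pow, x2, ← c2, H4.mem_subfield_iff.1 (e3 g' ((b3 _).2 ⟨g, hg, h1⟩) i j), sub_self])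
    rw [← x1, ← SubmonoidClass.coe_pow, sub_eq_zero.1 this]

end Cfsg.Agent.S2189
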