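import Cfsg.Statements.S2190
import Cfsg.Agent.H14.SF6

set_option autoImplicit false
set_option linter.unusedVariables false
set_option linter.style.haveILetI false
open Cfsg H24 H14.SF

namespace Cfsg.Agent.S2190

/-- Subfield subgroups of prime degree are maximal. Let K be a finite field with q^r elements, r a prime, q a power of the characteristic, and G the Chevalley group of type G₂, B₂, D₄, F₄, E₆, E₇ or E₈ over K (the matrix group generated by the root elements). Let M be the subgroup of G consisting of the matrices all of whose entries lie in the subfield with q elements (entries c with c^q = c). Then M is a proper subgroup of G and is maximal: every subgroup of G containing M is M or G. -/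
theorem result {K : Type*} [Field K] [Fintype K] (p : ℕ) [Fact p.Prime] [CharP K p] (D : Cfsg.Lie.ChevalleyDatum) (hD : D ∈ [Cfsg.Lie.chevG2, Cfsg.Lie.chevB2, Cfsg.Lie.chevD4, Cfsg.Lie.chevF4, Cfsg.Lie.chevE6, Cfsg.Lie.chevE7, Cfsg.Lie.chevE8]) (a r : ℕ) (ha : 1 ≤ a) (hr : r.Prime) (hK : Fintype.card K = (p ^ a) ^ r) (M : Subgroup (GL D.Idx K))
    (hM : ∀ g : GL D.Idx K, g ∈ M ↔ g ∈ D.group K ∧ ∀ i j : D.Idx, ((g : Matrix D.Idx D.Idx K) i j) ^ (p ^ a) = (g : Matrix D.Idx D.Idx K) i j) :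
    M ≠ D.group K ∧ ∀ H : Subgroup (GL D.Idx K), M ≤ H → H ≤ D.group K → H = M ∨ H = D.group K := by
  obtain ⟨T, h⟩ := exists_tab hD
  obtain ⟨E0, hE0⟩ := H4.exists_prime_subfield (F := K) p
  obtain ⟨E1, -, hE1⟩ := H4.exists_subfield_between E0 (a := a) (b := r)
    (by rw [hE0, Nat.card_eq_fintype_card, hK, pow_mul])
  rw [hE0] at hE1
  have hc : Nat.card K = Nat.card E1 ^ r := by rw [hE1, Nat.card_eq_fintype_card, hK]
  have hm : ∀ t, t ∈ E1 ↔ t ^ p ^ a = t := fun t => by rw [H4.mem_subfield_iff, hE1]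
  have h1 : ∀ (g : GL D.Idx K) s, ∀ t ∈ E1, (g : Matrix D.Idx D.Idx K) = D.x K s t → g ∈ M := fun g s t ht e =>
    (hM g).2 ⟨mem_group e, fun i j => by
      have := map_Dx h (iterateFrobenius K p a) s t i j
      rwa [iterateFrobenius_def, iterateFrobenius_def, (hm t).1 ht, ← e] at this⟩
  refine ⟨fun e => H4.ne_top_of_card hr.ne_one hc (eq_top_iff.2 fun t _ => (hm t).2 ?_), fun H h2 h3 => ?_⟩
  · let r0 : Fin D.nroots := ⟨0, h.npos⟩
    have h2 := ((hM _).1 (e ▸ mem_group (h.coe_x K r0 t))).2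
    refine (h.st K).x_inj r0 (Units.ext (Matrix.ext fun i j => ?_))
    have := map_Dx h (iterateFrobenius K p a) r0 t i j
    rw [iterateFrobenius_def, iterateFrobenius_def, ← h.coe_x, h2, ← h.coe_x] at this
    exact this.symm
  · obtain ⟨E, e1, e2, e3⟩ := main_fin hD p h3 fun g s e => h2 (h1 g s 1 E1.one_mem e)
    rcases H4.subfield_eq_or hr hc (E' := E) (fun t ht => e2 _ _ t h.npos (h.coe_x K ⟨0, h.npos⟩ t)
      (h2 (h1 _ _ t ht (h.coe_x K ⟨0, h.npos⟩ t)))) with rfl | rfl
    · exact Or.inl (le_antisymm (fun g hg => (hM g).2 ⟨h3 hg, fun i j => (hm _).1 (e3 g hg i j)⟩) h2)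
    · refine Or.inr (le_antisymm h3 ((Subgroup.closure_le _).2 ?_))
      rintro g ⟨s, t, e⟩
      exact e1 g s t trivial (by rw [e, Cfsg.Lie.ChevalleyDatum.x, dif_pos s.2])

end Cfsg.Agent.S2190
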