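import Cfsg.Statements.S2191
import Cfsg.Agent.H14.SF9

set_option autoImplicit false
set_option linter.unusedVariables false
set_option linter.style.haveILetI false
open Cfsg H24 H14.SF

namespace Cfsg.Agent.S2191

theorem c0 : chkTw tabE6 morE6 = true := by decide +kernel

theorem c1 : chkM tabE6 morE6 68 36 [[0, 5], [2, 4], [2, 4, 3], [2, 4, 3, 1]] [] = true := by decide +kernel

/-- In the twisted group ²E₆(q), realised inside the Chevalley group of type E₆ over the field K with q² elements (q a power of the characteristic) as the subgroup generated by the root elements, and products of root elements, that the twisting map fixes, the subgroup of matrices all of whose entries lie in the subfield with q elements (entries c with c^q = c; it contains the subgroup of type F₄ over that subfield) is a proper maximal subgroup. -/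
theorem result {K : Type*} [Field K] [Fintype K] (p : ℕ) [Fact p.Prime] [CharP K p] (q : ℕ) (hq : ∃ a : ℕ, 1 ≤ a ∧ q = p ^ a) (hK : Fintype.card K = q ^ 2) (M : Subgroup (GL Cfsg.Lie.chevE6.Idx K))
    (hM : ∀ g : GL Cfsg.Lie.chevE6.Idx K, g ∈ M ↔ g ∈ Cfsg.Lie.twistedE6 K q ∧ ∀ i j : Cfsg.Lie.chevE6.Idx, ((g : Matrix Cfsg.Lie.chevE6.Idx Cfsg.Lie.chevE6.Idx K) i j) ^ q = (g : Matrix Cfsg.Lie.chevE6.Idx Cfsg.Lie.chevE6.Idx K) i j) :
    M ≠ Cfsg.Lie.twistedE6 K q ∧ ∀ H : Subgroup (GL Cfsg.Lie.chevE6.Idx K), M ≤ H → H ≤ Cfsg.Lie.twistedE6 K q → H = M ∨ H = Cfsg.Lie.twistedE6 K q := by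
  obtain ⟨a, a1, rfl⟩ := hq
  have hp : p.Prime := Fact.out
  obtain ⟨f, hf, hq⟩ := E6.exists_f (hp.isPrimePow.pow (by omega)) hK
  let h := tabE6_chk
  have := h.finite_grp K
  obtain ⟨σ, hσ⟩ := (h.grp K).exists_field (h.grp_Gr K) (h.grp_adj K)
    (RingEquiv.ofBijective f (Finite.injective_iff_bijective.1 f.injective))
  have hρ : ∀ r : Fin Lie.chevE6.nroots, (E6.z f hf).ρ r = h.fin (morE6.ph r) := fun r => by
    rw [← E6.zρ f hf ⟨h.lt_n r, rfl⟩, h.fin_val]
  have hτ : ∀ (r : Fin Lie.chevE6.nroots) t, (E6.z f hf).τ r t = (morE6.ep r : K) * f t := fun r t => by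
    have := h.td_τ morE6_chk f Nat.cast_zero E6.π E6.hπ (E6.surj f hf) (h.lt_n r) t
    rwa [h.fin_val, E6.ex1, pow_one] at this
  rw [E6.gen_eq f hf hq] at hM ⊢
  refine final h hq (σ := σ.toMonoidHom) hσ ?_ (fun H h1 h2 => ?_) hM
  · obtain ⟨t, ht⟩ := exists_nfix hq (Nat.one_lt_pow (by omega) hp.one_lt) one_lt_two hK
    refine ⟨_, (E6.sub f hf).UK_le 3 ((E6.U3 f hf _).2 ⟨t, rfl⟩), fun e => ht ?_⟩
    rw [map_mul] at e
    exact (St0.Par.inj2 (a := h.fin 56) (b := h.fin 36) (E6.pU f hf 3) ((congrArg₂ _ (hσ _ _) (hσ _ _)).symm.trans e)).1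
  refine (main_tab h hρ c0 hτ (σ := σ.toMonoidHom) hσ (E6.sub f hf) h2 h1 p (h.grp_Gr K) (h.grp_adj K) connE6 c1
    (by decide : ∃ i, E6.π i ≠ i) (by simp)).imp_right fun ⟨t, t1, t2⟩ => ?_
  have d := twD h hρ c0 hτ
  have key : ∀ {l r b}, chkW tabE6 morE6 l = true ∧ 68 < tabE6.n ∧ tabE6.appl l 68 = r ∧ r < tabE6.n ∧
      (b < tabE6.n ∧ morE6.ph b = b) ∧ tabE6.A b r = 1 → h.cd.Pos (h.fin r) → ∀ s, s ∈ AT (E6.z f hf) H (h.fin r) := by
    intro l r b H1 H2 s
    have t3 : t - f t ≠ 0 := sub_ne_zero.2 t2.symm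
    have t4 : f t - t ≠ 0 := sub_ne_zero.2 t2
    have := AT_add d (AT_fix d (σ := σ.toMonoidHom) hσ (E6.sub f hf) h2 H2 (t := (f s * t - s * f t) / (t - f t))
      (by simp only [map_div₀, map_sub, map_mul, hf]; field_simp; ring))
      (smul_tab h hρ c0 hτ (σ := σ.toMonoidHom) hσ (E6.sub f hf) h2 H1.2.2.2 (c := (s - f s) / (t - f t))
        (by simp only [map_div₀, map_sub, hf]; field_simp; ring)
        (AT_tr h hρ c0 hτ (σ := σ.toMonoidHom) hσ (E6.sub f hf) h2 H1 t1))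
    convert this using 1
    field_simp; ring
  have hs : ∀ k, h.cd.sim ((E6.O f hf).rep k) = h.fin (![46, 39, 42, 56] k) := fun k => congrArg h.fin
    ((by decide +kernel : ∀ k : Fin 4, tabE6.simple ((![1, 3, 2, 0] : Fin 4 → Fin 6) k) = ![46, 39, 42, 56] k) k)
  refine G1_le d (σ := σ.toMonoidHom) hσ (E6.sub f hf) h2 h1 (fun k => ?_) fun k r r1 r2 => ?_
  · have := h.cd.pos_sim ((E6.O f hf).rep k)
    rw [hs] at this ⊢
    fin_cases k
    · exact Or.inl (E6.zρ f hf (r := 46) (s := 46) (by decide +kernel))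
    · exact Or.inl (E6.zρ f hf (r := 39) (s := 39) (by decide +kernel))
    · exact Or.inr (key (l := [0, 5, 3, 2, 4, 1, 3, 2, 4, 0, 5]) (r := 42) (b := 44) (by decide +kernel) this)
    · exact Or.inr (key (l := [2, 4, 3, 2, 4, 1, 3, 2, 4, 0, 5]) (r := 56) (b := 60) (by decide +kernel) this)
  · obtain ⟨s, s1, rfl⟩ := List.mem_map.1 (h.mem_cls (E6.chk k) (E6.hJ f hf k) r1 r2)
    have := (by decide +kernel : ∀ k : Fin 4, ∀ s ∈ E6.cl k, s < tabE6.n ∧ ![46, 39, 42, 56] k < tabE6.n ∧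
      s ∈ obL morE6 (![46, 39, 42, 56] k)) k s s1
    rw [hs, mem_Ob h hρ c0, h.val_fin this.1, h.val_fin this.2.1]
    exact this.2.2

end Cfsg.Agent.S2191
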