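import Cfsg.Statements.S2192
import Cfsg.Agent.H14.SF9

set_option autoImplicit false
set_option linter.unusedVariables false
set_option linter.style.haveILetI false
open Cfsg H24 H14.SF

namespace Cfsg.Agent.S2192

theorem c0 : chkTw tabD4 morD4a = true := by decide +kernel

theorem c1 : chkM tabD4 morD4a 17 12 [[0, 2, 3], [0, 2, 3, 1]] [19, 16, 15] = true := by decide +kernel

section
variable {K : Type*} [Field K] [Fintype K] {f : K →+* K} {G : Type*} [Group G] {S : St tabD4_chk.cd K G} {z : Tw S}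
  (hρ : ∀ r : Fin Lie.chevD4.nroots, z.ρ r = tabD4_chk.fin (morD4a.ph r))
  (hτ : ∀ (r : Fin Lie.chevD4.nroots) t, z.τ r t = (morD4a.ep r : K) * f t) {σ : G →* G}
  (hσ : ∀ r t, σ (S.x r t) = S.x r (f t)) {κ : Type} {O : z.sym.Orb κ} (hΓ : z.Sub O (z.G1 O))
  {M : Subgroup G} (hM : ∀ g ∈ z.G1 O, σ g = g → g ∈ M) (hM' : M ≤ z.G1 O)
include hρ hτ hσ hΓ hM

local notation "xx" r => St0.x (St.toSt0 S) (Tab.Chk.fin tabD4_chk r)

theorem lvl2 {g : G} (hg : g ∈ S.XS (Lv tabD4_chk.cd 2))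
    (hc : ∀ m ∈ S.U, m ∈ M → m ∈ (fTw f σ hσ).Fx → Commute g m) : g ∈ S.XS (Lv tabD4_chk.cd 3) := by
  let h := tabD4_chk
  have H := (by decide +kernel : ∀ r < tabD4.n, r ∈ [19, 16, 15, 21, 20, 17, 22, 23] ↔
    tabD4.posB r = true ∧ 2 ≤ htT tabD4 r)
  have H' := (by decide +kernel : ∀ r ∈ [19, 16, 15, 21, 20, 17, 22, 23], r < tabD4.n)
  obtain ⟨t, rfl⟩ := S.exists_prod (f := RS.htv) (l := [19, 16, 15, 21, 20, 17, 22, 23].map h.fin)
    (fun a ha b hb => (RS.nml_lvl RS.closed_pos (fun _ hr => h.cd.ht_pos hr) ha.1 2 b hb).2) (fun _ hr => h.cd.ht_pos hr.1)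
    ((List.nodup_map_iff_inj_on (by decide)).2 fun a ha b hb e => by
      simpa [h.val_fin (H' a ha), h.val_fin (H' b hb)] using congrArg Fin.val e) (fun r => ⟨fun hr => by
        obtain ⟨a, ha, rfl⟩ := List.mem_map.1 hr
        exact mem_Lv h ⟨H' a ha, (H a (H' a ha)).1 ha⟩, fun hr => List.mem_map.2 ⟨r, (H r (h.lt_n r)).2
          ⟨(h.posB_iff r).2 hr.1, ht_eq h r ▸ hr.2⟩, h.fin_val r⟩⟩) hg
  have key : ∀ {a b c : ℕ} {e e' : ℤ}, ((a < tabD4.n ∧ morD4a.ph a = b) ∧ (b < tabD4.n ∧ morD4a.ph b = c) ∧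
      (c < tabD4.n ∧ morD4a.ph c = a) ∧ morD4a.ep a = e ∧ morD4a.ep b * e = e' ∧ morD4a.ep c * e' = 1 ∧ tabD4.Cm a b ∧
      tabD4.Cm a c) ∧ (∀ r ∈ [a, b, c], r < tabD4.n ∧ tabD4.posB r = true ∧ 0 ≤ htT tabD4 r) ∧ b ≠ a ∧ c ≠ a ∧ c ≠ b →
      Commute ([19, 16, 15, 21, 20, 17, 22, 23].map fun a => (xx a) (t (h.fin a))).prod
        ([a, b, c].map fun r => (xx r) (if r = a then 1 else if r = b then e else e')).prod := by
    intro a b c e e' ⟨a1, a2, a3, a4, a5⟩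
    have a6 := fx3 h hρ c0 hτ a1 (t := 1) (by simp)
    have a7 : (xx a) 1 * ((xx b) (e * f 1) * (xx c) (e' * f (f 1))) ∈ S.U := mul_mem (S.x_mem_U (mem_Lv h
      (a2 a (by simp))).1 _) (mul_mem (S.x_mem_U (mem_Lv h (a2 b (by simp))).1 _)
        (S.x_mem_U (mem_Lv h (a2 c (by simp))).1 _))
    have a8 : σ ((xx a) 1 * ((xx b) (e * f 1) * (xx c) (e' * f (f 1)))) =
        (xx a) 1 * ((xx b) (e * f 1) * (xx c) (e' * f (f 1))) := by simp [hσ]
    simpa [St0.prod, a3, a4, a5] using hc _ a7 (hM _ (hΓ.U_le ⟨a7, a6⟩) a8) a8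
  have k1 := key (a := 18) (b := 13) (c := 12) (e := 1) (e' := 1) (by decide +kernel)
  have e1 := lin h S 21 2 1 (fun a b => if a = 19 ∧ b = 13 then -1 else if a = 16 ∧ b = 18 then 1 else 0) _ _
    (by decide +kernel) _ _ k1
  have e2 := lin h S 20 2 1 (fun a b => if a = 19 ∧ b = 12 then -1 else if a = 15 ∧ b = 18 then 1 else 0) _ _
    (by decide +kernel) _ _ k1
  have e3 := lin h S 23 2 3 (fun a b => if (a, b) ∈ [(19, 17), (16, 20), (15, 21)] then -1 else 0) _ _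
    (by decide +kernel) _ _ (key (a := 17) (b := 20) (c := 21) (e := -1) (e' := -1) (by decide +kernel))
  simp at e1 e2 e3
  have b1 : t (h.fin 19) = 0 := by linear_combination e3 - e1 - e2
  have b2 : t (h.fin 16) = 0 := by linear_combination e1 + b1
  have b3 : t (h.fin 15) = 0 := by linear_combination e2 + b1
  rw [List.map_cons, List.map_cons, List.map_cons, S.prod_cons, S.prod_cons, S.prod_cons, b1, b2, b3]
  simpa using S.prod_mem (l := [21, 20, 17, 22, 23].map h.fin) (T := Lv h.cd 3) (fun r hr => by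
    obtain ⟨a, ha, rfl⟩ := List.mem_map.1 hr
    exact mem_Lv h ((by decide +kernel : ∀ r ∈ [21, 20, 17, 22, 23], r < tabD4.n ∧ tabD4.posB r = true ∧
      3 ≤ htT tabD4 r) a ha)) t

include hM' in
theorem quad (hf : ∀ t, f (f (f t)) = t) {t : K} (ht : t ∈ AT z M (tabD4_chk.fin 18)) :
    f t * f (f t) ∈ AT z M (tabD4_chk.fin 17) := by
  let h := tabD4_chk
  have d := twD h hρ c0 hτ
  have pos : ∀ a, a < tabD4.n ∧ tabD4.posB a = true ∧ 0 ≤ htT tabD4 a → h.cd.Pos (h.fin a) := fun a H => (mem_Lv h H).1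
  have a1 := mem_of_AT d hΓ hM' (pos 18 (by decide +kernel)) ht (mul_mem
    (S.x_mem (mem_Ob' h hρ c0 (b := 13) (by decide +kernel)) _) (S.x_mem (mem_Ob' h hρ c0 (b := 12)
      (by decide +kernel)) _)) (fx3 h hρ c0 hτ (a := 18) (b := 13) (c := 12) (e := 1) (e' := 1) (by decide +kernel) (hf t))
  have a2 := x_mem_fix d hσ hΓ hM (ρ_fin h hρ c0 (a := 14) (b := 14) (by decide +kernel)) (map_one f)
  have a3 := mul_mem a2 (mul_mem a1 (one_mem M))
  simp only [mul_assoc] at a3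
  rw [mv1 h S (a := 18) (b := 14) (v := 19) (c := -1) (by decide +kernel),
    mv1 h S (a := 13) (b := 19) (v := 21) (c := 1) (by decide +kernel),
    mv1 h S (a := 13) (b := 14) (v := 16) (c := 1) (by decide +kernel),
    mv1 h S (a := 12) (b := 21) (v := 22) (c := 1) (by decide +kernel),
    mv1 h S (a := 12) (b := 19) (v := 20) (c := 1) (by decide +kernel),
    mv1 h S (a := 12) (b := 16) (v := 17) (c := 1) (by decide +kernel),
    mv1 h S (a := 12) (b := 14) (v := 15) (c := 1) (by decide +kernel),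
    mv1 h S (a := 19) (b := 17) (v := 23) (c := -1) (by decide +kernel),
    mv0 h S (a := 19) (b := 16) (by decide +kernel), mv0 h S (a := 19) (b := 15) (by decide +kernel),
    mv0 h S (a := 20) (b := 23) (by decide +kernel), mv0 h S (a := 21) (b := 23) (by decide +kernel),
    ← mul_assoc ((xx 13) _), ← mul_assoc, mul_mem_cancel_left a1, mul_mem_cancel_left a2, ← mul_assoc ((xx 15) _),
    ← mul_assoc, ← mul_assoc ((xx 20) _), ← mul_assoc ((xx 17) _)] at a3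
  have gt : ∀ a b t, a < tabD4.n ∧ b < tabD4.n ∧ htT tabD4 a < htT tabD4 b →
      (xx b) t ∈ S.XS {r | h.cd.ht (h.fin a) < h.cd.ht r} := fun a b t H => S.x_mem (by
    rw [Set.mem_setOf_eq, ht_eq, ht_eq, h.val_fin H.1, h.val_fin H.2.1]; exact H.2.2) t
  have ob : ∀ a b c t u, (a < tabD4.n ∧ b < tabD4.n ∧ b ∈ obL morD4a a ∧ b ≠ a) ∧
      (a < tabD4.n ∧ c < tabD4.n ∧ c ∈ obL morD4a a ∧ c ≠ a) → (xx b) t * (xx c) u ∈ S.XS (Ob z (h.fin a) \ {h.fin a}) :=
    fun a b c t u H => mul_mem (S.x_mem (mem_Ob' h hρ c0 H.1) t) (S.x_mem (mem_Ob' h hρ c0 H.2) u)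
  have ob' : ∀ r t, ∀ y ∈ S.XS (Ob z r \ {r}), S.x r t * y ∈ S.XS (Ob z r) := fun r t y hy =>
    mul_mem (S.x_mem (self_mem_Ob z r) t) (S.XS_mono Set.diff_subset hy)
  have p19 := pos 19 (by decide +kernel)
  have a4 := (split d hΓ hM' p19 (T := {r | h.cd.ht (h.fin 19) < h.cd.ht r}) (fun r hr =>
    ⟨(h.cd.pos_iff_ht r).2 ((h.cd.ht_pos p19).trans hr), fun u hu => hr.trans hu⟩) (fun _ h => h)
    (fun r hr => by rwa [Set.mem_setOf_eq, d.ht]) (ob' _ _ _ (ob 19 15 16 _ _ (by decide +kernel)))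
    (mul_mem (mul_mem (gt 19 17 _ (by decide +kernel)) (mul_mem (gt 19 20 _ (by decide +kernel))
      (gt 19 21 _ (by decide +kernel)))) (mul_mem (gt 19 23 _ (by decide +kernel))
        (mul_mem (gt 19 22 _ (by decide +kernel)) (one_mem _)))) a3).1
  rw [mul_mem_cancel_left (mem_of_AT d hΓ hM' p19 (by
    simpa using AT_tr h hρ c0 hτ hσ hΓ hM (l := [1]) (r := 18) (a := 19) (b := 14) (by decide +kernel) ht)
    (ob 19 15 16 _ _ (by decide +kernel)) a4)] at a3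
  have a5 := (split_top d hσ hΓ hM hM' (pos 17 (by decide +kernel)) (fun r hr => by
    rw [ht_eq, ht_eq, h.val_fin (by decide +kernel)] at hr
    exact Fin.ext ((val_ρ h hρ c0 r).trans ((by decide +kernel : ∀ r < tabD4.n, htT tabD4 17 < htT tabD4 r →
      morD4a.ph r = r) r (h.lt_n r) hr))) (ob' _ _ _ (ob 17 20 21 _ _ (by decide +kernel)))
    (mul_mem (gt 17 23 _ (by decide +kernel)) (mul_mem (gt 17 22 _ (by decide +kernel)) (one_mem _))) a3).1
  exact ⟨_, ob 17 20 21 _ _ (by decide +kernel), by simpa [mul_comm (f t)] using a5⟩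

end

/-- In the twisted group ³D₄(q), realised inside the Chevalley group of type D₄ over the field K with q³ elements (q a power of the characteristic) as the subgroup generated by the root elements, and products of root elements, that the twisting map fixes, the subgroup of matrices all of whose entries lie in the subfield with q elements (it contains the subgroup of type G₂ over that subfield) is a proper maximal subgroup. -/
theorem result {K : Type*} [Field K] [Fintype K] (p : ℕ) [Fact p.Prime] [CharP K p] (q : ℕ) (hq : ∃ a : ℕ, 1 ≤ a ∧ q = p ^ a) (hK : Fintype.card K = q ^ 3) (M : Subgroup (GL Cfsg.Lie.chevD4.Idx K))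
    (hM : ∀ g : GL Cfsg.Lie.chevD4.Idx K, g ∈ M ↔ g ∈ Cfsg.Lie.twistedD4 K q ∧ ∀ i j : Cfsg.Lie.chevD4.Idx, ((g : Matrix Cfsg.Lie.chevD4.Idx Cfsg.Lie.chevD4.Idx K) i j) ^ q = (g : Matrix Cfsg.Lie.chevD4.Idx Cfsg.Lie.chevD4.Idx K) i j) :
    M ≠ Cfsg.Lie.twistedD4 K q ∧ ∀ H : Subgroup (GL Cfsg.Lie.chevD4.Idx K), M ≤ H → H ≤ Cfsg.Lie.twistedD4 K q → H = M ∨ H = Cfsg.Lie.twistedD4 K q := by
  obtain ⟨a, a1, rfl⟩ := hq
  have hp : p.Prime := Fact.out
  obtain ⟨f, hf, hq⟩ := D4.exists_f (hp.isPrimePow.pow (by omega)) hK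
  let h := tabD4_chk
  have := h.finite_grp K
  obtain ⟨σ', hσ⟩ := (h.grp K).exists_field (h.grp_Gr K) (h.grp_adj K)
    (RingEquiv.ofBijective f (Finite.injective_iff_bijective.1 f.injective))
  obtain ⟨σ, hσ⟩ : ∃ σ : _ →* _, ∀ r t, σ ((h.grp K).x r t) = (h.grp K).x r (f t) := ⟨σ'.toMonoidHom, hσ⟩
  have hρ : ∀ r : Fin Lie.chevD4.nroots, (D4.z f hf).ρ r = h.fin (morD4a.ph r) := fun r => by
    rw [← h.tw_ρ morD4a_chk f Nat.cast_zero D4.π D4.hπ (D4.surj f hf) ⟨h.lt_n r, rfl⟩, h.fin_val]; rfl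
  have hτ : ∀ (r : Fin Lie.chevD4.nroots) t, (D4.z f hf).τ r t = (morD4a.ep r : K) * f t := fun r t => by
    have := h.td_τ morD4a_chk f Nat.cast_zero D4.π D4.hπ (D4.surj f hf) (h.lt_n r) t
    rwa [h.fin_val, D4.ex1, pow_one] at this
  have hΓ := D4.sub f hf
  rw [D4.gen_eq f hf hq] at hM ⊢
  refine final h hq hσ ?_ (fun H h1 h2 => ?_) hM
  · obtain ⟨t, ht⟩ := exists_nfix hq (Nat.one_lt_pow (by omega) hp.one_lt) (by decide) hK
    refine ⟨_, hΓ.UK_le 1 ((D4.U1 f hf _).2 ⟨t, rfl⟩), fun e => ht ?_⟩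
    rw [map_mul, map_mul, hσ, hσ, hσ] at e
    exact (St0.Par.inj3 (a := h.fin 18) (b := h.fin 13) (c := h.fin 12) (D4.pU f hf 1) e).1
  refine (main_tab h hρ c0 hτ hσ hΓ h2 h1 p (h.grp_Gr K) (h.grp_adj K) connD4 c1
    (by decide : ∃ i, D4.π i ≠ i) fun r hr t b hb hc => ?_).imp_right fun ⟨t, t1, t2⟩ => ?_
  · have e := (by decide +kernel : ∀ r ∈ [19, 16, 15], tabD4.posB r = true ∧ htT tabD4 r = 2) r hr
    rw [h.posB_iff, ← ht_eq h] at e
    have := lvl2 hρ hτ hσ hΓ h2 (mul_mem ((h.grp K).x_mem (And.intro e.1 e.2.ge) t)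
      ((h.grp K).XS_mono (fun s hs => And.intro hs.1 (e.2.ge.trans hs.2.1)) hb)) hc
    by_contra ht
    refine x_not_mem_Up _ e.1 ht ((mul_mem_cancel_right hb).1 ((h.grp K).XS_mono (fun s hs => ?_) this))
    have : 3 ≤ h.cd.ht s := hs.2
    exact ⟨hs.1, by omega, by rintro rfl; omega⟩
  have d := twD h hρ c0 hτ
  have tr := fun t ht => AT_tr h hρ c0 hτ hσ hΓ h2 (l := [1, 0, 2, 3]) (r := 17) (a := 18) (b := 22)
    (by decide +kernel) (t := t) ht
  have hs : ∀ k, h.cd.sim ((D4.O f hf).rep k) = h.fin (![14, 18] k) := fun k => congrArg h.fin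
    ((by decide +kernel : ∀ k : Fin 2, tabD4.simple ((![1, 0] : Fin 2 → Fin 4) k) = ![14, 18] k) k)
  refine G1_le d hσ hΓ h2 h1 (fun k => ?_) fun k r r1 r2 => ?_
  · have p1 := h.cd.pos_sim ((D4.O f hf).rep k)
    rw [hs] at p1 ⊢
    fin_cases k
    · exact Or.inl (D4.zρ f hf (r := 14) (s := 14) (by decide +kernel))
    refine Or.inr fun x => ?_
    have T : ∀ y, f (y + f y + f (f y)) = y + f y + f (f y) := fun y => by rw [map_add, map_add, hf]; ring
    have sm := fun c t hc ht => smul_tab h hρ c0 hτ hσ hΓ h2 (a := 18) (b := 22) (by decide +kernel) (c := c) (t := t) hc ht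
    have n1 : t - f t ≠ 0 := sub_ne_zero.2 t2.symm
    have n2 : f t - f (f t) ≠ 0 := by rwa [← map_sub, map_ne_zero]
    have n3 : f (f t) - t ≠ 0 := by rw [← hf t, hf (f (f t)), ← map_sub, map_ne_zero]; exact n2
    have := AT_add d (AT_add d (AT_fix d hσ hΓ h2 p1 (T (x * t * (f t + f (f t)) / ((t - f t) * (f (f t) - t)))))
      (sm _ _ (T (-x * t / ((t - f t) * (f (f t) - t)))) (tr t t1)))
      (sm _ _ (T (-x / ((t - f t) * (f (f t) - t)))) (tr _ (quad hρ hτ hσ hΓ h2 h1 hf (tr t t1))))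
    convert this using 1
    simp only [map_div₀, map_mul, map_sub, map_add, map_neg, hf]
    field_simp; ring
  · obtain ⟨s, s1, rfl⟩ := List.mem_map.1 (h.mem_cls (D4.chk k) (D4.hJ f hf k) r1 r2)
    have := (by decide +kernel : ∀ k : Fin 2, ∀ s ∈ D4.cl k, s < tabD4.n ∧ ![14, 18] k < tabD4.n ∧
      s ∈ obL morD4a (![14, 18] k)) k s s1
    rw [hs, mem_Ob h hρ c0, h.val_fin this.1, h.val_fin this.2.1]
    exact this.2.2

end Cfsg.Agent.S2192
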