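import Cfsg.Statements.S2205
import Cfsg.Agent.H18.DPf

set_option autoImplicit false
open Cfsg

namespace Cfsg.Agent.S2205

open Subgroup MulAction H18.DP

/-- A finite group acting faithfully and 2-transitively on a set with p² + 1 points, p a prime, is doubly primitive — a point stabilizer acts primitively on the remaining p² points — unless p = 2 and the group is the Frobenius group of order 20. -/
theorem result {G Ω : Type*} [Group G] [Finite G] [Fintype Ω] [MulAction G Ω] [FaithfulSMul G Ω] (p : ℕ) (hp : p.Prime) (hΩ : Fintype.card Ω = p ^ 2 + 1) (h2 : MulAction.IsMultiplyPretransitive G Ω 2) (a : Ω) :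
    MulAction.IsPreprimitive ↥(MulAction.stabilizer G a) ↥(SubMulAction.ofStabilizer G a) ∨ (p = 2 ∧ Nat.card G = 20) := by
  refine or_iff_not_imp_left.2 fun hn => ?_
  haveI := Fact.mk hp
  have ht : ∀ {a b c d : Ω} (_ : a ≠ b) (_ : c ≠ d), ∃ g : G, g • a = c ∧ g • b = d :=
    is_two_pretransitive_iff.1 h2
  have hcard : Nat.card Ω = p ^ 2 + 1 := by rw [Nat.card_eq_fintype_card, hΩ]
  have hp2 : 4 ≤ p ^ 2 := by have := hp.two_le; nlinarith
  obtain ⟨b, hb⟩ : ∃ b : Ω, b ≠ a := by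
    haveI : Nontrivial Ω := Fintype.one_lt_card_iff_nontrivial.1 (by omega)
    exact exists_ne a
  have c : Ctx G Ω p a b :=
    ⟨hp, hcard, hb, fun _ _ _ _ h h' => ht h h', fun g h =>
      FaithfulSMul.eq_of_smul_eq_smul (α := Ω) fun x => by rw [h, one_smul]⟩
  haveI : IsPretransitive (stabilizer G a) (SubMulAction.ofStabilizer G a) := ⟨fun x y => by
    obtain ⟨g, h1, h2⟩ := ht (a := a) (b := x) (c := a) (d := y) (Ne.symm x.2) (Ne.symm y.2)
    exact ⟨⟨g, h1⟩, Subtype.ext h2⟩⟩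
  obtain ⟨d, hd1, hd2⟩ : ∃ d : Ω, d ≠ a ∧ d ≠ b := by
    classical
    by_contra h
    push Not at h
    have : (Finset.univ : Finset Ω) ⊆ {a, b} := fun x _ => by
      by_cases hx : x = a
      · simp [hx]
      · simp [h x hx]
    have h1 := Finset.card_le_card this
    have h3 := Finset.card_le_two (a := a) (b := b)
    rw [Finset.card_univ] at h1
    omega
  haveI : Nontrivial (SubMulAction.ofStabilizer G a) :=
    ⟨⟨⟨b, hb⟩, ⟨d, hd1⟩, fun h => hd2 (congrArg Subtype.val h).symm⟩⟩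
  set b' : SubMulAction.ofStabilizer G a := ⟨b, hb⟩ with hb'
  rw [← isCoatom_stabilizer_iff_preprimitive (stabilizer G a) b'] at hn
  have hs : ∀ g : stabilizer G a, g ∈ stabilizer (stabilizer G a) b' ↔ (g : G) • b = b :=
    fun g => ⟨fun h => congrArg Subtype.val h, fun h => Subtype.ext h⟩
  have hne : stabilizer (stabilizer G a) b' ≠ ⊤ := fun h => by
    obtain ⟨g, hg, e⟩ := c.trans hd1
    exact hd2 (e.symm.trans ((hs ⟨g, hg⟩).1 (h.ge (mem_top _))))
  obtain ⟨T, h1, h2⟩ : ∃ T, stabilizer (stabilizer G a) b' < T ∧ T ≠ ⊤ := by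
    by_contra h
    push Not at h
    exact hn ⟨hne, h⟩
  refine c.main (R := T.map (stabilizer G a).subtype)
    ⟨fun g hg => ⟨⟨g, hg.1⟩, h1.le ((hs _).2 hg.2), rfl⟩, map_subtype_le _, fun h => ?_, fun h => ?_⟩
  · exact h1.not_ge fun g hg => (hs g).2 (h.le ⟨g, hg, rfl⟩).2
  · refine h2 (eq_top_iff.2 fun g _ => ?_)
    obtain ⟨t, ht, e⟩ := h.ge g.2
    exact (Subtype.ext e : t = g) ▸ ht

end Cfsg.Agent.S2205
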