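import Cfsg.Statements.S2209
import Cfsg.Agent.H24.Cent

set_option autoImplicit false
set_option maxHeartbeats 400000
open Cfsg

namespace Cfsg.Agent.S2209

open H24 Cfsg.Lie in
theorem aux {F : Type*} [Field F] [CharP F 2] {D : ChevalleyDatum} {T : Tab} (h : T.Chk D) {J : List ℕ} {i0 : Fin D.rank}
    (H : T.chkCent 2 J [T.n - 1] [] [] (fun _ => 1) = true) {L : List ℕ}
    (H1 : (J.filter (· < T.l)).map (fun j => T.neg (T.simple j)) = L ∧ (∀ r ∈ L, r < T.n) ∧
      ∀ i : Fin D.rank, ((i : ℕ) ∉ J → i = i0) ∧ T.wtv (T.n - 1) i = if i = i0 then 1 else 0)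
    (t : GL D.Idx F) (ht : (t : Matrix D.Idx D.Idx F) = D.x F (D.nroots - 1) 1) :
    D.group F ⊓ Subgroup.centralizer {t} = D.posUnipotent F ⊔
      Subgroup.closure {g : GL D.Idx F | ∃ s ∈ L, ∃ c : F, (g : Matrix D.Idx D.Idx F) = D.x F s c} := by
  have hn : D.nroots - 1 < D.nroots := Nat.sub_lt h.npos one_pos
  have e : t = (h.st F).prod ([T.n - 1].map h.fin) 1 := by
    rw [h.x_eq F hn] at ht
    rw [Units.ext ht]
    simp only [List.map_cons, List.map_nil, St0.prod_cons, St0.prod_nil, mul_one, Pi.one_apply, ← h.hn]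
    rw [← h.fin_val ⟨_, hn⟩]
  rw [h.group_eq, e, h.cent (h.st F) (h.r3 F) (CharP.cast_eq_zero F 2) H (by simp +contextual) (fun c hc i hi => by
      simpa [(H1.2.2 _).2, (H1.2.2 i).1 hi] using hc) (by simp), h.posUnipotent_eq, H1.1,
    show {g : GL D.Idx F | ∃ s ∈ L, ∃ c : F, (g : Matrix D.Idx D.Idx F) = D.x F s c} =
      {g : GL D.Idx F | ∃ (s : ℕ) (c : F), s ∈ L ∧ (g : Matrix D.Idx D.Idx F) = D.x F s c} by simp,
    h.closure_eq F _ fun r hr => h.hn ▸ H1.2.1 r hr, St0.U, ← St0.XS_union]
  congr 1
  ext s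
  simp [← h.pos_iff]; rfl

/-- Centralizer of a long root involution in the Chevalley groups of type E₆, E₇, E₈ over a finite field F of characteristic two. Let G be the group generated by the root elements, U the subgroup generated by the positive root subgroups, r the highest root (the last root index: 71, 125, 239 respectively), and t the element of G with matrix x_r(1). Then the centralizer of t in G is the subgroup generated by U together with the root subgroups X_{−p} for the fundamental roots p orthogonal to r — all fundamental roots except p₂ for E₆, except p₁ for E₇, except p₈ for E₈ (numbering with p₁–p₃–p₄–…–p_l the long chain and p₂ joined to p₄); the indices of these negative fundamental roots are 15, 29, 32, 34, 35 (E₆), 47, 52, 56, 59, 61, 62 (E₇), 77, 98, 104, 109, 113, 116, 118 (E₈). (This is the unipotent radical of the corresponding maximal parabolic subgroup extended by the root subgroups of its Levi factor, of type A₅, D₆, E₇ respectively.) -/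
theorem result {F : Type*} [Field F] [Fintype F] [CharP F 2] (d : Cfsg.Lie.ChevalleyDatum × List ℕ)
    (hd : d ∈ [(Cfsg.Lie.chevE6, [15, 29, 32, 34, 35]), (Cfsg.Lie.chevE7, [47, 52, 56, 59, 61, 62]), (Cfsg.Lie.chevE8, [77, 98, 104, 109, 113, 116, 118])])
    (t : GL d.1.Idx F) (ht : (t : Matrix d.1.Idx d.1.Idx F) = d.1.x F (d.1.nroots - 1) 1) :
    d.1.group F ⊓ Subgroup.centralizer {t} = d.1.posUnipotent F ⊔ Subgroup.closure {g : GL d.1.Idx F | ∃ s ∈ d.2, ∃ c : F, (g : Matrix d.1.Idx d.1.Idx F) = d.1.x F s c} := by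
  simp only [List.mem_cons, List.not_mem_nil, or_false] at hd
  rcases hd with rfl | rfl | rfl
  · exact aux H24.tabE6_chk (J := [0, 2, 3, 4, 5]) (i0 := ⟨1, by decide⟩) (by decide +kernel) (by decide +kernel) t ht
  · exact aux H24.tabE7_chk (J := [1, 2, 3, 4, 5, 6]) (i0 := ⟨0, by decide⟩) (by decide +kernel) (by decide +kernel) t ht
  · exact aux H24.tabE8_chk (J := [0, 1, 2, 3, 4, 5, 6]) (i0 := ⟨7, by decide⟩) (by decide +kernel) (by decide +kernel) t ht

end Cfsg.Agent.S2209
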