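import Cfsg.Statements.S2214
import Cfsg.Agent.H24.Lang2

set_option autoImplicit false
set_option maxHeartbeats 400000
open Cfsg

namespace Cfsg.Agent.S2214

open H24 Cfsg.Lie St0

section
variable {ι Φ : Type} [Fintype ι] [DecidableEq ι] [Fintype Φ] [DecidableEq Φ] {R : CD ι Φ} {k : Type*} [Field k]
  {G : Type*} [Group G] (S : St R k G)

theorem mem_Z {g : G} (hg : g ∈ S.Gr) (h : ∀ r, Commute g (S.x r 1)) : g ∈ S.Z := by
  have hB : g ∈ S.B := by
    obtain ⟨w, hw, hc⟩ := S.mem_Gr_iff.1 hg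
    obtain ⟨n, hn, hr⟩ := S.exists_N_rep hw
    obtain ⟨b, hb, u, hu, rfl⟩ := S.exists_canon hc hn hr
    obtain rfl := RS.W_eq_one_of_pos hw fun i => by_contra fun hi => by
      have := (S.canon_unique hr hb (mul_mem (S.U_le_B (S.x_mem (R.pos_sim i) 1)) hb)
        (mul_mem hu (S.x_mem (T := {r | R.Pos r ∧ ¬ R.Pos (w r)}) ⟨R.pos_sim i, hi⟩ 1)) hu
        (by simpa only [mul_assoc] using (h _).eq)).1
      exact one_ne_zero (S.x_eq_one_iff.1 (right_eq_mul.1 this))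
    exact mul_mem (mul_mem hb (S.H_le_B (S.mem_H_of_rep_one hn hr))) (S.U_le_B (S.Um_le_U _ hu))
  obtain ⟨l, hl⟩ := R.mem_W_iff.1 (RS.wL_W (R := R.toRS) Set.univ)
  have h1 : Commute g (S.nw l) := by
    clear hl
    induction l with
    | nil => simp
    | cons i l ih =>
      rw [St.nw_cons, St0.n, inv_one, St0.x_neg]
      exact (((h _).mul_right (h _).inv_right).mul_right (h _)).mul_right ih
  have hH : g ∈ S.H := by
    refine S.B_inf_VH.le ⟨hB, ?_⟩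
    obtain ⟨u, hu, a, ha, e⟩ := S.mem_B_iff.1 hB
    refine S.mem_VH_iff.2 ⟨_, (hl ▸ S.nw_rep l).conj_mem (T := {r | R.Pos r}) (T' := {r | ¬ R.Pos r})
      (fun r hr H => (RS.wL_univ_pos r).1 H hr) u hu, _, S.conj_mem_H (S.nw_mem l) ha, ?_⟩
    rw [← mul_inv_cancel_right g (S.nw l), h1.eq, e]; group
  obtain ⟨c, hc⟩ := S.exists_chi hH
  obtain rfl : c = 1 := funext fun i => Units.ext <| by
    have := hc (R.sim i) 1
    simp only [(h _).eq, mul_inv_cancel_right, R.rt_sim, RS.chi_single, mul_one] at this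
    exact (S.x_inj _ this).symm
  simp only [RS.chi_one] at hc
  exact ⟨hH, hc⟩

theorem conj_mem (r3 : S.R3) (f : k →+* k) (hf : Function.Surjective f) (φ : G →* G) (hφ : ∀ r t, φ (S.x r t) = S.x r (f t))
    {K : Subgroup G} (h1 : K ≤ S.Gr) (h2 : ∀ r t, f t = t → S.x r t ∈ K) (h3 : ∀ g ∈ K, φ g = g) {g : G} (hg : g ∈ S.Gr)
    (e : φ g = g) : ∀ x ∈ K, g * x * g⁻¹ ∈ K := by
  set L := Subgroup.closure {g | ∃ r t, f t = t ∧ g = S.x r t}
  have hx : ∀ r t, f t = t → S.x r t ∈ L := fun r t e => Subgroup.subset_closure ⟨r, t, e, rfl⟩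
  have hL : L ≤ K := (Subgroup.closure_le _).2 (by rintro _ ⟨r, t, e, rfl⟩; exact h2 r t e)
  have hH : ∀ a ∈ S.H, φ a = a → ∀ x ∈ L, a * x * a⁻¹ ∈ L := fun a ha e => conj_mem_closure (by
    rintro _ ⟨r, t, e', rfl⟩
    obtain ⟨c, hc⟩ := S.exists_chi ha
    rw [hc]
    refine hx _ _ (S.x_inj r ?_)
    rw [← hφ]
    exact ((congrArg φ (hc r t)).symm.trans (by rw [map_mul, map_mul, map_inv, e, hφ, e'])).trans (hc r t))
  have key : ∀ g ∈ S.Gr, φ g = g → ∃ l ∈ L, ∃ a ∈ S.H, φ a = a ∧ g = l * a := fun g hg e => by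
    let z : Tw S := ⟨φ, 1, 1, fun _ => f, hφ, fun _ => rfl, fun _ => rfl, fun _ => ⟨f.injective, hf⟩, fun _ _ => by simp⟩
    obtain ⟨w, hw, hc⟩ := S.mem_Gr_iff.1 hg
    obtain ⟨u, hu, n, hn, -, u', hu', rfl⟩ := z.exists_canon hw hc e
    have hU : ∀ u ∈ S.U, φ u = u → u ∈ L := fun u hu e => by
      obtain ⟨t, rfl⟩ := S.exists_pl hu
      rw [show φ (S.prod R.pl t) = S.prod R.pl (f ∘ t) by simp [St0.prod, map_list_prod, Function.comp_def, hφ]] at e
      exact S.prod_mem_of fun r hr => hx _ _ (S.pl_inj e ((R.mem_pl r).1 hr))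
    obtain ⟨a, ha, l, rfl⟩ := S.exists_eq_nw hn.1
    have h2 : S.nw l ∈ L ∧ φ (S.nw l) = S.nw l := by
      clear hn hg hc e
      induction l with
      | nil => simp
      | cons i l ih => exact ⟨mul_mem (mul_mem (mul_mem (hx _ _ (by simp)) (hx _ _ (by simp))) (hx _ _ (by simp))) ih.1, by
          simp [St.nw_cons, ih, St0.n, hφ]⟩
    have h4 : φ a = a := mul_right_cancel (h2.2 ▸ (map_mul φ a _).symm.trans hn.2)
    exact ⟨_, mul_mem (hU u hu.1 hu.2) (hH a ha h4 _ (mul_mem h2.1 (hU u' (S.Um_le_U _ hu'.1) hu'.2))), a, ha, h4, by group⟩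
  intro x hx
  obtain ⟨l, hl, a, ha, e1, rfl⟩ := key g hg e
  obtain ⟨l', hl', a', ha', e2, rfl⟩ := key x (h1 hx) (h3 x hx)
  have := K.mul_mem (hL (mul_mem (mul_mem (mul_mem hl (hH a ha e1 _ hl')) (hH a' ha' e2 _ (inv_mem hl))) (inv_mem hl'))) hx
  convert this using 1
  rw [show l * a * (l' * a') * (l * a)⁻¹ = l * a * l' * (a' * a⁻¹) * l⁻¹ by group, ← (S.commute_H r3 (inv_mem ha) ha').eq]
  group

end

theorem aux {k : Type*} [Field k] [IsAlgClosed k] (p : ℕ) [Fact p.Prime] [CharP k p] {D : ChevalleyDatum} {T : Tab}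
    (h : T.Chk D) (a : ℕ) (K : Subgroup (GL D.Idx k)) (hKG : K ≤ D.group k)
    (hLK : Subgroup.closure {g : GL D.Idx k | ∃ (s : ℕ) (t : k), t ^ (p ^ a) = t ∧ (g : Matrix D.Idx D.Idx k) = D.x k s t} ≤ K)
    (hKfix : ∀ g ∈ K, ∀ i j : D.Idx, ((g : Matrix D.Idx D.Idx k) i j) ^ (p ^ a) = (g : Matrix D.Idx D.Idx k) i j) :
    D.group k ⊓ Subgroup.centralizer (K : Set (GL D.Idx k)) = ⊥ ∧
    ∀ g : GL D.Idx k, g ∈ D.group k → (g ∈ Subgroup.normalizer (K : Set (GL D.Idx k)) ↔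
      ∀ i j : D.Idx, ((g : Matrix D.Idx D.Idx k) i j) ^ (p ^ a) = (g : Matrix D.Idx D.Idx k) i j) := by
  let f := iterateFrobenius k p a
  let φ : GL D.Idx k →* GL D.Idx k := Matrix.GeneralLinearGroup.map f
  have hφ : ∀ r t, φ ((h.st k).x r t) = (h.st k).x r (f t) := h.map_x f
  have hF : ∀ g : GL D.Idx k, φ g = g ↔ ∀ i j, g.1 i j ^ (p ^ a) = g.1 i j := fun g =>
    Units.ext_iff.trans Matrix.ext_iff.symm
  have hx : ∀ r t, f t = t → (h.st k).x r t ∈ K := fun r t e => hLK (Subgroup.subset_closure ⟨r, t, e, h.coe_x k r t⟩)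
  have h1 : D.group k ⊓ Subgroup.centralizer (K : Set (GL D.Idx k)) = ⊥ := eq_bot_iff.2 fun g hg =>
    (h.adj k).Z_eq ▸ mem_Z (h.st k) (h.group_eq k ▸ hg.1) fun r => (hg.2 _ (hx r 1 (map_one f))).symm
  simp only [← hF] at hKfix ⊢
  rw [h.group_eq] at hKG h1 ⊢
  have hf : Function.Surjective f := fun t => IsAlgClosed.exists_pow_nat_eq t (pow_pos (Fact.out : p.Prime).pos _)
  refine ⟨h1, fun g hg => ⟨fun hn => (inv_mul_eq_one.1 (h1.le ⟨Subgroup.mul_mem _ (Subgroup.inv_mem _ hg) ?_, fun x hx => ?_⟩)).symm, fun e =>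
    mem_normalizer_of_conj (conj_mem _ (h.r3 k) f hf φ hφ hKG hx hKfix hg e) ?_⟩⟩
  · exact ((h.st k).XS_le (M := (h.st k).Gr.comap φ)).2 (fun r _ t => by
      rw [Subgroup.mem_comap, hφ]; exact (h.st k).x_mem_Gr _ _) hg
  · have := hKfix _ ((Subgroup.mem_normalizer_iff.1 hn x).1 hx)
    rw [map_mul, map_mul, map_inv, hKfix x hx] at this
    rw [show g⁻¹ * φ g * x = g⁻¹ * (φ g * x * (φ g)⁻¹) * φ g by group, this]; group
  · simpa using conj_mem _ (h.r3 k) f hf φ hφ hKG hx hKfix (inv_mem hg) (by rw [map_inv, e])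

/-- Let k be an algebraically closed field of prime characteristic p, G the adjoint Chevalley group of type G₂, B₂, D₄, F₄, E₆, E₇ or E₈ over k (the matrix group generated by the root elements x_s(t), t ∈ k, acting on the Lie algebra), q = p^a with a ≥ 1, and K a subgroup of G containing every root element x_s(t) with t^q = t and consisting of matrices all of whose entries c satisfy c^q = c. Then the centralizer of K in G is trivial, and the normalizer of K in G is exactly the set of elements of G all of whose entries c satisfy c^q = c. -/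
theorem result {k : Type*} [Field k] [IsAlgClosed k] (p : ℕ) [Fact p.Prime] [CharP k p] (D : Cfsg.Lie.ChevalleyDatum) (hD : D ∈ [Cfsg.Lie.chevG2, Cfsg.Lie.chevB2, Cfsg.Lie.chevD4, Cfsg.Lie.chevF4, Cfsg.Lie.chevE6, Cfsg.Lie.chevE7, Cfsg.Lie.chevE8]) (a : ℕ) (ha : 1 ≤ a) (K : Subgroup (GL D.Idx k)) (hKG : K ≤ D.group k)
    (hLK : Subgroup.closure {g : GL D.Idx k | ∃ (s : ℕ) (t : k), t ^ (p ^ a) = t ∧ (g : Matrix D.Idx D.Idx k) = D.x k s t} ≤ K)
    (hKfix : ∀ g ∈ K, ∀ i j : D.Idx, ((g : Matrix D.Idx D.Idx k) i j) ^ (p ^ a) = (g : Matrix D.Idx D.Idx k) i j) :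
    D.group k ⊓ Subgroup.centralizer (K : Set (GL D.Idx k)) = ⊥ ∧
    ∀ g : GL D.Idx k, g ∈ D.group k → (g ∈ Subgroup.normalizer (K : Set (GL D.Idx k)) ↔ ∀ i j : D.Idx, ((g : Matrix D.Idx D.Idx k) i j) ^ (p ^ a) = (g : Matrix D.Idx D.Idx k) i j) := by
  obtain ⟨T, h, -⟩ := exists_tab_sc k hD
  exact aux p h a K hKG hLK hKfix

end Cfsg.Agent.S2214
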