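import Cfsg.Statements.S2231
import Cfsg.Agent.H12.QdX

set_option autoImplicit false
open Cfsg

namespace Cfsg.Agent.S2231

open H12 Subgroup

/-- Let p be an odd prime and K a finite field of characteristic p. Then Qd(p) (the natural semidirect product of an elementary abelian group of order p² by SL₂(p)) is not involved in the projective special linear group PSL₂(K). -/
theorem result {p : ℕ} [Fact p.Prime] (hp : p ≠ 2) {K : Type*} [Field K] [Fintype K] [CharP K p] : ¬ Cfsg.Involves ↥(Cfsg.qd p) (Matrix.ProjectiveSpecialLinearGroup (Fin 2) K) := by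
  rw [involves_iff]
  intro h
  obtain ⟨T, hT⟩ := ((sylIn_upU (p := p) (F := K)).map_top
    (QuotientGroup.mk'_surjective (center _))).exists_sylow
  obtain ⟨S, hS⟩ := (sylIn_qS (p := p) (F := ZMod p)).exists_sylow
  have := upU_comm (F := K)
  have h1 := h.sylow_comm T (by rw [hT]; infer_instance) S
  rw [hS] at h1
  have : heis (1 : ZMod p) 0 0 * heis 0 0 1 = heis 0 0 1 * heis 1 0 0 := h1.is_comm.comm _ _
  rw [heis_mul, heis_mul, heis_inj] at this
  simp at this

end Cfsg.Agent.S2231
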