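import Cfsg.Statements.S2238
import Cfsg.Agent.H26.SzPart

set_option autoImplicit false
open Cfsg

namespace Cfsg.Agent.S2238


/-- The partition of the Suzuki group: with q = 2^(2m+1), m ≥ 1, r = 2^m and the Suzuki group realised as the stabiliser in SL₄ of the Suzuki–Tits ovoid, every non-identity element lies in exactly one subgroup that is either a Sylow 2-subgroup or a cyclic subgroup of order q − 1, q + 2r + 1 or q − 2r + 1. -/
theorem result {F : Type*} [Field F] [Fintype F] {m : ℕ} (hm : 1 ≤ m) (hF : Fintype.card F = 2 ^ (2 * m + 1)) (g : ↥(Cfsg.Sz F m)) (hg : g ≠ 1) :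
    ∃! U : Subgroup ↥(Cfsg.Sz F m), ((∃ P : Sylow 2 ↥(Cfsg.Sz F m), U = (P : Subgroup ↥(Cfsg.Sz F m))) ∨
      (IsCyclic ↥U ∧ Nat.card ↥U ∈ ({2 ^ (2 * m + 1) - 1, 2 ^ (2 * m + 1) + 2 ^ (m + 1) + 1, 2 ^ (2 * m + 1) - 2 ^ (m + 1) + 1} : Set ℕ))) ∧ g ∈ U := by
  have M := H26.Sz.ovoidModel hm hF
  obtain ⟨U, hU, h⟩ := M.exists_part (g := g)
  exact ⟨U, ⟨M.isPart_iff.1 hU, h⟩, fun V hV => (M.isPart_iff.2 hV.1).unique hU hg hV.2 h⟩

end Cfsg.Agent.S2238
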