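import Cfsg.Statements.S2239
import Cfsg.Agent.H26.SzSub2

set_option autoImplicit false
open Cfsg

namespace Cfsg.Agent.S2239


/-- Subfield subgroups of the Suzuki group: let q = 2^(2m+1) and s = 2^(2k+1) with m, k ≥ 1 and 2k+1 dividing 2m+1 (so q is a power of s), both groups realised as stabilisers in SL₄ of the Suzuki–Tits ovoid. Then Sz(q) has a subgroup isomorphic to Sz(s), and any two subgroups of Sz(q) isomorphic to Sz(s) are conjugate. -/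
theorem result {F : Type*} [Field F] [Fintype F] {m : ℕ} (hm : 1 ≤ m) (hF : Fintype.card F = 2 ^ (2 * m + 1)) {K : Type*} [Field K] [Fintype K] {k : ℕ} (hk : 1 ≤ k) (hK : Fintype.card K = 2 ^ (2 * k + 1)) (hdiv : 2 * k + 1 ∣ 2 * m + 1) :
    (∃ S : Subgroup ↥(Cfsg.Sz F m), Nonempty (↥S ≃* ↥(Cfsg.Sz K k))) ∧
    ∀ S₁ S₂ : Subgroup ↥(Cfsg.Sz F m), Nonempty (↥S₁ ≃* ↥(Cfsg.Sz K k)) → Nonempty (↥S₂ ≃* ↥(Cfsg.Sz K k)) →
      ∃ g : ↥(Cfsg.Sz F m), S₂ = S₁.map (MulAut.conj g).toMonoidHom := by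
  classical
  let N := H26.Sz.ovoidModel hm hF
  let N₀ := H26.Sz.ovoidModel hk hK
  obtain ⟨E, hE⟩ := H26.exists_subfield hF hdiv (by omega)
  refine ⟨⟨_, N.nonempty_sub_equiv N₀ (hE.trans hK.symm)⟩, ?_⟩
  have key : ∀ S : Subgroup ↥(Cfsg.Sz F m), Nonempty (↥S ≃* ↥(Cfsg.Sz K k)) →
      ∃ g, S = (N.conj g).sub E := by
    rintro S ⟨e⟩
    obtain ⟨g, E', h2, rfl⟩ := N.exists_eq_sub_of_not_solvable (S := S) (N₀.ofEquiv e).not_solvable
    have h3 := (N₀.ofEquiv e).card_G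
    rw [(N.conj g).card_sub h2, hK, ← hE] at h3
    refine ⟨g, ?_⟩
    congr 1
    apply H26.subfield_eq_of_card
    rcases lt_trichotomy (Nat.card E') (Nat.card E) with h | h | h
    · exact absurd h3 (H26.sz_order_strictMono Nat.card_pos h).ne
    · exact h
    · exact absurd h3 (H26.sz_order_strictMono Nat.card_pos h).ne'
  intro S₁ S₂ h₁ h₂
  obtain ⟨g₁, rfl⟩ := key S₁ h₁
  obtain ⟨g₂, rfl⟩ := key S₂ h₂
  exact ⟨g₂ * g₁⁻¹, by rw [← H26.SzModel.conj_sub, H26.SzModel.conj_conj, inv_mul_cancel_right]⟩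

end Cfsg.Agent.S2239
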