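import Cfsg.Statements.S2240
import Cfsg.Agent.H26.SzSub2

set_option autoImplicit false
open Cfsg

namespace Cfsg.Agent.S2240

theorem aux1 {G : Type*} [Group G] {F : Type*} [Field F] [Fintype F] {m : ℕ} (N : H26.SzModel G F m)
    {n : ℕ} (hn : 2 ≤ n) {E : Subgroup G} (hZ : E ≤ N.Z) (hc : Nat.card E = 2 ^ n)
    (h : ∀ x, E ⊓ E.map (MulAut.conj x).toMonoidHom ≠ ⊥ → x ∈ Subgroup.normalizer (E : Set G)) :
    n ∣ 2 * m + 1 := by
  classical
  have := N.charP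
  have := N.finite
  have hE : E ≠ ⊥ := by
    rintro rfl
    have := Nat.pow_le_pow_right two_pos hn
    simp at hc
    omega
  obtain ⟨⟨x, hx⟩, hx1⟩ := Subgroup.ne_bot_iff_exists_ne_one.1 hE
  obtain ⟨v, rfl⟩ := hZ hx
  have hv : v ≠ 0 := by
    rintro rfl
    exact hx1 (Subtype.ext N.u_zero)
  have key : ∀ c, c ≠ 0 → N.u 0 (c * v) ∈ E → ∀ b, N.u 0 b ∈ E ↔ N.u 0 (c * b) ∈ E := by
    intro c hc0 hc b
    obtain ⟨s, rfl⟩ := N.sq_mul_σ_surj c
    have hs : s ≠ 0 := by rintro rfl; simp at hc0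
    have e : ∀ d, N.h (Units.mk0 s hs) * N.u 0 d * (N.h (Units.mk0 s hs))⁻¹ = N.u 0 (s ^ 2 * N.σ s * d) :=
      fun d => by rw [N.h_conj_u, mul_zero]; rfl
    have := h (N.h (Units.mk0 s hs)) (Subgroup.ne_bot_iff_exists_ne_one.2 ⟨⟨_, hc, _, hx, e v⟩, fun e' => by
      have := congrArg Subtype.val e'
      simp [N.u_eq_one_iff, hs, hv] at this⟩)
    rw [Subgroup.mem_normalizer_iff.1 this, e]
  let K : Subfield F :=
    { carrier := {c | N.u 0 (c * v) ∈ E}
      mul_mem' := fun {c d} hc hd => by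
        by_cases h0 : c = 0
        · simpa [h0] using hc
        · have := (key c h0 hc _).1 hd
          rwa [← mul_assoc] at this
      one_mem' := by simpa using hx
      add_mem' := fun hc hd => by
        have := E.mul_mem hc hd
        rwa [N.u_zero_mul, ← add_mul] at this
      zero_mem' := by simp [N.u_zero]
      neg_mem' := fun hb => by rwa [CharTwo.neg_eq]
      inv_mem' := fun c hc => by
        by_cases h0 : c = 0
        · simpa [h0] using hc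
        · exact (key c h0 hc _).2 (by simpa [h0] using hx) }
  have hK : Nat.card K = Nat.card E := Nat.card_congr (Equiv.ofBijective (fun c => ⟨N.u 0 (c * v), c.2⟩)
    ⟨fun c d e => Subtype.ext (mul_right_cancel₀ hv (N.u_inj (Subtype.ext_iff.1 e :)).2), fun ⟨y, hy⟩ => by
      obtain ⟨b, rfl⟩ := hZ hy
      exact ⟨⟨b / v, show N.u 0 (b / v * v) ∈ E by simpa [hv] using hy⟩, by simp [hv]⟩⟩)
  have h1 := Module.card_eq_pow_finrank (K := K) (V := F)
  rw [← Nat.card_eq_fintype_card (α := K), N.hF, hK, hc, ← pow_mul] at h1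
  exact ⟨_, Nat.pow_right_injective le_rfl h1⟩


/-- Elementary abelian TI-subgroups of the Suzuki group: let q = 2^(2m+1) with m ≥ 1, the group realised as the stabiliser in SL₄ of the Suzuki–Tits ovoid, and n ≥ 2. There is an elementary abelian 2-subgroup E of order 2^n that is a TI-subgroup (every conjugate of E meeting E nontrivially is E itself) if and only if n divides 2m + 1. -/
theorem result {F : Type*} [Field F] [Fintype F] {m : ℕ} (hm : 1 ≤ m) (hF : Fintype.card F = 2 ^ (2 * m + 1)) (n : ℕ) (hn : 2 ≤ n) :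
    (∃ E : Subgroup ↥(Cfsg.Sz F m), Cfsg.IsElementaryAbelian 2 E ∧ Nat.card ↥E = 2 ^ n ∧
      ∀ x : ↥(Cfsg.Sz F m), E ⊓ E.map (MulAut.conj x).toMonoidHom ≠ ⊥ → x ∈ Subgroup.normalizer (E : Set ↥(Cfsg.Sz F m))) ↔ n ∣ 2 * m + 1 := by
  classical
  let N := H26.Sz.ovoidModel hm hF
  have := N.charP
  constructor
  · rintro ⟨E, ⟨-, h2⟩, hc, h⟩
    obtain ⟨k, hk⟩ := N.exists_le_conj_Q (IsPGroup.of_card hc)
    exact aux1 (N.conj k) hn (fun x hx => ((N.conj k).mul_self_eq_one_iff_mem_Z (hk hx)).1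
      (by rw [← sq]; exact h2 x hx)) hc h
  · intro hd
    obtain ⟨K, hK⟩ := H26.exists_subfield hF hd (by omega)
    let E : Subgroup ↥(Cfsg.Sz F m) :=
      { carrier := {g | ∃ b ∈ K, g = N.u 0 b}
        mul_mem' := by
          rintro _ _ ⟨b, hb, rfl⟩ ⟨c, hc, rfl⟩
          exact ⟨b + c, K.add_mem hb hc, N.u_zero_mul b c⟩
        one_mem' := ⟨0, K.zero_mem, N.u_zero.symm⟩
        inv_mem' := by
          rintro _ ⟨b, hb, rfl⟩
          exact ⟨b, hb, inv_eq_of_mul_eq_one_right (N.u_zero_sq b)⟩ }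
    refine ⟨E, ⟨⟨⟨?_⟩⟩, ?_⟩, ?_, ?_⟩
    · rintro ⟨_, b, hb, rfl⟩ ⟨_, c, hc, rfl⟩
      exact Subtype.ext (N.u_zero_comm b 0 c)
    · rintro _ ⟨b, hb, rfl⟩
      rw [sq, N.u_zero_sq]
    · rw [← hK]
      exact (Nat.card_congr (Equiv.ofBijective (fun c : K => (⟨N.u 0 c, c, c.2, rfl⟩ : E))
        ⟨fun c d e => Subtype.ext (N.u_inj (Subtype.ext_iff.1 e :)).2, by
          rintro ⟨_, b, hb, rfl⟩
          exact ⟨⟨b, hb⟩, rfl⟩⟩)).symm
    · intro x hx
      obtain ⟨⟨_, ⟨b, hb, rfl⟩, _, ⟨c, hc, rfl⟩, e⟩, h1⟩ := Subgroup.ne_bot_iff_exists_ne_one.1 hx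
      have e' : x * N.u 0 c * x⁻¹ = N.u 0 b := e
      have hb1 : N.u 0 b ≠ 1 := fun e => h1 (Subtype.ext e)
      have hc1 : N.u 0 c ≠ 1 := fun e => hb1 (by rw [← e', e]; simp)
      have hB := N.mem_B_of_conj (N.u_mem_Q 0 c) hc1 (e' ▸ N.Q_le_B (N.u_mem_Q 0 b))
      obtain ⟨a, d, s, rfl⟩ := N.mem_B.1 hB
      rw [N.conj_u_zero] at e'
      have hc0 : c ≠ 0 := fun e => hc1 (by rw [e, N.u_zero])
      have hs : (s : F) ^ 2 * N.σ s ∈ K := by
        rw [eq_div_of_mul_eq hc0 (N.u_inj e').2]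
        exact K.div_mem hb hc
      apply Subgroup.mem_normalizer_fintype
      rintro _ ⟨y, hy, rfl⟩
      exact ⟨_, K.mul_mem hs hy, N.conj_u_zero _ _ _ _⟩

end Cfsg.Agent.S2240
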