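import Cfsg.Statements.S2241
import Cfsg.Agent.H26.SzFix

set_option autoImplicit false
open Cfsg

namespace Cfsg.Agent.S2241


/-- Real 2-elements of the Suzuki group: with q = 2^(2m+1), m ≥ 1, and the group realised as the stabiliser in SL₄ of the Suzuki–Tits ovoid, a non-identity element of a Sylow 2-subgroup is conjugate to its inverse if and only if it is an involution; in particular no element of order 4 is conjugate to its inverse. -/
theorem result {F : Type*} [Field F] [Fintype F] {m : ℕ} (hm : 1 ≤ m) (hF : Fintype.card F = 2 ^ (2 * m + 1)) (P : Sylow 2 ↥(Cfsg.Sz F m)) (g : ↥(Cfsg.Sz F m)) (hg : g ∈ (P : Subgroup ↥(Cfsg.Sz F m))) (h1 : g ≠ 1) :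
    IsConj g g⁻¹ ↔ orderOf g = 2 := by
  obtain ⟨M, hM⟩ := (H26.Sz.ovoidModel hm hF).exists_model_Q P
  have := M.charP
  rw [hM] at hg
  constructor
  · intro h
    obtain ⟨k, hk⟩ := isConj_iff.1 h
    have hkB : k ∈ M.B := M.mem_B_of_conj hg h1 (hk ▸ M.Q_le_B (M.Q.inv_mem hg))
    obtain ⟨c, d, s, rfl⟩ := M.mem_B.1 hkB
    obtain ⟨a, b, rfl⟩ := hg
    have e : M.u c d * (M.h s * M.u a b * (M.h s)⁻¹) = (M.u a b)⁻¹ * M.u c d := by
      rw [← hk]; group
    rw [M.h_conj_u, M.u_inv, M.u_mul, M.u_mul] at e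
    obtain ⟨e1, e2⟩ := M.u_inj e
    have ha : a = 0 := by
      by_contra ha
      have hs : (s : F) = 1 := by
        apply M.σ.injective
        have : (M.σ s - 1) * a = 0 := by linear_combination e1
        rw [map_one]
        exact sub_eq_zero.1 ((mul_eq_zero.1 this).resolve_right ha)
      rw [hs] at e2
      simp only [map_one] at e2
      have hσa := M.σ_ne_zero ha
      -- `σ c * a + σ a * c = σ a * a`; with `c = a t` this reads `σ t + t = 1`
      obtain ⟨t, rfl⟩ : ∃ t, c = a * t := ⟨c / a, by field_simp⟩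
      have e3 : M.σ t = t + 1 := by
        rw [map_mul] at e2
        have : M.σ a * a * (M.σ t - (t + 1)) = 0 := by grind
        exact sub_eq_zero.1 ((mul_eq_zero.1 this).resolve_left (mul_ne_zero hσa ha))
      have e4 := M.hσ t
      rw [e3, map_add, e3, map_one] at e4
      have e5 : t * (t - 1) = 0 := by grind
      rcases mul_eq_zero.1 e5 with h | h
      · rw [h] at e3; simp at e3
      · rw [sub_eq_zero.1 h] at e3
        simp at e3
    subst ha
    exact orderOf_eq_prime (by rw [sq, M.u_zero_sq]) h1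
  · intro h
    have : g * g = 1 := by rw [← sq, ← h, pow_orderOf_eq_one]
    rw [inv_eq_of_mul_eq_one_right this]

end Cfsg.Agent.S2241
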