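import Cfsg.Statements.S2244
import Cfsg.Agent.Lead.WC2
import Cfsg.Agent.H24.DataB2
import Cfsg.Agent.H24.DataD4
import Cfsg.Agent.H24.DataE6
import Cfsg.Agent.H24.DataE7
import Cfsg.Agent.H24.DataE8
import Cfsg.Agent.H24.DataF4
import Cfsg.Agent.H24.DataG2

set_option autoImplicit false
open Cfsg

namespace Cfsg.Agent.S2244

/-- Weakly closed unipotent subgroups of Chevalley groups: let G be the Chevalley group of type G₂, B₂, D₄, F₄, E₆, E₇ or E₈ over a finite field F (the matrix group generated by the root elements), with |F| ≠ 2, and |F| ≠ 3 as well for the types G₂, B₂, D₄, F₄. Let U be the subgroup generated by the positive root subgroups. If X ≤ U is weakly closed in U with respect to G (every G-conjugate of X lying in U equals X), then X is the unipotent radical U_J of a standard parabolic subgroup for some set J of fundamental roots. -/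
theorem result {F : Type*} [Field F] [Fintype F] (D : Cfsg.Lie.ChevalleyDatum) (hD : D ∈ [Cfsg.Lie.chevG2, Cfsg.Lie.chevB2, Cfsg.Lie.chevD4, Cfsg.Lie.chevF4, Cfsg.Lie.chevE6, Cfsg.Lie.chevE7, Cfsg.Lie.chevE8])
    (h2 : Fintype.card F ≠ 2) (h3 : D ∈ [Cfsg.Lie.chevG2, Cfsg.Lie.chevB2, Cfsg.Lie.chevD4, Cfsg.Lie.chevF4] → Fintype.card F ≠ 3)
    (X : Subgroup (GL D.Idx F)) (hXU : X ≤ D.posUnipotent F)
    (hwc : ∀ g ∈ D.group F, X.map (MulAut.conj g).toMonoidHom ≤ D.posUnipotent F → X.map (MulAut.conj g).toMonoidHom = X) :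
    ∃ J : Set ℕ, (∀ j ∈ J, j < D.rank) ∧ X = D.unipotentRadical F J := by
  have h1 := Fintype.one_lt_card (α := F)
  simp only [List.mem_cons, List.not_mem_nil, or_false] at hD h3
  rcases hD with rfl | rfl | rfl | rfl | rfl | rfl | rfl
  · have h3 := h3 (Or.inl rfl)
    refine Lead.WC.fin' H24.tabG2_chk (by decide +kernel) hXU hwc fun hX hB i hi => ?_
    by_cases h4 : Fintype.card F = 4
    · exact Lead.WC.g2_four _ (by decide +kernel) h4 hX hB i hi
    · exact fun γ hγ δ hδ => Or.inl (Lead.WC.sep _ (d := 3) (by omega) (by decide +kernel) γ hγ δ hδ)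
  · have h3 := h3 (Or.inr (Or.inl rfl))
    exact Lead.WC.fin' H24.tabB2_chk (by decide +kernel) hXU hwc fun _ _ _ _ γ hγ δ hδ =>
      Or.inl (Lead.WC.sep _ (d := 2) (by omega) (by decide +kernel) γ hγ δ hδ)
  · have h3 := h3 (Or.inr (Or.inr (Or.inl rfl)))
    exact Lead.WC.fin' H24.tabD4_chk (by decide +kernel) hXU hwc fun _ _ _ _ γ hγ δ hδ =>
      Or.inl (Lead.WC.sep _ (d := 2) (by omega) (by decide +kernel) γ hγ δ hδ)
  · have h3 := h3 (Or.inr (Or.inr (Or.inr rfl)))
    exact Lead.WC.fin' H24.tabF4_chk (by decide +kernel) hXU hwc fun _ _ _ _ γ hγ δ hδ =>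
      Or.inl (Lead.WC.sep _ (d := 2) (by omega) (by decide +kernel) γ hγ δ hδ)
  · exact Lead.WC.fin' H24.tabE6_chk (by decide +kernel) hXU hwc fun _ _ _ _ γ hγ δ hδ =>
      Or.inl (Lead.WC.sep _ (d := 1) (by omega) (by decide +kernel) γ hγ δ hδ)
  · exact Lead.WC.fin' H24.tabE7_chk (by decide +kernel) hXU hwc fun _ _ _ _ γ hγ δ hδ =>
      Or.inl (Lead.WC.sep _ (d := 1) (by omega) (by decide +kernel) γ hγ δ hδ)
  · exact Lead.WC.fin' H24.tabE8_chk (by decide +kernel) hXU hwc fun _ _ _ _ γ hγ δ hδ =>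
      Or.inl (Lead.WC.sep _ (d := 1) (by omega) (by decide +kernel) γ hγ δ hδ)

end Cfsg.Agent.S2244
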