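import Cfsg.Statements.S2245
import Cfsg.Agent.H7.SymSyl2

set_option autoImplicit false
open Cfsg

namespace Cfsg.Agent.S2245

open Equiv Equiv.Perm H7

theorem uniq_of {G : Type*} [Group G] {R M : Subgroup G} (hM : M ≠ ⊤) (hR : R ≤ M)
    (h : ∀ K, R ≤ K → K ≠ ⊤ → K ≤ M) : ∃! M : Subgroup G, IsCoatom M ∧ R ≤ M := by
  refine ⟨M, ⟨⟨hM, fun K hK => ?_⟩, hR⟩, fun K ⟨hK, hRK⟩ => ?_⟩
  · by_contra hne
    exact hK.not_ge (h K (hR.trans hK.le) hne)
  · exact ((hK.le_iff.mp (h K hRK hK.1)).resolve_left hM).symm

theorem le_of_uniq {G : Type*} [Group G] [Finite G] {R : Subgroup G}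
    (h : ∃! M : Subgroup G, IsCoatom M ∧ R ≤ M) :
    ∃ M : Subgroup G, M ≠ ⊤ ∧ ∀ K, R ≤ K → K ≠ ⊤ → K ≤ M := by
  obtain ⟨M, hM, hu⟩ := h
  refine ⟨M, hM.1.1, fun K hRK hK => ?_⟩
  obtain ⟨N, hN, hKN⟩ := (eq_top_or_exists_le_coatom K).resolve_left hK
  rw [← hu N ⟨hN, hRK.trans hKN⟩]; exact hKN

theorem a5_top (K : Subgroup (alternatingGroup (Fin 5))) (h2 : ¬ 2 ∣ K.index)
    (h5 : 5 ∣ Nat.card K) : K = ⊤ := by
  have hc : Nat.card (alternatingGroup (Fin 5)) = 60 := by
    rw [nat_card_alternatingGroup]; simp [Nat.factorial]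
  have h60 := K.index_mul_card
  rw [hc] at h60
  obtain ⟨m, hm⟩ := h5
  have h12 : K.index * m = 12 := by rw [hm] at h60; nlinarith
  have hle : K.index ≤ 12 := Nat.le_of_dvd (by norm_num) ⟨m, h12.symm⟩
  have h : K.index = 1 ∨ K.index = 3 := by
    generalize K.index = k at h2 h12 hle
    interval_cases k <;> omega
  rcases h with h | h
  · exact Subgroup.index_eq_one.mp h
  · rcases (inferInstance : K.normalCore.Normal).eq_bot_or_eq_top with h1 | h1
    · exfalso
      rw [Subgroup.normalCore_eq_ker, MonoidHom.ker_eq_bot_iff] at h1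
      have := Nat.card_le_card_of_injective _ h1
      rw [hc, Nat.card_perm, ← Subgroup.index, h] at this
      simp [Nat.factorial] at this
    · exact eq_top_iff.mpr (h1 ▸ K.normalCore_le)

/-- For n ≥ 5 with n ≠ 6, a Sylow 2-subgroup of the alternating group A_n lies in exactly one maximal subgroup of A_n if and only if n = 2^k + 1 for some k ≥ 2; the same holds for the symmetric group S_n. -/
theorem result (n : ℕ) (hn : 5 ≤ n) (h6 : n ≠ 6) :
    ((∀ R : Sylow 2 ↥(alternatingGroup (Fin n)), (∃! M : Subgroup ↥(alternatingGroup (Fin n)), IsCoatom M ∧ (R : Subgroup ↥(alternatingGroup (Fin n))) ≤ M) ↔ ∃ k : ℕ, 2 ≤ k ∧ n = 2 ^ k + 1) ∧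
    (∀ R : Sylow 2 (Equiv.Perm (Fin n)), (∃! M : Subgroup (Equiv.Perm (Fin n)), IsCoatom M ∧ (R : Subgroup (Equiv.Perm (Fin n))) ≤ M) ↔ ∃ k : ℕ, 2 ≤ k ∧ n = 2 ^ k + 1)) := by
  haveI : Fact (Nat.Prime 2) := ⟨Nat.prime_two⟩
  have hcard : Fintype.card (Fin n) = n := Fintype.card_fin n
  have hk2 : ∀ k, n = 2 ^ k + 1 → 2 ≤ k := by
    intro k hk
    by_contra h
    have : k = 0 ∨ k = 1 := by omega
    rcases this with rfl | rfl <;> omega
  constructor
  · intro R
    obtain ⟨T, hT⟩ := exists_sylow_perm_comap R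
    constructor
    · intro h
      by_contra hcon
      obtain ⟨M, hM, hle⟩ := le_of_uniq h
      obtain ⟨P₁, P₂, a1, a2, b1, b2, hK⟩ := twoOver_of_ne T (by omega)
        (fun k hk => hcon ⟨k, hk2 k (hcard ▸ hk), hcard ▸ hk⟩)
      have key : ∀ P : Subgroup (Perm (Fin n)), (T : Subgroup (Perm (Fin n))) ≤ P →
          ¬ alternatingGroup (Fin n) ≤ P →
          P ⊓ alternatingGroup (Fin n) ≤ M.map (alternatingGroup (Fin n)).subtype := by
        intro P a b x hx
        have := hle (P.comap (alternatingGroup (Fin n)).subtype)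
          (by rw [hT]; exact Subgroup.comap_mono a)
          (fun e => b fun y hy => by
            have : (⟨y, hy⟩ : alternatingGroup (Fin n)) ∈
              P.comap (alternatingGroup (Fin n)).subtype := by rw [e]; trivial
            exact this)
        exact ⟨⟨x, hx.2⟩, this hx.1, rfl⟩
      have := hK _ (key P₁ a1 b1) (key P₂ a2 b2)
      apply hM
      rw [eq_top_iff]
      intro x _
      obtain ⟨y, hy, e⟩ := this x.2
      have : y = x := Subtype.ext e
      exact this ▸ hy
    · rintro ⟨k, hk, hnk⟩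
      obtain ⟨τ, hτ, hc⟩ := exists_tau (T : Subgroup (Perm (Fin n))) T.isPGroup'
      obtain ⟨o, ho⟩ := hτ.exists_fix (by
        rw [hcard, hnk]
        exact (Nat.even_pow.mpr ⟨even_two, by omega⟩).add_one)
      obtain ⟨hTo, htr⟩ := exists_fix_trans T hk (hcard.trans hnk) hτ hc ho
      refine uniq_of (M := (MulAction.stabilizer (Perm (Fin n)) o).comap
        (alternatingGroup (Fin n)).subtype) ?_ ?_ ?_
      · intro e
        obtain ⟨a, -, ha⟩ := hτ.exists_moved ∅ (by simp; omega)
        have hao : a ≠ o := fun h => ha (by rw [h, ho])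
        have hbo : τ a ≠ o := fun h => hao (τ.injective (h.trans ho.symm))
        have : (⟨_, swap_mul_swap_mem_alt hao ha.symm⟩ : alternatingGroup (Fin n)) ∈
          (MulAction.stabilizer (Perm (Fin n)) o).comap (alternatingGroup (Fin n)).subtype := by
          rw [e]; trivial
        have h1 : (swap a o * swap a (τ a)) o = o := this
        rw [Perm.mul_apply, swap_apply_of_ne_of_ne hao.symm hbo.symm, swap_apply_right] at h1
        exact hao h1
      · rw [hT]; exact Subgroup.comap_mono hTo
      · intro K hRK hK σ hσ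
        by_contra hσo
        have hK' : (T : Subgroup (Perm (Fin n))) ⊓ alternatingGroup (Fin n) ≤
            K.map (alternatingGroup (Fin n)).subtype := by
          intro x hx
          exact ⟨⟨x, hx.2⟩, hRK (by rw [hT]; exact hx.1), rfl⟩
        have h2t := two_trans_of (fun t ht => hTo t (Subgroup.mem_inf.mp ht).1) htr hK' ⟨σ, hσ, rfl⟩ hσo
        haveI := MulAction.isPretransitive_of_is_two_pretransitive
          (G := K.map (alternatingGroup (Fin n)).subtype) (α := Fin n)
        apply hK
        rcases Nat.lt_or_ge 2 k with hk3 | hk3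
        · have h8 : 2 ^ 3 ≤ 2 ^ k := Nat.pow_le_pow_right (by norm_num) hk3
          obtain ⟨g, hg, h3⟩ := exists_threeCycle_of_trans T (by omega) hτ hc ho hK'
          have := alternatingGroup_le_of_isPreprimitive_of_isThreeCycle_mem
            (MulAction.isPreprimitive_of_is_two_pretransitive h2t) h3 hg
          rw [eq_top_iff]
          intro x _
          obtain ⟨y, hy, e⟩ := this x.2
          have : y = x := Subtype.ext e
          exact this ▸ hy
        · obtain rfl : k = 2 := by omega
          obtain rfl : n = 5 := hnk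
          apply a5_top K
          · exact fun h => R.not_dvd_index (h.trans (Subgroup.index_dvd_of_le hRK))
          · have h1 := MulAction.index_stabilizer_of_transitive
              (K.map (alternatingGroup (Fin 5)).subtype) o
            have h2 := Subgroup.index_dvd_card
              (MulAction.stabilizer (K.map (alternatingGroup (Fin 5)).subtype) o)
            rw [h1, Subgroup.card_map_of_injective (Subgroup.subtype_injective _)] at h2
            simpa using h2
  · intro T
    obtain ⟨τ, hτ, hc⟩ := exists_tau (T : Subgroup (Perm (Fin n))) T.isPGroup'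
    obtain ⟨a, -, ha⟩ := hτ.exists_moved ∅ (by simp; omega)
    constructor
    · intro h
      by_contra hcon
      obtain ⟨M, hM, hle⟩ := le_of_uniq h
      obtain ⟨P₁, P₂, a1, a2, b1, b2, hK⟩ := twoOver_of_ne T (by omega)
        (fun k hk => hcon ⟨k, hk2 k (hcard ▸ hk), hcard ▸ hk⟩)
      have c1 := hle P₁ a1 (fun e => b1 (e ▸ le_top))
      have c2 := hle P₂ a2 (fun e => b2 (e ▸ le_top))
      have hA := hK M (inf_le_left.trans c1) (inf_le_left.trans c2)
      have hs := c1 (a1 (swap_tau_mem T hτ hc a))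
      apply hM
      rw [eq_top_iff]
      intro x _
      rcases Int.units_eq_one_or (sign x) with h1 | h1
      · exact hA (mem_alternatingGroup.mpr h1)
      · have : x * swap a (τ a) ∈ M := hA (by
          rw [mem_alternatingGroup, Perm.sign_mul, h1, sign_swap ha.symm]; simp)
        simpa using mul_mem this (inv_mem hs)
    · rintro ⟨k, hk, hnk⟩
      obtain ⟨o, ho⟩ := hτ.exists_fix (by
        rw [hcard, hnk]
        exact (Nat.even_pow.mpr ⟨even_two, by omega⟩).add_one)
      obtain ⟨hTo, htr⟩ := exists_fix_trans T hk (hcard.trans hnk) hτ hc ho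
      refine uniq_of (M := MulAction.stabilizer (Perm (Fin n)) o) ?_ hTo ?_
      · intro e
        have hao : a ≠ o := fun h => ha (by rw [h, ho])
        have : swap a o ∈ MulAction.stabilizer (Perm (Fin n)) o := by rw [e]; trivial
        have h1 : swap a o o = o := this
        rw [swap_apply_right] at h1
        exact hao h1
      · intro K hRK hK σ hσ
        by_contra hσo
        have h2t := two_trans_of (fun t ht => hTo t (Subgroup.mem_inf.mp ht).1) htr (inf_le_left.trans hRK) hσ hσo
        exact hK (subgroup_eq_top_of_isPreprimitive_of_isSwap_mem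
          (MulAction.isPreprimitive_of_is_two_pretransitive h2t) _ ⟨a, τ a, ha.symm, rfl⟩
          (hRK (swap_tau_mem T hτ hc a)))

end Cfsg.Agent.S2245
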