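import Cfsg.Statements.S2250
import Cfsg.Agent.H16.LA22
-- import your own Cfsg.Agent.* helpers here

set_option autoImplicit false
open Cfsg

namespace Cfsg.Agent.S2250

open H16 in
/-- The normal 2-rank of the symplectic group over a finite field of odd order: for n ≥ 1 and S a Sylow 2-subgroup of Sp_{2n}(F), the largest rank of an elementary abelian subgroup of S that is normal in S equals n. -/
theorem result {F : Type*} [Field F] [Fintype F] (hF : Odd (Fintype.card F)) (n : ℕ) (hn : 1 ≤ n) (S : Sylow 2 ↥(Matrix.symplecticGroup (Fin n) F)) :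
    ((∃ E : Subgroup ↥(S : Subgroup ↥(Matrix.symplecticGroup (Fin n) F)), E.Normal ∧ Cfsg.IsElementaryAbelian 2 E ∧ 2 ^ (n) ≤ Nat.card ↥E) ∧
      ∀ E : Subgroup ↥(S : Subgroup ↥(Matrix.symplecticGroup (Fin n) F)), E.Normal → Cfsg.IsElementaryAbelian 2 E → Nat.card ↥E ≤ 2 ^ (n)) := by
  obtain ⟨T⟩ : Nonempty (Sylow 2 (Equiv.Perm (Fin n))) := inferInstance
  obtain ⟨k, ⟨e⟩⟩ := sylow_sp hF S T
  have := (nrk_wr (β := Fin n) (Q := T.1) (K := Unit) (r := 0)
    (gd_of_quat (n := 2 * 2 ^ k) (by positivity) (.refl _)) (fun _ => rfl) (by simp)).of_equiv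
      (MulEquiv.prodUnique.trans e.symm)
  rwa [Nat.card_eq_fintype_card, Fintype.card_fin] at this

end Cfsg.Agent.S2250
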