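import Cfsg.Statements.S2251
import Cfsg.Agent.H26.SzSub

set_option autoImplicit false
open Cfsg

namespace Cfsg.Agent.S2251


/-- The subgroups of the Suzuki group: with q = 2^(2m+1), m ≥ 1, r = 2^m and the group realised as the stabiliser in SL₄ of the Suzuki–Tits ovoid, every proper subgroup is contained in the normalizer of a Sylow 2-subgroup, or in the normalizer of a cyclic subgroup of order q − 1, q + 2r + 1 or q − 2r + 1, or in a subgroup isomorphic to a smaller Suzuki group Sz(s) with s = 2^(2k+1) ≥ 8 and 2k+1 a proper divisor of 2m+1. -/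
theorem result {F : Type*} [Field F] [Fintype F] {m : ℕ} (hm : 1 ≤ m) (hF : Fintype.card F = 2 ^ (2 * m + 1)) (M : Subgroup ↥(Cfsg.Sz F m)) (hM : M ≠ ⊤) :
    (∃ P : Sylow 2 ↥(Cfsg.Sz F m), M ≤ Subgroup.normalizer ((P : Subgroup ↥(Cfsg.Sz F m)) : Set ↥(Cfsg.Sz F m))) ∨
    (∃ U : Subgroup ↥(Cfsg.Sz F m), IsCyclic ↥U ∧ Nat.card ↥U ∈ ({2 ^ (2 * m + 1) - 1, 2 ^ (2 * m + 1) + 2 ^ (m + 1) + 1, 2 ^ (2 * m + 1) - 2 ^ (m + 1) + 1} : Set ℕ) ∧
      M ≤ Subgroup.normalizer (U : Set ↥(Cfsg.Sz F m))) ∨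
    (∃ (K : Type) (_ : Field K) (_ : Fintype K) (k : ℕ), 1 ≤ k ∧ k < m ∧ Fintype.card K = 2 ^ (2 * k + 1) ∧ 2 * k + 1 ∣ 2 * m + 1 ∧
      ∃ S : Subgroup ↥(Cfsg.Sz F m), Nonempty (↥S ≃* ↥(Cfsg.Sz K k)) ∧ M ≤ S) := by
  classical
  let N := H26.Sz.ovoidModel hm hF
  rcases N.subgroup_cases M with ⟨U, hU, h⟩ | ⟨g, E, hE, rfl⟩
  · rcases N.isPart_iff.1 hU with ⟨P, rfl⟩ | ⟨h1, h2⟩
    · exact Or.inl ⟨P, h⟩
    · exact Or.inr (Or.inl ⟨U, h1, h2, h⟩)
  · obtain ⟨k, hk, hc, hd⟩ := N.card_subfield hE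
    have : Fintype (GaloisField 2 (2 * k + 1)) := Fintype.ofFinite _
    have hK : Fintype.card (GaloisField 2 (2 * k + 1)) = 2 ^ (2 * k + 1) := by
      rw [← Nat.card_eq_fintype_card, GaloisField.card 2 _ (by omega)]
    refine Or.inr (Or.inr ⟨GaloisField 2 (2 * k + 1), inferInstance, inferInstance, k, hk, ?_, hK, hd, _,
      (N.conj g).nonempty_sub_equiv (H26.Sz.ovoidModel hk hK) (hc.trans hK.symm), le_rfl⟩)
    have := Nat.le_of_dvd (by omega) hd
    by_contra hkm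
    obtain rfl : k = m := by omega
    apply hM
    have : E = ⊤ := by
      have : E.toAddSubgroup = ⊤ := AddSubgroup.eq_top_of_card_eq _ (by
        rw [Nat.card_eq_fintype_card (α := F), hF, ← hc]; rfl)
      rw [eq_top_iff]
      intro x _
      have h : x ∈ E.toAddSubgroup := this ▸ AddSubgroup.mem_top x
      exact h
    rw [this, H26.SzModel.sub_top]

end Cfsg.Agent.S2251
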