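import Cfsg.Statements.S2254
import Cfsg.Agent.H9.Nl2

set_option autoImplicit false
open Cfsg

namespace Cfsg.Agent.S2254

open H9.Nl Subgroup Equiv.Perm

/-- Let n ≡ 3 (mod 4). Then every nilpotent subgroup of the symmetric group on n letters has order at most 3 times the order of a Sylow 2-subgroup of the symmetric group on n − 3 letters; the bound is attained by a nilpotent subgroup isomorphic to the direct product of such a Sylow 2-subgroup with a cyclic group of order 3; and any two nilpotent subgroups attaining the bound are conjugate. -/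
theorem result  (n : ℕ) (hn : n % 4 = 3)
    (P : Sylow 2 (Equiv.Perm (Fin (n - 3)))) :
    (∀ N : Subgroup (Equiv.Perm (Fin n)), Group.IsNilpotent N → Nat.card N ≤ 3 * Nat.card P) ∧
    (∃ M : Subgroup (Equiv.Perm (Fin n)), Group.IsNilpotent M ∧ Nat.card M = 3 * Nat.card P ∧
      Nonempty (M ≃* (↥(P : Subgroup (Equiv.Perm (Fin (n - 3)))) × Multiplicative (ZMod 3)))) ∧
    (∀ N₁ N₂ : Subgroup (Equiv.Perm (Fin n)), Group.IsNilpotent N₁ → Group.IsNilpotent N₂ →
      Nat.card N₁ = 3 * Nat.card P → Nat.card N₂ = 3 * Nat.card P →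
      ∃ g : Equiv.Perm (Fin n), N₂ = N₁.map (MulAut.conj g).toMonoidHom) := by
  have h3 : 3 ≤ n := by omega
  refine ⟨fun N h => ?_, ex P.2 ((ρ h3).comp (P.1.subtype.prodMap (MonoidHom.id _)))
    ((ρ_inj h3).comp (P.1.subtype_injective.prodMap Function.injective_id)), ?_⟩
  · rw [sylS, ← F_three hn]
    exact (main n _ (Fintype.card_fin n) N h).1
  rw [sylS]
  refine conj hn (MonoidHom.id _) Function.injective_id (Nat.le_succ _)
    (fun s t a b => isConj_iff_cycleType_eq.2 (a.trans b.symm)) fun t a b => ?_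
  rw [cc (j := 0) (t := t) a, (Nat.Coprime.pow _ _ (by norm_num)).dvd_mul_right, Nat.zero_add, Nat.factorial_one, mul_one, le_v, mul_one] at b
  omega

end Cfsg.Agent.S2254
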