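import Cfsg.Statements.S2256
import Cfsg.Agent.H9.Nl2

set_option autoImplicit false
open Cfsg

namespace Cfsg.Agent.S2256

open H9.Nl Subgroup Equiv.Perm

/-- Let n ≡ 3 (mod 4) with n ≥ 7. Then every nilpotent subgroup of the alternating group on n letters has order at most 3 times the order of a Sylow 2-subgroup of the alternating group on n − 3 letters; the bound is attained by a nilpotent subgroup isomorphic to the direct product of such a Sylow 2-subgroup with a cyclic group of order 3; and any two nilpotent subgroups of the alternating group attaining the bound are conjugate in it. -/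
theorem result  (n : ℕ) (hn : n % 4 = 3) (h7 : 7 ≤ n)
    (P : Sylow 2 (alternatingGroup (Fin (n - 3)))) :
    (∀ N : Subgroup (alternatingGroup (Fin n)), Group.IsNilpotent N → Nat.card N ≤ 3 * Nat.card P) ∧
    (∃ M : Subgroup (alternatingGroup (Fin n)), Group.IsNilpotent M ∧ Nat.card M = 3 * Nat.card P ∧
      Nonempty (M ≃* (↥(P : Subgroup (alternatingGroup (Fin (n - 3)))) × Multiplicative (ZMod 3)))) ∧
    (∀ N₁ N₂ : Subgroup (alternatingGroup (Fin n)), Group.IsNilpotent N₁ → Group.IsNilpotent N₂ →
      Nat.card N₁ = 3 * Nat.card P → Nat.card N₂ = 3 * Nat.card P →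
      ∃ g : alternatingGroup (Fin n), N₂ = N₁.map (MulAut.conj g).toMonoidHom) := by
  have c := sylA (by omega) P
  have h3 : 3 ≤ n := by omega
  let f := (ρ h3).comp (((alternatingGroup _).subtype.comp P.1.subtype).prodMap (MonoidHom.id _))
  refine ⟨fun N h => (bdA N h).trans ?_, ex P.2 (f.codRestrict (alternatingGroup _) fun x =>
    mem_alternatingGroup.2 ((ρ_sign h3 _).trans x.1.1.2)) ((MonoidHom.injective_codRestrict _ _ _).2
    ((ρ_inj h3).comp (((Subgroup.subtype_injective _).comp P.1.subtype_injective).prodMap Function.injective_id))), ?_⟩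
  · have := E_eq (n := n) (by simp; omega)
    rw [F_three hn, ← c] at this
    omega
  obtain ⟨a, e⟩ := P.2.exists_card_eq
  rw [e, ← pow_succ', Nat.pow_right_inj one_lt_two] at c
  rw [e]
  refine conj hn (Subgroup.subtype _) (Subgroup.subtype_injective _) c.ge
    (fun s t => alternatingGroup.isThreeCycle_isConj (by simpa using h7.trans' (by norm_num))) fun t h b => ?_
  have u : Nat.card (centralizer {t}) = Nat.card ((alternatingGroup (Fin n)).subgroupOf (centralizer {t.1})) := by
    rw [← card_map_of_injective (Subgroup.subtype_injective _), ← card_map_of_injective (Subgroup.subtype_injective _),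
      subgroupOf_map_subtype]
    congr 2; ext x
    simp [mem_centralizer_singleton_iff, Subtype.ext_iff, and_comm]
  have := Fin.nontrivial_iff_two_le.2 (show 2 ≤ n by omega)
  have w : 2 ∣ ((alternatingGroup (Fin n)).subgroupOf (centralizer {t.1})).index := by
    refine ((Nat.dvd_prime Nat.prime_two).1 (alternatingGroup.index_eq_two (α := Fin n) ▸
      relIndex_dvd_index_of_normal _ _)).elim (fun z => ?_) fun z => Dvd.intro_left 1 z.symm
    have := (centralizer_le_alternating_iff.1 (relIndex_eq_one.1 z)).2.1
    rw [show t.1.cycleType = {3} from h] at this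
    simp at this; omega
  have z := Nat.mul_dvd_mul (u ▸ b) w
  rw [card_mul_index, cc (j := 0) (t := t.1) h, ← pow_succ, (Nat.Coprime.pow _ _ (by norm_num)).dvd_mul_right, Nat.zero_add,
    Nat.factorial_one, mul_one, le_v, mul_one] at z
  omega

end Cfsg.Agent.S2256
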