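import Cfsg.Statements.S2257
import Cfsg.Agent.H4.Sol

set_option autoImplicit false
open Cfsg

namespace Cfsg.Agent.S2257

/-- Let G = PSL_2(F) with F a field of order q = 2^p, p prime, and for x ∈ G call the solubilizer of x the set of y ∈ G such that x and y generate a solvable subgroup. Then the solubilizer of an involution has 3q(q − 1) elements; that of a non-identity element of order dividing q − 1 has 2q(q − 1) elements; and that of a non-identity element of order dividing q + 1 has 2(q + 1) elements. -/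
theorem result (p : ℕ) (hp : p.Prime) {F : Type*} [Field F] [Fintype F]
    (hF : Fintype.card F = 2 ^ p) (x : Matrix.ProjectiveSpecialLinearGroup (Fin 2) F) :
    (orderOf x = 2 → Nat.card {y : Matrix.ProjectiveSpecialLinearGroup (Fin 2) F // Group.IsSolvable ↥(Subgroup.closure ({x, y} : Set (Matrix.ProjectiveSpecialLinearGroup (Fin 2) F)))} = 3 * 2 ^ p * (2 ^ p - 1)) ∧
    (x ≠ 1 → orderOf x ∣ 2 ^ p - 1 → Nat.card {y : Matrix.ProjectiveSpecialLinearGroup (Fin 2) F // Group.IsSolvable ↥(Subgroup.closure ({x, y} : Set (Matrix.ProjectiveSpecialLinearGroup (Fin 2) F)))} = 2 * 2 ^ p * (2 ^ p - 1)) ∧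
    (x ≠ 1 → orderOf x ∣ 2 ^ p + 1 → Nat.card {y : Matrix.ProjectiveSpecialLinearGroup (Fin 2) F // Group.IsSolvable ↥(Subgroup.closure ({x, y} : Set (Matrix.ProjectiveSpecialLinearGroup (Fin 2) F)))} = 2 * (2 ^ p + 1)) := by
  have : Fact (Nat.Prime 2) := ⟨Nat.prime_two⟩
  have h2 : (2 : F) = 0 := by
    have := FiniteField.cast_card_eq_zero F
    rw [hF, Nat.cast_pow] at this
    exact_mod_cast pow_eq_zero_iff hp.ne_zero |>.1 this
  have : CharP F 2 := CharTwo.of_one_ne_zero_of_two_eq_zero one_ne_zero h2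
  have hm := H4.ms_of (p := 2) hp hF (Or.inl rfl)
  have he : Fintype.card F % 2 = 0 := by
    rw [hF]; exact Nat.mod_eq_zero_of_dvd (dvd_pow_self 2 hp.ne_zero)
  have hg := H4.gcd_eq_one he Fintype.card_pos
  have hpos := Fintype.card_pos (α := F)
  rw [H4.card_sol, ← hF]
  refine ⟨fun h => H4.sol_two h2 hm (by norm_num) ((H4.orderOf_psl x).trans h),
    fun h1 h => ?_, fun h1 h => ?_⟩
  · obtain ⟨h3, h4, -⟩ := H4.sp_or_ell_of_dvd h1 (fun h5 => by rw [h5] at h; omega)
    obtain ⟨u, a, b, h5, h6⟩ := h4 h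
    rw [h6] at h3 ⊢
    have := H4.sol_sp hm h5 h3 (by norm_num)
    rwa [hg, one_mul, ← mul_assoc] at this
  · obtain ⟨h3, -, h4⟩ := H4.sp_or_ell_of_dvd h1 (fun h5 => by rw [h5] at h; omega)
    obtain ⟨u, h5, h6⟩ := h4 h
    rw [h6] at h3 ⊢
    have := H4.sol_ell hm h5 h3 (by norm_num)
    rwa [hg, one_mul] at this

end Cfsg.Agent.S2257
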