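import Cfsg.Statements.S2258
import Cfsg.Agent.H4.Sol

set_option autoImplicit false
open Cfsg

namespace Cfsg.Agent.S2258

/-- Let G = PSL_2(F) with F a field of order q = 3^p, p an odd prime, and for x ∈ G call the solubilizer of x the set of y ∈ G such that x and y generate a solvable subgroup. Then the solubilizer of an involution has q(q + 1) elements; that of an element of order 3 has q(q + 5)/2 elements; that of an element of order neither 1 nor 2 dividing q − 1 has q(q − 1) elements; and that of an element of order neither 1 nor 2 dividing q + 1 has q + 1 elements. -/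
theorem result (p : ℕ) (hp : p.Prime) (hodd : Odd p) {F : Type*} [Field F] [Fintype F]
    (hF : Fintype.card F = 3 ^ p) (x : Matrix.ProjectiveSpecialLinearGroup (Fin 2) F) :
    (orderOf x = 2 → Nat.card {y : Matrix.ProjectiveSpecialLinearGroup (Fin 2) F // Group.IsSolvable ↥(Subgroup.closure ({x, y} : Set (Matrix.ProjectiveSpecialLinearGroup (Fin 2) F)))} = 3 ^ p * (3 ^ p + 1)) ∧
    (orderOf x = 3 → 2 * Nat.card {y : Matrix.ProjectiveSpecialLinearGroup (Fin 2) F // Group.IsSolvable ↥(Subgroup.closure ({x, y} : Set (Matrix.ProjectiveSpecialLinearGroup (Fin 2) F)))} = 3 ^ p * (3 ^ p + 5)) ∧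
    (x ≠ 1 → orderOf x ≠ 2 → orderOf x ∣ 3 ^ p - 1 → Nat.card {y : Matrix.ProjectiveSpecialLinearGroup (Fin 2) F // Group.IsSolvable ↥(Subgroup.closure ({x, y} : Set (Matrix.ProjectiveSpecialLinearGroup (Fin 2) F)))} = 3 ^ p * (3 ^ p - 1)) ∧
    (x ≠ 1 → orderOf x ≠ 2 → orderOf x ∣ 3 ^ p + 1 → Nat.card {y : Matrix.ProjectiveSpecialLinearGroup (Fin 2) F // Group.IsSolvable ↥(Subgroup.closure ({x, y} : Set (Matrix.ProjectiveSpecialLinearGroup (Fin 2) F)))} = 3 ^ p + 1) := by
  have : Fact (Nat.Prime 3) := ⟨Nat.prime_three⟩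
  have h3 : (3 : F) = 0 := by
    have := FiniteField.cast_card_eq_zero F
    rw [hF, Nat.cast_pow] at this
    exact_mod_cast pow_eq_zero_iff hp.ne_zero |>.1 this
  have : CharP F 3 := (CharP.charP_iff_prime_eq_zero Nat.prime_three).2 (by exact_mod_cast h3)
  have hm := H4.ms_of (p := 3) hp hF (Or.inr ⟨rfl, hodd⟩)
  have he : Fintype.card F % 4 = 3 := by
    obtain ⟨k, rfl⟩ := hodd
    rw [hF, pow_succ, pow_mul, Nat.mul_mod, Nat.pow_mod]; norm_num
  have hg := H4.gcd_eq_two (q := Fintype.card F) (by omega)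
  have hd : 3 ∣ Fintype.card F := hF ▸ dvd_pow_self 3 hp.ne_zero
  have k : x ≠ 1 → orderOf x ≠ 3 → H4.psl2pgl x ^ 3 ≠ 1 := fun h1 h4 h5 =>
    h4 (orderOf_eq_prime (H4.psl2pgl_injective (by rw [map_pow, h5, map_one])) h1)
  rw [H4.card_sol, ← hF]
  refine ⟨fun h => H4.sol_inv3 hm he ⟨x, rfl⟩ ((H4.orderOf_psl x).trans h),
    fun h => H4.sol_three hm ((H4.orderOf_psl x).trans h), fun h1 h2 h => ?_, fun h1 h2 h => ?_⟩
  · obtain ⟨h3, h4, -⟩ := H4.sp_or_ell_of_dvd h1 h2
    obtain ⟨u, a, b, h5, h6⟩ := h4 h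
    have h7 := k h1 fun h5 => by rw [h5] at h; omega
    rw [h6] at h3 h7 ⊢
    have := H4.sol_sp hm h5 h3 fun _ => h7
    rw [hg] at this; omega
  · obtain ⟨h3, -, h4⟩ := H4.sp_or_ell_of_dvd h1 h2
    obtain ⟨u, h5, h6⟩ := h4 h
    have h7 := k h1 fun h5 => by rw [h5] at h; omega
    rw [h6] at h3 h7 ⊢
    have := H4.sol_ell hm h5 h3 fun _ => h7
    rw [hg] at this; omega

end Cfsg.Agent.S2258
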