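import Cfsg.Statements.S2259
import Cfsg.Agent.H26.SzSol

set_option autoImplicit false
open Cfsg

namespace Cfsg.Agent.S2259


/-- Let G be the Suzuki group Sz(q), q = 2^(2m+1) with 2m + 1 prime and m ≥ 1, realised inside Sp_4(F) for F the field of order q, write r = 2^(m+1) (so r² = 2q), and for x ∈ G call the solubilizer of x the set of y ∈ G such that x and y generate a solvable subgroup. Then the solubilizer of an involution has q²(4q − 3) elements; that of an element of order 4 has q²(q + 3) elements; that of a non-identity element of order dividing q − 1 has 2q²(q − 1) elements; that of a non-identity element of order dividing q + r + 1 has 4(q + r + 1) elements; and that of a non-identity element of order dividing q − r + 1 has 4(q − r + 1) elements. -/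
theorem result {F : Type*} [Field F] [Fintype F] {m : ℕ} (hm : 1 ≤ m)
    (hp : (2 * m + 1).Prime) (hF : Fintype.card F = 2 ^ (2 * m + 1)) (x : ↥(Cfsg.Lie.Sz F (2 ^ (m + 1)))) :
    (orderOf x = 2 → Nat.card {y : ↥(Cfsg.Lie.Sz F (2 ^ (m + 1))) // Group.IsSolvable ↥(Subgroup.closure ({x, y} : Set (↥(Cfsg.Lie.Sz F (2 ^ (m + 1))))))} = (2 ^ (2 * m + 1)) ^ 2 * (4 * 2 ^ (2 * m + 1) - 3)) ∧
    (orderOf x = 4 → Nat.card {y : ↥(Cfsg.Lie.Sz F (2 ^ (m + 1))) // Group.IsSolvable ↥(Subgroup.closure ({x, y} : Set (↥(Cfsg.Lie.Sz F (2 ^ (m + 1))))))} = (2 ^ (2 * m + 1)) ^ 2 * (2 ^ (2 * m + 1) + 3)) ∧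
    (x ≠ 1 → orderOf x ∣ 2 ^ (2 * m + 1) - 1 →
      Nat.card {y : ↥(Cfsg.Lie.Sz F (2 ^ (m + 1))) // Group.IsSolvable ↥(Subgroup.closure ({x, y} : Set (↥(Cfsg.Lie.Sz F (2 ^ (m + 1))))))} = 2 * (2 ^ (2 * m + 1)) ^ 2 * (2 ^ (2 * m + 1) - 1)) ∧
    (x ≠ 1 → orderOf x ∣ 2 ^ (2 * m + 1) + 2 ^ (m + 1) + 1 → Nat.card {y : ↥(Cfsg.Lie.Sz F (2 ^ (m + 1))) // Group.IsSolvable ↥(Subgroup.closure ({x, y} : Set (↥(Cfsg.Lie.Sz F (2 ^ (m + 1))))))} = 4 * (2 ^ (2 * m + 1) + 2 ^ (m + 1) + 1)) ∧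
    (x ≠ 1 → orderOf x ∣ 2 ^ (2 * m + 1) - 2 ^ (m + 1) + 1 → Nat.card {y : ↥(Cfsg.Lie.Sz F (2 ^ (m + 1))) // Group.IsSolvable ↥(Subgroup.closure ({x, y} : Set (↥(Cfsg.Lie.Sz F (2 ^ (m + 1))))))} = 4 * (2 ^ (2 * m + 1) - 2 ^ (m + 1) + 1)) := by
  let N := H26.Sz.lieModel hm hF
  have := N.finite
  have e : Nat.card {y : ↥(Cfsg.Lie.Sz F (2 ^ (m + 1))) // Group.IsSolvable
      ↥(Subgroup.closure ({x, y} : Set (↥(Cfsg.Lie.Sz F (2 ^ (m + 1))))))} = (N.Sol x).ncard := by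
    rw [← Nat.card_coe_set_eq]
    exact Nat.card_congr (Equiv.subtypeEquivRight fun y => N.mem_Sol.symm)
  rw [e]
  have hfpf : x ≠ 1 → ∀ k, k ∣ Fintype.card F ^ 2 + 1 → orderOf x ∣ k → N.Fpf x ∧
      (N.Sol x).ncard = 4 * Nat.card (Subgroup.centralizer {x}) := fun h1 k hk h => by
    have := N.fpf_of_orderOf_dvd h1 (h.trans hk)
    exact ⟨this, by rw [N.Sol_fpf this]; exact this.card_normalizer⟩
  have hx : orderOf x ∣ Nat.card (Subgroup.centralizer {x}) :=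
    Subgroup.orderOf_dvd_natCard _ (H26.SzModel.self_mem_cent x)
  refine ⟨fun h => ?_, fun h => ?_, fun h1 h => ?_, fun h1 h => ?_, fun h1 h => ?_⟩
  · obtain ⟨k, b, hb⟩ := N.exists_mem_conj_Q_of_sq (H6.ord2_mul_self h)
    obtain ⟨a, rfl⟩ := (N.conj k).σ_mul_surj b
    have ha : a ≠ 0 := by
      rintro rfl
      exact H6.ord2_ne_one h (by simpa [H26.SzModel.u_zero] using hb)
    rw [← N.conj_Sol k, hb, ((N.conj k).card_Sol_two_four ha 0).1, hF]
  · obtain ⟨k, hk⟩ := N.exists_le_conj_Q (P := Subgroup.zpowers x)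
      (IsPGroup.of_card (n := 2) (by rw [Nat.card_zpowers, h]; rfl))
    obtain ⟨a, b, hb⟩ := hk (Subgroup.mem_zpowers x)
    have ha : a ≠ 0 := by
      rintro rfl
      have := orderOf_dvd_of_pow_eq_one (show x ^ 2 = 1 by rw [hb, sq, H26.SzModel.u_zero_sq])
      rw [h] at this
      exact absurd this (by decide)
    rw [← N.conj_Sol k, hb, ((N.conj k).card_Sol_two_four ha b).2, hF]
  · rw [← hF] at h ⊢
    rcases N.cent_cases h1 (N.odd_card_sub_one.of_dvd_nat h) with hf | ⟨k, hk, -⟩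
    · exact absurd (orderOf_eq_one_iff.1 (Nat.eq_one_of_dvd_coprimes N.coprime_card_B hf.orderOf_dvd
        (h.mul_left _))) h1
    · rw [← N.conj_Sol k, (N.conj k).card_Sol_H hk h1]
  · obtain ⟨hf, h2⟩ := hfpf h1 _ ⟨_, by rw [hF, H26.np_mul_nm]⟩ h
    rcases hf.card_eq.1 with h3 | h3
    · rw [h2, h3]
    · exact absurd (orderOf_eq_one_iff.1 (Nat.eq_one_of_dvd_coprimes (H26.coprime_np_nm m) h (h3 ▸ hx))) h1
  · obtain ⟨hf, h2⟩ := hfpf h1 _ (Dvd.intro_left _ (by rw [hF, H26.np_mul_nm])) h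
    rcases hf.card_eq.1 with h3 | h3
    · exact absurd (orderOf_eq_one_iff.1 (Nat.eq_one_of_dvd_coprimes (H26.coprime_np_nm m) (h3 ▸ hx) h)) h1
    · rw [h2, h3]

end Cfsg.Agent.S2259
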