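import Mathlib
import Cfsg.Statements.S2268
import Cfsg.Agent.H16.Hall

set_option autoImplicit false
open Cfsg

namespace Cfsg.Agent.S2268

open Subgroup H16

theorem result {G : Type*} [Group G] [Finite G] {p : ℕ} [Fact p.Prime]
    (P : Sylow p G) (hP : IsMulCommutative (P : Subgroup G)) (Q : Subgroup G) (hQ : Q ≤ (P : Subgroup G)) :
    Subgroup.normalizer (Q : Set G) =
      (Subgroup.normalizer (Q : Set G) ⊓ Subgroup.normalizer ((P : Subgroup G) : Set G)) ⊔ Subgroup.centralizer (Q : Set G) ∧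
    ((Subgroup.centralizer (Q : Set G)).subgroupOf (Subgroup.normalizer (Q : Set G))).index ∣ ((Subgroup.centralizer ((P : Subgroup G) : Set G)).subgroupOf (Subgroup.normalizer ((P : Subgroup G) : Set G))).index := by
  have h1 : (P : Subgroup G) ≤ C[Q] := comm_cent hP le_rfl hQ
  have h2 := sy_frattini_sup (hl_of_le (sy_top_of_sylow P) h1 le_top) (cent_le_norm Q)
    (norm_cent le_rfl)
  refine ⟨by rw [sup_comm, h2], ?_⟩
  change C[Q].relIndex N[Q] ∣ C[(P : Subgroup G)].relIndex N[(P : Subgroup G)]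
  conv_lhs => rw [← h2, relIndex_sup_l (inf_le_left.trans (norm_cent le_rfl))]
  exact (relIndex_dvd_of_le_left _ (cent_anti hQ)).trans
    (relIndex_dvd_of_norm inf_le_right (norm_cent le_rfl))

end Cfsg.Agent.S2268
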