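import Cfsg.Statements.S2269
import Cfsg.Agent.H1.AutP

set_option autoImplicit false
open Cfsg

namespace Cfsg.Agent.S2269

open Subgroup Equiv

theorem comm_of_pgroup {G : Type*} [Group G] [Finite G] {p : ℕ} [Fact p.Prime] (P : Sylow p G)
    (hP : IsMulCommutative (P : Subgroup G)) {Q : Subgroup G} (hQ : IsPGroup p Q) {a b : G}
    (ha : a ∈ Q) (hb : b ∈ Q) : a * b = b * a := by
  obtain ⟨R, hR⟩ := hQ.exists_le_sylow
  let e := Sylow.equiv R P
  exact congrArg Subtype.val (e.injective (by
    rw [map_mul, map_mul]; exact hP.is_comm.comm _ _) : (⟨a, hR ha⟩ * ⟨b, hR hb⟩ : R) = ⟨b, hR hb⟩ * ⟨a, hR ha⟩)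

theorem not_six {n : ℕ} (hn : 6 ≤ n) (P : Sylow 2 (alternatingGroup (Fin n)))
    (hP : IsMulCommutative (P : Subgroup (alternatingGroup (Fin n)))) : False := by
  classical
  let φ := Perm.extendDomainHom (Fin.castLEEmb hn).toEquivRange
  let ψ : alternatingGroup (Fin 6) →* alternatingGroup (Fin n) :=
    (φ.comp (alternatingGroup (Fin 6)).subtype).codRestrict _ fun x =>
      (Perm.sign_extendDomain _ _).trans x.2
  have hψ : Function.Injective ψ := fun a b h =>
    Subtype.ext (Perm.extendDomainHom_injective _ (congrArg Subtype.val h))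
  let a : alternatingGroup (Fin 6) :=
    ⟨swap 0 1 * swap 1 2 * swap 2 3 * swap 4 5, Perm.mem_alternatingGroup.2 (by decide)⟩
  let b : alternatingGroup (Fin 6) := ⟨swap 0 2 * swap 4 5, Perm.mem_alternatingGroup.2 (by decide)⟩
  have ha : a ^ 2 ^ 2 = 1 := by decide
  have hb : b ^ 2 ^ 1 = 1 := by decide
  have hab : b * a * b⁻¹ = a⁻¹ := by decide
  have hne : a * b ≠ b * a := by decide
  have z : ∀ (x : alternatingGroup (Fin 6)) (k : ℕ), x ^ 2 ^ k = 1 → IsPGroup 2 (zpowers x) :=
    fun x k h => by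
      obtain ⟨j, -, hj⟩ := (Nat.dvd_prime_pow Nat.prime_two).1 (orderOf_dvd_of_pow_eq_one h)
      exact IsPGroup.of_card ((Nat.card_zpowers x).trans hj)
  have hQ : IsPGroup 2 (zpowers b ⊔ zpowers a : Subgroup _) := by
    refine IsPGroup.to_sup_of_normal_right' (z b 1 hb) (z a 2 ha) (zpowers_le.2 ?_)
    refine mem_normalizer_fintype ?_
    rintro _ ⟨k, rfl⟩
    rw [← conj_zpow, hab]
    exact zpow_mem (inv_mem (mem_zpowers a)) k
  apply hne
  apply hψ
  rw [map_mul, map_mul]
  exact comm_of_pgroup P hP (hQ.map ψ) (mem_map_of_mem ψ (mem_sup_right (mem_zpowers a)))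
    (mem_map_of_mem ψ (mem_sup_left (mem_zpowers b)))

theorem even_of_real {G : Type*} [Group G] [Finite G] {p : ℕ} [Fact p.Prime] (P : Sylow p G)
    (hP : IsMulCommutative (P : Subgroup G)) {c : G} (hc : orderOf c = p) (hp : p ≠ 2)
    (h : IsConj c c⁻¹) :
    2 ∣ ((centralizer ((P : Subgroup G) : Set G)).subgroupOf
      (normalizer ((P : Subgroup G) : Set G))).index := by
  have hz : IsPGroup p (zpowers c) := IsPGroup.of_card (n := 1) (by rw [Nat.card_zpowers, hc, pow_one])
  obtain ⟨R, hR⟩ := hz.exists_le_sylow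
  obtain ⟨u, rfl⟩ := MulAction.exists_smul_eq G P R
  obtain ⟨x, hx, hxc⟩ := hR (mem_zpowers c)
  have hxc' : u * x * u⁻¹ = c := hxc
  obtain ⟨g, hg⟩ := isConj_iff.1 h
  have h1 : (u⁻¹ * g⁻¹ * u)⁻¹ * x * (u⁻¹ * g⁻¹ * u) = x⁻¹ := by
    have : x = u⁻¹ * c * u := by rw [← hxc']; group
    rw [this]
    calc _ = u⁻¹ * (g * c * g⁻¹) * u := by group
      _ = _ := by rw [hg]; group
  obtain ⟨m, hm, h2⟩ := P.conj_eq_normalizer_conj_of_mem x _ hx (by rw [h1]; exact inv_mem hx)
  rw [h1] at h2
  by_contra hodd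
  set k := ((centralizer ((P : Subgroup G) : Set G)).subgroupOf
      (normalizer ((P : Subgroup G) : Set G))).index
  have h3 : (⟨m, hm⟩ : normalizer ((P : Subgroup G) : Set G)) ^ k ∈
      (centralizer ((P : Subgroup G) : Set G)).subgroupOf _ := by
    rw [← normalizerMonoidHom_ker]
    haveI := (P : Subgroup G).normalizerMonoidHom.normal_ker
    have := pow_index_mem (H := (P : Subgroup G).normalizerMonoidHom.ker) ⟨m, hm⟩
    rwa [normalizerMonoidHom_ker] at this ⊢
  have h4 : x * m ^ k = m ^ k * x := h3 x hx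
  obtain ⟨j, hj⟩ : Odd k := Nat.odd_iff.2 (by omega)
  have h5 : Commute x (m ^ 2) := by
    have e1 : x * m = m * x⁻¹ := by rw [h2]; group
    have e2 : x⁻¹ * m = m * x := by
      have : x = m⁻¹ * x⁻¹ * m := by rw [← inv_inv x, h2]; rw [← h2]; nth_rw 1 [h2]; group
      nth_rw 2 [this]; group
    change x * m ^ 2 = m ^ 2 * x
    rw [sq, ← mul_assoc, e1, mul_assoc, e2, mul_assoc]
  have h6 : x * m = m * x := by
    rw [hj, pow_succ, pow_mul, ← mul_assoc, (h5.pow_right j).eq, mul_assoc, mul_assoc] at h4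
    exact mul_left_cancel h4
  have h7 : x ^ 2 = 1 := by
    rw [mul_assoc, h6, inv_mul_cancel_left] at h2
    rw [sq]; nth_rw 1 [← h2]; exact inv_mul_cancel x
  have h8 : c ^ 2 = 1 := by rw [← hxc', conj_pow, h7]; group
  have := orderOf_dvd_of_pow_eq_one h8
  rw [hc] at this
  exact hp ((Nat.prime_dvd_prime_iff_eq Fact.out Nat.prime_two).1 this)

/-- Let n ≥ 5 and let P be an abelian Sylow p-subgroup of the alternating group A_n. Then N(P)/C(P) (taken in A_n) has even order, or P is cyclic, except when n = 5 and p = 2, where P is a four-group and N(P)/C(P) has order 3. -/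
theorem result (n : ℕ) (hn : 5 ≤ n) {p : ℕ} [Fact p.Prime]
    (P : Sylow p (alternatingGroup (Fin n))) (hP : IsMulCommutative (P : Subgroup (alternatingGroup (Fin n)))) :
    (¬ (n = 5 ∧ p = 2) → 2 ∣ ((Subgroup.centralizer ((P : Subgroup (alternatingGroup (Fin n))) : Set (alternatingGroup (Fin n)))).subgroupOf (Subgroup.normalizer ((P : Subgroup (alternatingGroup (Fin n))) : Set (alternatingGroup (Fin n))))).index ∨ IsCyclic (P : Subgroup (alternatingGroup (Fin n)))) ∧
    ((n = 5 ∧ p = 2) → ((Subgroup.centralizer ((P : Subgroup (alternatingGroup (Fin n))) : Set (alternatingGroup (Fin n)))).subgroupOf (Subgroup.normalizer ((P : Subgroup (alternatingGroup (Fin n))) : Set (alternatingGroup (Fin n))))).index = 3 ∧ IsKleinFour (P : Subgroup (alternatingGroup (Fin n)))) := by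
  refine ⟨fun h => ?_, ?_⟩
  · have hp : p.Prime := Fact.out
    by_cases h2 : p = 2
    · subst h2
      exact (not_six (by omega) P hP).elim
    have h3 : 3 ≤ p := by have := hp.two_le; omega
    by_cases hn2 : p + 2 ≤ n
    · left
      obtain ⟨c, hc⟩ := (Perm.exists_with_cycleType_iff (Fin n) (m := {p})).2
        ⟨by simp; omega, by simp; omega⟩
      have hs : Perm.sign c = 1 := by
        rw [Perm.sign_of_cycleType, hc]
        simpa using (hp.odd_of_ne_two h2).add_one.neg_one_pow
      refine even_of_real P hP (c := ⟨c, hs⟩) ?_ h2 (alternatingGroup.isConj_of ?_ ?_)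
      · rw [← orderOf_coe, ← Perm.lcm_cycleType, hc]; simp
      · exact Perm.isConj_of_cycleType_eq (Perm.cycleType_inv c).symm
      · change c.support.card + 2 ≤ _
        rw [← Perm.sum_cycleType, hc]; simpa using hn2
    · right
      obtain ⟨k, hk⟩ := P.2.exists_card_eq
      refine isCyclic_of_card_dvd_prime (p := p) ?_
      have h4 : Nat.card P ∣ (p + 1).factorial := by
        refine (card_subgroup_dvd_card _).trans ((card_subgroup_dvd_card _).trans ?_)
        rw [Nat.card_perm, Nat.card_fin]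
        exact Nat.factorial_dvd_factorial (by omega)
      rw [hk] at h4 ⊢
      by_cases hk1 : k ≤ 1
      · exact (pow_dvd_pow p hk1).trans (pow_one p).dvd
      · exfalso
        obtain ⟨q, rfl⟩ : ∃ q, p = q + 1 := ⟨p - 1, by omega⟩
        have h5 := (pow_dvd_pow (q + 1) (show 2 ≤ k by omega)).trans h4
        rw [Nat.factorial_succ, Nat.factorial_succ, mul_left_comm, sq] at h5
        rcases hp.dvd_mul.1 (Nat.dvd_of_mul_dvd_mul_left hp.pos h5) with h6 | h6
        · have := (Nat.dvd_add_right dvd_rfl).1 h6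
          exact hp.one_lt.ne' (Nat.dvd_one.1 this)
        · have := hp.dvd_factorial.1 h6; omega
  · rintro ⟨rfl, rfl⟩
    have h60 : Nat.card (alternatingGroup (Fin 5)) = 60 := by
      have := two_mul_nat_card_alternatingGroup (α := Fin 5)
      rw [Nat.card_perm, Nat.card_fin] at this
      simp only [Nat.factorial] at this
      omega
    have h4 : Nat.card P = 2 ^ 2 := by
      rw [P.card_eq_multiplicity, h60, (Nat.factorization_eq_of_coprime_left (a := 4) (b := 15) (p := 2)
        (by norm_num) (by simp))]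
      rw [show 4 = 2 ^ 2 from rfl, Nat.Prime.factorization_pow Nat.prime_two]; simp
    have he : ∀ x : P, x ^ 2 = 1 := fun x => by
      have : ∀ g : Perm (Fin 5), Perm.sign g = 1 → g ^ 4 = 1 → g ^ 2 = 1 := by decide +kernel
      refine Subtype.ext (Subtype.ext (this _ x.1.2 ?_))
      exact congrArg (fun y : P => ((y : alternatingGroup (Fin 5)) : Perm (Fin 5)))
        (show x ^ 4 = 1 by rw [show 4 = Nat.card P from h4.symm]; exact pow_card_eq_one')
    haveI : Nontrivial P := Finite.one_lt_card_iff_nontrivial.1 (by omega)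
    refine ⟨?_, ⟨h4, (Monoid.exponent_eq_prime_iff Nat.prime_two).2 fun x hx =>
      orderOf_eq_prime (he x) hx⟩⟩
    have h5 := H1.card_mulAut_elab_dvd (p := 2) (r := 2) hP he h4
    have h6 := (card_dvd_of_injective _ (QuotientGroup.kerLift_injective
      (P : Subgroup (alternatingGroup (Fin 5))).normalizerMonoidHom)).trans h5
    rw [normalizerMonoidHom_ker, ← index] at h6
    have hle := le_centralizer_iff_isMulCommutative.2 hP
    have h7 := mt (fun h => Dvd.dvd.trans h ((relIndex_dvd_of_le_left _ hle).trans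
      (relIndex_dvd_index_of_le le_normalizer))) P.not_dvd_index
    have h8 : ¬ normalizer (P : Set (alternatingGroup (Fin 5))) ≤
        centralizer (P : Set (alternatingGroup (Fin 5))) := fun hN => by
      have hc := (MonoidHom.ker_transferSylow_isComplement' P hN).card_mul
      rw [h4, h60] at hc
      rcases (MonoidHom.normal_ker (MonoidHom.transferSylow P hN)).eq_bot_or_eq_top with h | h
      · rw [h, card_bot] at hc; omega
      · rw [h, card_top, h60] at hc; omega
    have h9 := mt relIndex_eq_one.1 h8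
    rw [relIndex] at h7 h9
    have h10 := Nat.le_of_dvd (by decide) h6
    rw [show ∏ i ∈ Finset.range 2, (2 ^ 2 - 2 ^ i) = 6 by decide] at h6 h10
    replace h9 : ¬ ((centralizer ((P : Subgroup (alternatingGroup (Fin 5))) :
      Set (alternatingGroup (Fin 5)))).subgroupOf (normalizer ((P : Subgroup (alternatingGroup (Fin 5))) :
      Set (alternatingGroup (Fin 5))))).index = 1 := h9
    have fin : ∀ k : ℕ, k ∣ 6 → k ≤ 6 → ¬ 2 ∣ k → ¬ k = 1 → k = 3 := fun k _ _ _ _ => by
      interval_cases k <;> omega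
    exact fin _ h6 h10 h7 h9

end Cfsg.Agent.S2269
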