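import Mathlib
import Cfsg.Statements.S2270
import Cfsg.Agent.S2268
import Cfsg.Agent.H4.GD2

set_option autoImplicit false
open Cfsg

namespace Cfsg.Agent.S2270

open Subgroup H16 H16.GD

theorem result (n : ℕ) (hn : 3 ≤ n) {p : ℕ} [Fact p.Prime] (hp : p ≠ 2) (hpn : p ≤ n)
    (P : Sylow p (Equiv.Perm (Fin n))) (hP : IsMulCommutative (P : Subgroup (Equiv.Perm (Fin n)))) :
    2 ∣ ((Subgroup.centralizer ((P : Subgroup (Equiv.Perm (Fin n))) : Set (Equiv.Perm (Fin n)))).subgroupOf (Subgroup.normalizer ((P : Subgroup (Equiv.Perm (Fin n))) : Set (Equiv.Perm (Fin n))))).index := by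
  have hp' : p.Prime := Fact.out
  obtain ⟨x, hx, e⟩ := exists_orderOf hp' (dvd_hl (sy_top_of_sylow P) hp' rfl (by
    rw [card_top, Nat.card_perm, Nat.card_fin]
    exact hp'.dvd_factorial.2 hpn))
  refine Dvd.dvd.trans ?_ (Cfsg.Agent.S2268.result P hP (zpowers x) (zpowers_le.2 hx)).2
  obtain ⟨g, hg⟩ := isConj_iff.1 (Equiv.Perm.isConj_iff_cycleType_eq.2 (Equiv.Perm.cycleType_inv x).symm)
  change 2 ∣ C[zpowers x].relIndex N[zpowers x]
  by_contra h
  have h1 : g ∈ N[zpowers x] := mem_norm_of_cj_le (by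
    rw [← zpowers_cj, hg]; exact zpowers_le.2 (inv_mem (mem_zpowers x)))
  have h2 := mem_of_odd_pow (Nat.odd_iff.2 (Nat.two_dvd_ne_zero.1 h))
    (pow_idx (norm_cent le_rfl) h1) (by
      rw [cent_zpowers, mem_cent1, ← mul_inv_eq_iff_eq_mul]
      calc _ = g * (g * x * g⁻¹) * g⁻¹ := by group
        _ = _ := by rw [hg, ← conj_inv, hg, inv_inv])
  rw [cent_zpowers, mem_cent1] at h2
  rw [h2, mul_inv_cancel_right] at hg
  have := eq_one_of_sq (e ▸ hp'.odd_of_ne_two hp) (mul_eq_one_iff_eq_inv.2 hg)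
  rw [this, orderOf_one] at e
  exact hp'.one_lt.ne e

end Cfsg.Agent.S2270
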