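import Cfsg.Statements.S2287
import Cfsg.Agent.H7.FPSL3b

set_option autoImplicit false
open Cfsg

namespace Cfsg.Agent.S2287



/-- For every finite field F other than the field with 9 elements, SL_3(F) has a presentation with 4 generators and at most 14 relations. -/
theorem result {F : Type*} [Field F] [Fintype F] (hq9 : Fintype.card F ≠ 9) : ∃ rels : Finset (FreeGroup (Fin 4)), rels.card ≤ 14 ∧ Nonempty (PresentedGroup (↑rels : Set (FreeGroup (Fin 4))) ≃* Matrix.SpecialLinearGroup (Fin 3) F) := by
  exact H7.pg_sl3.nonempty

end Cfsg.Agent.S2287
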