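import Cfsg.Statements.S2289
import Cfsg.Agent.H7.UP3

set_option autoImplicit false
open Cfsg

namespace Cfsg.Agent.S2289



/-- Let F be a field with q² elements, q ∉ {2, 3, 5}, and SU_3(q), PSU_3(q) the special unitary group of the standard Hermitian form and its central quotient. Then SU_3(q) has a presentation with 3 generators and at most 23 relations, and PSU_3(q) one with 3 generators and at most 24 relations. -/
theorem result {F : Type*} [Field F] [Fintype F] (q : ℕ) (hF : Fintype.card F = q ^ 2) (h2 : q ≠ 2) (h3 : q ≠ 3) (h5 : q ≠ 5) :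
    (∃ rels : Finset (FreeGroup (Fin 3)), rels.card ≤ 23 ∧ Nonempty (PresentedGroup (↑rels : Set (FreeGroup (Fin 3))) ≃* ↥(Cfsg.SU 3 F q))) ∧ (∃ rels : Finset (FreeGroup (Fin 3)), rels.card ≤ 24 ∧ Nonempty (PresentedGroup (↑rels : Set (FreeGroup (Fin 3))) ≃* Cfsg.PSU 3 F q)) := by
  have := H23.two_le_of_card_eq_sq hF
  have h := H7.UP.pg_U hF (by omega)
  exact ⟨(h.mono le_rfl (by omega)).nonempty, ((h.quot _ (H7.UP.cen_U hF)).mono le_rfl (by omega)).nonempty⟩

end Cfsg.Agent.S2289
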