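import Cfsg.Statements.S2291
import Cfsg.Agent.H7.SU5

set_option autoImplicit false
open Cfsg

namespace Cfsg.Agent.S2291



/-- Let F be a field with q² elements and n ≥ 3 with (n, q) ≠ (3, 2). Then the simple group PSU_n(q) (for the standard Hermitian form) has a presentation with 2 generators and at most 80 relations. -/
theorem result {F : Type*} [Field F] [Fintype F] (q n : ℕ) (hF : Fintype.card F = q ^ 2) (hn : 3 ≤ n) (h32 : ¬ (n = 3 ∧ q = 2)) :
    ∃ rels : Finset (FreeGroup (Fin 2)), rels.card ≤ 80 ∧ Nonempty (PresentedGroup (↑rels : Set (FreeGroup (Fin 2))) ≃* Cfsg.PSU n F q) := by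
  obtain ⟨m, rfl⟩ : ∃ m, n = m + 3 := ⟨n - 3, by omega⟩
  obtain ⟨a, b, hab⟩ := H7.su_two_gen hF h32
  obtain rfl | h := Nat.eq_zero_or_pos m
  · exact ((((H7.SUP.pg_SU3 hF fun h => h32 ⟨rfl, h⟩).quot _ (H7.UP.cen_U hF)).two hab).mono le_rfl (by omega)).nonempty
  · have h := H7.SUP.pg_SU hF (n := m + 3) (by omega)
    exact (((h.1.quot _ h.2).two hab).mono le_rfl (by split_ifs <;> omega)).nonempty

end Cfsg.Agent.S2291
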