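import Cfsg.Statements.S2292
import Cfsg.Agent.H7.TG2

set_option autoImplicit false
open Cfsg

namespace Cfsg.Agent.S2292



/-- Let F be a finite field with q elements and m ≥ 2 with (m, q) ≠ (2, 2). Then the simple group PSp_2m(F) has a presentation with 2 generators and at most 80 relations. -/
theorem result {F : Type*} [Field F] [Fintype F] (m : ℕ) (hm : 2 ≤ m) (h22 : ¬ (m = 2 ∧ Fintype.card F = 2)) :
    ∃ rels : Finset (FreeGroup (Fin 2)), rels.card ≤ 80 ∧ Nonempty (PresentedGroup (↑rels : Set (FreeGroup (Fin 2))) ≃* Cfsg.PSp m F) := by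
  obtain ⟨_, _, h⟩ := H7.psp_two_gen (F := F) hm fun e => by
    have := Fintype.one_lt_card (α := F); omega
  refine (H7.PG.mono (r := 58) ?_ le_rfl (by omega)).nonempty
  obtain rfl | h3 := hm.eq_or_lt
  · exact ((H7.pg_sp4.psp (by omega)).two h).mono le_rfl (by omega)
  · exact ((H7.pg_sp h3 (H7.pg_sl_all hm)).psp (by omega)).two h

end Cfsg.Agent.S2292
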