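import Cfsg.Statements.S2296
import Cfsg.Agent.H7.SpP3

set_option autoImplicit false
open Cfsg

namespace Cfsg.Agent.S2296



/-- Let F be a finite field. Sp_2n(F) has a presentation with 10 generators and at most 58 relations for n ≥ 4, with 9 generators and at most 57 relations for n = 4 or 5, and with 8 generators and at most 52 relations for n = 3; in each case PSp_2n(F) has a presentation with the same number of generators and at most one more relation. -/
theorem result {F : Type*} [Field F] [Fintype F] (n : ℕ) :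
    (4 ≤ n → (∃ rels : Finset (FreeGroup (Fin 10)), rels.card ≤ 58 ∧ Nonempty (PresentedGroup (↑rels : Set (FreeGroup (Fin 10))) ≃* Matrix.symplecticGroup (Fin n) F)) ∧ (∃ rels : Finset (FreeGroup (Fin 10)), rels.card ≤ 59 ∧ Nonempty (PresentedGroup (↑rels : Set (FreeGroup (Fin 10))) ≃* Cfsg.PSp n F))) ∧
    ((n = 4 ∨ n = 5) → (∃ rels : Finset (FreeGroup (Fin 9)), rels.card ≤ 57 ∧ Nonempty (PresentedGroup (↑rels : Set (FreeGroup (Fin 9))) ≃* Matrix.symplecticGroup (Fin n) F)) ∧ (∃ rels : Finset (FreeGroup (Fin 9)), rels.card ≤ 58 ∧ Nonempty (PresentedGroup (↑rels : Set (FreeGroup (Fin 9))) ≃* Cfsg.PSp n F))) ∧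
    (n = 3 → (∃ rels : Finset (FreeGroup (Fin 8)), rels.card ≤ 52 ∧ Nonempty (PresentedGroup (↑rels : Set (FreeGroup (Fin 8))) ≃* Matrix.symplecticGroup (Fin n) F)) ∧ (∃ rels : Finset (FreeGroup (Fin 8)), rels.card ≤ 53 ∧ Nonempty (PresentedGroup (↑rels : Set (FreeGroup (Fin 8))) ≃* Cfsg.PSp n F))) := by
  have h : ∀ a r, 4 ≤ n → 8 ≤ a → 55 + a ≤ r + 8 → H7.PG (Matrix.symplecticGroup (Fin n) F) a r := fun a r h h1 h2 =>
    (H7.pg_sp (by omega) (H7.pg_sl h)).mono h1 h2
  refine ⟨fun h4 => ?_, fun h4 => ?_, ?_⟩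
  · have := h 10 58 h4 (by omega) (by omega)
    exact ⟨this.nonempty, (this.psp (by omega)).nonempty⟩
  · have := h 9 57 (by omega) (by omega) (by omega)
    exact ⟨this.nonempty, (this.psp (by omega)).nonempty⟩
  · rintro rfl
    have : H7.PG (Matrix.symplecticGroup (Fin 3) F) 8 52 := (H7.pg_sp le_rfl H7.pg_sl3).mono (by omega) (by omega)
    exact ⟨this.nonempty, (this.psp (by omega)).nonempty⟩

end Cfsg.Agent.S2296
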