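import Cfsg.Statements.S2332
import Cfsg.Agent.H22.LsH

set_option autoImplicit false
open Cfsg

namespace Cfsg.Agent.S2332

/-- Smallest degree of a non-linear irreducible complex representation of SL_n over a finite field with q elements, for n ≥ 3 and (n, q) not one of (3, 2), (3, 4), (4, 2), (4, 3): every irreducible complex representation of SL_n(F) of degree at least 2 has degree at least (q^n − q)/(q − 1), and there is an irreducible complex representation of exactly that degree. -/
theorem result {F : Type*} [Field F] [Fintype F] [DecidableEq F] (n : ℕ) (hn : 3 ≤ n)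
    (hex : (n, Fintype.card F) ≠ (3, 2) ∧ (n, Fintype.card F) ≠ (3, 4) ∧ (n, Fintype.card F) ≠ (4, 2) ∧ (n, Fintype.card F) ≠ (4, 3)) :
    (∀ (k : ℕ) (ρ : Representation ℂ (Matrix.SpecialLinearGroup (Fin n) F) (Fin k → ℂ)), ρ.IsIrreducible → 2 ≤ k → (Fintype.card F ^ n - Fintype.card F) / (Fintype.card F - 1) ≤ k) ∧
    (∃ ρ : Representation ℂ (Matrix.SpecialLinearGroup (Fin n) F) (Fin ((Fintype.card F ^ n - Fintype.card F) / (Fintype.card F - 1)) → ℂ), ρ.IsIrreducible) := by
  let e : Matrix.SpecialLinearGroup (Fin n) F ≃* H23.SLv F (Fin n → F) := H22.Ls.slE n F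
  have hq : 2 ≤ Fintype.card F := Fintype.one_lt_card
  have key : ∀ k : ℕ, ¬ Fintype.card F - 1 ∣ k → ∃ a : F, a ≠ 0 ∧ a ^ k ≠ 1 := fun k hk => by
    by_contra! h
    exact hk ((FiniteField.forall_pow_eq_one_iff F k).1 fun x => Units.ext (by simpa using h x x.ne_zero))
  constructor
  · intro k ρ hρ hk
    have := H22.finite_of_fd F (Module.Dual F (Fin n → F))
    have := Fintype.ofFinite (Module.Dual F (Fin n → F))
    have := H22.Ls.sl_bound (H17.isIrreducible_comp_of_surjective ρ e.symm.toMonoidHom
      e.symm.surjective hρ) (by simpa using hk) (by simpa using hn) (fun h => key 3 fun h1 => ?_)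
      fun h => key 2 fun h1 => ?_
    · rw [Module.finrank_fin_fun, Module.finrank_fin_fun] at this
      exact Nat.div_le_of_le_mul this
    · rw [Module.finrank_fin_fun] at h
      rcases (Nat.dvd_prime Nat.prime_three).1 h1 with h2 | h2
      · exact hex.1 (Prod.ext h (by omega))
      · exact hex.2.1 (Prod.ext h (by omega))
    · rw [Module.finrank_fin_fun] at h
      rcases (Nat.dvd_prime Nat.prime_two).1 h1 with h2 | h2
      · exact hex.2.2.1 (Prod.ext h (by omega))
      · exact hex.2.2.2 (Prod.ext h (by omega))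
  · obtain ⟨χ, h1, -, -, h2⟩ := H22.Ls.sl_decomp (F := F) (V := Fin n → F) (by simpa using hn)
    obtain ⟨k, ρ, hρ, h3⟩ := h1 0
    rw [← h3, Representation.char_one, Module.finrank_fin_fun, Module.finrank_fin_fun] at h2
    have h4 : (Fintype.card F - 1) * (k + 1) = Fintype.card F ^ n - 1 := by exact_mod_cast h2
    obtain rfl : k = (Fintype.card F ^ n - Fintype.card F) / (Fintype.card F - 1) :=
      (Nat.div_eq_of_eq_mul_right (by omega) (by rw [mul_add] at h4; omega)).symm
    exact ⟨_, H17.isIrreducible_comp_of_surjective ρ e.toMonoidHom e.surjective hρ⟩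

end Cfsg.Agent.S2332
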