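import Cfsg.Statements.S2333
import Cfsg.Agent.H22.LsC

set_option autoImplicit false
open Cfsg

namespace Cfsg.Agent.S2333

/-- For a finite field F of even order q and n ≥ 2 with (n, q) ≠ (2, 2), every irreducible complex representation of the symplectic group Sp_{2n}(F) of degree at least 2 has degree at least (q^n − 1)(q^n − q)/(2(q + 1)). -/
theorem result {F : Type*} [Field F] [Fintype F] [DecidableEq F] (n : ℕ) (hn : 2 ≤ n) (heven : Even (Fintype.card F)) (hex : (n, Fintype.card F) ≠ (2, 2)) :
    (∀ (k : ℕ) (ρ : Representation ℂ (Matrix.symplecticGroup (Fin n) F) (Fin k → ℂ)), ρ.IsIrreducible → 2 ≤ k → (Fintype.card F ^ n - 1) * (Fintype.card F ^ n - Fintype.card F) / (2 * (Fintype.card F + 1)) ≤ k) := by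
  intro k ρ hρ hk
  obtain ⟨E, hE, hd⟩ := H22.Ls.exists_lagr F n
  have h2 : ringChar F = 2 := FiniteField.even_card_iff_char_two.2 (Nat.even_iff.1 heven)
  have hp : commutator (Matrix.symplecticGroup (Fin n) F) = ⊤ := by
    convert H22.commutator_Sp_eq_top (F := F) n ?_
    have : 1 < Fintype.card F := Fintype.one_lt_card
    have h3 : ¬ (n = 2 ∧ Fintype.card F = 2) := fun h => hex (by rw [h.1, h.2])
    omega
  let e : Matrix.symplecticGroup (Fin n) F ≃* (H22.spForm n F).O := by
    convert H22.spEquiv n F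
  have := H22.Ls.sp_even (H22.spForm_nondeg n) rfl rfl hE h2 (by omega)
    (H22.commutator_eq_top_congr e hp)
    (H22.Ls.comp_ne_one e (H22.Ls.ne_one_of_irr hρ (by simpa using hk)))
  rw [hd, Module.finrank_fin_fun] at this
  exact Nat.div_le_of_le_mul this

end Cfsg.Agent.S2333
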