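import Cfsg.Statements.S2336
import Cfsg.Agent.H22.LsH

set_option autoImplicit false
open Cfsg

namespace Cfsg.Agent.S2336

/-- Let F be a finite field with q elements and n ≥ 3. The permutation character of SL_n(F) on the non-zero vectors of F^n (the function sending a matrix to the number of non-zero vectors it fixes) is the sum of the principal character and q − 1 pairwise distinct irreducible complex characters. -/
theorem result {F : Type*} [Field F] [Fintype F] [DecidableEq F] (n : ℕ) (hn : 3 ≤ n) :
    ∃ χ : Fin (Fintype.card F - 1) → (Matrix.SpecialLinearGroup (Fin n) F → ℂ),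
      (∀ i, Cfsg.IsIrrCharacter (Matrix.SpecialLinearGroup (Fin n) F) (χ i)) ∧ Function.Injective χ ∧
      ∀ g : Matrix.SpecialLinearGroup (Fin n) F,
        (Nat.card {v : Fin n → F // v ≠ 0 ∧ (g : Matrix (Fin n) (Fin n) F).mulVec v = v} : ℂ) = 1 + ∑ i, χ i g := by
  obtain ⟨χ, h1, h2, h3, -⟩ := H22.Ls.sl_decomp (F := F) (V := Fin n → F) (by simpa using hn)
  let e : Matrix.SpecialLinearGroup (Fin n) F ≃* H23.SLv F (Fin n → F) := H22.Ls.slE n F
  let i : Fin (Fintype.card F - 1) ≃ AddChar (Additive Fˣ) ℂ :=
    Fintype.equivOfCardEq (by simp [Fintype.card_units])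
  refine ⟨fun j g => χ (i j) (e g), fun j => H17.Cfsg.IsIrrCharacter.comp_equiv (h1 _) e,
    fun j k h => i.injective (h2 (funext fun g => ?_)), fun g => ?_⟩
  · simpa using congrFun h (e.symm g)
  · rw [Fintype.sum_equiv i _ (fun θ => χ θ (e g)) fun _ => rfl, ← h3]
    rfl

end Cfsg.Agent.S2336
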