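import Cfsg.Statements.S2337
import Cfsg.Agent.H26.SzRep

set_option autoImplicit false
open Cfsg

namespace Cfsg.Agent.S2337


/-- For the Suzuki group Sz(q), q = 2^(2m+1) with m ≥ 1 (realised inside Sp₄ over the field with q elements), every irreducible complex representation of degree at least 2 has degree at least 2^m·(q − 1). -/
theorem result {F : Type*} [Field F] [Fintype F] (m : ℕ) (hm : 1 ≤ m) (hF : Fintype.card F = 2 ^ (2 * m + 1)) :
    (∀ (k : ℕ) (ρ : Representation ℂ (Cfsg.Lie.Sz F (2 ^ (m + 1))) (Fin k → ℂ)), ρ.IsIrreducible → 2 ≤ k → 2 ^ m * (2 ^ (2 * m + 1) - 1) ≤ k) := by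
  intro k ρ hρ hk
  have := (H26.Sz.lieModel hm hF).finrank_ge' (K := ℂ) (V := Fin k → ℂ) ρ ?_
  · simpa using this
  · rintro rfl
    let W : Subrepresentation (1 : Representation ℂ (Cfsg.Lie.Sz F (2 ^ (m + 1))) (Fin k → ℂ)) :=
      ⟨Submodule.span ℂ {Pi.single ⟨0, by omega⟩ 1}, fun _ _ h => h⟩
    rcases eq_bot_or_eq_top W with h | h
    · have : W.toSubmodule = ⊥ := by rw [h]; rfl
      simp [W] at this
    · have h1 : W.toSubmodule = ⊤ := by rw [h]; rfl
      have h2 := finrank_span_le_card (R := ℂ) ({Pi.single ⟨0, by omega⟩ 1} : Set (Fin k → ℂ))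
      change Module.finrank ℂ W.toSubmodule ≤ _ at h2
      rw [h1] at h2
      simp at h2
      omega

end Cfsg.Agent.S2337
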