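import Cfsg.Statements.S2338
import Cfsg.Agent.H24.MG4
import Cfsg.Agent.S1055
import Cfsg.Agent.S1059
import Cfsg.Agent.S0135

set_option autoImplicit false
set_option maxHeartbeats 400000
open Cfsg

namespace Cfsg.Agent.S2338

/-- Lower bounds for the degrees of non-linear irreducible complex representations of the Chevalley group of type G₂ over a finite field with q elements: the degree is at least q³ + 1 when q ≡ 1 (mod 3) and q > 4, at least q³ − 1 when q ≡ 2 (mod 3) and q > 2, and at least q⁴ + q² + 1 when q ≡ 0 (mod 3) and q > 3. -/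
theorem result {F : Type*} [Field F] [Fintype F] (k : ℕ) (ρ : Representation ℂ (Cfsg.Lie.chevG2.group F) (Fin k → ℂ)) (hρ : ρ.IsIrreducible) (hk : 2 ≤ k) :
    (Fintype.card F % 3 = 1 → 4 < Fintype.card F → Fintype.card F ^ 3 + 1 ≤ k) ∧
    (Fintype.card F % 3 = 2 → 2 < Fintype.card F → Fintype.card F ^ 3 - 1 ≤ k) ∧
    (Fintype.card F % 3 = 0 → 3 < Fintype.card F → Fintype.card F ^ 4 + Fintype.card F ^ 2 + 1 ≤ k) := by
  classical
  have : Finite (Cfsg.Lie.chevG2.group F) := inferInstance
  have h := H24.MG.main (H24.MG.g2r F) ρ fun h2 r hr e => by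
    obtain ⟨a, ha⟩ : ∃ a : F, a ∉ ({0, 1} : Finset F) := by
      by_contra! hc
      have := (Finset.card_le_card fun x _ => hc x : Finset.univ.card ≤ _).trans Finset.card_le_two
      rw [Finset.card_univ] at this
      omega
    have hs := (Cfsg.Agent.S1055.result (F := F) ⟨a, by simpa using ha⟩).1
    have hker : ρ.ker = ⊥ := (hs.eq_bot_or_eq_top_of_normal ρ.ker inferInstance).resolve_right fun e =>
      H22.Ls.ne_one_of_irr hρ (by simpa using hk) fun g => (e.ge (Subgroup.mem_top g) :)
    exact one_ne_zero ((H24.tabG2_chk.grp F).sep.x_eq_one (hker.le e))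
  have h2 := Cfsg.Agent.S0135.result ρ
  rw [Cfsg.Agent.S1059.result rfl] at h2
  simp only [Module.finrank_fin_fun] at h h2
  exact ⟨h.1, h.2.1, fun a b => H24.MG.arith (h.2.2 a b).1 a (h.2.2 a b).2 h2⟩

end Cfsg.Agent.S2338
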