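import Cfsg.Statements.S2339
import Cfsg.Agent.H24.ME5
import Cfsg.Agent.S1054

set_option autoImplicit false
set_option maxHeartbeats 400000
open Cfsg

namespace Cfsg.Agent.S2339

/-- For the Chevalley group of type E₈ over a finite field with q elements, every irreducible complex representation of degree at least 2 has degree at least q(q¹² + 1)(q¹⁰ + 1)(q⁶ + 1). -/
theorem result {F : Type*} [Field F] [Fintype F] (k : ℕ) (ρ : Representation ℂ (Cfsg.Lie.chevE8.group F) (Fin k → ℂ)) (hρ : ρ.IsIrreducible) (hk : 2 ≤ k) :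
    Fintype.card F * (Fintype.card F ^ 12 + 1) * (Fintype.card F ^ 10 + 1) * (Fintype.card F ^ 6 + 1) ≤ k := by
  classical
  have : Finite (Cfsg.Lie.chevE8.group F) := inferInstance
  have hs := (Cfsg.Agent.S1054.result (F := F) Cfsg.Lie.chevE8 (by simp)).1
  have hker : ρ.ker = ⊥ := (hs.eq_bot_or_eq_top_of_normal ρ.ker inferInstance).resolve_right fun e =>
    H22.Ls.ne_one_of_irr hρ (by simpa using hk) fun g => (e.ge (Subgroup.mem_top g) :)
  simpa using H24.ME.boundE8 (H24.tabE8_chk.grp F) (H24.tabE8_chk.grp_r3 F) ρ fun r e =>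
    one_ne_zero ((H24.tabE8_chk.grp F).sep.x_eq_one (hker.le e))

end Cfsg.Agent.S2339
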