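import Cfsg.Statements.S2340
import Cfsg.Agent.H24.ME5
import Cfsg.Agent.S1054

set_option autoImplicit false
set_option maxHeartbeats 400000
open Cfsg

namespace Cfsg.Agent.S2340

/-- For the Chevalley group of type E₆ over a finite field with q elements (the group generated by the root elements), every irreducible complex representation of degree at least 2 has degree at least q(q⁶ + q³ + 1)(q⁴ + 1). -/
theorem result {F : Type*} [Field F] [Fintype F] :
    (∀ (k : ℕ) (ρ : Representation ℂ (Cfsg.Lie.chevE6.group F) (Fin k → ℂ)), ρ.IsIrreducible → 2 ≤ k → Fintype.card F * (Fintype.card F ^ 6 + Fintype.card F ^ 3 + 1) * (Fintype.card F ^ 4 + 1) ≤ k) := by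
  classical
  intro k ρ hρ hk
  have : Finite (Cfsg.Lie.chevE6.group F) := inferInstance
  have hs := (Cfsg.Agent.S1054.result (F := F) Cfsg.Lie.chevE6 (by simp)).1
  have hker : ρ.ker = ⊥ := (hs.eq_bot_or_eq_top_of_normal ρ.ker inferInstance).resolve_right fun e =>
    H22.Ls.ne_one_of_irr hρ (by simpa using hk) fun g => (e.ge (Subgroup.mem_top g) :)
  simpa using H24.ME.boundE6 (H24.tabE6_chk.grp F) (H24.tabE6_chk.grp_r3 F) ρ fun r e =>
    one_ne_zero ((H24.tabE6_chk.grp F).sep.x_eq_one (hker.le e))

end Cfsg.Agent.S2340
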