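import Cfsg.Statements.S2341
import Cfsg.Agent.H24.MT4
import Cfsg.Agent.S1070
import Cfsg.Agent.S1066
import Cfsg.Agent.S0135

set_option autoImplicit false
set_option maxHeartbeats 400000
open Cfsg

namespace Cfsg.Agent.S2341

/-- For the twisted group ²E₆(q), realised over the field with q² elements (q a prime power), every irreducible complex representation of degree at least 2 has degree at least q(q⁶ − q³ + 1)(q⁴ + 1). -/
theorem result {K : Type*} [Field K] [Fintype K] (q : ℕ) (hq : IsPrimePow q) (hK : Fintype.card K = q ^ 2) :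
    (∀ (k : ℕ) (ρ : Representation ℂ (Cfsg.Lie.twistedE6 K q) (Fin k → ℂ)), ρ.IsIrreducible → 2 ≤ k → q * (q ^ 6 - q ^ 3 + 1) * (q ^ 4 + 1) ≤ k) := by
  classical
  intro k ρ hρ hk
  have : Finite (Cfsg.Lie.twistedE6 K q) := inferInstance
  have hs := (Cfsg.Agent.S1070.result hq hK).1
  have hker : ρ.ker = ⊥ := (hs.eq_bot_or_eq_top_of_normal ρ.ker inferInstance).resolve_right fun e =>
    H22.Ls.ne_one_of_irr hρ (by simpa using hk) fun g => (e.ge (Subgroup.mem_top g) :)
  have h := H24.MT.bound hq hK ρ hker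
  have h2 := (Cfsg.Agent.S0135.result ρ).mul_left (Nat.gcd 3 (q + 1))
  rw [Cfsg.Agent.S1066.result hq hK] at h2
  simp only [Module.finrank_fin_fun] at h h2
  exact H24.MT.arith hq.two_le h h2

end Cfsg.Agent.S2341
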