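import Cfsg.Statements.S2342
import Cfsg.Agent.H24.MD2
import Cfsg.Agent.S1071
import Cfsg.Agent.S1067
import Cfsg.Agent.S0135

set_option autoImplicit false
set_option maxHeartbeats 400000
open Cfsg

namespace Cfsg.Agent.S2342

/-- For the twisted group ³D₄(q), realised over the field with q³ elements (q a prime power), every irreducible complex representation of degree at least 2 has degree at least q(q⁴ − q² + 1). -/
theorem result {K : Type*} [Field K] [Fintype K] (q : ℕ) (hq : IsPrimePow q) (hK : Fintype.card K = q ^ 3) :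
    (∀ (k : ℕ) (ρ : Representation ℂ (Cfsg.Lie.twistedD4 K q) (Fin k → ℂ)), ρ.IsIrreducible → 2 ≤ k → q * (q ^ 4 - q ^ 2 + 1) ≤ k) := by
  intro k ρ hρ hk
  obtain ⟨f, hf, hq'⟩ := H24.D4.exists_f hq hK
  have hq1 := hq.one_lt
  have hs := (Cfsg.Agent.S1071.result hq hK).1
  have hc := Cfsg.Agent.S1067.result hq hK
  have hker : ρ.ker = ⊥ := (hs.eq_bot_or_eq_top_of_normal ρ.ker inferInstance).resolve_right fun e =>
    H22.Ls.ne_one_of_irr hρ (by simpa using hk) fun g => (e.ge (Subgroup.mem_top g) :)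
  let j := (MulEquiv.subgroupCongr (H24.D4.gen_eq f hf hq').symm).toMonoidHom.comp
    (Subgroup.equivMapOfInjective _ _ (Subgroup.subtype_injective _)).toMonoidHom
  have h1 := H24.D4.deg_ge f hf hq1 hK hq' (ρ.comp j) fun g hg e => hg (by
    have : j g ∈ ρ.ker := e
    rw [hker, Subgroup.mem_bot] at this
    simpa [j] using this)
  have : Finite (Cfsg.Lie.twistedD4 K q) := inferInstance
  have h2 := Cfsg.Agent.S0135.result ρ
  rw [Module.finrank_fin_fun] at h1 h2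
  rw [hc] at h2
  obtain ⟨n, rfl⟩ : ∃ n, q = n + 1 := ⟨q - 1, by omega⟩
  have e1 : (n + 1) ^ 2 - 1 = n * (n + 2) := Nat.sub_eq_of_eq_add (by ring)
  have e2 : (n + 1) ^ 6 - 1 = n * (n + 2) * (((n + 1) ^ 2 + (n + 1) + 1) * (n ^ 2 + n + 1)) := Nat.sub_eq_of_eq_add (by ring)
  have e3 : (n + 1) ^ 4 - (n + 1) ^ 2 = (n + 1) ^ 2 * (n * (n + 2)) := Nat.sub_eq_of_eq_add (by ring)
  rw [e3]
  rw [Nat.add_sub_cancel] at h1
  rcases h1.lt_or_eq with h | h
  · exact le_trans (le_of_eq (by ring)) (Nat.add_one_le_iff.2 h)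
  exfalso
  rw [← h, e1, e2, mul_assoc, mul_assoc, mul_left_comm, mul_assoc n] at h2
  have h3 := Int.natCast_dvd_natCast.2 (Nat.dvd_of_mul_dvd_mul_left (by omega) h2)
  push_cast at h3
  have hn : (1 : ℤ) ≤ n := by omega
  obtain ⟨y, hy⟩ : ∃ y : ℤ, (n : ℤ) = y - 1 := ⟨n + 1, by ring⟩
  rw [hy, sub_add_cancel] at h3
  have c1 : IsCoprime (y ^ 4 + y ^ 3 + 1) y := ⟨1, -(y ^ 3 + y ^ 2), by ring⟩
  have c2 : IsCoprime (y ^ 4 + y ^ 3 + 1) (y + 1) := ⟨1, -y ^ 3, by ring⟩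
  have c3 : IsCoprime (y ^ 4 + y ^ 3 + 1) (y ^ 2 - y + 1) := ⟨y - 1, 1 - (y + 1) ^ 2 * (y - 1), by ring⟩
  have c4 : IsCoprime (y ^ 4 + y ^ 3 + 1) (y ^ 4 - y ^ 2 + 1) := by
    obtain ⟨a, b, e⟩ := (c1.pow_right (n := 2)).mul_right c2
    exact ⟨a + b, -b, by linear_combination e⟩
  have h4 := (((c1.pow_right (n := 12)).mul_right ((c2.mul_right c3).pow_right (n := 2))).mul_right c4).dvd_of_dvd_mul_left
    (z := (y ^ 4 + y ^ 3 + 1) * y + (y ^ 3 - y ^ 2 - 2 * y - 1)) (h3.trans (dvd_of_eq (by ring)))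
  rw [dvd_add_right (dvd_mul_right _ _)] at h4
  have hy2 : 2 ≤ y := by omega
  have h5 := Int.eq_zero_of_abs_lt_dvd h4 (abs_lt.2 ⟨by nlinarith [pow_pos (by omega : 0 < y) 2, pow_pos (by omega : 0 < y) 3],
    by nlinarith [pow_pos (by omega : 0 < y) 2, pow_pos (by omega : 0 < y) 4]⟩)
  have := Int.le_of_dvd one_pos (⟨y ^ 2 - y - 2, by linear_combination -h5⟩ : y ∣ 1)
  omega

end Cfsg.Agent.S2342
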