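import Cfsg.Statements.S2343
import Cfsg.Agent.H24.Ree7
import Cfsg.Agent.H24.ReeF
import Cfsg.Agent.S1073

set_option autoImplicit false
set_option maxHeartbeats 400000
open Cfsg

namespace Cfsg.Agent.S2343

/-- For the Ree group ²G₂(q), q = 3^(2m+1) with m ≥ 1 (realised over the field with q elements), every irreducible complex representation of degree at least 2 has degree at least q² − q + 1. -/
theorem result {K : Type*} [Field K] [Fintype K] (m : ℕ) (hm : 1 ≤ m) (hK : Fintype.card K = 3 ^ (2 * m + 1)) :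
    (∀ (k : ℕ) (ρ : Representation ℂ (Cfsg.Lie.twistedG2 K (3 ^ m)) (Fin k → ℂ)), ρ.IsIrreducible → 2 ≤ k → (3 ^ (2 * m + 1)) ^ 2 - 3 ^ (2 * m + 1) + 1 ≤ k) := by
  intro k ρ hρ hk
  classical
  obtain ⟨R, -⟩ := H24.G2.exists_ree hK
  have := R.finite
  have := (Cfsg.Agent.S1073.result hm hK).1
  have := R.finrank_ge ρ (AddChar.FiniteField.primitiveChar_to_Complex_isPrimitive K) (H24.reeNum m) hK ?_
  · simpa using this
  by_contra hn
  push Not at hn
  obtain rfl : ρ = 1 := by
    rcases ρ.normal_ker.eq_bot_or_eq_top with h | h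
    · exact absurd (R.x_eq_one.1 (h.le (hn 1))).2.2 one_ne_zero
    · exact MonoidHom.ext fun g => h.ge (Subgroup.mem_top g)
  let W : Subrepresentation (1 : Representation ℂ (Cfsg.Lie.twistedG2 K (3 ^ m)) (Fin k → ℂ)) :=
    ⟨Submodule.span ℂ {Pi.single ⟨0, by omega⟩ 1}, fun _ _ h => h⟩
  rcases eq_bot_or_eq_top W with h | h
  · have : W.toSubmodule = ⊥ := by rw [h]; rfl
    simp [W] at this
  · have h1 : W.toSubmodule = ⊤ := by rw [h]; rfl
    have h2 := finrank_span_le_card (R := ℂ) ({Pi.single ⟨0, by omega⟩ 1} : Set (Fin k → ℂ))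
    change Module.finrank ℂ W.toSubmodule ≤ _ at h2
    rw [h1] at h2
    simp at h2
    omega

end Cfsg.Agent.S2343
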