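import Cfsg.Statements.S2344
import Cfsg.Agent.H22.OmE
import Cfsg.Agent.H22.OrthB

set_option autoImplicit false
open Cfsg

namespace Cfsg.Agent.S2344

/-- For a finite field F of odd order q > 3 and n ≥ 3, every irreducible complex representation of degree at least 2 of Ω_{2n+1}(F) (the commutator subgroup of the isometry group of the quadratic form x₀² + x₁y₁ + ⋯ + x_ny_n) has degree at least (q^{2n} − 1)/(q² − 1). -/
theorem result {F : Type*} [Field F] [Fintype F] (n : ℕ) (hn : 3 ≤ n) (hodd : Odd (Fintype.card F)) (h3 : 3 < Fintype.card F) :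
    (∀ (k : ℕ) (ρ : Representation ℂ (Cfsg.Omega F (Cfsg.quadFormOdd n F)) (Fin k → ℂ)), ρ.IsIrreducible → 2 ≤ k → (Fintype.card F ^ (2 * n) - 1) / (Fintype.card F ^ 2 - 1) ≤ k) := by
  classical
  intro k ρ hρ hk
  have h2 : (2 : F) ≠ 0 := H22.two_ne_zero_of_odd_card hodd
  obtain ⟨m, rfl⟩ : ∃ m, n = m + 3 := ⟨n - 3, by omega⟩
  have hV : Module.finrank F (Unit ⊕ (Fin (m + 3) ⊕ Fin (m + 3)) → F) = 2 * m + 7 := by
    simp; omega
  let e := (H22.commutatorCongr (H22.isomEquiv (H22.qOdd (m + 3) F))).symm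
  let f : (Fin (m + 3) → F) →ₗ[F] (Unit ⊕ (Fin (m + 3) ⊕ Fin (m + 3)) → F) :=
    ⟨⟨fun x => Sum.elim 0 (Sum.elim x 0), fun x y => by ext (_ | _ | _) <;> simp⟩,
      fun x y => by ext (_ | _ | _) <;> simp⟩
  have hf : Module.finrank F (LinearMap.range f) = m + 3 := by
    rw [LinearMap.finrank_range_of_inj fun x y h => funext fun i => congrFun h (.inr (.inl i))]
    simp
  have hd : (Pi.single (.inl ()) 1 : Unit ⊕ (Fin (m + 3) ⊕ Fin (m + 3)) → F) ≠ 0 := by simp
  have h := H22.OC.omega_bound (C := H22.mkOC (H22.qOdd (m + 3) F) (H22.qOdd_nondeg h2 _) (by omega))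
    (H17.isIrreducible_comp_of_surjective ρ e.toMonoidHom e.surjective hρ) (by simpa using hk)
    (by omega) h3 (by
      rw [H22.N_odd _ h2, hV, show {z : F | z ^ 2 = 0} = {0} by ext; simp, Set.ncard_singleton,
        mul_left_comm, ← pow_succ', Nat.sub_mul, ← pow_add, one_mul, mul_one]
      simp only [show 2 * m + 7 - 1 = m + 3 + (m + 3) by omega, show m + 3 - 1 + 1 = m + 3 by omega]
      omega) (E := LinearMap.range f) (D := F ∙ Pi.single (.inl ()) 1)
    (H23.Form.totSing_ofQuad.2 (by rintro _ ⟨x, rfl⟩; simp [f, H22.qOdd_apply])) (by omega)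
    ((Submodule.span_singleton_le_iff_mem _ _).2 (by
      rintro _ ⟨x, rfl⟩
      change QuadraticMap.polar _ _ _ = 0
      simp [f, H22.polar_qOdd])) (by
      intro d hd h
      obtain ⟨t, rfl⟩ := Submodule.mem_span_singleton.1 hd
      have : QuadraticMap.polar (H22.qOdd (m + 3) F) _ _ = 0 := h _ (Submodule.mem_span_singleton_self _)
      simp [H22.qOdd_apply, h2] at this
      simp [this])
  rw [hf, hV, finrank_span_singleton hd, Module.finrank_fin_fun] at h
  generalize Fintype.card F = q at h h3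
  obtain ⟨r, rfl⟩ : ∃ r, q = r + 4 := ⟨q - 4, by omega⟩
  refine Nat.div_le_of_le_mul ?_
  have h1 : 1 ≤ (r + 4) ^ m := Nat.one_le_pow _ _ (by omega)
  simp only [show 2 * m + 7 - 4 = 2 * m + 3 by omega, show 2 * (m + 3) = 2 * m + 6 by omega, pow_add,
    pow_mul'] at h ⊢
  generalize (r + 4) ^ m = x at h h1
  have h2 : (r + 4) ^ 2 - 1 = (r + 5) * (r + 3) := Nat.sub_eq_of_eq_add (by ring)
  have h4 : r + 4 ≤ x * (r + 4) ^ 3 := by nlinarith [Nat.le_self_pow (show 3 ≠ 0 by omega) (r + 4)]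
  rw [h2] at h ⊢
  rcases h with h | h
  · refine le_trans (Nat.sub_le _ _) (le_trans ?_ (Nat.mul_le_mul_left _ h))
    rw [show r + 4 - 1 = r + 3 from rfl]
    have : (r + 4) ^ 3 ≤ (r + 5) * (r + 3) * (2 * (r + 3)) := by nlinarith [Nat.zero_le (r ^ 3)]
    calc x ^ 2 * (r + 4) ^ 6 = x ^ 2 * (r + 4) ^ 3 * (r + 4) ^ 3 := by ring
      _ ≤ x ^ 2 * (r + 4) ^ 3 * ((r + 5) * (r + 3) * (2 * (r + 3))) := by gcongr
      _ = _ := by ring
  · refine Nat.le_of_mul_le_mul_right (le_trans (le_of_eq ?_) (h.trans_eq (mul_right_comm _ _ _)))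
      (show 0 < r + 4 by omega)
    zify [h4, show 1 ≤ x * (r + 4) ^ 3 by omega, show 1 ≤ x ^ 2 * (r + 4) ^ 6 from
      Nat.succ_le_of_lt (by positivity)]
    ring

end Cfsg.Agent.S2344
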