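import Cfsg.Statements.S2345
import Cfsg.Agent.H22.OmE
import Cfsg.Agent.H22.OrthB

set_option autoImplicit false
open Cfsg

namespace Cfsg.Agent.S2345

/-- For a finite field F with q > 3 elements and n ≥ 4, every irreducible complex representation of degree at least 2 of Ω⁺_{2n}(F) (the commutator subgroup of the isometry group of the hyperbolic quadratic form x₁y₁ + ⋯ + x_ny_n) has degree at least (q^n − 1)(q^{n−1} + q)/(q² − 1). -/
theorem result {F : Type*} [Field F] [Fintype F] (n : ℕ) (hn : 4 ≤ n) (h3 : 3 < Fintype.card F) :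
    (∀ (k : ℕ) (ρ : Representation ℂ (Cfsg.Omega F (Cfsg.quadFormPlus n F)) (Fin k → ℂ)), ρ.IsIrreducible → 2 ≤ k → (Fintype.card F ^ n - 1) * (Fintype.card F ^ (n - 1) + Fintype.card F) / (Fintype.card F ^ 2 - 1) ≤ k) := by
  classical
  intro k ρ hρ hk
  obtain ⟨m, rfl⟩ : ∃ m, n = m + 4 := ⟨n - 4, by omega⟩
  have hV : Module.finrank F (Fin (m + 4) ⊕ Fin (m + 4) → F) = 2 * m + 8 := by simp; omega
  let e := (H22.commutatorCongr (H22.isomEquiv (H22.qPlus (m + 4) F))).symm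
  have h := H22.OC.omega_bound (C := H22.mkOC (H22.qPlus (m + 4) F) (H22.qPlus_nondeg _) (by omega))
    (H17.isIrreducible_comp_of_surjective ρ e.toMonoidHom e.surjective hρ) (by simpa using hk)
    (by omega) h3 (by
      rw [H22.N_plus, if_pos rfl, hV, Nat.sub_mul, ← pow_add, one_mul]
      have := Nat.pow_le_pow_right (show 0 < Fintype.card F by omega) (show m + 3 ≤ m + 4 by omega)
      simp only [show 2 * m + 8 - 1 = m + 4 + (m + 3) by omega, show m + 4 - 1 = m + 3 by omega]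
      omega) (D := ⊥) (H22.totSing_kerR (m + 4)) (by rw [H22.finrank_kerR]; omega) bot_le (by simp)
  rw [H22.finrank_kerR, hV, finrank_bot, Module.finrank_fin_fun] at h
  generalize Fintype.card F = q at h h3
  obtain ⟨r, rfl⟩ : ∃ r, q = r + 4 := ⟨q - 4, by omega⟩
  refine Nat.div_le_of_le_mul ?_
  have h1 : 1 ≤ (r + 4) ^ m := Nat.one_le_pow _ _ (by omega)
  simp only [show 2 * m + 8 - 4 = 2 * m + 4 by omega, show m + 4 - 1 = m + 3 by omega, pow_add,
    pow_mul'] at h ⊢
  generalize (r + 4) ^ m = x at h h1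
  have h2 : (r + 4) ^ 2 - 1 = (r + 5) * (r + 3) := Nat.sub_eq_of_eq_add (by ring)
  have h4 : r + 4 ≤ x * (r + 4) ^ 4 := by nlinarith [Nat.le_self_pow (show 4 ≠ 0 by omega) (r + 4)]
  rw [h2] at h ⊢
  rcases h with h | h
  · refine le_trans (Nat.mul_le_mul_right _ (Nat.sub_le _ _)) (le_trans ?_ (Nat.mul_le_mul_left _ h))
    rw [show r + 4 - 1 = r + 3 from rfl]
    have : (r + 4) ^ 3 + (r + 4) ≤ (r + 5) * (r + 3) * (2 * (r + 3)) := by nlinarith [Nat.zero_le (r ^ 3)]
    calc x * (r + 4) ^ 4 * (x * (r + 4) ^ 3 + (r + 4))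
        ≤ x * (r + 4) ^ 4 * (x * ((r + 4) ^ 3 + (r + 4))) := by gcongr; nlinarith
      _ ≤ x * (r + 4) ^ 4 * (x * ((r + 5) * (r + 3) * (2 * (r + 3)))) := by gcongr
      _ = _ := by ring
  · refine Nat.le_of_mul_le_mul_right (le_trans (le_of_eq ?_) (h.trans_eq (mul_right_comm _ _ _)))
      (show 0 < r + 4 by omega)
    zify [h4, show 1 ≤ x * (r + 4) ^ 4 by omega]
    ring

end Cfsg.Agent.S2345
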