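import Cfsg.Statements.S2346
import Cfsg.Agent.H22.OmH
import Cfsg.Agent.H22.IsoB

set_option autoImplicit false
open Cfsg

namespace Cfsg.Agent.S2346

theorem aux {F : Type*} [Field F] [Fintype F] (j : ℕ) (a b : F) (hab : ∀ z₁ z₂ : F, z₁ ^ 2 + a * z₁ * z₂ + b * z₂ ^ 2 = 0 → z₁ = 0 ∧ z₂ = 0) (k : ℕ)
    (ρ : Representation ℂ (Cfsg.Omega F (Cfsg.quadFormMinus (j + 3) F a b)) (Fin k → ℂ)) (hρ : ρ.IsIrreducible) (hk : 2 ≤ k) :
    (Fintype.card F ^ (j + 4) + 1) * (Fintype.card F ^ (j + 3) - Fintype.card F) ≤ (Fintype.card F ^ 2 - 1) * k := by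
  classical
  have hV : Module.finrank F ((Fin (j + 3) ⊕ Fin (j + 3)) ⊕ Fin 2 → F) = 2 * j + 8 := by
    simp; omega
  let e := (H22.commutatorCongr (H22.isomEquiv (H22.qMinus (j + 3) F a b))).symm
  let f : (Fin (j + 3) → F) →ₗ[F] ((Fin (j + 3) ⊕ Fin (j + 3)) ⊕ Fin 2 → F) :=
    ⟨⟨fun x => Sum.elim (Sum.elim x 0) 0, fun x y => by ext ((_ | _) | _) <;> simp⟩,
      fun x y => by ext ((_ | _) | _) <;> simp⟩
  let g : (Fin 2 → F) →ₗ[F] ((Fin (j + 3) ⊕ Fin (j + 3)) ⊕ Fin 2 → F) :=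
    ⟨⟨fun x => Sum.elim 0 x, fun x y => by ext (_ | _) <;> simp⟩,
      fun x y => by ext (_ | _) <;> simp⟩
  have hf : Module.finrank F (LinearMap.range f) = j + 3 := by
    rw [LinearMap.finrank_range_of_inj fun x y h => funext fun i => congrFun h (.inl (.inl i))]
    simp
  have hg' : Function.Injective g := fun x y h => funext fun i => congrFun h (.inr i)
  have hg : Module.finrank F (LinearMap.range g) = 2 := by
    rw [LinearMap.finrank_range_of_inj hg']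
    simp
  have h := H22.OC.omega_bound'
    (C := H22.mkOC (H22.qMinus (j + 3) F a b) (H22.qMinus_nondeg _ hab) (by omega))
    (not_forall.1 (H22.Ls.ne_one_of_irr
      (H17.isIrreducible_comp_of_surjective ρ e.toMonoidHom e.surjective hρ) (by simpa using hk)))
    (by omega) (fun T hT => by
      have := H22.finrank_le_of_sing_qMinus _ hab T hT.2
      omega) (E := LinearMap.range f) (D := LinearMap.range g)
    (H23.Form.totSing_ofQuad.2 (by rintro _ ⟨x, rfl⟩; simp [f, H22.qMinus_apply])) (by omega)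
    (by
      rintro _ ⟨y, rfl⟩ _ ⟨x, rfl⟩
      change QuadraticMap.polar _ _ _ = 0
      simp [f, g, H22.polar_qMinus]) (by
      rintro _ ⟨y, rfl⟩ h
      refine H22.qMinus_nondeg _ hab _ fun x => ?_
      have : QuadraticMap.polar (H22.qMinus (j + 3) F a b) _ _ = 0 :=
        h _ ⟨fun i => x (.inr i), rfl⟩
      change QuadraticMap.polar _ _ _ = 0
      simpa [g, H22.polar_qMinus] using this) (fun c hc => by
      obtain ⟨x, hx, y, hy, hne⟩ := (Set.one_lt_ncard (Set.toFinite _)).1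
        (lt_of_lt_of_le (Nat.lt_succ_of_le Fintype.card_pos) (H22.aniso_fiber hab hc))
      exact ⟨_, ⟨x, rfl⟩, _, ⟨y, rfl⟩, hg'.ne hne, Eq.trans (by simp [H22.mkOC, g, H22.qMinus_apply]) hx,
        Eq.trans (by simp [H22.mkOC, g, H22.qMinus_apply]) hy⟩)
  simp only [H22.N_minus _ hab] at h
  rw [hf, hV, hg, Module.finrank_fin_fun] at h
  have h0 : ∀ c : F, 1 ≤ {z : Fin 2 → F | z 0 ^ 2 + a * z 0 * z 1 + b * z 1 ^ 2 = c}.ncard := by
    intro c
    by_cases hc : c = 0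
    · exact (Set.ncard_pos (Set.toFinite _)).2 ⟨0, by simp [hc]⟩
    · exact le_trans (by omega) (H22.aniso_fiber hab hc)
  have h1 := fun c hc => H22.aniso_fiber hab (c := c) hc
  obtain ⟨r, hr⟩ : ∃ r, Fintype.card F = r + 2 := ⟨_, (Nat.sub_add_cancel Fintype.one_lt_card).symm⟩
  obtain ⟨y, hy⟩ : ∃ y, (r + 2) ^ (j + 2) = y + 1 :=
    ⟨_, (Nat.sub_add_cancel (Nat.one_le_pow _ _ (by omega))).symm⟩
  have e1 : (r + 2) ^ (j + 3) = (r + 2) * (y + 1) := by rw [← hy]; ring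
  have e2 : (r + 2) ^ (j + 4) = (r + 2) ^ 2 * (y + 1) := by rw [← hy]; ring
  have e3 : (r + 2) ^ (2 * j + 8 - 2) = (r + 2) ^ 2 * (y + 1) ^ 2 := by
    rw [← hy, show 2 * j + 8 - 2 = 2 + (j + 2) * 2 by omega, pow_add, pow_mul]
  have e4 : (r + 2) ^ 2 - 1 = (r + 3) * (r + 1) := Nat.sub_eq_of_eq_add (by ring)
  have e5 : (r + 2) * (y + 1) - (r + 2) = (r + 2) * y := Nat.sub_eq_of_eq_add (by ring)
  have e6 : (r + 2) * (y + 1) - 1 = (r + 2) * y + r + 1 := Nat.sub_eq_of_eq_add (by ring)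
  rw [hr] at h h1 ⊢
  rw [e1, e3, e4, e5, e6, show j + 3 - 1 = j + 2 from rfl, hy, show r + 2 - 1 = r + 1 from rfl] at h
  rw [e1, e2, e4, e5]
  rcases h with ⟨c, t, h2, h3 | ⟨h3, h4, h5⟩⟩ | h
  · have h6 := (Nat.add_le_add_right (Nat.mul_le_mul_left _ (h0 c)) _).trans h2
    have h7 : y * ((r + 2) * (y + 1) + 1) ≤ t :=
      Nat.le_of_mul_le_mul_left (by nlinarith) (show 0 < r + 2 by omega)
    calc _ = y * ((r + 2) * ((r + 2) ^ 2 * (y + 1) + 1)) := by ring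
      _ ≤ y * ((r + 3) * (r + 1) * 2 * ((r + 2) * (y + 1) + 1)) := by
        refine Nat.mul_le_mul_left _ ?_
        nlinarith [Nat.zero_le (r ^ 3 * y), Nat.zero_le (r ^ 2 * y), Nat.zero_le (r * y),
          Nat.zero_le (r ^ 3)]
      _ = (r + 3) * (r + 1) * (2 * (y * ((r + 2) * (y + 1) + 1))) := by ring
      _ ≤ _ := Nat.mul_le_mul_left _ (by omega)
  · have h6 := (Nat.add_le_add_right (Nat.mul_le_mul_left _ (h1 c h3)) _).trans h2
    have h7 : (r + 2) * (y + 1) ^ 2 + y ≤ t :=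
      Nat.le_of_mul_le_mul_left (by nlinarith) (show 0 < r + 2 by omega)
    obtain rfl : j = 0 := by omega
    obtain rfl : y = (r + 3) * (r + 1) := by rw [← e4]; simp only [zero_add] at hy; omega
    refine le_trans ?_ (Nat.mul_le_mul_left _ (h7.trans h5))
    rw [mul_comm, mul_comm (r + 2), mul_assoc]
    refine Nat.mul_le_mul_left _ ?_
    nlinarith
  · exact Nat.le_of_mul_le_mul_right (le_trans (le_of_eq (by ring))
      (h.trans_eq (mul_right_comm _ _ _))) (show 0 < r + 2 by omega)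

/-- For a finite field F with q elements, n ≥ 4, and a, b ∈ F with z₁² + a z₁z₂ + b z₂² anisotropic, every irreducible complex representation of degree at least 2 of Ω⁻_{2n}(F) (the commutator subgroup of the isometry group of x₁y₁ + ⋯ + x_{n−1}y_{n−1} + z₁² + a z₁z₂ + b z₂²) has degree at least (q^n + 1)(q^{n−1} − q)/(q² − 1). -/
theorem result {F : Type*} [Field F] [Fintype F] (n : ℕ) (hn : 4 ≤ n) (a b : F) (hab : ∀ z₁ z₂ : F, z₁ ^ 2 + a * z₁ * z₂ + b * z₂ ^ 2 = 0 → z₁ = 0 ∧ z₂ = 0) :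
    (∀ (k : ℕ) (ρ : Representation ℂ (Cfsg.Omega F (Cfsg.quadFormMinus (n - 1) F a b)) (Fin k → ℂ)), ρ.IsIrreducible → 2 ≤ k → (Fintype.card F ^ n + 1) * (Fintype.card F ^ (n - 1) - Fintype.card F) / (Fintype.card F ^ 2 - 1) ≤ k) := by
  intro k ρ hρ hk
  obtain ⟨j, rfl⟩ : ∃ j, n = j + 4 := ⟨n - 4, by omega⟩
  exact Nat.div_le_of_le_mul (aux j a b hab k ρ hρ hk)

end Cfsg.Agent.S2346
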