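import Cfsg.Statements.S2347
import Cfsg.Agent.H22.LsE

set_option autoImplicit false
open Cfsg

namespace Cfsg.Agent.S2347

/-- Smallest degree of a non-linear irreducible complex representation of the symplectic group Sp_{2n} over a finite field of odd order q, n ≥ 2: every irreducible complex representation of degree at least 2 has degree at least (q^n − 1)/2, and there is an irreducible complex representation of exactly that degree (a Weil representation). -/
theorem result {F : Type*} [Field F] [Fintype F] [DecidableEq F] (n : ℕ) (hn : 2 ≤ n) (hodd : Odd (Fintype.card F)) :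
    (∀ (k : ℕ) (ρ : Representation ℂ (Matrix.symplecticGroup (Fin n) F) (Fin k → ℂ)), ρ.IsIrreducible → 2 ≤ k → (Fintype.card F ^ n - 1) / 2 ≤ k) ∧
    (∃ ρ : Representation ℂ (Matrix.symplecticGroup (Fin n) F) (Fin ((Fintype.card F ^ n - 1) / 2) → ℂ), ρ.IsIrreducible) := by
  have h2 : (2 : F) ≠ 0 := H22.two_ne_zero_of_odd_card hodd
  let e : Matrix.symplecticGroup (Fin n) F ≃* (H22.spForm n F).O := by
    convert H22.spEquiv n F
  constructor
  · intro k ρ hρ hk
    obtain ⟨E, hE, hd⟩ := H22.Ls.exists_lagr F n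
    have := H22.Ls.sp_odd (H22.spForm_nondeg n) rfl rfl hE h2
      (Submodule.one_le_finrank_iff.1 (by omega))
      (H22.Ls.comp_ne_one e (H22.Ls.ne_one_of_irr hρ (by simpa using hk)))
    rw [hd, Module.finrank_fin_fun] at this
    exact Nat.div_le_of_le_mul this
  · let D := H22.Ls.stdWD F n h2 H22.LC.hψ0
    obtain ⟨ω, hω⟩ := D.exists_weil
    have := H22.Ls.finite_O (Φ := H22.spForm n F)
    have hW : Module.finrank ℂ ((Fin n → F) → ℂ) = Fintype.card F ^ n := by simp
    have h1 : 2 ≤ Fintype.card F ^ n :=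
      Fintype.one_lt_card.trans_le (Nat.le_self_pow (by omega) _)
    have h3 := D.finrank_odd
    obtain ⟨ρ, hρ⟩ := H22.Ls.exists_irr_sub (ρ := ω) (D.U_ne_bot (Or.inr rfl) (hW ▸ h1))
      (fun g => D.apply_mem_U (D.comm_P (hω g)) _) _ (D.isProj (by simp))
      (fun g => D.pr_comm (D.comm_P (hω g)) _) (D.commutant_U hω _)
      (k := (Fintype.card F ^ n - 1) / 2) (by omega)
    exact ⟨_, H17.isIrreducible_comp_of_surjective ρ e.toMonoidHom e.surjective hρ⟩

end Cfsg.Agent.S2347
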