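import Cfsg.Statements.S2352
import Cfsg.Agent.S2353

set_option autoImplicit false
open Cfsg

namespace Cfsg.Agent.S2352


theorem emb (G : Type) [Group G] [Finite G] (n : ℕ) (hn : 2 * Nat.card G ≤ n) :
    ∃ φ : G →* alternatingGroup (Fin n), Function.Injective φ := by
  classical
  have := Fintype.ofFinite G
  obtain ⟨ι⟩ : Nonempty ((G ⊕ G) ↪ Fin n) :=
    Function.Embedding.nonempty_of_card_le (by simp [Nat.card_eq_fintype_card] at hn ⊢; omega)
  let e := Equiv.ofInjective ι ι.2
  let ψ : G →* Equiv.Perm (Fin n) := (Equiv.Perm.extendDomainHom e).comp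
    ((Equiv.Perm.sumCongrHom G G).comp ((MulAction.toPermHom G G).prod (MulAction.toPermHom G G)))
  refine ⟨ψ.codRestrict _ fun g => ?_, fun a b h => ?_⟩
  · rw [Equiv.Perm.mem_alternatingGroup]
    simp [ψ, Equiv.Perm.sign_extendDomain, Equiv.Perm.sign_sumCongr]
  · have h1 : ψ a = ψ b := congrArg Subtype.val h
    have h2 := Equiv.Perm.sumCongrHom_injective (Equiv.Perm.extendDomainHom_injective e h1)
    exact MulAction.toPerm_injective (congrArg Prod.fst h2)


/-- A non-trivial law holds in only finitely many alternating groups: for every non-trivial element w of the free group on countably many generators there is N such that for all n ≥ N some substitution of elements of the alternating group of degree n into w is not the identity. -/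
theorem result (w : FreeGroup ℕ) (hw : w ≠ 1) :
    ∃ N : ℕ, ∀ n : ℕ, N ≤ n → ∃ f : ℕ → alternatingGroup (Fin n), FreeGroup.lift f w ≠ 1 := by
  obtain ⟨N, hN⟩ := Cfsg.Agent.S2353.result.{0} w hw
  obtain ⟨p, hp1, hp⟩ := Nat.exists_infinite_primes N
  have : Fact p.Prime := ⟨hp⟩
  obtain ⟨f, hf⟩ := hN (ZMod p) (by simpa using hp1)
  refine ⟨2 * Nat.card (Matrix.ProjectiveSpecialLinearGroup (Fin 2) (ZMod p)), fun n hn => ?_⟩
  obtain ⟨φ, hφ⟩ := emb _ n hn
  refine ⟨fun i => φ (f i), fun h => hf (hφ ?_)⟩
  rw [map_one, ← h]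
  exact DFunLike.congr_fun (FreeGroup.ext_hom (φ.comp (FreeGroup.lift f)) (FreeGroup.lift fun i => φ (f i))
    (fun i => by simp)) w

end Cfsg.Agent.S2352
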