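import Cfsg.Statements.S2356
import Cfsg.Agent.H22.SuI

set_option autoImplicit false
open Cfsg

namespace Cfsg.Agent.S2356

open H22 H22.SuI H23

/-- Let q be odd, F the field with q² elements, S = SU_3(F) (determinant-one isometries of the standard Hermitian form) and t an involution of S. Then: exactly q(q−1) involutions other than t commute with t; exactly q(q−2)(q²−1) involutions do not commute with t but commute with some involution commuting with t; exactly (q+1)(q²−1) involutions x do not commute with t and admit no involution commuting with both t and x; and every involution can be reached from t in at most three steps, each step going to an involution that commutes with the previous one (the commuting involution graph is connected of diameter 3). -/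
theorem result {F : Type*} [Field F] [Fintype F] {q : ℕ} (hq : Odd q)
    (hF : Fintype.card F = q ^ 2) (t : ↥(Cfsg.SU 3 F q)) (ht : t ≠ 1) (ht2 : t * t = 1) :
    Nat.card {x : ↥(Cfsg.SU 3 F q) // x ≠ 1 ∧ x * x = 1 ∧ x ≠ t ∧ Commute t x} = q * (q - 1) ∧
    Nat.card {x : ↥(Cfsg.SU 3 F q) // x ≠ 1 ∧ x * x = 1 ∧ ¬ Commute t x ∧
        ∃ y : ↥(Cfsg.SU 3 F q), y ≠ 1 ∧ y * y = 1 ∧ Commute t y ∧ Commute y x} = q * (q - 2) * (q ^ 2 - 1) ∧
    Nat.card {x : ↥(Cfsg.SU 3 F q) // x ≠ 1 ∧ x * x = 1 ∧ ¬ Commute t x ∧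
        ∀ y : ↥(Cfsg.SU 3 F q), y ≠ 1 → y * y = 1 → ¬ (Commute t y ∧ Commute y x)} = (q + 1) * (q ^ 2 - 1) ∧
    ∀ x : ↥(Cfsg.SU 3 F q), x ≠ 1 → x * x = 1 →
      ∃ y z : ↥(Cfsg.SU 3 F q), y ≠ 1 ∧ y * y = 1 ∧ z ≠ 1 ∧ z * z = 1 ∧
        Commute t y ∧ Commute y z ∧ Commute z x := by
  classical
  let e : SU 3 F q ≃* SO (hForm hF 3) := by convert suEquiv hF 3
  have h2 : (2 : F) ≠ 0 := H22.two_ne_zero_of_odd_card (hF ▸ hq.pow)
  have hi : ∀ x, SuI.Inv (e x) ↔ x ≠ 1 ∧ x * x = 1 := fun x => by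
    simp only [SuI.Inv, ← map_mul, Ne, e.map_eq_one_iff]
  have hc : ∀ x y, Commute (e x) (e y) ↔ Commute x y := fun x y => by
    simp only [commute_iff_eq, ← map_mul, e.injective.eq_iff]
  have hΦ := hForm_nondeg hF 3
  have h3 : Module.finrank F (Fin 3 → F) = 3 := by simp
  have hq2 := two_le_of_card_eq_sq hF
  have hq3 : 3 ≤ q := by obtain ⟨k, rfl⟩ := hq; omega
  have hT := (hi t).2 ⟨ht, ht2⟩
  have k1 := ncard_D hΦ rfl rfl h2 h3 hT
  have k2 := ncard_two hΦ rfl rfl h2 h3 hT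
  have k3 := ncard_inv hΦ rfl rfl h2 h3
  have h1 : 1 < q ^ 2 := Nat.one_lt_pow two_ne_zero hq2
  have h4 : 2 ≤ q * (q - 1) := le_trans (by omega) (Nat.mul_le_mul hq3 (show 1 ≤ q - 1 by omega))
  refine ⟨?_, ?_, ?_, fun x h h' => ?_⟩
  · rw [← k1]
    exact Nat.card_congr (e.toEquiv.subtypeEquiv fun y => by simp [hi, hc, and_assoc])
  · refine Eq.trans (Eq.trans ?_ k2) ?_
    · exact Nat.card_congr (e.toEquiv.subtypeEquiv fun y => by
        simp [hi, hc, and_assoc, e.surjective.exists])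
    · zify [h1.le, h4, hq2, show 1 ≤ q by omega]
      ring
  · have := Ls.finite_O (Φ := hForm hF 3)
    set A := {x : SO (hForm hF 3) | SuI.Inv x ∧ x ≠ e t ∧ Commute (e t) x}
    set B := {x : SO (hForm hF 3) | SuI.Inv x ∧ ¬ Commute (e t) x ∧
      ∃ y, SuI.Inv y ∧ Commute (e t) y ∧ Commute y x}
    let C := {x : SO (hForm hF 3) | SuI.Inv x ∧ ¬ Commute (e t) x ∧
      ¬ ∃ y, SuI.Inv y ∧ Commute (e t) y ∧ Commute y x}
    have k4 : {x | SuI.Inv x} = insert (e t) (A ∪ (B ∪ C)) := by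
      ext x
      refine ⟨fun h => ?_, ?_⟩
      · by_cases a : x = e t
        · exact .inl a
        by_cases b : Commute (e t) x
        · exact .inr (.inl ⟨h, a, b⟩)
        exact .inr (.inr ((em _).imp (⟨h, b, ·⟩) (⟨h, b, ·⟩)))
      · rintro (rfl | h | h | h)
        exacts [hT, h.1, h.1, h.1]
    rw [k4, Set.ncard_insert_of_notMem (by
      rintro (h | h | h)
      exacts [h.2.1 rfl, h.2.1 (Commute.refl _), h.2.1 (Commute.refl _)]),
      Set.ncard_union_eq (Set.disjoint_left.2 fun x h h' => h'.elim (·.2.1 h.2.2) (·.2.1 h.2.2)),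
      Set.ncard_union_eq (Set.disjoint_left.2 fun x h h' => h'.2.2 h.2.2), k1, k2] at k3
    refine Eq.trans (b := C.ncard) (Nat.card_congr (e.toEquiv.subtypeEquiv fun y => by
      simp only [C, Set.mem_ofPred_eq, MulEquiv.toEquiv_eq_coe, EquivLike.coe_coe, e.surjective.exists, hi, hc,
        and_assoc, not_exists, not_and])) ?_
    zify [h1.le, h4, show 1 ≤ q by omega, show q ≤ q ^ 2 from Nat.le_self_pow two_ne_zero q] at k3 ⊢
    linear_combination k3
  · obtain ⟨y, z, a1, a2, a3, a4, a5⟩ := exists_path hΦ rfl rfl h2 h3 hq3 hT ((hi x).2 ⟨h, h'⟩)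
    obtain ⟨y, rfl⟩ := e.surjective y
    obtain ⟨z, rfl⟩ := e.surjective z
    exact ⟨y, z, ((hi y).1 a1).1, ((hi y).1 a1).2, ((hi z).1 a2).1, ((hi z).1 a2).2, (hc _ _).1 a3,
      (hc _ _).1 a4, (hc _ _).1 a5⟩

end Cfsg.Agent.S2356
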