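import Cfsg.Statements.S2360
import Cfsg.Agent.H22.SuI
import Cfsg.Agent.H17.Ortho

set_option autoImplicit false
open Cfsg

namespace Cfsg.Agent.S2360

open H22 H22.SuI H23

/-- Let q be odd, F the field with q² elements and S = SU_3(F) (determinant-one isometries of the standard Hermitian form). Then all involutions of S are conjugate; there are exactly q²(q²−q+1) of them; the centralizer of an involution has order q(q+1)(q²−1), the order of the full unitary group of degree 2; and for two distinct commuting involutions t and x there is exactly one further involution commuting with both. -/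
theorem result {F : Type*} [Field F] [Fintype F] {q : ℕ} (hq : Odd q)
    (hF : Fintype.card F = q ^ 2) (t : ↥(Cfsg.SU 3 F q)) (ht : t ≠ 1) (ht2 : t * t = 1) :
    (∀ x : ↥(Cfsg.SU 3 F q), x ≠ 1 → x * x = 1 → ∃ g : ↥(Cfsg.SU 3 F q), g * t * g⁻¹ = x) ∧
    Nat.card {x : ↥(Cfsg.SU 3 F q) // x ≠ 1 ∧ x * x = 1} = q ^ 2 * (q ^ 2 - q + 1) ∧
    Nat.card ↥(Subgroup.centralizer ({t} : Set ↥(Cfsg.SU 3 F q))) = q * (q + 1) * (q ^ 2 - 1) ∧
    ∀ x : ↥(Cfsg.SU 3 F q), x ≠ 1 → x * x = 1 → x ≠ t → Commute t x →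
      Nat.card {y : ↥(Cfsg.SU 3 F q) // y ≠ 1 ∧ y * y = 1 ∧ y ≠ t ∧ y ≠ x ∧ Commute t y ∧ Commute x y} = 1 := by
  classical
  let e : SU 3 F q ≃* SO (hForm hF 3) := by convert suEquiv hF 3
  have h2 : (2 : F) ≠ 0 := H22.two_ne_zero_of_odd_card (hF ▸ hq.pow)
  have hi : ∀ x, Inv (e x) ↔ x ≠ 1 ∧ x * x = 1 := fun x => by
    simp only [SuI.Inv, ← map_mul, Ne, e.map_eq_one_iff]
  have hc : ∀ x y, Commute (e x) (e y) ↔ Commute x y := fun x y => by
    simp only [commute_iff_eq, ← map_mul, e.injective.eq_iff]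
  have hΦ := hForm_nondeg hF 3
  have h3 : Module.finrank F (Fin 3 → F) = 3 := by simp
  have k1 : ∀ x : SU 3 F q, x ≠ 1 → x * x = 1 → ∃ g : SU 3 F q, g * t * g⁻¹ = x := fun x h h' => by
    obtain ⟨g, hg⟩ := exists_conj hΦ rfl rfl h2 h3 ((hi t).2 ⟨ht, ht2⟩) ((hi x).2 ⟨h, h'⟩)
    exact ⟨e.symm g, e.injective (by simpa using hg)⟩
  have k2 : Nat.card {x : SU 3 F q // x ≠ 1 ∧ x * x = 1} = q ^ 2 * (q ^ 2 - q + 1) := by
    rw [← ncard_inv hΦ rfl rfl h2 h3]
    exact Nat.card_congr (e.toEquiv.subtypeEquiv fun x => (hi x).symm)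
  refine ⟨k1, k2, ?_, fun x h h' h1 h4 => ?_⟩
  · have hq2 := two_le_of_card_eq_sq hF
    have h1 := card_SU hF 3 (by omega)
    have h4 := H17.card_centralizer_mul_card_isConj t
    rw [Nat.card_congr (Equiv.subtypeEquivRight (q := fun x => x ≠ 1 ∧ x * x = 1) fun x => ⟨fun h => by
      obtain ⟨g, rfl⟩ := isConj_iff.1 h
      exact ⟨by simpa using ht, by simp [mul_assoc, ← mul_assoc t, ht2]⟩,
        fun h => isConj_iff.2 (k1 x h.1 h.2)⟩), k2] at h4
    rw [← h4] at h1
    simp only [Finset.prod_range_succ, Finset.prod_range_zero] at h1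
    rw [if_pos (by decide), if_neg (by decide), if_pos (by decide)] at h1
    have : 1 < q ^ 2 := Nat.one_lt_pow two_ne_zero hq2
    refine Nat.eq_of_mul_eq_mul_left (show 0 < (q + 1) * (q ^ 2 * (q ^ 2 - q + 1)) by positivity) ?_
    zify [this.le, show q ≤ q ^ 2 from Nat.le_self_pow two_ne_zero q] at h1 ⊢
    linear_combination h1
  · have := third hΦ rfl rfl h2 h3 ((hi t).2 ⟨ht, ht2⟩) ((hi x).2 ⟨h, h'⟩) (e.injective.ne h1) ((hc _ _).2 h4)
    rw [← Set.ncard_singleton (e t * e x), ← this]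
    exact Nat.card_congr (e.toEquiv.subtypeEquiv fun y => by
      simp [hi, hc, and_assoc])

end Cfsg.Agent.S2360
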