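import Cfsg.Statements.S2369
import Cfsg.Agent.H24.InvF4
import Cfsg.Agent.S2179

set_option autoImplicit false
set_option maxHeartbeats 400000
open Cfsg

namespace Cfsg.Agent.S2369

section
open H24 Cfsg.Lie St0

theorem card_PJ {ι Φ : Type} [Fintype ι] [DecidableEq ι] [Fintype Φ] [DecidableEq Φ] {R : CD ι Φ} {F : Type*} [Field F]
    {G : Type*} [Group G] [Finite G] {S : St R F G} {z : Tw S} {κ : Type} {O : z.sym.Orb κ} {M : Subgroup G}
    (hM : z.Sub O M) (k : κ) : Nat.card ↥(S.PJ (O.J k) ⊓ M) =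
      Nat.card ↥(S.B ⊓ M) * (Nat.card ↥(S.UK (O.J k) ⊓ z.Fx) + 1) := by
  have hU : S.Um (O.wk k) = S.UK (O.J k) := congrArg S.XS (Set.ext fun _ => RS.mem_invs_wL)
  have hP : hM.nk k ∈ S.PJ (O.J k) := S.LJ_le_PJ _ (hM.nk_LJ k)
  let e : ↥(S.B ⊓ M) × Option ↥(S.UK (O.J k) ⊓ z.Fx) → ↥(S.PJ (O.J k) ⊓ M) := fun p => match p with
    | (b, none) => ⟨b, S.B_le_PJ _ b.2.1, b.2.2⟩
    | (b, some u) => ⟨b * hM.nk k * u, mul_mem (mul_mem (S.B_le_PJ _ b.2.1) hP)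
        (S.B_le_PJ _ (S.U_le_B (S.UK_le_U _ u.2.1))), mul_mem (mul_mem b.2.2 (hM.nk_M k)) (hM.UK_le k u.2)⟩
  have key : ∀ (b b' : ↥(S.B ⊓ M)) (u : ↥(S.UK (O.J k) ⊓ z.Fx)), (b : G) ≠ b' * hM.nk k * u := fun b b' u h =>
    O.wk_ne_one k (S.eq_one_of_mem_cell (S.canon_mem_cell (hM.nk_N k) (hM.nk_rep k) b'.2.1
      (S.U_le_B (S.UK_le_U _ u.2.1))) (h ▸ b.2.1))
  have he : Function.Bijective e := by
    constructor
    · rintro ⟨b, _ | u⟩ ⟨b', _ | u'⟩ h <;> replace h := congrArg Subtype.val h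
      · exact congrArg (·, none) (Subtype.ext h)
      · exact absurd h (key _ _ _)
      · exact absurd h.symm (key _ _ _)
      · obtain ⟨h1, h2⟩ := S.canon_unique (hM.nk_rep k) b.2.1 b'.2.1 (hU.ge u.2.1) (hU.ge u'.2.1) h
        rw [Subtype.ext h1, Subtype.ext h2]
    · rintro ⟨g, hg, hg'⟩
      obtain ⟨w, hw, c⟩ := S.mem_PJ_iff.1 hg
      have hW := R.WJ_le_W _ hw
      rcases O.eq_one_or (z.mem_W1_of_cell hW c (hM.le_Fx hg')) hw with rfl | rfl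
      · exact ⟨(⟨g, S.BK_univ ▸ S.mem_cell_one.1 c, hg'⟩, none), rfl⟩
      · obtain ⟨u, hu, n, hn, hr, u', hu', rfl⟩ := hM.exists_canon hW c hg'
        have := hM.mem_H_of_rep hn ⟨hM.nk_N k, hM.nk_M k⟩ hr (hM.nk_rep k)
        exact ⟨(⟨u * (n * (hM.nk k)⁻¹), mul_mem (S.U_le_B hu.1) (S.H_le_B this.1), mul_mem hu.2 this.2⟩,
          some ⟨u', hU.le hu'.1, hM.le_Fx hu'.2⟩), Subtype.ext (by simp only [e]; group)⟩
  rw [← Nat.card_eq_of_bijective e he, Nat.card_prod, Finite.card_option]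

variable {F : Type*} [Field F] [Fintype F] [CharP F 2]

theorem mem_PJ {J : Set (Fin chevF4.rank)} {g : chevF4.group F} (h : (g : GL _ F) ∈ (tabF4_chk.st F).XS
    {r | tabF4_chk.cd.Pos r ∨ tabF4_chk.cd.InJ J r}) : g ∈ (tabF4_chk.grp F).PJ J := by
  rw [← map_XS _ (tabF4_chk.grp_x F)] at h
  obtain ⟨a, ha, e⟩ := h
  rw [St.PJ_eq, ← Subtype.ext e]
  exact Subgroup.mem_sup_right ha

theorem cent {J J' : Set (Fin chevF4.rank)} (hJ : ∀ i, i ∈ J ↔ nth [0, 1, 1, 0] i = 1)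
    (hJ' : ∀ i, i ∈ J' ↔ nth [0, 1, 1, 0] i = 0) (g : chevF4.group F) :
    (Commute (tabF4_chk.yw F [47, 44]) g → g ∈ (tabF4_chk.grp F).PJ J) ∧
    (Commute (tabF4_chk.yw F [39, 45]) g → g ∈ (tabF4_chk.grp F).PJ J') := by
  obtain ⟨h1, h2⟩ := Cfsg.Agent.S2179.result (F := F) (tabF4_chk.yw F [47, 44]) (tabF4_chk.yw F [39, 45])
    (by rw [tabF4_chk.coe_yw F (by decide +kernel)]; simp) (by rw [tabF4_chk.coe_yw F (by decide +kernel)]; simp)
  have key : ∀ (k : ℕ) (K : Set (Fin chevF4.rank)), (∀ i, i ∈ K ↔ nth [0, 1, 1, 0] i = k) → ∀ r, r < 48 →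
      bor (tabF4.isP r) (tabF4.isJ (fun i => Nat.beq (nth [0, 1, 1, 0] i) k) r) = true → chevF4.rootSubgroup F r ≤
      (tabF4_chk.st F).XS {r | tabF4_chk.cd.Pos r ∨ tabF4_chk.cd.InJ K r} := fun k K hK r hr H => by
    rw [tabF4_chk.rootSubgroup_eq F ⟨r, hr⟩]
    refine XS_mono _ ?_
    rintro _ rfl
    exact (bor_iff.1 H).imp (tabF4_chk.isP_iff ⟨r, hr⟩).1
      (tabF4_chk.isJ_iff (fun i => by rw [Nat.beq_eq, hK]) ⟨r, hr⟩).1
  refine ⟨fun h => mem_PJ (SetLike.le_def.1 ?_ (h1.le ⟨g.2, ?_⟩)),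
    fun h => mem_PJ (SetLike.le_def.1 ?_ (h2.le ⟨g.2, ?_⟩))⟩
  · refine sup_le (sup_le ?_ (key 1 J hJ _ (by decide) (by decide +kernel))) (key 1 J hJ _ (by decide) (by decide +kernel))
    rw [tabF4_chk.posUnipotent_eq]
    exact XS_mono _ fun _ => Or.inl
  · exact Subgroup.mem_centralizer_singleton_iff.2 (congrArg Subtype.val h.eq.symm)
  · refine sup_le (sup_le (sup_le (sup_le (key 0 J' hJ' _ (by decide) (by decide +kernel))
      (key 0 J' hJ' _ (by decide) (by decide +kernel))) (key 0 J' hJ' _ (by decide) (by decide +kernel)))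
      (key 0 J' hJ' _ (by decide) (by decide +kernel))) ?_
    simp only [← and_assoc]
    rw [tabF4_chk.closure_eq F (fun r => chevF4.IsPosRoot r ∧ r ∉ [27, 25, 34, 26]) fun r hr => hr.1.1]
    exact XS_mono _ fun r hr => Or.inl ((tabF4_chk.pos_iff r).2 hr.1)
  · exact Subgroup.mem_centralizer_singleton_iff.2 (congrArg Subtype.val h.eq.symm)

theorem main (h2 : (2 : F) = 0) (f : F →+* F) (hf : ∀ t, f (f t) ^ 2 = t) {a b : chevF4.group F}
    (ha : a ∈ (F4.z h2 f hf).G1 (F4.O h2 f hf)) (hb : b ∈ (F4.z h2 f hf).G1 (F4.O h2 f hf)) (h : orderOf a = 2)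
    (hab : Commute a b) : orderOf b ∣ (Fintype.card F * (Fintype.card F ^ 4 - 1)) ^ 12 := by
  have c := InvF4.cx h2 f hf
  have hM := F4.sub h2 f hf
  have key : ∀ y k, Cj ((F4.z h2 f hf).G1 (F4.O h2 f hf)) a y →
      (∀ g, Commute y g → g ∈ (tabF4_chk.grp F).PJ ((F4.O h2 f hf).J k)) →
      orderOf b ∣ Fintype.card F ^ 12 * (Fintype.card F - 1) ^ 2 * (Fintype.card F ^ nth [1, 2] k + 1) := by
    rintro _ k ⟨g, hg, rfl⟩ H
    have := Subgroup.orderOf_dvd_natCard ((tabF4_chk.grp F).PJ ((F4.O h2 f hf).J k) ⊓ (F4.z h2 f hf).G1 (F4.O h2 f hf))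
      (x := g * b * g⁻¹) ⟨H _ (hab.conj g), Subgroup.mul_mem _ (Subgroup.mul_mem _ hg hb) (Subgroup.inv_mem _ hg)⟩
    rwa [card_PJ hM, hM.card_B, F4.card_U h2 f hf rfl, F4.card_H h2 f hf rfl, F4.card_UK h2 f hf rfl,
      ← MulAut.conj_apply, MulEquiv.orderOf_eq] at this
  obtain ⟨y, hy, e⟩ := InvF4.cover c a ha h
  obtain ⟨n, hn⟩ : ∃ n, Fintype.card F = n + 1 := ⟨_, (Nat.sub_add_cancel Fintype.card_pos).symm⟩
  have e4 : (n + 1) ^ 4 - 1 = n * ((n + 1) + 1) * ((n + 1) ^ 2 + 1) := by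
    rw [Nat.sub_eq_iff_eq_add (Nat.one_le_pow _ _ (by omega))]; ring
  have C := cent (F := F) (F4.hJ h2 f hf 1) (F4.hJ h2 f hf 0)
  simp only [List.mem_cons, List.not_mem_nil, or_false] at hy
  rcases hy with rfl | rfl
  · refine (key _ 1 (e.trans ((c.cjF [] (b := [30, 28]) (by decide +kernel)).trans
      (c.cjW [3, 2, 0, 1, 2, 3, 1, 0] (by decide +kernel)))) fun g => (C g).1).trans ?_
    rw [hn, e4]
    exact ⟨n ^ 10 * (n + 1 + 1) ^ 12 * ((n + 1) ^ 2 + 1) ^ 11, by simp [nth]; ring⟩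
  · refine (key _ 0 (e.trans (c.cjW [2, 1, 2, 3, 1, 2, 0, 1, 2, 1] (by decide +kernel))) fun g => (C g).2).trans ?_
    rw [hn, e4]
    exact ⟨n ^ 10 * (n + 1 + 1) ^ 11 * ((n + 1) ^ 2 + 1) ^ 12, by simp [nth]; ring⟩

end

/-- Let q = 2^(2m+1) with m ≥ 1 and let a, b be commuting elements of the large Ree group ²F₄(q) with a an involution. Then every prime divisor of the order of b divides q(q⁴ − 1). -/
theorem result {K : Type*} [Field K] [Fintype K] (m : ℕ) (hm : 1 ≤ m) (hK : Fintype.card K = 2 ^ (2 * m + 1))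
    (a b : ↥(Cfsg.Lie.twistedF4 K (2 ^ m))) (ha : orderOf a = 2) (hab : Commute a b) :
    (orderOf b).primeFactors ⊆ (2 ^ (2 * m + 1) * ((2 ^ (2 * m + 1)) ^ 4 - 1)).primeFactors := by
  obtain ⟨h2, f, hf, hq⟩ := H24.F4.exists_f hK
  have : CharP K 2 := (CharP.charP_iff_prime_eq_zero Nat.prime_two).2 (by exact_mod_cast h2)
  let φ := H24.InvF4.iso h2 f hf hq
  obtain ⟨a, rfl⟩ := φ.surjective a
  obtain ⟨b, rfl⟩ := φ.surjective b
  have := main h2 f hf a.2 b.2 (by rwa [Subgroup.orderOf_coe, ← φ.orderOf_eq])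
    (congrArg Subtype.val (φ.injective (by rw [map_mul, map_mul, hab.eq]) : a * b = b * a))
  rw [Subgroup.orderOf_coe, ← φ.orderOf_eq, hK] at this
  have h0 : 2 ^ (2 * m + 1) * ((2 ^ (2 * m + 1)) ^ 4 - 1) ≠ 0 := mul_ne_zero (by positivity)
    (Nat.sub_ne_zero_of_lt (Nat.one_lt_pow (by omega) (Nat.one_lt_pow (by omega) one_lt_two)))
  exact (Nat.primeFactors_mono this (pow_ne_zero _ h0)).trans (Nat.primeFactors_pow _ (by omega)).le

end Cfsg.Agent.S2369
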