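import Cfsg.Statements.S2384
import Cfsg.Agent.H16.LA4
-- import your own Cfsg.Agent.* helpers here

set_option autoImplicit false
open Cfsg

namespace Cfsg.Agent.S2384

open H16 Polynomial in
/-- In `SL_n(q)`, `q` a power of the prime `p`, the number of conjugacy classes of elements of order prime to `p` (the semisimple classes) is `q^(n-1)`. -/
theorem result {F : Type*} [Field F] [Fintype F] {q : ℕ} (hq : Fintype.card F = q) (p : ℕ) [Fact p.Prime] [CharP F p] (n : ℕ) (hn : 1 ≤ n) :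
    Nat.card {c : ConjClasses (Matrix.SpecialLinearGroup (Fin n) F) //
      ∃ g : Matrix.SpecialLinearGroup (Fin n) F, ConjClasses.mk g = c ∧ (orderOf g).Coprime p} = q ^ (n - 1) := by
  obtain ⟨k, rfl⟩ : ∃ k, n = k + 1 := ⟨n - 1, by omega⟩
  have key : ∀ g : Matrix.SpecialLinearGroup (Fin (k + 1)) F,
      (∀ q ∈ edM g.1, Irreducible q) ↔ (orderOf g).Coprime p := fun g => by
    rw [← orderOf_toGL, ← ssM_iff_coprime]; rfl
  rw [card_classes_eq (fun g : Matrix.SpecialLinearGroup (Fin (k + 1)) F => (orderOf g).Coprime p)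
    (fun g => g.1.charpoly)]
  · rw [Nat.add_sub_cancel, ← hq, ← Nat.card_eq_fintype_card, ← card_monic_coeff k ((-1 : F) ^ (k + 1))]
    refine Nat.card_congr (Equiv.subtypeEquivRight fun f => ⟨?_, ?_⟩)
    · rintro ⟨g, hg, rfl⟩
      refine ⟨⟨g.1.charpoly_monic, by simp⟩, ?_⟩
      have := g.2
      rw [Matrix.det_eq_sign_charpoly_coeff, Fintype.card_fin] at this
      have h2 : ((-1 : F) ^ (k + 1)) * (-1) ^ (k + 1) = 1 := by rw [← mul_pow]; simp
      linear_combination (-1 : F) ^ (k + 1) * this - g.1.charpoly.coeff 0 * h2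
    · rintro ⟨⟨h1, h2⟩, h3⟩
      obtain ⟨A, h4, h5⟩ := exists_ssM_charpoly (n := Fin (k + 1)) h1 (by simpa using h2)
      have hd : A.det = 1 := by
        rw [Matrix.det_eq_sign_charpoly_coeff, h5, h3, Fintype.card_fin, ← mul_pow]; simp
      exact ⟨⟨A, hd⟩, (key _).1 h4, h5⟩
  · intro g h hg hh
    exact ⟨fun h => by rw [charpoly_eq_prod_edM, charpoly_eq_prod_edM, edM_eq_of_SL_isConj h],
      fun h' => SL_isConj_of_ss (edM_eq_of_charpoly ((key g).2 hg) ((key h).2 hh) h') ((key g).2 hg)⟩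

end Cfsg.Agent.S2384
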