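import Cfsg.Statements.S2385
import Cfsg.Agent.H14.Wall6

set_option autoImplicit false
set_option linter.unusedVariables false
set_option linter.style.haveILetI false
open Cfsg H14.Wall H16 H23 Polynomial
open scoped Matrix

namespace Cfsg.Agent.S2385

/-- In the symplectic group `Sp_{2n}(q)`, `q` a power of the prime `p`, the number of conjugacy classes of elements of order prime to `p` is `q^n`. -/
theorem result {F : Type*} [Field F] [Fintype F] {q : ℕ} (hq : Fintype.card F = q) (p : ℕ) [Fact p.Prime] [CharP F p] (n : ℕ) :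
    Nat.card {c : ConjClasses ↥(Matrix.symplecticGroup (Fin n) F) //
      ∃ g : ↥(Matrix.symplecticGroup (Fin n) F), ConjClasses.mk g = c ∧ (orderOf g).Coprime p} = q ^ n := by
  classical
  rcases Nat.eq_zero_or_pos n with rfl | hn
  · haveI : Subsingleton (Matrix.symplecticGroup (Fin 0) F) :=
      ⟨fun a b => Subtype.ext (Subsingleton.elim _ _)⟩
    rw [pow_zero, Nat.card_eq_one_iff_exists]
    refine ⟨⟨ConjClasses.mk 1, 1, rfl, by simp⟩, ?_⟩
    rintro ⟨_, g, rfl, hg⟩
    exact Subtype.ext (congrArg ConjClasses.mk (Subsingleton.elim _ _))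
  rw [card_classes_eq (fun g : Matrix.symplecticGroup (Fin n) F => (orderOf g).Coprime p)
    (fun g => g.1.charpoly)]
  · have h4 := card_selfdual (RingHom.id F) (2 * n - 1) (ε := 1) (by simp)
    have h5 : Nat.card {a : Fin (2 * n - 1) → F // ∀ i, a i = 1 * RingHom.id F (a (Fin.rev i))} =
        Nat.card (Fin n → F) := by
      refine Nat.card_congr (Equiv.ofBijective (fun a i => a.1 ⟨i, by omega⟩) ⟨?_, ?_⟩)
      · intro a b h
        refine Subtype.ext (funext fun i => ?_)
        by_cases hi : i.1 < n
        · exact congrFun h ⟨i, hi⟩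
        · rw [a.2, b.2]
          congr 2
          exact congrFun h ⟨Fin.rev i, by simp; omega⟩
      · intro b
        refine ⟨⟨fun i => if h : i.1 < n then b ⟨i, h⟩ else b ⟨2 * n - 2 - i, by omega⟩, fun i => ?_⟩,
          funext fun i => by simp⟩
        have := i.2
        simp only [one_mul, RingHom.id_apply, Fin.val_rev]
        split_ifs <;> first | omega | exact congrArg b (Fin.ext (by simp; omega))
    rw [Nat.card_fun, Nat.card_eq_fintype_card (α := F), hq, Nat.card_eq_fintype_card (α := Fin n),
      Fintype.card_fin] at h5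
    rw [← h5, ← h4]
    refine Nat.card_congr (Equiv.subtypeEquivRight fun f => ⟨?_, ?_⟩)
    · rintro ⟨g, hg, rfl⟩
      refine ⟨⟨g.1.charpoly_monic, by simp; omega⟩, ?_, ?_⟩
      · have := SymplecticGroup.det_eq_one g.2
        rw [Matrix.det_eq_sign_charpoly_coeff] at this
        simpa [← two_mul, pow_mul] using this
      · rw [charpoly_eq_prod_edM, dual_prod, _root_.funext dual_id, sp_edM_rev]
    · rintro ⟨⟨h1, h8⟩, h9, h10⟩
      obtain ⟨s, hs, rfl⟩ := exists_monic_irred_factors h1
      have h11 : s.prod.coeff 0 ≠ 0 := by rw [h9]; simp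
      have h12 := map_dual_eq_of_prod (σ := RingHom.id F) (fun _ => rfl) hs h11 h10
      rw [_root_.funext dual_id] at h12
      have h13 : ∀ f ∈ s, f.coeff 0 ≠ 0 := fun f hf h14 => h11 (by
        obtain ⟨t, rfl⟩ := Multiset.exists_cons_of_mem hf
        simp [h14])
      obtain ⟨t, a, b, hst, ht, hb⟩ : ∃ (t : Multiset F[X]) (a b : ℕ),
          s = t + Multiset.replicate a (X - C 1) + Multiset.replicate b (X - C (-1)) ∧
          (∀ f ∈ t, f ≠ X - C 1 ∧ f ≠ X - C (-1)) ∧ ((2 : F) = 0 → b = 0) := by
        refine ⟨(s.filter (· ≠ X - C 1)).filter (· ≠ X - C (-1)), (s.filter (¬ · ≠ X - C 1)).card,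
          ((s.filter (· ≠ X - C 1)).filter (¬ · ≠ X - C (-1))).card, ?_, ?_, ?_⟩
        · rw [← Multiset.eq_replicate_card.2, ← Multiset.eq_replicate_card.2, add_right_comm,
            Multiset.filter_add_not, Multiset.filter_add_not]
          · exact fun f hf => not_not.1 (Multiset.mem_filter.1 hf).2
          · exact fun f hf => not_not.1 (Multiset.mem_filter.1 hf).2
        · intro f hf
          rw [Multiset.mem_filter, Multiset.mem_filter] at hf
          exact ⟨hf.1.2, hf.2⟩
        · intro h2
          rw [Multiset.card_eq_zero, Multiset.filter_eq_nil]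
          intro f hf
          rw [show (-1 : F) = 1 by linear_combination -h2]
          exact not_not.2 (Multiset.mem_filter.1 hf).2
      have hts : ∀ f ∈ t, f ∈ s := fun f hf => by rw [hst]; simp [hf]
      have htr : t.map rev = t := by
        rw [hst, Multiset.map_add, Multiset.map_add, Multiset.map_replicate, Multiset.map_replicate,
          rev_X_sub_C one_ne_zero, rev_X_sub_C (by simp), inv_one, inv_neg, inv_one] at h12
        exact add_right_cancel (add_right_cancel h12)
      have htc : ∀ f ∈ t, IsCoprime (X ^ 2 - 1) f := fun f hf =>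
        isCoprime_of_ne (hs f (hts f hf)).1 (hs f (hts f hf)).2 (ht f hf).1 (ht f hf).2
      have htp : ∀ f ∈ t, IsPP f := fun f hf => isPP_of_irred (hs f (hts f hf)).1 (hs f (hts f hf)).2
      have hev := even_of_free htp (fun f hf => h13 f (hts f hf)) htr htc
      have hdeg : (t.map natDegree).sum + a + b = 2 * n := by
        rw [natDegree_prod_monic fun f hf => (hs f hf).1, hst] at h8
        simp only [Multiset.map_add, Multiset.sum_add, Multiset.map_replicate, natDegree_X_sub_C,
          Multiset.sum_replicate, smul_eq_mul, mul_one] at h8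
        omega
      have ht0 : t.prod.coeff 0 = 1 := by
        have e1 : rev t.prod = t.prod := by
          rw [← dual_id, dual_prod, _root_.funext dual_id, htr]
        have e2 : t.prod.eval 1 ≠ 0 := by
          rw [eval_multiset_prod, Ne, Multiset.prod_eq_zero_iff, Multiset.mem_map]
          rintro ⟨f, hf, h⟩
          obtain ⟨u, v, huv⟩ := htc f hf
          have := congrArg (eval 1) huv
          simp [h] at this
        have e3 := congrArg (eval 1) e1
        have e4 : t.prod.reverse.eval 1 = t.prod.eval 1 := by
          letI : Invertible (1 : F) := invertibleOne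
          have := eval₂_reverse_mul_pow (RingHom.id F) 1 t.prod
          simpa using this
        rw [rev, eval_mul, eval_C, e4, mul_eq_left₀ e2, inv_eq_one] at e3
        exact e3
      have ha : Even a ∧ Even b := by
        by_cases h2 : (2 : F) = 0
        · rw [hb h2] at hdeg ⊢
          obtain ⟨c, hc⟩ := hev
          exact ⟨⟨n - c, by omega⟩, by simp⟩
        · have : Even a := by
            by_contra h
            rw [hst] at h9
            simp [ht0, coeff_zero_eq_eval_zero, (Nat.not_even_iff_odd.1 h).neg_one_pow,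
              ← coeff_zero_eq_eval_zero t.prod] at h9
            exact h2 (by linear_combination -h9)
          obtain ⟨c, hc⟩ := hev
          obtain ⟨d, hd⟩ := this
          exact ⟨⟨d, hd⟩, ⟨n - c - d, by omega⟩⟩
      obtain ⟨⟨a, rfl⟩, ⟨b, rfl⟩⟩ := ha
      obtain ⟨g, hg⟩ := exists_sp_edM (m := n) htp (fun f hf => h13 f (hts f hf)) htr htc a b
        (by omega)
      rw [two_mul, two_mul, ← hst] at hg
      exact ⟨g, (sp_ss_iff p g).1 fun f hf => (hs f (hg ▸ hf)).2, by rw [charpoly_eq_prod_edM, hg]⟩
  · intro g h hg hh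
    exact ⟨fun h => by rw [charpoly_eq_prod_edM, charpoly_eq_prod_edM, edM_eq_of_sp_isConj h],
      fun h' => sp_isConj_of_ss ((sp_ss_iff p g).2 hg)
        (edM_eq_of_charpoly ((sp_ss_iff p g).2 hg) ((sp_ss_iff p h).2 hh) h')⟩

end Cfsg.Agent.S2385
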