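import Cfsg.Statements.S2386
import Cfsg.Agent.H14.Wall3

set_option autoImplicit false
set_option linter.unusedVariables false
set_option linter.style.haveILetI false
open Cfsg H14.Wall H16 H23 Polynomial
open scoped Matrix

namespace Cfsg.Agent.S2386

/-- In the special unitary group `SU_n(q)` (matrices of determinant one over the field with `q²` elements preserving the standard Hermitian form), `q` a power of the prime `p`, the number of conjugacy classes of elements of order prime to `p` is `q^(n-1)`. -/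
theorem result {F : Type*} [Field F] [Fintype F] {q : ℕ} (hF : Fintype.card F = q ^ 2) (p : ℕ) [Fact p.Prime] [CharP F p] (n : ℕ) (hn : 1 ≤ n) :
    Nat.card {c : ConjClasses ↥(Cfsg.SU n F q) // ∃ g : ↥(Cfsg.SU n F q), ConjClasses.mk g = c ∧ (orderOf g).Coprime p} = q ^ (n - 1) := by
  obtain ⟨k, rfl⟩ : ∃ k, n = k + 1 := ⟨n - 1, by omega⟩
  have key : ∀ g : SU (k + 1) F q, (∀ f ∈ edM g.1.1, Irreducible f) ↔ (orderOf g).Coprime p :=
    fun g => by rw [← Subgroup.orderOf_coe, ← orderOf_toGL, ← ssM_iff_coprime]; rfl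
  have h2 : ((-1 : F) ^ (k + 1)) * (-1) ^ (k + 1) = 1 := by rw [← mul_pow]; simp
  have h3 : conj hF ((-1 : F) ^ (k + 1)) = (-1) ^ (k + 1) := by rw [map_pow, map_neg, map_one]
  rw [card_classes_eq (fun g : SU (k + 1) F q => (orderOf g).Coprime p) (fun g => g.1.1.charpoly)]
  · have h4 := card_selfdual (conj hF) k (ε := (-1 : F) ^ (k + 1)) (by rw [h3, h2])
    let τ : (Fin k → F) →+ (Fin k → F) :=
      { toFun := fun a i => (-1 : F) ^ (k + 1) * conj hF (a (Fin.rev i))
        map_zero' := by ext i; simp only [Pi.zero_apply, map_zero, mul_zero]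
        map_add' := fun a b => by ext i; simp only [Pi.add_apply, map_add, mul_add] }
    have h5 := card_fixed_sq (conj_conj hF) (conj_ne_id hF) τ (fun a => by
      ext i
      change _ * conj hF (_ * conj hF _) = _
      rw [map_mul, h3, conj_conj, Fin.rev_rev, ← mul_assoc, h2, one_mul]) (fun c a => by
      ext i
      change _ * conj hF (_ * _) = _ * (_ * _)
      rw [map_mul]; ring)
    rw [Nat.card_fun, Nat.card_eq_fintype_card (α := F), hF, Nat.card_eq_fintype_card (α := Fin k),
      Fintype.card_fin, ← pow_mul, mul_comm, pow_mul] at h5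
    have h6 := Nat.pow_left_injective (by norm_num) h5
    have h7 : Nat.card {x // τ x = x} =
        Nat.card {a : Fin k → F // ∀ i, a i = (-1 : F) ^ (k + 1) * conj hF (a (Fin.rev i))} :=
      Nat.card_congr (Equiv.subtypeEquivRight fun a =>
        ⟨fun h i => (congrFun h i).symm, fun h => funext fun i => (h i).symm⟩)
    rw [Nat.add_sub_cancel, ← h6, h7, ← h4]
    refine Nat.card_congr (Equiv.subtypeEquivRight fun f => ⟨?_, ?_⟩)
    · rintro ⟨g, hg, rfl⟩
      refine ⟨⟨g.1.1.charpoly_monic, by simp⟩, ?_, ?_⟩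
      · have := g.1.2
        rw [Matrix.det_eq_sign_charpoly_coeff, Fintype.card_fin] at this
        linear_combination (-1 : F) ^ (k + 1) * this - g.1.1.charpoly.coeff 0 * h2
      · rw [charpoly_eq_prod_edM, dual_prod, edM_dual (conj_conj hF) ((mem_SU_ct hF).1 g.2)]
    · rintro ⟨⟨h1, h8⟩, h9, h10⟩
      obtain ⟨s, hs, rfl⟩ := exists_monic_irred_factors h1
      have h11 : s.prod.coeff 0 ≠ 0 := by rw [h9]; simp
      obtain ⟨g, hg⟩ := exists_GU_edM hF (n := k + 1) (s := s)
        (fun f hf => isPP_of_irred (hs f hf).1 (hs f hf).2) (fun f hf h12 => h11 (by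
          obtain ⟨t, rfl⟩ := Multiset.exists_cons_of_mem hf
          simp [h12])) (by rw [← natDegree_prod_monic fun f hf => (hs f hf).1, h8])
        (map_dual_eq_of_prod (conj_conj hF) hs h11 h10)
      have hc : g.1.1.charpoly = s.prod := by rw [charpoly_eq_prod_edM, hg]
      have hd : g.1.1.det = 1 := by
        rw [Matrix.det_eq_sign_charpoly_coeff, hc, h9, Fintype.card_fin, h2]
      exact ⟨mkSU hF g.1.1 ((mem_GU_ct hF).1 g.2) hd, (key _).1 (fun f hf => (hs f (hg ▸ hf)).2), hc⟩
  · intro g h hg hh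
    exact ⟨fun h => by rw [charpoly_eq_prod_edM, charpoly_eq_prod_edM, edM_eq_of_SU_isConj h],
      fun h' => SU_isConj_of_ss hF (edM_eq_of_charpoly ((key g).2 hg) ((key h).2 hh) h')
        ((key g).2 hg)⟩

end Cfsg.Agent.S2386
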