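import Cfsg.Statements.S2387
import Cfsg.Agent.H16.LA4
-- import your own Cfsg.Agent.* helpers here

set_option autoImplicit false
open scoped MatrixGroups
open Cfsg

namespace Cfsg.Agent.S2387

open H16 Polynomial in
/-- In `GL_n(q)` with `n ≥ 1`, `q` a power of the prime `p`, the number of conjugacy classes of elements of order prime to `p` (diagonalisable over the algebraic closure; determined by the characteristic polynomial) is `(q - 1) q^(n-1)`. -/
theorem result {F : Type*} [Field F] [Fintype F] {q : ℕ} (hq : Fintype.card F = q) (p : ℕ) [Fact p.Prime] [CharP F p] (n : ℕ) (hn : 1 ≤ n) :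
    Nat.card {c : ConjClasses (GL (Fin n) F) // ∃ g : GL (Fin n) F, ConjClasses.mk g = c ∧ (orderOf g).Coprime p} = (q - 1) * q ^ (n - 1) := by
  obtain ⟨k, rfl⟩ : ∃ k, n = k + 1 := ⟨n - 1, by omega⟩
  rw [card_classes_eq (fun g : GL (Fin (k + 1)) F => (orderOf g).Coprime p) (fun g => g.1.charpoly)]
  · have e : {a : F[X] // ∃ g : GL (Fin (k + 1)) F, (orderOf g).Coprime p ∧ g.1.charpoly = a} ≃
        Σ c : Fˣ, {f : F[X] // (f.Monic ∧ f.natDegree = k + 1) ∧ f.coeff 0 = c} := by
      symm
      refine Equiv.ofBijective (fun x => ⟨x.2.1, ?_⟩) ⟨?_, ?_⟩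
      · obtain ⟨c, f, ⟨h1, h2⟩, h3⟩ := x
        obtain ⟨A, h4, h5⟩ := exists_ssM_charpoly (n := Fin (k + 1)) h1 (by simpa using h2)
        have hd : A.det ≠ 0 := by
          rw [Matrix.det_eq_sign_charpoly_coeff, h5, h3]; simp
        exact ⟨Matrix.GeneralLinearGroup.mkOfDetNeZero A hd, (ssM_iff_coprime p _).1 h4, h5⟩
      · rintro ⟨c, f, h1, h2⟩ ⟨c', f', h1', h2'⟩ h
        obtain rfl : f = f' := congrArg Subtype.val h
        obtain rfl : c = c' := Units.ext (h2.symm.trans h2')
        rfl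
      · rintro ⟨_, g, hg, rfl⟩
        have hd : g.1.charpoly.coeff 0 ≠ 0 := by
          have := g.det_ne_zero
          rw [Matrix.det_eq_sign_charpoly_coeff] at this
          exact right_ne_zero_of_mul this
        exact ⟨⟨Units.mk0 _ hd, _, ⟨g.1.charpoly_monic, by simp⟩, rfl⟩, rfl⟩
    classical
    rw [Nat.card_congr e]
    have : ∀ c : Fˣ, Finite {f : F[X] // (f.Monic ∧ f.natDegree = k + 1) ∧ f.coeff 0 = c} := fun c =>
      Nat.finite_of_card_ne_zero (by rw [card_monic_coeff]; exact (pow_pos Nat.card_pos _).ne')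
    rw [Nat.card_sigma]
    simp [card_monic_coeff, Fintype.card_units, hq]
  · intro g h hg hh
    rw [GL_isConj_iff]
    exact ⟨fun h => by rw [charpoly_eq_prod_edM, charpoly_eq_prod_edM, h],
      edM_eq_of_charpoly ((ssM_iff_coprime p g).2 hg) ((ssM_iff_coprime p h).2 hh)⟩

end Cfsg.Agent.S2387
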