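import Cfsg.Statements.S2450
import Cfsg.Agent.H4.Tor5

set_option autoImplicit false
open Cfsg

namespace Cfsg.Agent.S2450

/-- The Arad–Herzog conjecture for PSL(2,q): let F be a finite field with q ≥ 4 elements. For any two non-identity elements a, b of PSL(2,F), the set of products of a conjugate of a with a conjugate of b is not a single conjugacy class. -/
theorem result {F : Type*} [Field F] [Fintype F] (h4 : 4 ≤ Fintype.card F)
    (a b : Matrix.ProjectiveSpecialLinearGroup (Fin 2) F) (ha : a ≠ 1) (hb : b ≠ 1) (c : Matrix.ProjectiveSpecialLinearGroup (Fin 2) F) :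
    {g : Matrix.ProjectiveSpecialLinearGroup (Fin 2) F | ∃ u v : Matrix.ProjectiveSpecialLinearGroup (Fin 2) F, g = (u * a * u⁻¹) * (v * b * v⁻¹)} ≠ {g | IsConj c g} := by
  intro H
  obtain ⟨A, rfl⟩ := QuotientGroup.mk_surjective a
  obtain ⟨B, rfl⟩ := QuotientGroup.mk_surjective b
  obtain ⟨C, rfl⟩ := QuotientGroup.mk_surjective c
  obtain ⟨u, hu⟩ := H4.exists_conj_lower (H4.not_sc_of_ne_one ha)
  obtain ⟨v, hv⟩ := H4.exists_conj_lower (H4.not_sc_of_ne_one hb)
  have k : ∀ s : F, ((u * A * u⁻¹) * (H4.upT s * (v * B * v⁻¹) * (H4.upT s)⁻¹)).1.trace = C.1.trace ∨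
      ((u * A * u⁻¹) * (H4.upT s * (v * B * v⁻¹) * (H4.upT s)⁻¹)).1.trace = -C.1.trace := fun s => by
    obtain ⟨w, hw⟩ := isConj_iff.1 ((Set.ext_iff.1 H (((u * A * u⁻¹) * (H4.upT s * (v * B * v⁻¹) * (H4.upT s)⁻¹) :
      Matrix.SpecialLinearGroup (Fin 2) F) : Matrix.ProjectiveSpecialLinearGroup (Fin 2) F)).1
      ⟨u, (H4.upT s * v : Matrix.SpecialLinearGroup (Fin 2) F), by
        simp only [QuotientGroup.mk_mul, QuotientGroup.mk_inv]; group⟩)
    obtain ⟨w, rfl⟩ := QuotientGroup.mk_surjective w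
    have h1 := congrArg H4.psl2pgl hw
    rw [← QuotientGroup.mk_inv, ← QuotientGroup.mk_mul, ← QuotientGroup.mk_mul, H4.psl2pgl_mk,
      H4.psl2pgl_mk, H4.smk_eq_iff] at h1
    have h2 := H4.sl_trace_of_isConj (isConj_iff.2 ⟨w, (rfl : w * C * w⁻¹ = _)⟩)
    refine h1.imp (fun h => ?_) fun h => ?_
    · rw [h, h2]
    · rw [h, H4.sl_neg_val, Matrix.trace_neg, h2]
  simp only [H4.trace_upT_conj] at k
  have h0 := neg_ne_zero.2 (mul_ne_zero hu hv)
  generalize -((u * A * u⁻¹).1 1 0 * (v * B * v⁻¹).1 1 0) = α at k h0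
  generalize (u * A * u⁻¹).1 0 0 * (v * B * v⁻¹).1 1 0 + (u * A * u⁻¹).1 1 0 * ((v * B * v⁻¹).1 1 1 - (v * B * v⁻¹).1 0 0) -
      (u * A * u⁻¹).1 1 1 * (v * B * v⁻¹).1 1 0 = β at k
  generalize (u * A * u⁻¹ * (v * B * v⁻¹)).1.trace = γ at k
  have q : ∀ δ : F, (Polynomial.C α * Polynomial.X ^ 2 + Polynomial.C β * Polynomial.X + Polynomial.C δ).natDegree = 2 :=
    fun δ => Polynomial.natDegree_quadratic h0
  have q0 : ∀ δ : F, Polynomial.C α * Polynomial.X ^ 2 + Polynomial.C β * Polynomial.X + Polynomial.C δ ≠ 0 :=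
    fun δ h => by have := q δ; rw [h] at this; simp at this
  by_cases h2 : (2 : F) = 0
  · refine q0 (γ - C.1.trace) (Polynomial.eq_zero_of_natDegree_lt_card_of_eval_eq_zero _
      Function.injective_id (fun s => ?_) (by rw [q]; omega))
    simp only [Polynomial.eval_add, Polynomial.eval_mul, Polynomial.eval_C, Polynomial.eval_pow,
      Polynomial.eval_X, id]
    rcases k s with h | h
    · linear_combination h
    · linear_combination h - C.1.trace * h2
  · have := H4.odd_card_of_two_ne_zero h2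
    refine mul_ne_zero (q0 (γ - C.1.trace)) (q0 (γ + C.1.trace))
      (Polynomial.eq_zero_of_natDegree_lt_card_of_eval_eq_zero _ Function.injective_id (fun s => ?_)
      (by rw [Polynomial.natDegree_mul (q0 _) (q0 _), q, q]; omega))
    simp only [Polynomial.eval_add, Polynomial.eval_mul, Polynomial.eval_C, Polynomial.eval_pow,
      Polynomial.eval_X, id]
    rcases k s with h | h
    · exact mul_eq_zero_of_left (by linear_combination h) _
    · exact mul_eq_zero_of_right _ (by linear_combination h)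

end Cfsg.Agent.S2450
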