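import Cfsg.Statements.S2455
import Cfsg.Agent.H4.Tor5

set_option autoImplicit false
open Cfsg

namespace Cfsg.Agent.S2455

/-- A strong covering result in the direction of Thompson's conjecture (non-identity elements) for PSL(2,q), q odd: let F be a finite field of odd characteristic p with at least 5 elements and let x ∈ PSL(2,F) have order greater than 2 and not divisible by p (so x is not unipotent). Then every non-identity element of PSL(2,F) is a product of two conjugates of x. -/
theorem result {F : Type*} [Field F] [Fintype F] (p : ℕ) [Fact p.Prime] [CharP F p] (hp : p ≠ 2) (h5 : 5 ≤ Fintype.card F)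
    (x : Matrix.ProjectiveSpecialLinearGroup (Fin 2) F) (hx2 : 2 < orderOf x) (hxp : ¬ p ∣ orderOf x) : ∀ g : Matrix.ProjectiveSpecialLinearGroup (Fin 2) F, g ≠ 1 → ∃ u v : Matrix.ProjectiveSpecialLinearGroup (Fin 2) F, g = (u * x * u⁻¹) * (v * x * v⁻¹) := by
  intro g hg
  have h2 := H4.two_ne_zero_of_char (F := F) p hp
  obtain ⟨X, rfl⟩ := QuotientGroup.mk_surjective x
  have h1 : (X : Matrix.ProjectiveSpecialLinearGroup (Fin 2) F) ≠ 1 := fun h => by
    rw [h, orderOf_one] at hx2; omega
  have hX := H4.disc_of_not_dvd p h1 hxp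
  have hX0 : X.1.trace ≠ 0 := fun h => by
    rw [← H4.orderOf_psl, H4.psl2pgl_mk, H4.ord2_of_trace h2 h] at hx2; omega
  have hX' : (-X).1.trace = -X.1.trace := by rw [H4.sl_neg_val, Matrix.trace_neg]
  have k : ∀ G : Matrix.SpecialLinearGroup (Fin 2) F, ¬ H4.Sc G.1 → G.1.trace ≠ -2 →
      ∃ u v : Matrix.ProjectiveSpecialLinearGroup (Fin 2) F,
        (G : Matrix.ProjectiveSpecialLinearGroup (Fin 2) F) = (u * X * u⁻¹) * (v * X * v⁻¹) := by
    intro G hG h3
    obtain ⟨x, z, h⟩ : ∃ x z : F, x * x + G.1.trace * x * z + z * z - X.1.trace * x - (-X).1.trace * z + 1 = 0 := by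
      by_cases h4 : G.1.trace = 2
      · obtain ⟨z, hz⟩ : ∃ z, z * (2 * X.1.trace) = -1 := ⟨_, div_mul_cancel₀ _ (mul_ne_zero h2 hX0)⟩
        exact ⟨-z, z, by rw [h4, hX']; linear_combination hz⟩
      · exact H4.exists_conic (fun h => (mul_eq_zero.1 (show (G.1.trace - 2) * (G.1.trace + 2) = 0 by
          linear_combination h)).elim (fun h => h4 (sub_eq_zero.1 h))
          fun h => h3 (eq_neg_of_add_eq_zero_left h)) _ _
    obtain ⟨u, v, h4⟩ := H4.exists_mul_of_trace hG hX (by rwa [hX', neg_mul_neg]) h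
    refine ⟨u, v, ?_⟩
    rw [h4, ← H4.psl_neg X]
    simp only [QuotientGroup.mk_mul, QuotientGroup.mk_inv, H4.psl_neg]
  obtain ⟨G, rfl⟩ := QuotientGroup.mk_surjective g
  by_cases h3 : G.1.trace = -2
  · rw [← H4.psl_neg G] at hg ⊢
    refine k _ (H4.not_sc_of_ne_one hg) fun h => ?_
    rw [H4.sl_neg_val, Matrix.trace_neg, h3] at h
    exact mul_ne_zero h2 h2 (by linear_combination h)
  · exact k _ (H4.not_sc_of_ne_one hg) h3

end Cfsg.Agent.S2455
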