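import Cfsg.Statements.S2456
import Cfsg.Agent.H4.Tor5

set_option autoImplicit false
open Cfsg

namespace Cfsg.Agent.S2456

/-- A strong covering result in the direction of Thompson's conjecture (non-identity elements) for PSL(2,q), q even: let F be a finite field of characteristic 2 with q ≥ 4 elements and let x ∈ PSL(2,F) have order greater than 2 and not dividing q + 1. Then every non-identity element of PSL(2,F) is a product of two conjugates of x. -/
theorem result {F : Type*} [Field F] [Fintype F] [CharP F 2] (h4 : 4 ≤ Fintype.card F)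
    (x : Matrix.ProjectiveSpecialLinearGroup (Fin 2) F) (hx2 : 2 < orderOf x) (hxq : ¬ orderOf x ∣ Fintype.card F + 1) : ∀ g : Matrix.ProjectiveSpecialLinearGroup (Fin 2) F, g ≠ 1 → ∃ u v : Matrix.ProjectiveSpecialLinearGroup (Fin 2) F, g = (u * x * u⁻¹) * (v * x * v⁻¹) := by
  intro g hg
  have h2 : (2 : F) = 0 := CharTwo.two_eq_zero
  obtain ⟨X, rfl⟩ := QuotientGroup.mk_surjective x
  obtain ⟨G, rfl⟩ := QuotientGroup.mk_surjective g
  have hd := H4.gcd_eq_one (H4.even_card_of_two h2) (by omega)
  obtain ⟨a, b, hab⟩ : ∃ a b, H4.Sp X.1 a b := by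
    rcases H4.m2_cases X.1 with h | ⟨a, h⟩ | h | h
    · rw [(QuotientGroup.eq_one_iff X).2 (H4.sl_mem_center_iff.2 h), orderOf_one] at hx2; omega
    · rw [← H4.orderOf_psl, H4.psl2pgl_mk, H4.smk_un_pow 2 h] at hx2; omega
    · exact h
    · have := H4.orderOf_psl_dvd (g := H4.sgl X) h.disc_ne_zero (x := X) (H4.pmk_mem_pT_self _)
      rw [H4.card_pT_ell h, hd, Nat.div_one] at this
      exact (hxq this).elim
  obtain ⟨x, z, h⟩ : ∃ x z : F, x * x + G.1.trace * x * z + z * z - X.1.trace * x - X.1.trace * z + 1 = 0 := by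
    by_cases h4 : G.1.trace = 0
    · refine ⟨a, 0, ?_⟩
      have := hab.2.2
      rw [X.2] at this
      rw [hab.2.1]; linear_combination this
    · exact H4.exists_conic (fun h => mul_ne_zero h4 h4 (by linear_combination h + 2 * h2)) _ _
  obtain ⟨u, v, h4⟩ := H4.exists_mul_of_trace (H4.not_sc_of_ne_one hg) hab.sl_disc hab.sl_disc h
  exact ⟨u, v, by rw [h4]; rfl⟩

end Cfsg.Agent.S2456
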