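import Cfsg.Statements.S2459
import Cfsg.Agent.H18.Sour
open Matrix H18.Sour

set_option autoImplicit false
open Cfsg

namespace Cfsg.Agent.S2459



/-- A form of Thompson's conjecture for PSL(3,q), q > 2 (covering the non-identity elements), with a semisimple class: for F a finite field of characteristic p with more than 2 elements there is an element x of PSL(3,F) of order prime to p such that every non-identity element of PSL(3,F) is a product of two conjugates of x. -/
theorem result {F : Type*} [Field F] [Fintype F] (p : ℕ) [Fact p.Prime] [CharP F p] (h3 : 3 ≤ Fintype.card F) :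
    ∃ x : Matrix.ProjectiveSpecialLinearGroup (Fin 3) F, ¬ p ∣ orderOf x ∧ ∀ g : Matrix.ProjectiveSpecialLinearGroup (Fin 3) F, g ≠ 1 → ∃ u v : Matrix.ProjectiveSpecialLinearGroup (Fin 3) F, g = (u * x * u⁻¹) * (v * x * v⁻¹) := by
  classical
  have hp := (Fact.out : p.Prime)
  have key : ∀ (D : Matrix (Fin 3) (Fin 3) F) (hD : D.det = 1) (n : ℕ), D ^ n = 1 → ¬ p ∣ n →
      ¬ p ∣ orderOf (QuotientGroup.mk ⟨D, hD⟩ : ProjectiveSpecialLinearGroup (Fin 3) F) :=
    fun D hD n h1 h2 h3 => h2 (h3.trans (orderOf_dvd_of_pow_eq_one 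
      ((QuotientGroup.mk_pow _ _ _).symm.trans (congrArg _ (show _ = (1 : SpecialLinearGroup (Fin 3) F) from
        Subtype.ext h1)))))
  have hq : p ∣ Fintype.card F := by
    obtain ⟨n, -, hn⟩ := FiniteField.card F p
    exact hn ▸ dvd_pow_self p n.ne_zero
  rcases h3.eq_or_lt with h | h
  · obtain rfl : p = 3 := (Nat.prime_dvd_prime_iff_eq hp Nat.prime_three).1 (h ▸ hq)
    have h3 : (3 : F) = 0 := CharP.cast_eq_zero F 3
    have hD : (!![1, 0, 0; 0, 0, 2; 0, 1, 0] : Matrix _ _ F).det = 1 := by
      simp [det_fin_three]; linear_combination -h3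
    refine ⟨_, key _ hD 4 ?_ (by decide), psl_cover hD (fun t ht => ⟨t • 1, by simp, ?_⟩)
      fun A => good_three h.symm⟩
    · have : (2 : F) * 2 = 1 := by linear_combination h3
      simp [pow_succ, this, one_fin_three]
    · simpa [← h] using FiniteField.pow_card t
  · obtain ⟨a, ha⟩ : ∃ a : F, a ∉ ({0, 1, -1} : Finset F) := by
      by_contra h'
      push Not at h'
      exact absurd ((Finset.card_le_card fun x _ => h' x).trans Finset.card_le_three) h.not_ge
    simp only [Finset.mem_insert, Finset.mem_singleton, not_or] at ha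
    have h1 : a * a ≠ 1 := fun e => (mul_self_eq_one_iff.1 e).elim ha.2.1 ha.2.2
    have hD : (!![1, 0, 0; 0, a, 0; 0, 0, a⁻¹] : Matrix _ _ F).det = 1 := by
      simp [det_fin_three, ha.1]
    refine ⟨_, key _ hD (Fintype.card F - 1) ?_ fun h' => hp.one_lt.ne' (Nat.dvd_one.1 ?_),
      psl_cover hD (fun t ht => ⟨!![t, 0, 0; 0, 1, 0; 0, 0, 1], by simp, by simp [det_fin_three]⟩)
      fun A => good_all ha.1 h1⟩
    · have : (!![1, 0, 0; 0, a, 0; 0, 0, a⁻¹] : Matrix _ _ F) = diagonal ![1, a, a⁻¹] := by
        ext i j; fin_cases i <;> fin_cases j <;> simp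
      rw [this, diagonal_pow, ← diagonal_one]
      congr 1
      ext i
      fin_cases i <;> simp [FiniteField.pow_card_sub_one_eq_one a ha.1]
    · simpa [Nat.sub_sub_self (show 1 ≤ Fintype.card F by omega)] using Nat.dvd_sub hq h'

end Cfsg.Agent.S2459
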