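import Cfsg.Statements.S2460
import Cfsg.Agent.H7.CC2

set_option autoImplicit false
open Cfsg

namespace Cfsg.Agent.S2460



/-- A form of Thompson's conjecture for the simple groups PSp(4,q), q ≥ 3 (covering the non-identity elements), with a semisimple class: for F a finite field of characteristic p with at least 3 elements there is an element x of PSp(4,F) of order prime to p such that every non-identity element of PSp(4,F) is a product of two conjugates of x. -/
theorem result {F : Type*} [Field F] [Fintype F] (p : ℕ) [Fact p.Prime] [CharP F p] (h3 : 3 ≤ Fintype.card F) :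
    ∃ x : Cfsg.PSp 2 F, ¬ p ∣ orderOf x ∧ ∀ g : Cfsg.PSp 2 F, g ≠ 1 → ∃ u v : Cfsg.PSp 2 F, g = (u * x * u⁻¹) * (v * x * v⁻¹) := by
  obtain ⟨A, s, g0, hA, hs, h0, hpow⟩ := H7.CC.exists_A h3
  have hp := (Fact.out : p.Prime)
  have hq : p ∣ Fintype.card F ^ 2 := by
    obtain ⟨n, -, hn⟩ := FiniteField.card F p
    exact dvd_pow (hn ▸ dvd_pow_self p n.ne_zero) two_ne_zero
  have h1 : 1 ≤ Fintype.card F ^ 2 := Nat.one_le_pow _ _ (by omega)
  refine ⟨QuotientGroup.mk' _ (H7.CC.hG A), fun hd => hp.one_lt.ne' (Nat.dvd_one.1 ?_), fun g hg => ?_⟩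
  · have := hd.trans (orderOf_dvd_of_pow_eq_one (n := Fintype.card F ^ 2 - 1) (by
      rw [← map_pow, ← map_pow, hpow, map_one, map_one]))
    simpa [Nat.sub_sub_self h1] using Nat.dvd_sub hq this
  · obtain ⟨γ, rfl⟩ := QuotientGroup.mk'_surjective _ g
    have hc : ∀ ε : F, γ.val ≠ ε • 1 := fun ε e => hg ((QuotientGroup.eq_one_iff _).2
      (Subgroup.mem_center_iff.2 fun g => Subtype.ext (by simp [e])))
    obtain ⟨z, x, y, hz, hx, hy, rfl⟩ := H7.CC.cover hA hs h0 γ (by simpa using hc 1) (by simpa using hc (-1))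
    obtain ⟨u, rfl⟩ := isConj_iff.1 hx
    obtain ⟨v, rfl⟩ := isConj_iff.1 hy
    refine ⟨QuotientGroup.mk' _ u, QuotientGroup.mk' _ v, ?_⟩
    rw [map_mul, show QuotientGroup.mk' _ z = 1 from (QuotientGroup.eq_one_iff _).2 hz, one_mul]
    simp only [map_mul, map_inv]

end Cfsg.Agent.S2460
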