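import Mathlib
import Cfsg.Statements.S2466
import Cfsg.Agent.H8.SymP

set_option autoImplicit false
open Cfsg

namespace Cfsg.Agent.S2466

theorem result (n r s : ℕ) (hr : r.Prime) (hs : s.Prime) (hr2 : r ≠ 2) (hs2 : s ≠ 2) (hrs : r ≠ s) (hrn : r ≤ n) (hsn : s ≤ n) :
    (r * s ∈ Set.range (orderOf : alternatingGroup (Fin n) → ℕ)) ↔ r + s ≤ n := by
  constructor
  · rintro ⟨g, hg⟩
    simpa using H8.Sy.add_le_of_dvd_orderOf (σ := g.1) hr hs hrs (by rw [Subgroup.orderOf_coe, hg])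
  · intro h
    exact H8.Sy.exists_alt_odd hr hs hrs hr2 hs2 (by simpa using h)

end Cfsg.Agent.S2466
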