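import Mathlib
import Cfsg.Statements.S2467
import Cfsg.Agent.H8.SymP

set_option autoImplicit false
open Cfsg

namespace Cfsg.Agent.S2467

theorem result (n r : ℕ) (hn : 4 ≤ n) (hr : r.Prime) (hr2 : r ≠ 2) (hrn : r ≤ n) :
    (2 * r ∈ Set.range (orderOf : alternatingGroup (Fin n) → ℕ)) ↔ r + 4 ≤ n := by
  constructor
  · rintro ⟨⟨σ, hσ⟩, hg⟩
    rw [Subgroup.orderOf_mk] at hg
    have k : ∀ q : ℕ, q.Prime → q ∣ orderOf σ → ∃ a ∈ σ.cycleType, q ∣ a := fun q hq h => by
      rw [← Equiv.Perm.lcm_cycleType] at h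
      exact (Prime.exists_mem_multiset_dvd hq.prime
        (h.trans (Multiset.lcm_dvd.2 fun b hb => Multiset.dvd_prod hb)))
    obtain ⟨a, ha, pa⟩ := k r hr (hg ▸ Dvd.intro_left _ rfl)
    obtain ⟨b, hb, qb⟩ := k 2 Nat.prime_two (hg ▸ Dvd.intro _ rfl)
    have s : σ.cycleType.sum ≤ n := by simpa using σ.sum_cycleType_le
    have e : Even (σ.cycleType.sum + Multiset.card σ.cycleType) := by
      have := Equiv.Perm.mem_alternatingGroup.1 hσ
      rw [Equiv.Perm.sign_of_cycleType] at this
      exact (neg_one_pow_eq_one_iff_even (by decide)).1 this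
    have h2 : ∀ c ∈ σ.cycleType, 2 ≤ c := fun c => Equiv.Perm.two_le_of_mem_cycleType
    have h3 : ∀ t : Multiset ℕ, (∀ c ∈ t, 2 ≤ c) → Odd (t.sum + Multiset.card t) → 2 ≤ t.sum := by
      intro t h1 h4
      by_cases h0 : t = 0
      · simp [h0] at h4
      · obtain ⟨c, hc⟩ := Multiset.exists_mem_of_ne_zero h0
        exact (h1 c hc).trans (Multiset.single_le_sum (fun _ _ => Nat.zero_le _) c hc)
    have r3 : 3 ≤ r := by have := hr.two_le; omega
    have a0 := h2 a ha
    obtain ⟨t, ht⟩ := Multiset.exists_cons_of_mem ha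
    rw [ht] at s e h2 hb
    simp only [Multiset.sum_cons, Multiset.card_cons] at s e
    by_cases h4 : 2 ∣ a
    · have := Nat.le_of_dvd (by omega)
        (((Nat.coprime_primes Nat.prime_two hr).2 hr2.symm).mul_dvd_of_dvd_of_dvd h4 pa)
      have := h3 t (fun c hc => h2 c (Multiset.mem_cons_of_mem hc))
        (by rw [Nat.odd_iff]; rw [Nat.even_iff] at e; omega)
      omega
    · obtain ⟨t', rfl⟩ := Multiset.exists_cons_of_mem
        ((Multiset.mem_cons.1 hb).resolve_left fun e => h4 (e ▸ qb))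
      simp only [Multiset.sum_cons, Multiset.card_cons] at s e
      have := Nat.le_of_dvd (by omega) pa
      have := h2 b hb
      have := h3 t' (fun c hc => h2 c (Multiset.mem_cons_of_mem (Multiset.mem_cons_of_mem hc)))
        (by rw [Nat.odd_iff]; rw [Nat.even_iff] at e; omega)
      omega
  · intro h
    exact H8.Sy.exists_alt_two hr hr2 (by simpa using h)

end Cfsg.Agent.S2467
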