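import Cfsg.Statements.S2471
import Cfsg.Agent.H4.Tor3

set_option autoImplicit false
open Cfsg

namespace Cfsg.Agent.S2471

/-- In PSL(2,q) with q odd, the characteristic p is isolated from 2 in the prime graph: for F a finite field of odd characteristic p with at least 5 elements, PSL(2,F) has no element of order 2p. -/
theorem result {F : Type*} [Field F] [Fintype F] (p : ℕ) [Fact p.Prime] [CharP F p] (hp : p ≠ 2) (h5 : 5 ≤ Fintype.card F) (g : Matrix.ProjectiveSpecialLinearGroup (Fin 2) F) :
    orderOf g ≠ 2 * p := by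
  intro h
  have hp' : p.Prime := Fact.out
  have h2 := H4.gcd_eq_two (H4.odd_card_of_two_ne_zero (H4.two_ne_zero_of_char (F := F) p hp))
  have hq := H4.odd_card_of_two_ne_zero (H4.two_ne_zero_of_char (F := F) p hp)
  rcases H4.orderOf_psl_cases p g with h1 | h1 | h1 <;> rw [h] at h1
  · have := Nat.le_of_dvd hp'.pos h1
    have := hp'.pos
    omega
  · exact H4.not_dvd_card_sub_one (F := F) p (((Dvd.intro_left _ rfl).trans h1).trans
      (Nat.div_dvd_of_dvd (by rw [h2]; omega)))
  · exact H4.not_dvd_card_add_one (F := F) p (((Dvd.intro_left _ rfl).trans h1).trans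
      (Nat.div_dvd_of_dvd (by rw [h2]; omega)))

end Cfsg.Agent.S2471
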