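import Cfsg.Statements.S2474
import Cfsg.Agent.H14.Sp4

set_option autoImplicit false
set_option linter.unusedVariables false
set_option linter.style.haveILetI false
open Cfsg H14.Wall H16 H23 Polynomial
open scoped Matrix

namespace Cfsg.Agent.S2474

/-- For q odd and n ≥ 3 the simple groups PΩ(2n+1,q) and PSp(2n,q) (which have the same order but different sets of element orders) have the same prime graph: for all distinct primes r, s, one of them has an element of order r·s if and only if the other does. -/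
theorem result {F : Type*} [Field F] [Fintype F] (hodd : Odd (Fintype.card F)) (n : ℕ) (hn : 3 ≤ n) (r s : ℕ) (hr : r.Prime) (hs : s.Prime) (hrs : r ≠ s) :
    (r * s ∈ Set.range (orderOf : Cfsg.POmega F (Cfsg.quadFormOdd n F) → ℕ)) ↔ (r * s ∈ Set.range (orderOf : Cfsg.PSp n F → ℕ)) := by
  have h2 := two_ne_zero_odd hodd
  obtain ⟨p, hp⟩ := CharP.exists F
  haveI := Fact.mk (CharP.char_is_prime F p)
  have hΦ := qs_odd h2 n
  have hd := finrank_odd (F := F) n
  have hL := sm_PO hΦ (by omega)
  have hS := sm_PSp (F := F) (show 1 ≤ n by omega)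
  rw [← H22.coe_qOdd]
  have two : ∀ s, s.Prime → s ≠ 2 → ((2 * s ∈ Set.range (orderOf : POmega F (H22.qOdd n F) → ℕ)) ↔
      (2 * s ∈ Set.range (orderOf : PSp n F → ℕ))) := fun s hs h => by
    by_cases hsp : s = p
    · subst hsp
      exact iff_of_true (po_2p h2 s hΦ hd hL (by omega)) (psp_2p h2 s hS (by omega))
    · rw [po_2r h2 p hΦ hd hL (by omega) hs h hsp, psp_2r h2 p hS (by omega) hs h hsp]
  have chr : ∀ s, s.Prime → s ≠ 2 → s ≠ p → ((s * p ∈ Set.range (orderOf : POmega F (H22.qOdd n F) → ℕ)) ↔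
      (s * p ∈ Set.range (orderOf : PSp n F → ℕ))) := fun s hs h hsp => by
    rw [po_rp h2 p hΦ hd hL hs h hsp, psp_rp hS p hs h hsp]
  by_cases h1 : r = 2
  · subst h1
    exact two s hs hrs.symm
  by_cases h3 : s = 2
  · subst h3
    rw [mul_comm]
    exact two r hr hrs
  by_cases h4 : s = p
  · subst h4
    exact chr r hr h1 hrs
  by_cases h5 : r = p
  · subst h5
    rw [mul_comm]
    exact chr s hs h3 h4
  rw [po_c2 h2 p hΦ hd hL hr h1 h5 hs h3 h4 hrs, psp_c2 hS p hr h1 h5 hs h3 h4 hrs]

end Cfsg.Agent.S2474
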