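import Cfsg.Statements.S2478
import Cfsg.Agent.H16.LA15
import Cfsg.Agent.S2387
-- import your own Cfsg.Agent.* helpers here

set_option autoImplicit false
open Cfsg

namespace Cfsg.Agent.S2478

open H16 in
/-- The number of conjugacy classes of GL(n,q): for F a finite field with q elements and n ≥ 1, the number k of conjugacy classes of GL(n,F) satisfies q^n − q^(n−1) ≤ k ≤ q^n. -/
theorem result {F : Type*} [Field F] [Fintype F] (n : ℕ) (hn : 1 ≤ n) :
    Fintype.card F ^ n - Fintype.card F ^ (n - 1) ≤ Nat.card (ConjClasses (Matrix.GeneralLinearGroup (Fin n) F)) ∧ Nat.card (ConjClasses (Matrix.GeneralLinearGroup (Fin n) F)) ≤ Fintype.card F ^ n := by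
  obtain ⟨p, hp⟩ := CharP.exists F
  have := Fact.mk (CharP.char_is_prime F p)
  have h1 := Cfsg.Agent.S2387.result (F := F) rfl p n hn
  have h2 := card_cl_GL_le (F := F) (n := Fin n)
  have h3 := card_SW (F := F) n hn
  rw [Fintype.card_fin] at h2
  refine ⟨le_trans (le_of_eq ?_) (h1.ge.trans (Finite.card_subtype_le _)), by omega⟩
  obtain ⟨k, rfl⟩ := Nat.exists_eq_add_of_le' hn
  rw [Nat.sub_mul, pow_succ', one_mul, Nat.add_sub_cancel]

end Cfsg.Agent.S2478
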