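import Cfsg.Statements.S2479
import Cfsg.Agent.H16.LA15
import Cfsg.Agent.S2384
-- import your own Cfsg.Agent.* helpers here

set_option autoImplicit false
open Cfsg

namespace Cfsg.Agent.S2479

open H16 in
/-- The number of conjugacy classes of SL(n,q): for F a finite field with q elements, the number k of conjugacy classes of SL(n,F) satisfies q^(n−1) < k and k ≤ (5/2)·q^(n−1) for n ≥ 2, and k ≤ q^(n−1) + 3q^(n−2) for n ≥ 3. -/
theorem result {F : Type*} [Field F] [Fintype F] (n : ℕ) (hn : 2 ≤ n) :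
    Fintype.card F ^ (n - 1) < Nat.card (ConjClasses (Matrix.SpecialLinearGroup (Fin n) F)) ∧ 2 * Nat.card (ConjClasses (Matrix.SpecialLinearGroup (Fin n) F)) ≤ 5 * Fintype.card F ^ (n - 1) ∧
      (3 ≤ n → Nat.card (ConjClasses (Matrix.SpecialLinearGroup (Fin n) F)) ≤ Fintype.card F ^ (n - 1) + 3 * Fintype.card F ^ (n - 2)) := by
  obtain ⟨p, hp⟩ := CharP.exists F
  have hp' := Fact.mk (CharP.char_is_prime F p)
  have h1 := Cfsg.Agent.S2384.result (F := F) rfl p n (by omega)
  have h2 := card_cl_SL_le_BB (F := F) (k := n) (by omega)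
  refine ⟨?_, (Nat.mul_le_mul_left 2 h2).trans (BB_le _ (by omega) _),
    fun h => h2.trans (BB_three _ h _)⟩
  obtain ⟨u, hu⟩ := exists_uni (F := F) (n := Fin n) (μ := {n}) (by simp; omega) (by simp)
  refine h1.ge.trans_lt (Finite.card_subtype_lt (x := ConjClasses.mk u) ?_)
  rintro ⟨g, h3, h4⟩
  rw [← orderOf_toGL, ← ssM_iff_coprime] at h4
  have h5 := h4 ((Polynomial.X - Polynomial.C 1) ^ n) (by
    have := (edM_eq_of_SL_isConj (ConjClasses.mk_eq_mk_iff_isConj.1 h3)).trans hu
    exact Multiset.mem_of_le this.ge (by simp [uni]))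
  exact not_irreducible_pow (by omega) h5

end Cfsg.Agent.S2479
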