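import Cfsg.Statements.S2482
import Cfsg.Agent.H14.Mil4
import Cfsg.Agent.S2385

set_option autoImplicit false
set_option linter.unusedVariables false
set_option linter.style.haveILetI false
open Cfsg H14.Wall H16 H23 Polynomial
open scoped Matrix

namespace Cfsg.Agent.S2482

/-- The number of conjugacy classes of Sp(2n,q), q odd: for F a finite field of odd order q and n ≥ 1, the number k of conjugacy classes of Sp(2n,F) satisfies q^n ≤ k ≤ 10.8·q^n. -/
theorem result {F : Type*} [Field F] [Fintype F] (hodd : Odd (Fintype.card F)) (n : ℕ) (hn : 1 ≤ n) :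
    Fintype.card F ^ n ≤ Nat.card (ConjClasses (Matrix.symplecticGroup (Fin n) F)) ∧ 5 * Nat.card (ConjClasses (Matrix.symplecticGroup (Fin n) F)) ≤ 54 * Fintype.card F ^ n := by
  obtain ⟨p, hp⟩ := CharP.exists F
  haveI := Fact.mk (CharP.char_is_prime F p)
  refine ⟨(Cfsg.Agent.S2385.result rfl p n).ge.trans (Finite.card_subtype_le _), ?_⟩
  have := card_cl_alt (two_ne_zero_of_odd_card hodd) (spForm_nondeg n) rfl (finrank_sp n)
  rw [← card_cl_congr (spE n F), Nat.card_eq_fintype_card (α := F)] at this
  rw [← Nat.cast_le (α := ℝ)]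
  push_cast
  linarith

end Cfsg.Agent.S2482
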