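import Cfsg.Statements.S2485
import Cfsg.Agent.H4.Tor3

set_option autoImplicit false
open scoped Pointwise
open Cfsg

namespace Cfsg.Agent.S2485

open H4 in
theorem key {F : Type*} [Field F] [Fintype F] (h2 : (2 : F) ≠ 0) {k : ℕ} (hk : Fintype.card F + 1 = 2 ^ k)
    (H : Sylow 2 (Matrix.ProjGenLinGroup (Fin 2) F)) :
    ∃ g : GL (Fin 2) F, Ell g.1 ∧ g.1.trace = 0 ∧ (H : Subgroup (Matrix.ProjGenLinGroup (Fin 2) F)) = pN g := by
  have hq := odd_card_of_two_ne_zero h2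
  have h3 := three_le_card h2
  have h4 : 2 ^ (k + 1) ∣ Nat.card H := H.pow_dvd_card_of_pow_dvd_card (by
    rw [card_pgl, sq_sub_one_eq, pow_succ', ← hk]
    exact (mul_dvd_mul (by omega) dvd_rfl).mul_left _)
  rw [pow_succ', ← hk] at h4
  have h5 := Nat.le_of_dvd Nat.card_pos h4
  obtain ⟨z, hz, h6, h7⟩ := exists_central_pow H.isPGroup' fun h => by
    rw [h, Subgroup.card_bot] at h5; omega
  obtain ⟨g, rfl, hg⟩ := exists_trace_zero h6
  have h8 : (H : Subgroup (Matrix.ProjGenLinGroup (Fin 2) F)) ≤ pN g :=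
    fun x hx => (commute_iff_mem_pN hg).1 (h7 x hx)
  have hd := disc_of_trace_zero h2 hg
  have h9 := Subgroup.card_le_of_le h8
  rw [card_pN hd] at h9
  rcases sp_or_ell_of_disc hd with ⟨a, b, h⟩ | h
  · rw [card_pT_sp h] at h9; omega
  · exact ⟨g, h, hg, eq_of_le_of_card h8 (by rw [card_pN hd, card_pT_ell h]; exact h5)⟩


/-- Let q = 2^k − 1 ≥ 7 be a prime and let G = PGL(2,q), the general linear group of degree 2 over the field with q elements modulo its centre. Then any two Sylow 2-subgroups of G have a non-trivial intersection: for a Sylow 2-subgroup H and every x ∈ G, H ∩ H^x ≠ 1. -/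
theorem result {q k : ℕ} [Fact q.Prime] (hk : q + 1 = 2 ^ k) (hq : 7 ≤ q)
    (H : Sylow 2 (GL (Fin 2) (ZMod q) ⧸ Subgroup.center (GL (Fin 2) (ZMod q))))
    (x : GL (Fin 2) (ZMod q) ⧸ Subgroup.center (GL (Fin 2) (ZMod q))) :
    (H : Subgroup (GL (Fin 2) (ZMod q) ⧸ Subgroup.center (GL (Fin 2) (ZMod q)))) ⊓ MulAut.conj x • (H : Subgroup _) ≠ ⊥ := by
  have h2 : (2 : ZMod q) ≠ 0 := H4.two_ne_zero_of_char q (by omega)
  have hk' : Fintype.card (ZMod q) + 1 = 2 ^ k := by rw [ZMod.card]; exact hk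
  obtain ⟨g, h1, h3, h4⟩ := key h2 hk' H
  obtain ⟨g', -, h5, h6⟩ := key h2 hk' (x • H)
  have := H4.pN_inf_ne_bot h1 h3 h5 h2
  rw [← h4, ← h6] at this
  exact this

end Cfsg.Agent.S2485
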