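import Cfsg.Statements.S2487
import Cfsg.Agent.H24.SI
import Cfsg.Agent.S0287
import Cfsg.Agent.S0293

set_option autoImplicit false
set_option maxHeartbeats 400000
open scoped Pointwise
open Cfsg

namespace Cfsg.Agent.S2487

/-- Let m ≥ 4 and let G be the full isometry group of the hyperbolic quadratic form x₁y₁ + ⋯ + x_m y_m on the 2m-dimensional space over the field with 2 elements (the orthogonal group O⁺(2m,2), which contains Ω⁺(2m,2) with index 2). Then any two Sylow 2-subgroups of G have a non-trivial intersection: for a Sylow 2-subgroup H and every x ∈ G, H ∩ H^x ≠ 1. -/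
theorem result {F : Type*} [Field F] [Fintype F] (hF : Fintype.card F = 2) {m : ℕ} (hm : 4 ≤ m)
    (H : Sylow 2 (Cfsg.isometryGroup F (Cfsg.quadFormPlus m F)))
    (x : Cfsg.isometryGroup F (Cfsg.quadFormPlus m F)) :
    (H : Subgroup (Cfsg.isometryGroup F (Cfsg.quadFormPlus m F))) ⊓ MulAut.conj x • (H : Subgroup _) ≠ ⊥ := by
  obtain ⟨k, rfl⟩ := Nat.exists_eq_add_of_le' (show 2 ≤ m by omega)
  have hk : 1 ≤ k := by omega
  obtain ⟨e, -⟩ := H7.exists_plus_equiv (F := F) hk
  refine (H7.stD k F hk).res.sylow_inf (H7.stD k F hk).res_Gr hF ?_ e.symm H x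
  have h1 := S0287.result hF (k + 2) (by omega)
  have h2 := S0293.result hF (k + 2) hm
  have h3 : Subgroup.center (Omega F (quadFormPlus (k + 2) F)) = ⊥ := eq_bot_iff.2 fun g hg => by
    obtain ⟨g, rfl⟩ := e.surjective g
    rw [show g = 1 from Subtype.ext ((H7.stD k F hk).H_eq_one hF ((H7.stD k F hk).res_Z.1
      (Subgroup.mem_center_iff.2 fun y => e.injective (by simpa using Subgroup.mem_center_iff.1 hg (e y)))).1), map_one]
    exact one_mem _
  have h4 : Nat.gcd 4 (2 ^ (k + 2) - 1) = 1 := Nat.Coprime.pow_left 2 (Nat.coprime_two_left.2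
    (Nat.Even.sub_odd Nat.one_le_two_pow (Nat.even_pow.2 ⟨even_two, by omega⟩) odd_one))
  rw [h4, one_mul, Nat.card_congr ((QuotientGroup.quotientMulEquivOfEq h3).trans QuotientGroup.quotientBot).toEquiv] at h2
  have h5 := (Omega F (quadFormPlus (k + 2) F)).card_mul_index
  rw [h1, mul_assoc, mul_assoc, ← mul_assoc (2 ^ _), ← h2, mul_comm] at h5
  exact Nat.mul_right_cancel Nat.card_pos h5

end Cfsg.Agent.S2487
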