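import Cfsg.Statements.S2488
import Cfsg.Agent.H24.SI
import Cfsg.Agent.S0813
import Cfsg.Agent.S0254
import Cfsg.Agent.S0265
import Cfsg.Agent.S0242
import Cfsg.Agent.H7.AutAlt

set_option autoImplicit false
set_option maxHeartbeats 400000
open scoped Pointwise
open Cfsg

namespace Cfsg.Agent.S2488

/-- Let G be a finite group with a normal subgroup N of index 4 isomorphic to the alternating group of degree 6 and with trivial centralizer in G (so G is the full automorphism group of A₆). Then any two Sylow 2-subgroups of G have a non-trivial intersection: for a Sylow 2-subgroup H and every x ∈ G, H ∩ H^x ≠ 1. -/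
theorem result {G : Type*} [Group G] [Finite G] (N : Subgroup G) [N.Normal]
    (e : N ≃* alternatingGroup (Fin 6)) (hidx : N.index = 4)
    (hC : Subgroup.centralizer (N : Set G) = ⊥)
    (H : Sylow 2 G) (x : G) :
    (H : Subgroup G) ⊓ MulAut.conj x • (H : Subgroup G) ≠ ⊥ := by
  have : Fact (Nat.Prime 3) := ⟨by norm_num⟩
  let F := GaloisField 3 2
  have := Fintype.ofFinite F
  have hF : Fintype.card F = 3 ^ 2 := Nat.card_eq_fintype_card.symm.trans (GaloisField.card 3 2 two_ne_zero)
  obtain ⟨e1⟩ := S0254.result hF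
  have h1 := S0813.result 3 2 (by norm_num) hF 2 le_rfl (by norm_num)
  have h2 := S0242.result hF 2 (by norm_num)
  rw [Nat.card_congr (MulAut.congr e1).toEquiv, S0265.result] at h1
  simp only [Fin.prod_univ_two] at h2
  norm_num at h1 h2
  have h3 : Nat.card N = 360 := by
    rw [Nat.card_congr e.toEquiv, nat_card_alternatingGroup, Nat.card_eq_fintype_card, Fintype.card_fin]; rfl
  have h4 := N.card_mul_index
  let β : G →* MulAut (alternatingGroup (Fin 6)) := (MulAut.congr e).toMonoidHom.comp (MulAut.conjNormal (H := N))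
  let γ : Equiv.Perm (Fin 6) →* MulAut (alternatingGroup (Fin 6)) := MulAut.conjNormal
  have hγ : Function.Injective γ := (injective_iff_map_eq_one _).mpr fun σ k =>
    H7.eq_one_of_comm_alt (by simp) fun g hg => by
      have := congrArg Subtype.val (MulEquiv.congr_fun k ⟨g, hg⟩)
      simpa [γ, mul_inv_eq_iff_eq_mul] using this
  have hβ : Function.Bijective β := (Nat.bijective_iff_injective_and_card _).2 ⟨(injective_iff_map_eq_one _).2
    fun g hg => hC.le fun y hy => (mul_inv_eq_iff_eq_mul.1 (congrArg Subtype.val (MulEquiv.congr_fun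
      ((MulAut.congr e).map_eq_one_iff.1 hg) ⟨y, hy⟩))).symm, by rw [← h4, h3, hidx, Nat.card_eq_fintype_card]; omega⟩
  let b := MulEquiv.ofBijective β hβ
  obtain ⟨e2⟩ := S0247.result (F := ZMod 2) rfl
  obtain ⟨e3, -⟩ := H7.exists_sp_equiv (m := 0) (F := ZMod 2)
  let e4 := (MonoidHom.ofInjective hγ).trans (b.symm.subgroupMap γ.range)
  refine (H7.stC 0 (ZMod 2)).res.sylow_inf (H7.stC 0 (ZMod 2)).res_Gr rfl ?_ ((e3.trans e2).trans e4).symm H x
  have h5 := (γ.range.map (b.symm : _ →* G)).card_mul_index
  rw [← Nat.card_congr e4.toEquiv, ← h4, h3, hidx, Nat.card_perm, Nat.card_eq_fintype_card, Fintype.card_fin] at h5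
  change 720 * _ = _ at h5
  omega

end Cfsg.Agent.S2488
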