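import Cfsg.Statements.S2495
import Cfsg.Agent.H16.LA10
-- import your own Cfsg.Agent.* helpers here

set_option autoImplicit false
open Cfsg

namespace Cfsg.Agent.S2495

open H16 Polynomial Module in
/-- Let q be an odd prime power, n ≥ 4 even, and L = PSL(n,q). Then L has an element of order q^(n/2) + 1 if and only if the 2-part of n exceeds the 2-part of q − 1. -/
theorem result {F : Type*} [Field F] [Fintype F] {q : ℕ} (hF : Fintype.card F = q) (hodd : Odd q)
    {n : ℕ} (hn : 4 ≤ n) (heven : Even n) :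
    (∃ g : Matrix.ProjectiveSpecialLinearGroup (Fin n) F, orderOf g = q ^ (n / 2) + 1) ↔
      padicValNat 2 (q - 1) < padicValNat 2 n := by
  subst hF
  obtain ⟨h, rfl⟩ := heven
  rw [← two_mul] at *
  rw [Nat.mul_div_cancel_left _ two_pos]
  have : Nonempty (Fin (2 * h)) := ⟨⟨0, by omega⟩⟩
  have hq : 1 < Fintype.card F := Fintype.one_lt_card
  have hq1 : 1 ≤ Fintype.card F ^ h := Nat.one_le_pow _ _ (by omega)
  have hE : gs (Fintype.card F) (2 * h) = (Fintype.card F ^ h + 1) * gs (Fintype.card F) h := by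
    refine Nat.eq_of_mul_eq_mul_right (show 0 < Fintype.card F - 1 by omega) ?_
    rw [gs_mul hq.le, mul_assoc, gs_mul hq.le, mul_comm 2, pow_mul, ← Nat.sq_sub_sq, one_pow]
  have hv : padicValNat 2 (2 * h) = padicValNat 2 h + 1 := by
    rw [padicValNat.mul two_ne_zero (by omega), padicValNat_self, add_comm]
  have h2q : 2 ∣ Fintype.card F - 1 := by rw [Nat.odd_iff] at hodd; omega
  have hord : ∀ (g : Matrix.SpecialLinearGroup (Fin (2 * h)) F) (π : F[X]), Irreducible π →
      edM g.1 = {π} → orderOf (QuotientGroup.mk g : Matrix.ProjectiveSpecialLinearGroup _ F) =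
        ro π / (ro π).gcd (Fintype.card F - 1) ∧ ro π ∣ gs (Fintype.card F) (2 * h) := by
    intro g π h1 h2
    have h3 : π ∈ edM g.1 := h2 ▸ Multiset.mem_singleton_self _
    have h4 := det_eq_prod_edM' g.1
    have h5 := sum_natDegree_edM g.1
    simp only [h2, Multiset.map_singleton, Multiset.prod_singleton, g.2, Multiset.sum_singleton,
      Fintype.card_fin] at h4 h5
    have h6 := (coeff_zero_eq_iff (edM_isPP h3).monic h1).1 h4.symm
    rw [h5] at h6
    refine ⟨eq_of_dvd_iff fun j => ?_, h6⟩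
    simp only [PSL_orderOf_dvd_iff, h2, Multiset.mem_singleton, forall_eq]
    rw [exists_dvd_X_pow_sub_C_iff h1 (fun h0 => by simp [h0] at h4), dvd_mul_iff_div_gcd_dvd]
    refine ne_zero_of_dvd_ne_zero (fun h0 => ?_) h6
    have := gs_mul hq.le (2 * h)
    have := Nat.one_lt_pow (show 2 * h ≠ 0 by omega) hq
    rw [h0] at *; omega
  have hE0 : gs (Fintype.card F) h ≠ 0 := fun h0 => by
    have := gs_mul hq.le h
    have := Nat.one_lt_pow (show h ≠ 0 by omega) hq
    rw [h0] at *; omega
  constructor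
  · rintro ⟨x, hx⟩
    obtain ⟨g, rfl⟩ := QuotientGroup.mk_surjective x
    obtain ⟨l, hl⟩ := H25.zsigmondy hq (show 2 ≤ 2 * h by omega)
      (fun h0 => by rw [h0.1] at hodd; exact absurd hodd (by decide)) (by omega)
    obtain ⟨hl, hl'⟩ := (H25.ppd_iff hq.le (by omega)).1 hl
    have h1 : l ∣ Fintype.card F ^ h + 1 := by
      have h2 := (orderOf_zmod_dvd_iff (by omega) _).1 hl'.dvd
      rw [mul_comm 2, pow_mul, ← one_pow 2, Nat.sq_sub_sq, hl.dvd_mul,
        ← orderOf_zmod_dvd_iff (q := Fintype.card F) (j := h) (by omega), hl'] at h2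
      exact h2.resolve_right (Nat.not_dvd_of_pos_of_lt (by omega) (by omega))
    obtain ⟨c, hc⟩ := (PSL_pow_eq_one_iff g _).1 (hx ▸ pow_orderOf_eq_one _)
    have hss : ∀ π ∈ edM g.1, Irreducible π := fun π hπ => (edM_isPP hπ).irreducible_of_dvd
      (squarefree_X_pow_sub_C (cast_ne_zero_of_coprime (Nat.Coprime.coprime_dvd_right
        (dvd_pow_self _ (show h ≠ 0 by omega)) (by simp)))
        (ne_zero_of_pow_eq_smul (by simp) hc)) ((pow_eq_smul_iff_edM _ _ _).1 hc π hπ)
    obtain ⟨π, hπ, h2⟩ : ∃ π ∈ edM g.1, 2 * h ≤ π.natDegree := by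
      by_contra! h2
      have h3 := (GL_orderOf_dvd_iff (Matrix.SpecialLinearGroup.toGL g)
        (qf (Fintype.card F) (2 * h - 1))).2 fun π hπ => by
          have h4 := (natDegree_dvd_iff_ro (hss π hπ) (GL_coeff_ne_zero _ hπ) _).1 dvd_rfl
          have h5 := (edM_isPP hπ).natDegree_pos
          have h6 := h2 π hπ
          rw [← Nat.sub_add_cancel h5] at h4
          exact h4.trans (Finset.dvd_prod_of_mem _ (Finset.mem_range.2 (by omega)))
      rw [orderOf_toGL] at h3
      have h4 := (h1.trans (hx ▸ orderOf_map_dvd (QuotientGroup.mk' _) g)).trans h3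
      rw [qf, hl.prime.dvd_finsetProd_iff] at h4
      obtain ⟨j, hj, h5⟩ := h4
      rw [← orderOf_zmod_dvd_iff (by omega), hl'] at h5
      have := Nat.le_of_dvd (by omega) h5
      rw [Finset.mem_range] at hj; omega
    obtain ⟨h3, h4⟩ := hord g π (hss π hπ) (edM_eq_singleton hπ (by simpa using h2))
    rw [hx] at h3
    have h5 : 2 ∣ Fintype.card F ^ h + 1 := (hodd.pow.add_one).two_dvd
    have h0 : ro π ≠ 0 := ne_zero_of_dvd_ne_zero (by rw [hE]; positivity) h4
    have h6 : ∀ j, 2 ^ j ∣ ro π / (ro π).gcd (Fintype.card F - 1) ↔ _ := fun j =>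
      prime_pow_dvd_div_gcd_iff h0 (show Fintype.card F - 1 ≠ 0 by omega)
    have h7 := ((h6 (padicValNat 2 (Fintype.card F ^ h + 1))).1
      (h3 ▸ pow_padicValNat_dvd)).resolve_left
      (by have := one_le_padicValNat_of_dvd (by omega) h5; omega)
    have h8 := padicValNat_dvd_iff_le (p := 2) (show gs (Fintype.card F) (2 * h) ≠ 0 by
      rw [hE]; positivity) |>.1 ((pow_padicValNat_dvd (p := 2)).trans h4)
    rw [hE, padicValNat.mul (by omega) hE0] at h8
    have h9 := one_le_padicValNat_of_dvd (p := 2) (by omega) h2q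
    have h10 := congrArg (padicValNat 2) (gs_mul hq.le h)
    rw [padicValNat.mul hE0 (by omega)] at h10
    have h11 : Even h := by
      have h12 : 2 ∣ gs (Fintype.card F) h := dvd_of_one_le_padicValNat (by omega)
      exact even_iff_two_dvd.2 (((gs_modEq hq.le h).of_dvd h2q).dvd_iff dvd_rfl |>.1 h12)
    have h12 := padicValNat.pow_two_sub_one hq (by rw [Nat.odd_iff] at hodd; omega)
      (show h ≠ 0 by omega) h11
    have h13 := one_le_padicValNat_of_dvd (show h ≠ 0 by omega) h11.two_dvd
    by_contra h14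
    have h15 := (padicValNat_dvd_iff_le (p := 2) (n := 2) (show Fintype.card F - 1 ≠ 0 by omega)).2
      (by omega)
    have h16 := (padicValNat_dvd_iff_le (p := 2) (n := 2) (show Fintype.card F + 1 ≠ 0 by omega)).2
      (by omega)
    omega
  · intro h1
    obtain ⟨π, h2, h3, h4, h5⟩ := exists_irred_ro (F := F) (k := gs (Fintype.card F) (2 * h))
      (d := 2 * h) (by omega) (Dvd.intro _ (gs_mul hq.le _))
    have h6 : π.natDegree = 2 * h := by
      have h7 := (natDegree_dvd_iff_ro h3 h4 (2 * h)).2 (h5 ▸ Dvd.intro _ (gs_mul hq.le _))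
      have h8 := (natDegree_dvd_iff_ro h3 h4 _).1 dvd_rfl
      have h9 := h3.natDegree_pos
      have h10 := Nat.le_of_dvd (Nat.sub_pos_of_lt (Nat.one_lt_pow h9.ne' hq)) h8
      rw [h5, hE] at h10
      by_contra h11
      obtain ⟨c, hc⟩ := h7
      have h12 : π.natDegree ≤ h := by
        rcases c with _ | _ | c
        · omega
        · omega
        · rw [add_assoc, mul_add] at hc; omega
      have := Nat.pow_le_pow_right hq.le h12
      have := Nat.le_mul_of_pos_right (Fintype.card F ^ h + 1) (Nat.pos_of_ne_zero hE0)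
      omega
    obtain ⟨g, hg⟩ := exists_SL_edM (n := Fin (2 * h)) (s := {π})
      (by simpa using isPP_of_irred h2 h3) (by simp [h6])
      (by simpa using (coeff_zero_eq_iff h2 h3).2 (by rw [h5, h6]))
    refine exists_orderOf_eq_of_dvd (x := QuotientGroup.mk g) ?_
    rw [(hord g π h3 hg).1, h5, gcd_gs hq.le, hE, Nat.mul_div_assoc]
    · exact dvd_mul_right _ _
    · rw [← ((gs_modEq hq.le h).of_dvd (Nat.gcd_dvd_right (2 * h) _)).symm.dvd_iff dvd_rfl]
      have h0 : (2 * h).gcd (Fintype.card F - 1) ≠ 0 := Nat.gcd_ne_zero_left (by omega)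
      rw [← Nat.factorization_prime_le_iff_dvd h0 (by omega)]
      intro l hl
      rw [Nat.factorization_gcd (by omega) (by omega), Finsupp.inf_apply, Nat.factorization_def _ hl,
        Nat.factorization_def _ hl, Nat.factorization_def _ hl]
      have := Fact.mk hl
      by_cases h7 : l = 2
      · subst h7; omega
      · rw [padicValNat.mul two_ne_zero (by omega), padicValNat.eq_zero_of_not_dvd
          (fun h8 => h7 ((Nat.prime_dvd_prime_iff_eq hl Nat.prime_two).1 h8))]
        simp

end Cfsg.Agent.S2495
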