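import Cfsg.Statements.S2496
import Cfsg.Agent.H14.Sp5

set_option autoImplicit false
set_option linter.unusedVariables false
set_option linter.style.haveILetI false
open Cfsg H14.Wall H16 H23 Polynomial
open scoped Matrix

namespace Cfsg.Agent.S2496

/-- Let q be an odd prime power, n ≥ 4 even, and U = PSU(n,q) (realised over the field with q² elements). Then U has an element of order q^(n/2) + (−1)^(n/2) — that is, q^(n/2) + 1 when n/2 is even and q^(n/2) − 1 when n/2 is odd — if and only if the 2-part of n exceeds the 2-part of q + 1. -/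
theorem result {F : Type*} [Field F] [Fintype F] {q : ℕ} (hF : Fintype.card F = q ^ 2) (hodd : Odd q)
    {n : ℕ} (hn : 4 ≤ n) (heven : Even n) :
    (∃ g : Cfsg.PSU n F q, orderOf g = if Even (n / 2) then q ^ (n / 2) + 1 else q ^ (n / 2) - 1) ↔
      padicValNat 2 (q + 1) < padicValNat 2 n := by
  obtain ⟨h, rfl⟩ := heven
  rw [← two_mul] at *
  rw [Nat.mul_div_cancel_left _ two_pos]
  have hq := two_le_of_card_eq_sq hF
  obtain ⟨p, hp⟩ := CharP.exists F
  haveI := Fact.mk (CharP.char_is_prime F p)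
  have hL := sm_PSU hF (show 2 ≤ 2 * h by omega)
  obtain ⟨N, h1, h2⟩ := um_spec (show 0 < q by omega) h
  set M := if Even h then q ^ h + 1 else q ^ h - 1 with hM
  have h3 : um q (2 * h) = M * N * (q + 1) := by
    rw [mul_assoc, ← h1, um, um, if_pos (even_two_mul h), pow_mul', hM]
    have := Nat.sq_sub_sq (q ^ h) 1
    split_ifs
    · simpa using this
    · simpa [mul_comm] using this
  have h4 : M * N ≠ 0 := fun h0 => by
    have := um_pos hq (show 2 * h ≠ 0 by omega)
    rw [h3, h0] at this; omega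
  obtain ⟨N', h5, h6⟩ := um_spec (show 0 < q by omega) (2 * h)
  obtain rfl : N' = M * N := Nat.eq_of_mul_eq_mul_right (by omega) (h5.symm.trans h3)
  have key : M ∣ M * N / (M * N).gcd (q + 1) ↔ padicValNat 2 (q + 1) < padicValNat 2 (2 * h) := by
    have hg := Nat.gcd_dvd_right (M * N) (q + 1)
    rw [Nat.dvd_div_iff_mul_dvd (Nat.gcd_dvd_left _ _), mul_comm,
      Nat.mul_dvd_mul_iff_left (Nat.pos_of_ne_zero (left_ne_zero_of_mul h4)), h2 _ hg,
      padicValNat.mul two_ne_zero (by omega), padicValNat_self, add_comm 1, Nat.lt_succ_iff,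
      ← padicValNat_dvd_iff_le (by omega)]
    refine ⟨fun h7 => by_contra fun h8 => ?_, fun h7 => ?_⟩
    · have h9 : 2 ^ (padicValNat 2 h + 1) ∣ q + 1 := (padicValNat_dvd_iff_le (by omega)).2 (by
        rw [padicValNat_dvd_iff_le (by omega)] at h8; omega)
      exact pow_succ_padicValNat_not_dvd (by omega) ((Nat.dvd_gcd ((h6 _ h9).2 (by
        rw [pow_succ']; exact Nat.mul_dvd_mul_left _ pow_padicValNat_dvd)) h9).trans h7)
    · have h8 := (h6 _ hg).1 (Nat.gcd_dvd_left _ _)
      rw [← Nat.factorization_prime_le_iff_dvd (Nat.gcd_ne_zero_right (by omega)) (by omega)]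
      intro l hl
      have := Fact.mk hl
      rw [Nat.factorization_def _ hl, Nat.factorization_def _ hl, ← padicValNat_dvd_iff_le (by omega)]
      by_cases h9 : l = 2
      · subst h9
        exact (pow_dvd_pow _ ((padicValNat_dvd_iff_le (by omega)).1
          (pow_padicValNat_dvd.trans hg))).trans h7
      · exact (((Nat.coprime_primes hl Nat.prime_two).2 h9).pow_left _).dvd_of_dvd_mul_left
          (pow_padicValNat_dvd.trans h8)
  rw [← key]
  refine ⟨fun hx => ?_, fun h7 => ?_⟩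
  swap
  · obtain ⟨s, a1, a2, a3, a4⟩ := su_tor (hF := hF) (show 2 * h ≠ 0 by omega)
    exact hL.mem ⟨a1, a2, a3⟩ fun k hk hs => h7.trans ((dvd_mul_iff_div_gcd_dvd h4).1
      (Nat.dvd_of_mul_dvd_mul_right (by omega) (h3 ▸ a4 k hk hs)))
  obtain ⟨s, ⟨a1, a2, a3⟩, a4⟩ := hL.of_mem hx
  have h7 := Nat.odd_iff.1 hodd
  obtain ⟨l, hl, b1, b2, b3⟩ : ∃ l, l.Prime ∧ l ∣ M ∧ l ≠ p ∧ ∀ j, l ∣ um q j → 2 * h ∣ j := by
    obtain ⟨l, hl⟩ := H25.zsigmondy hq (n := if Even h then 2 * h else h) (by split_ifs <;> omega)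
      (by omega) (by split_ifs with h8 <;> simp only [Nat.even_iff] at h8 <;> omega)
    obtain ⟨hl, b1⟩ := (H25.ppd_iff (by omega) (by split_ifs <;> omega)).1 hl
    have b2 := fun j => b1 ▸ orderOf_zmod_dvd_iff (m := l) (show 0 < q by omega) j
    have b3 : ∀ j, l ∣ q ^ j + 1 → (if Even h then 2 * h else h) ∣ 2 * j := fun j h =>
      (b2 _).2 (PM.sq (.inr h))
    have b4 : l ≠ 2 := by
      rintro rfl
      have := Nat.le_of_dvd one_pos ((b2 1).2 (by rw [pow_one]; omega))
      split_ifs at this <;> omega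
    refine ⟨l, hl, ?_, ?_, fun j => ?_⟩
    · have b5 := (b2 _).1 dvd_rfl
      rw [hM]
      split_ifs with h8
      · rw [if_pos h8, pow_mul', ← one_pow 2, Nat.sq_sub_sq, hl.dvd_mul, ← b2, if_pos h8] at b5
        exact b5.resolve_right (Nat.not_dvd_of_pos_of_lt (by omega) (by omega))
      · rwa [if_neg h8] at b5
    · rintro rfl
      obtain ⟨j, -, hj⟩ := FiniteField.card F l
      rw [(ZMod.natCast_eq_zero_iff q l).2 (hl.dvd_of_dvd_pow (hF ▸ hj ▸ dvd_pow_self l j.ne_zero)),
        orderOf_zero] at b1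
      split_ifs at b1 <;> omega
    rw [um]
    split_ifs with h8 <;> intro h9
    · have := (b2 j).2 h9
      split_ifs at this with h10
      · exact this
      · exact (Nat.coprime_two_left.2 (Nat.not_even_iff_odd.1 h10)).mul_dvd_of_dvd_of_dvd
          h8.two_dvd this
    · have := b3 j h9
      split_ifs at this with h10
      · exact absurd (even_iff_two_dvd.2 (h10.two_dvd.trans
          (Nat.dvd_of_mul_dvd_mul_left two_pos this))) h8
      · refine absurd (dvd_two_of (by omega) ((b2 j).1 ?_) h9) (not_two hl b4 dvd_rfl)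
        rw [if_neg h10]
        exact (Nat.coprime_two_left.2 (Nat.not_even_iff_odd.1 h10)).symm.dvd_of_dvd_mul_left this
  obtain ⟨a, e, c1, c2, c3, c4, c5, c6, -⟩ := exists_base p a1.1 (fun k _ => (a4 k).2) hl b1
  obtain ⟨j, v, d1, d2, d3, d4, d5⟩ := UR.blk a1 c1 c2 c3 c4 c5
  have d6 := Nat.le_of_dvd d1 (b3 j ((c6 b2).trans d2))
  obtain rfl : e = 1 := by_contra fun h => by
    have := Nat.mul_le_mul_left j (show 2 ≤ e by omega)
    omega
  obtain rfl : j = 2 * h := by omega
  obtain rfl : v = 0 := by_contra fun h => by have := dgs_pos d3.1 h; omega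
  obtain ⟨d7, d8⟩ := d5.resolve_left (by simp)
  simp only [pow_one, add_zero] at d8 c5
  refine (a4 _).2 (su_blk a1 a3 c5 c2 (.inr ⟨d8, fun h => ?_⟩) (a2 ▸ h3)
    ((dvd_mul_iff_div_gcd_dvd h4).2 dvd_rfl))
  obtain ⟨d9, d10⟩ := (self_dual_iff hF c1 c2 c3).1 h
  have := Nat.le_of_dvd (by omega) (b3 a.natDegree (by
    rw [um, if_neg (Nat.not_even_iff_odd.2 d9)]; exact (c6 b2).trans d10))
  omega

end Cfsg.Agent.S2496
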