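import Cfsg.Statements.S2504
import Cfsg.Agent.H12.AbSym

set_option autoImplicit false
open Cfsg

namespace Cfsg.Agent.S2504

open H12.AbSym Subgroup

theorem comm_map {n : ℕ} {A : Subgroup (alternatingGroup (Fin n))} (hA : IsMulCommutative A) :
    IsMulCommutative (A.map (alternatingGroup (Fin n)).subtype) := inferInstance

/-- The largest order of an abelian subgroup of the alternating group of degree n is 3^k when n = 3k, 4·3^(k−1) when n = 3k + 1, and 16·3^(k−2) when n = 3k + 2, for every k ≥ 2 (so for all degrees n ≥ 6). -/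
theorem result (k : ℕ) (hk : 2 ≤ k) :
    IsGreatest {c : ℕ | ∃ A : Subgroup (alternatingGroup (Fin (3 * k))), IsMulCommutative A ∧ Nat.card A = c} (3 ^ k) ∧
    IsGreatest {c : ℕ | ∃ A : Subgroup (alternatingGroup (Fin (3 * k + 1))), IsMulCommutative A ∧ Nat.card A = c}
      (4 * 3 ^ (k - 1)) ∧
    IsGreatest {c : ℕ | ∃ A : Subgroup (alternatingGroup (Fin (3 * k + 2))), IsMulCommutative A ∧ Nat.card A = c}
      (16 * 3 ^ (k - 2)) := by
  obtain ⟨j, rfl⟩ : ∃ j, k = j + 2 := ⟨k - 2, by omega⟩
  refine ⟨⟨?_, ?_⟩, ⟨?_, ?_⟩, ⟨?_, ?_⟩⟩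
  · refine Gd.alt ?_
    simpa using (gd_zero True).pow (j + 2)
  · rintro _ ⟨A, hA, rfl⟩
    have := card_le_fin _ (comm_map hA)
    rw [show F (3 * (j + 2)) = _ from F_add (j + 2) 0, card_map_of_injective (subtype_injective _)] at this
    simp only [F] at this; omega
  · refine Gd.alt ?_
    have := (gd_four True).pow (j + 1)
    rwa [show 4 + 3 * (j + 1) = 3 * (j + 2) + 1 by ring] at this
  · rintro _ ⟨A, hA, rfl⟩
    have := card_le_fin _ (comm_map hA)
    rw [F_add, pow_succ, card_map_of_injective (subtype_injective _)] at this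
    simp only [F, show j + 2 - 1 = j + 1 from rfl] at this ⊢; omega
  · refine Gd.alt ?_
    have := ((gd_four True).add (gd_four True)).pow j
    rwa [show 4 + 4 + 3 * j = 3 * (j + 2) + 2 by ring] at this
  · rintro _ ⟨A, hA, rfl⟩
    have := card_le_alt (j + 2) _ Finset.univ (comm_map hA) (map_subtype_le _)
      (fun _ _ _ h => absurd (Finset.mem_univ _) h) (by simp)
    rw [pow_add, card_map_of_injective (subtype_injective _)] at this
    simp only [Nat.add_sub_cancel] at this ⊢; omega

end Cfsg.Agent.S2504
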