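import Cfsg.Statements.S2505
import Cfsg.Agent.H12.AbSym

set_option autoImplicit false
open Cfsg

namespace Cfsg.Agent.S2505

open H12.AbSym

/-- The largest order of an abelian subgroup of the symmetric group of degree n is 3^k when n = 3k, 4·3^(k−1) when n = 3k + 1, and 2·3^k when n = 3k + 2, for every k ≥ 1. -/
theorem result (k : ℕ) (hk : 1 ≤ k) :
    IsGreatest {c : ℕ | ∃ A : Subgroup (Equiv.Perm (Fin (3 * k))), IsMulCommutative A ∧ Nat.card A = c} (3 ^ k) ∧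
    IsGreatest {c : ℕ | ∃ A : Subgroup (Equiv.Perm (Fin (3 * k + 1))), IsMulCommutative A ∧ Nat.card A = c}
      (4 * 3 ^ (k - 1)) ∧
    IsGreatest {c : ℕ | ∃ A : Subgroup (Equiv.Perm (Fin (3 * k + 2))), IsMulCommutative A ∧ Nat.card A = c}
      (2 * 3 ^ k) := by
  obtain ⟨j, rfl⟩ : ∃ j, k = j + 1 := ⟨k - 1, by omega⟩
  refine ⟨⟨?_, ?_⟩, ⟨?_, ?_⟩, ⟨?_, ?_⟩⟩
  · obtain ⟨A, h1, h2, -⟩ : Gd False (3 * (j + 1)) (3 ^ (j + 1)) := by
      simpa using (gd_zero False).pow (j + 1)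
    exact ⟨A, h1, h2⟩
  · rintro _ ⟨A, hA, rfl⟩
    have := card_le_fin A hA
    rw [show F (3 * (j + 1)) = _ from F_add (j + 1) 0] at this
    simp only [F] at this; omega
  · obtain ⟨A, h1, h2, -⟩ : Gd False (3 * (j + 1) + 1) (4 * 3 ^ (j + 1 - 1)) := by
      have := (gd_four False).pow j
      rwa [show 4 + 3 * j = 3 * (j + 1) + 1 by ring] at this
    exact ⟨A, h1, h2⟩
  · rintro _ ⟨A, hA, rfl⟩
    have := card_le_fin A hA
    rw [F_add, pow_succ] at this
    simp only [F, Nat.add_sub_cancel] at this ⊢; omega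
  · obtain ⟨A, h1, h2, -⟩ : Gd False (3 * (j + 1) + 2) (2 * 3 ^ (j + 1)) := by
      have := gd_two.pow (j + 1)
      rwa [add_comm] at this
    exact ⟨A, h1, h2⟩
  · rintro _ ⟨A, hA, rfl⟩
    have := card_le_fin A hA
    rw [F_add] at this
    simp only [F] at this ⊢; omega

end Cfsg.Agent.S2505
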