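import Cfsg.Statements.S2506
import Cfsg.Agent.H12.AbSym2

set_option autoImplicit false
open scoped Pointwise
open Cfsg

namespace Cfsg.Agent.S2506

open H12.AbSym Subgroup Equiv
open scoped Pointwise

theorem gd_five : Gd True 5 5 :=
  ⟨zpowers (finRotate 5), inferInstance, by
    haveI : Fact (Nat.Prime 5) := ⟨by norm_num⟩
    rw [Nat.card_zpowers]; exact orderOf_eq_prime (by decide) (by decide),
    fun _ => zpowers_le.2 (Perm.mem_alternatingGroup.2 (by decide))⟩

theorem gd_big (n : ℕ) (h : n ≠ 1 ∧ n ≠ 2 ∧ n ≠ 5) : ∃ c, Gd True n c ∧ 8 * F n ≤ 27 * c := by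
  obtain ⟨k, r, hr, rfl⟩ : ∃ k r', r' < 3 ∧ n = 3 * k + r' :=
    ⟨n / 3, n % 3, Nat.mod_lt _ (by norm_num), (Nat.div_add_mod n 3).symm⟩
  rw [F_add]
  interval_cases r
  · exact ⟨_, by simpa using (gd_zero True).pow k, by simp only [F]; omega⟩
  · obtain ⟨j, rfl⟩ : ∃ j, k = j + 1 := ⟨k - 1, by omega⟩
    refine ⟨4 * 3 ^ j, ?_, by simp only [F, pow_succ]; omega⟩
    have := (gd_four True).pow j
    rwa [show 4 + 3 * j = 3 * (j + 1) + 1 by ring] at this
  · obtain ⟨j, rfl⟩ : ∃ j, k = j + 2 := ⟨k - 2, by omega⟩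
    refine ⟨4 * 4 * 3 ^ j, ?_, by simp only [F, pow_succ]; omega⟩
    have := ((gd_four True).add (gd_four True)).pow j
    rwa [show 4 + 4 + 3 * j = 3 * (j + 2) + 2 by ring] at this

theorem card_five {A : Subgroup (alternatingGroup (Fin 5))} (hA : IsMulCommutative A)
    (hAmax : ∀ C : Subgroup (alternatingGroup (Fin 5)), IsMulCommutative C →
      Nat.card C ≤ Nat.card A) : Nat.card A = 5 ^ (Nat.card (alternatingGroup (Fin 5))).factorization 5 := by
  obtain ⟨C, hC, h5⟩ := gd_five.alt
  have h1 := hAmax C hC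
  have := card_le_alt 1 (A.map (alternatingGroup (Fin 5)).subtype) Finset.univ inferInstance
    (map_subtype_le _) (supp_univ _) (by simp)
  rw [card_map_of_injective (subtype_injective _)] at this
  have h60 : Nat.card (alternatingGroup (Fin 5)) = 60 := by
    have := two_mul_nat_card_alternatingGroup (α := Fin 5)
    rw [Nat.card_perm, Nat.card_fin] at this
    simp only [Nat.factorial] at this
    omega
  have : (60 : ℕ).factorization 5 = 1 := by
    exact (Nat.factorization_eq_of_coprime_left (a := 5) (b := 12) (p := 5) (by norm_num)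
      (by simp)).trans (Nat.Prime.factorization_self (by norm_num))
  rw [h60, this]
  omega

/-- In the alternating group of any degree, any two abelian subgroups of the largest possible order (among abelian subgroups) are conjugate. -/
theorem result (n : ℕ)
    (A B : Subgroup (alternatingGroup (Fin n))) (hA : IsMulCommutative A) (hB : IsMulCommutative B)
    (hAmax : ∀ C : Subgroup (alternatingGroup (Fin n)), IsMulCommutative C → Nat.card C ≤ Nat.card A)
    (hBmax : ∀ C : Subgroup (alternatingGroup (Fin n)), IsMulCommutative C → Nat.card C ≤ Nat.card B) :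
    ∃ g : alternatingGroup (Fin n), B = MulAut.conj g • A := by
  by_cases h5 : n = 5
  · subst h5
    haveI : Fact (Nat.Prime 5) := ⟨by norm_num⟩
    obtain ⟨g, hg⟩ := MulAction.exists_smul_eq (alternatingGroup (Fin 5))
      (Sylow.ofCard A (card_five hA hAmax)) (Sylow.ofCard B (card_five hB hBmax))
    exact ⟨g, (congrArg Sylow.toSubgroup hg).symm⟩
  by_cases h2 : n = 1 ∨ n = 2
  · haveI : Subsingleton (alternatingGroup (Fin n)) := by
      rcases h2 with rfl | rfl
      · infer_instance
      · refine ⟨fun a b => Subtype.ext ?_⟩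
        rw [eq_one_of_two (by simp) a.2, eq_one_of_two (by simp) b.2]
    exact ⟨1, Subsingleton.elim _ _⟩
  obtain ⟨c, hc, hF⟩ := gd_big n (by omega)
  obtain ⟨C, hC, rfl⟩ := hc.alt
  have big : ∀ {A : Subgroup (alternatingGroup (Fin n))}, IsMulCommutative A →
      Nat.card C ≤ Nat.card A → Big (A.map (alternatingGroup (Fin n)).subtype) := fun hA h =>
    ⟨inferInstance, map_subtype_le _, by
      rw [card_map_of_injective (subtype_injective _), Fintype.card_fin]; omega⟩
  obtain ⟨σ, hσ, h⟩ := (big hA (hAmax C hC)).exists_conj (big hB (hBmax C hC))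
  refine ⟨⟨σ, hσ⟩, map_injective (subtype_injective _) (h.trans ?_)⟩
  ext x
  constructor
  · rintro ⟨_, ⟨a, ha, rfl⟩, rfl⟩
    exact ⟨_, ⟨a, ha, rfl⟩, rfl⟩
  · rintro ⟨_, ⟨a, ha, rfl⟩, rfl⟩
    exact ⟨_, ⟨a, ha, rfl⟩, rfl⟩

end Cfsg.Agent.S2506
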