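import Cfsg.Statements.S2513
import Cfsg.Agent.H14.Sp2

set_option autoImplicit false
set_option linter.unusedVariables false
set_option linter.style.haveILetI false
open Cfsg H14.Wall H16 H23 Polynomial
open scoped Matrix

namespace Cfsg.Agent.S2513

/-- Let F be the field with two elements, n ≥ 2, L = PSL(n, F) and k₀ = ⌊(n + 3)/2⌋. Then for every k ≥ k₀ the direct product of k copies of L has the same set of element orders as the direct product of k₀ copies of L. -/
theorem result {F : Type*} [Field F] [Fintype F] (hF : Fintype.card F = 2) (n k : ℕ) (hn : 2 ≤ n) (hk : (n + 3) / 2 ≤ k) :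
    Set.range (orderOf : (Fin k → Matrix.ProjectiveSpecialLinearGroup (Fin n) F) → ℕ) = Set.range (orderOf : (Fin ((n + 3) / 2) → Matrix.ProjectiveSpecialLinearGroup (Fin n) F) → ℕ) := by
  haveI : CharP F 2 := charP_of_card_eq_prime_pow (f := 1) (by simpa using hF)
  have h1 : ∀ c : F, c ≠ 0 → c = 1 := fun c hc => by
    simpa [hF] using FiniteField.pow_card_sub_one_eq_one c hc
  have hL := sm_PSL (F := F) n
  have key : ∀ i : Fin ((n + 3) / 2), ∃ y : Matrix.ProjectiveSpecialLinearGroup (Fin n) F,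
      ∀ k, k ≠ 0 → orderOf y ∣ k → (i.1 = 0 → n ≤ 2 ^ padicValNat 2 k) ∧
        (i.1 ≠ 0 → 2 ^ (n + 1 - i) - 1 ∣ k) := fun i => by
    by_cases hi : i.1 = 0
    · obtain ⟨y, hy⟩ := hL.2 {(X - C 1) ^ n} ⟨p0_lin one_ne_zero (by omega), dgs_lin _ _,
        by rw [nm_lin', one_pow]⟩
      exact ⟨y, fun k hk h => ⟨fun _ => (sc_uni 2 (s := 0) hk (by omega)
        (by rw [zero_add]; exact (hy _).1 h)).2, fun h => absurd hi h⟩⟩
    obtain ⟨a, a1, a2, a3, a4, a5⟩ := exists_singer (F := F) (d := n + 1 - i) (by omega)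
    have a6 := (p0_irr a1 a2 a3).add (p0_rep one_ne_zero (i - 1))
    obtain ⟨y, hy⟩ := hL.2 _ ⟨a6, by rw [dgs_add, dgs_single, dgs_rep]; omega, h1 _ (nm_ne a6)⟩
    refine ⟨y, fun k hk h => ⟨fun h => absurd h hi, fun _ => ?_⟩⟩
    obtain ⟨c, hc⟩ := (hy k).1 h
    simpa [hF, a4] using (exists_dvd_X_pow_sub_C_iff a2 a3 k).1 ⟨c, hc a (by simp)⟩
  choose y hy using key
  have hN := (orderOf_pos y).ne'
  have h2 := fun i => hy i _ hN (orderOf_map_dvd (Pi.evalMonoidHom _ i) y)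
  have h3 : ∀ x : Matrix.ProjectiveSpecialLinearGroup (Fin n) F, orderOf x ∣ orderOf y := fun x => by
    obtain ⟨s, ⟨a1, a2, a3⟩, hx⟩ := hL.1 x
    refine (hx _).2 ⟨1, fun q hq => ?_⟩
    obtain ⟨b, e, b1, b2, b3, b4, rfl⟩ := P0.base a1 hq
    have b5 := le_dgs hq
    have b6 := b2.natDegree_pos
    rw [natDegree_pow, a2] at b5
    have b7 : b.natDegree ≤ n := le_trans (by nlinarith) b5
    refine (ppd_iff 2 b2 b3 hN b4).2 ⟨?_, le_trans (by nlinarith) ((h2 ⟨0, by omega⟩).1 rfl)⟩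
    have b8 := Nat.div_add_mod n b.natDegree
    have b9 := Nat.mod_lt n b6
    have b10 : b.natDegree ≤ b.natDegree * (n / b.natDegree) :=
      Nat.le_mul_of_pos_right _ (Nat.div_pos b7 b6)
    have := (h2 ⟨n % b.natDegree + 1, by omega⟩).2 (by simp)
    rw [C_1, dvd_X_pow_sub_one_iff]
    refine .trans ?_ this
    simpa [hF] using (natDegree_dvd_iff_ro b2 b3 (n - n % b.natDegree)).1 ⟨n / b.natDegree, by omega⟩
  refine (spec_le fun x => ⟨y, orderOf_dvd_of_pow_eq_one (_root_.funext fun i =>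
    orderOf_dvd_iff_pow_eq_one.1 (h3 _))⟩).antisymm (spec_le fun x => ?_)
  refine ⟨fun i => if h : i.1 < (n + 3) / 2 then x ⟨i, h⟩ else 1,
    orderOf_dvd_of_pow_eq_one (_root_.funext fun i => ?_)⟩
  have := congrFun (pow_orderOf_eq_one fun i : Fin k =>
    if h : i.1 < (n + 3) / 2 then x ⟨i, h⟩ else 1) ⟨i, by omega⟩
  simpa using this

end Cfsg.Agent.S2513
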