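import Cfsg.Statements.S2514
import Mathlib.Data.Set.Finite.Lemmas
import Mathlib.Tactic

set_option autoImplicit false
open Cfsg

namespace Cfsg.Agent.S2514

theorem dv {X : Type*} [Group X] [Finite X] (a : X) (n : ℕ) (hn : n ∣ orderOf a) :
    ∃ b : X, orderOf b = n :=
  ⟨_, orderOf_pow_orderOf_div (orderOf_pos a).ne' hn⟩

theorem mx {X : Type*} [Group X] [Finite X] (a : X) :
    ∃ b : X, orderOf a ∣ orderOf b ∧ ∀ m ∈ Set.range (orderOf : X → ℕ), orderOf b ∣ m → m = orderOf b := by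
  obtain ⟨b, hb, hm⟩ := Set.exists_max_image {b : X | orderOf a ∣ orderOf b} orderOf
    (Set.toFinite _) ⟨a, dvd_rfl⟩
  refine ⟨b, hb, ?_⟩
  rintro m ⟨c, rfl⟩ hc
  exact le_antisymm (hm c (dvd_trans hb hc)) (Nat.le_of_dvd (orderOf_pos c) hc)


/-- For a finite group X write μ(X) for the set of element orders of X that are maximal under divisibility. Let G and H be finite groups and k ≥ 1 such that μ(H) ⊆ μ(G) and μ(G) has fewer than k elements outside μ(H). Then the direct product of k copies of G has the same set of element orders as the direct product of k − 1 copies of G with H. -/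
theorem result {G H : Type*} [Group G] [Finite G] [Group H] [Finite H] (k : ℕ) (hk : 1 ≤ k)
    (hsub : {n : ℕ | n ∈ Set.range (orderOf : H → ℕ) ∧ ∀ m ∈ Set.range (orderOf : H → ℕ), n ∣ m → m = n} ⊆ {n : ℕ | n ∈ Set.range (orderOf : G → ℕ) ∧ ∀ m ∈ Set.range (orderOf : G → ℕ), n ∣ m → m = n})
    (hfew : ({n : ℕ | n ∈ Set.range (orderOf : G → ℕ) ∧ ∀ m ∈ Set.range (orderOf : G → ℕ), n ∣ m → m = n} \ {n : ℕ | n ∈ Set.range (orderOf : H → ℕ) ∧ ∀ m ∈ Set.range (orderOf : H → ℕ), n ∣ m → m = n}).ncard < k) :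
    Set.range (orderOf : (Fin k → G) → ℕ) = Set.range (orderOf : (Fin (k - 1) → G) × H → ℕ) := by
  classical
  obtain ⟨j, rfl⟩ : ∃ j, k = j + 1 := ⟨k - 1, by omega⟩
  show Set.range (orderOf : (Fin (j + 1) → G) → ℕ) = Set.range (orderOf : (Fin j → G) × H → ℕ)
  apply Set.Subset.antisymm
  · rintro _ ⟨x, rfl⟩
    choose a ha hm using fun i => mx (x i)
    by_cases hA : ∃ i, ∃ c : H, orderOf c = orderOf (a i)
    · obtain ⟨i, c, hc⟩ := hA
      obtain ⟨h, hh⟩ := dv c (orderOf (x i)) (hc ▸ ha i)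
      refine ⟨(fun t => x (i.succAbove t), h), ?_⟩
      rw [orderOf_eq_orderOf_iff]
      intro n
      have e := (orderOf_eq_orderOf_iff.1 hh) n
      simp only [Prod.pow_mk, Prod.mk_eq_one, funext_iff, Pi.pow_apply, Pi.one_apply,
        i.forall_iff_succAbove, e]
      exact and_comm
    · have hin : ∀ i, orderOf (a i) ∈ ({n : ℕ | n ∈ Set.range (orderOf : G → ℕ) ∧ ∀ m ∈ Set.range (orderOf : G → ℕ), n ∣ m → m = n} \ {n : ℕ | n ∈ Set.range (orderOf : H → ℕ) ∧ ∀ m ∈ Set.range (orderOf : H → ℕ), n ∣ m → m = n}) := by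
        intro i
        refine ⟨⟨⟨_, rfl⟩, hm i⟩, fun h => hA ⟨i, h.1⟩⟩
      have hfin : ({n : ℕ | n ∈ Set.range (orderOf : G → ℕ) ∧ ∀ m ∈ Set.range (orderOf : G → ℕ), n ∣ m → m = n} \ {n : ℕ | n ∈ Set.range (orderOf : H → ℕ) ∧ ∀ m ∈ Set.range (orderOf : H → ℕ), n ∣ m → m = n}).Finite :=
        (Set.finite_range (orderOf : G → ℕ)).subset fun n hn => hn.1.1
      have hni : ¬ Function.Injective (fun i => orderOf (a i)) := by
        intro hinj
        have h1 := Set.ncard_le_ncard_of_injOn (s := (Set.univ : Set (Fin (j + 1))))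
          (fun i => orderOf (a i)) (fun i _ => hin i) hinj.injOn hfin
        rw [Set.ncard_univ, Nat.card_eq_fintype_card, Fintype.card_fin] at h1
        omega
      simp only [Function.Injective, not_forall] at hni
      obtain ⟨i, l, hil, hne⟩ := hni
      obtain ⟨g, hg⟩ := dv (a i) (Nat.lcm (orderOf (x i)) (orderOf (x l)))
        (Nat.lcm_dvd (ha i) (hil ▸ ha l))
      refine ⟨(fun t => Function.update x l g (i.succAbove t), 1), ?_⟩
      rw [orderOf_eq_orderOf_iff]
      intro n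
      have e : g ^ n = 1 ↔ x i ^ n = 1 ∧ x l ^ n = 1 := by
        rw [← orderOf_dvd_iff_pow_eq_one, hg, Nat.lcm_dvd_iff, orderOf_dvd_iff_pow_eq_one,
          orderOf_dvd_iff_pow_eq_one]
      simp only [Prod.pow_mk, Prod.mk_eq_one, funext_iff, Pi.pow_apply, Pi.one_apply, one_pow,
        and_true]
      obtain ⟨t0, ht0⟩ := Fin.exists_succAbove_eq (Ne.symm hne)
      constructor
      · intro h
        have h0 := h t0
        rw [ht0, Function.update_self, e] at h0
        intro s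
        by_cases hs : s = i
        · exact hs ▸ h0.1
        by_cases hl : s = l
        · exact hl ▸ h0.2
        obtain ⟨t, rfl⟩ := Fin.exists_succAbove_eq hs
        have := h t
        rwa [Function.update_of_ne hl] at this
      · intro h t
        by_cases hl : i.succAbove t = l
        · rw [hl, Function.update_self, e]
          exact ⟨h i, h l⟩
        · rw [Function.update_of_ne hl]
          exact h _
  · rintro _ ⟨⟨y, h⟩, rfl⟩
    obtain ⟨c, hc, hm⟩ := mx h
    obtain ⟨⟨a, ha⟩, -⟩ := hsub (show orderOf c ∈ {n : ℕ | n ∈ Set.range (orderOf : H → ℕ) ∧ ∀ m ∈ Set.range (orderOf : H → ℕ), n ∣ m → m = n} from ⟨⟨c, rfl⟩, hm⟩)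
    obtain ⟨g, hg⟩ := dv a (orderOf h) (ha ▸ hc)
    refine ⟨Fin.cons g y, ?_⟩
    rw [orderOf_eq_orderOf_iff]
    intro n
    have e := (orderOf_eq_orderOf_iff.1 hg) n
    simp only [Prod.pow_mk, Prod.mk_eq_one, funext_iff, Pi.pow_apply, Pi.one_apply,
      Fin.forall_fin_succ, Fin.cons_zero, Fin.cons_succ, e]
    exact and_comm

end Cfsg.Agent.S2514
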