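import Mathlib
import Cfsg.Statements.S2516

set_option autoImplicit false
open Cfsg

namespace Cfsg.Agent.S2516

theorem pow_eq {F : Type*} [Field F] {V : Type*} [AddCommGroup V] [Module F V]
    {G : Type*} [Group G] (ρ : Representation F G V)
    (x : Multiplicative V ⋊[(MulAutMultiplicative V).symm.toMonoidHom.comp
        ((DistribMulAction.toAddAut ((V →ₗ[F] V)ˣ) V).comp ρ.asGroupHom)] G) (n : ℕ) :
    Multiplicative.toAdd (x ^ n).left =
      (∑ i ∈ Finset.range n, ρ x.right ^ i) (Multiplicative.toAdd x.left) := by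
  induction n with
  | zero => rw [pow_zero]; rfl
  | succ n ih =>
    rw [pow_succ, SemidirectProduct.mul_left, toAdd_mul, ih, Finset.sum_range_succ,
      LinearMap.add_apply, ← map_pow]
    congr 1
    rw [show (x ^ n).right = x.right ^ n from map_pow SemidirectProduct.rightHom x n]
    rfl

theorem result {F : Type*} [Field F] (p : ℕ) [Fact p.Prime] [CharP F p] {V : Type*} [AddCommGroup V] [Module F V] [FiniteDimensional F V] [Nontrivial V]
    {G : Type*} [Group G] [Finite G] (ρ : Representation F G V) (g : G) :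
    (∃ x : Multiplicative V ⋊[(MulAutMultiplicative V).symm.toMonoidHom.comp
        ((DistribMulAction.toAddAut ((V →ₗ[F] V)ˣ) V).comp ρ.asGroupHom)] G,
        x.right = g ∧ orderOf x = p * orderOf g) ↔
      ¬ (minpoly F (ρ g) ∣ ∑ i ∈ Finset.range (orderOf g), (Polynomial.X : Polynomial F) ^ i) := by
  have hp : p.Prime := Fact.out
  have h0 := orderOf_pos g
  have e : (minpoly F (ρ g) ∣ ∑ i ∈ Finset.range (orderOf g), (Polynomial.X : Polynomial F) ^ i) ↔
      ∑ i ∈ Finset.range (orderOf g), ρ g ^ i = 0 := by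
    rw [minpoly.dvd_iff]; simp [map_sum]
  rw [e]
  constructor
  · rintro ⟨x, rfl, hx⟩ h
    have : x ^ orderOf x.right = 1 := by
      refine SemidirectProduct.ext ?_ ?_
      · have := pow_eq ρ x (orderOf x.right)
        rw [h] at this
        exact this
      · exact (map_pow SemidirectProduct.rightHom x _).trans (pow_orderOf_eq_one _)
    have := Nat.le_of_dvd h0 (orderOf_dvd_of_pow_eq_one this)
    rw [hx] at this
    have := hp.two_le
    nlinarith
  · intro h
    obtain ⟨v, hv⟩ : ∃ v, (∑ i ∈ Finset.range (orderOf g), ρ g ^ i) v ≠ 0 := by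
      by_contra hh
      push Not at hh
      exact h (LinearMap.ext hh)
    refine ⟨⟨Multiplicative.ofAdd v, g⟩, rfl, ?_⟩
    set x : Multiplicative V ⋊[(MulAutMultiplicative V).symm.toMonoidHom.comp
      ((DistribMulAction.toAddAut ((V →ₗ[F] V)ˣ) V).comp ρ.asGroupHom)] G :=
      ⟨Multiplicative.ofAdd v, g⟩
    have h1 : x ^ orderOf g = SemidirectProduct.inl (Multiplicative.ofAdd
        ((∑ i ∈ Finset.range (orderOf g), ρ g ^ i) v)) := by
      refine SemidirectProduct.ext (pow_eq ρ x (orderOf g)) ?_
      exact (map_pow SemidirectProduct.rightHom x _).trans (pow_orderOf_eq_one _)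
    have h2 : orderOf (x ^ orderOf g) = p := by
      rw [h1, orderOf_injective _ SemidirectProduct.inl_injective]
      refine orderOf_eq_prime ?_ hv
      rw [← ofAdd_nsmul, ← Nat.cast_smul_eq_nsmul F, CharP.cast_eq_zero, zero_smul]
      rfl
    have h3 : orderOf g ∣ orderOf x := orderOf_map_dvd SemidirectProduct.rightHom x
    rw [orderOf_pow_of_dvd h0.ne' h3] at h2
    rw [← h2, Nat.div_mul_cancel h3]

end Cfsg.Agent.S2516
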