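import Cfsg.Statements.S2517
import Cfsg.Agent.H14.Sp12

set_option autoImplicit false
set_option linter.unusedVariables false
set_option linter.style.haveILetI false
open Cfsg H14.Wall H16 H23 Polynomial
open scoped Matrix

namespace Cfsg.Agent.S2517

/-- Let F be a finite field of odd order q, let Ω₉ be the simple orthogonal group PΩ(9, F), and let Ω₈⁻ be the commutator subgroup of the isometry group of a minus-type non-singular quadratic form on V = F⁸ (the simple group PΩ⁻(8, F), acting on its natural module V). Then Ω₉ and the semidirect product V ⋊ Ω₈⁻ have exactly the same set of element orders. -/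
theorem result {F : Type*} [Field F] [Fintype F] (hF : Odd (Fintype.card F)) (a b : F)
    (hab : ∀ z₁ z₂ : F, z₁ ^ 2 + a * z₁ * z₂ + b * z₂ ^ 2 = 0 → z₁ = 0 ∧ z₂ = 0) :
    Set.range (orderOf : Cfsg.POmega F (Cfsg.quadFormOdd 4 F) → ℕ) =
      Set.range (orderOf :
        (Multiplicative (((Fin 3 ⊕ Fin 3) ⊕ Fin 2) → F)) ⋊[
          (MulAutMultiplicative (((Fin 3 ⊕ Fin 3) ⊕ Fin 2) → F)).symm.toMonoidHom.comp
           ((DistribMulAction.toAddAut (LinearMap.GeneralLinearGroup F (((Fin 3 ⊕ Fin 3) ⊕ Fin 2) → F))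
              (((Fin 3 ⊕ Fin 3) ⊕ Fin 2) → F)).comp
            (Matrix.GeneralLinearGroup.toLin.toMonoidHom.comp
              ((Cfsg.isometryGroup F (Cfsg.quadFormMinus 3 F a b)).subtype.comp
                (Cfsg.Omega F (Cfsg.quadFormMinus 3 F a b)).subtype)))]
          ↥(Cfsg.Omega F (Cfsg.quadFormMinus 3 F a b)) → ℕ) := by
  have h2 := two_ne_zero_odd hF
  obtain ⟨p, hp⟩ := CharP.exists F
  haveI := Fact.mk (CharP.char_is_prime F p)
  have hΨ := qs_odd h2 4
  obtain ⟨h1, h3, h4⟩ := qs_minus (d := 4) four_ne_zero hab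
  rw [← H22.coe_qOdd, ← H22.coe_qMinus]
  let e := H22.isomEquiv (H22.qMinus 3 F a b)
  let ρ := (LinearEquiv.automorphismGroup.toLinearMapMonoidHom.comp (Subgroup.subtype _)).comp
    (e.toMonoidHom.comp (Omega F (H22.qMinus 3 F a b)).subtype)
  have key : ∀ φ : _ →* MulAut (Multiplicative _), (∀ h v, (φ h v).toAdd = ρ h v.toAdd) →
      Set.range (orderOf : POmega F (H22.qOdd 4 F) → ℕ) =
        Set.range (orderOf : Multiplicative _ ⋊[φ] _ → ℕ) := fun φ hφ => by
    haveI : Finite (Multiplicative _ ⋊[φ] _) := Finite.of_equiv _ SemidirectProduct.equivProd.symm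
    refine (spec9 h2 p h1 h3 h4 hΨ (finrank_odd 4) (sm_PO hΨ (by simp)) ?_).symm
    convert sa_sd φ ρ hφ
      fun x y h => Subtype.ext (e.injective (H22.O_ext _ (LinearMap.congr_fun h))) using 2
    exact ⟨fun ⟨g, h, h'⟩ => ⟨⟨e.symm g, H22.mem_Omega_iff.2 (by simpa [e] using h)⟩,
      by simpa [ρ] using h'⟩, fun ⟨g, h⟩ => ⟨e g.1, H22.mem_Omega_iff.1 g.2, h⟩⟩
  exact key _ fun _ _ => rfl

end Cfsg.Agent.S2517
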