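import Cfsg.Statements.S2519
import Cfsg.Agent.H14.SS5

set_option autoImplicit false
set_option linter.unusedVariables false
set_option linter.style.haveILetI false
open Cfsg H24 H14.SS

namespace Cfsg.Agent.S2519

theorem mo_max {L : Type*} [Group L] {P : Set ℕ} (h1 : ∀ x : L, ∃ n ∈ P, orderOf x ∣ n)
    (h2 : P ⊆ Set.range (orderOf : L → ℕ)) (H : ∀ a ∈ P, ∀ b ∈ P, a ∣ b → b = a) :
    {n | n ∈ Set.range (orderOf : L → ℕ) ∧ ∀ m ∈ Set.range (orderOf : L → ℕ), n ∣ m → m = n} = P := by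
  refine Set.ext fun n => ⟨?_, fun hn => ⟨h2 hn, ?_⟩⟩
  · rintro ⟨⟨x, rfl⟩, h⟩
    obtain ⟨N, a1, a2⟩ := h1 x
    exact h N (h2 a1) a2 ▸ a1
  · rintro _ ⟨x, rfl⟩ h
    obtain ⟨N, a1, a2⟩ := h1 x
    exact Nat.dvd_antisymm (H _ hn _ a1 (h.trans a2) ▸ a2) h

theorem nd {a b : ℕ} (h1 : a < b) (h2 : b < 2 * a) : ¬ a ∣ b := fun h => by
  have := Nat.le_of_dvd (by omega) (Nat.dvd_sub h dvd_rfl); omega

theorem anti {p q : ℕ} (hp : p.Prime) (hd : p ∣ q) (hq : 5 ≤ q) :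
    ∀ a ∈ ({p * (q + 1), p * (q - 1), q ^ 2 - 1, q ^ 2 + q + 1, q ^ 2 - q + 1, p ^ 2} : Set ℕ),
    ∀ b ∈ ({p * (q + 1), p * (q - 1), q ^ 2 - 1, q ^ 2 + q + 1, q ^ 2 - q + 1, p ^ 2} : Set ℕ), a ∣ b → b = a := by
  have hpq := Nat.le_of_dvd (by omega) hd
  have h5 : 5 * q ≤ q ^ 2 := by nlinarith
  have hp1 := hp.one_lt
  have n1 : ∀ {n}, p ∣ n → ¬ p ∣ n + 1 := fun h h' => hp1.ne' (Nat.dvd_one.1 ((Nat.dvd_add_right h).1 h'))
  have n2 : ∀ {n}, p ∣ n → 0 < n → ¬ p ∣ n - 1 := fun {n} h h0 h' => n1 h' (by rwa [Nat.sub_add_cancel h0])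
  have d2 : p ∣ q ^ 2 := dvd_pow hd two_ne_zero
  have a1 := n1 hd
  have a2 := n2 hd (by omega)
  have a3 := n2 d2 (by omega)
  have a4 := n1 (dvd_add d2 hd)
  have a5 := n1 (Nat.dvd_sub d2 hd)
  have c1 : ∀ {n m}, ¬ p ∣ n → n ∣ p * m → n ∣ m := fun h h' =>
    ((hp.coprime_iff_not_dvd.2 h).symm.dvd_mul_left).1 h'
  have c2 : ∀ {n}, ¬ p ∣ n → n ∣ p ^ 2 → n = 1 := fun h h' =>
    Nat.dvd_one.1 (c1 h (c1 h (by rwa [mul_one, ← sq])))
  have c3 : ∀ {n m}, p * n ∣ p * m → n ∣ m := fun h => Nat.dvd_of_mul_dvd_mul_left hp.pos h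
  have c4 : ∀ {n}, ¬ p ∣ n → p * n ∣ p ^ 2 → n = 1 := fun h h' => c2 h ((dvd_mul_left _ _).trans h')
  have c5 : ∀ {n}, ¬ p ∣ n → ¬ p ^ 2 ∣ p * n := fun h h' => h (c3 (by rwa [← sq]))
  have le : ∀ {n m}, n ∣ m → 0 < m → n ≤ m := fun h h' => Nat.le_of_dvd h' h
  rintro _ (rfl | rfl | rfl | rfl | rfl | rfl) _ (rfl | rfl | rfl | rfl | rfl | rfl) h <;> first
    | rfl
    | exact absurd ((dvd_mul_right _ _).trans h) ‹_›
    | exact absurd ((dvd_pow_self p two_ne_zero).trans h) ‹_›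
    | exact absurd h (c5 ‹_›)
    | (have := c4 ‹_› h; omega)
    | (have := c2 ‹_› h; omega)
    | (have := le (c1 ‹_› h) (by omega); omega)
    | (have := le (c3 h) (by omega); omega)
    | exact absurd (c3 h) (nd (by omega) (by omega))
    | (have := le h (by omega); omega)
    | exact absurd h (nd (by omega) (by omega))

/-- Let F be a finite field of odd order q = p^a ≥ 5. The element orders of the Chevalley group G₂(F) that are maximal under divisibility are exactly p(q + 1), p(q − 1), q² − 1, q² + q + 1, q² − q + 1, together with p² when p is 3 or 5. -/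
theorem result {F : Type*} [Field F] [Fintype F] (p a : ℕ) (hp : p.Prime) (hp2 : p ≠ 2) (ha : 1 ≤ a) (hF : Fintype.card F = p ^ a) (hq5 : 5 ≤ Fintype.card F) :
    {n : ℕ | n ∈ Set.range (orderOf : ↥(Cfsg.Lie.chevG2.group F) → ℕ) ∧ ∀ m ∈ Set.range (orderOf : ↥(Cfsg.Lie.chevG2.group F) → ℕ), n ∣ m → m = n} =
      ({p * (p ^ a + 1), p * (p ^ a - 1), p ^ (2 * a) - 1, p ^ (2 * a) + p ^ a + 1, p ^ (2 * a) - p ^ a + 1} : Set ℕ) ∪
        (if p = 3 ∨ p = 5 then ({p ^ 2} : Set ℕ) else ∅) := by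
  have := Fact.mk hp
  have : CharP F p := by
    obtain ⟨p', _, n, hp', hn⟩ := FiniteField.card' F
    obtain rfl : p' = p := (Nat.prime_dvd_prime_iff_eq hp' hp).1
      (hp'.dvd_of_dvd_pow (n := a) (hF ▸ hn ▸ dvd_pow_self p' n.ne_zero))
    assumption
  obtain ⟨h1, h2, h3, h4, h5⟩ := G2.ord_ex p hF
  simp only [pow_mul']
  rw [hF] at hq5
  have A := anti hp (dvd_pow_self p (by omega : a ≠ 0)) hq5
  refine mo_max (fun x => ?_) ?_ fun a ha b hb => A a ?_ b ?_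
  · rcases G2.ord_dvd p hF x with h | h | h | h | h | h | h
    exacts [⟨_, by simp, h⟩, ⟨_, by simp, h⟩, ⟨_, by simp, h⟩, ⟨_, by simp, h⟩, ⟨_, by simp, h⟩, absurd h.1 hp2, by
      by_cases h35 : p = 3 ∨ p = 5
      · exact ⟨_, by simp [h35], h 2 (by rcases h35 with rfl | rfl <;> decide)⟩
      · have : p ≠ 4 := by rintro rfl; exact absurd hp (by decide)
        have := hp.two_le
        exact ⟨p * (p ^ a + 1), by simp, (h 1 (by rw [pow_one]; omega)).trans (by simp)⟩]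
  · rintro _ ((rfl | rfl | rfl | rfl | rfl) | h) <;> try assumption
    split_ifs at h with h35
    · obtain rfl := h
      rcases h35 with rfl | rfl
      · exact G2.ord_unip (F := F) 3 (e := 1) (a := 2) (b := 2) (by decide) (by decide +kernel) (by decide)
      · exact G2.ord_unip (F := F) 5 (e := 1) (a := 3) (b := 0) (by decide) (by decide +kernel) (by decide)
    · exact h.elim
  · split_ifs at ha <;> simp at ha ⊢ <;> tauto
  · split_ifs at hb <;> simp at hb ⊢ <;> tauto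

end Cfsg.Agent.S2519
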