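import Cfsg.Statements.S2520
import Cfsg.Agent.H14.SS5

set_option autoImplicit false
set_option linter.unusedVariables false
set_option linter.style.haveILetI false
open Cfsg H24 H14.SS

namespace Cfsg.Agent.S2520

/-- Let F be a finite field with q = 2^a ≥ 4 elements and G₂(F) the Chevalley group of type G₂ over it. Every element order of G₂(F) maximal under divisibility lies in the set {8, 12, 2(q + 1), 2(q − 1), q² − 1, q² + q + 1, q² − q + 1}, and every member of that set is an element order of G₂(F). -/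
theorem result {F : Type*} [Field F] [Fintype F] (a : ℕ) (ha : 2 ≤ a) (hF : Fintype.card F = 2 ^ a) :
    {n : ℕ | n ∈ Set.range (orderOf : ↥(Cfsg.Lie.chevG2.group F) → ℕ) ∧ ∀ m ∈ Set.range (orderOf : ↥(Cfsg.Lie.chevG2.group F) → ℕ), n ∣ m → m = n} ⊆ ({8, 12, 2 * (2 ^ a + 1), 2 * (2 ^ a - 1), 2 ^ (2 * a) - 1, 2 ^ (2 * a) + 2 ^ a + 1, 2 ^ (2 * a) - 2 ^ a + 1} : Set ℕ) ∧
    ({8, 12, 2 * (2 ^ a + 1), 2 * (2 ^ a - 1), 2 ^ (2 * a) - 1, 2 ^ (2 * a) + 2 ^ a + 1, 2 ^ (2 * a) - 2 ^ a + 1} : Set ℕ) ⊆ Set.range (orderOf : ↥(Cfsg.Lie.chevG2.group F) → ℕ) := by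
  have : Fact (Nat.Prime 2) := ⟨Nat.prime_two⟩
  have : CharP F 2 := by
    obtain ⟨p, _, n, hp, hn⟩ := FiniteField.card' F
    obtain rfl : p = 2 := (Nat.prime_dvd_prime_iff_eq hp Nat.prime_two).1
      (hp.dvd_of_dvd_pow (n := a) (hF ▸ hn ▸ dvd_pow_self p n.ne_zero))
    assumption
  obtain ⟨h1, h2, h3, h4, h5⟩ := G2.ord_ex 2 hF
  have h6 := G2.ord_twelve (F := F)
  have h7 := G2.ord_unip (F := F) 2 (e := 2) (a := 1) (b := 0) (by decide) (by decide +kernel) (by decide)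
  simp only [pow_mul']
  have key : ({8, 12, 2 * (2 ^ a + 1), 2 * (2 ^ a - 1), (2 ^ a) ^ 2 - 1, (2 ^ a) ^ 2 + 2 ^ a + 1,
      (2 ^ a) ^ 2 - 2 ^ a + 1} : Set ℕ) ⊆ Set.range (orderOf : ↥(Cfsg.Lie.chevG2.group F) → ℕ) := by
    rintro _ (rfl | rfl | rfl | rfl | rfl | rfl | rfl) <;> assumption
  refine ⟨?_, key⟩
  rintro _ ⟨⟨x, rfl⟩, H⟩
  have k2 : ∀ n, n ∈ ({8, 12, 2 * (2 ^ a + 1), 2 * (2 ^ a - 1), (2 ^ a) ^ 2 - 1, (2 ^ a) ^ 2 + 2 ^ a + 1,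
      (2 ^ a) ^ 2 - 2 ^ a + 1} : Set ℕ) → orderOf x ∣ n → _ := fun n hn e => (H n (key hn) e).symm ▸ hn
  rcases G2.ord_dvd 2 hF x with h | h | h | h | h | h | h
  exacts [k2 _ (by simp) h, k2 _ (by simp) h, k2 _ (by simp) h, k2 _ (by simp) h, k2 _ (by simp) h,
    k2 _ (by simp) h.2, k2 _ (by simp) (h 3 (by decide))]

end Cfsg.Agent.S2520
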