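import Cfsg.Statements.S2524
import Cfsg.Agent.H22.WeD

set_option autoImplicit false
open Cfsg

namespace Cfsg.Agent.S2524

theorem sim (F : Type*) [Field F] (n : ℕ) {e : F} (he : e ≠ 0) :
    ∃ D : (Fin n ⊕ Fin n → F) ≃ₗ[F] (Fin n ⊕ Fin n → F),
      ∀ x y, (H22.spForm n F).B (D x) (D y) = e * (H22.spForm n F).B x y := by
  refine ⟨LinearEquiv.piCongrRight fun i => LinearEquiv.smulOfNeZero F F
    (Sum.elim (fun _ => 1) (fun _ => e) i) (by cases i <;> simp [he]), fun x y => ?_⟩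
  simp [H22.spForm_B, sympForm, Matrix.J, dotProduct, Matrix.fromBlocks_mulVec, Matrix.neg_mulVec,
    Fintype.sum_sum_type, mul_add, Finset.mul_sum, mul_left_comm, mul_assoc]

def tr {G H : Type*} [Group G] [Group H] (e : G ≃* H) (χ : IrrCharacter H) : IrrCharacter G :=
  ⟨χ.1 ∘ e, by
    obtain ⟨k, ρ, h, hχ⟩ := χ.2
    exact ⟨k, _, H17.isIrreducible_comp_of_surjective ρ e.toMonoidHom e.surjective h, hχ ▸ rfl⟩⟩

def trE {G H : Type*} [Group G] [Group H] (e : G ≃* H) : IrrCharacter H ≃ IrrCharacter G where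
  toFun := tr e
  invFun := tr e.symm
  left_inv χ := Subtype.ext (funext fun g => by simp [tr])
  right_inv χ := Subtype.ext (funext fun g => by simp [tr])

theorem trE_one {G H : Type*} [Group G] [Group H] (e : G ≃* H) (χ : IrrCharacter H) :
    (trE e χ).1 1 = χ.1 1 := by simp [trE, tr]

/-- Let F be a finite field of odd order q and G = Sp(2n, F) with n ≥ 2. Then G has exactly four irreducible complex characters of degree (q^n + 1)/2 or (q^n − 1)/2 (two of each), and every other non-principal irreducible character has degree at least (q^n − 1)(q^n − q)/(2(q + 1)). -/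
theorem result {F : Type*} [Field F] [Fintype F] (hodd : Odd (Fintype.card F)) (n : ℕ) (hn : 2 ≤ n) :
    Nat.card {χ : Cfsg.IrrCharacter ↥(Matrix.symplecticGroup (Fin n) F) // (χ : ↥(Matrix.symplecticGroup (Fin n) F) → ℂ) 1 = (((Fintype.card F) ^ n + 1 : ℕ) : ℂ) / 2} = 2 ∧
    Nat.card {χ : Cfsg.IrrCharacter ↥(Matrix.symplecticGroup (Fin n) F) // (χ : ↥(Matrix.symplecticGroup (Fin n) F) → ℂ) 1 = (((Fintype.card F) ^ n - 1 : ℕ) : ℂ) / 2} = 2 ∧
    ∀ χ : Cfsg.IrrCharacter ↥(Matrix.symplecticGroup (Fin n) F),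
      (χ : ↥(Matrix.symplecticGroup (Fin n) F) → ℂ) 1 ≠ 1 →
      (χ : ↥(Matrix.symplecticGroup (Fin n) F) → ℂ) 1 ≠ (((Fintype.card F) ^ n + 1 : ℕ) : ℂ) / 2 →
      (χ : ↥(Matrix.symplecticGroup (Fin n) F) → ℂ) 1 ≠ (((Fintype.card F) ^ n - 1 : ℕ) : ℂ) / 2 →
      (((Fintype.card F) ^ n - 1 : ℕ) : ℝ) * (((Fintype.card F) ^ n - Fintype.card F : ℕ) : ℝ) / (2 * ((Fintype.card F : ℕ) + 1 : ℝ)) ≤ ‖(χ : ↥(Matrix.symplecticGroup (Fin n) F) → ℂ) 1‖ := by
  have h2 : (2 : F) ≠ 0 := H22.two_ne_zero_of_odd_card hodd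
  let e : Matrix.symplecticGroup (Fin n) F ≃* (H22.spForm n F).O := by
    convert H22.spEquiv n F
  obtain ⟨E, hE, hd⟩ := H22.Ls.exists_lagr F n
  obtain ⟨ε, hε⟩ := FiniteField.exists_nonsquare (F := F) fun h => by
    have := FiniteField.even_card_of_char_two h
    have := Nat.odd_iff.1 hodd
    omega
  obtain ⟨S, hS⟩ := sim F n (e := ε) (by rintro rfl; simp at hε)
  let D := H22.Ls.stdWD F n h2 H22.LC.hψ0
  obtain ⟨ω, hω⟩ := D.exists_weil
  have := H22.Ls.finite_O (Φ := H22.spForm n F)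
  have hW : Module.finrank ℂ ((Fin n → F) → ℂ) = Fintype.card F ^ n := by simp
  have h1 : 2 ≤ Fintype.card F ^ n :=
    Fintype.one_lt_card.trans_le (Nat.le_self_pow (by omega) _)
  have hq : 3 ≤ Fintype.card F := by
    have := Nat.odd_iff.1 hodd
    have := Fintype.one_lt_card (α := F)
    omega
  have ha := hW ▸ D.finrank_even
  have hb := hW ▸ D.finrank_odd
  obtain ⟨k1, k2, k3⟩ := H22.We.SC.main (C := ⟨H22.spForm n F, H22.spForm_nondeg n, rfl, rfl⟩) h2 hE hn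
    hd (by simp; omega) S hε hS ha hb hq
    (H22.Ls.exists_irr_sub (ρ := ω) (D.U_ne_bot (Or.inl rfl) (hW ▸ h1))
      (fun g => D.apply_mem_U (D.comm_P (hω g)) _) _ (D.isProj (by simp))
      (fun g => D.pr_comm (D.comm_P (hω g)) _) (D.commutant_U hω _) rfl)
    (H22.Ls.exists_irr_sub (ρ := ω) (D.U_ne_bot (Or.inr rfl) (hW ▸ h1))
      (fun g => D.apply_mem_U (D.comm_P (hω g)) _) _ (D.isProj (by simp))
      (fun g => D.pr_comm (D.comm_P (hω g)) _) (D.commutant_U hω _) rfl)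
  generalize Module.finrank ℂ (D.U 1) = a at *
  generalize Module.finrank ℂ (D.U (-1)) = b at *
  have ea : ((Fintype.card F ^ n + 1 : ℕ) : ℂ) / 2 = a := by rw [← ha]; push_cast; ring
  have eb : ((Fintype.card F ^ n - 1 : ℕ) : ℂ) / 2 = b := by
    rw [← hb, Nat.add_sub_cancel]; push_cast; ring
  rw [ea, eb]
  refine ⟨?_, ?_, fun χ a1 a2 a3 => ?_⟩
  · rw [← k1, ← Nat.card_coe_set_eq]
    exact Nat.card_congr ((trE e).subtypeEquiv fun χ => by rw [trE_one]; rfl).symm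
  · rw [← k2, ← Nat.card_coe_set_eq]
    exact Nat.card_congr ((trE e).subtypeEquiv fun χ => by rw [trE_one]; rfl).symm
  · obtain ⟨χ, rfl⟩ := (trE e).surjective χ
    rw [trE_one] at a1 a2 a3 ⊢
    obtain ⟨k, hk, h⟩ := k3 χ a1 a2 a3
    rw [hk, Complex.norm_natCast, div_le_iff₀ (by positivity), mul_comm (k : ℝ)]
    exact_mod_cast h

end Cfsg.Agent.S2524
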