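import Cfsg.Statements.S2525
import Cfsg.Agent.H14.SS6

set_option autoImplicit false
set_option linter.unusedVariables false
set_option linter.style.haveILetI false
open Cfsg H24 H14.SS

namespace Cfsg.Agent.S2525

section nt
variable {r : ℕ} [hr : Fact r.Prime] (h2 : r ≠ 2) (q : ℕ)

theorem dv (n : ℤ) : (r : ℤ) ∣ n ↔ (n : ZMod r) = 0 := (ZMod.intCast_zmod_eq_zero_iff_dvd n r).symm

theorem d1 (k : ℕ) : (r : ℤ) ∣ (q : ℤ) ^ k - 1 ↔ orderOf (q : ZMod r) ∣ k := by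
  rw [dv, orderOf_dvd_iff_pow_eq_one, ← sub_eq_zero (b := 1)]; push_cast; rfl

include h2 in
theorem d2 (k : ℕ) : (r : ℤ) ∣ (q : ℤ) ^ k + 1 ↔ orderOf (q : ZMod r) ∣ 2 * k ∧ ¬ orderOf (q : ZMod r) ∣ k := by
  have e : (q : ℤ) ^ (2 * k) - 1 = (q ^ k + 1) * (q ^ k - 1) := by ring
  rw [← d1, ← d1, e, (Nat.prime_iff_prime_int.1 hr.out).dvd_mul]
  refine ⟨fun h => ⟨.inl h, fun h' => h2 ?_⟩, fun h => h.1.resolve_right h.2⟩
  have := dvd_sub h h'
  rw [show (q : ℤ) ^ k + 1 - (q ^ k - 1) = (2 : ℕ) by push_cast; ring, Int.natCast_dvd_natCast] at this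
  exact (Nat.prime_dvd_prime_iff_eq hr.out Nat.prime_two).1 this

include h2 in
theorem d12 : (r : ℤ) ∣ (q : ℤ) ^ 4 - q ^ 2 + 1 ↔ orderOf (q : ZMod r) = 12 := by
  have e : (q : ℤ) ^ 6 + 1 = (q ^ 4 - q ^ 2 + 1) * (q ^ 2 + 1) := by ring
  have a := d2 h2 q 6
  have b := d2 h2 q 2
  rw [e, (Nat.prime_iff_prime_int.1 hr.out).dvd_mul] at a
  refine ⟨fun h => ?_, fun h => (a.2 (by rw [h]; decide)).resolve_right fun h' => by
    have := (b.1 h').1; rw [h] at this; omega⟩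
  obtain ⟨a1, a2⟩ := a.1 (.inl h)
  have := Nat.le_of_dvd (by decide) a1
  have : orderOf (q : ZMod r) ≠ 4 := fun h4 => by
    have := dvd_sub h ((b.2 (by rw [h4]; decide)).mul_right (q ^ 2 - 2))
    rw [show (q : ℤ) ^ 4 - q ^ 2 + 1 - (q ^ 2 + 1) * (q ^ 2 - 2) = (3 : ℕ) by push_cast; ring,
      Int.natCast_dvd_natCast] at this
    obtain rfl := (Nat.prime_dvd_prime_iff_eq hr.out Nat.prime_three).1 this
    have := orderOf_le_card_univ (x := (q : ZMod 3))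
    rw [h4, ZMod.card] at this; omega
  generalize orderOf (q : ZMod r) = e at *
  interval_cases e <;> omega

/-- compatible orders -/
def A (k l : ℕ) : Prop := ((k ∣ 2 ∨ k ∣ 3) ∧ (l ∣ 2 ∨ l ∣ 3)) ∨ (k ∣ 4 ∧ l ∣ 4) ∨ ((k ∣ 2 ∨ k = 6) ∧ (l ∣ 2 ∨ l = 6)) ∨
  (k = 8 ∧ l = 8) ∨ (k = 12 ∧ l = 12)

include h2 in
theorem u1 (h : (r : ℤ) ∣ ((q : ℤ) + 1) * (q ^ 3 - 1)) : orderOf (q : ZMod r) ∣ 2 ∨ orderOf (q : ZMod r) ∣ 3 :=
  ((Nat.prime_iff_prime_int.1 hr.out).dvd_mul.1 h).imp (fun h => ((d2 h2 q 1).1 (by simpa using h)).1) (d1 q 3).1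

include h2 in
theorem u3 (h : (r : ℤ) ∣ ((q : ℤ) - 1) * (q ^ 3 + 1)) : orderOf (q : ZMod r) ∣ 2 ∨ orderOf (q : ZMod r) = 6 := by
  rcases (Nat.prime_iff_prime_int.1 hr.out).dvd_mul.1 h with h | h
  · exact .inl (((d1 q 1).1 (by simpa using h)).trans (one_dvd _))
  · obtain ⟨a, b⟩ := (d2 h2 q 3).1 h
    have := Nat.le_of_dvd (by decide) a
    generalize orderOf (q : ZMod r) = e at *
    interval_cases e <;> omega

include h2 in
theorem u4 : (r : ℤ) ∣ (q : ℤ) ^ 4 + 1 ↔ orderOf (q : ZMod r) = 8 := by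
  rw [d2 h2]
  refine ⟨fun ⟨a, b⟩ => ?_, fun h => by rw [h]; decide⟩
  have := Nat.le_of_dvd (by decide) a
  generalize orderOf (q : ZMod r) = e at *
  interval_cases e <;> omega

end nt

local notation "hT" => tabF4_chk
local notation "RR" => tabF4_chk.rsys
open Cfsg.Lie F4

variable {F : Type*} [Field F] [Fintype F] [CharP F 2]

theorem up (x : chevF4.group F) : ∃ a b : ℕ, orderOf x = a * b ∧ a ∣ 2 ^ 4 ∧ ¬ 2 ∣ b ∧
    ((b : ℤ) ∣ ((Fintype.card F : ℤ) + 1) * (Fintype.card F ^ 3 - 1) ∨ (b : ℤ) ∣ (Fintype.card F : ℤ) ^ 4 - 1 ∨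
      (b : ℤ) ∣ ((Fintype.card F : ℤ) - 1) * (Fintype.card F ^ 3 + 1) ∨ (((b : ℤ) ∣ (Fintype.card F : ℤ) ^ 4 + 1 ∨
        (b : ℤ) ∣ (Fintype.card F : ℤ) ^ 4 - Fintype.card F ^ 2 + 1) ∧ (a = 1 ∨ b = 1))) := by
  obtain ⟨E⟩ := exists_ext hT uniF4 F
  have : CharP (AlgebraicClosure F) 2 := charP_of_injective_ringHom E.j.injective 2
  have := (hT).finite_grp F
  obtain ⟨w, hw, c, hc, v, hv, e⟩ := split hT uniF4 E 2 (hA_two _) x
  have h0 : ¬ 2 ∣ orderOf c := not_dvd_orderOf 2 (right_ne_zero_of_mul (e ▸ (orderOf_pos x).ne'))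
  refine ⟨_, _, e, orderOf_dvd_of_pow_eq_one (pow_XS ((hT).grp _).toSt0 Nat.prime_two (CharP.cast_eq_zero _ 2)
    (f := RS.htv) (closed_Pc c) (fun r hr => (RR).ht_pos hr.1) 4
    (fun r _ => (by decide +kernel : ∀ r : Fin chevF4.nroots, (RR).ht r < 16) r) hv), h0, ?_⟩
  simp only [orderOf_dvd_iff_zpow_eq_one]
  refine (five ((RR).W_le_Aut hw) hc).imp_right (Or.imp_right (Or.imp_right (And.imp_right fun H => ?_)))
  rcases Set.eq_empty_or_nonempty (Pc RR c) with e | ⟨r, hr⟩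
  · rw [e, St0.XS_empty, Subgroup.mem_bot] at hv
    exact .inl (by rw [hv, orderOf_one])
  · exact .inr (Nat.Coprime.eq_one_of_dvd ((Nat.prime_two.coprime_iff_not_dvd.2 h0).symm.pow_right 3)
      (orderOf_dvd_of_pow_eq_one (H r hr.2)))

theorem odd_ne {k : Type*} [Field k] [CharP k 2] {r : ℕ} (hr : r.Prime) (h2 : r ≠ 2) : (r : k) ≠ 0 := fun e =>
  h2 ((Nat.prime_dvd_prime_iff_eq Nat.prime_two hr).1 ((CharP.cast_eq_zero_iff k 2 r).1 e)).symm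

theorem ss {r s : ℕ} (hr : r.Prime) (hs : s.Prime) (r2 : r ≠ 2) (s2 : s ≠ 2) (hrs : r ≠ s) {l : List ℕ} {m m' : List ℤ}
    {n n' : ℤ} (h : Tor (Fintype.card F) l m n) (h' : Tor (Fintype.card F) l m' n') (hl : ∀ i ∈ l, i < 4)
    (h1 : (r : ℤ) ∣ n) (h2 : (s : ℤ) ∣ n') : ∃ x : chevF4.group F, orderOf x = r * s := by
  obtain ⟨E⟩ := exists_ext hT uniF4 F
  have : CharP (AlgebraicClosure F) 2 := charP_of_injective_ringHom E.j.injective 2
  obtain ⟨w, hw, e⟩ := (hT).exists_wd l hl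
  obtain ⟨c, hc, e1, -⟩ := h.ex (k := AlgebraicClosure F) e h1 (odd_ne hr r2)
  obtain ⟨d, hd, e2, -⟩ := h'.ex (k := AlgebraicClosure F) e h2 (odd_ne hs s2)
  obtain ⟨x, hx⟩ := E.exists_ss hw (mul_mem hc hd)
  exact ⟨x, by rw [hx, (Commute.all c d).orderOf_mul_eq_mul_orderOf_of_coprime
    (by rw [e1, e2]; exact (Nat.coprime_primes hr hs).2 hrs), e1, e2]⟩

theorem mx {s : ℕ} (hs : s.Prime) (s2 : s ≠ 2) {l : List ℕ} {m : List ℤ} {n : ℤ} (h : Tor (Fintype.card F) l m n)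
    (a : ℕ) {a0 a1 a2 a3 : ℤ} (hl : (∀ i ∈ l, i < 4) ∧ a < tabF4.n ∧ tabF4.appl l a = a ∧ tabF4.rtv a 0 = a0 ∧
      tabF4.rtv a 1 = a1 ∧ tabF4.rtv a 2 = a2 ∧ tabF4.rtv a 3 = a3)
    (ha : m.getD 0 0 * a0 + m.getD 1 0 * a1 + m.getD 2 0 * a2 + m.getD 3 0 * a3 = 0)
    (h1 : (s : ℤ) ∣ n) : ∃ x : chevF4.group F, orderOf x = 2 * s := by
  obtain ⟨E⟩ := exists_ext hT uniF4 F
  have : CharP (AlgebraicClosure F) 2 := charP_of_injective_ringHom E.j.injective 2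
  obtain ⟨w, hw, e⟩ := (hT).exists_wd l hl.1
  obtain ⟨c, hc, e1, H⟩ := h.ex (k := AlgebraicClosure F) e h1 (odd_ne hs s2)
  obtain ⟨-, h2, h3, rfl, rfl, rfl, rfl⟩ := hl
  exact e1 ▸ E.exists_mixed 2 hw hc (r := (hT).fin a) (Fin.ext (by rw [e, (hT).val_fin h2, h3])) (H _ (by
    rw [(hT).val_fin h2]; simp only [Finset.sum_range_succ, Finset.sum_range_zero, zero_add, ha, dvd_zero]))

theorem two {s : ℕ} [hs : Fact s.Prime] (s2 : s ≠ 2) : (∃ x : chevF4.group F, orderOf x = 2 * s) ↔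
    orderOf ((Fintype.card F : ℕ) : ZMod s) ∣ 4 ∨ orderOf ((Fintype.card F : ℕ) : ZMod s) ∣ 6 := by
  constructor
  · rintro ⟨x, hx⟩
    obtain ⟨a, b, e, h1, h2, H⟩ := up x
    rw [hx] at e
    have h3 : s ∣ b := (hs.out.dvd_mul.1 (e ▸ dvd_mul_left s 2)).resolve_left fun h =>
      s2 ((Nat.prime_dvd_prime_iff_eq hs.out Nat.prime_two).1 (hs.out.dvd_of_dvd_pow (h.trans h1)))
    have h4 := Int.natCast_dvd_natCast.2 h3
    rcases H with H | H | H | ⟨-, rfl | rfl⟩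
    · exact .inr ((u1 s2 _ (h4.trans H)).elim (·.trans (by decide)) (·.trans (by decide)))
    · exact .inl ((d1 _ _).1 (h4.trans H))
    · exact .inr ((u3 s2 _ (h4.trans H)).elim (·.trans (by decide)) (·.dvd))
    · omega
    · exact absurd (Nat.dvd_one.1 h3) hs.out.ne_one
  · intro h
    by_cases h3 : orderOf ((Fintype.card F : ℕ) : ZMod s) ∣ 3
    · exact mx hs.out s2 (tA _) 33 (a0 := 1) (a1 := 0) (a2 := 0) (a3 := 0) (by decide +kernel) (by simp) ((d1 _ _).2 h3)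
    by_cases h6 : orderOf ((Fintype.card F : ℕ) : ZMod s) ∣ 6
    · exact mx hs.out s2 (tB _) 44 (a0 := 2) (a1 := 3) (a2 := 2) (a3 := 1) (by decide +kernel) (by simp; ring)
        ((d2 s2 _ _).2 ⟨h6, h3⟩)
    · exact mx hs.out s2 (tC _) 47 (a0 := 2) (a1 := 4) (a2 := 3) (a3 := 2) (by decide +kernel) (by simp; ring)
        ((d2 s2 _ _).2 ⟨h.resolve_right h6, fun h => h6 (h.trans (by decide))⟩)

theorem odd {r s : ℕ} [hr : Fact r.Prime] [hs : Fact s.Prime] (r2 : r ≠ 2) (s2 : s ≠ 2) (hrs : r ≠ s) :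
    (∃ x : chevF4.group F, orderOf x = r * s) ↔
      A (orderOf ((Fintype.card F : ℕ) : ZMod r)) (orderOf ((Fintype.card F : ℕ) : ZMod s)) := by
  constructor
  · rintro ⟨x, hx⟩
    obtain ⟨a, b, e, h1, h2, H⟩ := up x
    rw [hx] at e
    have h3 : ∀ {t : ℕ}, t.Prime → t ≠ 2 → t ∣ r * s → (t : ℤ) ∣ b := fun ht t2 h => Int.natCast_dvd_natCast.2
      ((ht.dvd_mul.1 (e ▸ h)).resolve_left fun h =>
        t2 ((Nat.prime_dvd_prime_iff_eq ht Nat.prime_two).1 (ht.dvd_of_dvd_pow (h.trans h1))))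
    have h4 := h3 hr.out r2 (dvd_mul_right _ _)
    have h5 := h3 hs.out s2 (dvd_mul_left _ _)
    rcases H with H | H | H | ⟨H | H, -⟩
    · exact .inl ⟨u1 r2 _ (h4.trans H), u1 s2 _ (h5.trans H)⟩
    · exact .inr (.inl ⟨(d1 _ _).1 (h4.trans H), (d1 _ _).1 (h5.trans H)⟩)
    · exact .inr (.inr (.inl ⟨u3 r2 _ (h4.trans H), u3 s2 _ (h5.trans H)⟩))
    · exact .inr (.inr (.inr (.inl ⟨(u4 r2 _).1 (h4.trans H), (u4 s2 _).1 (h5.trans H)⟩)))
    · exact .inr (.inr (.inr (.inr ⟨(d12 r2 _).1 (h4.trans H), (d12 s2 _).1 (h5.trans H)⟩)))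
  have k1 : ∀ {l : List ℕ} {P : ℕ → Prop}, (∀ i ∈ l, i < 4) → (∀ (t : ℕ) [Fact t.Prime], t ≠ 2 →
      P (orderOf ((Fintype.card F : ℕ) : ZMod t)) → ∃ m n, Tor (Fintype.card F) l m n ∧ (t : ℤ) ∣ n) →
      P (orderOf ((Fintype.card F : ℕ) : ZMod r)) ∧ P (orderOf ((Fintype.card F : ℕ) : ZMod s)) →
      ∃ x : chevF4.group F, orderOf x = r * s := fun hl H h => by
    obtain ⟨m, n, h1, h2⟩ := H r r2 h.1
    obtain ⟨m', n', h1', h2'⟩ := H s s2 h.2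
    exact ss hr.out hs.out r2 s2 hrs h1 h1' hl h2 h2'
  rintro (h | h | h | h | h)
  · refine k1 (l := [3, 2, 0]) (P := fun k => k ∣ 2 ∨ k ∣ 3) (by decide) (fun t _ t2 h => ?_) h
    by_cases h3 : orderOf ((Fintype.card F : ℕ) : ZMod t) ∣ 3
    · exact ⟨_, _, tD _, (d1 _ _).2 h3⟩
    · exact ⟨_, _, tD' _, by simpa using (d2 t2 _ 1).2 ⟨h.resolve_right h3, fun h => h3 (h.trans (by decide))⟩⟩
  · refine k1 (l := [2, 1, 2, 1, 0]) (P := fun k => k ∣ 4) (by decide) (fun t _ t2 h => ?_) h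
    by_cases h1 : orderOf ((Fintype.card F : ℕ) : ZMod t) ∣ 1
    · exact ⟨_, _, tC' _, by simpa using (d1 _ _).2 h1⟩
    by_cases h2 : orderOf ((Fintype.card F : ℕ) : ZMod t) ∣ 2
    · exact ⟨_, _, tC'' _, by simpa using (d2 t2 _ 1).2 ⟨h2, h1⟩⟩
    · exact ⟨_, _, tC _, (d2 t2 _ 2).2 ⟨h, h2⟩⟩
  · refine k1 (l := [3, 1, 2]) (P := fun k => k ∣ 2 ∨ k = 6) (by decide) (fun t _ t2 h => ?_) h
    by_cases h1 : orderOf ((Fintype.card F : ℕ) : ZMod t) ∣ 1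
    · exact ⟨_, _, tB' _, by simpa using (d1 _ _).2 h1⟩
    · refine ⟨_, _, tB _, (d2 t2 _ 3).2 ⟨h.elim (·.trans (by decide)) (·.dvd), fun h3 => h1 ?_⟩⟩
      exact h.elim (fun h => Nat.dvd_gcd h h3) fun h => by rw [h] at h3; omega
  · exact k1 (l := [3, 2, 1, 2, 1, 0]) (P := fun k => k = 8) (by decide)
      (fun t _ t2 h => ⟨_, _, t8 _, (u4 t2 _).2 h⟩) h
  · exact k1 (l := [3, 2, 1, 0]) (P := fun k => k = 12) (by decide) (fun t _ t2 h => ⟨_, _, t12 _, (d12 t2 _).2 h⟩) h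

theorem rng {r : ℕ} [hr : Fact r.Prime] (r2 : r ≠ 2) {n : ℕ} (hF : Fintype.card F = 2 ^ n)
    (h : r ∣ Nat.card (chevF4.group F)) : orderOf ((Fintype.card F : ℕ) : ZMod r) ∈ [1, 2, 3, 4, 6, 8, 12] := by
  have e := (hT).card_group F
  have hq : 0 < Fintype.card F := Fintype.card_pos
  rw [cardThetaF4, one_mul] at e
  rw [e.trans (congrArg _ (poinF4' _ hq)), hr.out.dvd_mul, hr.out.dvd_mul, hr.out.dvd_mul, hr.out.dvd_mul] at h
  simp only [dvd_pow_sub_one_iff hq] at h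
  have : orderOf ((Fintype.card F : ℕ) : ZMod r) ∣ 8 ∨ orderOf ((Fintype.card F : ℕ) : ZMod r) ∣ 12 := by
    rcases h with h | ((h | h) | h) | h
    · exact absurd ((Nat.prime_dvd_prime_iff_eq hr.out Nat.prime_two).1
        (hr.out.dvd_of_dvd_pow (hF ▸ hr.out.dvd_of_dvd_pow h))) r2
    exacts [.inl (h.trans (by decide)), .inr (h.trans (by decide)), .inl h, .inr h]
  generalize orderOf ((Fintype.card F : ℕ) : ZMod r) = e at *
  have : e ≤ 12 := this.elim (fun h => (Nat.le_of_dvd (by decide) h).trans (by decide)) (Nat.le_of_dvd (by decide))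
  interval_cases e <;> simp_all

/-- Let F be a finite field with q = 2^n elements and G = F₄(F). For an odd prime r let e(r, q) be the multiplicative order of q modulo r. Two distinct primes r, s dividing the order of G are non-adjacent in the prime graph of G (no element of order rs) if and only if, up to swapping r and s, either r = 2 and e(s, q) ∈ {8, 12}, or r, s are both odd with k = e(r, q) < l = e(s, q) and one of: l ∈ {8, 12}; l = 6 and k ∈ {3, 4}; l = 4 and k = 3. -/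
theorem result {F : Type*} [Field F] [Fintype F] (n : ℕ) (hn : 1 ≤ n) (hF : Fintype.card F = 2 ^ n)
    (r s : ℕ) (hr : r.Prime) (hs : s.Prime) (hrs : r ≠ s) (hrG : r ∣ Nat.card ↥(Cfsg.Lie.chevF4.group F)) (hsG : s ∣ Nat.card ↥(Cfsg.Lie.chevF4.group F)) :
    (¬ ∃ x : ↥(Cfsg.Lie.chevF4.group F), orderOf x = r * s) ↔
      ((r = 2 ∧ orderOf ((Fintype.card F : ℕ) : ZMod s) ∈ ({8, 12} : Finset ℕ)) ∨ (s = 2 ∧ orderOf ((Fintype.card F : ℕ) : ZMod r) ∈ ({8, 12} : Finset ℕ)) ∨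
       (r ≠ 2 ∧ s ≠ 2 ∧
         ((orderOf ((Fintype.card F : ℕ) : ZMod r) < orderOf ((Fintype.card F : ℕ) : ZMod s) ∧ (orderOf ((Fintype.card F : ℕ) : ZMod s) ∈ ({8, 12} : Finset ℕ) ∨ (orderOf ((Fintype.card F : ℕ) : ZMod s) = 6 ∧ orderOf ((Fintype.card F : ℕ) : ZMod r) ∈ ({3, 4} : Finset ℕ)) ∨ (orderOf ((Fintype.card F : ℕ) : ZMod s) = 4 ∧ orderOf ((Fintype.card F : ℕ) : ZMod r) = 3))) ∨
          (orderOf ((Fintype.card F : ℕ) : ZMod s) < orderOf ((Fintype.card F : ℕ) : ZMod r) ∧ (orderOf ((Fintype.card F : ℕ) : ZMod r) ∈ ({8, 12} : Finset ℕ) ∨ (orderOf ((Fintype.card F : ℕ) : ZMod r) = 6 ∧ orderOf ((Fintype.card F : ℕ) : ZMod s) ∈ ({3, 4} : Finset ℕ)) ∨ (orderOf ((Fintype.card F : ℕ) : ZMod r) = 4 ∧ orderOf ((Fintype.card F : ℕ) : ZMod s) = 3)))))) := by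
  have : CharP F 2 := by
    obtain ⟨p, _, m, hp, hm⟩ := FiniteField.card' F
    obtain rfl : p = 2 := (Nat.prime_dvd_prime_iff_eq hp Nat.prime_two).1
      (hp.dvd_of_dvd_pow (n := n) (hF ▸ hm ▸ dvd_pow_self p m.ne_zero))
    assumption
  have := Fact.mk hr
  have := Fact.mk hs
  by_cases r2 : r = 2
  · subst r2
    have := rng hrs.symm hF hsG
    rw [two hrs.symm]
    generalize orderOf ((Fintype.card F : ℕ) : ZMod s) = l at *
    simp only [List.mem_cons, List.not_mem_nil, or_false] at this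
    rcases this with rfl | rfl | rfl | rfl | rfl | rfl | rfl <;> simp [hrs.symm]
  by_cases s2 : s = 2
  · subst s2
    have := rng r2 hF hrG
    rw [mul_comm, two r2]
    generalize orderOf ((Fintype.card F : ℕ) : ZMod r) = l at *
    simp only [List.mem_cons, List.not_mem_nil, or_false] at this
    rcases this with rfl | rfl | rfl | rfl | rfl | rfl | rfl <;> simp [r2]
  have h1 := rng r2 hF hrG
  have h2 := rng s2 hF hsG
  rw [odd r2 s2 hrs]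
  generalize orderOf ((Fintype.card F : ℕ) : ZMod r) = k at *
  generalize orderOf ((Fintype.card F : ℕ) : ZMod s) = l at *
  simp only [List.mem_cons, List.not_mem_nil, or_false] at h1 h2
  rcases h1 with rfl | rfl | rfl | rfl | rfl | rfl | rfl <;> rcases h2 with rfl | rfl | rfl | rfl | rfl | rfl | rfl <;>
    simp [r2, s2, A]

end Cfsg.Agent.S2525
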