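import Cfsg.Statements.S2550
import Cfsg.Agent.S2476
import Cfsg.Agent.S0243

set_option autoImplicit false
open Cfsg

namespace Cfsg.Agent.S2550


open Matrix

/-- an element of order six -/
def g (F : Type*) [Field F] : Matrix.SpecialLinearGroup (Fin 4) F :=
  ⟨!![0, -1, 0, 0; 1, -1, 0, 0; 0, 0, 1, 1; 0, 0, 0, 1], by
    simp [Matrix.det_succ_row_zero, Fin.sum_univ_succ, Fin.succAbove, Matrix.submatrix]⟩

theorem g2 (F : Type*) [Field F] : (g F ^ 2).1 = !![-1, 1, 0, 0; -1, 0, 0, 0; 0, 0, 1, 2; 0, 0, 0, 1] := by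
  change (g F).1 ^ 2 = _
  rw [pow_two]
  ext i j; fin_cases i <;> fin_cases j <;> simp [g, Matrix.mul_apply, Fin.sum_univ_four] <;> norm_num

theorem g3 (F : Type*) [Field F] : (g F ^ 3).1 = !![1, 0, 0, 0; 0, 1, 0, 0; 0, 0, 1, 3; 0, 0, 0, 1] := by
  rw [pow_succ]
  change (g F ^ 2).1 * (g F).1 = _
  rw [g2]
  ext i j; fin_cases i <;> fin_cases j <;> simp [g, Matrix.mul_apply, Fin.sum_univ_four] <;> norm_num

theorem g6 (F : Type*) [Field F] (h : (2 : F) = 0) : g F ^ 6 = 1 := by
  apply Subtype.ext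
  rw [show 6 = 3 + 3 from rfl, pow_add]
  change (g F ^ 3).1 * (g F ^ 3).1 = 1
  rw [g3]
  have h6 : (3 : F) + 3 = 0 := by linear_combination 3 * h
  ext i j; fin_cases i <;> fin_cases j <;> simp [Matrix.mul_apply, Fin.sum_univ_four, h6]


/-- Let F be a field with 2 elements and K a field with 4 elements. PSL_4(F) and PSL_3(K) have the same order (20160) but are not isomorphic. -/
theorem result {F K : Type*} [Field F] [Fintype F] [Field K] [Fintype K] (hF : Fintype.card F = 2) (hK : Fintype.card K = 4) : Nat.card (Matrix.ProjectiveSpecialLinearGroup (Fin 4) F) = Nat.card (Matrix.ProjectiveSpecialLinearGroup (Fin 3) K) ∧ ¬ Nonempty (Matrix.ProjectiveSpecialLinearGroup (Fin 4) F ≃* Matrix.ProjectiveSpecialLinearGroup (Fin 3) K) := by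
  have h1 := Cfsg.Agent.S0243.result hF 4 (by norm_num)
  have h2 := Cfsg.Agent.S0243.result hK 3 (by norm_num)
  simp only [Fin.prod_univ_succ, Fin.prod_univ_zero, Fin.val_zero, Fin.val_succ] at h1 h2
  norm_num at h1 h2
  refine ⟨by omega, fun ⟨e⟩ => ?_⟩
  have hK2 : (2 : K) = 0 := by
    have := FiniteField.cast_card_eq_zero K
    rw [hK] at this
    have h : (2 : K) ^ 2 = 0 := by rw [← this]; norm_num
    exact pow_eq_zero_iff (by norm_num) |>.1 h
  have hF2 : (2 : F) = 0 := by
    have := FiniteField.cast_card_eq_zero F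
    rw [hF] at this
    exact_mod_cast this
  have : CharP K 2 := CharTwo.of_one_ne_zero_of_two_eq_zero one_ne_zero hK2
  have h3 := Cfsg.Agent.S2476.result (F := K) 2
  set x : Matrix.ProjectiveSpecialLinearGroup (Fin 4) F := QuotientGroup.mk (g F) with hx
  have h4 : orderOf (e x) ∈ Set.range (orderOf : Matrix.ProjectiveSpecialLinearGroup (Fin 3) K → ℕ) :=
    ⟨_, rfl⟩
  rw [h3, hK, MulEquiv.orderOf_eq] at h4
  norm_num at h4
  have h6 : orderOf x ∣ 6 := by
    rw [orderOf_dvd_iff_pow_eq_one, hx, ← QuotientGroup.mk_pow, g6 F hF2, QuotientGroup.mk_one]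
  have n2 : ¬ orderOf x ∣ 2 := by
    rw [orderOf_dvd_iff_pow_eq_one, hx, ← QuotientGroup.mk_pow, QuotientGroup.eq_one_iff,
      Matrix.SpecialLinearGroup.mem_center_iff]
    rintro ⟨c, -, hc⟩
    rw [g2] at hc
    have := congrFun (congrFun hc 0) 1
    simp at this
  have n3 : ¬ orderOf x ∣ 3 := by
    rw [orderOf_dvd_iff_pow_eq_one, hx, ← QuotientGroup.mk_pow, QuotientGroup.eq_one_iff,
      Matrix.SpecialLinearGroup.mem_center_iff]
    rintro ⟨c, -, hc⟩
    rw [g3] at hc
    have := congrFun (congrFun hc 2) 3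
    simp at this
    have h : (1 : F) = 0 := by linear_combination -this - hF2
    exact one_ne_zero h
  have : orderOf x ≤ 6 := Nat.le_of_dvd (by norm_num) h6
  generalize orderOf x = m at *
  interval_cases m <;> simp_all

end Cfsg.Agent.S2550
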