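import Cfsg.Statements.S2553
import Cfsg.Agent.H18.A8a
import Cfsg.Agent.H12.GL4

set_option autoImplicit false
open Cfsg

namespace Cfsg.Agent.S2553



/-- Let H be a nontrivial subgroup of GL(4,2) (a group isomorphic to the alternating group of degree 8) whose largest normal 2-subgroup and largest normal subgroup of odd order are both trivial. Then H is isomorphic to an alternating group of degree n for some 5 ≤ n ≤ 8, to the symmetric group of degree 5 or 6, or to GL(3,2). -/
theorem result (H : Subgroup (GL (Fin 4) (ZMod 2))) (hH : H ≠ ⊥) (hO : Cfsg.pPrimeCore 2 ↥H = ⊥) (hO2 : Cfsg.pCore 2 ↥H = ⊥) :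
    (∃ n : ℕ, 5 ≤ n ∧ n ≤ 8 ∧ Nonempty (↥H ≃* alternatingGroup (Fin n))) ∨
    Nonempty (↥H ≃* Equiv.Perm (Fin 5)) ∨ Nonempty (↥H ≃* Equiv.Perm (Fin 6)) ∨ Nonempty (↥H ≃* GL (Fin 3) (ZMod 2)) := by
  obtain ⟨f, hf⟩ := H12.exists_A8_of_rep (V := Fin 4 → ZMod 2) (by simp)
    (((LinearMap.GeneralLinearGroup.generalLinearEquiv _ _).toMonoidHom.comp
      Matrix.GeneralLinearGroup.toLin.toMonoidHom).comp H.subtype)
  replace hf := (MonoidHom.ker_eq_bot_iff _).1 (hf.trans ((MonoidHom.ker_eq_bot_iff _).2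
    (((LinearMap.GeneralLinearGroup.generalLinearEquiv _ _).injective.comp
      Matrix.GeneralLinearGroup.toLin.injective).comp H.subtype_injective)))
  have hs : ¬ Group.IsSolvable H := fun h => by
    have := (Subgroup.nontrivial_iff_ne_bot H).2 hH
    obtain ⟨p, hp, h2⟩ := H1.exists_pCore_ne_bot (G := H)
    by_cases e : p = 2
    · exact h2 (e ▸ hO2)
    · exact h2 (le_bot_iff.1 (hO ▸ H1.pCore_le_pPrimeCore ((Nat.coprime_primes hp Nat.prime_two).2 e)))
  rcases H18.A8.emb_a8 f hf hs hO2 with ⟨_, h⟩ | h | h | h | ⟨N, _, h, -⟩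
  · exact Or.inr (Or.inr (Or.inr ((H18.A8.sl3_of_simple h).map fun e => e.trans H18.A8.sl3_gl3.some)))
  · exact Or.inl h
  · exact Or.inr (Or.inl h)
  · exact Or.inr (Or.inr (Or.inl h))
  · have := H1.le_pPrimeCore (p := 2) (N := N) (by rw [h]; norm_num)
    rw [hO, le_bot_iff] at this
    simp [this] at h

end Cfsg.Agent.S2553
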