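import Cfsg.Statements.S2557
import Cfsg.Agent.H22.EvE

set_option autoImplicit false
open Cfsg

namespace Cfsg.Agent.S2557

/-- The number of conjugacy classes of Sp(2n,q), q even: for F a finite field of even order q and n ≥ 1, the number k of conjugacy classes of Sp(2n,F) satisfies q^n ≤ k ≤ 15.2·q^n. -/
theorem result {F : Type*} [Field F] [Fintype F] (heven : Even (Fintype.card F)) (n : ℕ) (hn : 1 ≤ n) :
    Fintype.card F ^ n ≤ Nat.card (ConjClasses (Matrix.symplecticGroup (Fin n) F)) ∧
      5 * Nat.card (ConjClasses (Matrix.symplecticGroup (Fin n) F)) ≤ 76 * Fintype.card F ^ n := by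
  have h2 : (2 : F) = 0 := by
    by_contra h
    exact Nat.not_odd_iff_even.2 heven (H22.odd_card_of_two_ne_zero h)
  let e : Matrix.symplecticGroup (Fin n) F ≃* (H22.spForm n F).O := by
    convert H22.spEquiv n F
  rw [H14.Wall.card_cl_congr e, ← Nat.card_eq_fintype_card]
  exact ⟨H22.Ev.le_card_cl_sp h2 n, H22.Ev.card_cl_sp h2 (H22.spForm_nondeg n) rfl (by simp; ring)⟩

end Cfsg.Agent.S2557
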