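import Cfsg.Statements.S2559
import Cfsg.Agent.H22.EvG

set_option autoImplicit false
open Cfsg

namespace Cfsg.Agent.S2559

theorem aux {F : Type*} [Field F] [Fintype F] (heven : Even (Fintype.card F)) {n : ℕ} (hn : 2 ≤ n)
    {ι : Type} [Fintype ι] [DecidableEq ι] {Q : QuadraticForm F (ι → F)}
    (hQ : (H23.Form.ofQuad Q).Nondeg) (hV : Module.finrank F (ι → F) = 2 * n) :
    Fintype.card F ^ n ≤ 2 * Nat.card (ConjClasses ↥(Cfsg.isometryGroup F Q)) ∧
      Nat.card (ConjClasses ↥(Cfsg.isometryGroup F Q)) ≤ 15 * Fintype.card F ^ n := by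
  have h2 : (2 : F) = 0 := by
    by_contra h
    exact Nat.not_odd_iff_even.2 heven (H22.odd_card_of_two_ne_zero h)
  rw [H14.Wall.card_cl_congr (H22.isomEquiv Q), ← Nat.card_eq_fintype_card]
  exact ⟨H22.Ev.le_card_cl_o h2 hQ rfl hV hn, H22.Ev.card_cl_o h2 hQ rfl hV⟩

/-- The number of conjugacy classes of the full orthogonal groups O⁺(2n,q) and O⁻(2n,q), q even, 2n ≥ 4: for F a finite field of even order q and n ≥ 2, the number k of conjugacy classes of the isometry group of the hyperbolic quadratic form Σ xᵢyᵢ on F^{2n}, and likewise of the elliptic form Σ xᵢyᵢ + (z₁² + a z₁z₂ + b z₂²) with anisotropic binary part, satisfies q^n/2 ≤ k ≤ 15·q^n. -/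
theorem result {F : Type*} [Field F] [Fintype F] (heven : Even (Fintype.card F)) (n : ℕ) (hn : 2 ≤ n) (a b : F) (hab : ∀ z₁ z₂ : F, z₁ ^ 2 + a * z₁ * z₂ + b * z₂ ^ 2 = 0 → z₁ = 0 ∧ z₂ = 0) :
    (Fintype.card F ^ n ≤ 2 * Nat.card (ConjClasses ↥(Cfsg.isometryGroup F (Cfsg.quadFormPlus n F))) ∧
      Nat.card (ConjClasses ↥(Cfsg.isometryGroup F (Cfsg.quadFormPlus n F))) ≤ 15 * Fintype.card F ^ n) ∧
    (Fintype.card F ^ n ≤ 2 * Nat.card (ConjClasses ↥(Cfsg.isometryGroup F (Cfsg.quadFormMinus (n - 1) F a b))) ∧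
      Nat.card (ConjClasses ↥(Cfsg.isometryGroup F (Cfsg.quadFormMinus (n - 1) F a b))) ≤ 15 * Fintype.card F ^ n) := by
  rw [← H22.coe_qPlus, ← H22.coe_qMinus]
  refine ⟨aux heven hn (H22.qPlus_nondeg n) (H22.finrank_plus n),
    aux heven hn (H22.qMinus_nondeg (n - 1) hab) ?_⟩
  rw [H14.Wall.finrank_minus]; omega

end Cfsg.Agent.S2559
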