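import Cfsg.Statements.S2602
import Cfsg.Agent.H22.AutN
import Cfsg.Agent.S0813

set_option autoImplicit false
open Cfsg

namespace Cfsg.Agent.S2602

/-- Structure of the outer automorphism group of PSL_2(q), q = p^f ≥ 4: it has a normal cyclic subgroup of order gcd(2, q − 1) (diagonal automorphisms) with cyclic quotient of order f (field automorphisms); there is no graph automorphism in dimension 2. -/
theorem result {F : Type*} [Field F] [Fintype F] {p f : ℕ} [Fact p.Prime] (hf : 1 ≤ f) (hF : Fintype.card F = p ^ f) (h4 : 4 ≤ p ^ f) : ∃ φ : Cfsg.Out (Matrix.ProjectiveSpecialLinearGroup (Fin 2) F) →* Multiplicative (ZMod f), Function.Surjective φ ∧ IsCyclic φ.ker ∧ Nat.card φ.ker = Nat.gcd 2 (p ^ f - 1) := by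
  have h := (H22.slNorms F (Fin 2)).outData_top (fun _ => trivial) (H22.ker_ind_sl (by simp))
    (H22.range_ind_sl_two (by simp))
  obtain ⟨t, ht⟩ := h.exists_theta
  obtain ⟨e⟩ := H22.nonempty_ringAut_equiv hF
  have := H22.finite_out (Matrix.ProjectiveSpecialLinearGroup (Fin 2) F)
  refine H22.exists_hom_of_equiv t (fun θ => ⟨_, ht ⟨H22.stdSL _ θ, trivial⟩⟩) e
    (H22.isCyclic_ker_theta_sl h ht) (H22.card_out_of_card_aut (H22.center_PSL (by simp)) ?_)
  rw [S0813.result p f hf hF 2 le_rfl fun _ => h4, H22.card_PGL_eq (by simp), H22.card_ringAut hF,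
    hF, if_pos rfl]
  ring

end Cfsg.Agent.S2602
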