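import Cfsg.Statements.S2686
import Cfsg.Agent.H22.BalF

set_option autoImplicit false
open Cfsg

namespace Cfsg.Agent.S2686

/-- A criterion for the failure of local balance in almost simple groups with linear socle. Let F be a finite field of characteristic r and K = PSL_n(F) (n ≥ 2) simple. Let A be a group of automorphisms of K containing all inner automorphisms (an almost simple group with socle K), and β ∈ A an automorphism of prime order p ≠ r that is not inner-diagonal (not induced by conjugation by an invertible matrix). Then the largest normal subgroup of C_A(β) of order prime to p is nontrivial if and only if β is the composite of an inner-diagonal automorphism with the automorphism induced by a field automorphism applied entrywise (β is of field type) and p does not divide the number of fixed points of β on K. -/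
theorem result
    (F : Type*) [Field F] [Fintype F] (r : ℕ) [Fact r.Prime] [CharP F r] (n : ℕ) (hn : 2 ≤ n)
    (hK : IsSimpleGroup (Matrix.ProjectiveSpecialLinearGroup (Fin n) F))
    (𝒢 : Subgroup (MulAut (Matrix.ProjectiveSpecialLinearGroup (Fin n) F))) (hinn : ∀ k : Matrix.ProjectiveSpecialLinearGroup (Fin n) F, MulAut.conj k ∈ 𝒢)
    (p : ℕ) [Fact p.Prime] (hpr : p ≠ r) (β : MulAut (Matrix.ProjectiveSpecialLinearGroup (Fin n) F)) (hβ : β ∈ 𝒢) (hord : orderOf β = p)
    (hnot : ¬ Cfsg.IsInnerDiagonalAutPSL β) :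
    Cfsg.pPrimeCore p ↥(𝒢 ⊓ Subgroup.centralizer {β}) ≠ ⊥ ↔
      ((∃ γ φ : MulAut (Matrix.ProjectiveSpecialLinearGroup (Fin n) F), Cfsg.IsInnerDiagonalAutPSL γ ∧ Cfsg.IsFieldAutPSL φ ∧ β = φ.trans γ) ∧
        Nat.Coprime p (Nat.card ↥(MonoidHom.eqLocus β.toMonoidHom (MonoidHom.id (Matrix.ProjectiveSpecialLinearGroup (Fin n) F))))) := by
  have hn' : 2 ≤ Fintype.card (Fin n) := by simpa
  have hp : p.Prime := Fact.out
  have hZ := H22.center_PSL (F := F) hn'
  by_cases h : β ∈ (H22.slNorms F _).ind.range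
  · obtain ⟨⟨a, h3⟩, rfl⟩ := h
    obtain ⟨g, θ, rfl⟩ : ∃ k τ, a = H22.semi k τ := (H22.exists_semi a).imp fun _ h => ⟨_, h⟩
    have h0 : θ ≠ 1 := by
      rintro rfl
      exact hnot (H22.innerDiag_sl_iff.2 ⟨g, rfl⟩)
    have h1 : orderOf θ = p := (H22.slNorms F _).orderOf_theta (H22.ker_ind_sl hn') hp
      (a := ⟨H22.semi g θ, trivial⟩) (hord ▸ pow_orderOf_eq_one _) h0
    rw [H22.ind_semi_sl] at hord ⊢
    obtain ⟨α, -, h2⟩ := H22.coset_slFld hn' hp.pos h1 _ (H22.range_glInd.le ⟨g, rfl⟩)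
      (hord ▸ pow_orderOf_eq_one _)
    refine H22.balance_iff hZ hinn hord (fun _ => ⟨_, _, H22.innerDiag_sl_iff.2 ⟨g, rfl⟩,
      ⟨θ, H22.stdField_sl_iff.2 rfl⟩, rfl⟩) fun hd => .of_conj α⁻¹ ?_
    rw [h2, H22.orderOf_conj'] at hord
    rw [h2]
    simpa [mul_assoc] using H22.bal_sl_field hn hp hpr h1 hord hd
  have h3 := ((H22.sl_geom_or hn' β).resolve_left h).1
  obtain rfl : p = 2 := by_contra fun h2 => h (H22.mem_of_odd_index_two
    (Subgroup.mul_self_mem_of_index_two (H22.index_ind_sl h3))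
    (hord ▸ (Nat.coprime_primes hp Nat.prime_two).mpr h2))
  refine H22.balance_iff hZ hinn hord (fun h => absurd (H22.dvd_card_PSL hn hp hpr (.inl rfl)) h)
    fun _ => ?_
  rw [Fintype.card_fin] at h3
  obtain ⟨g, θ, rfl | rfl⟩ := H22.sl_decomp hn' β
  · exact absurd ⟨_, H22.ind_semi_sl g θ⟩ h
  obtain rfl | h0 := eq_or_ne θ 1
  · rw [map_one, one_mul] at hord ⊢
    exact H22.bal_sl_graph h3 (H22.odd_card_of_ne hpr) g hord
  have h4 := pow_orderOf_eq_one (H22.glInd g * (H22.slFld θ * H22.itBar F (Fin n)))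
  rw [hord] at h4
  have h6 : (H22.semi _ (θ ^ 2)).θ = 1 := (H22.slNorms F _).theta_eq_one (H22.ker_ind_sl hn')
    (a := ⟨H22.semi (g * H22.ctGL θ g) (θ ^ 2), trivial⟩) (by
      rw [H22.ind_semi_sl, ← h4, map_mul, ← H22.gf_conj, map_pow, ← mul_one (_ ^ 2),
        ← H22.itBar_mul_self, ← sq, ← (H22.itBar_slFld θ).mul_pow, sq, sq]
      group)
  have h1 : orderOf θ = 2 := orderOf_eq_prime (by simpa using h6) h0
  obtain ⟨f, -, hf⟩ := FiniteField.card F r
  obtain ⟨-, hF, h5⟩ := H22.exists_sq_of_order_two hf h1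
  obtain ⟨α, -, h2⟩ := H22.coset_gf hF h5 hn h1 _ (H22.range_glInd.le ⟨g, rfl⟩) h4
  refine .of_conj α⁻¹ ?_
  rw [h2, H22.orderOf_conj'] at hord
  rw [h2]
  simpa [mul_assoc] using H22.bal_sl_gf h3 hpr h1 hord

end Cfsg.Agent.S2686
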