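import Cfsg.Statements.S2687
import Cfsg.Agent.H22.BalF
import Cfsg.Agent.S0282

set_option autoImplicit false
open Cfsg

namespace Cfsg.Agent.S2687

theorem aux (G : Type*) [Group G] [Finite G] [IsSimpleGroup G] (h : Group.IsSolvable G) :
    (Nat.card G).Prime :=
  let _ : CommGroup G := { mul_comm := IsSimpleGroup.comm_iff_isSolvable.mpr h }
  IsSimpleGroup.prime_card

/-- A criterion for the failure of local balance in almost simple groups with unitary socle. Let F be a finite field of characteristic r with q² elements and K = PSU_n(q) (n ≥ 3, the central quotient of the determinant-one isometries of the standard Hermitian form) simple. Let A be a group of automorphisms of K containing all inner automorphisms, and β ∈ A an automorphism of prime order p ≠ r that is not inner-diagonal (not induced by conjugation by a matrix of the general unitary group). Then the largest normal subgroup of C_A(β) of order prime to p is nontrivial if and only if β is the composite of an inner-diagonal automorphism with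 the automorphism induced by a field automorphism of F applied entrywise and p does not divide the number of fixed points of β on K. -/
theorem result
    (F : Type*) [Field F] [Fintype F] (r : ℕ) [Fact r.Prime] [CharP F r] (q : ℕ) (hF : Fintype.card F = q ^ 2)
    (n : ℕ) (hn : 3 ≤ n) (hK : IsSimpleGroup (Cfsg.PSU n F q))
    (𝒢 : Subgroup (MulAut (Cfsg.PSU n F q))) (hinn : ∀ k : Cfsg.PSU n F q, MulAut.conj k ∈ 𝒢)
    (p : ℕ) [Fact p.Prime] (hpr : p ≠ r) (β : MulAut (Cfsg.PSU n F q)) (hβ : β ∈ 𝒢) (hord : orderOf β = p)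
    (hnot : ¬ Cfsg.IsInnerDiagonalAutPSU β) :
    Cfsg.pPrimeCore p ↥(𝒢 ⊓ Subgroup.centralizer {β}) ≠ ⊥ ↔
      ((∃ γ φ : MulAut (Cfsg.PSU n F q), Cfsg.IsInnerDiagonalAutPSU γ ∧ (∃ σ : F ≃+* F, Cfsg.IsFieldAutPSUOf σ φ) ∧ β = φ.trans γ) ∧
        Nat.Coprime p (Nat.card ↥(MonoidHom.eqLocus β.toMonoidHom (MonoidHom.id (Cfsg.PSU n F q))))) := by
  have mo := H22.suModel hF n hn
  have := mo.finite
  have hs : ¬ (n = 3 ∧ q = 2) := by
    rintro ⟨rfl, rfl⟩
    obtain ⟨h1, h2⟩ := Cfsg.Agent.S0282.result (F := F) hF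
    exact absurd (h1 ▸ aux _ h2) (by norm_num)
  obtain ⟨a, rfl⟩ : β ∈ mo.norms.ind.range := H22.range_ind_su hF hn hs ▸ Subgroup.mem_top _
  obtain ⟨g, hg, h1⟩ := H22.exists_ind_su hF hn a
  have h2 := (H22.induced_su_iff hF hn (H22.semi_mem_herm hF hg (RingEquiv.refl F))).2 rfl
  have h0 : a.1.θ ≠ 1 := fun h => hnot ⟨g, hg, by
    rw [h1]; simp only [h]; exact h2⟩
  refine H22.balance_iff mo.center_quot hinn hord (fun _ => ⟨_, _, ⟨g, hg, h2⟩,
    ⟨a.1.θ, (H22.field_su_iff hF hn).2 rfl⟩, ?_⟩) (H22.bal_su hF hn hs Fact.out hpr a h0 hord)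
  rw [h1, ← MulAut.mul_def, ← map_mul]
  rfl

end Cfsg.Agent.S2687
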