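import Cfsg.Statements.S2730
import Cfsg.Agent.H22.BalD

set_option autoImplicit false
open Cfsg

namespace Cfsg.Agent.S2730

/-- A criterion for the failure of local balance in almost simple groups whose socle is a projective symplectic group PSp_{2m}(F) (m ≥ 2, (2m, |F|) ≠ (4, 2)). Let F be a finite field of characteristic r and K the (simple) group in question; let A be a group of automorphisms of K containing all inner automorphisms, and x ∈ A an automorphism of prime order p ≠ r that is not inner-diagonal (not induced by a conformal symplectic matrix). Then the largest normal subgroup of C_A(x) of order prime to p is nontrivial if and only if x is a field automorphism of K (conjugate under Aut(K) to a non-identity standard field automorphism) and p does not divide the number of fixed points of x on K. -/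
theorem result {F : Type*} [Field F] [Fintype F] {r : ℕ} [Fact r.Prime] [CharP F r] {m : ℕ} (hm : 2 ≤ m) (hs : m = 2 → 3 ≤ Fintype.card F) (hK : IsSimpleGroup (Cfsg.PSp m F)) (A : Subgroup (MulAut (Cfsg.PSp m F))) (hinn : ∀ k : Cfsg.PSp m F, MulAut.conj k ∈ A) {p : ℕ} [Fact p.Prime] (hpr : p ≠ r) (x : MulAut (Cfsg.PSp m F)) (hxA : x ∈ A) (hord : orderOf x = p) (hnot : ¬ Cfsg.IsInnerDiagonalAutPSp x) :
    Cfsg.pPrimeCore p ↥(A ⊓ Subgroup.centralizer {x}) ≠ ⊥ ↔ (Cfsg.IsFieldAutClassPSp x ∧ Nat.Coprime p (Nat.card ↥(MonoidHom.eqLocus x.toMonoidHom (MonoidHom.id (Cfsg.PSp m F))))) := by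
  have : Nonempty (Fin m) := ⟨⟨0, by omega⟩⟩
  have mo := H22.spModel (F := F) m hm
  have := mo.finite
  have hp : p.Prime := Fact.out
  obtain ⟨a, rfl⟩ : x ∈ mo.norms.ind.range := by
    by_cases h4 : m = 2 → (2 : F) ≠ 0
    · exact H22.range_ind_sp hm h4 ▸ Subgroup.mem_top _
    obtain ⟨rfl, h5⟩ := Classical.not_imp.mp h4
    have : CharP F 2 := CharTwo.of_one_ne_zero_of_two_eq_zero one_ne_zero (not_not.mp h5)
    exact H22.mem_of_odd_index_two (Subgroup.mul_self_mem_of_index_two H22.index_ind_sp_two)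
      (hord ▸ (Nat.coprime_primes hp Nat.prime_two).mpr (CharP.eq F ‹CharP F r› this ▸ hpr))
  have h0 : a.1.θ ≠ 1 := fun h => by
    obtain ⟨⟨g, hg⟩, h1⟩ := mo.exists_sim a h
    obtain ⟨g, rfl⟩ := H22.glEquiv.surjective g
    exact hnot ⟨g, H22.mem_GSp_iff.2 hg,
      (H22.induced_sp_iff hm (θ := RingEquiv.refl F) (g := g) hg).2 h1⟩
  obtain ⟨h1, b, h3, h4, h5⟩ := mo.exists_norm a hp h0 (hord ▸ pow_orderOf_eq_one _)
  obtain ⟨e, he, h6⟩ := H22.exists_std_sp b.2 hp.pos h4 (h3 ▸ h1)
  obtain ⟨α, h7⟩ := mo.exists_conj b.2 ⟨1, H22.stdSL_sp m b.1.θ⟩ he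
    (h6.eq_conj (H22.std_stdSL _) rfl)
  rw [← h5] at h7
  exact H22.balance_iff mo.center_quot hinn hord
    (fun _ => ⟨α, b.1.θ, h3 ▸ h0, (H22.stdField_sp_iff hm).2 h7⟩) fun hd => .of_conj α
      (H22.bal_sp hm hp hpr (θ := b.1.θ) (h3 ▸ h1) h7 ((H22.orderOf_conj' _ _).trans hord) hd)

end Cfsg.Agent.S2730
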