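import Cfsg.Statements.S2731
import Cfsg.Agent.H22.BalC

set_option autoImplicit false
open Cfsg

namespace Cfsg.Agent.S2731

/-- A criterion for the failure of local balance in almost simple groups whose socle is an odd-dimensional orthogonal group Ω_{2m+1}(F) (m ≥ 3, |F| odd; the form x₀² + Σ xᵢ yᵢ). Let F be a finite field of characteristic r and K the (simple) group in question; let A be a group of automorphisms of K containing all inner automorphisms, and x ∈ A an automorphism of prime order p ≠ r that is not inner-diagonal (not induced by a similarity of the form). Then the largest normal subgroup of C_A(x) of order prime to p is nontrivial if and only if x is a field automorphism of K (conjugate under Aut(K) to a non-identity standard field automorphism) and p does not divide the number of fixed points of x on K. -/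
theorem result {F : Type*} [Field F] [Fintype F] {r : ℕ} [Fact r.Prime] [CharP F r] (hodd : Odd (Fintype.card F)) {m : ℕ} (hm : 3 ≤ m) (hK : IsSimpleGroup (Cfsg.POmega F (Cfsg.quadFormOdd m F))) (A : Subgroup (MulAut (Cfsg.POmega F (Cfsg.quadFormOdd m F)))) (hinn : ∀ k : Cfsg.POmega F (Cfsg.quadFormOdd m F), MulAut.conj k ∈ A) {p : ℕ} [Fact p.Prime] (hpr : p ≠ r) (x : MulAut (Cfsg.POmega F (Cfsg.quadFormOdd m F))) (hxA : x ∈ A) (hord : orderOf x = p) (hnot : ¬ Cfsg.IsInnerDiagonalAutPOmegaOdd m x) :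
    Cfsg.pPrimeCore p ↥(A ⊓ Subgroup.centralizer {x}) ≠ ⊥ ↔ (Cfsg.IsFieldAutClassPOmega (Cfsg.quadFormOdd m F) x ∧ Nat.Coprime p (Nat.card ↥(MonoidHom.eqLocus x.toMonoidHom (MonoidHom.id (Cfsg.POmega F (Cfsg.quadFormOdd m F)))))) := by
  have h2 := H22.two_ne_zero_of_odd_card hodd
  have hm2 : 2 ≤ m := by omega
  have mo := H22.oddModel h2 hm2
  have := mo.finite
  have := mo.pol.nontrivial
  obtain ⟨a, rfl⟩ : x ∈ mo.norms.ind.range := H22.range_ind_odd' h2 hm2 ▸ Subgroup.mem_top _
  have h0 : a.1.θ ≠ 1 := fun h => by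
    obtain ⟨⟨g, hg⟩, h1⟩ := mo.exists_sim a h
    obtain ⟨g, rfl⟩ := H22.glEquiv.surjective g
    exact hnot ⟨g, (H22.mem_quadSim_iff (Q := H22.qOdd m F)).2 hg, (H22.induced_omega_iff
      (H22.qOdd_nondeg h2 m) (by simp; omega) (θ := RingEquiv.refl F) (g := g) hg).2 h1⟩
  refine H22.balance_iff mo.center_quot hinn hord (fun _ => ?_) (mo.bal_quad rfl
    (H22.range_oddRep F m) (by simp; omega) (H22.range_ind_odd' h2 hm2) Fact.out hpr a h0 hord)
  have hp : p.Prime := Fact.out
  obtain ⟨h1, b, h3, h4, h5⟩ := mo.exists_norm a hp h0 (hord ▸ pow_orderOf_eq_one _)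
  obtain ⟨F₀, _, _, j, hj, -⟩ := H22.exists_fixed b.1.θ
  obtain ⟨k, hk, h6⟩ := (H22.exists_std_odd (H22.qOdd_nondeg h2 m) rfl b.2 hp.pos h4 (h3 ▸ h1) hj (M := m)
    (by simp; ring)).conj ⟨_, 1, H22.std_stdSL b.1.θ, H22.isSS_refl _⟩ rfl
  obtain ⟨α, h7⟩ := mo.exists_conj b.2 ⟨1, H22.stdSL_qOdd m b.1.θ⟩ hk h6
  exact ⟨α, _, _, h3 ▸ h0, (H22.field_odd_iff h2 hm2).2 rfl, h5 ▸ h7⟩

end Cfsg.Agent.S2731
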