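import Cfsg.Statements.S2787
import Cfsg.Agent.H4.Stable
import Cfsg.Agent.H4.Sec
import Cfsg.Agent.H4.PConstr
import Cfsg.Agent.H13.SL2Syl
import Cfsg.Agent.H8.GWQ1
import Cfsg.Agent.H8.Z4c
import Cfsg.Agent.H19.BS1
import Cfsg.Agent.S1069
import Cfsg.Agent.S1073
import Cfsg.Agent.H1.Fitting
import Cfsg.Agent.H16.Not

set_option autoImplicit false
open Cfsg

namespace Cfsg.Agent.S2787


open Matrix MatrixGroups Subgroup H4

theorem secA {F : Type*} [Field F] [Fintype F] (hF : Odd (Fintype.card F)) {p : ℕ} [Fact p.Prime] (hp : p ≠ 2) :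
    ¬ IsSec SL(2, ZMod p) (⊤ : Subgroup PSL(2, F)) := by
  rintro ⟨K, φ, -, hφ⟩
  have ho : Odd (Fintype.card (ZMod p)) := by rw [ZMod.card]; exact (Fact.out : p.Prime).odd_of_ne_two hp
  obtain ⟨S⟩ : Nonempty (Sylow 2 PSL(2, F)) := inferInstance
  obtain ⟨k, -, ⟨e⟩⟩ := H13.psl2_dihedral hF S
  obtain ⟨k, x, y, h, -⟩ := H6.dh_sub S.2 (Nat.le_self_pow k.succ_ne_zero 2) e
  obtain ⟨T⟩ : Nonempty (Sylow 2 SL(2, ZMod p)) := inferInstance
  rcases GW.Q8.dih_surj (GW.Q8.dih_top ((GW.Q8.dih_of_sylow (H10.isSylowIn_top S) (GW.Q8.cd_of_dh h)).mono le_top)) φ hφ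
    T le_top T.2 with h | ⟨k, x, y, h⟩
  · exact sl2_sylow_two_not_comm hp T (H16.comm_of_cyclic h)
  refine h.ny (by_cases (fun e : y = 1 => e ▸ one_mem _) fun e => ?_)
  rw [H13.sl2_eq_neg_one ho e h.yy, ← H13.sl2_eq_neg_one ho (g := x ^ 2 ^ k)
    (pow_ne_one_of_lt_orderOf (by positivity) (by rw [h.ox]; exact Nat.pow_lt_pow_right one_lt_two k.lt_succ_self))
    (by rw [← pow_two, ← pow_mul, ← pow_succ, ← h.ox, pow_orderOf_eq_one])]
  exact pow_mem (mem_zpowers x) _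

theorem secB {X : Type*} [Group X] [Finite X] (hs : IsSimpleGroup X) (hn : ¬ IsMulCommutative X)
    (h16 : ¬ 16 ∣ Nat.card X) {p : ℕ} [Fact p.Prime] (hp : p ≠ 2) : ¬ IsSec SL(2, ZMod p) (⊤ : Subgroup X) := by
  rintro ⟨K, φ, -, hφ⟩
  have ho : Odd (Fintype.card (ZMod p)) := by rw [ZMod.card]; exact (Fact.out : p.Prime).odd_of_ne_two hp
  obtain ⟨T⟩ : Nonempty (Sylow 2 K) := inferInstance
  obtain ⟨k, h1, -⟩ := H13.psl2_dihedral ho default
  rw [Sylow.card_eq_multiplicity, ← Sylow.card_eq_multiplicity (T.mapSurjective hφ)] at h1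
  have h2 := H5.card_dvd_card_map_mul φ T
  obtain ⟨S, hS, h3⟩ := H10.exists_isSylowIn_ge (T.2.map K.subtype) (le_top (a := map K.subtype T))
  obtain ⟨j, hj⟩ := IsPGroup.iff_card.1 hS.isPGroup
  have h4 : Nat.card S ≤ 8 := hj ▸ Nat.pow_le_pow_right two_pos (by_contra fun e =>
    h16 ((pow_dvd_pow 2 (by omega : 4 ≤ j)).trans (hj ▸ card_subgroup_dvd_card S)) : j ≤ 3)
  have h5 := H16.card_le h3
  have h6 : 8 ≤ 2 ^ (k + 3) := Nat.pow_le_pow_right two_pos (by omega : 3 ≤ k + 3)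
  have h7 := card_map_of_injective (K := (T : Subgroup K)) K.subtype_injective
  rw [Sylow.coe_mapSurjective] at h1
  have h8 : (T : Subgroup K) ⊓ φ.ker = ⊥ := card_eq_one.1 (by
    have := H16.card_pos' ((T : Subgroup K) ⊓ φ.ker); nlinarith)
  obtain rfl := H16.eq_of_le_of_card h3 (by rw [h8, card_bot] at h2; omega)
  have h9 : ∀ s ∈ (T : Subgroup K), orderOf (s : X) = 2 → φ s = -1 := fun s hs e => H13.sl2_eq_neg_one ho
    (fun e' => by simp [H16.eq_one_of_mem_bot h8 ⟨hs, e'⟩] at e)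
    (by rw [← map_mul, ← pow_two, orderOf_dvd_iff_pow_eq_one.1 ((orderOf_coe s).symm.trans e).dvd, map_one])
  obtain ⟨_, ⟨t, ht, rfl⟩, ot⟩ := H10.exists_orderOf_eq_of_ne_bot hS.isPGroup (fun e => by
    rw [e, card_bot] at h7; rw [h8, card_bot] at h2; omega)
  refine H8.Z4.not_isolated hs hn (H19.iso_of_unique hS ot ⟨t, ht, rfl⟩ ?_)
  rintro _ ⟨s, hs, rfl⟩ os
  exact congrArg _ (mul_inv_eq_one.1 (H16.eq_one_of_mem_bot h8 ⟨T.1.mul_mem hs (T.1.inv_mem ht), show φ _ = 1 by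
    rw [map_mul, map_inv, h9 s hs os, h9 t ht ot, mul_inv_cancel]⟩))

/-- Let p be a prime and let H act by conjugation on the elementary abelian p-subgroup V of a finite group, irreducibly (no H-invariant subgroups of V other than 1 and V) and nontrivially, and suppose H/C_H(V) is isomorphic to PSL₂(F) for a field F with p^n elements, p^n odd, or p = 3 and H/C_H(V) is isomorphic to a Ree group ²G₂(3^(2m+1)), m ≥ 1. Then no subgroup A of H acting nontrivially on V acts quadratically: [V, A, A] = 1 forces [V, A] = 1. -/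
theorem result {G : Type*} [Group G] [Finite G] {p : ℕ} [Fact p.Prime] (V H : Subgroup G) (hV : Cfsg.IsElementaryAbelian p V) (hHV : H ≤ Subgroup.normalizer (V : Set G)) (hirr : ∀ U : Subgroup G, U ≤ V → H ≤ Subgroup.normalizer (U : Set G) → U = ⊥ ∨ U = V) (hnt : ¬ H ≤ Subgroup.centralizer (V : Set G)) [hn : ((Subgroup.centralizer (V : Set G)).subgroupOf H).Normal] (hq : (∃ (F : Type) (_ : Field F) (_ : Fintype F) (n : ℕ), Fintype.card F = p ^ n ∧ Odd (Fintype.card F) ∧ Nonempty (↥H ⧸ (Subgroup.centralizer (V : Set G)).subgroupOf H ≃* Matrix.ProjectiveSpecialLinearGroup (Fin 2) F)) ∨ (p = 3 ∧ Cfsg.Lie.IsoRee (↥H ⧸ (Subgroup.centralizer (V : Set G)).subgroupOf H))) (A : Subgroup G) (hA : A ≤ H) (hquad : ⁅⁅V, A⁆, A⁆ = ⊥) : ⁅V, A⁆ = ⊥ := by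
  have hp : p ≠ 2 := by
    rintro rfl
    rcases hq with ⟨F, _, _, n, h1, h2, ⟨e⟩⟩ | ⟨h, -⟩
    · rcases n with _ | n
      · exact Fintype.one_lt_card.ne' h1
      · rw [h1, Nat.odd_pow_iff n.succ_ne_zero] at h2; exact absurd h2 (by decide)
    · omega
  have ns : ¬ IsSec SL(2, ZMod p) (⊤ : Subgroup (H ⧸ (centralizer (V : Set G)).subgroupOf H)) := by
    rcases hq with ⟨F, _, _, n, -, h2, ⟨e⟩⟩ | ⟨-, K, _, _, m, h1, h2, ⟨e⟩⟩
    · exact fun h => secA h2 hp ((h.map (f := e.toMonoidHom) e.injective).mono le_top)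
    · refine fun h => secB (S1073.result h1 h2).1 (S1073.result h1 h2).2 ?_ hp
        ((h.map (f := e.toMonoidHom) e.injective).mono le_top)
      have : 3 ^ (2 * m + 1) % 8 = 3 := by rw [pow_succ, pow_mul, Nat.mul_mod, Nat.pow_mod]; simp
      rw [S1069.result h2]
      generalize 3 ^ (2 * m + 1) = q at this
      obtain ⟨k, rfl⟩ : ∃ k, q = 8 * k + 3 := ⟨q / 8, by omega⟩
      rw [show (8 * k + 3) ^ 3 * (8 * k + 3 - 1) * ((8 * k + 3) ^ 3 + 1) =
        8 * ((8 * k + 3) ^ 3 * (4 * k + 1) * (2 * (64 * k ^ 3 + 72 * k ^ 2 + 27 * k + 3) + 1)) by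
          rw [show 8 * k + 3 - 1 = 8 * k + 2 from rfl]; ring, show 16 = 8 * 2 from rfl, Nat.mul_dvd_mul_iff_left (by norm_num),
        ← even_iff_two_dvd, Nat.not_even_iff_odd]
      exact ((Odd.pow ⟨4 * k + 1, by ring⟩).mul ⟨2 * k, by ring⟩).mul ⟨_, rfl⟩
  rw [commutator_comm, H16.comm_eq_bot]
  intro a ha
  have hq : ⁅⁅V, zpowers a⁆, zpowers a⁆ = ⊥ :=
    eq_bot_mono (commutator_mono (commutator_mono le_rfl (zpowers_le.2 ha)) (zpowers_le.2 ha)) hquad
  have h1 := mk_mem_pCore_of_forall_conj (p := p) (C := (centralizer (V : Set G)).subgroupOf H) (a := ⟨a, hA ha⟩) fun g x hx => by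
    have hb : (g : G) * a * (g : G)⁻¹ ∈ H := mul_mem (mul_mem g.2 (hA ha)) (inv_mem g.2)
    refine (quadPair hp hV (hHV (hA ha)) (hHV hb) hq (quadratic_conj (hHV g.2) hq)).elim (fun h => h x ?_) ?_
    · have := mem_map_of_mem H.subtype hx
      rwa [MonoidHom.map_closure, Set.image_pair] at this
    rintro ⟨L, φ, T, k1, k2, k3, k4, k5⟩
    have k6 : L ≤ H := k1.trans ((closure_le _).2 (Set.pair_subset (hA ha) hb))
    let π := (QuotientGroup.mk' ((centralizer (V : Set G)).subgroupOf H)).comp (inclusion k6)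
    have k7 : π.rangeRestrict.ker ≤ φ.ker := fun l hl => by
      have c : (l : G) ∈ centralizer (V : Set G) :=
        (QuotientGroup.eq_one_iff (inclusion k6 l)).1 (congrArg Subtype.val hl)
      refine Subtype.ext (Matrix.toLin'.injective (LinearMap.ext fun v => ?_))
      have := k5 l v
      rw [← c (T _) (k4 ⟨_, rfl⟩), mul_inv_cancel_right] at this
      exact (k3 this).trans (one_mulVec v).symm
    exact (ns ⟨π.range, π.rangeRestrict.liftOfSurjective π.rangeRestrict_surjective ⟨φ, k7⟩, le_top, fun y => by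
      obtain ⟨l, rfl⟩ := k2 y
      exact ⟨π.rangeRestrict l, MonoidHom.liftOfRightInverse_comp_apply ..⟩⟩).elim
  obtain ⟨D, hD, h2, h3⟩ := mk_mem_pCore_iff.1 h1
  let f := V.normalizerMonoidHom.comp (inclusion hHV)
  have hP : IsPGroup p (D.map f) := by
    rintro ⟨_, d, hd, rfl⟩
    obtain ⟨k, hk⟩ := h3 d hd
    refine ⟨k, Subtype.ext ((map_pow f d _).symm.trans (MulEquiv.ext fun v => Subtype.ext ?_))⟩
    exact mul_inv_eq_iff_eq_mul.2 (hk v v.2).symm
  obtain ⟨v, hv, v1⟩ := hP.exists_fixed_point_of_prime_dvd_card_of_fixed_point V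
    (H10.dvd_card_of_isPGroup_ne_bot (fun x => ⟨1, Subtype.ext (by simpa using hV.2 x x.2)⟩)
      fun e => hnt (by rw [e, H16.cent_bot]; exact le_top)) (a := 1)
    fun g => g.1.map_one
  have := (hirr (V ⊓ centralizer (D.map H.subtype : Set G)) inf_le_left
    (H16.norm_inf hHV (H16.norm_cent (H4.le_normalizer_map_subtype D)))).resolve_left (H16.ne_bot_of_mem ⟨v.2, by
      rintro _ ⟨d, hd, rfl⟩
      exact mul_inv_eq_iff_eq_mul.1 (congrArg Subtype.val (hv ⟨_, d, hd, rfl⟩))⟩ fun e => v1 (Subtype.ext e.symm))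
  exact H16.cent_symm (this.ge.trans inf_le_right) ⟨_, h2, rfl⟩

end Cfsg.Agent.S2787
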