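import Cfsg.Statements.S2897
import Cfsg.Agent.H10.PMin2

set_option autoImplicit false
open Cfsg H10

namespace Cfsg.Agent.S2897

/-- Let p be a prime dividing the order of the finite group G, suppose G has parabolic characteristic p, let S be a Sylow p-subgroup of G and G₁ a normal subgroup of G. If Ω₁(Z(S ∩ G₁)) is nontrivial and contained in Ω₁(Z(S)), then G₁ has parabolic characteristic p. -/
theorem result {G : Type*} [Group G] [Finite G] {p : ℕ} [Fact p.Prime] (hdiv : p ∣ Nat.card G) (hG : Cfsg.IsOfParabolicCharacteristic p G) (S : Sylow p G) (G₁ : Subgroup G) [G₁.Normal] (hne : Cfsg.omegaOne p (((S : Subgroup G) ⊓ G₁) ⊓ Subgroup.centralizer (((S : Subgroup G) ⊓ G₁ : Subgroup G) : Set G)) ≠ ⊥) (hle : Cfsg.omegaOne p (((S : Subgroup G) ⊓ G₁) ⊓ Subgroup.centralizer (((S : Subgroup G) ⊓ G₁ : Subgroup G) : Set G)) ≤ Cfsg.omegaOne p ((S : Subgroup G) ⊓ Subgroup.centralizer ((S : Subgroup G) : Set G))) : Cfsg.IsOfParabolicCharacteristic p ↥G₁ := by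
  have hS := isSylowIn_top S
  have hT := hS.inf_normal (N := G₁) le_top (le_NN_of_normal _ _)
  rw [parabolicChar_iff (isSylowIn_subgroupOf_top hT)]
  intro z hz h1
  have h2 : (z : G) ∈ ZO p ((S : Subgroup G) ⊓ G₁) := by
    rw [← map_subgroupOf_of_le hT.le, ← map_ZO_of_injective G₁.subtype_injective]
    exact Subgroup.mem_map_of_mem _ hz
  have h3 := ((parabolicChar_iff hS).1 hG z (hle h2) (by simpa using h1)).subn
    (subnIn_of_normal (inf_le_right : G₁ ⊓ Subgroup.centralizer {(z : G)} ≤ _)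
      (le_NN_inf (le_NN_of_normal _ _) (le_NN_self _)))
  rw [← charPIn_map_of_injective G₁.subtype_injective, ← CC_zpowers, map_CC_subtype,
    MonoidHom.map_zpowers, CC_zpowers]
  exact h3

end Cfsg.Agent.S2897
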