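import Cfsg.Statements.S2898
import Cfsg.Agent.H10.PMin2
import Cfsg.Agent.H6.SE
import Cfsg.Agent.H1.Cores

set_option autoImplicit false
open Cfsg H10

namespace Cfsg.Agent.S2898

/-- Let G be a finite group of even order with parabolic characteristic 2. If the centre of G ⧸ O(G) is trivial, then O(G) = 1. -/
theorem result {G : Type*} [Group G] [Finite G] (h2 : 2 ∣ Nat.card G) (hG : Cfsg.IsOfParabolicCharacteristic 2 G) [hN : (Cfsg.oddCore G).Normal] (hZ : Subgroup.center (G ⧸ Cfsg.oddCore G) = ⊥) : Cfsg.oddCore G = ⊥ := by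
  by_contra hK
  obtain ⟨T, hT⟩ := exists_isSylowIn 2 (⊤ : Subgroup G)
  set K := oddCore G with hKdef
  have hodd : (Nat.card K).Coprime 2 := H1.coprime_card_pPrimeCore 2
  have key : ∀ z ∈ ZO 2 T, z ≠ 1 → ∀ g : G, ∀ d ∈ K, (g * z * g⁻¹) * d * (g * z * g⁻¹)⁻¹ = d⁻¹ := by
    intro z hz h1 g
    refine H6.inverts_of_fpf (by rw [← pow_two, conj_pow, (mem_ZO.1 hz).2.2]; simp)
      (fun d hd => hN.conj_mem d hd _) fun d hd hc => ?_
    have h2 := (((parabolicChar_iff hT).1 hG z hz h1).cj g)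
    rw [cj_centralizer_singleton] at h2
    have h3 := h2.subn (subnIn_of_normal (inf_le_right : K ⊓ _ ≤ _)
      (le_NN_inf (le_NN_of_normal _ _) (le_NN_self _)))
    have h4 : pCoreOf 2 (K ⊓ Subgroup.centralizer {g * z * g⁻¹}) = ⊥ :=
      eq_bot_of_isPGroup_of_not_dvd (isPGroup_pCoreOf _) ((pCoreOf_le _).trans inf_le_left)
        (not_dvd_of_coprime hodd)
    have := h3.le le_rfl (by rw [h4, CC_bot]; exact le_top)
    rw [h4] at this
    exact this ⟨hd, fun x hx => by rw [hx]; exact hc⟩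
  have hC : CC(K) ≤ K := by
    refine H1.le_pPrimeCore (hN := normal_of_top_le_NN (le_NN_CC (le_NN_of_normal _ _)))
      (coprime_of_not_dvd fun h => ?_)
    have h3 := hT.inf_normal (N := CC(K)) le_top (le_NN_CC (le_NN_of_normal _ _))
    obtain ⟨⟨z, hz⟩, h1⟩ := Subgroup.ne_bot_iff_exists_ne_one.1 (inf_ZO_ne_bot hT.isPGroup inf_le_left
      (le_NN_inf (le_NN_self T) (le_NN_CC (le_NN_of_normal _ _))) (h3.ne_bot h))
    refine hK (eq_bot_iff.2 fun d hd => ?_)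
    have h4 := key z hz.2 (by simpa using h1) 1 d hd
    rw [one_mul, inv_one, mul_one, ← mem_CC.1 hz.1.2 d hd, mul_inv_cancel_right] at h4
    refine H11.eq_one_of_pow_coprime hodd ?_ (by rw [pow_two]; nth_rw 1 [h4]; simp)
    exact congrArg Subtype.val (pow_card_eq_one' (x := (⟨d, hd⟩ : K)))
  obtain ⟨⟨z, hz⟩, h1⟩ := Subgroup.ne_bot_iff_exists_ne_one.1
    (ZO_ne_bot hT.isPGroup (hT.ne_bot (by simpa using h2)))
  have h1' : z ≠ 1 := by simpa using h1
  have h3 : (z : G ⧸ K) ∈ Subgroup.center (G ⧸ K) := by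
    rw [Subgroup.mem_center_iff]
    intro g
    obtain ⟨g, rfl⟩ := QuotientGroup.mk_surjective g
    rw [← QuotientGroup.mk_mul, ← QuotientGroup.mk_mul, QuotientGroup.eq]
    refine hC (mem_CC.2 fun d hd => ?_)
    have h4 := key z hz h1' g⁻¹ _ (K.inv_mem hd)
    have h5 := key z hz h1' 1 _ (hN.conj_mem d hd z⁻¹⁻¹)
    have h6 := key z hz h1' 1 d hd
    simp only [one_mul, inv_one, mul_one, inv_inv] at h4 h5 h6
    have h7 : z⁻¹ * d * z = d⁻¹ := by
      rw [← inv_inj, inv_inv]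
      calc _ = z⁻¹ * d⁻¹ * z := by group
        _ = d := by rw [← h6]; group
    calc d * ((g * z)⁻¹ * (z * g)) = z⁻¹ * (z * d * z⁻¹) * z * ((g * z)⁻¹ * (z * g)) := by group
      _ = z⁻¹ * d⁻¹ * (g⁻¹ * z * g) := by rw [h6]; group
      _ = z⁻¹ * (g⁻¹ * z * g) * ((g⁻¹ * z * g)⁻¹ * d⁻¹ * (g⁻¹ * z * g)) := by group
      _ = _ := by
        have h8 : (g⁻¹ * z * g)⁻¹ * d⁻¹ * (g⁻¹ * z * g) = d := by
          have h9 := key z hz h1' g⁻¹ d hd
          rw [inv_inv] at h9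
          rw [← h9]; group
        rw [h8]; group
  rw [hZ, Subgroup.mem_bot, QuotientGroup.eq_one_iff] at h3
  refine h1' (H11.eq_one_of_pow_coprime hodd ?_ (mem_ZO.1 hz).2.2)
  exact congrArg Subtype.val (pow_card_eq_one' (x := (⟨z, h3⟩ : K)))

end Cfsg.Agent.S2898
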