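import Cfsg.Statements.S2905
import Cfsg.Agent.H10.PMin3
import Cfsg.Agent.H15.Pi

set_option autoImplicit false
open Cfsg H10 H15

namespace Cfsg.Agent.S2905

/-- Let P be a finite p-minimal group (a Sylow p-subgroup S is not normal and lies in a unique maximal subgroup M of P) and let F be the normal core of M. Then: every subnormal subgroup N of P contained in M satisfies N ∩ S ≤ O_p(P); if O^p(P) has a normal Sylow p-subgroup then the order of P has at most two prime divisors; every normal subgroup N of P either contains O^p(P) or is contained in F; and O^p(P)F ⧸ F is a minimal normal subgroup of P ⧸ F. -/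
theorem result {P : Type*} [Group P] [Finite P] {p : ℕ} [Fact p.Prime] (hP : Cfsg.IsPMinimal p P) (S : Sylow p P) (M : Subgroup P) (hM : IsCoatom M) (hSM : (S : Subgroup P) ≤ M) [hF : M.normalCore.Normal] : (∀ N : Subgroup P, N.IsSubnormal → N ≤ M → N ⊓ (S : Subgroup P) ≤ Cfsg.pCore p P) ∧ ((∀ T : Sylow p ↥(Cfsg.pResidual p P), (T : Subgroup ↥(Cfsg.pResidual p P)).Normal) → (Nat.card P).primeFactors.card ≤ 2) ∧ (∀ N : Subgroup P, N.Normal → Cfsg.pResidual p P ≤ N ∨ N ≤ M.normalCore) ∧ (∀ N : Subgroup P, N.Normal → M.normalCore ≤ N → N ≤ Cfsg.pResidual p P ⊔ M.normalCore → N = M.normalCore ∨ N = Cfsg.pResidual p P ⊔ M.normalCore) ∧ M.normalCore < Cfsg.pResidual p P ⊔ M.normalCore := by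
  have h := pMin_minOver hP S
  have hS := isSylowIn_top S
  have h3 : ∀ N : Subgroup P, N.Normal → pResidual p P ≤ N ∨ N ≤ M.normalCore := fun N _ =>
    (minOver_normal h hS hM hSM).imp (resOf_top (p := p) (G := P) ▸ id)
      Subgroup.normal_le_normalCore.2
  have h5 : ¬ resOf p ⊤ ≤ M := fun h' => hM.1 (eq_top_iff.2 (hS.le_of_resOf_le h' hSM))
  refine ⟨fun N hN hle => ?_, fun hc => ?_, h3, fun N hN h1 h2 => (h3 N hN).symm.imp
    (le_antisymm · h1) fun h => le_antisymm h2 (sup_le h h1),
    right_lt_sup.2 fun h' => h5 (resOf_top.le.trans (h'.trans M.normalCore_le))⟩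
  · refine (le_pCoreOf_of_isPClosed (minOver_isPClosed h hS hM hSM M.normalCore_le)
      (S.isPGroup'.to_le inf_le_right) (inf_le_left.trans (subn_le_normalCore hM hN hle))).trans ?_
    exact (pCoreOf_le_of_normal le_top (le_NN_of_normal _ _)).trans pCoreOf_top.le
  · have := pResidual_normal' (p := p) (G := P)
    by_contra hcard
    refine h5 (resOf_top.le.trans (le_of_forall_sylow fun q _ _ => ?_))
    obtain ⟨T, hT, h1⟩ := exists_sylow_le_NN_sup hS hc q
    have hO : ⊤ ≤ NN(pCoreOf p (pResidual p P)) := le_NN_pCoreOf' (le_NN_of_normal _ _)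
    refine ⟨T, hT, (le_sup_left.trans le_sup_left).trans (minOver_le h hM hSM
      (le_sup_right : _ ≤ T ⊔ pCoreOf p (pResidual p P) ⊔ S) fun e => hcard ?_)⟩
    have h6 : IsPiSubgroup {p, q} (T ⊔ pCoreOf p (pResidual p P) ⊔ S) :=
      (((H15.IsPGroup.isPi hT.isPGroup).mono_mem (by simp)).sup_of_le_norm
        ((H15.IsPGroup.isPi (isPGroup_pCoreOf _)).mono_mem (by simp)) (le_top.trans hO)).sup_of_le_norm'
        ((H15.IsPGroup.isPi hS.isPGroup).mono_mem (by simp)) (h1.trans (sup_le
          (le_NN_sup le_rfl (le_top.trans hO)) (le_sup_right.trans (le_NN_self _))))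
    rw [e] at h6
    refine (Finset.card_le_card (t := {p, q}) fun r hr => ?_).trans Finset.card_le_two
    simpa using h6 r (Nat.prime_of_mem_primeFactors hr)
      (by simpa using Nat.dvd_of_mem_primeFactors hr)

end Cfsg.Agent.S2905
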