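import Cfsg.Statements.S2906
import Cfsg.Agent.H10.PMin3

set_option autoImplicit false
open Cfsg H10

namespace Cfsg.Agent.S2906

/-- Let P be a finite p-minimal group with O_p(P) = 1, S a Sylow p-subgroup of P and K a component of P. Then O^p(P) = F*(P) = E(P) is generated by the S-conjugates of K, and the subgroup K·N_S(K) is again p-minimal. -/
theorem result {P : Type*} [Group P] [Finite P] {p : ℕ} [Fact p.Prime] (hP : Cfsg.IsPMinimal p P) (hOp : Cfsg.pCore p P = ⊥) (S : Sylow p P) (K : Subgroup P) (hK : Cfsg.IsComponent K) : Cfsg.pResidual p P = Cfsg.generalizedFittingSubgroup P ∧ Cfsg.generalizedFittingSubgroup P = Cfsg.layer P ∧ Cfsg.layer P = ⨆ s : ↥(S : Subgroup P), K.map (MulAut.conj (s : P)).toMonoidHom ∧ Cfsg.IsPMinimal p ↥(K ⊔ ((S : Subgroup P) ⊓ Subgroup.normalizer (K : Set P))) := by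
  simp only [cj_def]
  have h := pMin_minOver hP S
  have hS := isSylowIn_top S
  obtain ⟨M, ⟨hM, hSM⟩, -⟩ := (hP S).2
  have hK' := H5.compOf_top_iff.2 hK
  have h0 : pCoreOf p (⊤ : Subgroup P) = ⊥ := pCoreOf_top.trans hOp
  have hKM : ¬ K ≤ M := fun hle => by
    have := minOver_nilpotent h hS hM hSM M.normalCore_le
      ((subnIn_of_normal le_top (le_NN_of_normal _ _)).pCoreOf_eq_bot h0)
    exact H5.qs_not_le_solvable (H := M.normalCore) hK.2 inferInstance (subn_le_normalCore hM hK.1 hle)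
  have hn : (ncl K ⊤).Normal := normal_of_top_le_NN (le_NN_ncl _ _)
  have h1 : resOf p ⊤ ≤ ncl K ⊤ :=
    (minOver_normal h hS hM hSM).resolve_right fun h' => hKM ((le_ncl _ _).trans h')
  have h2 : ncl K ⊤ ≤ layer P := ncl_le (hK'.le_layerOf.trans H5.layerOf_top.le) (le_NN_of_normal _ _)
  have h3 : layer P ≤ resOf p ⊤ := by
    rw [← H5.layerOf_top, ← resOf_eq_of_perfect (p := p) (H5.layerOf_perfect ⊤)]
    exact resOf_mono le_top
  have h4 : generalizedFittingSubgroup P = layer P := by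
    refine sup_eq_left.2 (le_trans ?_ (h1.trans h2))
    rw [← H5.fitOf_top]
    exact le_resOf_of_coprime (coprime_fitOf h0) le_top
  have hEK : resOf p ⊤ ≤ NN(K) := (h1.trans h2).trans (H5.layerOf_top.ge.trans hK'.layerOf_le_normalizer)
  refine ⟨by rw [h4, ← resOf_top]; exact le_antisymm (h1.trans h2) h3, h4,
    le_antisymm (h3.trans (h1.trans (ncl_le_iff.2 fun g _ => ?_)))
      (iSup_le fun s => (cj_le_ncl (L := ⊤) K trivial).trans h2), ?_⟩
  · obtain ⟨b, hb, a, ha, rfl⟩ := hS.exists_mul' (x := g) trivial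
    rw [cj_mul, cj_eq_of_mem_NN (hEK ha)]
    exact le_iSup (fun s : (S : Subgroup P) => cj (s : P) K) ⟨b, hb⟩
  set S₀ := (S : Subgroup P) ⊓ NN(K) with hS₀
  have hSK := hS.inf_subn hK'.sn
  have hle : (S : Subgroup P) ⊓ K ≤ S₀ := inf_le_inf_left _ (le_NN_self K)
  have hT : IsSylowIn p S₀ (K ⊔ S₀) := by
    have := (isSylowIn_self (hS.isPGroup.to_le (inf_le_left : S₀ ≤ S))).sup hSK inf_le_right
      (le_NN_inf (inf_le_left.trans (le_NN_self _)) inf_le_right)
    rwa [sup_eq_left.2 hle, sup_comm] at this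
  have key : ∀ Y, Y < K → S₀ ≤ NN(Y) → Y ≤ M := by
    intro Y hY hYn
    refine ((le_ncl Y S).trans le_sup_left).trans (minOver_le h hM hSM
      (le_sup_right : _ ≤ ncl Y S ⊔ S) fun e => hY.not_ge ?_)
    have h5 : K ≤ ncl Y S := ((hK'.le_layerOf.trans H5.layerOf_top.le).trans h3).trans
      (e ▸ resOf_sup_le hS.isPGroup (le_NN_ncl _ _))
    have h6 : ncl Y S ≤ Y ⊔ CC(K) := ncl_le_iff.2 fun s hs => by
      by_cases h7 : cj s K = K
      · exact (cj_eq_of_mem_NN (hYn ⟨hs, mem_NN.2 h7⟩)).le.trans le_sup_left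
      · exact ((cj_mono s hY.le).trans (comm_eq_bot.1 ((hK'.cj_of_mem
          (le_NN_of_normal ⊤ ⊤ trivial)).commutator_eq_bot hK' h7))).trans le_sup_right
    have h8 := dedekind_left hY.le (le_NN_CC (hY.le.trans (le_NN_self K)))
    rw [inf_eq_right.2 (h5.trans h6)] at h8
    refine H5.perfect_le_of_le_sup_solvable hK'.perfect ((inf_le_left.trans (CC_anti hY.le)).trans
      (CC_le_NN Y)) ?_ h8.le
    have : IsMulCommutative (CC(K) ⊓ K : Subgroup P) := isMulCommutative_iff_le_CC.2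
      (inf_le_left.trans (CC_anti inf_le_right))
    exact H1.isSolvable_of_comm' this
  refine (pMin_iff hT).2 ⟨fun hn' => hKM fun k hk => ?_, (M ⊓ K) ⊔ S₀, le_sup_right,
    lt_of_le_of_ne (sup_le_sup_right inf_le_right _) fun e => hKM ((le_sup_left.trans e.ge).trans
      (sup_le inf_le_left (inf_le_left.trans hSM))), fun Y h5 h6 => ?_⟩
  · have h5 : S₀ ≤ CC(K) := by
      rw [← comm_eq_bot, eq_bot_iff, ← SubnIn.pCoreOf_eq_bot hK'.sn h0]
      exact (le_inf (comm_le_left (le_sup_left.trans hn')) (comm_le_right inf_le_right)).trans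
        (le_pCoreOf (hT.isPGroup.to_le inf_le_left) inf_le_right
          (le_NN_inf (le_sup_left.trans hn') (le_NN_self K)))
    have h6 := Subgroup.zpowers_le_of_mem hk
    refine key _ (lt_of_le_of_ne h6 fun e => H5.qs_not_le_centralizer hK.2 ?_)
      (h5.trans ((CC_anti h6).trans (CC_le_NN _))) (Subgroup.mem_zpowers k)
    rw [← e]
    exact isMulCommutative_iff_le_CC.1 inferInstance
  · have h7 := dedekind_left h5 (inf_le_right : S₀ ≤ NN(K))
    rw [sup_comm, inf_eq_right.2 h6.le] at h7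
    rw [h7, sup_comm]
    refine sup_le_sup_right (le_inf (key _ (lt_of_le_of_ne inf_le_left fun e => h6.not_ge
      (sup_le (e ▸ inf_le_right) h5)) (le_NN_inf inf_le_right (h5.trans (le_NN_self Y)))) inf_le_left) _

end Cfsg.Agent.S2906
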