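import Cfsg.Statements.S2907
open Subgroup
open scoped commutatorElement

set_option autoImplicit false
open Cfsg

namespace Cfsg.Agent.S2907



/-- Let X be a finite semi-extraspecial p-group and x an element of X outside the centre. Then the index of C_X(x) in X equals the order of Z(X), and the commutators [x, y], y ∈ X, form exactly the centre Z(X). -/
theorem result {X : Type*} [Group X] [Finite X] {p : ℕ} [Fact p.Prime] (hX : Cfsg.IsSemiExtraspecial p X) (x : X) (hx : x ∉ Subgroup.center X) : (Subgroup.centralizer ({x} : Set X)).index = Nat.card ↥(Subgroup.center X) ∧ {z : X | ∃ y : X, z = x * y * x⁻¹ * y⁻¹} = (Subgroup.center X : Set X) := by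
  obtain ⟨⟨hp, -, hc⟩, hY⟩ := hX
  have cm : ∀ y : X, x * y * x⁻¹ * y⁻¹ ∈ center X := fun y =>
    hc ▸ commutator_mem_commutator (mem_top x) (mem_top y)
  let φ : X →* center X := MonoidHom.mk' (fun y => ⟨_, cm y⟩) fun a b => Subtype.ext (by
    have := mem_center_iff.1 (cm b) a
    simp only [coe_mul]
    calc x * (a * b) * x⁻¹ * (a * b)⁻¹ = x * a * x⁻¹ * a⁻¹ * (a * (x * b * x⁻¹ * b⁻¹)) * a⁻¹ := by group
      _ = _ := by rw [this]; group)
  have hr : φ.range = ⊤ := by
    by_contra hne
    obtain ⟨M, hM, hle⟩ := (eq_top_or_exists_le_coatom φ.range).resolve_left hne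
    have e : (M.map (center X).subtype).subgroupOf (center X) = M :=
      comap_map_eq_self_of_injective (center X).subtype_injective M
    obtain ⟨hn, -, hcard⟩ := hY (M.map (center X).subtype) (map_subtype_le M) (e.symm ▸ hM)
    set Y := M.map (center X).subtype
    have h1 : (center X).map (QuotientGroup.mk' Y) ≤ center (X ⧸ Y) := by
      rintro _ ⟨z, hz, rfl⟩
      refine mem_center_iff.2 fun q => ?_
      obtain ⟨a, rfl⟩ := QuotientGroup.mk'_surjective Y q
      rw [← map_mul, ← map_mul, mem_center_iff.1 hz a]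
    have h2 : (center X).map (QuotientGroup.mk' Y) = center (X ⧸ Y) := by
      have : Fact (Nat.card (center (X ⧸ Y))).Prime := ⟨hcard ▸ Fact.out⟩
      rcases (((center X).map (QuotientGroup.mk' Y)).subgroupOf (center (X ⧸ Y))).eq_bot_or_eq_top_of_prime_card
        with h | h
      · exfalso
        rw [subgroupOf_eq_bot, disjoint_iff, inf_eq_left.2 h1, Subgroup.map_eq_bot_iff,
          QuotientGroup.ker_mk'] at h
        exact hM.1 (e ▸ subgroupOf_eq_top.2 h)
      · exact le_antisymm h1 (subgroupOf_eq_top.1 h)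
    have h3 : QuotientGroup.mk' Y x ∈ center (X ⧸ Y) := mem_center_iff.2 fun q => by
      obtain ⟨a, rfl⟩ := QuotientGroup.mk'_surjective Y q
      have : x * a * x⁻¹ * a⁻¹ ∈ Y := ⟨φ a, hle ⟨a, rfl⟩, rfl⟩
      have := (QuotientGroup.eq_one_iff _).2 this
      simp only [QuotientGroup.mk_mul, QuotientGroup.mk_inv] at this
      simp only [QuotientGroup.mk'_apply]
      rw [mul_inv_eq_one, mul_inv_eq_iff_eq_mul] at this
      exact this.symm
    rw [← h2, ← mem_comap, comap_map_eq, QuotientGroup.ker_mk', sup_eq_left.2 (map_subtype_le M)] at h3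
    exact hx h3
  have hk : φ.ker = centralizer {x} := by
    ext y
    rw [MonoidHom.mem_ker, mem_centralizer_singleton_iff, Subtype.ext_iff]
    change x * y * x⁻¹ * y⁻¹ = 1 ↔ _
    rw [mul_inv_eq_one, mul_inv_eq_iff_eq_mul, eq_comm]
  refine ⟨by rw [← hk, index_ker, hr, card_top], Set.ext fun z => ⟨?_, fun hz => ?_⟩⟩
  · rintro ⟨y, rfl⟩; exact cm y
  · obtain ⟨y, hy⟩ : (⟨z, hz⟩ : center X) ∈ φ.range := hr ▸ mem_top _
    exact ⟨y, (congrArg Subtype.val hy).symm⟩

end Cfsg.Agent.S2907
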