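import Cfsg.Statements.S2909
import Cfsg.Agent.H10.PMin2
import Cfsg.Agent.H1.Coprime2

set_option autoImplicit false
open Cfsg H10

namespace Cfsg.Agent.S2909

/-- Let p be a prime, E a normal p-subgroup of the finite group G, and U a non-cyclic elementary abelian p-subgroup of G such that either C_E(U) = C_E(u) for every nontrivial u ∈ U, or [E, U] = [E, ⟨u⟩] for every nontrivial u ∈ U. If R is a subgroup of order prime to p normalized by U, then [R, U] centralizes E. -/
theorem result {G : Type*} [Group G] [Finite G] {p : ℕ} [Fact p.Prime] (E : Subgroup G) [E.Normal] (hE : IsPGroup p ↥E) (U : Subgroup G) (hU : Cfsg.IsElementaryAbelian p U) (hnc : ¬ IsCyclic ↥U) (hcond : (∀ u ∈ U, u ≠ 1 → E ⊓ Subgroup.centralizer (U : Set G) = E ⊓ Subgroup.centralizer ({u} : Set G)) ∨ (∀ u ∈ U, u ≠ 1 → ⁅E, U⁆ = ⁅E, Subgroup.zpowers u⁆)) (R : Subgroup G) (hR : ¬ p ∣ Nat.card ↥R) (hRU : U ≤ Subgroup.normalizer (R : Set G)) : ⁅R, U⁆ ≤ Subgroup.centralizer (E : Set G) := by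
  have hR' := coprime_of_not_dvd hR
  have hUp := elab_isPGroup hU
  have := isMulCommutative_iff_le_CC.2 (elab_le_CC hU)
  have hCn : ∀ X : Subgroup G, X ≤ NN(CC(E)) := fun X => le_NN_CC (le_NN_of_normal X E)
  refine (le_stabMod.1 (H1.le_of_forall_centralizer_le hnc hRU (coprime_card_of_isPGroup hUp hR')
    fun u hu h1 => le_stabMod.2 ⟨hCn _, ?_⟩)).2
  rw [← CC_zpowers]
  have hu' := Subgroup.zpowers_le_of_mem hu
  set X := R ⊓ CC(Subgroup.zpowers u) with hX
  have hUu : U ≤ CC(Subgroup.zpowers u) := (elab_le_CC hU).trans (CC_anti hu')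
  have hB : ⁅X, U⁆ ≤ X := comm_le_left (le_NN_inf hRU (hUu.trans (le_NN_self _)))
  have hB' : (Nat.card (⁅X, U⁆ : Subgroup G)).Coprime p :=
    hR'.coprime_dvd_left (Subgroup.card_dvd_of_le (hB.trans inf_le_left))
  have hXu : X ≤ NN(Subgroup.zpowers u) := inf_le_right.trans (CC_le_NN _)
  rcases hcond with h | h
  · refine H1.thompson_PQ (hUp.to_le hu') hB' (le_CC_symm (hB.trans inf_le_right)) E hE
      (le_NN_of_normal _ _) (le_NN_of_normal _ _) (le_CC_symm ((comm_le_ncl U X).trans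
        (ncl_le_CC (le_CC_symm ?_) (le_NN_inf (le_NN_of_normal _ _) (le_NN_CC hXu)))))
    rw [CC_zpowers, ← h u hu h1]; exact inf_le_right
  · refine comm_eq_bot'.1 (le_CC_of_comm_le_comm hE (hUp.to_le hu') hB' (le_NN_of_normal _ _)
      (le_NN_of_normal _ _) (le_CC_symm (hB.trans inf_le_right)) ?_)
    rw [Subgroup.commutator_comm]
    refine (Subgroup.commutator_mono (comm_le_ncl U X) le_rfl).trans (comm_ncl_le
      (by rw [Subgroup.commutator_comm, h u hu h1]) (h u hu h1 ▸ right_le_NN_comm E U)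
      (le_NN_of_normal _ _) (le_NN_commutator (le_NN_of_normal _ _) hXu))

end Cfsg.Agent.S2909
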