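import Cfsg.Statements.S2911
import Cfsg.Agent.H10.TT
open H10

set_option autoImplicit false
open Cfsg

namespace Cfsg.Agent.S2911



/-- A finite group whose Sylow 2-subgroups are isomorphic to the direct product of a group of order 2 and a dihedral group of order 8 has a subgroup of index two. -/
theorem result {G : Type*} [Group G] [Finite G] (S : Sylow 2 G) (hS : Nonempty (↥(S : Subgroup G) ≃* Multiplicative (ZMod 2) × DihedralGroup 4)) : ∃ H : Subgroup G, H.index = 2 := by
  obtain ⟨e⟩ := hS
  let φ : (S : Subgroup G) →* Multiplicative (ZMod 2) := (MonoidHom.fst _ _).comp e.toMonoidHom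
  let y : (S : Subgroup G) := e.symm (Multiplicative.ofAdd 1, 1)
  have ey : e y = (Multiplicative.ofAdd 1, 1) := e.apply_symm_apply _
  have h1 : φ y = Multiplicative.ofAdd 1 := by simp [φ, ey]
  have two : ∀ a : Multiplicative (ZMod 2), a = 1 ∨ a = Multiplicative.ofAdd 1 := by decide
  by_cases htr : MonoidHom.transfer φ (y : G) = 1
  · exfalso
    have yc : ∀ s : (S : Subgroup G), s * y = y * s := fun s => e.injective (by
      rw [map_mul, map_mul, ey]
      exact Prod.ext (mul_comm _ _) (by simp))
    have y2 : y * y = 1 := e.injective (by rw [map_mul, ey, e.map_one]; decide)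
    obtain ⟨g, h, h2, h3⟩ := thompson_transfer_ext (S := (S : Subgroup G))
      ⟨le_top, S.isPGroup', fun Q hQ h _ => S.is_maximal' hQ h⟩ φ y.2 (congrArg Subtype.val y2)
      (by rw [h1]; decide) (fun s _ => h1 ▸ two _) htr S.isPGroup'
      (fun s hs => Subgroup.mem_centralizer_singleton_iff.2 (congrArg Subtype.val (yc ⟨s, hs⟩)))
    have e3 : cj g⁻¹ (S : Subgroup G) = S :=
      Subgroup.eq_of_le_of_card_ge h3 (by rw [card_cj])
    have back : ∀ s ∈ (S : Subgroup G), g * s * g⁻¹ ∈ (S : Subgroup G) := fun s hs => by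
      rw [← e3, mem_cj, inv_inv] at hs; exact hs
    let y' : (S : Subgroup G) := ⟨_, h⟩
    have yc' : ∀ s : (S : Subgroup G), s * y' = y' * s := fun s => Subtype.ext (by
      have := congrArg Subtype.val (yc ⟨_, back s s.2⟩)
      simp only [Subgroup.coe_mul, y'] at this ⊢
      calc (s : G) * (g⁻¹ * y * g) = g⁻¹ * (g * s * g⁻¹ * y) * g := by group
        _ = _ := by rw [this]; group)
    have key : ∀ x : Multiplicative (ZMod 2) × DihedralGroup 4, x.1 = 1 → (∀ t, t * x = x * t) →
        ∃ w, x = w * w := by decide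
    obtain ⟨w, hw⟩ := key (e y') h2 fun t => by
      rw [← e.apply_symm_apply t, ← map_mul, ← map_mul, yc']
    have hw' : y' = e.symm w * e.symm w := e.injective (by rw [hw]; simp)
    have : y = ⟨_, back _ (e.symm w).2⟩ * ⟨_, back _ (e.symm w).2⟩ := Subtype.ext (by
      have := congrArg Subtype.val hw'
      simp only [Subgroup.coe_mul, y'] at this ⊢
      calc (y : G) = g * (g⁻¹ * y * g) * g⁻¹ := by group
        _ = _ := by rw [this]; group)
    rw [this, map_mul] at h1
    revert h1
    generalize φ _ = a
    revert a; decide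
  · refine ⟨(MonoidHom.transfer φ).ker, ?_⟩
    rw [Subgroup.index_ker]
    have : (MonoidHom.transfer φ).range = ⊤ := by
      refine eq_top_iff.2 fun a _ => ?_
      rcases two a with rfl | rfl
      · exact one_mem _
      · exact ⟨y, (two _).resolve_left htr⟩
    rw [this, Subgroup.card_top]
    simp

end Cfsg.Agent.S2911
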