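import Cfsg.Statements.S2922
import Cfsg.Agent.H11.CharP
import Cfsg.Agent.H5.Fstar

set_option autoImplicit false
open Cfsg

namespace Cfsg.Agent.S2922

/-- Let p be a prime, X a finite group, B a p-subgroup of X and C a normal subgroup of B. If N_X(C) has characteristic p (its generalized Fitting subgroup is O_p(N_X(C))), then N_X(B) and C_X(B) have characteristic p. -/
theorem result {X : Type*} [Group X] [Finite X] {p : ℕ} [Fact p.Prime] (B C : Subgroup X) (hB : IsPGroup p ↥B) (hCB : C ≤ B) (hCn : (C.subgroupOf B).Normal) (hC : Cfsg.generalizedFittingSubgroup ↥(Subgroup.normalizer (C : Set X)) = Cfsg.pCore p ↥(Subgroup.normalizer (C : Set X))) : Cfsg.generalizedFittingSubgroup ↥(Subgroup.normalizer (B : Set X)) = Cfsg.pCore p ↥(Subgroup.normalizer (B : Set X)) ∧ Cfsg.generalizedFittingSubgroup ↥(Subgroup.centralizer (B : Set X)) = Cfsg.pCore p ↥(Subgroup.centralizer (B : Set X)) := by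
  have key : ∀ L : Subgroup X, generalizedFittingSubgroup ↥L = pCore p ↥L ↔ H11.IsCharP p L := by
    intro L
    rw [H5.fstar_eq_pCore_iff_centralizer, H11.isCharP_iff]
  rw [key] at hC
  rw [key, key]
  have hBN : B ≤ Subgroup.normalizer (C : Set X) :=
    (Subgroup.normal_subgroupOf_iff_le_normalizer hCB).1 hCn
  have hle : Subgroup.centralizer (B : Set X) ≤ Subgroup.normalizer (C : Set X) :=
    (H11.centralizer_anti hCB).trans (Subgroup.centralizer_le_normalizer _)
  have h1 : H11.IsCharP p (Subgroup.centralizer (B : Set X)) := by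
    have := hC.inf_centralizer hBN hB
    rwa [inf_eq_right.2 hle] at this
  refine ⟨?_, h1⟩
  apply H11.isCharP_of_forall
  intro c hc hc' ho
  have hBO : B ≤ pCoreOf p (Subgroup.normalizer (B : Set X)) :=
    H11.le_pCoreOf Subgroup.le_normalizer le_rfl hB
  have hcB : c ∈ Subgroup.centralizer (B : Set X) := H11.centralizer_anti hBO hc'
  refine h1.eq_one hcB ?_ ho
  have h2 := H11.pCoreOf_eq_inf_of_le_normalizer (p := p)
    (Subgroup.centralizer_le_normalizer (B : Set X)) (H11.normalizer_le_normalizer_centralizer B)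
  rw [h2]
  exact H11.centralizer_anti inf_le_left hc'

end Cfsg.Agent.S2922
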