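import Cfsg.Statements.S2924
import Cfsg.Agent.H5.Two

set_option autoImplicit false
open Cfsg

namespace Cfsg.Agent.S2924

/-- Let X be a finite group and Y an elementary abelian 2-subgroup of X of order at least 8 such that C_X(x) has no components (E(C_X(x)) = 1) for every nontrivial x ∈ Y, and F*(C_X(z)) = O₂(C_X(z)) for some nontrivial z ∈ Y. Then the subgroup generated by the cores O(C_X(y)), y ∈ Y nontrivial, has odd order and is normalized by N_X(Y). -/
theorem result {X : Type*} [Group X] [Finite X] (Y : Subgroup X) (hY : Cfsg.IsElementaryAbelian 2 Y) (h8 : 8 ≤ Nat.card ↥Y) (hE : ∀ x ∈ Y, x ≠ 1 → Cfsg.layer ↥(Subgroup.centralizer ({x} : Set X)) = ⊥) (hz : ∃ z ∈ Y, z ≠ 1 ∧ Cfsg.generalizedFittingSubgroup ↥(Subgroup.centralizer ({z} : Set X)) = Cfsg.pCore 2 ↥(Subgroup.centralizer ({z} : Set X))) : Odd (Nat.card ↥(⨆ y : {y : X // y ∈ Y ∧ y ≠ 1}, (Cfsg.oddCore ↥(Subgroup.centralizer ({(y : X)} : Set X))).map (Subgroup.centralizer ({(y :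 X)} : Set X)).subtype)) ∧ Subgroup.normalizer (Y : Set X) ≤ Subgroup.normalizer ((⨆ y : {y : X // y ∈ Y ∧ y ≠ 1}, (Cfsg.oddCore ↥(Subgroup.centralizer ({(y : X)} : Set X))).map (Subgroup.centralizer ({(y : X)} : Set X)).subtype : Subgroup X) : Set X) := by
  obtain ⟨z, hzY, z1, hz⟩ := hz
  rw [H5.fstar_eq_pCore_iff_of] at hz
  have hz2 := H5.orderOf_eq_of_elemAb hY hzY z1
  have key : ∀ y ∈ Y, y ≠ 1 → H5.plOf 2 (Subgroup.centralizer ({y} : Set X)) = ⊥ := by
    intro y hy y1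
    refine H5.plOf_eq_bot_of_fpf hz2 (H5.elemAb_le_centralizer_singleton hY hy hzY) ?_ ?_
    · show (Cfsg.layer _).map _ = ⊥
      rw [hE y hy y1, Subgroup.map_bot]
    · have := H5.fstarOf_inf_centralizer (H5.isPGroup_zpowers (H5.orderOf_eq_of_elemAb hY hy y1))
        (H5.le_normalizer_of_le (by
          rw [Subgroup.zpowers_le]; exact H5.elemAb_le_centralizer_singleton hY hzY hy)) hz
      rwa [H5.centralizer_zpowers, inf_comm] at this
  have hs := H5.sf_core_two hY fun a ha a1 b hb b1 => H5.core_balance_of_plOf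
    (H5.pow_pow_one_of_orderOf (H5.orderOf_eq_of_elemAb hY ha a1)) (H5.elemAb_comm hY ha hb) (key b hb b1)
  exact ⟨Nat.coprime_two_right.1 (hs.mem_closure h8).cop,
    H5.normalizer_le_normalizer_sigClosure (θ := H5.ocore) fun a _ _ g => H5.cj_oppOf_centralizer₁ 2 g a⟩

end Cfsg.Agent.S2924
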