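import Cfsg.Statements.S2925
import Cfsg.Agent.H5.Component
import Cfsg.Agent.S0542

set_option autoImplicit false
open Cfsg

namespace Cfsg.Agent.S2925

/-- Let K be a component of the finite group X and T a Sylow 2-subgroup of X. If some abelian normal subgroup Y of T does not normalize K, then K ⧸ Z(K) has abelian Sylow 2-subgroups. -/
theorem result {X : Type*} [Group X] [Finite X] (K : Subgroup X) (hK : Cfsg.IsComponent K) (T : Sylow 2 X) (Y : Subgroup X) (hYT : Y ≤ (T : Subgroup X)) (hYn : (Y.subgroupOf (T : Subgroup X)).Normal) (hYab : IsMulCommutative ↥Y) (hnot : ¬ Y ≤ Subgroup.normalizer (K : Set X)) (P : Sylow 2 (↥K ⧸ Subgroup.center ↥K)) : IsMulCommutative ↥(P : Subgroup (↥K ⧸ Subgroup.center ↥K)) := by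
  have hc := H5.compOf_top_iff.2 hK
  obtain ⟨y, hy, hyn⟩ := SetLike.not_le_iff_exists.1 hnot
  have hc' := hc.cj_of_mem (Subgroup.le_normalizer (Subgroup.mem_top y))
  have h0 : ⁅K, H5.cj y K⁆ = ⊥ :=
    hc.commutator_eq_bot hc' fun e => hyn (H5.cj_eq_self_iff.1 e.symm)
  have hC : H5.cj y K ≤ Subgroup.centralizer (K : Set X) := H5.commutator_eq_bot_iff'.1 h0
  obtain ⟨Q, hQ⟩ := Cfsg.Agent.S0542.result 2 K hK.1 T
  have hY : ∀ s ∈ (T : Subgroup X), s * (y * s⁻¹ * y⁻¹) ∈ Y := fun s hs => by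
    have h1 : s * y * s⁻¹ ∈ Y := hYn.conj_mem ⟨y, hYT hy⟩ hy ⟨s, hs⟩
    have : s * (y * s⁻¹ * y⁻¹) = s * y * s⁻¹ * y⁻¹ := by group
    rw [this]; exact mul_mem h1 (inv_mem hy)
  have key : ∀ s ∈ (Q : Subgroup K), ∀ t ∈ (Q : Subgroup K), (t * s)⁻¹ * (s * t) ∈ Subgroup.center K := by
    intro s hs t ht
    rw [hQ] at hs ht
    have h1 := (H1.isMulCommutative_iff'.1 hYab) _ (hY s hs) _ (hY t ht)
    set s' := y * (s : X)⁻¹ * y⁻¹ with hs'
    set t' := y * (t : X)⁻¹ * y⁻¹ with ht'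
    have m1 : s' ∈ H5.cj y K := H5.conj_mem_cj (inv_mem s.2)
    have m2 : t' ∈ H5.cj y K := H5.conj_mem_cj (inv_mem t.2)
    have c1 : (t : X) * s' = s' * t := hC m1 t t.2
    have c2 : (s : X) * t' = t' * s := hC m2 s s.2
    have e : ((t : X) * s)⁻¹ * (s * t) = t' * s' * (s' * t')⁻¹ := by
      have e1 : (s : X) * s' * (t * t') = s * t * (s' * t') := by
        rw [mul_assoc, ← mul_assoc s', ← c1]; group
      have e2 : (t : X) * t' * (s * s') = t * s * (t' * s') := by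
        rw [mul_assoc, ← mul_assoc t', ← c2]; group
      rw [e1, e2] at h1
      calc ((t : X) * s)⁻¹ * (s * t) = ((t : X) * s)⁻¹ * (s * t * (s' * t')) * (s' * t')⁻¹ := by group
        _ = _ := by rw [h1]; group
    have h2 : ((t : X) * s)⁻¹ * (s * t) ∈ Subgroup.centralizer (K : Set X) := by
      rw [e]; exact hC (mul_mem (mul_mem m2 m1) (inv_mem (mul_mem m1 m2)))
    exact Subgroup.mem_center_iff.2 fun g => Subtype.ext (h2 g g.2)
  let Q' : Sylow 2 (↥K ⧸ Subgroup.center ↥K) :=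
    Q.mapSurjective (QuotientGroup.mk'_surjective (Subgroup.center K))
  have hQ' : IsMulCommutative (Q' : Subgroup (↥K ⧸ Subgroup.center ↥K)) := by
    refine H1.isMulCommutative_iff'.2 ?_
    rintro _ ⟨s, hs, rfl⟩ _ ⟨t, ht, rfl⟩
    rw [← map_mul, ← map_mul]
    exact (QuotientGroup.eq.2 (key s hs t ht)).symm
  have e := Sylow.equiv P Q'
  refine ⟨⟨fun a b => e.injective ?_⟩⟩
  rw [map_mul, map_mul]
  exact hQ'.1.1 _ _

end Cfsg.Agent.S2925
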