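import Cfsg.Statements.S2932
import Cfsg.Agent.Lead.NS3
import Cfsg.Agent.H4.Tor2

set_option autoImplicit false
open Cfsg

namespace Cfsg.Agent.S2932

/-- Let p be a prime. Inside a finite ambient group let V be an elementary abelian p-subgroup and G a subgroup normalizing V and acting faithfully on it (G ∩ C(V) = 1), and let L ≤ G act on V as SL₂(F) on its natural module, F a finite field of characteristic p, with L ≅ SL₂(F). If every Sylow p-subgroup of N_G(L) is a Sylow p-subgroup of G, then either L is normal in G, or F has 4 elements and G is isomorphic to the alternating group of degree 7. -/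
theorem result {X : Type*} [Group X] [Finite X] {p : ℕ} [Fact p.Prime] (F : Type) [Field F] [Fintype F] [CharP F p] (V G L : Subgroup X) (hV : Cfsg.IsElementaryAbelian p V) (hGV : G ≤ Subgroup.normalizer (V : Set X)) (hfaith : G ⊓ Subgroup.centralizer (V : Set X) = ⊥) (hLG : L ≤ G) (hnat : Cfsg.IsNaturalSL2Module F V L) (hLiso : Nonempty (↥L ≃* Matrix.SpecialLinearGroup (Fin 2) F)) (hSyl : ∀ S : Sylow p ↥(G ⊓ Subgroup.normalizer (L : Set X)), ∀ P : Sylow p ↥G, Nat.card S = Nat.card P) : (L.subgroupOf G).Normal ∨ (Fintype.card F = 4 ∧ Nonempty (↥G ≃* ↥(alternatingGroup (Fin 7)))) := by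
  classical
  obtain ⟨hLV, ρ, ψ, hρ, -, hψ⟩ := hnat
  let e : Additive V ≃+ F × F := ψ.trans (LinearEquiv.finTwoArrow F F).toAddEquiv
  let cj : G → V → V := fun g v => ⟨g * v * (g : X)⁻¹,
    (Subgroup.mem_normalizer_iff.1 (hGV g.2) v).1 v.2⟩
  let _ : DistribMulAction G (F × F) :=
    { smul := fun g w => e (Additive.ofMul (cj g (e.symm w).toMul))
      one_smul := fun w => by
        show e _ = w
        rw [show cj 1 (e.symm w).toMul = (e.symm w).toMul from Subtype.ext (by simp [cj])]
        simp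
      mul_smul := fun a b w => by
        show e _ = e (Additive.ofMul (cj a (e.symm (e _)).toMul))
        rw [e.symm_apply_apply]
        congr 2
        exact Subtype.ext (by simp [cj, mul_assoc])
      smul_zero := fun a => by
        show e _ = 0
        rw [show cj a (e.symm 0).toMul = 1 from Subtype.ext (by simp [cj])]
        simp
      smul_add := fun a v w => by
        show e _ = e _ + e _
        rw [← map_add, ← ofMul_mul]
        congr 2
        exact Subtype.ext (by simp [cj, mul_assoc]) }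
  have hact : ∀ (l : G) (hl : (l : X) ∈ L) (w : F × F), l • w =
      ((ρ ⟨l, hl⟩).1 0 0 * w.1 + (ρ ⟨l, hl⟩).1 0 1 * w.2,
        (ρ ⟨l, hl⟩).1 1 0 * w.1 + (ρ ⟨l, hl⟩).1 1 1 * w.2) := fun l hl w => by
    obtain ⟨u, hu, hu'⟩ := hψ ⟨l, hl⟩ (e.symm w).toMul
    have e1 : cj l (e.symm w).toMul = u := Subtype.ext hu.symm
    show e (Additive.ofMul (cj l (e.symm w).toMul)) = _
    have e2 : ψ (e.symm w) = ![w.1, w.2] := by simp [e]
    rw [e1]
    show (LinearEquiv.finTwoArrow F F) (ψ (Additive.ofMul u)) = _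
    rw [hu', ofMul_toMul, e2]
    simp [Matrix.mulVec, dotProduct, Fin.sum_univ_two]
  have H : Lead.NS.Nat2 F (L.subgroupOf G) := by
    refine ⟨fun g hg => Subtype.ext ?_, fun l hl => ⟨_, _, _, _, ?_, hact l hl⟩,
      fun a b c d h => ?_⟩
    · have : (g : X) ∈ G ⊓ Subgroup.centralizer (V : Set X) := ⟨g.2, fun v hv => by
        have h1 : e (Additive.ofMul (cj g (e.symm (e (Additive.ofMul ⟨v, hv⟩))).toMul)) = _ :=
          hg (e (Additive.ofMul ⟨v, hv⟩))
        rw [e.symm_apply_apply, e.apply_eq_iff_eq] at h1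
        have h2 : (g : X) * v * (g : X)⁻¹ = v := congrArg (fun x : Additive V => (x.toMul : X)) h1
        rw [mul_inv_eq_iff_eq_mul] at h2
        exact h2.symm⟩
      rwa [hfaith, Subgroup.mem_bot] at this
    · have := (ρ ⟨l, hl⟩).2
      rwa [Matrix.det_fin_two] at this
    · obtain ⟨l, hl⟩ := hρ ⟨!![a, b; c, d], by rwa [Matrix.det_fin_two_of]⟩
      refine ⟨⟨l, hLG l.2⟩, l.2, fun w => ?_⟩
      rw [hact _ l.2]
      simp [hl]
  have hS : ∀ S : Sylow p (Subgroup.normalizer ((L.subgroupOf G : Subgroup G) : Set G)),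
      ∀ P : Sylow p G, Nat.card S = Nat.card P := fun S P => by
    obtain ⟨S'⟩ : Nonempty (Sylow p ↥(G ⊓ Subgroup.normalizer (L : Set X))) := inferInstance
    rw [← hSyl S' P, S.card_eq_multiplicity, S'.card_eq_multiplicity,
      ← Subgroup.subgroupOf_normalizer_eq hLG, ← Subgroup.inf_subgroupOf_left,
      Nat.card_congr (Subgroup.subgroupOfEquivOfLe inf_le_left).toEquiv]
  by_cases h4 : Fintype.card F = 4
  · obtain ⟨i⟩ := hLiso
    refine (H.four p hS h4 ?_).imp id fun h => ⟨h4, h⟩
    rw [Nat.card_congr (Subgroup.subgroupOfEquivOfLe hLG).toEquiv, Nat.card_congr i.toEquiv,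
      H4.card_sl2, h4]
  · exact Or.inl (H.normal p hS (by rwa [Nat.card_eq_fintype_card]))

end Cfsg.Agent.S2932
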