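import Cfsg.Statements.S2937
import Cfsg.Agent.H24.PM6

set_option autoImplicit false
set_option maxHeartbeats 400000
open Cfsg

namespace Cfsg.Agent.S2937

/-- Let X be a finite p-minimal group whose generalized Fitting subgroup K = F*(X) is a simple group of Lie type in characteristic p, and let U be a Sylow p-subgroup of K. Then N_X(U) is a maximal subgroup of X, and either K has Lie rank one (K ≅ PSL₂(pᵉ), PSU₃(pᵉ), a Suzuki group for p = 2, or a Ree group or PSL₂(8) for p = 3), or p = 2, K ≠ X and K is isomorphic to PSL₃(2ᵉ) or to PSp₄(2ᵉ) (e ≥ 2) or to the alternating group of degree 6. -/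
theorem result {X : Type*} [Group X] [Finite X] {p : ℕ} [Fact p.Prime] (hX : Cfsg.IsPMinimal p X) (hK : Cfsg.IsChevSimple p ↥(Cfsg.generalizedFittingSubgroup X)) (U : Sylow p ↥(Cfsg.generalizedFittingSubgroup X)) : IsCoatom (Subgroup.normalizer (((U : Subgroup ↥(Cfsg.generalizedFittingSubgroup X)).map (Cfsg.generalizedFittingSubgroup X).subtype : Subgroup X) : Set X)) ∧ (Cfsg.IsLieRankOneChar p ↥(Cfsg.generalizedFittingSubgroup X) ∨ (p = 2 ∧ Cfsg.generalizedFittingSubgroup X ≠ ⊤ ∧ ((∃ (F : Type) (_ : Field F) (_ : Fintype F) (_ : CharP F 2), Nonempty (↥(Cfsg.generalizedFittingSubgroup X) ≃* Matrix.ProjectiveSpecialLinearGroup (Fin 3) F)) ∨ (∃ (F : Type) (_ : Field F) (_ : Fintype F) (_ : CharP F 2), 4 ≤ Fintype.card F ∧ Nonempty (↥(Cfsg.generalizedFittingSubgroup X) ≃* Cfsg.PSp 2 F)) ∨ Nonempty (↥(Cfsg.generalizedFittingSubgroup X) ≃* ↥(alternatingGroup (Fin 6)))))) := by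
  have hn : (Cfsg.generalizedFittingSubgroup X).Normal := inferInstance
  rcases hK with h | ⟨rfl, ⟨⟨e⟩⟩ | ⟨F, _, _, hF, ⟨e⟩⟩ | ⟨⟨e⟩⟩⟩ | ⟨rfl, h⟩
  · rcases H24.lie_cases h with h1 | ⟨A, h1, h2⟩ | ⟨rfl, ⟨A, h1⟩, h2⟩
    · obtain ⟨_, _, A, ⟨e⟩, -⟩ := H24.hp_one h1
      exact ⟨(A.key hX e).1 U, .inl h1⟩
    · exact absurd ((A.par A.nonempty.some).key hX A.e).2.1 (h2 _)
    · have := (A.par A.nonempty.some).key hX A.e
      exact ⟨this.1 U, .inr ⟨rfl, fun e => (@not_subsingleton _ h1) (this.2.2 e), h2.imp_right .inl⟩⟩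
  · obtain ⟨_, _, A, ⟨e'⟩, h⟩ := H24.hp_A6 e
    exact ⟨(A.key hX e').1 U, .inr ⟨rfl, fun h' => (@not_subsingleton _ h) ((A.key hX e').2.2 h'), .inr (.inr ⟨e⟩)⟩⟩
  · obtain ⟨_, _, A, ⟨e'⟩, h⟩ := H24.hp_U33 hF e
    exact absurd (A.key hX e').2.1 h
  · obtain ⟨_, _, A, ⟨e'⟩, h⟩ := H24.hp_tits e
    exact absurd (A.key hX e').2.1 h
  · have h1 : Cfsg.IsLieRankOneChar 3 _ := .inr (.inr (.inr ⟨rfl, .inr h⟩))
    obtain ⟨_, _, A, ⟨e⟩, -⟩ := H24.hp_one h1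
    exact ⟨(A.key hX e).1 U, .inl h1⟩

end Cfsg.Agent.S2937
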