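import Cfsg.Statements.S2939
import Cfsg.Agent.H11.Chain

set_option autoImplicit false
open Cfsg

namespace Cfsg.Agent.S2939

open Subgroup H16 H16.H11
open H1 hiding card_inf_mul_relIndex card_mul_relIndex card_sup_dvd isPiHallOf_map_subtype isPiHallOf_top
open H15 hiding card_cj cent_anti cent_bot cent_comm cent_le_cent1 cent_le_norm cent_sup cent_zpowers cj_bot cj_cent cj_cj_inv cj_comm cj_eq_bot cj_eq_iff cj_eq_top cj_inf cj_inj cj_inv_cj cj_le_cj cj_le_iff cj_le_of_mem cj_lt_cj cj_mono cj_norm cj_one cj_sup cj_top comm_le_inf comm_le_left comm_le_right comm_of_cyclic comm_of_le comm_sup le_cj_iff mem_cent mem_cent1 mem_cj mem_norm_of_cj_le norm_bot norm_top relIndex_cj relIndex_dvd_of_le_right relIndex_pos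
open scoped commutatorElement

theorem fac_iff {G : Type*} [Group G] {r : Subgroup G → G → Prop} {𝓖 : Set (Subgroup G)} {g : G} :
    (∃ (n : ℕ) (Y : Fin n → Subgroup G) (y : Fin n → G), (∀ i, Y i ∈ 𝓖 ∧ y i ∈ Y i) ∧
      g = (List.ofFn y).prod ∧ ∀ i : Fin n, r (Y i) ((List.ofFn y).take (i.val + 1)).prod) ↔
    Relation.ReflTransGen (fun a b => ∃ Y ∈ 𝓖, a⁻¹ * b ∈ Y ∧ r Y b) 1 g := by
  rw [← chain_iff]
  have e : ∀ {n} (y : Fin n → G), (List.ofFn y).prod = Fin.partialProd y (Fin.last n) :=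
    fun {n} y => by rw [Fin.partialProd, List.take_of_length_le (by simp)]
  constructor
  · rintro ⟨n, Y, y, h1, rfl, h2⟩
    refine ⟨n, Fin.partialProd y, Fin.partialProd_zero y, (e y).symm, fun i => ⟨Y i, (h1 i).1, ?_,
      h2 i⟩⟩
    rw [Fin.partialProd_right_inv]; exact (h1 i).2
  · rintro ⟨n, c, h1, rfl, h2⟩
    choose Y a b d using h2
    have h3 := Fin.partialProd_left_inv c
    rw [h1, one_smul] at h3
    refine ⟨n, Y, _, fun i => ⟨a i, b i⟩, by rw [e, h3], fun i => ?_⟩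
    have := d i
    rwa [← h3] at this

theorem cr_iff {G : Type*} [Group G] {A : Set G} {K : Subgroup G} {g : G} :
    conjRight g A ⊆ K ↔ closure A ≤ K :^ g := by
  rw [closure_le]
  exact ⟨fun h a ha => mem_cj.2 (h ⟨a, ha, rfl⟩), fun h _ ⟨a, ha, e⟩ => e ▸ mem_cj.1 (h ha)⟩


/-- Let p be a prime dividing the order of the finite group G and 𝓕 a family of subgroups of G closed under conjugation, with conjugates taken as X^g = g⁻¹Xg. Then 𝓕 controls Sylow p-intersections in G (any two distinct Sylow p-subgroups S and T with S ∩ T ≠ 1 are joined by a chain S = S₀, S₁, …, Sₙ = T of Sylow p-subgroups where, for each i, some member Xᵢ of 𝓕 meets both S_{i-1} and Sᵢ in Sylow p-subgroups of Xᵢ, satisfies S ∩ T ≤ Sᵢ ∩ Xᵢ, and contains an element xᵢ with Sᵢ^{xᵢ} = S_{i-1}) if and only if 𝓕 strongly controls p-fusion in G (whenever A is a subset of a Sylow p-subgroup S, A contains an element other than 1, and A^g ⊆ S, the element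 g factorises as g = y₁⋯yₙy with y ∈ N_G(S) and each yᵢ in a member Yᵢ of 𝓕 that meets S in a Sylow p-subgroup of Yᵢ, with A^{y₁⋯yᵢ} ⊆ S ∩ Yᵢ for each i). -/
theorem result {G : Type*} [Group G] [Finite G] {p : ℕ} [Fact p.Prime] (hdiv : p ∣ Nat.card G) (𝓕 : Set (Subgroup G)) (h𝓕 : Cfsg.IsNormalSet 𝓕) : Cfsg.ControlsSylowIntersections p 𝓕 ↔ Cfsg.FamilyStronglyControlsFusion p 𝓕 := by
  rw [ctl_top_iff]
  refine ⟨fun h S A g h1 ⟨a, ha, ha1⟩ h2 => ?_, fun h S T hS hT _ h0 => ?_⟩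
  · have hS := sy_top_of_sylow S
    have h3 := h.chain hS (hl_cj_top hS g) (ne_bot_of_mem (subset_closure ha) ha1)
      ((closure_le _).2 h1) (cr_iff.1 h2)
    have key : ∀ V, Relation.ReflTransGen (Stp p 𝓕 (closure A)) S V → ∃ h, (S : Subgroup G) :^ h = V ∧
        Relation.ReflTransGen (fun a b => ∃ Y ∈ sylowMembers p 𝓕 (S : Subgroup G), a⁻¹ * b ∈ Y ∧
          conjRight b A ⊆ (S : Set G) ∩ Y) 1 h := fun V h => by
      induction h with
      | refl => exact ⟨1, cj_one _, Relation.ReflTransGen.refl⟩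
      | tail _ h ih =>
        obtain ⟨k, rfl, hk⟩ := ih
        obtain ⟨-, X, x, a, b, -, c, d, e⟩ := h
        rw [cj_eq_iff, inv_inv, cj_cj] at d
        refine ⟨x * k, d.symm, hk.tail ⟨X :^ k⁻¹, mem_sylowMembers.2 ⟨h𝓕 X a k, ?_⟩, ?_, ?_⟩⟩
        · simpa only [cj_inf, cj_cj_inv] using hl_cj b k⁻¹
        · rw [mem_cj]; simpa [mul_assoc] using c
        · refine (cr_iff (K := (S : Subgroup G) ⊓ X :^ k⁻¹)).2 ?_
          rwa [cj_inf, ← d, cj_cj, mul_inv_cancel_right, cj_self c]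
    obtain ⟨k, e, hk⟩ := key _ h3
    obtain ⟨n, Y, y, a, rfl, b⟩ := (fac_iff (r := fun Y b => conjRight b A ⊆ (S : Set G) ∩ Y)).2 hk
    exact ⟨n, Y, y, _, cj_eq_cj_iff.1 e.symm, a, (mul_inv_cancel_left _ _).symm, b⟩
  · obtain ⟨g, -, rfl⟩ := sy_conj hS hT
    obtain ⟨S, rfl⟩ := sylow_of_sy_top hS
    obtain ⟨n, Y, y, y₀, a, b, c, d⟩ := h S ((S : Subgroup G) ⊓ (S : Subgroup G) :^ g : Subgroup G) g
      (inf_le_left : (S : Subgroup G) ⊓ _ ≤ S) (exists_ne_one h0)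
      (cr_iff.2 (by rw [closure_eq]; exact inf_le_right))
    generalize (S : Subgroup G) ⊓ (S : Subgroup G) :^ g = D at d
    have h1 := (fac_iff (r := fun Y b => conjRight b D ⊆ (S : Set G) ∩ Y)).1 ⟨n, Y, y, b, rfl, d⟩
    have h2 := rtg_lift (s := Stp p 𝓕 D) (fun g => (S : Subgroup G) :^ g) ?_ h1
    · rwa [c, ← cj_cj, cj_norm a, ← cj_one (S : Subgroup G), cj_cj, mul_one]
    rintro a b ⟨Y, hY, h3, h4⟩
    obtain ⟨h5, h6⟩ := mem_sylowMembers.1 hY
    have e : Y :^ b = Y :^ a := cj_eq_cj_iff.2 (le_norm Y h3)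
    refine ⟨(hl_pi hS).cj a, Y :^ a, b * a⁻¹, by simpa only [subgroupConjRight, inv_inv] using h𝓕 Y h5 a⁻¹, ?_, ?_, ?_, ?_, ?_⟩
    · rw [← cj_inf]; exact hl_cj h6 a
    · rw [← e, ← cj_inf]; exact hl_cj h6 b
    · rw [mem_cj]; simpa [mul_assoc] using h3
    · rw [cj_cj]; congr 3; group
    · have := (cr_iff (K := (S : Subgroup G) ⊓ Y)).1 h4
      rwa [closure_eq, cj_inf, e] at this

end Cfsg.Agent.S2939
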