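import Cfsg.Statements.S2940
import Cfsg.Agent.H11.BGLib

set_option autoImplicit false
open Cfsg

namespace Cfsg.Agent.S2940

open Subgroup H16 H16.H11
open H1 hiding card_inf_mul_relIndex card_mul_relIndex card_sup_dvd isPiHallOf_map_subtype isPiHallOf_top
open H15 hiding card_cj cent_anti cent_bot cent_comm cent_le_cent1 cent_le_norm cent_sup cent_zpowers cj_bot cj_cent cj_cj_inv cj_comm cj_eq_bot cj_eq_iff cj_eq_top cj_inf cj_inj cj_inv_cj cj_le_cj cj_le_iff cj_le_of_mem cj_lt_cj cj_mono cj_norm cj_one cj_sup cj_top comm_le_inf comm_le_left comm_le_right comm_of_cyclic comm_of_le comm_sup le_cj_iff mem_cent mem_cent1 mem_cj mem_norm_of_cj_le norm_bot norm_top relIndex_cj relIndex_dvd_of_le_right relIndex_pos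
open scoped commutatorElement


/-- Let S be a Sylow p-subgroup of the finite group G and G₁, G₂ subgroups containing S with G = G₁G₂. Then for every g ∈ G there is a Sylow p-subgroup U of G with S ∩ S^g ≤ U ≤ G₁ ∩ G₂^g (conjugates taken as X^g = g⁻¹Xg). -/
theorem result {G : Type*} [Group G] [Finite G] {p : ℕ} [Fact p.Prime] (S : Sylow p G) (G₁ G₂ : Subgroup G) (h1 : (S : Subgroup G) ≤ G₁) (h2 : (S : Subgroup G) ≤ G₂) (hfact : ∀ g : G, ∃ g₁ ∈ G₁, ∃ g₂ ∈ G₂, g = g₁ * g₂) (g : G) : ∃ U : Sylow p G, (S : Subgroup G) ⊓ Cfsg.subgroupConjRight g (S : Subgroup G) ≤ (U : Subgroup G) ∧ (U : Subgroup G) ≤ G₁ ⊓ Cfsg.subgroupConjRight g G₂ := by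
  obtain ⟨a, ha, b, hb, e⟩ := hfact g⁻¹
  change ∃ U : Sylow p G, (S : Subgroup G) ⊓ (S : Subgroup G) :^ g⁻¹ ≤ U ∧ (U : Subgroup G) ≤ G₁ ⊓ G₂ :^ g⁻¹
  have h3 : (S : Subgroup G) :^ a ≤ G₁ ⊓ G₂ :^ g⁻¹ := by
    refine le_inf (cj_le_of_mem ha h1) ?_
    rw [e, ← cj_cj, cj_self hb]
    exact cj_mono a h2
  obtain ⟨U, hU, h4⟩ := sy_exists_ge (p := p) (inf_le_inf h1 (cj_mono g⁻¹ h2))
    (hl_pi (sy_top_of_sylow S)).inf_left
  have h5 := hl_of_le (hl_cj_top (sy_top_of_sylow S) a) h3 le_top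
  obtain ⟨U', rfl⟩ := sylow_of_sy_top (hl_of_card (hl_cj_top (sy_top_of_sylow S) a) le_top
    (hl_card_eq hU h5))
  exact ⟨U', h4, hU.1⟩

end Cfsg.Agent.S2940
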