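import Cfsg.Statements.S2955
import Cfsg.Agent.H11.Chain

set_option autoImplicit false
open Cfsg

namespace Cfsg.Agent.S2955

open Subgroup H16 H16.H11
open H1 hiding card_inf_mul_relIndex card_mul_relIndex card_sup_dvd isPiHallOf_map_subtype isPiHallOf_top
open H15 hiding card_cj cent_anti cent_bot cent_comm cent_le_cent1 cent_le_norm cent_sup cent_zpowers cj_bot cj_cent cj_cj_inv cj_comm cj_eq_bot cj_eq_iff cj_eq_top cj_inf cj_inj cj_inv_cj cj_le_cj cj_le_iff cj_le_of_mem cj_lt_cj cj_mono cj_norm cj_one cj_sup cj_top comm_le_inf comm_le_left comm_le_right comm_of_cyclic comm_of_le comm_sup le_cj_iff mem_cent mem_cent1 mem_cj mem_norm_of_cj_le norm_bot norm_top relIndex_cj relIndex_dvd_of_le_right relIndex_pos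
open scoped commutatorElement


/-- Let p be a prime dividing the order of the finite group G and 𝓕 a conjugation-closed family of subgroups that controls Sylow p-intersections in G. Suppose the Sylow p-subgroups of G are chain-connected: any two of them are joined by a chain of Sylow p-subgroups, consecutive ones distinct with nontrivial intersection, all containing the intersection of the two ends (equivalently, the graph on the Sylow p-subgroups whose edges are the distinct pairs meeting nontrivially is connected). Then for every Sylow p-subgroup S, G is generated by N_G(S) together with the members of 𝓕 that meet S in a Sylow p-subgroup of themselves. -/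
theorem result {G : Type*} [Group G] [Finite G] (p : ℕ) [Fact p.Prime] (hdiv : p ∣ Nat.card G)
    (𝓕 : Set (Subgroup G)) (h𝓕 : Cfsg.IsNormalSet 𝓕) (hc : Cfsg.ControlsSylowIntersections p 𝓕)
    (hconn : Cfsg.IsSylowChainConnected p G) (S : Sylow p G) :
    (⨆ X ∈ Cfsg.sylowMembers p 𝓕 (S : Subgroup G), X) ⊔ Subgroup.normalizer ((S : Subgroup G) : Set G) = ⊤ := by
  set H := (⨆ X ∈ sylowMembers p 𝓕 (S : Subgroup G), X) ⊔ N[(S : Subgroup G)]
  have hS := sy_top_of_sylow S
  have k1 : ∀ D T U, Relation.ReflTransGen (Stp p 𝓕 D) T U → (∃ h ∈ H, (S : Subgroup G) :^ h = T) →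
      ∃ h ∈ H, (S : Subgroup G) :^ h = U := fun D T U h hT => by
    induction h with
    | refl => exact hT
    | tail _ h ih =>
      obtain ⟨h, hh, rfl⟩ := ih
      obtain ⟨-, X, x, a, b, -, c, d, -⟩ := h
      have h1 : X :^ h⁻¹ ≤ H := by
        refine le_sup_of_le_left (le_iSup₂_of_le (X :^ h⁻¹) (mem_sylowMembers.2 ⟨h𝓕 X a h, ?_⟩) le_rfl)
        simpa only [cj_inf, cj_cj_inv] using hl_cj b h⁻¹
      have h2 : x ∈ H := by
        have := h1 (cj_mem (g := h⁻¹) c)
        rwa [mul_mem_cancel_right (inv_mem (inv_mem hh)), mul_mem_cancel_left (inv_mem hh)] at this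
      exact ⟨x * h, mul_mem h2 hh, by rw [← cj_cj, ← d, cj_inv_cj]⟩
  have k2 : ∀ T, Relation.ReflTransGen (Adj p) S T → ∃ h ∈ H, (S : Subgroup G) :^ h = T :=
    fun T h => by
    induction h with
    | refl => exact ⟨1, one_mem _, cj_one _⟩
    | tail _ h ih =>
      refine k1 _ _ _ (ctl_top_iff.1 hc _ _ ?_ h.1 h.2.1 h.2.2) ih
      obtain ⟨g, -, rfl⟩ := ih
      exact hl_cj_top hS g
  refine eq_top_iff.2 fun g _ => ?_
  obtain ⟨h, hh, e⟩ := k2 _ (conn_iff.1 hconn _ _ hS (hl_cj_top hS g))
  exact (mul_mem_cancel_left (inv_mem hh)).1 (le_sup_right (a := ⨆ X ∈ sylowMembers p 𝓕 (S : Subgroup G), X)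
    (cj_eq_cj_iff.1 e.symm))

end Cfsg.Agent.S2955
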