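import Cfsg.Statements.S2956
import Cfsg.Agent.H11.Chain
import Cfsg.Agent.H16.Misc

set_option autoImplicit false
open Cfsg

namespace Cfsg.Agent.S2956

open Subgroup H16 H16.H11
open H1 hiding card_inf_mul_relIndex card_mul_relIndex card_sup_dvd isPiHallOf_map_subtype isPiHallOf_top
open H15 hiding card_cj cent_anti cent_bot cent_comm cent_le_cent1 cent_le_norm cent_sup cent_zpowers cj_bot cj_cent cj_cj_inv cj_comm cj_eq_bot cj_eq_iff cj_eq_top cj_inf cj_inj cj_inv_cj cj_le_cj cj_le_iff cj_le_of_mem cj_lt_cj cj_mono cj_norm cj_one cj_sup cj_top comm_le_inf comm_le_left comm_le_right comm_of_cyclic comm_of_le comm_sup le_cj_iff mem_cent mem_cent1 mem_cj mem_norm_of_cj_le norm_bot norm_top relIndex_cj relIndex_dvd_of_le_right relIndex_pos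
open scoped commutatorElement


/-- Let p be a prime dividing the order of the finite group G, and f an assignment to every p-subgroup P of a set f(P) of subgroups of P, each normalized by N_G(P), compatible with conjugation, such that for P ≠ 1 the members of f(P) are nontrivial. Let 𝓕 be the family of the normalizers N_G(F) of the members F of f(S) over the Sylow p-subgroups S of G, and 𝓕' the family of the maximal p-local subgroups M of G that are singular for f (the corresponding family of normalizers inside M does not control Sylow p-intersections in M). Then 𝓕 ∪ 𝓕' controls Sylow p-intersections in G. -/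
theorem result {G : Type*} [Group G] [Finite G] (p : ℕ) [Fact p.Prime] (hdiv : p ∣ Nat.card G)
    (f : Subgroup G → Set (Subgroup G)) (hf : Cfsg.IsNormalizerFunctor p f)
    (hf1 : ∀ P : Subgroup G, IsPGroup p ↥P → P ≠ ⊥ → ∀ F ∈ f P, F ≠ ⊥)
    (𝓕 𝓕' : Set (Subgroup G)) (h𝓕 : 𝓕 = Cfsg.functorFamily p f ⊤)
    (h𝓕' : 𝓕' = {M | Cfsg.IsMaximalPLocal p M ∧ ¬ Cfsg.IsFunctorRegular p f M}) :
    Cfsg.ControlsSylowIntersections p (𝓕 ∪ 𝓕') := by
  subst h𝓕 h𝓕'
  set 𝓖 := functorFamily p f ⊤ ∪ {M | IsMaximalPLocal p M ∧ ¬ IsFunctorRegular p f M}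
  suffices H : ∀ D : Subgroup G, D ≠ ⊥ → ∀ S T, Sy[p] S ⊤ → Sy[p] T ⊤ → D ≤ S → D ≤ T →
      Relation.ReflTransGen (Stp p 𝓖 D) S T from
    ctl_top_iff.2 fun S T hS hT _ h => H _ h S T hS hT inf_le_left inf_le_right
  refine ind_up fun D ih hD => ?_
  have IH : ∀ A S T, D < A → Sy[p] S ⊤ → Sy[p] T ⊤ → A ≤ S → A ≤ T →
      Relation.ReflTransGen (Stp p 𝓖 D) S T := fun A S T h a b c d =>
    rtg_mono (fun _ _ h' => h'.mono le_rfl h.le) (ih A h (ne_bot_of_le hD h.le) S T a b c d)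
  have inner : ∀ n, ∀ L P : Subgroup G, IsPLocal p L → Sy[p] P L → Nat.card G - Nat.card P = n →
      ∀ A B S T, A ≤ L → B ≤ L → Sy[p] S ⊤ → Sy[p] T ⊤ → A ≤ S → B ≤ T → D < A → D < B →
      Relation.ReflTransGen (Stp p 𝓖 D) S T := fun n => by
    induction n using Nat.strong_induction_on with | _ n ihn => ?_
    intro L P hL hP hn A B S T hA hB hS hT hAS hBT hDA hDB
    obtain ⟨M, hLM, hM, hmax⟩ := exists_max_of (C := IsPLocal p) hL
    obtain ⟨A', sA, a1⟩ := sy_exists_ge (hA.trans hLM) ((hl_pi hS).of_le hAS)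
    obtain ⟨B', sB, b1⟩ := sy_exists_ge (hB.trans hLM) ((hl_pi hT).of_le hBT)
    obtain ⟨S', sS, s1⟩ := sy_exists_ge le_top (hl_pi sA)
    refine (IH A _ _ hDA hS sS hAS (a1.trans s1)).trans ?_
    by_cases hr : IsFunctorRegular p f M
    swap
    · obtain ⟨m, hm, rfl⟩ := sy_conj sA sB
      have h1 := hl_of_ge sA inf_le_right (hl_pi sS).inf_left (le_inf s1 sA.1)
      refine Relation.ReflTransGen.head ⟨hl_pi sS, M, m, Or.inr ⟨⟨hM, hmax⟩, hr⟩, h1, ?_, hm,
        cj_cj_inv _ _, hDB.le.trans (le_inf (b1.trans (cj_mono m s1)) (hB.trans hLM))⟩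
        (IH B _ _ hDB (hl_cj_top sS m) hT (b1.trans (cj_mono m s1)) hBT)
      simpa only [cj_inf, cj_self hm] using hl_cj h1 m
    have h1 := (regular_iff.1 hr).chain sA sB hD (hDA.le.trans a1) (hDB.le.trans b1)
    by_cases h2 : Sy[p] A' ⊤
    · rw [hl_max h2 le_top (hl_pi sS) s1]
      exact (rtg_mono (fun _ _ h => (h.par hf h2 sA.1).mono Set.subset_union_left le_rfl) h1).trans
        (IH B _ _ hDB (hl_of_card h2 le_top (hl_card_eq sB sA)) hT b1 hBT)
    suffices H : ∀ V, Relation.ReflTransGen (Stp p (functorFamily p f M) D) A' V → D ≤ V ∧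
        ∀ T', Sy[p] T' ⊤ → V ≤ T' → Relation.ReflTransGen (Stp p 𝓖 D) S' T' by
      obtain ⟨T', sT, t1⟩ := sy_exists_ge le_top (hl_pi sB)
      exact ((H _ h1).2 T' sT t1).trans (IH B _ _ hDB sT hT (b1.trans t1) hBT)
    intro V h
    induction h with
    | refl => exact ⟨hDA.le.trans a1, fun T' a b => IH A' _ _ (hDA.trans_le a1) sS a s1 b⟩
    | @tail U V _ h ih2 =>
      obtain ⟨a, X, x, b, c, d, -, -, g⟩ := h
      refine ⟨g.trans inf_le_left, fun T' sT t1 => ?_⟩
      obtain ⟨R, sR, F, hF, rfl⟩ := mem_fam.1 b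
      obtain ⟨f1, f2⟩ := (hf R (sy_pg sR)).1 F hF
      have cR := hl_card_eq sR sA
      have h3 : Nat.card D < Nat.card R := cR ▸ card_lt (hDA.trans_le a1)
      have h4 : R ≠ ⊥ := by
        rintro rfl
        have := card_pos' D
        rw [card_bot] at h3; omega
      have sR' := hl_of_le sR (le_inf sR.1 ((le_norm R).trans f2)) inf_le_left
      have h5 : ∀ W, Sy[p] (W ⊓ (M ⊓ N[F])) (M ⊓ N[F]) → D ≤ W → D < W ⊓ (M ⊓ N[F]) :=
        fun W h h' => (le_inf h' (g.trans inf_le_right)).lt_of_ne fun e => by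
          rw [← hl_card_eq h sR', ← e] at h3; exact h3.false
      obtain ⟨T0, s0, t0⟩ := sy_exists_ge le_top a
      obtain ⟨P', sP, p1⟩ := sy_exists_ge ((le_norm R).trans f2) (hl_pi sR)
      have h6 : Nat.card R < Nat.card P' := card_lt (p1.lt_of_ne fun e => h2 (hl_of_card
        (sy_of_norm_le (e ▸ sP) le_top (inf_le_right.trans f2)) le_top cR.symm))
      have h7 : Nat.card P ≤ Nat.card R := sR.card_le (hl_pi hP) (hP.1.trans hLM)
      have h8 := P'.card_le_card_group
      exact (ih2.2 T0 s0 t0).trans (ihn _ (by omega) N[F] P' ⟨F, ((hl_pi sR).of_le f1).isPGroup,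
        hf1 R (sy_pg sR) h4 F hF, rfl⟩ sP rfl _ _ _ _ (inf_le_right.trans inf_le_right)
        (inf_le_right.trans inf_le_right) s0 sT (inf_le_left.trans t0) (inf_le_left.trans t1)
        (h5 U c ih2.1) (h5 V d (g.trans inf_le_left)))
  intro S T hS hT h1 h2
  rcases h1.eq_or_lt with rfl | h1
  · rw [hl_eq_of_le hS hT h2]
  rcases h2.eq_or_lt with rfl | h2
  · rw [hl_eq_of_le hT hS h1.le]
  obtain ⟨P, hP⟩ := sy_exists p N[D]
  exact inner _ _ P ⟨D, ((hl_pi hS).of_le h1.le).isPGroup, hD, rfl⟩ hP rfl _ _ _ _ inf_le_right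
    inf_le_right hS hT inf_le_left inf_le_left (lt_sy_norm hS h1) (lt_sy_norm hT h2)

end Cfsg.Agent.S2956
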