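import Cfsg.Statements.S2957
import Cfsg.Agent.H11.Chain
import Cfsg.Agent.S2940

set_option autoImplicit false
open Cfsg

namespace Cfsg.Agent.S2957

open Subgroup H16 H16.H11
open H1 hiding card_inf_mul_relIndex card_mul_relIndex card_sup_dvd isPiHallOf_map_subtype isPiHallOf_top
open H15 hiding card_cj cent_anti cent_bot cent_comm cent_le_cent1 cent_le_norm cent_sup cent_zpowers cj_bot cj_cent cj_cj_inv cj_comm cj_eq_bot cj_eq_iff cj_eq_top cj_inf cj_inj cj_inv_cj cj_le_cj cj_le_iff cj_le_of_mem cj_lt_cj cj_mono cj_norm cj_one cj_sup cj_top comm_le_inf comm_le_left comm_le_right comm_of_cyclic comm_of_le comm_sup le_cj_iff mem_cent mem_cent1 mem_cj mem_norm_of_cj_le norm_bot norm_top relIndex_cj relIndex_dvd_of_le_right relIndex_pos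
open scoped commutatorElement


/-- Let p be a prime dividing the order of the finite group G, f an equivariant assignment of a set of subgroups f(P) of P to every p-subgroup P, each normalized by N_G(P), and S a Sylow p-subgroup. If G = G₁G₂ for subgroups G₁, G₂ both containing S and both regular for f (in each Gᵢ, the family of normalizers in Gᵢ of the members of f(P), P a Sylow p-subgroup of Gᵢ, controls Sylow p-intersections), then G itself is regular for f. -/
theorem result {G : Type*} [Group G] [Finite G] (p : ℕ) [Fact p.Prime] (hdiv : p ∣ Nat.card G)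
    (f : Subgroup G → Set (Subgroup G)) (hf : Cfsg.IsNormalizerFunctor p f) (S : Sylow p G)
    (G₁ G₂ : Subgroup G) (h₁ : (S : Subgroup G) ≤ G₁) (h₂ : (S : Subgroup G) ≤ G₂)
    (hprod : ∀ g : G, ∃ g₁ ∈ G₁, ∃ g₂ ∈ G₂, g = g₁ * g₂)
    (hr₁ : Cfsg.IsFunctorRegular p f G₁) (hr₂ : Cfsg.IsFunctorRegular p f G₂) :
    Cfsg.IsFunctorRegular p f ⊤ := by
  have hS := sy_top_of_sylow S
  refine regular_iff.2 fun T V hT hV _ h0 => ?_
  obtain ⟨a, -, rfl⟩ := sy_conj hS hT
  obtain ⟨c, -, rfl⟩ := sy_conj hS hV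
  obtain ⟨U, h3, h4⟩ := S2940.result S G₁ G₂ h₁ h₂ hprod (c⁻¹ * a)
  have e : ∀ X : Subgroup G, (subgroupConjRight (c⁻¹ * a) X) :^ a = X :^ c := fun X => by
    change (X :^ (c⁻¹ * a)⁻¹) :^ a = _
    rw [cj_cj]; congr 3; group
  have h5 := cj_mono a h3
  have h6 := cj_mono a h4
  rw [cj_inf, e] at h5 h6
  have hU := hl_cj_top (sy_top_of_sylow U) a
  have key : ∀ M A B : Subgroup G, IsFunctorRegular p f M → Sy[p] A ⊤ → Sy[p] B ⊤ → A ≤ M → B ≤ M →
      ∀ D, D ≠ ⊥ → D ≤ A → D ≤ B → Relation.ReflTransGen (Stp p (functorFamily p f ⊤) D) A B :=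
    fun M A B h hA hB a b D c d e => rtg_mono (fun _ _ h => h.par hf hA a)
      ((regular_iff.1 h).chain (hl_of_le hA a le_top) (hl_of_le hB b le_top) c d e)
  exact (key _ _ _ (regular_cj hf hr₁ a) hT hU (cj_mono a h₁) (h6.trans inf_le_left) _ h0
    inf_le_left h5).trans (key _ _ _ (regular_cj hf hr₂ c) hU hV (h6.trans inf_le_right)
    (cj_mono c h₂) _ h0 h5 inf_le_right)

end Cfsg.Agent.S2957
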