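import Cfsg.Statements.S2958
import Cfsg.Agent.H11.BGLib

set_option autoImplicit false
open Cfsg

namespace Cfsg.Agent.S2958

open Subgroup H16 H16.H11
open H1 hiding card_inf_mul_relIndex card_mul_relIndex card_sup_dvd isPiHallOf_map_subtype isPiHallOf_top
open H15 hiding card_cj cent_anti cent_bot cent_comm cent_le_cent1 cent_le_norm cent_sup cent_zpowers cj_bot cj_cent cj_cj_inv cj_comm cj_eq_bot cj_eq_iff cj_eq_top cj_inf cj_inj cj_inv_cj cj_le_cj cj_le_iff cj_le_of_mem cj_lt_cj cj_mono cj_norm cj_one cj_sup cj_top comm_le_inf comm_le_left comm_le_right comm_of_cyclic comm_of_le comm_sup le_cj_iff mem_cent mem_cent1 mem_cj mem_norm_of_cj_le norm_bot norm_top relIndex_cj relIndex_dvd_of_le_right relIndex_pos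
open scoped commutatorElement


/-- Let X, A, B be subgroups of a group G such that G is generated by the conjugates of X and every conjugate of X is contained in A or in B. Then A = G or B = G. -/
theorem result {G : Type*} [Group G] (X A B : Subgroup G) (hgen : (⨆ g : G, X.map (MulAut.conj g).toMonoidHom) = ⊤) (hcover : ∀ g : G, X.map (MulAut.conj g).toMonoidHom ≤ A ∨ X.map (MulAut.conj g).toMonoidHom ≤ B) : A = ⊤ ∨ B = ⊤ := by
  by_contra h
  obtain ⟨hA, hB⟩ := not_or.1 h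
  obtain ⟨g, hg⟩ : ∃ g : G, ¬ X :^ g ≤ A := by
    by_contra h1
    exact hA (eq_top_iff.2 (hgen.ge.trans (iSup_le fun g => not_not.1 fun h2 => h1 ⟨g, h2⟩)))
  let B0 : Subgroup G := ⨆ k : {k : G // ¬ X :^ k ≤ A}, X :^ k.1
  have h1 : B0 ≤ B := iSup_le fun k => (hcover k.1).resolve_left k.2
  have h2 : ∀ a ∈ A, ∀ k : G, ¬ X :^ k ≤ A → ¬ X :^ (a * k) ≤ A := fun a ha k hk h =>
    hk (by rwa [← cj_cj, cj_le_iff, cj_self (inv_mem ha)] at h)
  have h3 : A ≤ N[B0] := le_norm_iff_cj.2 fun a ha => by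
    rw [Subgroup.map_iSup]
    refine iSup_le fun k => ?_
    rw [cj_cj]
    exact le_iSup (fun k : {k : G // ¬ X :^ k ≤ A} => X :^ k.1) ⟨_, h2 a ha _ k.2⟩
  have h4 : B0 ⊔ A = ⊤ := eq_top_iff.2 (hgen.ge.trans (iSup_le fun k => by
    by_cases h : X :^ k ≤ A
    · exact le_sup_of_le_right h
    · exact le_sup_of_le_left (le_iSup (fun k : {k : G // ¬ X :^ k ≤ A} => X :^ k.1) ⟨k, h⟩)))
  refine hB (eq_top_iff.2 (hgen.ge.trans (iSup_le fun k => ?_)))
  obtain ⟨b, hb, a, ha, e⟩ := (mem_sup_l h3).1 (h4 ▸ mem_top (k * g⁻¹))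
  rw [show k = b * (a * g) by rw [← mul_assoc, e, inv_mul_cancel_right], ← cj_cj]
  exact cj_le_of_mem (h1 hb) ((hcover _).resolve_left (h2 a ha g hg))

end Cfsg.Agent.S2958
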