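import Cfsg.Statements.S2961
import Cfsg.Agent.H11.CharP

set_option autoImplicit false
open Cfsg

namespace Cfsg.Agent.S2961

/-- Let G be a finite group of characteristic p (C_G(O_p(G)) ≤ O_p(G)), p prime, T a Sylow p-subgroup of G and Q a normal subgroup of T with C_T(Q) ≤ Q. Then every subgroup L of G containing Q has characteristic p: C_L(O_p(L)) ≤ O_p(L). -/
theorem result {G : Type*} [Group G] [Finite G] {p : ℕ} [Fact p.Prime] (hG : Subgroup.centralizer (Cfsg.pCore p G : Set G) ≤ Cfsg.pCore p G) (T : Sylow p G) (Q : Subgroup G) (hQT : Q ≤ (T : Subgroup G)) (hQn : (T : Subgroup G) ≤ Subgroup.normalizer (Q : Set G)) (hC : (T : Subgroup G) ⊓ Subgroup.centralizer (Q : Set G) ≤ Q) (L : Subgroup G) (hQL : Q ≤ L) : Subgroup.centralizer (Cfsg.pCore p ↥L : Set ↥L) ≤ Cfsg.pCore p ↥L := by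
  have hCQ := H11.centralizer_le_of_charP hG T Q hQT hQn hC
  have hQp : IsPGroup p Q := T.isPGroup'.to_le hQT
  have hOT : pCore p G ≤ T := H1.pCore_le_sylow T
  -- `W`: the largest subgroup of `L` normalized by `O_p(G)`
  let W : Subgroup G := ⨅ o : pCore p G, L.map (MulAut.conj (o : G)).toMonoidHom
  have hW : ∀ x, x ∈ W ↔ ∀ o ∈ pCore p G, o⁻¹ * x * o ∈ L := by
    intro x
    simp only [W, Subgroup.mem_iInf, H11.mem_map_conj, Subtype.forall]
  have hWL : W ≤ L := fun x hx => by simpa using (hW x).mp hx 1 (one_mem _)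
  have hQW : Q ≤ W := fun x hx => (hW x).mpr fun o ho =>
    hQL (H11.conj_mem_of_mem_normalizer' (hQn (hOT ho)) hx)
  have hOW : pCore p G ≤ Subgroup.normalizer (W : Set G) := by
    intro a ha
    apply H11.mem_normalizer_of_conj_mem
    intro x hx
    rw [hW] at hx ⊢
    intro o ho
    have := hx (a⁻¹ * o) (mul_mem (inv_mem ha) ho)
    simpa [mul_assoc] using this
  have hLW : L ≤ Subgroup.normalizer (W : Set G) := by
    intro a ha
    apply H11.mem_normalizer_of_conj_mem
    intro x hx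
    rw [hW] at hx ⊢
    intro o ho
    have := hx (a⁻¹ * o * a) (by simpa using (Cfsg.pCore_normal p G).conj_mem o ho a⁻¹)
    have h2 := L.mul_mem (L.mul_mem ha this) (L.inv_mem ha)
    simpa [mul_assoc] using h2
  have hWc : H11.IsCharP p W :=
    (H11.isCharP_top.mpr hG).of_pCoreOf_le_normalizer le_top (by rwa [H11.pCoreOf_top])
  have hOWL : pCoreOf p W ≤ pCoreOf p L := by
    rw [H11.pCoreOf_eq_inf_of_le_normalizer hWL hLW]; exact inf_le_left
  rw [← H11.isCharP_iff]
  apply H11.isCharP_of_forall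
  intro c hc hc' ho
  apply H11.eq_one_of_mem_of_coprime hQp (hCQ _) ho
  apply H11.mem_centralizer_of_commutator_le (H11.isPGroup_pCoreOf L) ho _ hc'
  intro q hq
  apply hOWL
  apply hWc
  refine ⟨W.mul_mem (W.inv_mem (hQW hq)) (H11.conj_mem_of_mem_normalizer (hLW hc) (hQW hq)), ?_⟩
  apply H11.centralizer_anti hOWL
  have h1 : q⁻¹ * c * q ∈ Subgroup.centralizer (pCoreOf p L : Set G) :=
    H11.conj_mem_of_mem_normalizer' (H11.normalizer_le_normalizer_centralizer _
      (H11.le_normalizer_pCoreOf L (hQL hq))) hc'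
  have := mul_mem h1 (inv_mem hc')
  simpa [mul_assoc] using this

end Cfsg.Agent.S2961
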