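import Cfsg.Statements.S2962
import Cfsg.Agent.H6.ZS2
import Cfsg.Agent.S0205

set_option autoImplicit false
open Cfsg
open scoped commutatorElement

namespace Cfsg.Agent.S2962

open Subgroup H6 in
theorem key {G : Type*} [Group G] (N Q : Subgroup G) [hN : N.Normal] (hG : Q ⊔ N = ⊤) (t : G)
    (htZ : t ∈ Q ⊓ centralizer (Q : Set G)) (htQ : t ∈ ⁅Q, Q⁆)
    (hC : N ⊓ centralizer (Q : Set G) = N ⊓ centralizer ({t} : Set G)) (g : G)
    (hg : ∀ q ∈ Q, Commute q (g * t * g⁻¹)) : g * t * g⁻¹ = t := by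
  obtain ⟨n, hn, q, hq, rfl⟩ := (mem_sup_of_normal_left (s := N) (t := Q) (x := g)).1
    (by rw [sup_comm, hG]; exact mem_top _)
  have hqt : ∀ q ∈ Q, Commute q t := fun q hq => (mem_centralizer_iff_commute.1 htZ.2 q hq).symm
  have h0 : n * q * t * (n * q)⁻¹ = n * t * n⁻¹ := by
    calc n * q * t * (n * q)⁻¹ = n * (q * t * q⁻¹) * n⁻¹ := by group
      _ = _ := by rw [conj_eq_iff_commute.2 (hqt q hq)]
  rw [h0] at hg ⊢
  have hC' : ∀ x ∈ N, Commute x t → ∀ q ∈ Q, Commute x q := fun x hx h =>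
    mem_centralizer_iff_commute.1 (mem_inf.1 (hC ▸ mem_inf.2 ⟨hx, mem_cent_iff_commute.2 h⟩ :
      x ∈ N ⊓ centralizer (Q : Set G))).2
  have hdN : ∀ q, (n * q * n⁻¹)⁻¹ * q ∈ N := fun q => by
    have := N.mul_mem hn (hN.conj_mem _ (N.inv_mem hn) q⁻¹)
    simpa [mul_assoc] using this
  have h1 : ∀ q ∈ Q, ∀ r ∈ Q, Commute ((n * q * n⁻¹)⁻¹ * q) (n * r * n⁻¹) := by
    intro q hq r hr
    have h2 : Commute ((n * q * n⁻¹)⁻¹ * q) (n * t * n⁻¹) :=
      ((hqt q hq).conj n).inv_left.mul_left (hg q hq)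
    have h3 := h2.conj n⁻¹
    have h4 := (hC' _ (hN.conj_mem _ (hdN q) n⁻¹) (by simpa [mul_assoc] using h3) r hr).conj n
    simpa [mul_assoc] using h4
  have h2 : ∀ r ∈ Q, Commute t (n * r * n⁻¹) := by
    intro r hr
    have := ((hqt r hr).symm.conj n).mul_left (h1 t htZ.1 r hr)
    rwa [mul_inv_cancel_left] at this
  have h3 : ∀ q ∈ Q, ∀ r ∈ Q, Commute ((n * q * n⁻¹)⁻¹ * q) r := fun q hq =>
    hC' _ (hdN q) ((h2 q hq).symm.inv_left.mul_left (hqt q hq))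
  let f : Q →* G := MonoidHom.mk' (fun q => (n * q * n⁻¹)⁻¹ * q) fun a b => by
    simp only [coe_mul]
    rw [← mul_assoc ((n * a * n⁻¹)⁻¹ * a), (h1 a a.2 b b.2).inv_right.eq]
    group
  have h4 : ⁅Q, Q⁆ ≤ f.ker.map Q.subtype := by
    rw [commutator_le]
    intro a ha b hb
    refine ⟨⁅(⟨a, ha⟩ : Q), ⟨b, hb⟩⁆, ?_, rfl⟩
    rw [SetLike.mem_coe, MonoidHom.mem_ker, map_commutatorElement, commutatorElement_eq_one_iff_commute]
    exact (h1 a ha b hb).inv_right.mul_right (h3 a ha b hb)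
  obtain ⟨x, hx, rfl⟩ := h4 htQ
  exact inv_mul_eq_one.1 (MonoidHom.mem_ker.1 hx)

/-- Let G be a finite group with G = QN, where N is a normal subgroup of G and Q is a non-abelian 2-subgroup with Q ∩ N = 1. Suppose that some nontrivial element t of Z(Q) ∩ [Q, Q] satisfies C_N(Q) = C_N(t). Then [N, Q] is solvable of odd order. -/
theorem result {G : Type*} [Group G] [Finite G] (N Q : Subgroup G) [N.Normal] (hG : Q ⊔ N = ⊤) (hQ : IsPGroup 2 ↥Q) (hQna : ¬ IsMulCommutative ↥Q) (hdisj : Q ⊓ N = ⊥) (t : G) (ht1 : t ≠ 1) (htZ : t ∈ Q ⊓ Subgroup.centralizer (Q : Set G)) (htQ : t ∈ ⁅Q, Q⁆) (hC : N ⊓ Subgroup.centralizer (Q : Set G) = N ⊓ Subgroup.centralizer ({t} : Set G)) : Group.IsSolvable ↥⁅N, Q⁆ ∧ Odd (Nat.card ↥⁅N, Q⁆) := by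
  obtain ⟨R, hR⟩ := hQ.exists_le_sylow
  have hk := key N Q hG t htZ htQ hC
  have hRt : (R : Subgroup G) ≤ Subgroup.centralizer ({t} : Set G) := by
    by_contra h
    have hlt : (R : Subgroup G) ⊓ Subgroup.centralizer ({t} : Set G) < R :=
      lt_of_le_of_ne inf_le_left fun h' => h (h' ▸ inf_le_right)
    obtain ⟨r, hr, hrX, hrN⟩ := H6.exists_mem_normalizer_of_lt R.isPGroup' hlt
    refine hrX ⟨hr, H6.mem_cent_iff_commute.2 (H6.conj_eq_iff_commute.1 (hk r fun q hq => ?_))⟩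
    have h1 := H3.conj_mem_of_mem_normalizer' hrN (Subgroup.mem_inf.2 ⟨hR hq, H6.mem_cent_iff_commute.2
      (H6.mem_centralizer_iff_commute.1 htZ.2 q hq).symm⟩)
    simpa [mul_assoc] using (H6.mem_cent_iff_commute.1 h1.2).conj r
  have hw : H6.WC (R : Subgroup G) t := by
    refine ⟨hR htZ.1, fun g hg => hk g fun q hq => ?_⟩
    obtain ⟨n, hn, q', hq', rfl⟩ := (Subgroup.mem_sup_of_normal_left (s := N) (t := Q) (x := g)).1
      (by rw [sup_comm, hG]; exact Subgroup.mem_top _)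
    have h0 : n * q' * t * (n * q')⁻¹ = (n * (t * n⁻¹ * t⁻¹)) * t := by
      have := H6.conj_eq_iff_commute.2 (H6.mem_centralizer_iff_commute.1 htZ.2 q' hq').symm
      calc n * q' * t * (n * q')⁻¹ = n * (q' * t * q'⁻¹) * n⁻¹ := by group
        _ = _ := by rw [this]; group
    rw [h0] at hg ⊢
    have h1 : n * (t * n⁻¹ * t⁻¹) ∈ N ⊓ Subgroup.centralizer (Q : Set G) := by
      rw [hC]
      refine ⟨N.mul_mem hn (‹N.Normal›.conj_mem _ (N.inv_mem hn) t), hRt ?_⟩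
      exact (Subgroup.mul_mem_cancel_right _ (hR htZ.1)).1 hg
    exact (H6.mem_centralizer_iff_commute.1 h1.2 q hq).symm.mul_right
      (H6.mem_centralizer_iff_commute.1 htZ.2 q hq).symm
  have hON : pPrimeCore 2 G ≤ N := by
    apply H1.le_of_coprime_index
    have h1 : N.index ∣ Nat.card Q := by
      rw [← Subgroup.relIndex_top_right, ← hG, Subgroup.relIndex_sup_right]
      exact Subgroup.relIndex_dvd_card _ _
    exact ((H1.IsPGroup.coprime_card hQ (H1.coprime_card_pPrimeCore 2)).symm).coprime_dvd_right h1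
  obtain ⟨k, hk2⟩ := hQ ⟨t, htZ.1⟩
  have hle : ⁅N, Q⁆ ≤ pPrimeCore 2 G := by
    rw [Subgroup.commutator_le]
    intro n hn q hq
    obtain ⟨o, ho, c, hc, rfl⟩ := H6.exists_core_mul_cent (p := 2) (k := k) (congrArg Subtype.val hk2)
      (H6.zstar2 hw) n
    have h1 : c ∈ N ⊓ Subgroup.centralizer (Q : Set G) := by
      rw [hC]
      exact ⟨(Subgroup.mul_mem_cancel_left _ (hON ho)).1 hn, H6.mem_cent_iff_commute.2 hc⟩
    have h2 := H6.conj_eq_iff_commute.2 (H6.mem_centralizer_iff_commute.1 h1.2 q hq)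
    have h3 : ⁅o * c, q⁆ = o * (q * o⁻¹ * q⁻¹) := by
      calc ⁅o * c, q⁆ = o * (c * q * c⁻¹) * o⁻¹ * q⁻¹ := by rw [commutatorElement_def]; group
        _ = _ := by rw [h2]; group
    rw [h3]
    exact mul_mem ho (Subgroup.Normal.conj_mem inferInstance _ (inv_mem ho) q)
  have hodd : Odd (Nat.card ↥⁅N, Q⁆) :=
    (H6.coprime_two_iff.1 (H1.coprime_card_pPrimeCore 2)).of_dvd_nat (Subgroup.card_dvd_of_le hle)
  exact ⟨Cfsg.Agent.S0205.result hodd, hodd⟩

end Cfsg.Agent.S2962
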