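import Mathlib
import Cfsg.Statements.S2963

set_option autoImplicit false
open Cfsg

namespace Cfsg.Agent.S2963

open Pointwise in
theorem result (n : ℕ) (hn : Odd n) (h : Cfsg.IsPMinimal 2 (Equiv.Perm (Fin n))) : ∃ m : ℕ, n = 2 ^ m + 1 := by
  classical
  obtain ⟨P⟩ : Nonempty (Sylow 2 (Equiv.Perm (Fin n))) := inferInstance
  obtain ⟨hN, M, -, hM⟩ := h P
  have hn3 : 1 < n := by
    by_contra c
    have : Subsingleton (Fin n) := Fin.subsingleton_iff_le_one.2 (by omega)
    exact hN ⟨fun a ha g => by rwa [Subsingleton.elim (g * a * g⁻¹) a]⟩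
  have : Nontrivial (Fin n) := Fin.nontrivial_iff_two_le.2 hn3
  obtain ⟨x, hx⟩ := P.isPGroup'.nonempty_fixed_point_of_prime_not_dvd_card (Fin n)
    (by rw [Nat.card_eq_fintype_card, Fintype.card_fin]; exact hn.not_two_dvd_nat)
  have c1 : IsCoatom (MulAction.stabilizer (Equiv.Perm (Fin n)) x) :=
    MulAction.IsPreprimitive.isCoatom_stabilizer_of_isPreprimitive _ x
  have e1 := hM _ ⟨c1, fun g hg => hx ⟨g, hg⟩⟩
  obtain ⟨y, hy⟩ := exists_ne x
  set T := MulAction.orbit (P : Subgroup (Equiv.Perm (Fin n))) y with hT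
  have xT : x ∉ T := fun ⟨g, hg⟩ => hy (by
    have h1 : g • y = g • x := hg.trans (hx g).symm
    exact smul_left_cancel g h1)
  have yT : y ∈ T := MulAction.mem_orbit_self y
  have ne : MulAction.stabilizer (Equiv.Perm (Fin n)) T ≠ ⊤ := fun e => by
    have : Equiv.swap x y ∈ MulAction.stabilizer (Equiv.Perm (Fin n)) T := e ▸ Subgroup.mem_top _
    have h2 := (MulAction.mem_stabilizer_set.1 this y).2 yT
    simp only [Equiv.Perm.smul_def, Equiv.swap_apply_right] at h2
    exact xT h2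
  obtain ⟨M', c2, l2⟩ := (eq_top_or_exists_le_coatom _).resolve_left ne
  have lP : (P : Subgroup (Equiv.Perm (Fin n))) ≤ MulAction.stabilizer (Equiv.Perm (Fin n)) T :=
    fun g hg => MulAction.smul_orbit (⟨g, hg⟩ : (P : Subgroup (Equiv.Perm (Fin n)))) y
  have e2 := hM _ ⟨c2, lP.trans l2⟩
  have eT : T = {x}ᶜ := by
    ext w
    refine ⟨fun hw e => xT (Set.mem_singleton_iff.1 e ▸ hw), fun hw => by_contra fun hw' => ?_⟩
    have : Equiv.swap x w ∈ MulAction.stabilizer (Equiv.Perm (Fin n)) T := by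
      refine MulAction.mem_stabilizer_set.2 fun b => ?_
      rw [Equiv.Perm.smul_def, Equiv.swap_apply_def]
      split_ifs with h1 h2
      · simp [h1, hw', xT]
      · simp [h2, hw', xT]
      · rfl
    have h3 := l2 this
    rw [e2, ← e1, MulAction.mem_stabilizer_iff, Equiv.Perm.smul_def, Equiv.swap_apply_left] at h3
    exact hw h3
  obtain ⟨m, hm⟩ := P.isPGroup'.card_orbit y
  refine ⟨m, ?_⟩
  rw [← hm, ← hT, eT, Nat.card_coe_set_eq, Set.ncard_compl, Set.ncard_singleton, Nat.card_eq_fintype_card,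
    Fintype.card_fin]
  omega

end Cfsg.Agent.S2963
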