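import Cfsg.Statements.S2984
import Cfsg.Agent.H12.Blk1
import Cfsg.Agent.H10.PMin2

set_option autoImplicit false
open Cfsg

namespace Cfsg.Agent.S2984

open Subgroup H10 H12

/-- Let G be a finite group of characteristic p (C_G(O_p(G)) ≤ O_p(G)), T a Sylow p-subgroup and E a B(T)-block of G, with W_E = [Ω₁(Z(O_p(E))), E]. Then E = O^p(E·O_p(G)), W_E ≤ Ω₁(Z(O_p(G))), and [W_E, J(T)] ≠ 1, where J(T) is generated by the elementary abelian p-subgroups of T of largest order. -/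
theorem result {G : Type*} [Group G] [Finite G] {p : ℕ} [Fact p.Prime] (hG : Subgroup.centralizer (Cfsg.pCore p G : Set G) ≤ Cfsg.pCore p G) (T : Sylow p G) (E : Subgroup G) (hE : Cfsg.IsBaumannBlock p (T : Subgroup G) E) : Cfsg.pResidualOf p (E ⊔ Cfsg.pCore p G) = E ∧ ⁅Cfsg.omegaOneCenter p (Cfsg.pCoreOf p E), E⁆ ≤ Cfsg.omegaOneCenter p (Cfsg.pCore p G) ∧ ⁅⁅Cfsg.omegaOneCenter p (Cfsg.pCoreOf p E), E⁆, Cfsg.thompsonSubgroupOf p (T : Subgroup G)⁆ ≠ ⊥ := by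
  have hT := isSylowIn_top T
  have hc : CharPIn p (⊤ : Subgroup G) := charPIn_top.2 hG
  have hZ := hc.ZO_le hT
  rw [H10.pCoreOf_top] at hZ
  have hQ : IsPGroup p (pCore p G) := H10.isPGroup_pCore'
  have hQE : pCore p G ≤ NN(E) := block_le_NN hT hE hQ (le_NN_of_normal _ _) (le_NN_of_normal _ _)
  have hres : resOf p E = E := hE.1
  have hVn : ∀ L : Subgroup G, L ≤ NN(ZO p (pCore p G)) := fun L =>
    (le_NN_of_normal L _).trans (NN_le_NN_ZO _)
  set V := ⁅ZO p (T : Subgroup G), E⁆ with hV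
  have v1 : V ≤ ZO p (pCore p G) := (commutator_mono hZ le_rfl).trans (comm_le_left (hVn _))
  have v2 : V ≤ E := comm_le_right (hZ.trans ((ZO_le _).trans hQE))
  have v3 : E ≤ NN(V) := right_le_NN_comm _ _
  have v4 : IsPGroup p V := hQ.to_le (v1.trans (ZO_le _))
  have v5 : V ≤ CC(V) := v1.trans ((ZO_le_CC _).trans (CC_anti (v1.trans (ZO_le _))))
  have v6 : V ≤ ZO p (pCoreOf p E) := blk_ab_le hE (le_pCoreOf v4 v2 v3) v3 v5
  have v7 : ¬ V ≤ CC(E) := fun h => hE.2.2.2.1 (by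
    have := resOf_le_CC_of_quadratic (V := ZO p (T : Subgroup G)) (L := E) v4 (comm_eq_bot.2 h)
    rw [hres] at this
    exact comm_eq_bot.2 this)
  have v8 := (blk_irr hE v6 v3).resolve_left v7
  have w1 : ⁅ZO p (pCoreOf p E), E⁆ ≤ V := (commutator_mono v8 le_rfl).trans
    (comm_sup_le (le_NN_self _) ((inf_le_left.trans (ZO_le_CC _)).trans
      ((CC_anti (v6.trans (ZO_le _))).trans (CC_le_NN _))) (comm_le_left v3)
      ((comm_eq_bot.2 inf_le_right).le.trans bot_le))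
  refine ⟨(resOf_sup_pgroup hQ hQE).trans hres, w1.trans v1, fun h => ?_⟩
  change ⁅⁅ZO p (pCoreOf p E), E⁆, _⁆ = ⊥ at h
  have hQT : pCore p G ≤ (T : Subgroup G) := hT.le_of_NN hQ le_top (le_NN_of_normal _ _)
  have a1 : ⁅ZO p (pCoreOf p E), E⁆ ≤ omegaOne p (centerThompsonOf p (T : Subgroup G)) := by
    intro x hx
    have hx1 : x ^ p = 1 := (H4.elemAb_iff.1 (elab_ZO _)).2 x (v1 (w1 hx))
    have hx2 := comm_eq_bot.1 h hx
    exact H4.mem_omegaOne ⟨H4.mem_thompsonOf_of_centralizes (hQT (ZO_le _ (v1 (w1 hx)))) hx1 hx2,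
      hx2⟩ hx1
  have a2 : baumannSubgroupOf p (T : Subgroup G) ≤ CC(⁅ZO p (pCoreOf p E), E⁆) :=
    inf_le_right.trans (CC_anti a1)
  have a3 : E ≤ CC(⁅ZO p (pCoreOf p E), E⁆) :=
    (hE.2.1.symm.le.trans (comm_le_ncl _ _)).trans (ncl_le_CC a2 (right_le_NN_comm _ _))
  have a4 := resOf_le_CC_of_quadratic (V := ZO p (pCoreOf p E)) (L := E) (v4.to_le w1)
    (comm_eq_bot'.2 a3)
  rw [hres] at a4
  exact v7 (v6.trans (le_CC_symm a4))

end Cfsg.Agent.S2984
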