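import Cfsg.Statements.S2998
import Cfsg.Agent.H11.Bar

set_option autoImplicit false
open Cfsg

namespace Cfsg.Agent.S2998

open Subgroup H16 H16.H11
open H1 hiding card_inf_mul_relIndex card_mul_relIndex card_sup_dvd isPiHallOf_map_subtype isPiHallOf_top
open H15 hiding card_cj cent_anti cent_bot cent_comm cent_le_cent1 cent_le_norm cent_sup cent_zpowers cj_bot cj_cent cj_cj_inv cj_comm cj_eq_bot cj_eq_iff cj_eq_top cj_inf cj_inj cj_inv_cj cj_le_cj cj_le_iff cj_le_of_mem cj_lt_cj cj_mono cj_norm cj_one cj_sup cj_top comm_le_inf comm_le_left comm_le_right comm_of_cyclic comm_of_le comm_sup le_cj_iff mem_cent mem_cent1 mem_cj mem_norm_of_cj_le norm_bot norm_top relIndex_cj relIndex_dvd_of_le_right relIndex_pos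
open scoped commutatorElement


/-- Let G be a finite group, p a prime, P a Sylow p-subgroup of G and x ∈ P an element such that N_G(R) ≤ C_G(x) for every nontrivial subgroup R of P. Then P ≤ C_G(x); every G-conjugate of x lying in P equals x (so g ∈ C_G(x) whenever g x g⁻¹ ∈ P); and for every normal subgroup N of G, the image of x in G ⧸ N has the same property with respect to the image of P: the normalizer of every nontrivial subgroup of the image of P centralizes the image of x. -/
theorem result {G : Type*} [Group G] [Finite G] {p : ℕ} [Fact p.Prime] (P : Sylow p G) (x : G) (hxP : x ∈ (P : Subgroup G)) (hlc : ∀ R : Subgroup G, R ≤ (P : Subgroup G) → R ≠ ⊥ → Subgroup.normalizer (R : Set G) ≤ Subgroup.centralizer ({x} : Set G)) : (P : Subgroup G) ≤ Subgroup.centralizer ({x} : Set G) ∧ (∀ g : G, g * x * g⁻¹ ∈ (P : Subgroup G) → g * x * g⁻¹ = x) ∧ ∀ (N : Subgroup G) [N.Normal], ∀ R : Subgroup (G ⧸ N), R ≤ (P : Subgroup G).map (QuotientGroup.mk' N) → R ≠ ⊥ → Subgroup.normalizer (R : Set (G ⧸ N))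 ≤ Subgroup.centralizer ({(QuotientGroup.mk x : G ⧸ N)} : Set (G ⧸ N)) := by
  have hP := sy_top_of_sylow P
  have h1 : (P : Subgroup G) ≤ C1[x] := by
    by_cases h : (P : Subgroup G) = ⊥
    · rw [h]; exact bot_le
    · exact (le_norm _).trans (hlc P le_rfl h)
  refine ⟨h1, fun g hg => ?_, fun N _ R hR h0 => ?_⟩
  · by_cases hx : x = 1
    · simp [hx]
    have h2 : C1[x] :^ g = C1[x] := eq_of_le_of_card (by
      rw [← cent1_cj, ← cent_zpowers]
      exact (cent_le_norm _).trans (hlc _ (zpowers_le.2 hg)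
        (zpowers_ne_bot' fun h => hx (H16.conj_eq_one_iff.1 h)))) (card_cj _ _).ge
    obtain ⟨c, hc, e⟩ := sy_conj (hl_of_le (hl_cj_top hP g) ((cj_mono g h1).trans h2.le) le_top)
      (hl_of_le hP h1 le_top)
    rw [cj_cj, cj_eq_self_iff] at e
    have h3 := (mul_mem_cancel_left hc).1 (hlc P le_rfl (ne_bot_of_mem hxP hx) e)
    rw [mem_cent1.1 h3, mul_inv_cancel_right]
  · let f := QuotientGroup.mk' N
    have hf := QuotientGroup.mk'_surjective N
    have e : N ⊔ (R.comap f ⊓ P) = R.comap f := by
      have h2 : R.comap f ≤ N ⊔ P := by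
        have := comap_mono (f := f) hR
        rwa [comap_map_eq, QuotientGroup.ker_mk', sup_comm] at this
      rw [← modl' ((QuotientGroup.ker_mk' N).ge.trans (ker_le_comap f R))
        (Or.inr le_normalizer_of_normal), inf_of_le_left h2]
    have h3 : Sy[p] (R.comap f ⊓ P) (R.comap f) := by
      refine sy_mk inf_le_left (hl_pi hP).inf_right fun hd => ?_
      nth_rw 2 [← e] at hd
      rw [relIndex_sup_r (Or.inl (le_normalizer_of_normal))] at hd
      have h4 := hl_inf hP (le_top : N ≤ ⊤) (le_normalizer_of_normal)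
      refine sy_not_dvd h4 Fact.out ?_
      rwa [show (P : Subgroup G) ⊓ N =
        (R.comap f ⊓ P) ⊓ N from ?_, inf_relIndex_right]
      refine le_antisymm (le_inf (le_inf (inf_le_right.trans ?_) inf_le_left) inf_le_right)
        (inf_le_inf_right _ inf_le_right)
      rw [← e]; exact le_sup_left
    have h4 : R.comap f ⊓ P ≠ ⊥ := fun h => h0 (by
      rw [← map_comap_eq_self_of_surjective hf R, ← e, h, sup_bot_eq, Subgroup.map_eq_bot_iff,
        QuotientGroup.ker_mk'])
    intro y hy
    obtain ⟨y, rfl⟩ := hf y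
    obtain ⟨k, hk, n, hn, rfl⟩ := sy_frattini h3 (g := y) (le_normalizer_comap f hy)
    rw [← e] at hk
    obtain ⟨a, ha, b, hb, rfl⟩ := (mem_sup_l (le_normalizer_of_normal)).1 hk
    have h5 := mem_cent1.1 (mul_mem (h1 hb.2) (hlc _ inf_le_right h4 hn))
    have h6 : f a = 1 := (QuotientGroup.eq_one_iff a).2 ha
    refine mem_cent1.2 ?_
    change f _ * f x = f x * f _
    rw [mul_assoc, map_mul, h6, one_mul, ← map_mul, h5, map_mul]

end Cfsg.Agent.S2998
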