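import Cfsg.Statements.S3003
import Cfsg.Agent.H11.ZStar
import Cfsg.Agent.S1324

set_option autoImplicit false
open Cfsg

namespace Cfsg.Agent.S3003

open Subgroup H16 H16.H11
open H1 hiding card_inf_mul_relIndex card_mul_relIndex card_sup_dvd isPiHallOf_map_subtype isPiHallOf_top
open H15 hiding card_cj cent_anti cent_bot cent_comm cent_le_cent1 cent_le_norm cent_sup cent_zpowers cj_bot cj_cent cj_cj_inv cj_comm cj_eq_bot cj_eq_iff cj_eq_top cj_inf cj_inj cj_inv_cj cj_le_cj cj_le_iff cj_le_of_mem cj_lt_cj cj_mono cj_norm cj_one cj_sup cj_top comm_le_inf comm_le_left comm_le_right comm_of_cyclic comm_of_le comm_sup le_cj_iff mem_cent mem_cent1 mem_cj mem_norm_of_cj_le norm_bot norm_top relIndex_cj relIndex_dvd_of_le_right relIndex_pos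
open scoped commutatorElement


/-- Let G be a finite group, p a prime and Q a large p-subgroup of G: C_G(Q) ≤ Q and N_G(U) ≤ N_G(Q) for every nontrivial subgroup U of C_G(Q). Let Q ≤ G₁ ≤ G, let R be a subgroup of order prime to p normalized by G₁, and let U ≤ G₁ be a p-subgroup. If U contains a nontrivial element which is G₁-conjugate to an element of Z(Q), then C_R(U) = 1. In particular, if U is elementary abelian of order at least p² and every maximal subgroup of U contains a nontrivial element G₁-conjugate into Z(Q), then R = 1. -/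
theorem result {G : Type*} [Group G] [Finite G] {p : ℕ} [Fact p.Prime] (Q : Subgroup G) (hQp : IsPGroup p ↥Q) (hlarge : Cfsg.IsLarge Q) (G₁ : Subgroup G) (hQG : Q ≤ G₁) (R : Subgroup G) (hR : (Nat.card ↥R).Coprime p) (hGR : G₁ ≤ Subgroup.normalizer (R : Set G)) (U : Subgroup G) (hUG : U ≤ G₁) (hUp : IsPGroup p ↥U) : ((∃ x ∈ U, x ≠ 1 ∧ ∃ g ∈ G₁, g * x * g⁻¹ ∈ Q ⊓ Subgroup.centralizer (Q : Set G)) → R ⊓ Subgroup.centralizer (U : Set G) = ⊥) ∧ (Cfsg.IsElementaryAbelian p U → p ^ 2 ≤ Nat.card ↥U → (∀ U₀ : Subgroup G, U₀ ≤ U → IsCoatom (U₀.subgroupOf U) → ∃ x ∈ U₀, x ≠ 1 ∧ ∃ g ∈ G₁, g * x * g⁻¹ ∈ Q ⊓ Subgroup.centralizer (Q : Set G)) → R = ⊥) := by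
  have hp : p.Prime := Fact.out
  have key : ∀ x : G, x ≠ 1 → (∃ g ∈ G₁, g * x * g⁻¹ ∈ Q ⊓ C[Q]) → R ⊓ C1[x] = ⊥ := by
    rintro x hx ⟨g, hg, h1, h2⟩
    have h3 : C1[g * x * g⁻¹] ≤ N[Q] := by
      rw [← cent_zpowers]
      exact (cent_le_norm _).trans (hlarge.2 _ (zpowers_le.2 h2)
        (zpowers_ne_bot' (mt H16.conj_eq_one_iff.1 hx)))
    have h4 : Q ⊓ R = ⊥ := (pg_iff.2 hQp).inf_eq_bot (isPi_compl_of_coprime hR)
    have h5 : R ⊓ C1[g * x * g⁻¹] ≤ C[Q] := cent_of_inf_bot (inf_le_right.trans h3)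
      (norm_inf (hQG.trans hGR) (norm_cent1 (le_cent1.2 h2)))
      (eq_bot_of_le h4 (le_inf inf_le_right (inf_le_left.trans inf_le_left)))
    rw [← cj_eq_bot (g := g), cj_inf, cj_norm (hGR hg), ← cent1_cj]
    exact eq_bot_of_le h4 (le_inf (h5.trans hlarge.1) inf_le_left)
  refine ⟨fun ⟨x, hx, h1, h2⟩ => eq_bot_of_le (key x h1 h2) (inf_le_inf_left _ (cent_le_cent1 hx)),
    fun h1 h2 h3 => ?_⟩
  rw [S1324.result p U R h1 h2 (hp.coprime_iff_not_dvd.1 hR.symm) (hUG.trans hGR), iSup_eq_bot]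
  rintro ⟨B, b1, b2⟩
  have h4 : ∃ M : Subgroup U, IsCoatom M ∧ M ≤ B.subgroupOf U := by
    rcases eq_top_or_exists_le_coatom (B.subgroupOf U) with h | ⟨M, hM, h⟩
    · rcases eq_top_or_exists_le_coatom (⊥ : Subgroup U) with h' | ⟨M, hM, -⟩
      · have := congrArg (fun X : Subgroup U => Nat.card X) h'
        rw [card_bot, card_top] at this
        have := hp.one_lt
        nlinarith
      · exact ⟨M, hM, h ▸ le_top⟩
    · refine ⟨M, hM, relIndex_eq_one.1 ?_⟩
      obtain ⟨j, hj⟩ := IsPGroup.index hUp M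
      have h5 : p ≤ M.index := hj ▸ Nat.le_self_pow (fun e => hM.1 (index_eq_one.1 (by
        rw [hj, e, pow_zero]))) p
      have h6 := relIndex_mul_index h
      have h7 := relIndex_pos (B.subgroupOf U) M
      change (B.subgroupOf U).index ≤ p at b2
      have := hp.pos
      nlinarith
  obtain ⟨M, hM, h5⟩ := h4
  obtain ⟨x, hx, h6, h7⟩ := h3 (M.map U.subtype) (map_subtype_le M) (by rwa [subgroupOf_map])
  exact eq_bot_of_le (key x h6 h7) (inf_le_inf_left _ (cent_le_cent1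
    (map_le_iff_le_comap.2 h5 hx)))

end Cfsg.Agent.S3003
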