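import Cfsg.Statements.S3008
import Cfsg.Agent.H11.Replace

set_option autoImplicit false
open Cfsg

namespace Cfsg.Agent.S3008

/-- Let P be a finite p-group, with J(P) generated by its abelian subgroups of largest order and J̃(P) = C_P(Z(J(P))); call R ≤ P centrally large if |R|·|Z(R)| is as large as possible, and let P_MCL be generated by the minimal centrally large subgroups. Then: for every centrally large Q, Q·J(P) ⊇ J̃(P); some minimal centrally large subgroup of P is normalized by both J(P) and P_MCL; if P = J(P) and d(P)² = |P|·|Z(P)|, where d(P) is the largest order of an abelian subgroup, then every minimal centrally large subgroup of P is abelian; and if every minimal centrally large subgroup is abelian then J̃(P) = J(P). -/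
theorem result {p : ℕ} [Fact p.Prime] (P : Type*) [Group P] [Finite P] (hP : IsPGroup p P) : (∀ Q : Subgroup P, Cfsg.IsCentrallyLarge Q → Subgroup.centralizer ((Cfsg.thompsonSubgroupA P ⊓ Subgroup.centralizer (Cfsg.thompsonSubgroupA P : Set P) : Subgroup P) : Set P) ≤ Q ⊔ Cfsg.thompsonSubgroupA P) ∧ (∃ Q : Subgroup P, Cfsg.IsMinimalCentrallyLarge Q ∧ Cfsg.thompsonSubgroupA P ≤ Subgroup.normalizer (Q : Set P) ∧ Cfsg.minimalCentrallyLargeJoin P ≤ Subgroup.normalizer (Q : Set P)) ∧ (Cfsg.thompsonSubgroupA P = ⊤ → (∀ A ∈ Cfsg.maxAbelianSubgroups P, Nat.card ↥A ^ 2 = Nat.card P * Nat.card ↥(Subgroup.center P)) → ∀ Q : Subgroup P, Cfsg.IsMinimalCentrallyLarge Q → IsMulCommutative ↥Q) ∧ ((∀ Q : Subgroup P, Cfsg.IsMinimalCentrallyLarge Q → IsMulCommutative ↥Q) → Subgroup.centralizer ((Cfsg.thompsonSubgroupA P ⊓ Subgroup.centralizer (Cfsg.thompsonSubgroupA P : Set P) : Subgroup P) : Set P) = Cfsg.thompsonSubgroupA P) := by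
  refine ⟨fun Q hQ => H11.jtilde_le hQ, ?_, ?_, ?_⟩
  · have := hP.isNilpotent
    obtain ⟨Q, hQ, h⟩ := H11.exists_mcl_normalized (G := P)
    refine ⟨Q, hQ, sSup_le fun A hA => h A hA.1 (H11.cl_cent_inf_maxAbelian hQ.1 hA).2,
      sSup_le fun R hR => ?_⟩
    obtain ⟨q1, q2⟩ := H11.cl_iff.mp hQ.1
    obtain ⟨r1, r2⟩ := H11.cl_iff.mp hR.1
    rw [← (H11.mcl_eq hR hQ.1).1]
    refine sup_le (inf_le_right.trans Subgroup.le_normalizer) (h _ ?_ (H11.cd_pair q1 r1).2.2.2.1)
    have := H11.isMulCommutative_center' R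
    rwa [inf_eq_right.mpr r2] at this
  · intro hJ hd Q hQ
    have h1 := H11.cl_sup_thompsonA hQ.1
    rw [hJ, sup_top_eq, H11.isCentrallyLarge_iff_card, top_inf_eq, Subgroup.card_top, Subgroup.coe_top,
      Subgroup.centralizer_univ] at h1
    obtain ⟨A, hA⟩ := H11.exists_maxAbelian (G := P)
    have h2 : IsCentrallyLarge A := by
      rw [H11.isCentrallyLarge_iff_card, H11.centralizer_eq_of_maxAbelian hA, inf_idem, ← h1, ← hd A hA, sq]
    obtain ⟨R, hR, hRA⟩ := H11.exists_mcl_le h2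
    exact ((H11.mcl_iff_maxAbelian hR (H11.isMulCommutative_of_le hA.1 hRA) Q).mp hQ).1
  · intro h
    obtain ⟨Q, hQ⟩ := H11.exists_isCentrallyLarge (G := P)
    obtain ⟨R, hR, -⟩ := H11.exists_mcl_le hQ
    have hR' := (H11.mcl_iff_maxAbelian hR (h R hR) R).mp hR
    apply le_antisymm
    · exact (H11.jtilde_le hR.1).trans (sup_le (le_sSup hR') le_rfl)
    · exact Subgroup.le_centralizer_iff.mp inf_le_right

end Cfsg.Agent.S3008
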