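import Cfsg.Statements.S3013
import Cfsg.Agent.H11.Bar

set_option autoImplicit false
open Cfsg

namespace Cfsg.Agent.S3013

open Subgroup H16 H16.H11
open H1 hiding card_inf_mul_relIndex card_mul_relIndex card_sup_dvd isPiHallOf_map_subtype isPiHallOf_top
open H15 hiding card_cj cent_anti cent_bot cent_comm cent_le_cent1 cent_le_norm cent_sup cent_zpowers cj_bot cj_cent cj_cj_inv cj_comm cj_eq_bot cj_eq_iff cj_eq_top cj_inf cj_inj cj_inv_cj cj_le_cj cj_le_iff cj_le_of_mem cj_lt_cj cj_mono cj_norm cj_one cj_sup cj_top comm_le_inf comm_le_left comm_le_right comm_of_cyclic comm_of_le comm_sup le_cj_iff mem_cent mem_cent1 mem_cj mem_norm_of_cj_le norm_bot norm_top relIndex_cj relIndex_dvd_of_le_right relIndex_pos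
open scoped commutatorElement


/-- Let G be a finite group and V a nontrivial elementary abelian 2-subgroup of G satisfying the Sidki pair condition. Let v ∈ V and let x be an element of odd order inverted by v, and put C = C_G(v) ∩ C_G(x), the centralizer of the dihedral subgroup generated by v and x. Then C ∩ V is nontrivial and satisfies the Sidki pair condition inside C: every odd-order element of C inverted by an element of C ∩ V commutes with a nontrivial element of C ∩ V. -/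
theorem result {G : Type*} [Group G] [Finite G] (V : Subgroup G) (hV : Cfsg.IsElementaryAbelian 2 V) (hV1 : V ≠ ⊥) (hS : Cfsg.IsSidkiPair V) (v x : G) (hv : v ∈ V) (hx : Odd (orderOf x)) (hinv : v * x * v⁻¹ = x⁻¹) (C : Subgroup G) (hC : C = Subgroup.centralizer ({v} : Set G) ⊓ Subgroup.centralizer ({x} : Set G)) : C ⊓ V ≠ ⊥ ∧ Cfsg.IsSidkiPair ((C ⊓ V).subgroupOf C) := by
  subst hC
  have cm : ∀ a ∈ V, ∀ b ∈ V, a * b = b * a := fun a ha b hb =>
    mem_cent.1 (comm_iff.1 hV.1 hb) a ha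
  obtain ⟨w, hw, h1, h2⟩ := hS x v hv hx hinv
  refine ⟨ne_bot_of_mem ⟨⟨mem_cent1.2 (cm w hw v hv), mem_cent1.2 h2⟩, hw⟩ h1, ?_⟩
  rintro ⟨h, hh⟩ ⟨u, hu⟩ hu' ho hi
  replace ho : Odd (orderOf h) := by rwa [← orderOf_coe] at ho
  have hi' : u * h * u⁻¹ = h⁻¹ := congrArg Subtype.val hi
  have c1 : Commute h x := mem_cent1.1 hh.2
  have c2 : v * h = h * v := (mem_cent1.1 hh.1).symm
  have c3 : Commute u x := mem_cent1.1 hu.2
  obtain ⟨w, hw, h1, h2⟩ := hS (h * x) (u * v) (mul_mem hu'.2 hv)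
    ((ho.mul hx).of_dvd_nat c1.orderOf_mul_dvd_mul_orderOf) (by
      calc u * v * (h * x) * (u * v)⁻¹ = u * (v * h) * v⁻¹ * (v * x * v⁻¹) * u⁻¹ := by group
        _ = u * h * u⁻¹ * (u * x⁻¹ * u⁻¹) := by rw [hinv, c2]; group
        _ = (h * x)⁻¹ := by rw [hi', c3.inv_right.eq, c1.eq]; group)
  have h3 : h * x ∈ C1[w] := mem_cent1.2 h2.symm
  have h4 : h * x⁻¹ ∈ C1[w] := by
    have := conj_mem (norm_of_le le_rfl (mem_cent1.2 (cm v hv w hw) : v ∈ C1[w])) h3
    rwa [show v * (h * x) * v⁻¹ = (v * h) * v⁻¹ * (v * x * v⁻¹) by group, hinv, c2,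
      mul_inv_cancel_right] at this
  have h5 : h ∈ C1[w] := by
    have h6 := mul_mem h3 h4
    rw [mul_assoc, ← mul_assoc x, ← c1.eq, mul_inv_cancel_right, ← sq] at h6
    obtain ⟨k, hk⟩ := ho
    have := pow_mem h6 (k + 1)
    rwa [← pow_mul, show 2 * (k + 1) = orderOf h + 1 by omega, pow_succ, pow_orderOf_eq_one,
      one_mul] at this
  have h7 : w ∈ C1[v] ⊓ C1[x] := ⟨mem_cent1.2 (cm w hw v hv),
    cent1_comm.1 ((mul_mem_cancel_left h5).1 h3)⟩
  exact ⟨⟨w, h7⟩, ⟨h7, hw⟩, fun e => h1 (congrArg Subtype.val e),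
    Subtype.ext (mem_cent1.1 h5).symm⟩

end Cfsg.Agent.S3013
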