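import Cfsg.Statements.S3014
import Cfsg.Agent.H11.FW

set_option autoImplicit false
open Cfsg

namespace Cfsg.Agent.S3014

open Subgroup H16 H16.H11
open H1 hiding card_inf_mul_relIndex card_mul_relIndex card_sup_dvd isPiHallOf_map_subtype isPiHallOf_top
open H15 hiding card_cj cent_anti cent_bot cent_comm cent_le_cent1 cent_le_norm cent_sup cent_zpowers cj_bot cj_cent cj_cj_inv cj_comm cj_eq_bot cj_eq_iff cj_eq_top cj_inf cj_inj cj_inv_cj cj_le_cj cj_le_iff cj_le_of_mem cj_lt_cj cj_mono cj_norm cj_one cj_sup cj_top comm_le_inf comm_le_left comm_le_right comm_of_cyclic comm_of_le comm_sup le_cj_iff mem_cent mem_cent1 mem_cj mem_norm_of_cj_le norm_bot norm_top relIndex_cj relIndex_dvd_of_le_right relIndex_pos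
open scoped commutatorElement


/-- Let G be a finite group and H ≤ M ≤ G subgroups such that for every g ∈ G the subgroup generated by H and g H g⁻¹ meets M exactly in H. If H is a maximal subgroup of M and M is a maximal subgroup of G, then the normal closure of H in G meets M exactly in H. -/
theorem result {G : Type*} [Group G] [Finite G] (H M : Subgroup G) (hHM : H ≤ M) (hcl : ∀ g : G, (H ⊔ H.map (MulAut.conj g).toMonoidHom) ⊓ M = H) (hmaxH : IsCoatom (H.subgroupOf M)) (hmaxM : IsCoatom M) : Subgroup.normalClosure (H : Set G) ⊓ M = H := by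
  have hn : M ≤ N[H] := le_norm_iff_cj.2 fun g hg =>
    (le_inf le_sup_right (cj_le_of_mem hg hHM)).trans (hcl g).le
  have hm := max_of_coatom hmaxH
  suffices h : ∃ K : Subgroup G, K.Normal ∧ K ⊓ M = H by
    obtain ⟨K, _, h⟩ := h
    exact le_antisymm ((inf_le_inf_right M (normalClosure_le_normal
      (h.ge.trans inf_le_left))).trans h.le) (le_inf le_normalClosure hHM)
  by_cases h : ∀ g ∉ M, M ⊓ M :^ g ≤ H
  · obtain ⟨K, a, -, b⟩ := fw_normal (der_le_of_max hn hHM hm) hHM h
    exact ⟨K, a, b⟩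
  push Not at h
  obtain ⟨g, hg, h⟩ := h
  have h1 : M ≤ N[H ⊔ H :^ g] := by
    rcases hm (H ⊔ M ⊓ M :^ g) le_sup_left (sup_le hHM inf_le_left) with e | e
    · exact (h (le_sup_right.trans e.le)).elim
    · exact e.ge.trans (sup_le (norm_of_le le_sup_left) (norm_sup (inf_le_left.trans hn)
        (inf_le_right.trans (norm_cj_le hn g))))
  rcases hmaxM.le_iff.1 h1 with e | e
  · exact ⟨_, normal_of_top e.ge, hcl g⟩
  · have h2 : H ⊔ H :^ g = H := by rw [← inf_of_le_left ((le_norm _).trans e.le), hcl g]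
    exact (hg (e.le (h2.symm ▸ mem_norm_of_cj_le (le_sup_right.trans h2.le)))).elim

end Cfsg.Agent.S3014
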