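import Cfsg.Statements.S3015
import Cfsg.Agent.H11.FW
import Cfsg.Agent.H10.Cores

set_option autoImplicit false
open Cfsg

namespace Cfsg.Agent.S3015

open Subgroup H16 H16.H11
open H1 hiding card_inf_mul_relIndex card_mul_relIndex card_sup_dvd isPiHallOf_map_subtype isPiHallOf_top
open H15 hiding card_cj cent_anti cent_bot cent_comm cent_le_cent1 cent_le_norm cent_sup cent_zpowers cj_bot cj_cent cj_cj_inv cj_comm cj_eq_bot cj_eq_iff cj_eq_top cj_inf cj_inj cj_inv_cj cj_le_cj cj_le_iff cj_le_of_mem cj_lt_cj cj_mono cj_norm cj_one cj_sup cj_top comm_le_inf comm_le_left comm_le_right comm_of_cyclic comm_of_le comm_sup le_cj_iff mem_cent mem_cent1 mem_cj mem_norm_of_cj_le norm_bot norm_top relIndex_cj relIndex_dvd_of_le_right relIndex_pos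
open scoped commutatorElement


/-- Let G be a finite non-abelian simple group, M a maximal subgroup of G and H a normal subgroup of M of prime index in M. Then G is generated by H together with one of its conjugates. -/
theorem result {G : Type*} [Group G] [Finite G] [IsSimpleGroup G] (hG : ¬ IsMulCommutative G) (M H : Subgroup G) (hmaxM : IsCoatom M) (hHM : H ≤ M) (hHn : (H.subgroupOf M).Normal) (hidx : (H.relIndex M).Prime) : ∃ g : G, H ⊔ H.map (MulAut.conj g).toMonoidHom = ⊤ := by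
  by_contra! hc
  have hn : M ≤ N[H] := (normal_subgroupOf_iff_le_normalizer hHM).1 hHn
  have hm := max_of_prime hidx
  have sim : ∀ X : Subgroup G, ⊤ ≤ N[X] → X ≠ ⊤ → X = ⊥ := fun X h h' =>
    ((normal_of_top h).eq_bot_or_eq_top).resolve_right h'
  have hlt : ¬ M ≤ H := fun h => hidx.ne_one (relIndex_eq_one.2 h)
  have nM : ∀ g, M :^ g ≤ M → g ∈ M := fun g h => by
    rcases hmaxM.le_iff.1 (le_norm M) with e | e
    · exact (hlt ((sim M e.ge hmaxM.1).le.trans bot_le)).elim
    · exact e.le (mem_norm_of_cj_le h)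
  suffices h : ∀ g ∉ M, M ⊓ M :^ g ≤ H by
    obtain ⟨K, _, a, b⟩ := fw_normal (der_le_of_max hn hHM hm) hHM h
    rcases ‹K.Normal›.eq_bot_or_eq_top with rfl | rfl
    · exact hG (isMulCommutative_iff.2 fun x y => mem_cent.1
        (comm_iff.1 (der_eq_bot.1 (le_bot_iff.1 a)) (mem_top y)) x trivial)
    · exact hlt ((top_inf_eq M).ge.trans b.le)
  intro g hg
  by_contra h
  have h0 : H ⊔ M ⊓ M :^ g = M := (hm _ le_sup_left (sup_le hHM inf_le_left)).resolve_left
    fun e => h (le_sup_right.trans e.le)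
  have h1 : M ≤ N[H ⊔ H :^ g] := h0.ge.trans (sup_le (norm_of_le le_sup_left)
    (norm_sup (inf_le_left.trans hn) (inf_le_right.trans (norm_cj_le hn g))))
  have h2 : H ≠ ⊥ := by
    rintro rfl
    rw [bot_sup_eq, inf_eq_left] at h0
    exact hg (nM g (eq_of_le_of_card h0 (card_cj M g).le).ge)
  have h3 : N[H] = M := (hmaxM.le_iff.1 hn).resolve_left fun e =>
    h2 (sim H e.ge fun e => hlt (e ▸ le_top))
  have h4 : H :^ g ≤ M := le_sup_right.trans ((le_norm _).trans ((hmaxM.le_iff.1 h1).resolve_left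
    fun e => h2 (eq_bot_of_le (sim _ e.ge (hc g)) le_sup_left)).le)
  obtain ⟨p, hp⟩ : ∃ p, H.relIndex M = p := ⟨_, rfl⟩
  haveI : Fact p.Prime := ⟨hp ▸ hidx⟩
  have h5 : H10.resOf p M ≤ H := H10.resOf_le_of_pow fun x hx => ⟨1, by
    have := (H.subgroupOf M).pow_index_mem ⟨x, hx⟩
    rwa [show (H.subgroupOf M).index = p from hp, ← pow_one p] at this⟩
  have h6 : g ∈ N[H10.resOf p M] := mem_norm_of_cj_le (by
    have := H10.resOf_mono (p := p) h4
    rwa [← show _ = H10.resOf p (H :^ g) from H10.cj_resOf g H, H10.resOf_eq_of_le h5 hHM] at this)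
  have h7 : Pg[p] M := pg_iff.2 (H10.isPGroup_of_resOf_eq_bot (sim _ (((hmaxM.le_iff.1
    (H10.le_NN_resOf M)).resolve_right fun e => hg (e.le h6)).ge) fun e => hlt (le_top.trans
      (e.ge.trans h5))))
  have h8 := pg_lt_norm h7 (h4.lt_of_ne fun e => hlt (eq_of_le_of_card hHM (by
    rw [← e, card_cj])).ge)
  rw [norm_cj, h3, ← cj_inv_cj (M ⊓ M :^ g) g, cj_lt_cj] at h8
  have h9 := (hm _ h8.le (cj_le_iff.2 (by rw [inv_inv]; exact inf_le_right))).resolve_left h8.ne'
  exact hg (nM g (le_cj_iff.1 (h9.ge.trans (cj_mono _ inf_le_left)) |>.trans' (by rw [inv_inv])))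

end Cfsg.Agent.S3015
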