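import Cfsg.Statements.S3017
import Cfsg.Agent.H7.ExtCl

set_option autoImplicit false
open Cfsg

namespace Cfsg.Agent.S3017

open Subgroup H7

theorem xp_of {G : Type*} [Group G] [Finite G] (H : Subgroup G) (hH2 : IsPGroup 2 H)
    (hHab : IsMulCommutative H) (hcl : Cfsg.IsExtremelyClosed H) : XP H := by
  haveI : Fact (Nat.Prime 2) := ⟨Nat.prime_two⟩
  intro g
  have h := hcl g
  have hg : ∀ x ∈ H, g * x * g⁻¹ ∈ H ⊔ H.map (MulAut.conj g).toMonoidHom :=
    fun x hx => mem_sup_right (conj_mem_cj hx)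
  have hHK : H ≤ H ⊔ H.map (MulAut.conj g).toMonoidHom := le_sup_left
  generalize H ⊔ H.map (MulAut.conj g).toMonoidHom = K at h hg hHK
  have hS : H10.IsSylowIn 2 H K := by
    refine ⟨hHK, hH2, fun Q hQ h1 h2 => ?_⟩
    by_contra hne
    have := lt_normalizer_inf hQ (lt_of_le_of_ne h1 (Ne.symm hne))
    exact this.not_ge (fun x hx => h ▸ ⟨h2 hx.2, hx.1⟩)
  have hP : normalizer ((hS.toSylow : Subgroup K) : Set K) ≤
      centralizer ((hS.toSylow : Subgroup K) : Set K) := by
    intro x hx y hy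
    have : (x : G) ∈ H := h ▸ ⟨x.2, mem_normalizer_of_finite fun z hz =>
      conj_mem_of_mem_normalizer (x := ⟨z, hHK hz⟩) hx hz⟩
    exact Subtype.ext (H1.isMulCommutative_iff'.1 hHab y hy x this)
  have hc := MonoidHom.ker_transferSylow_isComplement' hS.toSylow hP
  set N := (MonoidHom.transferSylow hS.toSylow hP).ker with hN
  refine ⟨N.map K.subtype, ?_, ?_, fun x hx => ?_⟩
  · rw [card_map_of_injective (subtype_injective _), ← hc.index_eq_card]
    exact Nat.odd_iff.2 (Nat.two_dvd_ne_zero.1 hS.toSylow.not_dvd_index)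
  · intro x hx
    apply mem_normalizer_of_finite
    rintro _ ⟨y, hy, rfl⟩
    exact ⟨_, Normal.conj_mem inferInstance y hy ⟨x, hHK hx⟩, rfl⟩
  · obtain ⟨⟨c, n⟩, e, -⟩ := hc.symm.existsUnique ⟨_, hg x hx⟩
    refine ⟨(c : K)⁻¹, inv_mem c.2, n, n.2, ?_⟩
    have := congrArg Subtype.val e
    simp only [coe_mul] at this
    rw [← this]; simp

/-- Let G be a finite group and H an abelian 2-subgroup of G that is extremely closed (for every g, the subgroup generated by H and g H g⁻¹ meets N_G(H) exactly in H). Then G = N_G(H) O(G), where O(G) is the largest normal subgroup of odd order. For H of order 2 this is Glauberman's Z*-statement. -/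
theorem result {G : Type*} [Group G] [Finite G] (H : Subgroup G) (hH2 : IsPGroup 2 H) (hHab : IsMulCommutative H) (hcl : Cfsg.IsExtremelyClosed H) : Subgroup.normalizer (H : Set G) ⊔ Cfsg.oddCore G = ⊤ := by
  haveI : Fact (Nat.Prime 2) := ⟨Nat.prime_two⟩
  have hP := xp_of H hH2 hHab hcl
  have hO : Odd (Nat.card (pPrimeCore 2 G)) := Nat.coprime_two_right.1 (H1.coprime_card_pPrimeCore 2)
  have hS : H10.IsSylowIn 2 H (H ⊔ pPrimeCore 2 G) := by
    refine ⟨le_sup_left, hH2, fun Q hQ hAQ hQ' => le_antisymm (fun q hq => ?_) hAQ⟩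
    obtain ⟨x, hx, n, hn, rfl⟩ := (mem_sup_of_normal_right).1 (hQ' hq)
    have := eq_one_of_odd_of_two hQ ((mul_mem_cancel_left (hAQ hx)).1 hq) (odd_orderOf_of_mem hO hn)
    rw [this, mul_one]; exact hx
  rw [eq_top_iff]
  intro g _
  obtain ⟨x, hx, h⟩ := hS.exists_cj_le (isPGroup_cj hH2 g) (cj_le_iff.2 fun h hh => by
    obtain ⟨c, hc, h1⟩ := hP.exists_mul_mem hH2 hHab g h hh
    exact (mul_mem_cancel_left (mem_sup_left hc)).1 (mem_sup_right h1))
  have h1 : x * g ∈ normalizer (H : Set G) := mem_normalizer_of_finite fun y hy => by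
    have := h (conj_mem_cj (g := x) (conj_mem_cj (g := g) hy))
    simpa [mul_assoc] using this
  have h2 : x ∈ normalizer (H : Set G) ⊔ oddCore G := sup_le_sup_right le_normalizer _ hx
  exact (mul_mem_cancel_left h2).1 (mem_sup_left h1)

end Cfsg.Agent.S3017
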