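import Cfsg.Statements.S3021
import Cfsg.Agent.H11.BGLib

set_option autoImplicit false
open Cfsg

namespace Cfsg.Agent.S3021

open Subgroup H16 H16.H11
open H1 hiding card_inf_mul_relIndex card_mul_relIndex card_sup_dvd isPiHallOf_map_subtype isPiHallOf_top
open H15 hiding card_cj cent_anti cent_bot cent_comm cent_le_cent1 cent_le_norm cent_sup cent_zpowers cj_bot cj_cent cj_cj_inv cj_comm cj_eq_bot cj_eq_iff cj_eq_top cj_inf cj_inj cj_inv_cj cj_le_cj cj_le_iff cj_le_of_mem cj_lt_cj cj_mono cj_norm cj_one cj_sup cj_top comm_le_inf comm_le_left comm_le_right comm_of_cyclic comm_of_le comm_sup le_cj_iff mem_cent mem_cent1 mem_cj mem_norm_of_cj_le norm_bot norm_top relIndex_cj relIndex_dvd_of_le_right relIndex_pos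
open scoped commutatorElement


/-- Let G be a finite group, p a prime and H a p-subgroup of G that is extremely closed (for every g, the subgroup generated by H and g H g⁻¹ meets N_G(H) exactly in H). Then every p-subgroup Q of G containing H has N_G(Q) ≤ N_G(H); in particular every Sylow p-subgroup P of G containing H normalizes H, and H is strongly closed in P with respect to G. -/
theorem result {G : Type*} [Group G] [Finite G] {p : ℕ} [Fact p.Prime] (H : Subgroup G) (hHp : IsPGroup p H) (hcl : Cfsg.IsExtremelyClosed H) : (∀ Q : Subgroup G, IsPGroup p Q → H ≤ Q → Subgroup.normalizer (Q : Set G) ≤ Subgroup.normalizer (H : Set G)) ∧ ∀ P : Sylow p G, H ≤ (P : Subgroup G) → (P : Subgroup G) ≤ Subgroup.normalizer (H : Set G) ∧ Cfsg.IsStronglyClosed H (P : Subgroup G) := by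
  have h1 : ∀ Q : Subgroup G, IsPGroup p Q → H ≤ Q → N[Q] ≤ N[H] := fun Q hQ h g hg => by
    have h2 : H ⊔ H :^ g ≤ Q := sup_le h (cj_le_of_norm hg h)
    exact mem_norm_of_cj_le (le_sup_right.trans (eq_of_inf_norm_le
      (nil_of_le (pg_iff.2 hQ).nilpotent h2) le_sup_left (hcl g).le).ge)
  refine ⟨h1, fun P hP => ⟨(le_norm _).trans (h1 P P.2 hP), hP, fun x hx g hg => ?_⟩⟩
  exact (hcl g).le ⟨mem_sup_right (cj_mem hx), (le_norm _).trans (h1 P P.2 hP) hg⟩

end Cfsg.Agent.S3021
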