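import Cfsg.Statements.S3023
import Cfsg.Agent.H11.ZStar
import Cfsg.Agent.H10.PMin2

set_option autoImplicit false
open Cfsg

namespace Cfsg.Agent.S3023

open Subgroup H16 H16.H11
open H1 hiding card_inf_mul_relIndex card_mul_relIndex card_sup_dvd isPiHallOf_map_subtype isPiHallOf_top
open H15 hiding card_cj cent_anti cent_bot cent_comm cent_le_cent1 cent_le_norm cent_sup cent_zpowers cj_bot cj_cent cj_cj_inv cj_comm cj_eq_bot cj_eq_iff cj_eq_top cj_inf cj_inj cj_inv_cj cj_le_cj cj_le_iff cj_le_of_mem cj_lt_cj cj_mono cj_norm cj_one cj_sup cj_top comm_le_inf comm_le_left comm_le_right comm_of_cyclic comm_of_le comm_sup le_cj_iff mem_cent mem_cent1 mem_cj mem_norm_of_cj_le norm_bot norm_top relIndex_cj relIndex_dvd_of_le_right relIndex_pos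
open scoped commutatorElement


/-- Let p be a prime, G a finite group of parabolic characteristic p (every p-local subgroup containing a Sylow p-subgroup of G has characteristic p), S a Sylow p-subgroup of G and G₁ a subnormal subgroup of G. If the centre of S ∩ G₁ is nontrivial and contained in the centre of S, then G₁ has parabolic characteristic p. -/
theorem result {G : Type*} [Group G] [Finite G] {p : ℕ} [Fact p.Prime] (hG : Cfsg.IsOfParabolicCharacteristic p G) (S : Sylow p G) (G₁ : Subgroup G) (hsn : G₁.IsSubnormal) (hne : ((S : Subgroup G) ⊓ G₁) ⊓ Subgroup.centralizer (((S : Subgroup G) ⊓ G₁ : Subgroup G) : Set G) ≠ ⊥) (hle : ((S : Subgroup G) ⊓ G₁) ⊓ Subgroup.centralizer (((S : Subgroup G) ⊓ G₁ : Subgroup G) : Set G) ≤ (S : Subgroup G) ⊓ Subgroup.centralizer ((S : Subgroup G) : Set G)) : Cfsg.IsOfParabolicCharacteristic p ↥G₁ := by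
  have hS := H10.isSylowIn_top S
  have h0 := H10.subnIn_top.2 hsn
  have hT := hS.inf_subn h0
  rw [H10.parabolicChar_iff (H10.isSylowIn_subgroupOf_top hT)]
  intro z hz h1
  have h2 : (z : G) ∈ H10.ZO p ((S : Subgroup G) ⊓ G₁) := by
    rw [← map_subgroupOf hT.le, ← H10.map_ZO_of_injective G₁.subtype_injective]
    exact Subgroup.mem_map_of_mem _ hz
  have h3 := ((H10.parabolicChar_iff hS).1 hG z (H10.omegaOne_mono hle h2) (by simpa using h1)).subn
    (h0.inf_of_le (le_top : C1[(z : G)] ≤ ⊤))
  rw [← H10.charPIn_map_of_injective G₁.subtype_injective, ← cent_zpowers, map_subtype_cent,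
    MonoidHom.map_zpowers, cent_zpowers]
  exact h3

end Cfsg.Agent.S3023
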