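import Cfsg.Statements.S3025
import Cfsg.Agent.H11.ZStar
import Cfsg.Agent.H11.CharP
import Cfsg.Agent.H1.CycSyl
import Cfsg.Agent.S0016

set_option autoImplicit false
open Cfsg

namespace Cfsg.Agent.S3025

open Subgroup H16 H16.H11
open H1 hiding card_inf_mul_relIndex card_mul_relIndex card_sup_dvd isPiHallOf_map_subtype isPiHallOf_top
open H15 hiding card_cj cent_anti cent_bot cent_comm cent_le_cent1 cent_le_norm cent_sup cent_zpowers cj_bot cj_cent cj_cj_inv cj_comm cj_eq_bot cj_eq_iff cj_eq_top cj_inf cj_inj cj_inv_cj cj_le_cj cj_le_iff cj_le_of_mem cj_lt_cj cj_mono cj_norm cj_one cj_sup cj_top comm_le_inf comm_le_left comm_le_right comm_of_cyclic comm_of_le comm_sup le_cj_iff mem_cent mem_cent1 mem_cj mem_norm_of_cj_le norm_bot norm_top relIndex_cj relIndex_dvd_of_le_right relIndex_pos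
open scoped commutatorElement


/-- Let F be a finite group and H a nontrivial subgroup of F that is contained in every nontrivial subgroup of F which H normalizes. Then F has a nontrivial normal subgroup N contained in every nontrivial normal subgroup of F (a unique minimal normal subgroup), N is simple, and one of the following holds: C_F(N) = 1; or H = N has prime order p, C_F(N) is cyclic of order a power of p, and F/C_F(N) is cyclic of order dividing p − 1; or H = N has order 2, N is central in F, and F is a generalized quaternion group. -/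
theorem result {F : Type*} [Group F] [Finite F] (H : Subgroup F) (hH : H ≠ ⊥)
    (hmin : ∀ R : Subgroup F, R ≠ ⊥ → H ≤ Subgroup.normalizer (R : Set F) → H ≤ R) :
    ∃ N : Subgroup F, N.Normal ∧ N ≠ ⊥ ∧ (∀ M : Subgroup F, M.Normal → M ≠ ⊥ → N ≤ M) ∧ IsSimpleGroup ↥N ∧
      (Subgroup.centralizer (N : Set F) = ⊥ ∨
       (H = N ∧ (Nat.card N).Prime ∧ IsCyclic ↥(Subgroup.centralizer (N : Set F)) ∧
          (∃ k : ℕ, 1 ≤ k ∧ Nat.card ↥(Subgroup.centralizer (N : Set F)) = Nat.card N ^ k) ∧
          (∃ g : F, Subgroup.centralizer (N : Set F) ⊔ Subgroup.zpowers g = ⊤) ∧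
          (Subgroup.centralizer (N : Set F)).index ∣ Nat.card N - 1) ∨
       (H = N ∧ Nat.card N = 2 ∧ Subgroup.centralizer (N : Set F) = ⊤ ∧
          ∃ k : ℕ, 1 ≤ k ∧ Nonempty (F ≃* QuaternionGroup (2 ^ k)))) := by
  have h1 : ∀ M : Subgroup F, M.Normal → M ≠ ⊥ → normalClosure (H : Set F) ≤ M := fun M _ h =>
    normalClosure_le_normal (hmin M h le_normalizer_of_normal)
  have h2 : H ≤ normalClosure (H : Set F) := le_normalClosure
  have nN : (normalClosure (H : Set F)).Normal := inferInstance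
  generalize normalClosure (H : Set F) = N at h1 h2 nN
  have h3 := ne_bot_of_le hH h2
  have h4 : IsSimpleGroup N := simple_of_norm h3 fun L a b => or_iff_not_imp_left.2 fun c =>
    le_antisymm a ((h1 L.normalCore inferInstance (ne_bot_of_le hH fun x hx (g : F) => by
      have := hmin _ (cj_ne_bot c g⁻¹) (h2.trans ((cj_norm (le_normalizer_of_normal
        (mem_top g⁻¹))).ge.trans (norm_cj_le b g⁻¹))) hx
      rwa [mem_cj, inv_inv] at this)).trans (normalCore_le L))
  refine ⟨N, nN, h3, h1, h4, or_iff_not_imp_left.2 fun h5 => ?_⟩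
  have h6 := h1 _ inferInstance h5
  haveI := comm_iff.2 h6
  have hp : (Nat.card N).Prime := Group.is_simple_iff_prime_card.1 h4
  obtain rfl := (eq_bot_or_eq_of_prime hp h2).resolve_left hH
  obtain ⟨p, e⟩ : ∃ p, Nat.card H = p := ⟨_, rfl⟩
  rw [e] at hp ⊢
  haveI := Fact.mk hp
  have h7 : ∀ X, X ≤ C[H] → (Nat.card X).Prime → X = H := fun X a b =>
    ((eq_bot_or_eq_of_prime b (hmin X (ne_bot_of_card b rfl) (norm_of_cent' a))).resolve_left hH).symm
  have h8 : Pg[p] C[H] := isPi_of_forall_orderOf fun x hx b => by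
    rw [← card_zpowers] at b ⊢
    rw [h7 _ (zpowers_le.2 hx) b, e]; rfl
  obtain ⟨a, b⟩ := quotient_centralizer_prime hp e
  have key : IsCyclic C[H] → IsCyclic C[H] ∧ (∃ k, 1 ≤ k ∧ Nat.card C[H] = p ^ k) ∧
      (∃ g, C[H] ⊔ zpowers g = ⊤) ∧ C[H].index ∣ p - 1 := fun h => by
    obtain ⟨k, hk⟩ := h8.exists_card_eq
    obtain ⟨g, hg⟩ := isCyclic_iff_exists_zpowers_eq_top.1 a
    obtain ⟨g, rfl⟩ := QuotientGroup.mk'_surjective _ g
    refine ⟨h, ⟨k, Nat.pos_of_ne_zero fun e => h5 (card_eq_one.1 (by rw [hk, e, pow_zero])), hk⟩,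
      ⟨g, ?_⟩, b⟩
    rw [← MonoidHom.map_zpowers] at hg
    rw [← QuotientGroup.ker_mk' C[H], sup_comm, ← comap_map_eq, hg, comap_top]
  have inj := subtype_injective C[H]
  rcases S0016.result p h8.isPGroup (fun X Y a b => map_injective inj ((h7 _ (map_subtype_le X) (by
    rwa [card_map_of_injective inj, a])).trans (h7 _ (map_subtype_le Y) (by
      rwa [card_map_of_injective inj, b])).symm)) with h | ⟨rfl, n, ⟨f⟩⟩
  · exact Or.inl ⟨rfl, hp, key h⟩
  rcases Nat.eq_zero_or_pos n with rfl | hn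
  · haveI := QuaternionGroup.quaternionGroup_one_isCyclic
    exact Or.inl ⟨rfl, hp, key (isCyclic_of_surjective f.symm f.symm.surjective)⟩
  have h9 : C[H] = ⊤ := index_eq_one.1 (Nat.dvd_one.1 b)
  exact Or.inr ⟨rfl, rfl, h9, n, hn, ⟨(topEquiv.symm.trans (MulEquiv.subgroupCongr h9.symm)).trans f⟩⟩

end Cfsg.Agent.S3025
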