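import Cfsg.Statements.S3027
import Cfsg.Agent.H11.ZStar

set_option autoImplicit false
open Cfsg

namespace Cfsg.Agent.S3027

open Subgroup H16 H16.H11
open H1 hiding card_inf_mul_relIndex card_mul_relIndex card_sup_dvd isPiHallOf_map_subtype isPiHallOf_top
open H15 hiding card_cj cent_anti cent_bot cent_comm cent_le_cent1 cent_le_norm cent_sup cent_zpowers cj_bot cj_cent cj_cj_inv cj_comm cj_eq_bot cj_eq_iff cj_eq_top cj_inf cj_inj cj_inv_cj cj_le_cj cj_le_iff cj_le_of_mem cj_lt_cj cj_mono cj_norm cj_one cj_sup cj_top comm_le_inf comm_le_left comm_le_right comm_of_cyclic comm_of_le comm_sup le_cj_iff mem_cent mem_cent1 mem_cj mem_norm_of_cj_le norm_bot norm_top relIndex_cj relIndex_dvd_of_le_right relIndex_pos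
open scoped commutatorElement


/-- Let G be a finite group and D a normal subgroup of G such that G/D is perfect (that is, G = G′D). Then among the subnormal subgroups B of G with BD = G there is a least one, and it is normal in G. -/
theorem result {G : Type*} [Group G] [Finite G] (D : Subgroup G) [D.Normal] (hperf : ⁅(⊤ : Subgroup G), (⊤ : Subgroup G)⁆ ⊔ D = ⊤) :
    ∃ B : Subgroup G, B.Normal ∧ B ⊔ D = ⊤ ∧ ∀ B' : Subgroup G, B'.IsSubnormal → B' ⊔ D = ⊤ → B ≤ B' := by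
  have e : ∀ X : Subgroup G, X ⊔ D = ⊤ ↔ X.map (QuotientGroup.mk' D) = ⊤ := fun X => by
    rw [← (comap_injective (QuotientGroup.mk'_surjective D)).eq_iff, comap_map_eq,
      QuotientGroup.ker_mk', comap_top]
  have key : ∀ X Y : Subgroup G, X ⊔ D = ⊤ → Y ⊔ D = ⊤ → ⁅X, Y⁆ ⊔ D = ⊤ := fun X Y hX hY => by
    have := (e _).1 hperf
    rw [map_commutator, (e ⊤).1 (top_sup_eq D)] at this
    rw [e, map_commutator, (e X).1 hX, (e Y).1 hY, this]
  obtain ⟨B, -, ⟨nB, hB⟩, hm⟩ := exists_min_of (C := fun X => ⊤ ≤ N[X] ∧ X ⊔ D = ⊤)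
    (X := ⊤) ⟨le_norm _, top_sup_eq D⟩
  have h1 : ∀ X, X ≤ B → B ≤ N[X] → X ⊔ D = ⊤ → X = B := fun X a b c => by
    obtain ⟨Y, h1, ⟨h2, h3, h4⟩, h5⟩ := exists_min_of
      (C := fun X => X ≤ B ∧ B ≤ N[X] ∧ X ⊔ D = ⊤) ⟨a, b, c⟩
    refine le_antisymm a ((hm Y ⟨fun g _ => cj_eq_self_iff.1 ?_, h4⟩ h2).ge.trans h1)
    have h6 : Y :^ g ≤ B := cj_le_of_norm (nB trivial) h2
    have h7 : B ≤ N[Y :^ g] := (cj_norm (nB (mem_top g))).ge.trans (norm_cj_le h3 g)
    have h8 := h5 ⁅Y, Y :^ g⁆ ⟨comm_le h2 h6, norm_comm h3 h7, key _ _ h4 (by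
      rw [← cj_norm (le_normalizer_of_normal (mem_top g) : g ∈ N[D]), ← cj_sup, h4, cj_top])⟩
      (comm_le_left (h6.trans h3))
    exact (eq_of_le_of_card (h8.ge.trans (comm_le_right (h2.trans h7))) (card_cj Y g).le).symm
  refine ⟨B, normal_of_top nB, hB, fun X hX => ?_⟩
  induction hX with
  | top => exact fun _ => le_top
  | step X K h2 _ h3 ih =>
    intro h4
    have h5 := (ih (eq_top_iff.2 (h4.ge.trans (sup_le_sup_right h2 D)))).trans
      ((normal_subgroupOf_iff_le_normalizer h2).1 h3)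
    exact (h1 ⁅B, X⁆ (comm_le_left (le_top.trans nB)) (norm_comm (le_norm B) h5)
      (key _ _ hB h4)).ge.trans (comm_le_right h5)

end Cfsg.Agent.S3027
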