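import Cfsg.Statements.S3032
import Cfsg.Agent.H6.HSub

set_option autoImplicit false
open Cfsg

namespace Cfsg.Agent.S3032

open Subgroup H6 in
theorem base.{u} {p : ℕ} [hp : Fact p.Prime] (n : ℕ) : ∀ (G : Type u) [Group G] [Finite G]
    (P : Subgroup G) [P.Normal], Nat.card G = n → IsPGroup p P → H1.SupS (G ⧸ P) →
    (∀ a ∈ powDer p (⊤ : Subgroup G), ∃ k : ℕ, a ^ p ^ k ∈ centralizer (P : Set G)) → H1.SupS G := by
  induction n using Nat.strong_induction_on with
  | _ n ih =>
  intro G _ _ P _ hn hP hs h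
  subst hn
  by_cases h0 : P = ⊥
  · subst h0
    exact hs.of_equiv QuotientGroup.quotientBot
  haveI := hP.isNilpotent
  obtain ⟨V, r, hV, hV1, hV2, hr, hV3, hV4, hV5, hV6⟩ :=
    H1.exists_minimal_normal_elementary P inferInstance h0
  have hVp := hP.to_le hV2
  obtain rfl : r = p := by
    by_contra hne
    haveI := Fact.mk hr
    exact hV1 (disjoint_self.1 (IsPGroup.disjoint_of_ne r p hne V V hV5 hVp))
  set A := powDer r (⊤ : Subgroup G) with hA
  haveI hAn : A.Normal := Normal.of_commutator_le G le_sup_left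
  have h1 : A ≤ centralizer (V : Set G) := by
    let ψ : A →* MulAut V := (MulAut.conjNormal (H := V)).comp A.subtype
    have hR : IsPGroup r ψ.range := by
      rintro ⟨_, a, rfl⟩
      obtain ⟨k, hk⟩ := h a a.2
      refine ⟨k, Subtype.ext ?_⟩
      rw [SubgroupClass.coe_pow, ← map_pow]
      ext v
      exact conj_eq_iff_commute.2 (mem_centralizer_iff_commute.1 hk v (hV2 v.2))
    obtain ⟨m, hm0, hm⟩ := exists_card_eq_pow_of_one_lt hVp ((one_lt_card_iff_ne_bot V).2 hV1)
    obtain ⟨v, hv, hv1⟩ := hR.exists_fixed_point_of_prime_dvd_card_of_fixed_point (α := V)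
      (hm ▸ dvd_pow_self r hm0) (a := 1) (fun g => by simp)
    rcases hV6 (V ⊓ centralizer (A : Set G)) inferInstance inf_le_left with h2 | h2
    · have : (v : G) ∈ V ⊓ centralizer (A : Set G) := ⟨v.2, mem_centralizer_iff_commute.2 fun a ha =>
        (conj_eq_iff_commute.1 (congrArg Subtype.val (hv ⟨ψ ⟨a, ha⟩, _, rfl⟩))).symm⟩
      rw [h2, mem_bot] at this
      exact absurd (Subtype.ext this.symm) hv1
    · exact le_centralizer_iff.1 (h2 ▸ inf_le_right)
  have h2 := H1.card_eq_prime_of_minimal_of_pow_mem_centralizer V hV4 hV1 hV6 (le_sup_left.trans h1)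
    (fun g => h1 (mem_sup_right (subset_closure ⟨g, mem_top g, rfl⟩)))
  have hf := QuotientGroup.mk'_surjective V
  haveI := Normal.map ‹P.Normal› _ hf
  refine H1.supS_of_prime_quotient V (h2 ▸ hr) (ih _ (H1.card_quotient_lt hV1) _
    (P.map (QuotientGroup.mk' V)) rfl (hP.map _) (hs.quotient_map hf _ le_rfl) fun a ha => ?_)
  have h3 : powDer r (⊤ : Subgroup (G ⧸ V)) ≤ A.map (QuotientGroup.mk' V) := by
    rw [hA, powDer, powDer, Subgroup.map_sup, map_commutator, map_top_of_surjective _ hf,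
      MonoidHom.map_closure]
    refine sup_le_sup_left (Subgroup.closure_mono ?_) _
    rintro _ ⟨l, -, rfl⟩
    obtain ⟨l, rfl⟩ := hf l
    exact ⟨_, ⟨l, mem_top l, rfl⟩, map_pow _ _ _⟩
  obtain ⟨a, ha', rfl⟩ := h3 ha
  obtain ⟨k, hk⟩ := h a ha'
  refine ⟨k, mem_centralizer_iff_commute.2 ?_⟩
  rintro _ ⟨x, hx, rfl⟩
  rw [← map_pow]
  exact (mem_centralizer_iff_commute.1 hk x hx).map _

open Subgroup H6 in
theorem base' {p : ℕ} [hp : Fact p.Prime] {G : Type*} [Group G] [Finite G]
    (P : Subgroup G) [P.Normal] (hP : IsPGroup p P) (hs : H1.SupS (G ⧸ P))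
    (h : ∀ a ∈ powDer p (⊤ : Subgroup G), (orderOf a).Coprime p → a ∈ centralizer (P : Set G)) :
    H1.SupS G := by
  refine base _ G P rfl hP hs fun a ha => ?_
  obtain ⟨k, m, hm, h1⟩ := Nat.exists_eq_pow_mul_and_not_dvd (orderOf_pos a).ne' p hp.out.ne_one
  refine ⟨k, h _ (pow_mem ha _) ?_⟩
  refine Nat.Coprime.coprime_dvd_left (orderOf_dvd_of_pow_eq_one ?_)
    ((Nat.Prime.coprime_iff_not_dvd hp.out).2 hm).symm
  rw [← pow_mul, ← h1, pow_orderOf_eq_one]

/-- Let G be a finite group and E a normal subgroup with G/E supersolvable. Suppose that for every prime p and every non-cyclic Sylow p-subgroup P of E there is a subgroup D of P with 1 < |D| < |P| such that every subgroup F of P of order |D|, and also every subgroup F of P of order 4 when |D| = 2, satisfies g F g⁻¹ ∩ N_G(F) ≤ F for all g ∈ G. Then G is supersolvable. -/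
theorem result {G : Type*} [Group G] [Finite G] (E : Subgroup G) [E.Normal] (hGE : Cfsg.IsSupersolvable (G ⧸ E))
    (h : ∀ (p : ℕ), p.Prime → ∀ P : Subgroup G, P ≤ E → IsPGroup p P → ¬ p ∣ P.relIndex E → ¬ IsCyclic ↥P →
      ∃ D : Subgroup G, D ≤ P ∧ 1 < Nat.card D ∧ Nat.card D < Nat.card P ∧
        ∀ F : Subgroup G, F ≤ P → (Nat.card F = Nat.card D ∨ (Nat.card D = 2 ∧ Nat.card F = 4)) →
          ∀ g : G, F.map (MulAut.conj g).toMonoidHom ⊓ Subgroup.normalizer (F : Set G) ≤ F) :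
    Cfsg.IsSupersolvable G := by
  rw [H1.isSupersolvable_iff_supS] at hGE ⊢
  induction hn : Nat.card E using Nat.strong_induction_on generalizing E with
  | _ n ih =>
  subst hn
  by_cases h0 : E = ⊥
  · subst h0
    exact hGE.of_equiv QuotientGroup.quotientBot
  have hE1 : Nat.card E ≠ 1 := fun h1 => h0 (Subgroup.card_eq_one.1 h1)
  set p := (Nat.card E).minFac with hpd
  haveI hp : Fact p.Prime := ⟨Nat.minFac_prime hE1⟩
  have hc : (Nat.card E).Coprime (p - 1) :=
    H6.coprime_sub_one_of_min fun q hq h => Nat.minFac_le_of_dvd hq.two_le h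
  obtain ⟨P0⟩ : Nonempty (Sylow p E) := inferInstance
  set P := (P0 : Subgroup E).map E.subtype with hP
  have hPE : P ≤ E := Subgroup.map_subtype_le _
  have hPp : IsPGroup p P := P0.isPGroup'.map _
  have hcP : Nat.card P = Nat.card (P0 : Subgroup E) := Subgroup.card_map_of_injective E.subtype_injective
  have h1 : IsCyclic P ∨ ∃ m, m ≠ 0 ∧ p ^ m < Nat.card P ∧ ∀ F : Subgroup G, F ≤ P →
      (Nat.card F = p ^ m ∨ (p ^ m = 2 ∧ Nat.card F = 4)) → ∀ x ∈ F, ∀ g : G, g * x * g⁻¹ ∈ P →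
        g * x * g⁻¹ ∈ F := by
    by_cases h1 : IsCyclic P
    · exact Or.inl h1
    obtain ⟨D, d1, d2, d3, d4⟩ := h p hp.out P hPE hPp (H3.not_dvd_relIndex_map_subtype P0) h1
    obtain ⟨m, hm0, hm⟩ := H6.exists_card_eq_pow_of_one_lt (hPp.to_le d1) d2
    rw [hm] at d3 d4
    exact Or.inr ⟨m, hm0, d3, fun F hF hF' x hx g hg => H6.closed_of_hsub hPp hF (d4 F hF hF') hx hg⟩
  have h2 : HasNormalPComplement p E := by
    rcases h1 with h1 | ⟨m, hm0, hm, h1⟩
    · exact H6.pnil_of_isCyclic P0 hc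
        ((Subgroup.equivMapOfInjective _ _ E.subtype_injective).isCyclic.2 h1)
    refine H6.pnil_of_closed P0 hc hm0 (hcP ▸ hm) fun F hF hF' x hx g hg => ?_
    obtain ⟨y, hy, hy'⟩ := h1 (F.map E.subtype) (Subgroup.map_mono hF)
      (by rwa [Subgroup.card_map_of_injective E.subtype_injective]) x (Subgroup.mem_map_of_mem _ hx) g
      (Subgroup.mem_map_of_mem E.subtype hg)
    rwa [← show y = g * x * g⁻¹ from Subtype.ext hy']
  set K := (pResidual p E).map E.subtype with hK
  haveI : K.Normal := H1.normal_map_char E _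
  have hKc : (Nat.card K).Coprime p := by
    rw [hK, Subgroup.card_map_of_injective E.subtype_injective]
    exact H3.hasNormalPComplement_iff_coprime.1 h2
  have hKE : K ≤ E := Subgroup.map_subtype_le _
  have hKP : K ⊔ P = E := by
    rw [hK, hP, ← Subgroup.map_sup, H3.pResidual_sup_sylow, ← MonoidHom.range_eq_map, Subgroup.range_subtype]
  have hd : P ⊓ K = ⊥ := H1.inf_eq_bot_of_coprime' (H1.IsPGroup.coprime_card hPp hKc)
  have hf := QuotientGroup.mk'_surjective K
  have hEP : E.map (QuotientGroup.mk' K) = P.map (QuotientGroup.mk' K) := by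
    rw [← hKP, Subgroup.map_sup, H1.map_mk'_eq_bot_iff.2 le_rfl, bot_sup_eq]
  haveI : (P.map (QuotientGroup.mk' K)).Normal := hEP ▸ Subgroup.Normal.map ‹E.Normal› _ hf
  have hq := hGE.quotient_map hf (P.map (QuotientGroup.mk' K)) hEP.le
  have hcard : ∀ F, F ≤ P → Nat.card (F.map (QuotientGroup.mk' K)) = Nat.card F := fun F hF => by
    have := H1.card_map_mk'_mul F K
    rwa [eq_bot_iff.2 ((inf_le_inf_right K hF).trans hd.le), Subgroup.card_bot, mul_one] at this
  refine ih _ (H1.card_lt_of_lt (lt_of_le_of_ne hKE fun h3 => ?_)) K ?_ (fun q hq Q h3 h4 h5 h6 => ?_) rfl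
  · rw [h3] at hKc
    exact (Nat.Prime.coprime_iff_not_dvd hp.out).1 hKc.symm (Nat.minFac_dvd _)
  · rcases h1 with h1 | ⟨m, hm0, hm, h1⟩
    · haveI : IsCyclic (P.map (QuotientGroup.mk' K)) :=
        isCyclic_of_surjective _ ((QuotientGroup.mk' K).subgroupMap_surjective P)
      exact H1.supS_of_cyclic_quotient _ hq
    refine base' _ (hPp.map _) hq fun a ha ho => H6.cent_of_normal_card (hPp.map _) le_top
      (by rw [Subgroup.normalizer_eq_top_iff.2 inferInstance]) hm0 (by rwa [hcard P le_rfl])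
      (fun F hF hF' g _ => ?_) ha ho
    obtain ⟨g, rfl⟩ := hf g
    have h3 : (P ⊓ F.comap (QuotientGroup.mk' K)).map (QuotientGroup.mk' K) = F := by
      refine le_antisymm (Subgroup.map_le_iff_le_comap.2 inf_le_right) fun y hy => ?_
      obtain ⟨y, h1, rfl⟩ := hF hy
      exact ⟨y, ⟨h1, hy⟩, rfl⟩
    have h4 : K ⊔ Subgroup.normalizer (P : Set G) = ⊤ := by
      have := Sylow.normalizer_sup_eq_top P0
      rw [← hP, ← hKP, ← sup_assoc, sup_right_comm, sup_eq_left.2 Subgroup.le_normalizer, sup_comm] at this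
      exact this
    obtain ⟨k, hk, n, hn, rfl⟩ := (Subgroup.mem_sup_of_normal_left (s := K) (x := g)).1
      (h4 ▸ Subgroup.mem_top g)
    rw [map_mul, show QuotientGroup.mk' K k = 1 from (QuotientGroup.eq_one_iff k).2 hk, one_mul]
    refine H6.mem_normalizer_of_conj_le fun y hy => ?_
    rw [← h3] at hy
    obtain ⟨y, hy, rfl⟩ := hy
    rw [← h3, hcard _ inf_le_left] at hF'
    have := h1 _ inf_le_left hF' y hy n (H3.conj_mem_of_mem_normalizer hn hy.1)
    simpa using this.2
  · have hqp : q ≠ p := by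
      rintro rfl
      refine h6 ?_
      have := H1.inf_eq_bot_of_coprime' (H1.IsPGroup.coprime_card h4 hKc)
      rw [inf_eq_left.2 h3] at this
      rw [this]
      infer_instance
    refine h q hq Q (h3.trans hKE) h4 (fun h7 => ?_) h6
    rw [← Subgroup.relIndex_mul_relIndex Q K E h3 hKE, hq.dvd_mul] at h7
    refine h7.elim h5 fun h8 => hqp ?_
    rw [← hKP, Subgroup.relIndex_sup_left] at h8
    obtain ⟨k, hk⟩ := IsPGroup.iff_card.1 hPp
    exact (Nat.prime_dvd_prime_iff_eq hq hp.out).1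
      (hq.dvd_of_dvd_pow (hk ▸ h8.trans (Subgroup.relIndex_dvd_card _ _)))

end Cfsg.Agent.S3032
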