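import Cfsg.Statements.S3053
import Cfsg.Agent.H11.ZStar
import Cfsg.Agent.H11.CharP
import Cfsg.Agent.H9.Basic

set_option autoImplicit false
open Cfsg

namespace Cfsg.Agent.S3053

open Subgroup H16 H16.H11
open H1 hiding card_inf_mul_relIndex card_mul_relIndex card_sup_dvd isPiHallOf_map_subtype isPiHallOf_top
open H15 hiding card_cj cent_anti cent_bot cent_comm cent_le_cent1 cent_le_norm cent_sup cent_zpowers cj_bot cj_cent cj_cj_inv cj_comm cj_eq_bot cj_eq_iff cj_eq_top cj_inf cj_inj cj_inv_cj cj_le_cj cj_le_iff cj_le_of_mem cj_lt_cj cj_mono cj_norm cj_one cj_sup cj_top comm_le_inf comm_le_left comm_le_right comm_of_cyclic comm_of_le comm_sup le_cj_iff mem_cent mem_cent1 mem_cj mem_norm_of_cj_le norm_bot norm_top relIndex_cj relIndex_dvd_of_le_right relIndex_pos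
open scoped commutatorElement

theorem exists_shift {G : Type*} [Group G] [Finite G] {P : Subgroup G} {y w : G}
    (hc : (Nat.card (P ⊓ C[P] : Subgroup G)).Prime) (hd : ⁅P, P⁆ ≤ C[P]) (hy : y ∈ P)
    (h1 : y ∉ C[P]) (hw : w ∈ P ⊓ C[P]) : ∃ a ∈ P, a * y * a⁻¹ = y * w := by
  obtain ⟨a, ha, h2⟩ : ∃ a ∈ P, a * y ≠ y * a := by simpa [mem_cent] using h1
  have h3 : y⁻¹ * (a * y * a⁻¹) ∈ ⁅P, P⁆ := by
    simpa [commutatorElement_def, mul_assoc] using commutator_mem_commutator (inv_mem hy) ha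
  have h4 := zpowers_eq_of_prime hc ⟨der_le P h3, hd h3⟩ fun e => h2 (by
    rw [inv_mul_eq_one] at e; rw [← mul_inv_eq_iff_eq_mul, ← e])
  obtain ⟨n, rfl⟩ := (mem_powers_iff_mem_zpowers.2 (h4.ge hw))
  exact ⟨a ^ n, pow_mem ha n, _root_.H11.conj_pow_eq_of_comm (mul_inv_cancel_left _ _).symm
    (mem_cent.1 (hd h3) a ha) n⟩


/-- Let p be an odd prime and G a finite group with a Sylow p-subgroup P that is extraspecial of order p³ and exponent p². Then the centre of P is strongly closed in P with respect to G: a G-conjugate of an element of Z(P) that lies in P already lies in Z(P). In particular a nontrivial central element of P is conjugate in G to no noncentral element of P. -/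
theorem result {G : Type*} [Group G] [Finite G]
    {p : ℕ} [Fact p.Prime] (hp : p ≠ 2) (P : Sylow p G) (hE : Cfsg.IsExtraspecial p ↥P)
    (hcard : Nat.card P = p ^ 3) (hexp : Monoid.exponent ↥P = p ^ 2) :
    Cfsg.IsStronglyClosed ((Subgroup.center ↥P).map (P : Subgroup G).subtype) (P : Subgroup G) := by
  have pp : p.Prime := Fact.out
  have hS := sy_top_of_sylow P
  obtain ⟨⟨-, -, h1⟩, h2⟩ : IsExtraspecial p (P : Subgroup G) := hE
  change IsStronglyClosed ((center (P : Subgroup G)).map _) _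
  change Monoid.exponent (P : Subgroup G) = _ at hexp
  have hd : ⁅(P : Subgroup G), (P : Subgroup G)⁆ = (P : Subgroup G) ⊓ C[(P : Subgroup G)] := by
    rw [← map_center_subtype, ← h1, commutator_def, map_commutator, map_top_subtype]
  rw [← card_map_of_injective (subtype_injective (P : Subgroup G)), map_center_subtype] at h2
  rw [map_center_subtype]
  have he : ¬ ∀ x ∈ (P : Subgroup G), x ^ p = 1 := fun h => by
    have := Monoid.exponent_dvd_of_forall_pow_eq_one (G := P) (n := p) fun x => Subtype.ext (h x x.2)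
    rw [hexp] at this
    have := Nat.le_of_dvd pp.pos this
    have := pp.one_lt
    nlinarith
  change Nat.card (P : Subgroup G) = _ at hcard
  generalize (P : Subgroup G) = P at *
  refine ⟨inf_le_left, fun z hz g hy => by_contra fun hn => he fun x hx => ?_⟩
  have z1 : z ≠ 1 := by rintro rfl; exact hn (by simp)
  have hZ := zpowers_eq_of_prime (h2 ▸ pp) hz z1
  have hZ' : Nat.card (zpowers z) = p := hZ ▸ h2
  have hY : Nat.card (zpowers (g * z * g⁻¹)) = p := by rw [zpowers_cj, card_cj, hZ']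
  have hne : zpowers z ≠ zpowers (g * z * g⁻¹) := fun e => hn (hZ.le (e.ge (mem_zpowers _)))
  have hyz : zpowers z ≤ C[zpowers (g * z * g⁻¹)] :=
    hZ.le.trans (inf_le_right.trans (cent_anti (zpowers_le.2 hy)))
  have hA := E2_sup pp hZ' hY hne hyz
  obtain ⟨c, hc, h3⟩ := sy_le_conj (hl_of_le (hl_cj_top hS g) (show P :^ g ≤ C1[g * z * g⁻¹] by
    rw [cent1_cj]; exact cj_mono g (le_cent1.2 hz.2)) le_top)
    ((comm_iff.1 hA.comm).trans (cent_le_cent1 (mem_sup_right (mem_zpowers _)))) (hA.pg pp)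
  rw [cj_cj] at h3
  have h4 : c * g * z * (c * g)⁻¹ = g * z * g⁻¹ := by
    have := mem_cent1.1 hc
    rw [mul_inv_rev, ← mul_assoc, mul_inv_eq_iff_eq_mul, ← this]; group
  generalize c * g = h at h3 h4
  generalize g * z * g⁻¹ = y at *
  set E := zpowers z ⊔ zpowers y
  have z2 := mem_cj.1 (h3 (mem_sup_left (mem_zpowers z)))
  have hn' : y ∉ C[P] := fun h => hn ⟨hy, h⟩
  obtain ⟨a, ha, a1⟩ := exists_shift (h2 ▸ pp) (hd.le.trans inf_le_right) hy hn' hz
  have a2 : a * z * a⁻¹ = z := by rw [mem_cent.1 hz.2 a ha]; group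
  obtain ⟨b, hb, b1⟩ := exists_shift (h2 ▸ pp) (hd.le.trans inf_le_right) z2 (fun h5 => hne
    (eq_of_le_of_card (zpowers_le.2 (by
      rw [← h4, zpowers_cj, hZ, mem_cj]; exact ⟨z2, h5⟩)) (by rw [hY, hZ']))) (inv_mem hz)
  have b2 : h * b * h⁻¹ * z * (h * b * h⁻¹)⁻¹ = z * y⁻¹ := by
    rw [← h4, show h * b * h⁻¹ * z * (h * b * h⁻¹)⁻¹ = h * (b * (h⁻¹ * z * h) * b⁻¹) * h⁻¹ by group, b1]
    group
  have b3 : h * b * h⁻¹ * y * (h * b * h⁻¹)⁻¹ = y := by
    rw [← h4, show h * b * h⁻¹ * (h * z * h⁻¹) * (h * b * h⁻¹)⁻¹ = h * (b * z * b⁻¹) * h⁻¹ by group,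
      mem_cent.1 hz.2 b hb]
    group
  generalize h * b * h⁻¹ = d at b2 b3
  have yz : y * z = z * y := mem_cent.1 hz.2 y hy
  have s1 : a * d * a * y * (a * d * a)⁻¹ = z := by
    rw [show a * d * a * y * (a * d * a)⁻¹ = a * (d * (a * y * a⁻¹) * d⁻¹) * a⁻¹ by group, a1,
      show d * (y * z) * d⁻¹ = d * y * d⁻¹ * (d * z * d⁻¹) by group, b2, b3, ← mul_assoc y, yz,
      mul_inv_cancel_right, a2]
  have s2 : a * d * a * z * (a * d * a)⁻¹ = y⁻¹ := by
    rw [show a * d * a * z * (a * d * a)⁻¹ = a * (d * (a * z * a⁻¹) * d⁻¹) * a⁻¹ by group, a2, b2,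
      show a * (z * y⁻¹) * a⁻¹ = a * z * a⁻¹ * (a * y * a⁻¹)⁻¹ by group, a1, a2]
    group
  generalize a * d * a = s at s1 s2
  have t1 : ∀ e ∈ E, s * s * e * (s * s)⁻¹ = e⁻¹ := fun e he => by
    obtain ⟨_, ⟨i, rfl⟩, _, ⟨j, rfl⟩, rfl⟩ := (mem_sup_r (norm_of_cent hyz)).1 he
    have e1 : s * s * y * (s * s)⁻¹ = y⁻¹ := by rw [← s2, ← s1]; group
    have e2 : s * s * z * (s * s)⁻¹ = z⁻¹ := by
      rw [show s * s * z * (s * s)⁻¹ = s * (s * z * s⁻¹) * s⁻¹ by group, s2, ← s1]; group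
    rw [show s * s * (z ^ i * y ^ j) * (s * s)⁻¹ = (s * s * z * (s * s)⁻¹) ^ i *
      (s * s * y * (s * s)⁻¹) ^ j by simp only [conj_zpow]; group, e1, e2, mul_inv_rev, inv_zpow,
      inv_zpow, ((show Commute y z from yz).zpow_zpow j i).inv_inv.eq]
  generalize s * s = t at t1
  have hEP : E ≤ P := sup_le (zpowers_le.2 hz.1) (zpowers_le.2 hy)
  have nE : P ≤ N[E] := norm_of_der_le (hd.le.trans (hZ.ge.trans le_sup_left)) hEP
  have tE : t ∈ N[E] := mem_norm_of_cj_le (cj_le_forall.2 fun e he => t1 e he ▸ inv_mem he)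
  have key : ∀ t ∈ N[E], (∀ e ∈ E, t * e * t⁻¹ = e⁻¹) → ∀ x ∈ P, t * x * t⁻¹ * x⁻¹ ∈ C[E] :=
    fun t ht h x hx => mem_cent.2 fun e he => by
    have e1 : t⁻¹ * e * t = e⁻¹ := by
      have := h _ (conj_mem' ht he)
      rw [← inv_inj, ← this]; group
    have e2 := h _ (conj_mem' (nE hx) he)
    rw [eq_comm, ← mul_inv_eq_iff_eq_mul, show t * x * t⁻¹ * x⁻¹ * e * (t * x * t⁻¹ * x⁻¹)⁻¹ =
      t * (x * (t⁻¹ * (x⁻¹ * e * x) * t) * x⁻¹) * t⁻¹ by group]
    have e3 : t⁻¹ * (x⁻¹ * e * x) * t = (x⁻¹ * e * x)⁻¹ := by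
      have := h _ (conj_mem' ht (conj_mem' (nE hx) he))
      rw [← inv_inj, ← this]; group
    rw [e3, show x * (x⁻¹ * e * x)⁻¹ * x⁻¹ = e⁻¹ by group, h _ (inv_mem he), inv_inv]
  have hK : t ∈ N[C[E] ⊔ P] := mem_norm_of_cj_le (by
    rw [cj_sup, cj_norm (norm_le_norm_cent E tE)]
    exact sup_le le_sup_left (cj_le_forall.2 fun x hx => (mul_mem_cancel_right
      (inv_mem (mem_sup_right hx))).1 (mem_sup_left (key t tE t1 x hx))))
  obtain ⟨k, hk, n, hn, rfl⟩ := sy_frattini (hl_of_le hS le_sup_right le_top) hK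
  obtain ⟨c, hc, u, hu, rfl⟩ := (mem_sup_l (norm_cent nE)).1 hk
  have m1 := mul_mem (le_norm P hu) hn
  rw [mul_assoc] at tE t1
  generalize u * n = m at m1 tE t1
  have m2 : m ∈ N[E] := (mul_mem_cancel_left (cent_le_norm E hc)).1 tE
  have m3 : ∀ e ∈ E, m * e * m⁻¹ = e⁻¹ := fun e he => by
    have := t1 e he
    rwa [show c * m * e * (c * m)⁻¹ = c * (m * e * m⁻¹) * c⁻¹ by group,
      ← mem_cent.1 hc _ (conj_mem m2 he), mul_inv_cancel_right] at this
  have cE : P ⊓ C[E] = E := by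
    refine (eq_of_le_of_card (le_inf hEP (comm_iff.1 hA.comm)) ?_).symm
    obtain ⟨j, -, hj⟩ := pg_card_cases pp hcard (inf_le_left : P ⊓ C[E] ≤ P)
    have := card_lt (inf_lt_left.2 fun h : P ≤ C[E] => hn' (cent_symm h (mem_sup_right (mem_zpowers y))))
    rw [hj, hcard, Nat.pow_lt_pow_iff_right pp.one_lt] at this
    rw [hj, hA.2]
    exact Nat.pow_le_pow_right pp.pos (by omega)
  have r1 : m * x * m⁻¹ * x⁻¹ ∈ E := cE.le ⟨P.mul_mem (conj_mem m1 hx) (P.inv_mem hx), key m m2 m3 x hx⟩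
  have r2 : x ^ p ∈ E := by
    haveI := normal_subgroupOf nE
    have h5 := card_mul_relIndex hEP
    rw [hA.2, hcard, pow_succ p 2, Nat.mul_right_inj (pow_pos pp.pos 2).ne'] at h5
    have := (E.subgroupOf P).pow_index_mem ⟨x, hx⟩
    rwa [show (E.subgroupOf P).index = p from h5] at this
  have r3 := m3 _ r2
  have r4 : ⁅x, m * x * m⁻¹ * x⁻¹⁆ ∈ P ⊓ C[P] := hd.le (commutator_mem_commutator hx (hEP r1))
  have r5 := H9.mul_pow_class_two (mem_cent.1 r4.2 _ (hEP r1)) (mem_cent.1 r4.2 _ hx) p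
  obtain ⟨k, hk⟩ := pp.dvd_choose_self two_ne_zero (lt_of_le_of_ne pp.two_le hp.symm)
  have r6 := orderOf_dvd_iff_pow_eq_one.1 ((H16.orderOf_dvd_card r4).trans h2.dvd)
  rw [inv_mul_cancel_right, conj_pow, r3, hA.1.2 _ r1, one_mul, hk, pow_mul, r6, one_pow, mul_one,
    inv_eq_iff_mul_eq_one, ← sq] at r5
  exact _root_.H11.eq_one_of_pow_coprime ((Nat.coprime_primes Nat.prime_two pp).2 hp.symm) r5
    (hA.1.2 _ r2)

end Cfsg.Agent.S3053
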