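import Cfsg.Statements.S3054
import Cfsg.Agent.H15.Rv2

set_option autoImplicit false
open Cfsg

namespace Cfsg.Agent.S3054

/-- Let p be an odd prime and G a finite group with a Sylow p-subgroup P that is extraspecial of order p³ and exponent p. Suppose P contains three distinct subgroups A of order p² (each is elementary abelian of rank 2) such that every automorphism of A of order p is induced by conjugation by an element of G; equivalently the automorphism group induced on A by its normalizer contains the special linear group of A. Then p ≤ 13. -/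
theorem result {G : Type*} [Group G] [Finite G]
    {p : ℕ} [Fact p.Prime] (hp : p ≠ 2) (P : Sylow p G) (hE : Cfsg.IsExtraspecial p ↥P)
    (hcard : Nat.card P = p ^ 3) (hexp : Monoid.exponent ↥P = p)
    (A : Fin 3 → Subgroup G) (hA : Function.Injective A) (hAP : ∀ i, A i ≤ (P : Subgroup G))
    (hAcard : ∀ i, Nat.card ↥(A i) = p ^ 2)
    (hSL : ∀ i, ∀ φ : MulAut ↥(A i), orderOf φ = p → ∃ g : G, ∀ a : ↥(A i), (φ a : G) = g * (a : G) * g⁻¹) :
    p ≤ 13 := by
  classical
  have hp' : p.Prime := Fact.out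
  obtain ⟨z, h⟩ := H15.Rv.exists_ex hE hcard hexp
  obtain ⟨π, hs, hk⟩ := h.exists_pi
  have oz : orderOf (z : G) = p := orderOf_eq_prime (h.pw z) fun e => h.ne (Subtype.ext e)
  have lt : p < p ^ 2 := by nlinarith [hp'.two_le]
  have : ∀ i, ∃ u : P, (u : G) ∈ A i ∧ u ∉ Subgroup.center P := fun i => by
    by_contra! e
    have : A i ≤ Subgroup.zpowers (z : G) := fun x hx => by
      obtain ⟨t, ht⟩ := h.cen ▸ e ⟨x, hAP i hx⟩ hx
      exact ⟨t, congrArg Subtype.val ht⟩
    have := Subgroup.card_le_of_le this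
    rw [hAcard, Nat.card_zpowers, oz] at this
    omega
  choose u hu hc using this
  have hz : ∀ i, (z : G) ∈ A i := fun i => by
    have c1 : Nat.card ((A i).subgroupOf P) = p ^ 2 :=
      (Nat.card_congr (Subgroup.subgroupOfEquivOfLe (hAP i)).toEquiv).trans (hAcard i)
    have c2 := ((A i).subgroupOf P).card_mul_index
    rw [c1, show Nat.card (P : Subgroup G) = _ from hcard, pow_succ p 2] at c2
    have n := Subgroup.normal_of_index_eq_minFac_card (H := (A i).subgroupOf P) (by
      rw [Nat.eq_of_mul_eq_mul_left (pow_pos hp'.pos 2) c2, show Nat.card (P : Subgroup G) = _ from hcard,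
        hp'.pow_minFac (by simp)])
    obtain ⟨y, -, hy⟩ := h.up_all (hc i) 1
    have : (y : G) * u i * (y : G)⁻¹ ∈ A i := n.conj_mem (u i) (hu i) y
    rw [hy] at this
    simpa using (A i).mul_mem this ((A i).inv_mem (hu i))
  have h0 : ∀ i, (π (u i)).toAdd ≠ 0 := fun i e => hc i (hk ▸ show π (u i) = 1 from e)
  have gen : ∀ i j, (u i : G) ∈ A j → A i ≤ A j := fun i j e => by
    have d := Subgroup.card_dvd_of_le (inf_le_left : A i ⊓ A j ≤ A i)
    rw [hAcard] at d
    obtain ⟨k, k2, hk⟩ := (Nat.dvd_prime_pow hp').1 d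
    have l : Subgroup.zpowers (z : G) ≤ A i ⊓ A j := Subgroup.zpowers_le.2 ⟨hz i, hz j⟩
    refine inf_eq_left.1 (Subgroup.eq_of_le_of_card_ge inf_le_left ?_)
    rw [hAcard, hk]
    by_contra! q
    have := (Nat.pow_lt_pow_iff_right hp'.one_lt).1 q
    have e := Subgroup.eq_of_le_of_card_ge l (by
      rw [hk, Nat.card_zpowers, oz]
      simpa using Nat.pow_le_pow_right hp'.pos (show k ≤ 1 by omega))
    obtain ⟨t, ht⟩ : (u i : G) ∈ Subgroup.zpowers (z : G) := e ▸ ⟨hu i, ‹_›⟩
    exact hc i (h.cen ▸ ⟨t, Subtype.ext ht⟩)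
  have := h.main hs hk h0 (fun i j e => by
    obtain ⟨c, e⟩ := (Projectivization.mk_eq_mk_iff' _ _ _ _ _).1 e
    obtain ⟨c, rfl⟩ := ZMod.intCast_surjective c
    have : (u j ^ c)⁻¹ * u i ∈ Subgroup.center P := hk ▸ show π _ = 1 by
      rw [map_mul, map_inv, inv_mul_eq_one, map_zpow]
      exact Multiplicative.toAdd.injective (by rw [toAdd_zpow, ← e, Int.cast_smul_eq_zsmul])
    obtain ⟨t, ht⟩ := h.cen ▸ this
    have ht : (z : G) ^ t = ((u j : G) ^ c)⁻¹ * u i := congrArg Subtype.val ht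
    refine hA (Subgroup.eq_of_le_of_card_ge (gen i j ?_) (by rw [hAcard, hAcard]))
    have := (A j).mul_mem ((A j).zpow_mem (hu j) c) ((A j).zpow_mem (hz j) t)
    simpa [ht] using this) (fun i => ?_) (by simp)
  · omega
  letI := IsPGroup.commGroupOfCardEqPrimeSq (hAcard i)
  let v : A i := ⟨_, hu i⟩
  have c1 : Nat.card (Subgroup.zpowers v) = p := by
    rw [Nat.card_zpowers]
    exact orderOf_eq_prime (Subtype.ext (h.pw _)) fun e =>
      hc i ((Subtype.ext (congrArg Subtype.val e :) : u i = 1) ▸ Subgroup.one_mem _)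
  have c2 : Nat.card (A i ⧸ Subgroup.zpowers v) = p := by
    have := Subgroup.card_eq_card_quotient_mul_card_subgroup (Subgroup.zpowers v)
    rw [hAcard, c1, sq] at this
    exact (Nat.eq_of_mul_eq_mul_right hp'.pos this).symm
  let e := mulEquivOfPrimeCardEq c2 c1
  let χ : A i →* A i := (Subgroup.zpowers v).subtype.comp (e.toMonoidHom.comp (QuotientGroup.mk' _))
  have k1 : ∀ a, χ a = 1 ↔ a ∈ Subgroup.zpowers v := fun a => by simp [χ]
  have k2 : ∀ a, χ a ∈ Subgroup.zpowers v := fun a => (e _).2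
  have k3 : ∀ a, χ (χ a) = 1 := fun a => (k1 _).2 (k2 a)
  let φ : MulAut (A i) :=
    { toFun := fun a => a * χ a
      invFun := fun a => a * (χ a)⁻¹
      left_inv := fun a => by simp [k3]
      right_inv := fun a => by simp [k3]
      map_mul' := fun a b => by rw [map_mul, mul_mul_mul_comm] }
  have k4 : ∀ n a, (φ ^ n) a = a * χ a ^ n := fun n a => by
    induction n with
    | zero => simp
    | succ n ih =>
      rw [pow_succ', MulAut.mul_apply, ih]
      show _ * χ _ = _
      rw [map_mul, map_pow, k3, one_pow, mul_one, mul_assoc, ← pow_succ, pow_succ']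
  have k5 : χ ⟨_, hz i⟩ ≠ 1 := fun q => by
    have l : Subgroup.zpowers (⟨_, hz i⟩ : A i) ≤ Subgroup.zpowers v :=
      Subgroup.zpowers_le.2 ((k1 _).1 q)
    have := Subgroup.eq_of_le_of_card_ge l (by
      rw [c1, Nat.card_zpowers, ← Subgroup.orderOf_coe, oz])
    obtain ⟨t, ht⟩ : v ∈ Subgroup.zpowers (⟨_, hz i⟩ : A i) := this ▸ Subgroup.mem_zpowers v
    exact hc i (h.cen ▸ ⟨t, Subtype.ext (congrArg Subtype.val ht :)⟩)
  obtain ⟨g, hg⟩ := hSL i φ (orderOf_eq_prime (MulEquiv.ext fun a => by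
    rw [k4, show χ a ^ p = 1 from Subtype.ext (h.pw ⟨_, hAP i (χ a).2⟩), mul_one]; rfl) fun q =>
      k5 (mul_eq_left.1 (congrArg (· ⟨_, hz i⟩) q)))
  obtain ⟨r, hr⟩ := k2 ⟨_, hz i⟩
  refine ⟨g, r, ⟨?_, ?_⟩, fun q => k5 ?_⟩
  · rw [← hg ⟨_, hz i⟩, zpow_one]
    exact congrArg ((z : G) * ·) (congrArg Subtype.val hr).symm
  · rw [← hg v]
    show (u i : G) * χ v = _
    rw [(k1 v).2 (Subgroup.mem_zpowers v)]
    simp
  · rw [← hr]
    exact (H15.Rv.zp (b := 0) (Subtype.ext (h.pw _)) (by simpa using q)).trans (zpow_zero _)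

end Cfsg.Agent.S3054
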