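import Cfsg.Statements.S3055
import Cfsg.Agent.H15.Rv2

set_option autoImplicit false
open Cfsg

namespace Cfsg.Agent.S3055

/-- Let p be an odd prime and G a finite group with a Sylow p-subgroup P that is extraspecial of order p³ and exponent p. If all nonidentity elements of P are conjugate in G, then p ≤ 7. -/
theorem result {G : Type*} [Group G] [Finite G]
    {p : ℕ} [Fact p.Prime] (hp : p ≠ 2) (P : Sylow p G) (hE : Cfsg.IsExtraspecial p ↥P)
    (hcard : Nat.card P = p ^ 3) (hexp : Monoid.exponent ↥P = p)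
    (hconj : ∀ x y : ↥P, x ≠ 1 → y ≠ 1 → ∃ g : G, g * (x : G) * g⁻¹ = (y : G)) :
    p ≤ 7 := by
  classical
  have hp' : p.Prime := Fact.out
  obtain ⟨z, h⟩ := H15.Rv.exists_ex hE hcard hexp
  obtain ⟨π, hs, hk⟩ := h.exists_pi
  choose u hu using fun i : ZMod p => hs (.ofAdd ![1, i])
  have h0 : ∀ i, (π (u i)).toAdd ≠ 0 := fun i e => by simpa [hu] using congrFun e 0
  have hc : ∀ i, u i ∉ Subgroup.center P := fun i e => h0 i (by
    rw [← hk] at e; rw [show π (u i) = 1 from e]; rfl)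
  have := h.main hs hk h0 (fun i j e => by
    obtain ⟨c, e⟩ := (Projectivization.mk_eq_mk_iff' _ _ _ _ _).1 e
    have a := congrFun e 0
    have b := congrFun e 1
    simp [hu] at a b
    rw [← b, a, one_mul]) (fun i => ?_) (by
      rw [ZMod.card]; have := hp'.two_le; omega)
  · rw [ZMod.card] at this; omega
  obtain ⟨g, hg⟩ := hconj (u i) z (fun e => hc i (e ▸ Subgroup.one_mem _)) h.ne
  let C := Subgroup.centralizer {(z : G)}
  have hC : (P : Subgroup G) ≤ C := fun x hx =>
    Subgroup.mem_centralizer_singleton_iff.2 (h.cm ⟨x, hx⟩).symm.eq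
  have m : g * z * g⁻¹ ∈ C := Subgroup.mem_centralizer_singleton_iff.2 (by
    have := (h.cm (u i)).map (MulAut.conj g)
    simp only [MulAut.conj_apply, hg] at this
    exact this.eq)
  obtain ⟨Q, hQ⟩ := (IsPGroup.of_card (p := p) (G := Subgroup.zpowers (⟨_, m⟩ : C))
    (n := if (⟨_, m⟩ : C) = 1 then 0 else 1) (by
      rw [Nat.card_zpowers]
      split_ifs with e
      · simp [e]
      · rw [pow_one]
        exact orderOf_eq_prime (Subtype.ext (by simp [conj_pow, h.pw])) e)).exists_le_sylow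
  obtain ⟨c, hc'⟩ := MulAction.exists_smul_eq C Q (P.subtype hC)
  have m' : (c : G) * (g * z * g⁻¹) * (c : G)⁻¹ ∈ (P : Subgroup G) := by
    have : c * ⟨_, m⟩ * c⁻¹ ∈ ((c • Q : Sylow p C) : Subgroup C) :=
      ⟨_, hQ (Subgroup.mem_zpowers _), rfl⟩
    rw [hc'] at this
    exact this
  have e1 : (c : G) * g * u i * ((c : G) * g)⁻¹ = z := by
    have := Subgroup.mem_centralizer_singleton_iff.1 c.2
    calc _ = (c : G) * (g * u i * g⁻¹) * (c : G)⁻¹ := by group
      _ = z := by rw [hg, this]; group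
  have e2 : (c : G) * (g * z * g⁻¹) * (c : G)⁻¹ = c * g * z * ((c : G) * g)⁻¹ := by group
  rw [e2] at m'
  generalize (c : G) * g = a at e1 m'
  obtain ⟨y, y1, y2⟩ := h.up_all (u := ⟨_, m'⟩) (fun e => by
    rw [h.cen] at e
    obtain ⟨t, ht⟩ := e
    have e3 : (z : G) ^ t = a * z * a⁻¹ := congrArg Subtype.val ht
    have e4 : u i ^ t = z := Subtype.ext (by
      conv_lhs at e3 => rw [← e1, conj_zpow]
      simpa using e3)
    have t0 : (t : ZMod p) ≠ 0 := fun e => h.ne (by
      rw [← e4, H15.Rv.zp (b := 0) (h.exp _) (by simpa using e), zpow_zero])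
    refine hc i ?_
    have := (Subgroup.center P).zpow_mem h.zc ((t : ZMod p)⁻¹.val : ℕ)
    rwa [← e4, ← zpow_mul, H15.Rv.zp (b := 1) (h.exp _) (by simp [t0]), zpow_one] at this) 1
  simp only [zpow_one, zpow_zero, mul_one] at y1 y2
  have e5 : (u i : G) = a⁻¹ * z * a := by rw [← e1]; group
  refine ⟨a⁻¹ * y * a, 1, ⟨?_, ?_⟩, by simp⟩
  · calc _ = a⁻¹ * (y * (a * z * a⁻¹) * (y : G)⁻¹) * a := by group
      _ = u i * z := by rw [y2, e5]; group
      _ = _ := by simpa using (h.cm _).symm.eq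
  · calc _ = a⁻¹ * (y * z * (y : G)⁻¹) * a := by rw [e5]; group
      _ = _ := by rw [y1, ← e5]; simp

end Cfsg.Agent.S3055
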