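import Cfsg.Statements.S3059
import Cfsg.Agent.H11.Chain
import Cfsg.Agent.H3.PComp

set_option autoImplicit false
open Cfsg

namespace Cfsg.Agent.S3059

open Subgroup H16 H16.H11
open H1 hiding card_inf_mul_relIndex card_mul_relIndex card_sup_dvd isPiHallOf_map_subtype isPiHallOf_top
open H15 hiding card_cj cent_anti cent_bot cent_comm cent_le_cent1 cent_le_norm cent_sup cent_zpowers cj_bot cj_cent cj_cj_inv cj_comm cj_eq_bot cj_eq_iff cj_eq_top cj_inf cj_inj cj_inv_cj cj_le_cj cj_le_iff cj_le_of_mem cj_lt_cj cj_mono cj_norm cj_one cj_sup cj_top comm_le_inf comm_le_left comm_le_right comm_of_cyclic comm_of_le comm_sup le_cj_iff mem_cent mem_cent1 mem_cj mem_norm_of_cj_le norm_bot norm_top relIndex_cj relIndex_dvd_of_le_right relIndex_pos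
open scoped commutatorElement


/-- Let p be a prime and H a strongly p-embedded subgroup of the finite group G in the classical sense: H is proper, p divides the order of H, and H ∩ gHg⁻¹ has order prime to p for every g outside H. Then for every normal subgroup N of G of order divisible by p, G = H · O^p(N), where O^p(N) is the subgroup generated by the elements of N of order prime to p. -/
theorem result {G : Type*} [Group G] [Finite G]
    (p : ℕ) [Fact p.Prime] (H : Subgroup G) (hH : H ≠ ⊤) (hpH : p ∣ Nat.card H)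
    (hse : ∀ g : G, g ∉ H → ¬ p ∣ Nat.card ↥(H ⊓ H.map (MulAut.conj g).toMonoidHom))
    (N : Subgroup G) [N.Normal] (hN : p ∣ Nat.card N) :
    H ⊔ Subgroup.closure {g : G | g ∈ N ∧ (orderOf g).Coprime p} = ⊤ := by
  have h : Spe p H := ⟨hH, hpH, hse⟩
  obtain ⟨S, hS⟩ := sy_exists p H
  have nN : ⊤ ≤ N[N] := le_normalizer_of_normal
  obtain ⟨-, h2⟩ := h.frattini nN hN hS
  obtain ⟨T, hT⟩ := sylow_of_sy (hl_inf (h.sy hS) le_top (le_top.trans nN))
  have h3 := congrArg (map N.subtype) (H3.pResidual_sup_sylow T)
  rw [Subgroup.map_sup, hT, H3.map_pResidual_eq_closure, map_top_subtype] at h3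
  exact eq_top_iff.2 (h2.ge.trans (sup_le (h3.ge.trans (sup_le le_sup_right
    (inf_le_left.trans (hS.1.trans le_sup_left)))) le_sup_left))

end Cfsg.Agent.S3059
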