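import Cfsg.Statements.S3060
import Cfsg.Agent.H11.DStar
import Cfsg.Agent.H15.TB

set_option autoImplicit false
open Cfsg

namespace Cfsg.Agent.S3060

open Subgroup H16 H16.H11
open H1 hiding card_inf_mul_relIndex card_mul_relIndex card_sup_dvd isPiHallOf_map_subtype isPiHallOf_top
open H15 hiding card_cj cent_anti cent_bot cent_comm cent_le_cent1 cent_le_norm cent_sup cent_zpowers cj_bot cj_cent cj_cj_inv cj_comm cj_eq_bot cj_eq_iff cj_eq_top cj_inf cj_inj cj_inv_cj cj_le_cj cj_le_iff cj_le_of_mem cj_lt_cj cj_mono cj_norm cj_one cj_sup cj_top comm_le_inf comm_le_left comm_le_right comm_of_cyclic comm_of_le comm_sup le_cj_iff mem_cent mem_cent1 mem_cj mem_norm_of_cj_le norm_bot norm_top relIndex_cj relIndex_dvd_of_le_right relIndex_pos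
open scoped commutatorElement


/-- The D*-Theorem. For a finite p-group S let D*(S) be the subgroup generated by the abelian subgroups A of S such that every x ∈ S with ⟨A, x⟩ of nilpotency class at most two centralizes A. Let p be an odd prime and H a finite p-stable group with Sylow p-subgroup S. Here H is p-stable in the following sense: the largest normal p-subgroup O_p(H) contains its centralizer in H, and for every normal p-subgroup P of H, every element acting quadratically on P has image in O_p(H/C_H(P)). Then D*(S) is a normal subgroup of H. -/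
theorem result {G : Type*} [Group G] [Finite G] {p : ℕ} [Fact p.Prime] (hp : p ≠ 2)
    (hc : Subgroup.centralizer (Cfsg.pCore p G : Set G) ≤ Cfsg.pCore p G)
    (hst : ∀ (P : Subgroup G) [P.Normal], IsPGroup p P → Cfsg.IsPStableOn p P) (S : Sylow p G) :
    (Cfsg.dStarOf (S : Subgroup G)).Normal := by
  have hS := sy_top_of_sylow S
  have hD := df_dStar (hl_pi hS)
  set D := dStarOf (S : Subgroup G)
  have h1 : D ≤ pCore p G := fun a ha => by
    have h2 : pCore p G ≤ S := le_hl_of_norm hS le_top le_normalizer_of_normal isPi_pCore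
    have h3 := hst (pCore p G) isPi_pCore.isPGroup a (comm_eq_bot.2 ((commutator_mono le_rfl
      (zpowers_le.2 ha)).trans ((comm_le_right (h2.trans ((le_norm _).trans (norm_dStar _)))).trans
        (comm_cent hD.comm le_rfl (zpowers_le.2 ha)))))
    have h4 : IsPGroup p ((pCore p (G ⧸ C[pCore p G])).comap (QuotientGroup.mk' _)) :=
      isPi_pCore.isPGroup.comap_of_ker_isPGroup _ (by
        rw [QuotientGroup.ker_mk']; exact (isPi_pCore.of_le hc).isPGroup)
    rw [pCore_eq_piCoreOf]
    exact le_piCoreOf le_top le_normalizer_of_normal (pg_iff.2 h4) h3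
  have hT := df_dStar (isPi_pCore (p := p) (G := G))
  have nT : ⊤ ≤ N[dStarOf (pCore p G)] := le_normalizer_of_normal.trans (norm_dStar _)
  have h2 : D ≤ dStarOf (pCore p G) :=
    (hD.of_le h1 (le_hl_of_norm hS le_top le_normalizer_of_normal isPi_pCore)).le_dStar
  let W := sSup {X | ∃ g, X = D :^ g}
  have h3 : W ≤ dStarOf (pCore p G) := sSup_le fun _ ⟨g, e⟩ => e ▸ cj_le_of_norm (nT trivial) h2
  have h4 : ∀ g, D :^ g ≤ W := fun g => le_sSup ⟨g, rfl⟩
  have nW : ⊤ ≤ N[W] := le_norm_closure_cj fun a _ _ ⟨g, e⟩ => ⟨a * g, by rw [e, cj_cj]⟩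
  haveI := normal_of_top nW
  have pW : Pg[p] W := isPi_pCore.of_le (h3.trans hT.le)
  suffices H : DF S W from (show W = D from le_antisymm H.le_dStar ((cj_one D).ge.trans (h4 1))) ▸ this
  refine ⟨le_hl_of_norm hS le_top le_normalizer_of_normal pW, comm_of_le hT.comm h3,
    fun x hx h => le_cent1.1 (sSup_le fun _ ⟨g, e⟩ => e ▸ ?_)⟩
  have h5 := hst W pW.isPGroup x (eq_bot_of_le h (commutator_mono
    (commutator_mono le_sup_left le_sup_right) le_sup_right))
  let L := (pCore p (G ⧸ C[W])).comap (QuotientGroup.mk' _)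
  have nL : ⊤ ≤ N[L] := le_normalizer_of_normal
  have h6 := hl_inf hS le_top (le_top.trans nL)
  have h7 : C[W] ≤ L := fun c hc => by
    rw [mem_comap, QuotientGroup.mk'_apply, (QuotientGroup.eq_one_iff c).2 hc]; exact one_mem _
  have h8 : C[W] ⊔ (S : Subgroup G) ⊓ L = L := by
    refine sup_eq_of_idx (π := {p}) h7 h6.1 ?_ (hl_idx h6)
    have := isPi_pCore (p := p) (G := G ⧸ C[W])
    rw [← QuotientGroup.ker_mk' C[W], relIndex_ker]
    exact (this.of_le (map_comap_le _ _)).nat
  have h9 := sy_frattini_sup h6 le_top nL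
  rw [← congrArg (· ⊔ ⊤ ⊓ N[(S : Subgroup G) ⊓ L]) h8, sup_assoc,
    sup_eq_right.2 (le_inf le_top (le_norm _))] at h9
  obtain ⟨c, hc, n, hn, rfl⟩ := (mem_sup_l le_normalizer_of_normal).1 (h9.ge (mem_top g))
  rw [← cj_cj, cj_cent (cent_anti (h4 n) hc)]
  exact le_cent1.2 ((hD.cj n).cent x (cj_mono n inf_le_left ((cj_norm hn.2).ge ⟨hx, h5⟩))
    (class_two_mono h (h4 n)))

end Cfsg.Agent.S3060
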