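import Cfsg.Statements.S3063
import Cfsg.Agent.H11.Replace

set_option autoImplicit false
open Cfsg

namespace Cfsg.Agent.S3063

/-- A weak replacement Theorem for metabelian p-groups: let S be a finite p-group whose derived subgroup is abelian and A an abelian subgroup of S of largest possible order. Then the normal closure of A in S contains an abelian subgroup B of the same order as A that is normal in S. -/
theorem result {S : Type*} [Group S] [Finite S] {p : ℕ} [Fact p.Prime]
    (hS : IsPGroup p S) (hmeta : IsMulCommutative ↥(commutator S))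
    (A : Subgroup S) (hA : A ∈ Cfsg.maxAbelianSubgroups S) :
    ∃ B ∈ Cfsg.maxAbelianSubgroups S, B.Normal ∧ B ≤ Subgroup.normalClosure (A : Set S) := by
  have := hS.isNilpotent
  obtain ⟨c, hc⟩ := (Subgroup.isNilpotent_iff_lowerCentralSeries (⊤ : Subgroup S)).mp inferInstance
  obtain ⟨B, ⟨hB, hBA⟩, hmax⟩ := Set.exists_max_image
    {B : Subgroup S | B ∈ maxAbelianSubgroups S ∧ B ≤ Subgroup.normalClosure (A : Set S)}
    (fun B => H11.wt c B) (Set.toFinite _) ⟨A, hA, Subgroup.le_normalClosure⟩
  refine ⟨B, hB, ?_, hBA⟩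
  rw [← Subgroup.normalizer_eq_top_iff, eq_top_iff]
  intro x _
  by_contra hx
  have hM : IsMulCommutative (H11.cmx x B) :=
    H11.isMulCommutative_of_le hmeta ((H11.cmx_le_commutator (Subgroup.mem_top x)).trans
      (Subgroup.commutator_mono le_rfl le_top))
  have h1 := H11.repl_isMulCommutative hB.1 hM
  have h2 := H11.repl_card_le (M := H11.cmx x B) (fun z hz => H11.mem_cmx hz)
  have h3 := H11.wt_lt hc (M := H11.cmx x B) (fun z hz => H11.mem_cmx hz) hx
  refine absurd h3 (not_lt.mpr (hmax _ ⟨⟨h1, fun C hC => (hB.2 C hC).trans h2⟩, ?_⟩))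
  refine sup_le ((H11.cmx_le_sup x B).trans (sup_le hBA ?_)) (inf_le_left.trans hBA)
  rw [← H11.map_conj_of_normal (Subgroup.normalClosure (A : Set S)) x]
  exact Subgroup.map_mono hBA

end Cfsg.Agent.S3063
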