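import Cfsg.Statements.S3064
import Cfsg.Agent.H11.ZStar
import Cfsg.Agent.H17.Frob

set_option autoImplicit false
open Cfsg

namespace Cfsg.Agent.S3064

open Subgroup H16

def Hy (p : ℕ) (G : Type*) [Group G] (x : G) : Prop :=
  IsPGroup p (zpowers x) ∧
  (∀ Q : Subgroup G, IsPGroup p Q → x ∈ Q → ∀ g, g * x * g⁻¹ ∈ Q → g * x * g⁻¹ = x) ∧
  ∀ H : Subgroup G, (Nat.card H).Coprime p → x ∈ N[H] → x ∈ C[H]

theorem step {G : Type*} [Group G] [Finite G] {p : ℕ} [hp : Fact p.Prime] {x : G} (h : Hy p G x)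
    (hmin : ∀ L : Subgroup G, L ≠ ⊤ → x ∈ L → L ≤ C1[x]) : x ∈ center G := by
  by_contra hn
  obtain ⟨h0, h1, h2⟩ := h
  have zm : center G ≤ C1[x] := center_le_centralizer _
  have ti : ∀ g ∉ C1[x], ∀ y ∈ C1[x], g * y * g⁻¹ ∈ C1[x] → y ∈ center G := by
    intro g hg y hy hgy
    by_contra hz
    have k := hmin C1[y] (fun e => hz (mem_center_iff.2 fun a => mem_cent1.1 (e ▸ mem_top a)))
      (cent1_comm.1 hy)
    have k2 : g⁻¹ * x * g⁻¹⁻¹ ∈ C1[x] := k (by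
      rw [cent1_comm, cent1_cj, mem_cj] at hgy; simpa using hgy)
    have k3 := h1 (zpowers x ⊔ zpowers x :^ g⁻¹)
      (IsPGroup.to_sup_of_normal_left' h0 (h0.map _) (by
        rw [← zpowers_cj]; exact norm_of_cent (zpowers_le.2 (cent_zpowers x ▸ k2))))
      (mem_sup_left (mem_zpowers x)) g⁻¹ (mem_sup_right (cj_mem (mem_zpowers x)))
    exact hg (mem_cent1.2 (by
      calc g * x = g * (g⁻¹ * x * g⁻¹⁻¹) := by rw [k3]
        _ = x * g := by group))
  set π := QuotientGroup.mk' (center G)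
  have mm : ∀ g, π g ∈ C1[x].map π ↔ g ∈ C1[x] := fun g => by
    rw [← mem_comap, comap_map_eq, QuotientGroup.ker_mk', sup_eq_left.2 zm]
  obtain ⟨N, -, hN, hc⟩ := H17.frobenius_kernel (H := C1[x].map π) (fun a ha b hb hab => by
    obtain ⟨g, rfl⟩ := QuotientGroup.mk'_surjective _ a
    obtain ⟨y, hy, rfl⟩ := hb
    rw [← map_inv, ← map_mul, ← map_mul] at hab
    exact (QuotientGroup.eq_one_iff _).2 (ti g (mt (mm g).2 ha) y hy ((mm _).1 hab)))
  obtain ⟨S, hS, hxS⟩ := sy_exists_ge (p := p) (le_top : zpowers x ≤ ⊤) (pg_iff.2 h0)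
  have hxS := zpowers_le.1 hxS
  have sm : S ≤ C1[x] := fun s hs => mem_cent1.2 (by
    rw [← mul_inv_eq_iff_eq_mul]
    exact h1 S (sy_pg hS) hxS s (mul_mem (mul_mem hs hxS) (inv_mem hs)))
  set K := N.comap π
  have kn : N[K] = ⊤ := normalizer_eq_top K
  have hP : Sy[p] (K ⊓ S) K := hl_inf' hS le_top (kn ▸ le_top)
  have pz : K ⊓ S ≤ center G := fun y hy => (QuotientGroup.eq_one_iff _).1
    (eq_one_of_mem_bot hc.disjoint.eq_bot ⟨hy.1, (mm y).2 (sm hy.2)⟩)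
  have hO := H11.burnside_amb hP fun a _ => mem_cent.2 fun y hy => (mem_center_iff.1 (pz hy) a).symm
  have km : K ≤ C1[x] := hl_sup_compl hP hO ▸ sup_le (pz.trans zm) (le_cent1.2 (h2 _
    ((hp.out.coprime_iff_not_dvd.2 (not_dvd_core hp.out K)).symm)
    (norm_le_norm_core _ K (kn ▸ mem_top x))))
  refine hn (mem_center_iff.2 fun g => mem_cent1.1 ((mm g).1 ?_))
  obtain ⟨⟨⟨a, ha⟩, b⟩, e⟩ := hc.2 (π g)
  obtain ⟨k, rfl⟩ := QuotientGroup.mk'_surjective _ a
  exact e ▸ mul_mem ((mm k).2 (km ha)) b.2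

theorem sub {G : Type*} [Group G] {p : ℕ} {x : G} (h : Hy p G x) {H : Subgroup G} (hx : x ∈ H) :
    Hy p H ⟨x, hx⟩ := by
  refine ⟨fun g => ?_, fun Q hQ k g hg => Subtype.ext (h.2.1 (Q.map H.subtype) (hQ.map _)
    ⟨_, k, rfl⟩ g ⟨_, hg, rfl⟩), fun L hL k => mem_cent.2 fun y hy => Subtype.ext
      (mem_cent.1 (h.2.2 (L.map H.subtype) (by rwa [card_map_of_injective H.subtype_injective])
        (zpowers_le.1 (le_norm_iff.2 ?_))) y ⟨y, hy, rfl⟩)⟩
  · obtain ⟨⟨a, ha⟩, i, hi⟩ := g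
    obtain ⟨n, hn⟩ := h.1 ⟨a, i, congrArg Subtype.val hi⟩
    have := congrArg Subtype.val hn
    exact ⟨n, Subtype.ext (Subtype.ext this)⟩
  · rintro _ ⟨i, rfl⟩ _ ⟨y, hy, rfl⟩
    exact ⟨_, conj_mem (zpow_mem k i) hy, by simp⟩


/-- Let S be a Sylow p-subgroup of the finite group G and x an element of S such that (i) x is the only G-conjugate of x lying in S, and (ii) x centralizes every subgroup of order prime to p that it normalizes. Then x lies in the centre of G. -/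
theorem result {G : Type*} [Group G] [Finite G] {p : ℕ} [Fact p.Prime]
    (S : Sylow p G) (x : G) (hx : x ∈ S)
    (hU : ∀ g : G, g⁻¹ * x * g ∈ S → g⁻¹ * x * g = x)
    (hb : ∀ H : Subgroup G, (Nat.card H).Coprime p → (∀ h ∈ H, x * h * x⁻¹ ∈ H) → ∀ h ∈ H, x * h = h * x) :
    x ∈ Subgroup.center G := by
  have h : Hy p G x := ⟨S.2.to_le (zpowers_le.2 hx), fun Q hQ k g hg => ?_, fun H hH k =>
    mem_cent.2 fun y hy => (hb H hH (fun a ha => conj_mem k ha) y hy).symm⟩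
  · have k : ∀ H : Subgroup G, x ∈ H → H ≤ C1[x] := ind_down fun H ih hH y hy => by
      have k := step (sub h hH) fun L hL k z hz => mem_cent1.2 (Subtype.ext (mem_cent1.1
        (ih (L.map H.subtype) (lt_of_le_of_ne (map_subtype_le L) fun e => hL
          (map_injective H.subtype_injective (by rw [e, ← MonoidHom.range_eq_map, range_subtype]))) ⟨_, k, rfl⟩ ⟨z, hz, rfl⟩)))
      exact mem_cent1.2 (congrArg Subtype.val (mem_center_iff.1 k ⟨y, hy⟩))
    exact mem_center_iff.2 fun g => mem_cent1.1 (k ⊤ trivial trivial)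
  obtain ⟨a, -, ha⟩ := sy_conj_le (sy_top_of_sylow S) le_top (pg_iff.2 hQ)
  have k1 := hU a⁻¹ (by simpa using ha (cj_mem k))
  have k2 := hU (a * g)⁻¹ (by simpa [mul_assoc] using ha (cj_mem hg))
  rw [inv_inv] at k1 k2
  calc g * x * g⁻¹ = a⁻¹ * (a * g * x * (a * g)⁻¹) * a := by group
    _ = a⁻¹ * (a * x * a⁻¹) * a := by rw [k1, k2]
    _ = x := by group

end Cfsg.Agent.S3064
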