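import Cfsg.Statements.S3067
import Cfsg.Agent.H18.Ga3

set_option autoImplicit false
open Cfsg

namespace Cfsg.Agent.S3067

open Subgroup SemidirectProduct

/-- Let G be a finite non-abelian simple group, τ an involution of G, and α a nontrivial automorphism of G whose order is coprime to the order of G. Then α moves some element of the centralizer of τ: α does not fix C_G(τ) elementwise. -/
theorem result {G : Type*} [Group G] [Finite G] [IsSimpleGroup G]
    (hG : ¬ IsMulCommutative G) (τ : G) (hτ : orderOf τ = 2) (α : MulAut G) (hα : α ≠ 1)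
    (hcop : (orderOf α).Coprime (Nat.card G)) :
    ∃ c ∈ Subgroup.centralizer ({τ} : Set G), α c ≠ c := by
  by_contra hc
  push Not at hc
  obtain ⟨r, hr, hd⟩ := Nat.exists_prime_and_dvd (fun e => hα (orderOf_eq_one_iff.1 e))
  have hrG : ¬ r ∣ Nat.card G := fun e =>
    hr.one_lt.ne' (Nat.eq_one_of_dvd_coprimes hcop hd e)
  set β := α ^ (orderOf α / r) with hβ
  have hoβ : orderOf β = r := orderOf_pow_orderOf_div (orderOf_pos α).ne' hd
  have hpow : ∀ (n : ℕ) c, c ∈ centralizer ({τ} : Set G) → (α ^ n) c = c := fun n c h => by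
    induction n with
    | zero => rfl
    | succ n ih => rw [pow_succ, MulAut.mul_apply, hc c h, ih]
  have hfix : ∀ b : zpowers β, ∀ c ∈ centralizer ({τ} : Set G), (b : MulAut G) c = c := by
    rintro ⟨b, hb⟩ c h
    obtain ⟨k, rfl⟩ := mem_powers_iff_mem_zpowers.2 hb
    simp only [hβ, ← pow_mul]
    exact hpow _ c h
  let Γ := G ⋊[(zpowers β).subtype] zpowers β
  have : Finite Γ := Finite.of_equiv _ SemidirectProduct.equivProd.symm
  let b : zpowers β := ⟨β, mem_zpowers β⟩
  have hob : orderOf b = r := by rw [← orderOf_coe, hoβ]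
  have key : ∀ x : G, Commute (inl x : Γ) (inr b) ↔ β x = x := fun x => by
    rw [← inl_inj (φ := (zpowers β).subtype)]
    have := inl_aut (φ := (zpowers β).subtype) b x
    simp only [coe_subtype, b] at this
    rw [this, map_inv, mul_inv_eq_iff_eq_mul, commute_iff_eq, eq_comm]
  have h : H18.Ga.Hy r (inl : G →* Γ).range (inr b) (inl τ) :=
    { pr := hr
      odd := fun e => hrG (e ▸ hτ ▸ orderOf_dvd_natCard τ)
      nK := by rw [range_inl_eq_ker_rightHom]; infer_instance
      oa := by rw [orderOf_injective _ inr_injective, hob]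
      cop := by rwa [← Nat.card_congr (MonoidHom.ofInjective inl_injective).toEquiv]
      gen := fun g => by
        obtain ⟨k, hk⟩ := mem_powers_iff_mem_zpowers.2 g.right.2
        refine ⟨k, g.left, ?_⟩
        rw [eq_mul_inv_iff_mul_eq, ← map_pow, show b ^ k = g.right from Subtype.ext hk,
          inl_left_mul_inr_right]
      os := by rw [orderOf_injective _ inl_injective, hτ]
      cen := fun g hg => by
        have h1 := congrArg SemidirectProduct.left hg.eq
        simp only [mul_left, left_inl, right_inl, map_one, MulAut.one_apply, coe_subtype,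
          hfix g.right τ (mem_centralizer_singleton_iff.2 rfl)] at h1
        rw [← inl_left_mul_inr_right g]
        refine Commute.mul_left ((key _).2 (hfix b _ (mem_centralizer_singleton_iff.2 h1)))
          (Commute.map ?_ _)
        obtain ⟨k, hk⟩ := g.right.2
        rw [show g.right = b ^ k from Subtype.ext hk.symm]
        exact (Commute.refl b).zpow_left k }
  have ha := h.mem_core
  have hn := h.nK
  have hbot : (pPrimeCore 2 Γ).comap (inl : G →* Γ) = ⊥ :=
    (Normal.eq_bot_or_eq_top inferInstance).resolve_right fun e =>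
      H1.not_dvd_card_pPrimeCore (G := Γ) Nat.prime_two (by
        have h1 : τ ∈ (pPrimeCore 2 Γ).comap (inl : G →* Γ) := e ▸ mem_top τ
        have h2 := Subgroup.orderOf_dvd_natCard _ (mem_comap.1 h1)
        rwa [h.os] at h2)
  refine hr.one_lt.ne' (hoβ.symm.trans (orderOf_eq_one_iff.2 (MulEquiv.ext fun x => ?_)))
  have h1 : β x * x⁻¹ ∈ (pPrimeCore 2 Γ).comap (inl : G →* Γ) := by
    have := inl_aut (φ := (zpowers β).subtype) b x
    simp only [coe_subtype, b] at this
    rw [mem_comap, map_mul, this, map_inv, map_inv, mul_assoc, mul_assoc, ← mul_assoc (inl x)]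
    exact mul_mem ha (Normal.conj_mem inferInstance _ (inv_mem ha) _)
  rw [hbot, mem_bot, mul_inv_eq_one] at h1
  exact h1

end Cfsg.Agent.S3067
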