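import Cfsg.Statements.S3071
import Cfsg.Agent.H3.FZJ
import Cfsg.Agent.H14.Grp

set_option autoImplicit false
open Cfsg

namespace Cfsg.Agent.S3071

/-- Let p be an odd prime and S a Sylow p-subgroup of the finite group G such that, for every subgroup P with Z(S) ≤ P ≤ S, the normalizer N_G(P) has no section isomorphic to SL₂(p). Let J(S) be the subgroup generated by the abelian subgroups of S of largest order. Then two elements of S are conjugate in G if and only if they are conjugate in N_G(Z(J(S))). -/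
theorem result {G : Type*} [Group G] [Finite G] {p : ℕ} [Fact p.Prime]
    (hp : p ≠ 2) (S : Sylow p G)
    (hfree : ∀ P : Subgroup G, (S : Subgroup G) ⊓ Subgroup.centralizer ((S : Subgroup G) : Set G) ≤ P → P ≤ S →
      ¬ ∃ (H K : Subgroup G) (hK : (K.subgroupOf H).Normal), H ≤ Subgroup.normalizer (P : Set G) ∧
        Nonempty ((H ⧸ K.subgroupOf H) ≃* Matrix.SpecialLinearGroup (Fin 2) (ZMod p))) :
    ∀ x ∈ S, ∀ y ∈ S, (∃ g : G, g * x * g⁻¹ = y) ↔
      ∃ n ∈ Subgroup.normalizer (Cfsg.centerThompsonAOf (S : Subgroup G) : Set G), n * x * n⁻¹ = y := by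
  have hq : ¬ H3.QdInv p (groupFusionSystem (S : Subgroup G)) := fun h => by
    obtain ⟨R, -, hc, -, h1⟩ := h.exists_cr S.2 (H13.saturated_group S)
    rw [H13.group_eq_ofSubgroup] at h1
    have h2 := (H3.isSec_qd_of_qdInv (h1 _ (H14.Fus.isNormalizerSystem_ofSubgroup hc.1))).trans H4.isSec_sl2_qd
    exact hfree R ((inf_le_inf_left _ (Subgroup.centralizer_le hc.1)).trans (H13.centric_le hc)) hc.1
      (H4.isSec_iff.1 (h2.mono inf_le_right))
  intro x hx y hy
  refine ⟨?_, fun ⟨n, _, e⟩ => ⟨n, e⟩⟩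
  rintro ⟨g, rfl⟩
  obtain ⟨n, hn, e⟩ := (H3.controls_of_normal (H3.normal_zj_of_not_qdInv hp (Or.inl rfl) S.2
    (H13.saturated_group S) hq) {x} (by simpa using hx)).2 g (by simpa using hy)
  exact ⟨n, H4.centerThompsonAOf_eq (S : Subgroup G) ▸ hn, (e x rfl).symm⟩

end Cfsg.Agent.S3071
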