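import Cfsg.Statements.S3074
import Cfsg.Agent.H12.QdX
import Cfsg.Agent.H7.Heisen

set_option autoImplicit false
open Cfsg

namespace Cfsg.Agent.S3074

open H12 Subgroup H7

/-- Let p be an odd prime. A Sylow p-subgroup of Qd(p), the split extension of an elementary abelian group of order p² by SL₂(p) acting naturally, is extraspecial of order p³ and exponent p. -/
theorem result (p : ℕ) [Fact p.Prime] (hp : p ≠ 2) (P : Sylow p ↥(Cfsg.qd p)) :
    Cfsg.IsExtraspecial p ↥P ∧ Nat.card P = p ^ 3 ∧ Monoid.exponent ↥P = p := by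
  obtain ⟨g, -, hg⟩ := (sylIn_top P).exists_cj_eq (sylIn_qS (p := p) (F := ZMod p))
  let f : Heisen 1 (ZMod p) →* qS (ZMod p) := MonoidHom.mk' (fun a => heis (a.x 0) a.z (a.y 0))
    fun a b => by simp [heis_mul, dotProduct]
  have hf : Function.Bijective f := by
    refine ⟨fun a b h => ?_, fun x => ?_⟩
    · obtain ⟨h1, h2, h3⟩ := heis_inj.1 h
      exact Heisen.ext (funext fun i => by rwa [Subsingleton.elim i 0])
        (funext fun i => by rwa [Subsingleton.elim i 0]) h2
    · obtain ⟨t, a, b, rfl⟩ := heis_surj x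
      exact ⟨⟨fun _ => t, fun _ => b, a⟩, rfl⟩
  let e : Heisen 1 (ZMod p) ≃* P :=
    (MulEquiv.ofBijective f hf).trans ((cjEquiv _ g).trans (MulEquiv.subgroupCongr hg))
  have h1 := Heisen.isES.isExtraspecial (Heisen.zpowers_ne_top (p := p) le_rfl)
  refine ⟨isExtraspecial_of_equiv h1 e, ?_, ?_⟩
  · rw [← Nat.card_congr e.toEquiv, Heisen.card_eq, Nat.card_zmod]
  · refine (Monoid.exponent_eq_of_mulEquiv e).symm.trans ?_
    have : Nontrivial (Heisen 1 (ZMod p)) := ⟨⟨⟨0, 0, 1⟩, 1, fun h => one_ne_zero (congrArg Heisen.z h)⟩⟩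
    exact (Monoid.exponent_eq_prime_iff Fact.out).2 fun g hg =>
      orderOf_eq_prime (Heisen.pow_prime hp g) hg

end Cfsg.Agent.S3074
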