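import Cfsg.Statements.S3075
import Cfsg.Agent.H12.SylN
import Cfsg.Agent.H9.SmallAut
import Cfsg.Agent.S0055

set_option autoImplicit false
open Cfsg

namespace Cfsg.Agent.S3075

open Subgroup H10 H12
open scoped commutatorElement

theorem cyc {G : Type*} [Group G] [Finite G] {p : ℕ} [hp : Fact p.Prime] {A X : Subgroup G}
    (hA : Nat.card A = p ^ 2) (h : X < A) : IsCyclic X := by
  have h1 := card_dvd_of_le h.le
  have h2 := card_lt_of_lt h
  rw [hA] at h1 h2
  obtain ⟨k, hk, e⟩ := (Nat.dvd_prime_pow hp.out).1 h1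
  interval_cases k
  · haveI := (Nat.card_eq_one_iff_unique.1 (e.trans (pow_zero p))).1
    infer_instance
  · exact isCyclic_of_prime_card (e.trans (pow_one p))
  · omega

/-- Let p be an odd prime and N a finite group with a normal elementary abelian subgroup A of order p² that is its own centralizer in N, such that N/A is isomorphic to SL₂(p) (over any field F with p elements). Then N splits over A: some subgroup U of N satisfies A ∩ U = 1 and AU = N. -/
theorem result {N : Type*} [Group N] [Finite N] {p : ℕ} [Fact p.Prime] (hp : p ≠ 2)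
    (A : Subgroup N) [A.Normal] (hAcomm : IsMulCommutative A) (hAcard : Nat.card A = p ^ 2) (hAexp : Monoid.exponent ↥A = p)
    (hAself : Subgroup.centralizer (A : Set N) = A)
    {F : Type*} [Field F] [Fintype F] (hF : Fintype.card F = p) (e : N ⧸ A ≃* Matrix.SpecialLinearGroup (Fin 2) F) :
    ∃ U : Subgroup N, A ⊓ U = ⊥ ∧ A ⊔ U = ⊤ := by
  have pp : p.Prime := Fact.out
  have hodd : Odd p := pp.odd_of_ne_two hp
  let φ : N →* Matrix.SpecialLinearGroup (Fin 2) F := e.toMonoidHom.comp (QuotientGroup.mk' A)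
  have hφ : Function.Surjective φ := e.surjective.comp (QuotientGroup.mk'_surjective A)
  have hk : ∀ g, φ g = 1 ↔ g ∈ A := fun g => by
    simp only [φ, MonoidHom.comp_apply, MulEquiv.coe_toMonoidHom, EmbeddingLike.map_eq_one_iff]
    exact QuotientGroup.eq_one_iff g
  have hAp : ∀ a ∈ A, a ^ p = 1 := fun a ha => by
    have := Monoid.pow_exponent_eq_one (⟨a, ha⟩ : A)
    rw [hAexp] at this
    exact congrArg Subtype.val this
  obtain ⟨g, hg⟩ := hφ (-1)
  have h2 : (2 : F) ≠ 0 := by
    intro h
    have h3 : (p : F) = 0 := by rw [← hF]; exact FiniteField.cast_card_eq_zero F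
    obtain ⟨k, hk⟩ := hodd
    rw [hk] at h3
    push_cast at h3
    rw [h, zero_mul, zero_add] at h3
    exact one_ne_zero h3
  set t := g ^ p
  have ht : φ t = -1 := by rw [map_pow, hg, hodd.neg_one_pow]
  have tt : t ^ 2 = 1 := by
    rw [← pow_mul, mul_comm, pow_mul]
    exact hAp _ ((hk _).1 (by rw [map_pow, hg]; simp))
  have tA : t ∉ A := fun h => by
    have := congrArg (fun m : Matrix.SpecialLinearGroup (Fin 2) F => m.1 0 0) (((hk t).2 h).symm.trans ht)
    apply h2
    have : (1 : F) = -1 := by simpa using this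
    linear_combination this
  haveI : Fact (Nat.Prime 2) := ⟨Nat.prime_two⟩
  have t2 : orderOf t = 2 := orderOf_eq_prime tt fun e => tA (e ▸ one_mem A)
  have hcop : (Nat.card (zpowers t)).Coprime (Nat.card A) := by
    rw [Nat.card_zpowers, t2, hAcard]
    exact Nat.Coprime.pow_right 2 ((Nat.coprime_primes Nat.prime_two pp).2 hp.symm)
  have hAs : Group.IsSolvable A := Group.isSolvable_of_comm fun a b => mul_comm' a b
  have hsup : A ⊔ CC(zpowers t) = ⊤ := by
    have := H1.sup_inf_centralizer_eq_of_commutator_le (A := zpowers t) (K := ⊤) (N := A) le_top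
      (le_NN_of_normal _ _) hcop (Or.inr hAs) (by
        rw [commutator_le]
        rintro x - _ ⟨k, rfl⟩
        rw [← hk, map_commutatorElement, map_zpow, ht, commutatorElement_eq_one_iff_commute]
        exact (Commute.neg_one_right _).zpow_right k)
    rwa [top_inf_eq] at this
  refine ⟨CC(zpowers t), ?_, hsup⟩
  by_contra hX
  have hAA : A ≤ CC(A) := hAself.ge
  have n1 : (A ⊓ CC(zpowers t)).Normal := normal_of_top_le_NN (hsup.ge.trans (sup_le
    (hAA.trans ((CC_anti inf_le_left).trans (CC_le_NN _)))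
    (le_NN_inf (le_NN_of_normal _ _) (le_NN_self _))))
  have n2 : (⁅A, zpowers t⁆).Normal := normal_of_top_le_NN (hsup.ge.trans (sup_le
    (left_le_NN_comm _ _) (le_NN_commutator (le_NN_of_normal _ _) (CC_le_NN _))))
  have l1 : A ⊓ CC(zpowers t) < A := inf_le_left.lt_of_ne fun e =>
    tA (hAself.le (le_CC_symm (e.ge.trans inf_le_right) (mem_zpowers t)))
  have l2 : ⁅A, zpowers t⁆ < A := (comm_le_left (le_NN_of_normal _ _)).lt_of_ne fun e =>
    hX (by
      have := (Cfsg.Agent.S0055.result (zpowers t) A (le_NN_of_normal _ _) hcop).1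
      rwa [e, inf_eq_left.2 inf_le_left] at this)
  have c1 := H9.commutator_le_centralizer_of_isCyclic _ (cyc hAcard l1)
  have c2 := H9.commutator_le_centralizer_of_isCyclic _ (cyc hAcard l2)
  have c3 : commutator N ≤ A := by
    rw [← hAself, ← H1.commutator_sup_centralizer (A := zpowers t) (K := A) (le_NN_of_normal _ _) hcop
      (Or.inr hAs), CC_sup]
    exact le_inf c2 c1
  obtain ⟨a, ha⟩ := hφ ⟨!![1, 1; 0, 1], by simp [Matrix.det_fin_two]⟩
  obtain ⟨b, hb⟩ := hφ ⟨!![1, 0; 1, 1], by simp [Matrix.det_fin_two]⟩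
  have := (hk _).2 (c3 (commutator_mem_commutator (mem_top a) (mem_top b)))
  rw [map_commutatorElement, commutatorElement_eq_one_iff_mul_comm, ha, hb] at this
  have : (!![1, 1; 0, 1] * !![1, 0; 1, 1] : Matrix (Fin 2) (Fin 2) F) =
      !![1, 0; 1, 1] * !![1, 1; 0, 1] := congrArg Subtype.val this
  have := congrFun (congrFun this 0) 0
  simp [Matrix.mul_apply, Fin.sum_univ_two] at this

end Cfsg.Agent.S3075
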