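import Cfsg.Statements.S3078
import Cfsg.Agent.H4.Glaub
import Cfsg.Agent.H10.Act

set_option autoImplicit false
open Cfsg

namespace Cfsg.Agent.S3078

open Subgroup H10 H4
open scoped commutatorElement

/-- A replacement Theorem for abelian subgroups of p-groups, p odd. Let G be a finite p-group with p odd, A an abelian subgroup of G, and B a subgroup of nilpotency class at most 2 with [B, B] ≤ A, such that A normalizes B but B does not normalize A. Then there is an abelian subgroup A* of G of the same order as A with A ∩ B strictly contained in A* ∩ B, A* contained in N_G(A) and in the normal closure of A, the exponent of A* dividing the exponent of A, and with the subgroup generated by the elements of order dividing p in A of order at most that of the corresponding subgroup of A* (the rank of A is at most the rank of A*). -/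
theorem result {G : Type*} [Group G] [Finite G] {p : ℕ} [Fact p.Prime] (hp : p ≠ 2) (hG : IsPGroup p G) (A B : Subgroup G) (hA : IsMulCommutative A) (hB2 : ⁅⁅B, B⁆, B⁆ = ⊥) (hBA : ⁅B, B⁆ ≤ A) (hAB : A ≤ Subgroup.normalizer (B : Set G)) (hBnA : ¬ B ≤ Subgroup.normalizer (A : Set G)) : ∃ Astar : Subgroup G, IsMulCommutative Astar ∧ Nat.card Astar = Nat.card A ∧ A ⊓ B < Astar ⊓ B ∧ Astar ≤ Subgroup.normalizer (A : Set G) ∧ Astar ≤ Subgroup.normalClosure (A : Set G) ∧ Monoid.exponent Astar ∣ Monoid.exponent A ∧ Nat.card (Cfsg.omegaOne p A) ≤ Nat.card (Cfsg.omegaOne p Astar) := by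
  have pp : p.Prime := Fact.out
  have hS : IsPGroup p (A ⊔ B : Subgroup G) := hG.to_subgroup _
  have hSB : A ⊔ B ≤ NN(B) := sup_le hAB (le_NN_self _)
  obtain ⟨b, hb, h1, h2⟩ := exists_mem_normalizer_normalizer hS le_sup_right hSB hBnA
  have h := (gHyp_of le_sup_left hSB hA hBA hb h1).1
  have h3 : IsMulCommutative B ∨ ∀ w ∈ B, w ^ 2 = 1 → w = 1 :=
    Or.inr (eq_one_of_sq_of_isPGroup hp (hG.to_subgroup B))
  have hc := h.comm_gStar h3
  refine ⟨gStar A B b, hc, h.card_gStar, h.inf_lt h2, h.gStar_le_norm, ?_, ?_, ?_⟩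
  · refine GHyp.gStar_le.trans (sup_le le_normalClosure ?_)
    rintro _ ⟨a, ha, rfl⟩
    exact (normalClosure_normal).conj_mem a (subset_normalClosure ha) _
  · have hodd : Odd (Monoid.exponent A) := by
      obtain ⟨k, hk⟩ := (IsPGroup.iff_card.1 (hG.to_subgroup A))
      exact Odd.of_dvd_nat (hk ▸ (pp.odd_of_ne_two hp).pow) Group.exponent_dvd_nat_card
    have := h.elemAb_gStar h3 (Or.inr hodd) ⟨hA, fun x hx =>
      congrArg Subtype.val (Monoid.pow_exponent_eq_one (⟨x, hx⟩ : A))⟩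
    exact Monoid.exponent_dvd_of_forall_pow_eq_one fun x => Subtype.ext (this.2 x x.2)
  set A' := A.map (MulAut.conj b⁻¹).toMonoidHom with hA'
  set D := A ⊓ A'
  set A₁ := omegaOne p A
  set A₂ := omegaOne p A'
  set E := omegaOne p (gStar A B b)
  have hcomm : ⁅A ⊔ A', A ⊔ A'⁆ ≤ D := h.comm_sup_le
  have nn : ∀ X Y : Subgroup G, X ≤ A ⊔ A' → Y ≤ A ⊔ A' → D ≤ Y → X ≤ NN(Y) := fun X Y x y d =>
    le_NN_of_comm_le_right ((commutator_mono x y).trans (hcomm.trans d))
  have dD : D ≤ A ⊔ A' := inf_le_left.trans le_sup_left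
  have dS : D ≤ gStar A B b := le_sup_left
  have x1 : A₁ ⊔ D ≤ A := sup_le (H4.omegaOne_le _) inf_le_left
  have y1 : E ⊔ D ≤ gStar A B b := sup_le (H4.omegaOne_le _) dS
  have z1 : A₂ ⊔ D ≤ A' := sup_le (H4.omegaOne_le _) inf_le_right
  have c1 := card_sup_mul_card_inf (nn (A₁ ⊔ D) (E ⊔ D) (x1.trans le_sup_left)
    (y1.trans GHyp.gStar_le) le_sup_right)
  have c2 := card_sup_mul_card_inf (nn (A₁ ⊔ D) (A₂ ⊔ D) (x1.trans le_sup_left)
    (z1.trans le_sup_right) le_sup_right)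
  rw [show (A₁ ⊔ D) ⊓ (E ⊔ D) = D from le_antisymm ((inf_le_inf x1 y1).trans h.inf_gStar.le)
    (le_inf le_sup_right le_sup_right)] at c1
  rw [show (A₁ ⊔ D) ⊓ (A₂ ⊔ D) = D from le_antisymm (inf_le_inf x1 z1)
    (le_inf le_sup_right le_sup_right)] at c2
  have e2 : A₂ = A₁.map (MulAut.conj b⁻¹).toMonoidHom :=
    (map_omegaOne_of_injective A (MulAut.conj b⁻¹).injective).symm
  have le1 : (A₁ ⊔ D) ⊔ (A₂ ⊔ D) ≤ (A₁ ⊔ D) ⊔ (E ⊔ D) := by
    refine sup_le le_sup_left (sup_le ?_ (le_sup_right.trans le_sup_left))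
    rw [e2]
    rintro _ ⟨a, ha, rfl⟩
    have ha' := (H4.mem_omegaOne_iff hA).1 ha
    have e : (MulAut.conj b⁻¹).toMonoidHom a = (b⁻¹ * a * b * a⁻¹) * a := by simp
    rw [e]
    refine mul_mem (mem_sup_right (mem_sup_left (H4.mem_omegaOne ?_ ?_)))
      (mem_sup_left (mem_sup_left ha))
    · rw [h.gStar_eq]; exact mem_sup_right (mem_bComm ha'.1)
    have h1 : b⁻¹ * a * b ∈ A ⊔ A' := mem_sup_right ⟨a, ha'.1, by simp⟩
    have h3 : a⁻¹ ∈ A ⊔ A' := mem_sup_left (inv_mem ha'.1)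
    have hc := hcomm (commutator_mem_commutator h3 h1)
    have hp1 : a⁻¹ ^ p = 1 := by rw [inv_pow, ha'.2, inv_one]
    have k1 : Commute a⁻¹ ⁅a⁻¹, b⁻¹ * a * b⁆ := h.inf_le_cent hc _ h3
    rw [H9.mul_pow_of_odd (h.inf_le_cent hc _ h1) k1 (pp.odd_of_ne_two hp)
      (by rw [← commutator_pow_of_commute k1, hp1, commutatorElement_one_left]), hp1, mul_one]
    have := conj_pow (a := b⁻¹) (b := a) (i := p)
    rw [inv_inv] at this
    rw [this, ha'.2]; simp
  have c3 : Nat.card (A₂ ⊔ D : Subgroup G) ≤ Nat.card (E ⊔ D : Subgroup G) := by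
    refine Nat.le_of_mul_le_mul_left (c2 ▸ c1 ▸ Nat.mul_le_mul_right _ (card_le_of_le le1))
      Nat.card_pos
  have c4 := card_sup_mul_card_inf (nn E D ((H4.omegaOne_le _).trans GHyp.gStar_le) dD le_rfl)
  have c5 := card_sup_mul_card_inf (nn A₂ D ((H4.omegaOne_le _).trans le_sup_right) dD le_rfl)
  have c6 : A₂ ⊓ D ≤ E ⊓ D := fun x hx =>
    ⟨H4.mem_omegaOne (dS hx.2) ((H4.mem_omegaOne_iff h.comm').1 hx.1).2, hx.2⟩
  have c7 : Nat.card A₂ = Nat.card A₁ := by
    rw [e2, card_map_of_injective (MulAut.conj b⁻¹).injective]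
  rw [← c7]
  refine Nat.le_of_mul_le_mul_right (c4 ▸ c5 ▸ Nat.mul_le_mul c3 (card_le_of_le c6))
    (Nat.card_pos (α := D))

end Cfsg.Agent.S3078
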