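import Cfsg.Statements.S3081
import Cfsg.Agent.H3.FZJ

set_option autoImplicit false
open Cfsg

namespace Cfsg.Agent.S3081

/-- Let p be an odd prime, G a finite group in which Qd(p) (the natural semidirect product of an elementary abelian group of order p² by SL₂(p)) is not involved, P a Sylow p-subgroup and D a subgroup of P strongly closed in P with respect to G. Then N_G(Z(J(D))) controls strong G-fusion in P (for every subset A of P and every g ∈ G with gAg⁻¹ ⊆ P, some element of that normalizer acts on A exactly as g does; J(D) is generated by the abelian subgroups of D of largest order), and so does N_G(Ω₁(Z(J_e(D)))) (J_e(D) generated by the elementary abelian subgroups of largest order). -/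
theorem result {G : Type*} [Group G] [Finite G] {p : ℕ} [Fact p.Prime] (hp : p ≠ 2) (P : Sylow p G) (D : Subgroup G) (hD : Cfsg.IsStronglyClosed D (P : Subgroup G)) (hqd : ¬ Cfsg.Involves ↥(Cfsg.qd p) G) : (∀ A : Set G, A ⊆ (P : Subgroup G) → Cfsg.ControlsStrongFusionOf (Subgroup.normalizer ((Cfsg.centerThompsonAOf D) : Set G)) (P : Subgroup G) A) ∧ (∀ A : Set G, A ⊆ (P : Subgroup G) → Cfsg.ControlsStrongFusionOf (Subgroup.normalizer ((Cfsg.omegaOne p (Cfsg.centerThompsonOf p D)) : Set G)) (P : Subgroup G) A) := by
  have h := fun n hn => H3.normal_zj_sc_of_not_qdInv (n := n) hp hn P.2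
    (H13.saturated_group P) (fun h2 => by
      rw [H13.group_eq_ofSubgroup] at h2
      exact hqd (H3.involves_iff_isSec.2 (H3.isSec_qd_of_qdInv h2))) (H3.sc_group_iff.2 hD)
  refine ⟨?_, H3.controls_of_normal (h p (Or.inr rfl))⟩
  rw [H4.centerThompsonAOf_eq, ← H4.omegaOne_zero (centerThompsonOf 0 D)]
  exact H3.controls_of_normal (h 0 (Or.inl rfl))

end Cfsg.Agent.S3081
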