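import Cfsg.Statements.S3082
import Cfsg.Agent.H3.FZJ

set_option autoImplicit false
open Cfsg

namespace Cfsg.Agent.S3082

/-- The Glauberman–Thompson normal p-complement criterion for strongly closed subgroups, p odd. Let G be a finite group, P a Sylow p-subgroup and D a subgroup of P strongly closed in P with respect to G. If N_G(Z(J(D))) has a normal p-complement (J(D) generated by the abelian subgroups of D of largest order), or N_G(Ω₁(Z(J_e(D)))) has one (J_e(D) generated by the elementary abelian subgroups of largest order), then G has a normal p-complement. -/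
theorem result {G : Type*} [Group G] [Finite G] {p : ℕ} [Fact p.Prime] (hp : p ≠ 2) (P : Sylow p G) (D : Subgroup G) (hD : Cfsg.IsStronglyClosed D (P : Subgroup G)) (h : Cfsg.HasNormalPComplement p ↥(Subgroup.normalizer ((Cfsg.centerThompsonAOf D) : Set G)) ∨ Cfsg.HasNormalPComplement p ↥(Subgroup.normalizer ((Cfsg.omegaOne p (Cfsg.centerThompsonOf p D)) : Set G))) : Cfsg.HasNormalPComplement p G := by
  have key : ∀ n, (n = 0 ∨ n = p) → HasNormalPComplement p
      (Subgroup.normalizer ((omegaOne n (centerThompsonOf n D)) : Set G)) →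
      HasNormalPComplement p G := fun n hn h => by
    refine (H3.isInner_group_iff P).1 (H3.isInner_of_zj_sc hp hn P.2 (H13.saturated_group P)
      (H3.sc_group_iff.2 hD) fun Q σ h1 _ h3 h4 => ?_)
    have hP : (P : Subgroup G) ≤ _ := (H3.sc_le_normalizer hD).trans
      ((H4.normalizer_le_normalizer_centerThompsonOf (n := n) D).trans
        (H4.normalizer_le_normalizer_omegaOne (n := n) _))
    obtain ⟨h5, h6, g, e⟩ := H13.mor_group_iff.1 h3
    have hg := H13.maps_cj_iff.1 (h4.congr (τ := H13.cj g) fun x hx => e x (h1 hx))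
    obtain ⟨u, hu, e'⟩ := H3.fusion_of_hasNormalPComplement h (P.subtype hP) ⟨g, hg⟩
    refine H13.mor_inner_iff.2 ⟨h5, u, hu, fun x hx => ?_⟩
    rw [e x hx]
    exact congrArg Subtype.val (e' ⟨x, hP (h5 hx)⟩ (h5 hx) (by
      have := h6 x hx
      rw [e x hx] at this
      exact this))
  rcases h with h | h
  · exact key 0 (Or.inl rfl) (by rwa [H4.omegaOne_zero, ← H4.centerThompsonAOf_eq])
  · exact key p (Or.inr rfl) h

end Cfsg.Agent.S3082
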