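import Cfsg.Statements.S3086
import Cfsg.Agent.H1.PGV7
import Cfsg.Agent.H25.Prim
import Cfsg.Agent.H5.Component

set_option autoImplicit false
open Cfsg

namespace Cfsg.Agent.S3086



/-- The P(G,V)-theorem. Let p be a prime, G a finite group acting faithfully and linearly on a finite vector space V over the field with p elements, and A a nontrivial elementary abelian p-subgroup of G such that |A|·|C_V(A)| ≥ |B|·|C_V(B)| for every subgroup B of A. Then A normalizes every component (subnormal quasisimple subgroup) of G. -/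
theorem result {G V : Type*} [Group G] [Finite G] [AddCommGroup V] [Finite V] (p : ℕ) [Fact p.Prime] [Module (ZMod p) V]
    (ρ : Representation (ZMod p) G V) (hρ : Function.Injective ρ)
    (A : Subgroup G) (hA : A ≠ ⊥) (hAel : Cfsg.IsElementaryAbelian p A)
    (hP : ∀ B : Subgroup G, B ≤ A →
      Nat.card ↥B * Nat.card {v : V // ∀ b ∈ B, ρ b v = v} ≤ Nat.card ↥A * Nat.card {v : V // ∀ a ∈ A, ρ a v = v}) :
    ∀ K : Subgroup G, Cfsg.IsComponent K → A ≤ Subgroup.normalizer (K : Set G) := by
  classical
  intro K hK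
  by_contra hn
  letI : CommGroup A := { (inferInstance : Group A) with mul_comm := hAel.1.is_comm.comm }
  let D : H1.PGV.Dat K A (Module.End (ZMod p) V) :=
    { i := (MonoidHom.toHomUnits ρ).comp K.subtype
      j := (MonoidHom.toHomUnits ρ).comp A.subtype
      B := (Subgroup.normalizer (K : Set G)).subgroupOf A
      β := fun a => if h : (a : G) ∈ Subgroup.normalizer (K : Set G) then
        K.normalizerMonoidHom ⟨a, h⟩ else 1
      hβ := fun b hb k => by
        rw [dif_pos (Subgroup.mem_subgroupOf.1 hb)]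
        simp only [MonoidHom.comp_apply, ← map_inv, ← map_mul]
        rfl
      hc := fun a ha k l => by
        have h1 := H5.compOf_top_iff.2 hK
        have h2 := h1.map (MulAut.conj (a : G)).toMonoidHom fun h =>
          h1.ne_bot ((Subgroup.map_eq_bot_iff_of_injective _ (MulAut.conj (a : G)).injective).1 h)
        rw [Subgroup.map_top_of_surjective _ (MulAut.conj (a : G)).surjective] at h2
        have h3 := h1.commutator_eq_bot h2 fun h => ha (by
          rw [Subgroup.mem_subgroupOf, Subgroup.mem_normalizer_iff_map_conj_eq]; exact h.symm)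
        have h4 : Commute (k : G) (a * l * (a : G)⁻¹) := by
          rw [← commutatorElement_eq_one_iff_commute, ← Subgroup.mem_bot, ← h3]
          exact Subgroup.commutator_mem_commutator k.2 ⟨l, l.2, rfl⟩
        have h5 := h4.map (MonoidHom.toHomUnits ρ)
        rw [map_mul, map_mul, map_inv] at h5
        exact h5
      qs := hK.2
      nt := by
        obtain ⟨y, hy⟩ := H1.PGV.qs_exists_noncentral hK.2
        refine ⟨y, fun h => hy ?_⟩
        have : (y : G) = 1 := hρ ((congrArg Units.val h).trans (map_one ρ).symm)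
        rw [show y = 1 from Subtype.ext this]; exact one_mem _ }
  let C : Subgroup G := A ⊓ Subgroup.centralizer (K : Set G)
  let U : Submodule (ZMod p) V :=
    { carrier := {v | ∀ c ∈ C, ρ c v = v}
      add_mem' := fun ha hb c hc => by rw [map_add, ha c hc, hb c hc]
      zero_mem' := fun c _ => map_zero _
      smul_mem' := fun r v hv c hc => by rw [map_smul, hv c hc] }
  have key : ∀ g : G, (∀ c ∈ C, c * g = g * c) → ρ g ∈ H1.PGV.Inv U := fun g hg v hv c hc => by
    rw [← Module.End.mul_apply, ← map_mul, hg c hc, map_mul, Module.End.mul_apply, hv c hc]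
  have hi : ∀ k, (D.i k : Module.End (ZMod p) V) ∈ H1.PGV.Inv U := fun k =>
    key _ fun c hc => (hc.2 _ k.2).symm
  have hj : ∀ a, (D.j a : Module.End (ZMod p) V) ∈ H1.PGV.Inv U := fun a =>
    key _ fun c hc => congrArg Subtype.val (mul_comm (⟨c, hc.1⟩ : A) a)
  have nt : ∃ k, H1.PGV.resHom U ⟨D.i k, hi k⟩ ≠ 1 := by
    haveI := D.charP p
    have hp : p.Prime := Fact.out
    obtain ⟨r, n, hr, hrp, -, x, hx, hxr⟩ := H1.PGV.qs_exists_prime hK.2 hp hp
    refine ⟨x, fun h => ?_⟩
    obtain ⟨c, hc⟩ := H1.PGV.sub_one_eq_mul_sq (p := p) (y := ρ x) (m := r ^ n) (fun h =>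
      hrp ((Nat.prime_dvd_prime_iff_eq hp hr).1 (hp.dvd_of_dvd_pow h)).symm)
      (by rw [← map_pow, ← Subgroup.coe_pow, hxr]; simp)
    have h0 : ρ x - 1 ≠ 0 := fun h0 => hx (by
      have : (x : G) = 1 := hρ ((sub_eq_zero.1 h0).trans (map_one ρ).symm)
      rw [show x = 1 from Subtype.ext this]; exact one_mem _)
    obtain ⟨w0, hw0, hne⟩ := (Submodule.ne_bot_iff _).1 (mt LinearMap.range_eq_bot.1 h0)
    letI : DistribMulAction C V := DistribMulAction.compHom V (ρ.comp C.subtype)
    obtain ⟨_, ⟨w, rfl⟩, hv0, hv⟩ := H25.exists_fixed_vector (P := C) (p := p)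
      (fun c => ⟨1, Subtype.ext (by simpa using hAel.2 c c.2.1)⟩)
      (fun v => by rw [← Nat.cast_smul_eq_nsmul (ZMod p), ZMod.natCast_self, zero_smul])
      (LinearMap.range (ρ x - 1)).toAddSubgroup (by
        rintro g _ ⟨w, rfl⟩
        refine ⟨ρ g w, ?_⟩
        have : Commute (ρ x - 1) (ρ g) :=
          ((show Commute (x : G) g from g.2.2 _ x.2).map ρ).sub_left (Commute.one_left _)
        exact LinearMap.congr_fun this.eq w) hw0 hne
    have h1 : ρ x ((ρ x - 1) w) = (ρ x - 1) w := congrArg Subtype.val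
      (LinearMap.congr_fun h ⟨_, fun c hc => hv ⟨c, hc⟩⟩)
    refine hv0 ?_
    rw [hc, Module.End.mul_apply, Module.End.mul_apply, show (ρ x - 1) ((ρ x - 1) w) = 0 from
      sub_eq_zero.2 h1, map_zero]
  refine H1.PGV.core (D.map hi hj _ nt) (fun a => Subtype.ext (hAel.2 a a.2))
    (fun h => hn (Subgroup.subgroupOf_eq_top.1 h)) (fun b hb h => ?_) fun T => ?_
  · refine Units.ext (LinearMap.ext fun v => Subtype.ext (v.2 b ⟨b.2, fun k hk => ?_⟩))
    have h1 : D.β b = 1 := h
    simp only [D, dif_pos (Subgroup.mem_subgroupOf.1 hb)] at h1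
    have h2 := congrArg Subtype.val (DFunLike.congr_fun h1 ⟨k, hk⟩)
    change (b : G) * k * (b : G)⁻¹ = k at h2
    exact (mul_inv_eq_iff_eq_mul.1 h2).symm
  · have := hP (T.map A.subtype) (Subgroup.map_subtype_le T)
    rw [Subgroup.card_map_of_injective A.subtype_injective] at this
    refine (Nat.mul_le_mul_left _ ?_).trans (this.trans (Nat.mul_le_mul_left _ ?_))
    · refine Nat.card_le_card_of_injective (fun v => ⟨v.1.1, ?_⟩)
        fun x y e => Subtype.ext (Subtype.ext (congrArg (fun z => z.1) e))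
      rintro _ ⟨t, ht, rfl⟩
      exact congrArg Subtype.val (v.2 t ht)
    · exact Nat.card_le_card_of_injective
        (fun v => ⟨⟨v.1, fun c hc => v.2 c hc.1⟩, fun t _ => Subtype.ext (v.2 t t.2)⟩)
        fun x y e => Subtype.ext (congrArg (fun z => z.1.1) e)

end Cfsg.Agent.S3086
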