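import Cfsg.Statements.S3087
import Cfsg.Agent.H11.ZStar
import Cfsg.Agent.H11.Basic

set_option autoImplicit false
open Cfsg

namespace Cfsg.Agent.S3087

open Subgroup H16 H16.H11
open H1 hiding card_inf_mul_relIndex card_mul_relIndex card_sup_dvd isPiHallOf_map_subtype isPiHallOf_top
open H15 hiding card_cj cent_anti cent_bot cent_comm cent_le_cent1 cent_le_norm cent_sup cent_zpowers cj_bot cj_cent cj_cj_inv cj_comm cj_eq_bot cj_eq_iff cj_eq_top cj_inf cj_inj cj_inv_cj cj_le_cj cj_le_iff cj_le_of_mem cj_lt_cj cj_mono cj_norm cj_one cj_sup cj_top comm_le_inf comm_le_left comm_le_right comm_of_cyclic comm_of_le comm_sup le_cj_iff mem_cent mem_cent1 mem_cj mem_norm_of_cj_le norm_bot norm_top relIndex_cj relIndex_dvd_of_le_right relIndex_pos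
open scoped commutatorElement


/-- Let p be a prime, G a finite group acting linearly on a finite vector space V over the field with p elements, W a G-invariant subspace, and A a subgroup of G with |A|·|C_V(A)| ≥ |B|·|C_V(B)| for every subgroup B of A. Then |A|·|C_W(A)| ≥ |B|·|C_W(B)| for every subgroup B of A that contains C_A(W); that is, the image of A in the group induced on W satisfies the same maximality condition. -/
theorem result {G V : Type*} [Group G] [Finite G] [AddCommGroup V] [Finite V] (p : ℕ) [Fact p.Prime] [Module (ZMod p) V]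
    (ρ : Representation (ZMod p) G V) (W : Submodule (ZMod p) V) (hW : ∀ g : G, ∀ w ∈ W, ρ g w ∈ W)
    (A : Subgroup G)
    (hP : ∀ B : Subgroup G, B ≤ A →
      Nat.card ↥B * Nat.card {v : V // ∀ b ∈ B, ρ b v = v} ≤ Nat.card ↥A * Nat.card {v : V // ∀ a ∈ A, ρ a v = v})
    (B : Subgroup G) (hBA : B ≤ A) (hCB : ∀ a ∈ A, (∀ w ∈ W, ρ a w = w) → a ∈ B) :
    Nat.card ↥B * Nat.card {w : W // ∀ b ∈ B, ρ b w = w} ≤ Nat.card ↥A * Nat.card {w : W // ∀ a ∈ A, ρ a w = w} := by
  let C : Subgroup G → Subgroup (Multiplicative V) := fun B =>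
    { carrier := {v | ∀ b ∈ B, ρ b v.toAdd = v.toAdd}
      one_mem' := fun b _ => map_zero _
      mul_mem' := fun {x y} hx hy b hb => by rw [toAdd_mul, map_add, hx b hb, hy b hb]
      inv_mem' := fun {x} hx b hb => by rw [toAdd_inv, map_neg, hx b hb] }
  let W' : Subgroup (Multiplicative V) := W.toAddSubgroup.toSubgroup
  have e1 : ∀ B : Subgroup G, Nat.card {v : V // ∀ b ∈ B, ρ b v = v} = Nat.card (C B) :=
    fun B => rfl
  have e2 : ∀ B : Subgroup G, Nat.card {w : W // ∀ b ∈ B, ρ b w = w} = Nat.card ↥(W' ⊓ C B) :=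
    fun B => Nat.card_congr (Equiv.subtypeSubtypeEquivSubtypeInter (fun v => v ∈ W)
      (fun v => ∀ b ∈ B, ρ b v = v))
  have h1 : C A ≤ C B := fun v hv b hb => hv b (hBA hb)
  have h2 := _root_.H11.card_mul_card_le (W' ⊓ C B) (C A)
  rw [inf_assoc, inf_of_le_right h1] at h2
  have h3 := h2.trans (Nat.mul_le_mul_left _ (card_le (sup_le inf_le_right h1)))
  have h4 := hP B hBA
  rw [e1, e1] at h4
  rw [e2, e2]
  have h5 := card_pos' (C A)
  nlinarith

end Cfsg.Agent.S3087
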