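import Cfsg.Statements.S3153
import Cfsg.Agent.H10.Misc
import Cfsg.Agent.H5.Std
import Cfsg.Agent.H5.Four
import Cfsg.Agent.H5.PComp

set_option autoImplicit false
open Cfsg H10

namespace Cfsg.Agent.S3153

theorem eq_of_rank {X : Type*} [Group X] [Finite X] {K : Subgroup X} (hr : PRankLE 2 1 K) {a b : X}
    (ha : a ∈ K) (hb : b ∈ K) (oa : orderOf a = 2) (b2 : b * b = 1) (hab : a * b = b * a) :
    b = 1 ∨ b = a := by
  have a2 : a * a = 1 := by rw [← pow_two, ← oa, pow_orderOf_eq_one]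
  have hE := H5.elemAb_sup_zpowers a2 b2 hab
  have hle : Subgroup.zpowers a ⊔ Subgroup.zpowers b ≤ K :=
    sup_le ((Subgroup.zpowers_le).2 ha) ((Subgroup.zpowers_le).2 hb)
  have hE' := elab_subgroupOf hE K
  have h1 := hr _ hE'.1 hE'.2
  rw [card_subgroupOf_of_le hle] at h1
  have h2 : Subgroup.zpowers a = Subgroup.zpowers a ⊔ Subgroup.zpowers b :=
    Subgroup.eq_of_le_of_card_ge le_sup_left (by rw [Nat.card_zpowers, oa]; simpa using h1)
  have h3 : b ∈ Subgroup.zpowers a := h2 ▸ (le_sup_right : _ ≤ Subgroup.zpowers a ⊔ _)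
    (Subgroup.mem_zpowers b)
  obtain ⟨k, rfl⟩ := h3
  have a2' : a ^ (2 : ℤ) = 1 := by rw [zpow_two, a2]
  rcases Int.even_or_odd' k with ⟨m, rfl | rfl⟩
  · left; simp only; rw [zpow_mul, a2', one_zpow]
  · right; simp only; rw [zpow_add, zpow_mul, a2', one_zpow, one_mul, zpow_one]

/-- Let X be a finite group and P a standard subgroup of X whose centralizer has 2-rank at most 1 and whose centre has odd order. Let S be a Sylow 2-subgroup of N_X(P) and t an involution of S centralizing P. Suppose some element g of X normalizes S, does not lie in S, has its square in S, and conjugates t into P·C_X(P). Then P commutes elementwise with the largest normal odd-order subgroup O(X) of X; consequently every t-invariant 2-component of X containing P is quasisimple. -/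
theorem result {X : Type*} [Group X] [Finite X] (P : Subgroup X) (hP : Cfsg.IsStandardSubgroup P)
    (hr : Cfsg.PRankLE 2 1 ↥(Subgroup.centralizer (P : Set X))) (hZ : Odd (Nat.card ↥(Subgroup.center ↥P)))
    (S : Sylow 2 ↥(Subgroup.normalizer (P : Set X))) (t : X) (ht : orderOf t = 2) (htS : t ∈ (S : Subgroup ↥(Subgroup.normalizer (P : Set X))).map (Subgroup.normalizer (P : Set X)).subtype)
    (htP : t ∈ Subgroup.centralizer (P : Set X))
    (g : X) (hgN : ∀ s ∈ (S : Subgroup ↥(Subgroup.normalizer (P : Set X))).map (Subgroup.normalizer (P : Set X)).subtype, g * s * g⁻¹ ∈ (S : Subgroup ↥(Subgroup.normalizer (P : Set X))).map (Subgroup.normalizer (P : Set X)).subtype)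
    (hgS : g ∉ (S : Subgroup ↥(Subgroup.normalizer (P : Set X))).map (Subgroup.normalizer (P : Set X)).subtype) (hg2 : g ^ 2 ∈ (S : Subgroup ↥(Subgroup.normalizer (P : Set X))).map (Subgroup.normalizer (P : Set X)).subtype)
    (hgt : g * t * g⁻¹ ∈ P ⊔ Subgroup.centralizer (P : Set X)) :
    ⁅P, Cfsg.oddCore X⁆ = ⊥ ∧
      ∀ L : Subgroup X, Cfsg.IsPComponent 2 L → P ≤ L → (∀ l ∈ L, t * l * t⁻¹ ∈ L) → Cfsg.IsQuasisimple ↥L := by
  set S' : Subgroup X := (S : Subgroup ↥(Subgroup.normalizer (P : Set X))).map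
    (Subgroup.normalizer (P : Set X)).subtype with hS'
  have hS : IsSylowIn 2 S' NN(P) := isSylowIn_map_subtype S
  have hq := hP.1
  have t2 : t * t = 1 := by rw [← pow_two, ← ht, pow_orderOf_eq_one]
  have hgS' : g ∈ NN(S') := mem_NN_of_conj_mem hgN
  have htZ : S' ≤ Subgroup.centralizer {t} := by
    by_contra hc
    obtain ⟨r, hr', h1, h2, -⟩ := H5.exists_swap hS.isPGroup htS hc
    have h3 : r * t * r⁻¹ ∈ CC(P) := conj_mem_of_mem_NN (NN_le_NN_CC P (hS.le hr')) htP
    rcases eq_of_rank hr htP h3 ht (by rw [conj_mul, t2]; simp) h2 with e | e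
    · have : t = 1 := by simpa using e
      rw [this, orderOf_one] at ht
      exact absurd ht (by norm_num)
    · exact h1 e
  have hcm : ∀ s ∈ S', t * s = s * t := fun s hs =>
    (Subgroup.mem_centralizer_singleton_iff.1 (htZ hs)).symm
  obtain ⟨u, hu⟩ : ∃ u, u = g * t * g⁻¹ := ⟨_, rfl⟩
  rw [← hu] at hgt
  have huS : u ∈ S' := hu ▸ hgN t htS
  have u2 : u * u = 1 := by rw [hu, conj_mul, t2]; simp
  have htu : t * u = u * t := hcm u huS
  have hut : u ≠ t := by
    intro e
    have h1 : g ∈ NN(P) := H5.centralizer_le_normalizer_of_standard hP ht htP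
      (Subgroup.mem_centralizer_singleton_iff.2 (by
        rw [hu, mul_inv_eq_iff_eq_mul] at e; exact e))
    obtain ⟨k, hk⟩ := isPGroup_iff_mem.1 hS.isPGroup _ hg2
    rw [← pow_mul, ← pow_succ'] at hk
    exact hgS (hS.le_of_le_NN (isPGroup_zpowers hk) ((Subgroup.zpowers_le).2 h1)
      ((Subgroup.zpowers_le).2 hgS') (Subgroup.mem_zpowers g))
  have hu1 : u ≠ 1 := by
    intro e
    have : t = 1 := by simpa [hu] using e
    rw [this, orderOf_one] at ht
    exact absurd ht (by norm_num)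
  have hgu : g * u * g⁻¹ = t := by
    have h1 := hcm _ hg2
    rw [hu]
    calc g * (g * t * g⁻¹) * g⁻¹ = (g ^ 2 * t) * (g ^ 2)⁻¹ := by rw [pow_two]; group
      _ = t := by rw [← h1]; group
  -- odd order of the centre
  have hZ' : ∀ x ∈ P, x ∈ CC(P) → Odd (orderOf x) := by
    intro x hx hx'
    have h1 : x ∈ (Subgroup.center P).map P.subtype := by
      rw [map_center_subtype]; exact ⟨hx, hx'⟩
    have h2 := Subgroup.orderOf_dvd_natCard _ h1
    rw [card_map_subtype] at h2
    exact hZ.of_dvd_nat h2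
  -- decomposition of `u`
  obtain ⟨a, ha, c, hc, a2, c2, hac⟩ : ∃ a ∈ P, ∃ c ∈ CC(P), a * a = 1 ∧ c * c = 1 ∧ a * c = u := by
    obtain ⟨a, ha, c, hc, e⟩ := (mem_sup_of_NN (NN_le_NN_CC P |>.trans' (le_NN_self P))).1 hgt
    have hcm' : Commute a c := mem_CC.1 hc a ha
    have h1 : a ^ 2 * c ^ 2 = 1 := by rw [← hcm'.mul_pow, e, pow_two, u2]
    have h2 : a ^ 2 = (c ^ 2)⁻¹ := eq_inv_of_mul_eq_one_left h1
    have h3 := hZ' _ (P.pow_mem ha 2) (h2 ▸ (CC(P)).inv_mem ((CC(P)).pow_mem hc 2))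
    set m := orderOf (a ^ 2) with hm
    have h4 : (a ^ 2) ^ m = 1 := pow_orderOf_eq_one _
    have h5 : (c ^ 2) ^ m = 1 := by
      rw [h2, inv_pow, inv_eq_one] at h4; exact h4
    refine ⟨a ^ m, P.pow_mem ha m, c ^ m, (CC(P)).pow_mem hc m, ?_, ?_, ?_⟩
    · rw [← pow_two, ← pow_mul, mul_comm, pow_mul, h4]
    · rw [← pow_two, ← pow_mul, mul_comm, pow_mul, h5]
    · rw [← hcm'.mul_pow, e]
      obtain ⟨k, hk⟩ := h3
      rw [hk, pow_succ, pow_mul, pow_two, u2, one_pow, one_mul]
  have hta : a * t = t * a := mem_CC.1 htP a ha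
  have htc : t * c = c * t := by
    have h1 : c = a * u := by rw [← hac, ← mul_assoc, a2, one_mul]
    rw [h1, ← mul_assoc, ← hta, mul_assoc, htu, mul_assoc]
  have ha1 : a ≠ 1 := by
    intro e
    rw [e, one_mul] at hac
    rcases eq_of_rank hr htP hc ht c2 htc with e | e
    · exact hu1 (hac ▸ e)
    · exact hut (hac ▸ e)
  set O := oddCore X with hO
  have hOo : (Nat.card O).Coprime 2 := H1.coprime_card_pPrimeCore 2
  haveI hOn : O.Normal := inferInstanceAs (pPrimeCore 2 X).Normal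
  have hnot : ∀ Y : Subgroup X, (Nat.card Y).Coprime 2 → ¬ P ≤ Y := by
    intro Y hY hle
    obtain ⟨s, hs, os⟩ := H5.exists_ord2_of_qs hq
    have h1 := Subgroup.orderOf_dvd_natCard _ (hle hs)
    rw [os] at h1
    have := Nat.Coprime.eq_one_of_dvd hY.symm h1
    norm_num at this
  have hCt : O ⊓ Subgroup.centralizer {t} ≤ CC(P) := by
    rw [← comm_eq_bot']
    by_contra hne
    have h1 := H5.qs_commutator_eq hq
      (inf_le_right.trans (H5.centralizer_le_normalizer_of_standard hP ht htP)) hne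
    refine hnot O hOo (h1.symm.le.trans ?_)
    exact (Subgroup.commutator_mono le_rfl inf_le_left).trans (comm_le_right (le_NN_of_normal P O))
  have hCu : O ⊓ Subgroup.centralizer {u} ≤ CC(cj g P) := by
    have := cj_mono g hCt
    rwa [cj_inf, cj_eq_of_normal, cj_centralizer_singleton, cj_centralizer, ← hu] at this
  have mc : ∀ {x y : X}, x ∈ Subgroup.centralizer {y} ↔ x * y = y * x :=
    Subgroup.mem_centralizer_singleton_iff
  have hv : O ≤ Subgroup.centralizer {t * u} := by
    refine H5.le_of_four t2 u2 htu (le_NN_of_normal ⊤ O trivial) (le_NN_of_normal ⊤ O trivial)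
      hOo ?_ ?_ inf_le_right
    · intro x hx
      have h1 := mc.1 hx.2
      have h2 := mem_CC.1 (hCt hx) a ha
      rw [mc]
      rcases eq_of_rank hr htP hc ht c2 htc with e | e
      · rw [← hac, e, mul_one, ← mul_assoc, h1, mul_assoc, ← h2, mul_assoc]
      · rw [← hac, e, ← mul_assoc t, ← hta, mul_assoc a, t2, mul_one, h2]
    · intro x hx
      have h1 := mc.1 hx.2
      rw [mc]
      rcases eq_of_rank hr htP hc ht c2 htc with e | e
      · rw [e, mul_one] at hac
        have h2 := mem_CC.1 (hCu hx) t (hgu ▸ conj_mem_cj (hac ▸ ha))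
        rw [← mul_assoc, ← h2, mul_assoc, h1, mul_assoc]
      · have h3 : t * u = a := by rw [← hac, e, ← mul_assoc t, ← hta, mul_assoc a, t2, mul_one]
        have h4 : g * a * g⁻¹ = a := by
          rw [← h3, ← conj_mul, hgu, ← hu, htu]
        have h2 := mem_CC.1 (hCu hx) a (h4 ▸ conj_mem_cj ha)
        rw [h3, h2]
  have hvO : t * u ∈ CC(O) := mem_CC.2 fun y hy => mc.1 (hv hy)
  haveI : CC(O).Normal := normal_of_top_le_NN (le_NN_CC (le_NN_of_normal ⊤ O))
  have hPO : P ≤ CC(O) := by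
    have hne : ⁅P, Subgroup.zpowers a⁆ ≠ ⊥ := by
      intro e
      have h1 := hZ' a ha (comm_eq_bot'.1 e (Subgroup.mem_zpowers a))
      have h2 : orderOf a = 2 := orderOf_eq_prime (by rw [pow_two, a2]) ha1
      rw [h2] at h1
      exact absurd h1 (by decide)
    rw [← H5.qs_commutator_eq hq (((Subgroup.zpowers_le).2 ha).trans (le_NN_self P)) hne,
      Subgroup.commutator_comm, Subgroup.zpowers_eq_closure]
    refine comm_closure_le (le_NN_of_normal _ _) ?_
    intro a' ha' x hx
    rw [Set.mem_singleton_iff.1 ha']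
    have h1 : t * c ∈ CC(P) := (CC(P)).mul_mem htP hc
    have h2 := mem_CC.1 h1 x hx
    have h3 : t * u = a * (t * c) := by rw [← hac, ← mul_assoc, ← hta, mul_assoc]
    have h4 : a * x * a⁻¹ * x⁻¹ = (t * u) * (x * (t * u)⁻¹ * x⁻¹) := by
      rw [h3]
      calc a * x * a⁻¹ * x⁻¹ = a * (x * (t * c)) * (t * c)⁻¹ * a⁻¹ * x⁻¹ := by group
        _ = _ := by rw [h2]; group
    rw [commutatorElement_def, h4]
    exact (CC(O)).mul_mem hvO (Subgroup.Normal.conj_mem inferInstance _ ((CC(O)).inv_mem hvO) x)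
  refine ⟨comm_eq_bot.2 hPO, fun L hL hPL _ => ?_⟩
  have hL' := H5.isPComponent_iff.1 hL
  have h1 : H5.oppOf 2 L ≤ O := by
    have := hL'.sn.oppOf_le 2
    rwa [H5.oppOf_top] at this
  refine hL'.pqs.qs (le_CC_symm ?_)
  rcases hL'.pqs.normal (N := L ⊓ CC(H5.oppOf 2 L)) inf_le_left
    (le_NN_inf (le_NN_self L) (le_NN_CC (H5.self_le_normalizer_oppOf 2 L))) with e | e
  · exact e.symm.le.trans inf_le_right
  · refine absurd ?_ (hnot _ (H5.coprime_card_oppOf 2 L))
    rw [← H5.qs_perfect hq]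
    exact (Subgroup.commutator_mono (le_inf hPL (hPO.trans (CC_anti h1))) hPL).trans e

end Cfsg.Agent.S3153
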