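import Cfsg.Statements.S3155
import Cfsg.Agent.H6.Inv

set_option autoImplicit false
open Cfsg

namespace Cfsg.Agent.S3155

/-- Let B be the direct product of three cyclic groups of order 4. Then the automorphism of B inverting every element is not the square of any automorphism of B. -/
theorem result {B : Type*} [CommGroup B] [Finite B] (hB : Nonempty (B ≃* Multiplicative (ZMod 4 × ZMod 4 × ZMod 4)))
    (τ : B ≃* B) : τ.trans τ ≠ MulEquiv.inv B := by
  obtain ⟨e⟩ := hB
  intro h
  let σ : Multiplicative (ZMod 4 × ZMod 4 × ZMod 4) →* Multiplicative (ZMod 4 × ZMod 4 × ZMod 4) :=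
    (e.symm.trans (τ.trans e)).toMonoidHom
  let f : (ZMod 4 × ZMod 4 × ZMod 4) →ₗ[ZMod 4] (ZMod 4 × ZMod 4 × ZMod 4) :=
    AddMonoidHom.toZModLinearMap 4 (MonoidHom.toAdditive σ)
  have h1 : f ∘ₗ f = (-1 : ZMod 4) • LinearMap.id := by
    refine LinearMap.ext fun v => ?_
    have := DFunLike.congr_fun h (e.symm (Multiplicative.ofAdd v))
    have h2 := congrArg (fun b => Multiplicative.toAdd (e b)) this
    simp only [MulEquiv.trans_apply, MulEquiv.inv_apply, map_inv, MulEquiv.apply_symm_apply,
      toAdd_inv, toAdd_ofAdd] at h2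
    simp only [LinearMap.comp_apply, LinearMap.smul_apply, LinearMap.id_apply, neg_smul, one_smul]
    rw [← h2]
    show Multiplicative.toAdd (e (τ (e.symm (e (τ (e.symm (Multiplicative.ofAdd v))))))) = _
    rw [e.symm_apply_apply]
  have h2 := congrArg LinearMap.det h1
  rw [LinearMap.det_comp, LinearMap.det_smul, LinearMap.det_id] at h2
  haveI : Nontrivial (ZMod 4) := ⟨⟨0, 1, by decide⟩⟩
  rw [Module.finrank_prod, Module.finrank_prod, Module.finrank_self] at h2
  generalize LinearMap.det f = d at h2
  revert d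
  decide

end Cfsg.Agent.S3155
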