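import Cfsg.Statements.S3156
import Cfsg.Agent.H6.U34b
import Cfsg.Agent.H6.U34c

set_option autoImplicit false
open Cfsg

namespace Cfsg.Agent.S3156

/-- If a finite group T is isomorphic to a Sylow 2-subgroup of the projective special unitary group of dimension 3 with parameter 4 (realised over the field with 16 elements), then no subgroup of the automorphism group of T is isomorphic to the symmetric group of degree 3. -/
theorem result {T : Type*} [Group T] [Finite T] (hT : (∃ (F : Type) (_ : Field F) (_ : Fintype F), Fintype.card F = 16 ∧ ∃ S : Sylow 2 (Cfsg.PSU 3 F 4), Nonempty (T ≃* ↥(S : Subgroup (Cfsg.PSU 3 F 4))))) (H : Subgroup (MulAut T)) : ¬ Nonempty (↥H ≃* Equiv.Perm (Fin 3)) := by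
  obtain ⟨F, _, _, hF, S, ⟨e⟩⟩ := hT
  have hU := (H6.isU34_sylow hF S).of_equiv e.symm
  rintro ⟨f⟩
  let g := H.subtype.comp f.symm.toMonoidHom
  have hg : Function.Injective g := H.subtype_injective.comp f.symm.injective
  have := hU.eq_one_of_inverted (ρ := g (finRotate 3)) (x := g (Equiv.swap 0 1))
    (by rw [← map_pow, map_eq_one_iff _ hg]; decide) (by rw [← map_mul, map_eq_one_iff _ hg]; decide)
    (by rw [← map_mul, ← map_mul, map_eq_one_iff _ hg]; decide)
  rw [map_eq_one_iff _ hg] at this
  exact absurd this (by decide)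

end Cfsg.Agent.S3156
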