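import Cfsg.Statements.S3162
import Cfsg.Agent.H22.QB

set_option autoImplicit false
open Cfsg

namespace Cfsg.Agent.S3162

/-- Let S be a Sylow 2-subgroup of the special unitary group of dimension 3 with parameter q = 2^n (n ≥ 2; realised over the field with q² elements). Then the largest normal 2-subgroup of the automorphism group of S is elementary abelian of order 2^(2n²), and the automorphism group has order 2^(2n²) · 2n(q² − 1). -/
theorem result {S : Type*} [Group S] [Finite S] (n : ℕ) (hn : 2 ≤ n) {F : Type*} [Field F] [Fintype F] (hF : Fintype.card F = 4 ^ n)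
    (P : Sylow 2 ↥(Cfsg.SU 3 F (2 ^ n))) (hS : Nonempty (S ≃* ↥(P : Subgroup ↥(Cfsg.SU 3 F (2 ^ n))))) :
    Cfsg.IsElementaryAbelian 2 (Cfsg.pCore 2 (MulAut S)) ∧ Nat.card ↥(Cfsg.pCore 2 (MulAut S)) = 2 ^ (2 * n ^ 2) ∧
      Nat.card (MulAut S) = 2 ^ (2 * n ^ 2) * (2 * n * ((2 ^ n) ^ 2 - 1)) := by
  obtain ⟨e⟩ := hS
  have := Fact.mk Nat.prime_two
  have hF' : Fintype.card F = (2 ^ n) ^ 2 := by rw [hF, ← pow_mul, mul_comm, pow_mul]; norm_num
  have : CharP F 2 := charP_of_card_eq_prime_pow (p := 2) (f := n * 2) (by rw [hF', pow_mul])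
  obtain ⟨e'⟩ := H22.QA.sylow_equiv hF' ((even_two).pow_of_ne_zero (by omega)) P
  have h := H22.QA.su_aut hF' rfl (e.trans e')
  rwa [show 2 * n * n = 2 * n ^ 2 by ring, show 2 ^ (2 * n) = (2 ^ n) ^ 2 by ring] at h

end Cfsg.Agent.S3162
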