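import Cfsg.Statements.S3174
import Cfsg.Agent.H6.Rud2

set_option autoImplicit false
open Cfsg

namespace Cfsg.Agent.S3174

/-- Let T be a finite 2-group of order at least 2^14 in which the fourth term of the upper central series has order 16. Let W be the centralizer in T of the third term Z₃(T), and suppose the Frattini subgroup of W has order at most 8 and lies in every subgroup of W of index at most 16. Then T has order exactly 2^14; the derived subgroup of W and the Frattini subgroup of W both equal Z₃(T), which is elementary abelian of order 8; the centre of W has order 8; W is normal in T with quotient dihedral of order 8; and W modulo its derived subgroup is elementary abelian of order 2^8. -/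
theorem result {T : Type*} [Group T] [Finite T]
    (hT : IsPGroup 2 T) (ha : 2 ^ 14 ≤ Nat.card T) (hb : Nat.card ↥(Subgroup.upperCentralSeries T 4) = 16)
    (W : Subgroup T) (hW : W = Subgroup.centralizer ((Subgroup.upperCentralSeries T 3 : Subgroup T) : Set T))
    (hc : Nat.card ↥(frattini ↥W) ≤ 8) (hd : ∀ U : Subgroup ↥W, U.index ≤ 16 → frattini ↥W ≤ U) :
    Nat.card T = 2 ^ 14 ∧
      (commutator ↥W).map W.subtype = Subgroup.upperCentralSeries T 3 ∧
      (frattini ↥W).map W.subtype = Subgroup.upperCentralSeries T 3 ∧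
      Nat.card ↥(Subgroup.center ↥W) = 8 ∧
      Nat.card ↥(Subgroup.upperCentralSeries T 3) = 8 ∧ (∀ z ∈ Subgroup.upperCentralSeries T 3, z ^ 2 = 1) ∧
      (∃ (_ : W.Normal), Nonempty (T ⧸ W ≃* DihedralGroup 4)) ∧
      Nat.card (↥W ⧸ commutator ↥W) = 2 ^ 8 ∧ (∀ x : ↥W ⧸ commutator ↥W, x ^ 2 = 1) := by
  have h : H6.Rud.Hyp W := ⟨hT, ha, hb, hW, hc, hd⟩
  haveI := h.normal
  obtain ⟨h1, h2, h3, -⟩ := h.main
  have h4 : (commutator ↥W).map W.subtype = Subgroup.upperCentralSeries T 3 := by
    rw [Subgroup.map_subtype_commutator, h.comm_eq]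
  have h8 := h.cardZ (i := 3) (by norm_num)
  refine ⟨by rw [← W.card_mul_index, h1, h2]; norm_num, h4, h3, ?_, h8, fun z hz => sq z ▸ h.elem hz,
    ⟨h.normal, h.d8.elim fun e _ => ⟨e.symm⟩⟩, ?_, fun x => ?_⟩
  · rw [← Subgroup.card_subtype, h.center_eq, h8]; norm_num
  · have := Subgroup.card_eq_card_quotient_mul_card_subgroup (commutator ↥W)
    rw [h2, ← Subgroup.card_subtype W (commutator W), h4, h8] at this
    omega
  · obtain ⟨u, rfl⟩ := QuotientGroup.mk_surjective x
    rw [← QuotientGroup.mk_pow, QuotientGroup.eq_one_iff]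
    obtain ⟨v, hv, e⟩ := h4.ge (h.sq_mem u.2)
    have : v = u ^ 2 := Subtype.ext (by rw [sq]; exact e)
    exact this ▸ hv

end Cfsg.Agent.S3174
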