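import Cfsg.Statements.S3175
import Cfsg.Agent.H6.Rud2
import Cfsg.Agent.H3.PComp

set_option autoImplicit false
open Cfsg

namespace Cfsg.Agent.S3175

open Subgroup

/-- Let G be a finite group whose Sylow 2-subgroup T has order at least 2^14 and whose upper central series has fourth term of order 16; let W be the centralizer in T of the third term, and suppose the Frattini subgroup of W has order at most 8 and lies in every subgroup of W of index at most 16. Then the normalizer of T in G has a normal 2-complement, and W is weakly closed in T with respect to G. -/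
theorem result {G : Type*} [Group G] [Finite G]
    (T : Sylow 2 G) (ha : 2 ^ 14 ≤ Nat.card ↥(T : Subgroup G))
    (hb : Nat.card ↥(Subgroup.upperCentralSeries ↥(T : Subgroup G) 4) = 16)
    (W : Subgroup ↥(T : Subgroup G))
    (hW : W = Subgroup.centralizer ((Subgroup.upperCentralSeries ↥(T : Subgroup G) 3 : Subgroup ↥(T : Subgroup G)) : Set ↥(T : Subgroup G)))
    (hc : Nat.card ↥(frattini ↥W) ≤ 8)
    (hd : ∀ U : Subgroup ↥W, U.index ≤ 16 → frattini ↥W ≤ U) :
    Cfsg.HasNormalPComplement 2 ↥(Subgroup.normalizer ((T : Subgroup G) : Set G)) ∧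
      Cfsg.IsWeaklyClosed (W.map (T : Subgroup G).subtype) (T : Subgroup G) := by
  haveI : Fact (Nat.Prime 2) := ⟨Nat.prime_two⟩
  have h : H6.Rud.Hyp W := ⟨T.isPGroup', ha, hb, hW, hc, hd⟩
  refine ⟨?_, map_subtype_le _, fun g hg => ?_⟩
  · set N := normalizer ((T : Subgroup G) : Set G) with hN
    let P : Sylow 2 N := T.subtype le_normalizer
    haveI hP : (P : Subgroup N).Normal := normal_in_normalizer
    obtain ⟨K, hK⟩ := exists_right_complement'_of_coprime (N := (P : Subgroup N)) P.card_coprime_index
    have hKc := H3.coprime_card_of_isComplement' P hK.symm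
    have hC : ∀ k ∈ K, ∀ p ∈ (P : Subgroup N), p * k = k * p := fun k hk p hp => by
      have h1 : (orderOf (k : G)).Coprime 2 := by
        rw [orderOf_coe]; exact hKc.coprime_dvd_left (orderOf_dvd_natCard _ hk)
      have h2 := H3.mem_centralizer_of_normalizerMonoidHom_eq_one (P := (T : Subgroup G)) (hg := k.2)
        (h.aut_eq_one (h1.coprime_dvd_left (H3.orderOf_normalizerMonoidHom_dvd k.2)))
      exact Subtype.ext (h2 p hp)
    refine ⟨P, K, ⟨fun k hk n => ?_⟩, hK.symm⟩
    obtain ⟨⟨p, k'⟩, rfl⟩ := hK.2 n
    have h3 : (k' : N) * k * (k' : N)⁻¹ ∈ K := mul_mem (mul_mem k'.2 hk) (inv_mem k'.2)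
    have : (p : N) * k' * k * ((p : N) * k')⁻¹ = p * (k' * k * (k' : N)⁻¹) * (p : N)⁻¹ := by group
    simp only [this, hC _ h3 p p.2, mul_inv_cancel_right, h3]
  · set V := (W.map (T : Subgroup G).subtype).map (MulAut.conj g).toMonoidHom with hV
    have e : V.subgroupOf T ≃* W := (subgroupOfEquivOfLe hg).trans
      (((W.map (T : Subgroup G).subtype).equivMapOfInjective _ (MulAut.conj g).injective).symm.trans
        (W.equivMapOfInjective _ (T : Subgroup G).subtype_injective).symm)
    rw [← h.uniq e, map_subgroupOf_eq_of_le hg]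

end Cfsg.Agent.S3175
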