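import Cfsg.Statements.S3180
import Cfsg.Agent.H6.Fus

set_option autoImplicit false
open Cfsg

namespace Cfsg.Agent.S3180

/-- Let P be a Sylow p-subgroup of a finite group J and P₁ a subgroup of P that is weakly closed in P with respect to J. If J acts on a set and two points, each fixed by every element of P₁, lie in one J-orbit, then they lie in one orbit of the normalizer of P₁ in J. -/
theorem result {J : Type*} [Group J] [Finite J]
    {p : ℕ} [Fact p.Prime] (P : Sylow p J) (P₁ : Subgroup J) (hW : Cfsg.IsWeaklyClosed P₁ (P : Subgroup J))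
    {Ω : Type*} [MulAction J Ω] (x y : Ω) (hx : ∀ g ∈ P₁, g • x = x) (hy : ∀ g ∈ P₁, g • y = y)
    (hc : ∃ g : J, g • x = y) :
    ∃ g ∈ Subgroup.normalizer (P₁ : Set J), g • x = y := by
  obtain ⟨g, rfl⟩ := hc
  have hp : IsPGroup p P₁ := P.isPGroup'.to_le hW.1
  let H := MulAction.stabilizer J (g • x)
  have h1 : P₁ ≤ H := fun a ha => hy a ha
  have h2 : P₁.map (MulAut.conj g).toMonoidHom ≤ H := by
    rintro _ ⟨a, ha, rfl⟩
    show (g * a * g⁻¹) • g • x = g • x
    rw [smul_smul, inv_mul_cancel_right, mul_smul, hx a ha]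
  obtain ⟨R, hR⟩ := (hp.comap_subtype (H := P₁) (K := H)).exists_le_sylow
  obtain ⟨h, hh⟩ := H6.exists_conj_le_sylow R
    ((H7.isPGroup_cj hp g).comap_subtype (K := H))
  have h3 : P₁.map (MulAut.conj ((h : J) * g)).toMonoidHom ≤ (R : Subgroup H).map H.subtype := by
    rintro _ ⟨a, ha, rfl⟩
    refine ⟨_, hh ⟨_, h2 ⟨a, ha, rfl⟩⟩ ⟨a, ha, rfl⟩, ?_⟩
    simp [mul_assoc]
  have h4 : P₁.map (MulAut.conj (1 : J)).toMonoidHom ≤ (R : Subgroup H).map H.subtype := by
    rw [H6.map_conj_one]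
    exact fun a ha => ⟨⟨a, h1 ha⟩, hR ha, rfl⟩
  have h5 := H3.weaklyClosed_eq_of_le P hW (R.isPGroup'.map _) h4 h3
  refine ⟨_, h5, ?_⟩
  rw [inv_one, one_mul, mul_smul]
  exact h.2

end Cfsg.Agent.S3180
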