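import Cfsg.Statements.S3183
import Cfsg.Agent.H6.Fus
import Cfsg.Agent.H6.Misc
import Cfsg.Agent.H7.PGrp
import Cfsg.Agent.H5.Subnormal

set_option autoImplicit false
open Cfsg

namespace Cfsg.Agent.S3183

/-- Let G be a finite group in which the intersection of any two distinct Sylow 2-subgroups is contained in the centre of some Sylow 2-subgroup, and let S be a Sylow 2-subgroup. Then for every x in S the centralizer of x in S is a Sylow 2-subgroup of the centralizer of x in G (no 2-subgroup centralizing x is larger), and for every other Sylow 2-subgroup T the intersection S ∩ T lies in both the centre of S and the centre of T. -/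
theorem result {G : Type*} [Group G] [Finite G]
    (hCI : ∀ S T : Sylow 2 G, S ≠ T → ∃ U : Sylow 2 G,
      (S : Subgroup G) ⊓ (T : Subgroup G) ≤ (Subgroup.center ↥(U : Subgroup G)).map (U : Subgroup G).subtype)
    (S : Sylow 2 G) :
    (∀ x ∈ (S : Subgroup G), ∀ P : Subgroup G, IsPGroup 2 ↥P → P ≤ Subgroup.centralizer ({x} : Set G) →
        Nat.card ↥P ≤ Nat.card ↥((S : Subgroup G) ⊓ Subgroup.centralizer ({x} : Set G))) ∧
    (∀ T : Sylow 2 G, T ≠ S →
        (S : Subgroup G) ⊓ (T : Subgroup G) ≤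
          (Subgroup.center ↥(S : Subgroup G)).map (S : Subgroup G).subtype ⊓
            (Subgroup.center ↥(T : Subgroup G)).map (T : Subgroup G).subtype) := by
  have hA : ∀ S T : Sylow 2 G, S ≠ T →
      Subgroup.normalizer (((S : Subgroup G) ⊓ T : Subgroup G) : Set G) ⊓ S ≤
        Subgroup.centralizer (((S : Subgroup G) ⊓ T : Subgroup G) : Set G) := by
    intro S T hST
    obtain ⟨U, hU⟩ := hCI S T hST
    rw [H5.map_center_subtype] at hU
    have h1 : (U : Subgroup G) ≤ Subgroup.centralizer (((S : Subgroup G) ⊓ T : Subgroup G) : Set G) :=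
      Subgroup.le_centralizer_iff.1 (hU.trans inf_le_right)
    have h2 := H10.isSylowIn_of_sylow_le U (h1.trans (H6.centralizer_le_normalizer' _))
    obtain ⟨g, hg, h3⟩ := h2.exists_le_cj (S.isPGroup'.to_le inf_le_right) inf_le_left
    exact h3.trans (H7.cj_le_of_mem_normalizer (H7.normalizer_le_normalizer_centralizer _ hg) h1)
  have hB : ∀ S T : Sylow 2 G, S ≠ T → (S : Subgroup G) ≤
      Subgroup.centralizer (((S : Subgroup G) ⊓ T : Subgroup G) : Set G) := by
    intro S T hST
    obtain ⟨U, hU⟩ := hCI S T hST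
    rw [H5.map_center_subtype] at hU
    have h1 : (U : Subgroup G) ≤ Subgroup.centralizer (((S : Subgroup G) ⊓ T : Subgroup G) : Set G) :=
      Subgroup.le_centralizer_iff.1 (hU.trans inf_le_right)
    have h2 := H10.isSylowIn_of_sylow_le U h1
    obtain ⟨g, hg, h3⟩ := h2.exists_le_cj (S.isPGroup'.to_le inf_le_right) inf_le_left
    have h4 : H10.cj g (U : Subgroup G) = (g • U : Sylow 2 G) := (H7.sylow_coe_smul U g).symm
    have h5 := H7.cj_le_of_mem hg h1
    rw [← H7.sylow_coe_smul] at h5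
    by_cases e : S = g • U
    · exact e ▸ h5
    exfalso
    have h6 : (S : Subgroup G) ⊓ (g • U : Sylow 2 G) < S := lt_of_le_of_ne inf_le_left fun e' =>
      e (Sylow.ext (S.is_maximal' (g • U).isPGroup' (inf_eq_left.1 e')).symm)
    obtain ⟨a, ha, ha'⟩ := SetLike.exists_of_lt (H7.lt_normalizer_inf S.isPGroup' h6)
    refine ha' ⟨ha.2, h4 ▸ h3 ⟨?_, ha.2⟩⟩
    refine Subgroup.centralizer_le (SetLike.coe_subset_coe.2 ?_) (hA S _ e ha)
    intro d hd
    exact ⟨hd.1, h4 ▸ h3 ⟨Subgroup.le_centralizer_iff.1 h1 |> fun _ => fun d' hd' => by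
      obtain ⟨hdU, hdC⟩ := hU hd
      exact hdC d' (hU hd').1 , hd.1⟩⟩
  have hC : ∀ S T : Sylow 2 G, S ≠ T → (S : Subgroup G) ⊓ T ≤
      (Subgroup.center ↥(S : Subgroup G)).map (S : Subgroup G).subtype := fun S T hST => by
    rw [H5.map_center_subtype]
    exact le_inf inf_le_left (Subgroup.le_centralizer_iff.1 (hB S T hST))
  refine ⟨fun x hx P hP hPx => ?_, fun T hT => le_inf (hC S T hT.symm) (inf_comm (S : Subgroup G) _ ▸ hC T S hT)⟩
  obtain ⟨k, hk⟩ := H6.IsPGroup_pow_eq_one S.isPGroup' hx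
  have h1 : IsPGroup 2 (P ⊔ Subgroup.zpowers x : Subgroup G) :=
    hP.to_sup_of_normal_right' (H6.isPGroup_zpowers hk)
      ((hPx.trans (H5.centralizer_zpowers x).ge).trans (H6.centralizer_le_normalizer' _))
  obtain ⟨T, hT⟩ := h1.exists_le_sylow
  by_cases e : S = T
  · exact Subgroup.card_le_of_le (le_inf (e ▸ le_sup_left.trans hT) hPx)
  · have h2 : (S : Subgroup G) ≤ Subgroup.centralizer ({x} : Set G) :=
      (hB S T e).trans (Subgroup.centralizer_le (Set.singleton_subset_iff.2
        ⟨hx, hT (Subgroup.mem_sup_right (Subgroup.mem_zpowers x))⟩))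
    rw [inf_eq_left.2 h2]
    exact H6.card_le_sylow S hP

end Cfsg.Agent.S3183
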