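import Cfsg.Statements.S3184
import Cfsg.Agent.H6.ZS

set_option autoImplicit false
open Cfsg

namespace Cfsg.Agent.S3184

/-- Let G be a finite group in which the intersection of any two distinct Sylow 2-subgroups is contained in the centre of some Sylow 2-subgroup, and let S be a Sylow 2-subgroup. If C is a nontrivial cyclic characteristic subgroup of S, then the involution of C is central modulo the largest normal subgroup of odd order of G: each of its conjugates has the same image in G/O(G). -/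
theorem result {G : Type*} [Group G] [Finite G]
    (hCI : ∀ S T : Sylow 2 G, S ≠ T → ∃ U : Sylow 2 G,
      (S : Subgroup G) ⊓ (T : Subgroup G) ≤ (Subgroup.center ↥(U : Subgroup G)).map (U : Subgroup G).subtype)
    (S : Sylow 2 G) (C : Subgroup ↥(S : Subgroup G)) (hC : C ≠ ⊥) (hCc : IsCyclic ↥C) (hCh : C.Characteristic)
    (c : ↥(S : Subgroup G)) (hc : c ∈ C) (hc2 : orderOf c = 2) :
    ∀ g : G, (QuotientGroup.mk (s := Cfsg.oddCore G) (g * (c : G) * g⁻¹)) =
      QuotientGroup.mk (s := Cfsg.oddCore G) (c : G) := by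
  have hc2' : orderOf (c : G) = 2 := by rwa [Subgroup.orderOf_coe]
  have hfix : ∀ n ∈ Subgroup.normalizer ((S : Subgroup G) : Set G), n * c * n⁻¹ = c := by
    intro n hn
    have h1 := H1.normalizer_le_normalizer_map_char (S : Subgroup G) C hn
    have h2 : (c : G) ∈ C.map (S : Subgroup G).subtype := Subgroup.mem_map_of_mem _ hc
    have h3 : IsCyclic (C.map (S : Subgroup G).subtype) :=
      (Subgroup.equivMapOfInjective C _ (S : Subgroup G).subtype_injective).isCyclic.1 hCc
    exact H6.ord2_unique_of_isCyclic h3 (H3.conj_mem_of_mem_normalizer h1 h2) h2 (H6.ord2_conj hc2' n) hc2'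
  have hcS : ∀ s ∈ (S : Subgroup G), Commute s c := fun s hs =>
    H6.conj_eq_iff_commute.1 (hfix s (Subgroup.le_normalizer hs))
  have A : ∀ (U : Sylow 2 G) (d : G), IsConj (c : G) d → (∀ u ∈ (U : Subgroup G), Commute u c) →
      (∀ u ∈ (U : Subgroup G), Commute u d) → d = c := by
    intro U d hd h1 h2
    obtain ⟨x, hx, hxU⟩ := H3.exists_smul_eq_of_le (H := Subgroup.centralizer ({(c : G)} : Set G)) U S
      (fun u hu => H6.mem_cent_iff_commute.2 (h1 u hu)) (fun u hu => H6.mem_cent_iff_commute.2 (hcS u hu))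
    obtain ⟨n, hn, hn'⟩ := H6.burnside_fusion_comm S (x := c) (y := x * d * x⁻¹) hcS (fun s hs => by
      rw [← hxU, H3.mem_coe_smul_sylow] at hs
      have := (h2 _ hs).conj x
      simpa [mul_assoc] using this) (hd.trans (isConj_iff.2 ⟨x, rfl⟩))
    rw [hfix n hn] at hn'
    have h3 := H6.conj_eq_iff_commute.2 (H6.mem_cent_iff_commute.1 hx)
    rw [← h3] at hn'
    simpa using hn'.symm
  have hw : H6.WC (S : Subgroup G) c := by
    refine ⟨c.2, fun g hg => ?_⟩
    set d := g * c * g⁻¹ with hd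
    have hT0 : ∀ u ∈ ((g • S : Sylow 2 G) : Subgroup G), Commute u d := by
      intro u hu
      rw [H3.mem_coe_smul_sylow] at hu
      have := (hcS _ hu).conj g
      simpa [mul_assoc, hd] using this
    have hdT0 : d ∈ ((g • S : Sylow 2 G) : Subgroup G) := by
      rw [H3.mem_coe_smul_sylow, hd]; simp [mul_assoc]
    obtain ⟨y, hy, hy'⟩ := H3.exists_conj_le_of_sylowIn (p := 2) (S := ((g • S : Sylow 2 G) : Subgroup G))
      (H := Subgroup.centralizer ({d} : Set G)) (T := Subgroup.zpowers (c : G)) (g • S).isPGroup'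
      (H3.sylow_not_dvd_relIndex _ fun u hu => H6.mem_cent_iff_commute.2 (hT0 u hu))
      (H6.isPGroup_zpowers_ord2 (H6.ord2_mul_self hc2'))
      (Subgroup.zpowers_le.2 (H6.mem_cent_iff_commute.2 (hcS _ hg).symm))
    have hyd := H6.mem_cent_iff_commute.1 hy
    have hcT : (c : G) ∈ ((y • g • S : Sylow 2 G) : Subgroup G) :=
      H3.mem_coe_smul_sylow.2 (hy' _ (Subgroup.mem_zpowers _))
    have hdT : d ∈ ((y • g • S : Sylow 2 G) : Subgroup G) := by
      rw [H3.mem_coe_smul_sylow, mul_assoc, ← hyd.eq, inv_mul_cancel_left]; exact hdT0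
    by_cases hST : S = y • g • S
    · refine A S d (isConj_iff.2 ⟨g, rfl⟩) hcS fun u hu => ?_
      rw [hST, H3.mem_coe_smul_sylow] at hu
      have := ((hyd.mul_left (hT0 _ hu)).mul_left hyd.inv_left)
      simpa [mul_assoc] using this
    · obtain ⟨U, hU⟩ := hCI S _ hST
      have h4 : ∀ x ∈ (Subgroup.center (U : Subgroup G)).map (U : Subgroup G).subtype,
          ∀ u ∈ (U : Subgroup G), Commute u x := by
        rintro _ ⟨x, hx, rfl⟩ u hu
        exact congrArg Subtype.val (Subgroup.mem_center_iff.1 hx ⟨u, hu⟩)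
      exact A U d (isConj_iff.2 ⟨g, rfl⟩) (h4 _ (hU ⟨c.2, hcT⟩)) (h4 _ (hU ⟨hg, hdT⟩))
  intro g
  have := (QuotientGroup.eq_one_iff _).2 (H6.zstar2 hw g)
  rw [QuotientGroup.mk_mul, QuotientGroup.mk_inv, mul_inv_eq_one] at this
  exact this

end Cfsg.Agent.S3184
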