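import Cfsg.Statements.S3190
import Cfsg.Agent.H6.Fus
import Cfsg.Agent.H7.PGrp
import Cfsg.Agent.H5.Subnormal

set_option autoImplicit false
open Cfsg

namespace Cfsg.Agent.S3190

/-- Let p be an odd prime and, inside a finite group, let P be a p-subgroup normalized by a Klein four-group T. Let R be a subgroup of P, normal in P and normalized by T, such that P is the product of R with the centralizer of T in P. If T centralizes the centre of P, then T centralizes the centre of R. -/
theorem result {X : Type*} [Group X] [Finite X]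
    {p : ℕ} (hp : p.Prime) (hodd : Odd p) (P T R : Subgroup X) (hP : IsPGroup p ↥P) (hT : IsKleinFour ↥T)
    (hTP : T ≤ Subgroup.normalizer (P : Set X)) (hRP : R ≤ P) (hRn : (R.subgroupOf P).Normal)
    (hTR : T ≤ Subgroup.normalizer (R : Set X)) (hfac : R ⊔ (P ⊓ Subgroup.centralizer (T : Set X)) = P)
    (hZ : T ≤ Subgroup.centralizer (((Subgroup.center ↥P).map P.subtype : Subgroup X) : Set X)) :
    T ≤ Subgroup.centralizer (((Subgroup.center ↥R).map R.subtype : Subgroup X) : Set X) := by
  haveI := Fact.mk hp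
  rw [H5.map_center_subtype] at hZ ⊢
  set Z := R ⊓ Subgroup.centralizer (R : Set X) with hZdef
  haveI : IsMulCommutative Z := ⟨⟨fun a b => Subtype.ext (b.2.2 a a.2.1)⟩⟩
  have hTZ : T ≤ Subgroup.normalizer (Z : Set X) :=
    H5.le_normalizer_inf hTR (H5.le_normalizer_centralizer hTR)
  have hZp : IsPGroup p Z := hP.to_le (inf_le_left.trans hRP)
  have hcop : (Nat.card Z).Coprime ((Subgroup.centralizer (Z : Set X)).relIndex T) := by
    obtain ⟨k, hk⟩ := hZp.exists_card_eq
    rw [hk]
    refine Nat.Coprime.pow_left _ (Nat.Coprime.coprime_dvd_right (Subgroup.relIndex_dvd_card _ _) ?_)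
    rw [hT.card_four]
    exact (Nat.Coprime.pow_right 2 (H6.coprime_two_iff.2 hodd))
  have h1 := (H3.fitting_decomposition hTZ hcop).1
  have hPR : P ≤ Subgroup.normalizer (R : Set X) :=
    (Subgroup.normal_subgroupOf_iff_le_normalizer hRP).1 hRn
  have hle : ⁅Z, T⁆ ≤ Z := Subgroup.le_normalizer_iff_commutator_le_left.1 hTZ
  have h2 : P ≤ Subgroup.normalizer ((⁅Z, T⁆ : Subgroup X) : Set X) := by
    rw [← hfac]
    refine sup_le (H5.le_normalizer_of_le_centralizer (Subgroup.le_centralizer_iff.1
      (hle.trans inf_le_right))) (H5.le_normalizer_commutator ?_ ?_)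
    · exact inf_le_left.trans (H5.le_normalizer_inf hPR (H5.le_normalizer_centralizer hPR))
    · exact H5.le_normalizer_of_le_centralizer inf_le_right
  have h3 : ⁅Z, T⁆ = ⊥ := by
    by_contra hne
    refine H7.inf_centralizer_ne_bot hP (hZp.to_le hle) h2 hne (le_bot_iff.1 ?_)
    rw [← h1]
    exact le_inf inf_le_left ((inf_le_inf_right _ (hle.trans (inf_le_left.trans hRP))).trans
      (Subgroup.le_centralizer_iff.1 hZ))
  exact Subgroup.le_centralizer_iff.1 (Subgroup.commutator_eq_bot_iff_le_centralizer.1 h3)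

end Cfsg.Agent.S3190
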