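import Cfsg.Statements.S3195
import Cfsg.Agent.H6.Q8
import Cfsg.Agent.H6.Iso
import Cfsg.Agent.H1.Cores

set_option autoImplicit false
open Cfsg

namespace Cfsg.Agent.S3195

open H6 in
theorem aux {G : Type*} [Group G] {a b u v : G} (ha : a * a = 1) (hb : b * b = 1)
    (hab : Commute a b) (hu : Odd (orderOf u)) (hv : Odd (orderOf v)) (hu1 : u ≠ 1) (hv1 : v ≠ 1)
    (hau : a * u * a⁻¹ = u⁻¹) (hbv : b * v * b⁻¹ = v⁻¹) (hav : Commute a v) (hbu : Commute b u)
    (huv : Commute u v) : ¬ Commute a ((u * v) * (a * b) * (u * v)⁻¹) ∧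
      ¬ Commute b ((u * v) * (a * b) * (u * v)⁻¹) ∧
      ¬ Commute (a * b) ((u * v) * (a * b) * (u * v)⁻¹) := by
  have h1 : (a * b) * (u * v) * (a * b)⁻¹ = (u * v)⁻¹ := by
    calc (a * b) * (u * v) * (a * b)⁻¹ = a * ((b * u * b⁻¹) * (b * v * b⁻¹)) * a⁻¹ := by group
      _ = (a * u * a⁻¹) * (a * v⁻¹ * a⁻¹) := by
        rw [conj_eq_iff_commute.2 hbu, hbv]; group
      _ = _ := by rw [hau, conj_eq_iff_commute.2 hav.inv_right, ← mul_inv_rev, huv.eq]
  rw [conj_eq_sq_mul_of_inverts h1]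
  have sq2 : ∀ {w : G}, Odd (orderOf w) → (w * w) * (w * w) = 1 → w = 1 := fun {w} hw h =>
    eq_one_of_odd_of_two_pow hw (k := 2) (by rw [← h, ← pow_four_eq]; rfl)
  have e : u * v * (u * v) = u * u * (v * v) := huv.symm.mul_mul_mul_comm u v
  refine ⟨fun h => hu1 ?_, fun h => hv1 ?_, fun h => ?_⟩
  · have h2 := h.mul_right ((Commute.refl a).mul_right hab).inv_right
    rw [mul_inv_cancel_right, e] at h2
    have h3 := h2.mul_right (hav.mul_right hav).inv_right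
    rw [mul_inv_cancel_right, ← conj_eq_iff_commute, ← conj_mul, hau, ← mul_inv_rev,
      inv_eq_iff_mul_eq_one] at h3
    exact sq2 hu h3
  · have h2 := h.mul_right (hab.symm.mul_right (Commute.refl b)).inv_right
    rw [mul_inv_cancel_right, e] at h2
    have h3 := (hbu.mul_right hbu).inv_right.mul_right h2
    rw [inv_mul_cancel_left, ← conj_eq_iff_commute, ← conj_mul, hbv, ← mul_inv_rev,
      inv_eq_iff_mul_eq_one] at h3
    exact sq2 hv h3
  · have h2 := h.mul_right (Commute.refl (a * b)).inv_right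
    rw [mul_inv_cancel_right, ← conj_eq_iff_commute, ← conj_mul, h1, ← mul_inv_rev,
      inv_eq_iff_mul_eq_one] at h2
    have h3 : u * v = 1 := sq2 (Odd.of_dvd_nat (hu.mul hv) huv.orderOf_mul_dvd_mul_orderOf) h2
    have h4 : Commute a u := by
      rw [eq_inv_of_mul_eq_one_left h3]; exact hav.inv_right
    rw [conj_eq_iff_commute.2 h4] at hau
    exact hu1 (eq_one_of_odd_of_sq hu (mul_eq_one_iff_eq_inv.2 hau))

/-- Let A be a Klein four-subgroup of a finite group G. If every G-conjugate of every involution of A commutes with some involution of A (its centralizer meets A nontrivially), then A meets the largest normal 2-subgroup O₂(G) nontrivially. -/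
theorem result {G : Type*} [Group G] [Finite G]
    (A : Subgroup G) (hA : IsKleinFour ↥A)
    (h : ∀ a ∈ A, a ≠ 1 → ∀ g : G, A ⊓ Subgroup.centralizer ({g * a * g⁻¹} : Set G) ≠ ⊥) :
    A ⊓ Cfsg.pCore 2 G ≠ ⊥ := by
  intro hbot
  obtain ⟨P⟩ : Nonempty (Sylow 2 G) := inferInstance
  have h2 : ∀ a ∈ A, a ≠ 1 → orderOf a = 2 := fun a ha h1 =>
    H6.ord2_of (H6.kleinFour_mul_self hA ha) h1
  have hinv : ∀ a ∈ A, a ≠ 1 → ∃ u : G, u ≠ 1 ∧ Odd (orderOf u) ∧ a * u * a⁻¹ = u⁻¹ := by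
    intro a ha h1
    obtain ⟨u, h3, h4, h5, -⟩ := H6.exists_odd_inverted (h2 a ha h1) P (fun hm => h1 (by
      have : a ∈ A ⊓ Cfsg.pCore 2 G := ⟨ha, H1.pCore_eq_normalCore_sylow P ▸ hm⟩
      rwa [hbot] at this))
    exact ⟨u, h3, h4, h5⟩
  have hc : ∀ a ∈ A, a ≠ 1 → ∀ g : G, ∃ b ∈ A, b ≠ 1 ∧ Commute b (g * a * g⁻¹) := by
    intro a ha h1 g
    obtain ⟨⟨b, hb⟩, hb1⟩ := Subgroup.ne_bot_iff_exists_ne_one.1 (h a ha h1 g)
    exact ⟨b, hb.1, fun e => hb1 (Subtype.ext e), H6.mem_cent_iff_commute.1 hb.2⟩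
  have hnc : ∀ {a u : G}, u ≠ 1 → Odd (orderOf u) → a * u * a⁻¹ = u⁻¹ →
      ¬ Commute a (u * a * u⁻¹) := by
    intro a u h1 ho hi hc
    rw [H6.conj_eq_sq_mul_of_inverts hi] at hc
    have h3 := hc.mul_right (Commute.refl a).inv_right
    rw [mul_inv_cancel_right] at h3
    rw [H6.conj_eq_iff_commute.2 (H6.commute_of_sq_commute_of_odd ho h3.symm).symm] at hi
    exact h1 (H6.eq_one_of_odd_of_sq ho (mul_eq_one_iff_eq_inv.2 hi))
  obtain ⟨a, b0, ha2, -, -, -, hm0⟩ := H6.kleinFour_elts hA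
  have ha : a ∈ A := (hm0 a).2 (by simp)
  have ha1 := H6.ord2_ne_one ha2
  obtain ⟨u, hu1, hu, hau⟩ := hinv a ha ha1
  obtain ⟨b, hb, hb1, hbc⟩ := hc a ha ha1 u
  have hab : a ≠ b := by rintro rfl; exact hnc hu1 hu hau hbc
  have hcab := H6.kleinFour_commute hA ha hb
  have hm := H6.kleinFour_mem_iff hA ha hb ha1 hb1 hab
  have hbu : Commute b u := by
    rw [H6.conj_eq_sq_mul_of_inverts hau] at hbc
    have h3 := hbc.mul_right hcab.symm.inv_right
    rw [mul_inv_cancel_right] at h3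
    exact (H6.commute_of_sq_commute_of_odd hu h3.symm).symm
  obtain ⟨v, hv1, hv, hbv⟩ := hinv b hb hb1
  set b' := v * b * v⁻¹ with hb'
  have habu : (a * b) * u * (a * b)⁻¹ = u⁻¹ := by
    calc (a * b) * u * (a * b)⁻¹ = a * (b * u * b⁻¹) * a⁻¹ := by group
      _ = _ := by rw [H6.conj_eq_iff_commute.2 hbu, hau]
  -- `b'` commutes with a conjugate of `a` or of `a * b` by each power of `u`
  have hk : ∀ i : ℤ, Commute (u ^ (2 * i) * a) b' ∨ Commute (u ^ (2 * i) * (a * b)) b' := by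
    intro i
    obtain ⟨c, hcA, hc1, hcc⟩ := hc b hb hb1 ((u ^ i)⁻¹ * v)
    have h3 : Commute (u ^ i * c * (u ^ i)⁻¹) b' := by
      generalize u ^ i = w at hcc ⊢
      have := hcc.map (MulAut.conj w)
      simpa [mul_assoc, hb'] using this
    rcases (hm c).1 hcA with rfl | rfl | rfl | rfl
    · exact absurd rfl hc1
    · exact Or.inl (H6.zpow_conj_of_inverts hau i ▸ h3)
    · rw [H6.conj_eq_iff_commute.2 (hbu.zpow_right i).symm] at h3
      exact absurd h3 (hnc hv1 hv hbv)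
    · exact Or.inr (H6.zpow_conj_of_inverts habu i ▸ h3)
  have hk2 : ∀ (w : G) (i j : ℤ), Commute (u ^ (2 * i) * w) b' → Commute (u ^ (2 * j) * w) b' →
      Commute (u ^ (2 * (i - j))) b' := by
    intro w i j h3 h4
    have := h3.mul_left h4.inv_left
    rwa [mul_inv_rev, mul_assoc, mul_inv_cancel_left, ← zpow_sub, ← mul_sub] at this
  have hu2 : Commute (u ^ (2 : ℤ)) b' → Commute u b' := fun h3 =>
    H6.commute_of_sq_commute_of_odd hu (by rwa [zpow_two] at h3)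
  have hu4 : Commute (u ^ (4 : ℤ)) b' → Commute u b' := fun h3 => by
    refine hu2 (H6.commute_of_sq_commute_of_odd (H6.odd_orderOf_zpow hu 2) ?_)
    rwa [← zpow_add]
  have hub' : Commute u b' := by
    rcases hk 0 with h0 | h0 <;> rcases hk 1 with h1 | h1 <;> rcases hk 2 with h3 | h3
    exacts [hu2 (hk2 _ 1 0 h1 h0), hu2 (hk2 _ 1 0 h1 h0), hu4 (hk2 _ 2 0 h3 h0),
      hu2 (hk2 _ 2 1 h3 h1), hu2 (hk2 _ 2 1 h3 h1), hu4 (hk2 _ 2 0 h3 h0), hu2 (hk2 _ 1 0 h1 h0),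
      hu2 (hk2 _ 1 0 h1 h0)]
  have hv' : ∀ {w : G}, Commute w b → Commute w b' → Commute w v := by
    intro w h3 h4
    rw [hb', H6.conj_eq_sq_mul_of_inverts hbv] at h4
    have h5 := h4.mul_right h3.inv_right
    rw [mul_inv_cancel_right] at h5
    exact (H6.commute_of_sq_commute_of_odd hv h5.symm).symm
  have huv := hv' hbu.symm hub'
  have fin : ∀ a ∈ A, a ≠ 1 → a ≠ b → a * u * a⁻¹ = u⁻¹ → Commute a b' → False := by
    intro a ha ha1 hab hau h3
    have hcab := H6.kleinFour_commute hA ha hb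
    have := aux (H6.kleinFour_mul_self hA ha) (H6.kleinFour_mul_self hA hb) hcab hu hv hu1 hv1 hau
      hbv (hv' hcab h3) hbu huv
    obtain ⟨c, hcA, hc1, hcc⟩ := hc (a * b) (mul_mem ha hb) (H6.ord2_ne_one
      (H6.ord2_mul_of_commute (H6.kleinFour_mul_self hA ha) (H6.kleinFour_mul_self hA hb) hcab hab))
      (u * v)
    rcases (H6.kleinFour_mem_iff hA ha hb ha1 hb1 hab c).1 hcA with rfl | rfl | rfl | rfl
    exacts [hc1 rfl, this.1 hcc, this.2.1 hcc, this.2.2 hcc]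
  rcases hk 0 with h0 | h0 <;> rw [mul_zero, zpow_zero, one_mul] at h0
  · exact fin a ha ha1 hab hau h0
  · exact fin (a * b) (mul_mem ha hb) (H6.ord2_ne_one (H6.ord2_mul_of_commute
      (H6.kleinFour_mul_self hA ha) (H6.kleinFour_mul_self hA hb) hcab hab)) (by simpa using ha1)
      habu h0

end Cfsg.Agent.S3195
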