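import Cfsg.Statements.S3196
import Cfsg.Agent.H6.Q8
import Cfsg.Agent.H1.Cores
import Cfsg.Agent.H5.Subnormal
import Cfsg.Agent.H7.PGrp
import Cfsg.Agent.H7.PGrp2

set_option autoImplicit false
open Cfsg

namespace Cfsg.Agent.S3196

/-- Let p be a prime and K a set of subgroups of order p of a finite group G, closed under conjugation, such that at least two distinct members of K commute elementwise, and whenever two distinct members X, Y of K commute: every subgroup of order p of the group XY they generate belongs to K, and every member W of K has centralizer meeting XY nontrivially. Then some member V of K commutes elementwise with every member of K and lies in O_p(G); in particular G is not simple. -/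
theorem result {G : Type*} [Group G] [Finite G]
    {p : ℕ} (hp : p.Prime) (K : Set (Subgroup G)) (hK : ∀ X ∈ K, Nat.card ↥X = p)
    (hKc : ∀ X ∈ K, ∀ g : G, X.map (MulAut.conj g).toMonoidHom ∈ K)
    (hex : ∃ X ∈ K, ∃ Y ∈ K, X ≠ Y ∧ ∀ x ∈ X, ∀ y ∈ Y, x * y = y * x)
    (ha : ∀ X ∈ K, ∀ Y ∈ K, X ≠ Y → (∀ x ∈ X, ∀ y ∈ Y, x * y = y * x) →
      ∀ Z : Subgroup G, Z ≤ X ⊔ Y → Nat.card ↥Z = p → Z ∈ K)
    (hb : ∀ X ∈ K, ∀ Y ∈ K, X ≠ Y → (∀ x ∈ X, ∀ y ∈ Y, x * y = y * x) →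
      ∀ W ∈ K, (X ⊔ Y) ⊓ Subgroup.centralizer (W : Set G) ≠ ⊥) :
    (∃ V ∈ K, (∀ W ∈ K, ∀ v ∈ V, ∀ w ∈ W, v * w = w * v) ∧ V ≤ Cfsg.pCore p G) ∧ ¬ IsSimpleGroup G := by
  haveI := Fact.mk hp
  let c : Subgroup G → Subgroup G → Prop := fun X Y => X ≤ Subgroup.centralizer (Y : Set G)
  have c_iff : ∀ X Y : Subgroup G, c X Y ↔ ∀ x ∈ X, ∀ y ∈ Y, x * y = y * x := fun X Y =>
    ⟨fun h x hx y hy => (h hx y hy).symm, fun h x hx y hy => (h x hx y hy).symm⟩
  have c_symm : ∀ {X Y : Subgroup G}, c X Y → c Y X := fun h => Subgroup.le_centralizer_iff.1 h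
  have c_refl : ∀ X ∈ K, c X X := fun X hX => by
    haveI : IsCyclic X := isCyclic_of_prime_card (hK X hX)
    exact fun x hx y hy => congrArg Subtype.val (IsMulCommutative.is_comm.comm (⟨y, hy⟩ : X) ⟨x, hx⟩)
  have hne : ∀ X ∈ K, X ≠ ⊥ := fun X hX h => hp.one_lt.ne' (by rw [← hK X hX, h, Subgroup.card_bot])
  have hpg : ∀ X ∈ K, IsPGroup p X := fun X hX => IsPGroup.of_card (n := 1) (by rw [hK X hX, pow_one])
  have hdis : ∀ X ∈ K, ∀ Y ∈ K, X ≠ Y → X ⊓ Y = ⊥ := fun X hX Y hY h =>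
    (H7.eq_or_eq_bot_of_card_prime (hK X hX) inf_le_left).resolve_right fun e =>
      h (Subgroup.eq_of_le_of_card_ge (inf_eq_left.1 e) (by rw [hK X hX, hK Y hY]))
  have hcard : ∀ X ∈ K, ∀ Y ∈ K, X ≠ Y → c X Y → Nat.card (X ⊔ Y : Subgroup G) = p * p := by
    intro X hX Y hY h hc
    have := H7.card_sup_mul_card_inf_of_le_normalizer (hc.trans (H6.centralizer_le_normalizer' Y))
    rwa [hdis X hX Y hY h, Subgroup.card_bot, mul_one, hK X hX, hK Y hY] at this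
  have hcc : ∀ X ∈ K, ∀ Y ∈ K, c X Y → ∀ {Z W : Subgroup G}, Z ≤ X ⊔ Y → W ≤ X ⊔ Y → c Z W := by
    intro X hX Y hY h Z W hZ hW
    refine hZ.trans (le_trans ?_ (H5.centralizer_anti hW))
    rw [H5.centralizer_sup]
    exact sup_le (le_inf (c_refl X hX) h) (le_inf (c_symm h) (c_refl Y hY))
  -- one-or-all
  have one : ∀ X ∈ K, ∀ Y ∈ K, X ≠ Y → c X Y → ∀ W ∈ K, ∃ Z ∈ K, Z ≤ X ⊔ Y ∧ c W Z := by
    intro X hX Y hY h hc W hW
    have h1 : IsPGroup p (X ⊔ Y : Subgroup G) :=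
      IsPGroup.of_card (n := 2) (by rw [hcard X hX Y hY h hc, pow_two])
    obtain ⟨z, hz, hzp⟩ := H10.exists_orderOf_eq_of_ne_bot (h1.to_le inf_le_left)
      (hb X hX Y hY h ((c_iff X Y).1 hc) W hW)
    exact ⟨Subgroup.zpowers z, ha X hX Y hY h ((c_iff X Y).1 hc) _ (Subgroup.zpowers_le.2 hz.1)
      (by rw [Nat.card_zpowers, hzp]), Subgroup.zpowers_le.2 hz.1,
      c_symm (Subgroup.zpowers_le.2 hz.2)⟩
  have all : ∀ X ∈ K, ∀ Y ∈ K, X ≠ Y → c X Y → ∀ Z₁ ∈ K, ∀ Z₂ ∈ K, Z₁ ≠ Z₂ → Z₁ ≤ X ⊔ Y →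
      Z₂ ≤ X ⊔ Y → ∀ W, c W Z₁ → c W Z₂ → ∀ Z, Z ≤ X ⊔ Y → c W Z := by
    intro X hX Y hY h hc Z₁ h1 Z₂ h2 h12 l1 l2 W c1 c2 Z hZ
    have e : Z₁ ⊔ Z₂ = X ⊔ Y := Subgroup.eq_of_le_of_card_ge (sup_le l1 l2)
      (by rw [hcard X hX Y hY h hc, hcard Z₁ h1 Z₂ h2 h12 (hcc X hX Y hY hc l1 l2)])
    refine le_trans ?_ (H5.centralizer_anti (hZ.trans e.ge))
    rw [H5.centralizer_sup]
    exact le_inf c1 c2
  have main : ∃ V ∈ K, ∀ W ∈ K, c W V := by
    by_contra hrad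
    push Not at hrad
    have L : ∀ {X Y : Subgroup G}, X ≤ X ⊔ Y := fun {_ _} => le_sup_left
    have R : ∀ {X Y : Subgroup G}, Y ≤ X ⊔ Y := fun {_ _} => le_sup_right
    have bs : ∀ P ∈ K, ∀ Q ∈ K, (∀ W ∈ K, c W P → c W Q) → P = Q := by
      intro P hP Q hQ h
      by_contra hPQ
      have cPQ := h P hP (c_refl P hP)
      obtain ⟨z, hz, hzq⟩ := hrad Q hQ
      have hzp : ¬ c z P := fun h' => hzq (h z hz h')
      obtain ⟨r, hr, hrl, hzr⟩ := one P hP Q hQ hPQ cPQ z hz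
      have hpr : ∀ W ∈ K, c W P → c W r := fun W hW h' =>
        all P hP Q hQ hPQ cPQ P hP Q hQ hPQ L R W h' (h W hW h') r hrl
      obtain ⟨w, hw, hwr⟩ := hrad r hr
      have hwp : ¬ c w P := fun h' => hwr (hpr w hw h')
      have crp : c r P := hcc P hP Q hQ cPQ hrl L
      have hrz : r ≠ z := fun e => hzp (e ▸ crp)
      obtain ⟨t, ht, htl, hwt⟩ := one r hr z hz hrz (c_symm hzr) w hw
      have htr : r ≠ t := fun e => hwr (e ▸ hwt)
      have htp : ¬ c P t := fun h' => hzp (c_symm (all r hr z hz hrz (c_symm hzr) r hr t ht htr L htl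
        P (c_symm crp) h' z R))
      have crt : c r t := hcc r hr z hz (c_symm hzr) L htl
      have hwt' : w ≠ t := fun e => hwr (e ▸ c_symm crt)
      obtain ⟨v, hv, hvl, hpv⟩ := one w hw t ht hwt' hwt P hP
      exact hwr (c_symm (all w hw t ht hwt' hwt v hv t ht (fun e => htp (e ▸ hpv)) hvl R r
        (c_symm (hpr v hv (c_symm hpv))) crt w L))
    obtain ⟨X, hX, Y, hY, hXY, hc⟩ := hex
    have cXY := (c_iff X Y).2 hc
    obtain ⟨⟨x, hx⟩, hx1⟩ := Subgroup.ne_bot_iff_exists_ne_one.1 (hne X hX)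
    obtain ⟨⟨y, hy⟩, hy1⟩ := Subgroup.ne_bot_iff_exists_ne_one.1 (hne Y hY)
    have hx1 : x ≠ 1 := fun e => hx1 (Subtype.ext e)
    have hy1 : y ≠ 1 := fun e => hy1 (Subtype.ext e)
    have hxp : ∀ X ∈ K, ∀ x ∈ X, x ^ p = 1 := fun X hX x hx => by
      rw [← hK X hX]; exact congrArg Subtype.val (pow_card_eq_one' (x := (⟨x, hx⟩ : X)))
    have hnX : x * y ∉ X := fun h => hy1 (by
      have : y ∈ X ⊓ Y := ⟨(X.mul_mem_cancel_left hx).1 h, hy⟩
      rwa [hdis X hX Y hY hXY] at this)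
    have hzl : Subgroup.zpowers (x * y) ≤ X ⊔ Y :=
      Subgroup.zpowers_le.2 (mul_mem (L hx) (R hy))
    have hZ : Subgroup.zpowers (x * y) ∈ K := ha X hX Y hY hXY hc _ hzl (by
      rw [Nat.card_zpowers]
      refine orderOf_eq_prime ?_ fun e => hnX (e ▸ one_mem _)
      rw [Commute.mul_pow (hc x hx y hy), hxp X hX x hx, hxp Y hY y hy, one_mul])
    have hZX : Subgroup.zpowers (x * y) ≠ X := fun e => hnX (e ▸ Subgroup.mem_zpowers _)
    obtain ⟨P, hP, hPZ, hPX⟩ : ∃ P ∈ K, c P (Subgroup.zpowers (x * y)) ∧ ¬ c P X := by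
      by_contra h
      push Not at h
      exact hZX (bs _ hZ X hX h)
    have hPY : ¬ c P Y := fun h => hPX (all X hX Y hY hXY cXY _ hZ Y hY (fun e => hx1 (by
      have : x ∈ X ⊓ Y := ⟨hx, (Y.mul_mem_cancel_right hy).1 (e ▸ Subgroup.mem_zpowers _)⟩
      rwa [hdis X hX Y hY hXY] at this)) hzl R P hPZ h X L)
    have e1 : H5.cj x⁻¹ P = H5.cj y P := by
      have := H5.cj_eq_of_mem_normalizer (H6.centralizer_le_normalizer' P
        (c_symm hPZ (Subgroup.mem_zpowers _)))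
      rw [H5.cj_mul] at this
      conv_lhs => rw [← this, H5.cj_inv_cj]
    have hP' : H5.cj y P ∈ K := hKc P hP y
    have key : ∀ {g : G} {Q : Subgroup G}, g ∈ Subgroup.centralizer (Q : Set G) → c P Q →
        c (H5.cj g P) Q := by
      intro g Q hg h
      have := H5.cj_mono (g := g) h
      rwa [H5.cj_centralizer, H5.cj_eq_of_mem_normalizer (H6.centralizer_le_normalizer' Q hg)] at this
    have kX : ∀ Q, c X Q → c P Q → c (H5.cj y P) Q := fun Q h1 h2 => e1 ▸ key (inv_mem (h1 hx)) h2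
    have kY : ∀ Q, c Y Q → c P Q → c (H5.cj y P) Q := fun Q h1 h2 => key (h1 hy) h2
    have hPP : P ≠ H5.cj y P := by
      intro e
      have h1 : Subgroup.zpowers y = Y := (H7.eq_or_eq_bot_of_card_prime (hK Y hY)
        (Subgroup.zpowers_le.2 hy)).resolve_left (by simpa using hy1)
      exact hPY (c_symm (H7.le_centralizer_of_card_prime (hpg Y hY) (hK P hP)
        (h1 ▸ Subgroup.zpowers_le.2 (H5.cj_eq_self_iff.1 e.symm))))
    by_cases hcP : c (H5.cj y P) P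
    · refine hPP (bs P hP _ hP' fun Q hQ hQP => c_symm ?_)
      by_cases e : P = Q
      · exact e ▸ hcP
      obtain ⟨Q1, hQ1, l1, c1⟩ := one P hP Q hQ e (c_symm hQP) X hX
      exact all P hP Q hQ e (c_symm hQP) P hP Q1 hQ1 (fun e' => hPX (c_symm (e' ▸ c1))) L l1 _ hcP
        (kX Q1 c1 (hcc P hP Q hQ (c_symm hQP) L l1)) Q R
    · have h1 : ∀ Q ∈ K, c P Q → c X Q → c Y Q := by
        intro Q hQ cP cX
        have e : P ≠ Q := fun e' => hPX (c_symm (e' ▸ cX))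
        obtain ⟨Q2, hQ2, l2, c2⟩ := one P hP Q hQ e cP Y hY
        by_cases e2 : Q = Q2
        · exact e2 ▸ c2
        exact absurd (all P hP Q hQ e cP Q hQ Q2 hQ2 e2 R l2 _ (kX Q cX cP)
          (kY Q2 c2 (hcc P hP Q hQ cP L l2)) P L) hcP
      refine hXY (bs X hX Y hY fun Q hQ hQX => c_symm ?_)
      by_cases e : X = Q
      · exact e ▸ c_symm cXY
      obtain ⟨Q1, hQ1, l1, c1⟩ := one X hX Q hQ e (c_symm hQX) P hP
      exact all X hX Q hQ e (c_symm hQX) X hX Q1 hQ1 (fun e' => hPX (e' ▸ c1)) L l1 _ (c_symm cXY)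
        (h1 Q1 hQ1 c1 (hcc X hX Q hQ (c_symm hQX) L l1)) Q R
  obtain ⟨V, hV, hVc⟩ := main
  have hN : (sSup K).Normal := H5.normal_iff_top_le_normalizer.2
    (H5.le_normalizer_sSup fun g _ H hH => hKc H hH g)
  have hle : V ≤ Cfsg.pCore p G := H1.subnormal_le_pCore ((H5.SN.of_normal (le_sSup hV)
    ((sSup_le hVc).trans (H6.centralizer_le_normalizer' V))).isSubnormal hN.isSubnormal) (hpg V hV)
  refine ⟨⟨V, hV, fun W hW => (c_iff V W).1 (c_symm (hVc W hW)), hle⟩, fun hs => ?_⟩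
  have h1 : Cfsg.pCore p G = ⊤ := ((inferInstance : (Cfsg.pCore p G).Normal).eq_bot_or_eq_top).resolve_left
    fun e => hne V hV (le_bot_iff.1 (e ▸ hle))
  have h2 : IsPGroup p G := (h1 ▸ H1.isPGroup_pCore p : IsPGroup p (⊤ : Subgroup G)).of_equiv
    Subgroup.topEquiv
  have h3 : Subgroup.center G = ⊤ := ((inferInstance : (Subgroup.center G).Normal).eq_bot_or_eq_top).resolve_left
    ((Subgroup.nontrivial_iff_ne_bot _).1 h2.center_nontrivial)
  have h4 : ∀ X ∈ K, X = ⊤ := fun X hX => (Subgroup.Normal.eq_bot_or_eq_top ⟨fun a ha g => by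
    rwa [Subgroup.mem_center_iff.1 (h3 ▸ Subgroup.mem_top a) g, mul_inv_cancel_right]⟩).resolve_left
      (hne X hX)
  obtain ⟨X, hX, Y, hY, hXY, -⟩ := hex
  exact hXY ((h4 X hX).trans (h4 Y hY).symm)

end Cfsg.Agent.S3196
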