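import Cfsg.Statements.S3200
import Cfsg.Agent.H17.Central
import Cfsg.Agent.H1.PSolv
import Cfsg.Agent.H1.HallTop

set_option autoImplicit false
open Cfsg

namespace Cfsg.Agent.S3200

open Subgroup

universe u in
theorem aux (n : ℕ) : ∀ (H : Type u) [Group H] [Finite H], Nat.card H = n → ∀ C : Subgroup H,
    IsMulCommutative C → IsPiHallOf {2}ᶜ C ⊤ → Group.IsSolvable H := by
  induction n using Nat.strong_induction_on with
  | _ n ih =>
    intro H _ _ hn C hC hH
    by_cases h : ∃ N : Subgroup H, N.Normal ∧ N ≠ ⊥ ∧ N ≠ ⊤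
    · obtain ⟨N, _, h1, h2⟩ := h
      refine H1.isSolvable_of_normal_quotient N (ih _ (hn ▸ H1.card_lt_card_of_ne_top h2) N rfl
        ((C ⊓ N).subgroupOf N) ?_ ?_) (ih _ (hn ▸ H1.card_quotient_lt h1) (H ⧸ N) rfl
        (C.map (QuotientGroup.mk' N)) inferInstance ?_)
      · have := H1.isMulCommutative_of_le (inf_le_left : C ⊓ N ≤ C)
        infer_instance
      · have := H1.IsPiHallOf.subgroupOf (H1.IsPiHallOf.inf hH (le_top : N ≤ ⊤)
          le_normalizer_of_normal) le_rfl
        rwa [subgroupOf_self] at this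
      · have := H1.IsPiHallOf.map hH (QuotientGroup.mk' N)
        rwa [map_top_of_surjective _ (QuotientGroup.mk'_surjective N)] at this
    push Not at h
    obtain ⟨k, hk⟩ : ∃ k, C.index = 2 ^ k := by
      have := H1.IsPiHallOf.isPiNat_relIndex hH
      rw [compl_compl, relIndex_top_right] at this
      exact (H1.isPiNat_singleton_iff Nat.prime_two index_ne_zero_of_finite).1 this
    by_cases hC0 : C = ⊥
    · rw [hC0, index_bot] at hk
      have := (IsPGroup.of_card hk).isNilpotent
      infer_instance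
    obtain ⟨⟨c, hc⟩, hc1⟩ := ne_bot_iff_exists_ne_one.1 hC0
    have hc1' : c ≠ 1 := fun h => hc1 (Subtype.ext h)
    have : Nontrivial H := ⟨⟨c, 1, hc1'⟩⟩
    have : IsSimpleGroup H := ⟨fun N hN => or_iff_not_imp_left.2 (h N hN)⟩
    obtain ⟨j, -, hj⟩ := (Nat.dvd_prime_pow Nat.prime_two).1 (hk ▸ index_dvd_of_le
      (show C ≤ centralizer {c} from fun x hx => mem_centralizer_singleton_iff.2
        (H1.isMulCommutative_iff'.1 hC x hx c hc)))
    have := Fact.mk (H17.card_prime_of_simple_of_prime_pow_class Nat.prime_two hc1' hj)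
    have : IsCyclic H := isCyclic_of_prime_card rfl
    exact H1.isSolvable_of_comm' inferInstance

theorem compl {H : Type*} [Group H] [Finite H] {D : Subgroup H} (hD : IsPiHallOf {2}ᶜ D ⊤)
    (P : Sylow 2 H) : IsComplement' (P : Subgroup H) D := by
  have h1 := (H1.isPiNat_compl_singleton_iff Nat.prime_two).1 (H1.IsPiHallOf.isPiNat hD)
  have h2 := H1.IsPiHallOf.isPiNat_relIndex hD
  rw [compl_compl, relIndex_top_right] at h2
  refine isComplement'_of_coprime ?_ (H1.IsPGroup.coprime_card P.isPGroup' h1)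
  refine Nat.dvd_antisymm (Nat.Coprime.mul_dvd_of_dvd_of_dvd
    (H1.IsPGroup.coprime_card P.isPGroup' h1) (card_subgroup_dvd_card _)
    (card_subgroup_dvd_card _)) ?_
  rw [← D.index_mul_card]
  refine Nat.mul_dvd_mul_right ?_ _
  obtain ⟨k, hk⟩ := (H1.isPiNat_singleton_iff Nat.prime_two index_ne_zero_of_finite).1 h2
  rw [hk]
  exact P.pow_dvd_card_of_pow_dvd_card (hk ▸ D.index_dvd_card)

/-- Let H be a finite group in which a Sylow 2-subgroup has an abelian complement (an abelian subgroup meeting it trivially whose product with it is all of H). Then H is solvable, and every subgroup and every quotient group of H again has a Sylow 2-subgroup with an abelian complement. -/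
theorem result {H : Type*} [Group H] [Finite H]
    (S : Sylow 2 H) (C : Subgroup H) (hC : IsMulCommutative ↥C) (hSC : Subgroup.IsComplement' (S : Subgroup H) C) :
    Group.IsSolvable H ∧
    (∀ L : Subgroup H, ∃ (P : Sylow 2 ↥L) (D : Subgroup ↥L), IsMulCommutative ↥D ∧ Subgroup.IsComplement' (P : Subgroup ↥L) D) ∧
    (∀ (N : Subgroup H) [N.Normal], ∃ (P : Sylow 2 (H ⧸ N)) (D : Subgroup (H ⧸ N)),
      IsMulCommutative ↥D ∧ Subgroup.IsComplement' (P : Subgroup (H ⧸ N)) D) := by
  have hH : IsPiHallOf {2}ᶜ C ⊤ := by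
    refine H1.isPiHallOf_iff.2 ⟨le_top, ?_, ?_⟩
    · rw [H1.isPiNat_compl_singleton_iff Nat.prime_two, ← hSC.symm.index_eq_card]
      exact ((Nat.Prime.coprime_iff_not_dvd Nat.prime_two).2 S.not_dvd_index).symm
    · rw [compl_compl, relIndex_top_right, hSC.index_eq_card]
      exact H1.isPiNat_card_singleton_iff.2 S.isPGroup'
  have hs := aux _ H rfl C hC hH
  refine ⟨hs, fun L => ?_, fun N _ => ?_⟩
  · obtain ⟨D, hD⟩ := (H1.hallOK_of_isSolvable {2}ᶜ (inferInstance : Group.IsSolvable L)).top.exists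
    obtain ⟨k, -, hk⟩ := (H1.hallOK_of_isSolvable {2}ᶜ hs).top.exists_conj_le
      (U := D.map L.subtype) le_top
      (by rw [card_map_of_injective L.subtype_injective]; exact H1.IsPiHallOf.isPiNat hD) hH
    refine ⟨default, D, H1.isMulCommutative_iff'.2 fun a ha b hb => Subtype.ext ?_, compl hD _⟩
    have := H1.isMulCommutative_iff'.1 hC _ (hk (H1.conj_mem_conj_smul ⟨a, ha, rfl⟩)) _
      (hk (H1.conj_mem_conj_smul ⟨b, hb, rfl⟩))
    simpa [← mul_assoc] using (by simpa [mul_assoc] using this : (a : H) * (b * k⁻¹) = b * (a * k⁻¹))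
  · have := H1.IsPiHallOf.map hH (QuotientGroup.mk' N)
    rw [map_top_of_surjective _ (QuotientGroup.mk'_surjective N)] at this
    exact ⟨default, _, inferInstance, compl this _⟩

end Cfsg.Agent.S3200
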