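import Cfsg.Statements.S3201
import Cfsg.Agent.H6.QLift
import Cfsg.Agent.H6.Misc

set_option autoImplicit false
open Cfsg

namespace Cfsg.Agent.S3201

theorem coatom_index {P : Type*} [Group P] [Finite P] (hP : IsPGroup 2 P) [IsMulCommutative P] {C : Subgroup P}
    (hC : IsCoatom C) : C.index = 2 := by
  haveI : Fact (Nat.Prime 2) := ⟨Nat.prime_two⟩
  obtain ⟨k, hk⟩ := hP.index C
  rcases k with _ | k
  · exact absurd (Subgroup.index_eq_one.mp hk) hC.1
  haveI : C.Normal := Subgroup.normal_of_isMulCommutative C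
  obtain ⟨H, hH, hi⟩ := H6.exists_index_prime_of_normal C hk
  rcases hH.eq_or_lt with h | h
  · rw [h]; exact hi
  · rw [hC.2 H h, Subgroup.index_top] at hi
    omega

/-- Let S be a finite 2-group whose centre Z(S) has n ≥ 2 distinct maximal subgroups C₁, …, Cₙ with trivial intersection such that each quotient S/Cᵢ is a non-abelian group with exactly one involution (a generalized quaternion group). Then S is the internal direct product of an elementary abelian subgroup and a non-abelian subgroup with exactly one involution. -/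
theorem result {S : Type*} [Group S] [Finite S]
    (hS : IsPGroup 2 S) (n : ℕ) (hn : 2 ≤ n) (C : Fin n → Subgroup ↥(Subgroup.center S))
    (hCmax : ∀ i, IsCoatom (C i)) (hCinj : Function.Injective C) (hCint : ⨅ i, C i = ⊥)
    (hCq : ∀ i, ∃ (_ : ((C i).map (Subgroup.center S).subtype).Normal),
      ¬ IsMulCommutative (S ⧸ (C i).map (Subgroup.center S).subtype) ∧
      ∃! x : S ⧸ (C i).map (Subgroup.center S).subtype, orderOf x = 2) :
    ∃ E Q : Subgroup S, Cfsg.IsInternalDirectProduct E Q ⊤ ∧ Cfsg.IsElementaryAbelian 2 E ∧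
      ¬ IsMulCommutative ↥Q ∧ ∃! x : ↥Q, orderOf x = 2 := by
  open H6 Subgroup in
  set N : Fin n → Subgroup S := fun i => (C i).map (center S).subtype with hN
  have hNZ : ∀ i, N i ≤ center S := fun i => map_subtype_le _
  have hidx : ∀ i, (C i).index = 2 := fun i => coatom_index (hS.to_subgroup _) (hCmax i)
  have hall : ∀ z, z ∈ center S → (∀ i, z ∈ N i) → z = 1 := by
    intro z hz h
    have : (⟨z, hz⟩ : center S) ∈ ⨅ i, C i := by
      rw [mem_iInf]
      intro i
      obtain ⟨y, hy, e⟩ := h i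
      have : y = ⟨z, hz⟩ := Subtype.ext e
      rwa [← this]
    rw [hCint, mem_bot] at this
    exact congrArg Subtype.val this
  have hmem : ∀ i z (hz : z ∈ center S), z ∈ N i ↔ (⟨z, hz⟩ : center S) ∈ C i := by
    intro i z hz
    constructor
    · rintro ⟨y, hy, e⟩
      have : y = ⟨z, hz⟩ := Subtype.ext e
      rwa [← this]
    · intro h
      exact ⟨_, h, rfl⟩
  have hsq : ∀ z ∈ center S, z * z = 1 := by
    intro z hz
    refine hall _ (mul_mem hz hz) fun i => ?_
    rw [hmem i _ (mul_mem hz hz)]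
    exact mul_self_mem_of_index_two (hidx i) (⟨z, hz⟩ : center S)
  have huniq : ∀ z ∈ center S, ∀ w ∈ center S, (∀ i, z ∉ N i) → (∀ i, w ∉ N i) → z = w := by
    intro z hz w hw h1 h2
    have : z * w = 1 := by
      refine hall _ (mul_mem hz hw) fun i => ?_
      rw [hmem i _ (mul_mem hz hw)]
      have := (mul_mem_iff_of_index_two (hidx i) (a := ⟨z, hz⟩) (b := ⟨w, hw⟩)).mpr (by
        rw [← hmem, ← hmem]
        exact iff_of_false (h1 i) (h2 i))
      exact this
    calc z = z * (w * w) := by rw [hsq w hw, mul_one]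
      _ = w := by rw [← mul_assoc, this, one_mul]
  have hcen : ∀ i x, x * x ∈ N i → x ∈ center S := by
    intro i x hx
    obtain ⟨_, -, u, -, hu⟩ := hCq i
    by_cases h1 : x ∈ N i
    · exact hNZ i h1
    obtain ⟨z, hz⟩ : ∃ z : center S, z ∉ C i := by
      by_contra h
      push Not at h
      exact (hCmax i).1 ((eq_top_iff' _).mpr h)
    have o1 : orderOf (x : S ⧸ N i) = 2 :=
      ord2_of (by rw [← QuotientGroup.mk_mul, QuotientGroup.eq_one_iff]; exact hx)
        (by rw [Ne, QuotientGroup.eq_one_iff]; exact h1)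
    have o2 : orderOf ((z : S) : S ⧸ N i) = 2 :=
      ord2_of (by rw [← QuotientGroup.mk_mul, hsq z z.2]; rfl)
        (by rw [Ne, QuotientGroup.eq_one_iff, hmem i z z.2]; exact hz)
    have e := (hu _ o2).trans (hu _ o1).symm
    have := hNZ i (QuotientGroup.eq.mp e)
    have h2 := mul_mem z.2 this
    simpa using h2
  have hkey : ∀ x y, x ∉ center S → y ∉ center S → x * x ∈ center S → y * y ∈ center S → x * x = y * y :=
    fun x y hx hy h1 h2 => huniq _ h1 _ h2 (fun i h => hx (hcen i x h)) (fun i h => hy (hcen i y h))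
  let i0 : Fin n := ⟨0, by omega⟩
  obtain ⟨_, hna, u, hu1, hu⟩ := hCq i0
  obtain ⟨m, a, b, h1, h2, h3, h4, h5, h6⟩ :=
    quat_lift hS (N i0) hna (fun u v hu' hv => (hu u hu').trans (hu v hv).symm)
  set f := QuotientGroup.mk' (N i0) with hf
  have hnc : ¬ Commute (a : S ⧸ N i0) b := fun h => hna (comm_of_gens h5 h)
  have hcz : ∀ z ∈ center S, ∀ g : S, Commute (g : S ⧸ N i0) z := fun z hz g =>
    (show Commute g z from mem_center_iff.mp hz g).map f
  have hb : b ∉ center S := fun h => hnc (hcz b h a)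
  have hab : a * b ∉ center S := fun h => hnc (by
    have := hcz _ h a
    rw [QuotientGroup.mk_mul] at this
    have h9 := (Commute.refl (a : S ⧸ N i0)).inv_right.mul_right this
    rwa [inv_mul_cancel_left] at h9)
  have ha1 : (a : S ⧸ N i0) ^ (2 * 2 ^ (m + 1)) = 1 := by rw [← h1, pow_orderOf_eq_one]
  have hb4 : b * b * (b * b) ∈ N i0 := by
    rw [← QuotientGroup.eq_one_iff]
    simp only [QuotientGroup.mk_mul]
    rw [h2, ← pow_add, ← two_mul, ha1]
  have hb2 : b * b ∈ center S := hcen i0 _ hb4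
  have eab : ((a : S ⧸ N i0) * b) * (a * b) = b * b := by
    calc ((a : S ⧸ N i0) * b) * (a * b) = a * ((b : S ⧸ N i0) * a * (b : S ⧸ N i0)⁻¹) * (b * b) := by group
      _ = b * b := by rw [h3]; group
  have hab2 : a * b * (a * b) ∈ center S := by
    apply hcen i0
    rw [← QuotientGroup.eq_one_iff]
    simp only [QuotientGroup.mk_mul]
    rw [eab, h2, ← pow_add, ← two_mul, ha1]
  have e1 := hkey _ _ hab hb hab2 hb2
  have hinv : b * a * b⁻¹ = a⁻¹ := by
    calc b * a * b⁻¹ = a⁻¹ * (a * b * (a * b)) * b⁻¹ * b⁻¹ := by group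
      _ = a⁻¹ := by rw [e1]; group
  have ham : a ^ 2 ^ m ∉ center S := by
    intro h
    have h7 := hsq _ h
    rw [← pow_add, ← two_mul, ← pow_succ'] at h7
    have h8 : (a : S ⧸ N i0) ^ 2 ^ (m + 1) = 1 := by rw [← QuotientGroup.mk_pow, h7]; rfl
    have := Nat.le_of_dvd (by positivity) (orderOf_dvd_of_pow_eq_one h8)
    rw [h1] at this
    have : 0 < 2 ^ (m + 1) := by positivity
    omega
  have ham2 : a ^ 2 ^ m * a ^ 2 ^ m ∈ center S := by
    apply hcen i0
    rw [← QuotientGroup.eq_one_iff, ← pow_add, ← pow_add, QuotientGroup.mk_pow, ← ha1]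
    congr 1
    ring
  have e2 := hkey _ _ hb ham hb2 ham2
  rw [← pow_add, ← two_mul, ← pow_succ'] at e2
  have ha2 : a ^ (2 * 2 ^ (m + 1)) = 1 := by
    rw [two_mul, pow_add, ← e2]; exact hsq _ hb2
  set Q := closure ({a, b} : Set S) with hQ
  have hQm : ∀ d, d ∈ Q ↔ ∃ k : ℤ, d = a ^ k ∨ d = a ^ k * b := fun d =>
    mem_closure_inverts' (by rw [e2]; exact pow_mem (mem_zpowers a) _) hinv
  have hdisj : N i0 ⊓ Q = ⊥ := by
    rw [eq_bot_iff]
    rintro x ⟨hx1, hx2⟩
    obtain ⟨k, rfl | rfl⟩ := (hQm x).mp hx2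
    · have h7 : (a : S ⧸ N i0) ^ k = 1 := by
        rw [← QuotientGroup.mk_zpow, QuotientGroup.eq_one_iff]; exact hx1
      have h8 := orderOf_dvd_iff_zpow_eq_one.mpr h7
      rw [h1] at h8
      obtain ⟨j, rfl⟩ := h8
      rw [mem_bot, zpow_mul, zpow_natCast, ha2, one_zpow]
    · exfalso
      apply h4
      have h7 : (a : S ⧸ N i0) ^ k * b = 1 := by
        rw [← QuotientGroup.mk_zpow, ← QuotientGroup.mk_mul, QuotientGroup.eq_one_iff]; exact hx1
      rw [eq_inv_of_mul_eq_one_right h7]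
      exact inv_mem (zpow_mem (mem_zpowers _) k)
  have haQ : a ∈ Q := subset_closure (by simp)
  have hbQ : b ∈ Q := subset_closure (by simp)
  have hsup : N i0 ⊔ Q = ⊤ := by
    rw [eq_top_iff]
    intro g _
    obtain ⟨k, d, hd, rfl | rfl⟩ := h6 g
    · exact mul_mem (mem_sup_right (zpow_mem haQ k)) (mem_sup_left hd)
    · exact mul_mem (mem_sup_right (mul_mem (zpow_mem haQ k) hbQ)) (mem_sup_left hd)
  have hinj : Function.Injective (f.comp Q.subtype) := by
    rw [injective_iff_map_eq_one]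
    intro x hx
    have : (x : S) ∈ N i0 ⊓ Q := ⟨(QuotientGroup.eq_one_iff _).mp hx, x.2⟩
    rw [hdisj, mem_bot] at this
    exact Subtype.ext this
  refine ⟨N i0, Q, ⟨le_top, le_top, fun x hx y _ => (mem_center_iff.mp (hNZ i0 hx) y).symm, hdisj, hsup⟩,
    ⟨⟨⟨fun x y => Subtype.ext (mem_center_iff.mp (hNZ i0 y.2) x)⟩⟩,
      fun x hx => by rw [pow_two]; exact hsq x (hNZ i0 hx)⟩, ?_, ?_⟩
  · intro h
    apply hnc
    have : Commute (⟨a, haQ⟩ : Q) ⟨b, hbQ⟩ := h.is_comm.comm _ _
    exact this.map (f.comp Q.subtype)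
  · have hb1 : b * b ≠ 1 := fun h => hb (hcen i0 b (by rw [h]; exact one_mem _))
    refine ⟨⟨b * b, mul_mem hbQ hbQ⟩, ?_, fun y hy => hinj ?_⟩
    · show orderOf _ = 2
      rw [← orderOf_coe]
      exact ord2_of (hsq _ hb2) hb1
    · have o1 : orderOf ((f.comp Q.subtype) y) = 2 := by rw [orderOf_injective _ hinj]; exact hy
      have o2 : orderOf ((f.comp Q.subtype) ⟨b * b, mul_mem hbQ hbQ⟩) = 2 := by
        rw [orderOf_injective _ hinj, ← orderOf_coe]
        exact ord2_of (hsq _ hb2) hb1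
      exact (hu _ o1).trans (hu _ o2).symm

end Cfsg.Agent.S3201
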