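import Cfsg.Statements.S3202
import Cfsg.Agent.H6.QLift

set_option autoImplicit false
open Cfsg

namespace Cfsg.Agent.S3202

/-- Let S be a finite 2-group of 2-rank exactly 2 and D a maximal subgroup of the centre of S such that S/D is a non-abelian group with exactly one involution (a generalized quaternion group). Then S has a nontrivial cyclic characteristic subgroup. -/
theorem result {S : Type*} [Group S]
    [Finite S] (hS : IsPGroup 2 S) (hr2 : Cfsg.PRankLE 2 2 S) (hr1 : ¬ Cfsg.PRankLE 2 1 S)
    (D : Subgroup ↥(Subgroup.center S)) (hD : IsCoatom D)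
    (hq : ∃ (_ : (D.map (Subgroup.center S).subtype).Normal),
      ¬ IsMulCommutative (S ⧸ D.map (Subgroup.center S).subtype) ∧
      ∃! x : S ⧸ D.map (Subgroup.center S).subtype, orderOf x = 2) :
    ∃ C : Subgroup S, C ≠ ⊥ ∧ IsCyclic ↥C ∧ C.Characteristic := by
  open H6 Subgroup in
  obtain ⟨_, hna, x, -, hx⟩ := hq
  set N := D.map (center S).subtype
  obtain ⟨m, a, b, -, -, h3, -, -, h6⟩ := quat_lift hS N hna (fun u v hu hv => (hx u hu).trans (hx v hv).symm)
  have hN : N ≤ center S := map_subtype_le _
  have hd : (a⁻¹)⁻¹ * (b * a * b⁻¹) ∈ N := QuotientGroup.eq.mp (by simpa using h3.symm)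
  refine ⟨commutator S, ?_, commutator_cyclic_of_gens hN hd (by group) h6, inferInstance⟩
  intro h
  apply hna
  have hc : ∀ u v : S, u * v = v * u := by
    intro u v
    have := commutator_mem_commutator (mem_top u) (mem_top v)
    change _ ∈ commutator S at this
    rw [h, mem_bot] at this
    exact commutatorElement_eq_one_iff_mul_comm.mp this
  refine ⟨⟨fun u v => ?_⟩⟩
  obtain ⟨u, rfl⟩ := QuotientGroup.mk_surjective u
  obtain ⟨v, rfl⟩ := QuotientGroup.mk_surjective v
  rw [← QuotientGroup.mk_mul, hc, QuotientGroup.mk_mul]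

end Cfsg.Agent.S3202
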