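import Cfsg.Statements.S3208
import Cfsg.Agent.H6.Q8
import Cfsg.Agent.H7.PGrp

set_option autoImplicit false
open Cfsg

namespace Cfsg.Agent.S3208

/-- Let j be an involution of a finite group G, H a subgroup of G, and T a Sylow 2-subgroup of H ∩ C_G(j) containing j such that ⟨j⟩ is a characteristic subgroup of T. Then T is a Sylow 2-subgroup of H. -/
theorem result {G : Type*} [Group G] [Finite G]
    (j : G) (hj : orderOf j = 2) (H T : Subgroup G) (hT : T ≤ H ⊓ Subgroup.centralizer ({j} : Set G)) (h2 : IsPGroup 2 ↥T)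
    (hSyl : ¬ 2 ∣ T.relIndex (H ⊓ Subgroup.centralizer ({j} : Set G))) (hjT : j ∈ T)
    (hchar : ((Subgroup.zpowers j).subgroupOf T).Characteristic) :
    ¬ 2 ∣ T.relIndex H := by
  intro hd
  obtain ⟨R, hR, hTR⟩ := H10.exists_isSylowIn_ge (p := 2) h2 (hT.trans inf_le_left)
  have hne : T ≠ R := by
    rintro rfl
    exact hR.not_dvd_relIndex hd
  obtain ⟨g, ⟨hgN, hgR⟩, hgT⟩ := SetLike.exists_of_lt
    (H7.lt_normalizer_inf hR.isPGroup (lt_of_le_of_ne hTR hne))
  have hS : H10.IsSylowIn 2 T (H ⊓ Subgroup.centralizer ({j} : Set G)) :=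
    H10.isSylowIn_of_not_dvd hT h2 hSyl
  have hc : Commute g j := by
    have h1 := Subgroup.characteristic_iff_map_le.1 hchar (T.normalizerMonoidHom ⟨g, hgN⟩)
      ⟨⟨j, hjT⟩, Subgroup.mem_zpowers j, rfl⟩
    have h3 : g * j * g⁻¹ ∈ Subgroup.zpowers j := h1
    rcases (H6.mem_zpowers_ord2 (H6.ord2_mul_self hj)).1 h3 with e | e
    · exact absurd e (H6.ord2_ne_one (H6.ord2_conj hj g))
    · exact H6.conj_eq_iff_commute.1 e
  refine hgT ((hS.eq_of_le (Q := R ⊓ Subgroup.centralizer ({j} : Set G))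
    (hR.isPGroup.to_le inf_le_left)
    (le_inf hTR (hT.trans inf_le_right)) (inf_le_inf_right _ hR.le)) ▸ ⟨hgR, H6.mem_cent_iff_commute.2 hc⟩)

end Cfsg.Agent.S3208
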