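import Cfsg.Statements.S3209
import Cfsg.Agent.H12.SL2C

set_option autoImplicit false
open Cfsg

namespace Cfsg.Agent.S3209

open Subgroup H12

/-- Let L₁ ≅ SL₂(q₁) and L₂ ≅ SL₂(q₂), q₁ and q₂ odd, be elementwise-commuting subgroups of a finite group meeting in ⟨j⟩ for an involution j. Then L₁L₂ has exactly two conjugacy classes of involutions: the central involution j, and one further class (there is an involution x ≠ j in L₁L₂, and every involution of L₁L₂ other than j is conjugate to x by an element of L₁L₂). -/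
theorem result {G : Type*} [Group G] [Finite G]
    {F₁ : Type*} [Field F₁] [Fintype F₁] {F₂ : Type*} [Field F₂] [Fintype F₂]
    (hF₁ : Odd (Fintype.card F₁)) (hF₂ : Odd (Fintype.card F₂)) (L₁ L₂ : Subgroup G)
    (e₁ : ↥L₁ ≃* Matrix.SpecialLinearGroup (Fin 2) F₁) (e₂ : ↥L₂ ≃* Matrix.SpecialLinearGroup (Fin 2) F₂)
    (hc : ∀ x ∈ L₁, ∀ y ∈ L₂, x * y = y * x) (j : G) (hj : orderOf j = 2) (hm : L₁ ⊓ L₂ = Subgroup.zpowers j) :
    ∃ x ∈ L₁ ⊔ L₂, orderOf x = 2 ∧ x ≠ j ∧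
      ∀ y ∈ L₁ ⊔ L₂, orderOf y = 2 → y = j ∨ ∃ g ∈ L₁ ⊔ L₂, g * x * g⁻¹ = y := by
  have hj' := hm.ge (mem_zpowers j)
  have s₁ := slj_of_equiv (two_ne_of_odd hF₁) e₁ hj hj'.1
  have s₂ := slj_of_equiv (two_ne_of_odd hF₂) e₂ hj hj'.2
  have z := fun x => (mem_zpowers_two (x := x) s₁.sq)
  have sq : ∀ a ∈ L₁, ∀ b ∈ L₂, (a * b) ^ 2 = a * a * (b * b) := fun a ha b hb => by
    rw [_root_.sq, mul_assoc, mul_assoc, ← mul_assoc b, ← hc a ha b hb, mul_assoc]
  obtain ⟨a, ha, haa⟩ := s₁.ex4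
  obtain ⟨b, hb, hbb⟩ := s₂.ex4
  have hn : a * b ∉ zpowers j := fun h => by
    have : a ∈ zpowers j := hm.le (mem_inf.2 ⟨ha, (mul_mem_cancel_right hb).1 (hm.ge h).2⟩)
    rcases (z a).1 this with rfl | rfl
    · exact s₁.ne (by simpa using haa.symm)
    · exact s₁.ne (by simpa using haa)
  refine ⟨a * b, mul_mem_sup ha hb, orderOf_eq_prime (by rw [sq a ha b hb, haa, hbb, s₁.sq])
    fun h => hn (h ▸ one_mem _), fun h => hn (h ▸ mem_zpowers j), fun y hy hy2 => ?_⟩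
  obtain ⟨c, hc', d, hd, rfl⟩ := (mem_sup_comm hc).1 hy
  have e := pow_orderOf_eq_one (c * d)
  rw [hy2, sq c hc' d hd] at e
  have : c * c ∈ zpowers j := hm.le (mem_inf.2 ⟨mul_mem hc' hc', by
    rw [eq_inv_of_mul_eq_one_left e]; exact inv_mem (mul_mem hd hd)⟩)
  rcases (z _).1 this with h | h
  · left
    rw [h, one_mul] at e
    refine ((z _).1 (mul_mem ((z c).2 (s₁.sq1 c hc' h)) ((z d).2 (s₂.sq1 d hd e)))).resolve_left
      fun h => ?_
    rw [h, orderOf_one] at hy2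
    omega
  · right
    rw [h, ← s₁.sq, mul_right_inj] at e
    obtain ⟨g, hg, rfl⟩ := s₁.conj4 a ha c hc' haa h
    obtain ⟨k, hk, rfl⟩ := s₂.conj4 b hb d hd hbb e
    refine ⟨g * k, mul_mem_sup hg hk, ?_⟩
    have e1 := hc a ha k hk
    have e2 := hc _ (inv_mem hg) _ hd
    calc g * k * (a * b) * (g * k)⁻¹ = g * (k * a) * b * k⁻¹ * g⁻¹ := by group
      _ = g * a * (k * b * k⁻¹ * g⁻¹) := by rw [← e1]; group
      _ = _ := by rw [← e2]; group

end Cfsg.Agent.S3209
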