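import Cfsg.Statements.S3210
import Cfsg.Agent.H12.SL2C

set_option autoImplicit false
open Cfsg

namespace Cfsg.Agent.S3210

open Subgroup H12

theorem card_inj {a b : ℕ} (h : a * (a ^ 2 - 1) = b * (b ^ 2 - 1)) (ha : 2 ≤ a) : a = b := by
  have key : ∀ a b : ℕ, a < b → 2 ≤ b → a * (a ^ 2 - 1) < b * (b ^ 2 - 1) := fun a b h hb => by
    have h1 : a ^ 2 ≤ b ^ 2 := Nat.pow_le_pow_left h.le 2
    have h2 : 2 ^ 2 ≤ b ^ 2 := Nat.pow_le_pow_left hb 2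
    exact Nat.mul_lt_mul_of_lt_of_le h (by omega) (by omega)
  rcases lt_trichotomy a b with h1 | h1 | h1
  · have := key a b h1 (by omega); omega
  · exact h1
  · have := key b a h1 ha; omega

/-- Let G be a finite group with subgroups L₁ ≅ SL₂(q₁) and L₂ ≅ SL₂(q₂), q₁ and q₂ odd prime powers, which commute elementwise and meet in ⟨j⟩ for an involution j, and suppose L₁L₂ has index 2 in C_G(j). Then every element n of C_G(j) outside L₁L₂ either normalizes both L₁ and L₂, or conjugates L₁ onto L₂; in the second case q₁ = q₂ and there is an element n′ of C_G(j) outside L₁L₂ conjugating L₁ onto L₂ with n′² ∈ ⟨j⟩. -/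
theorem result {G : Type*} [Group G] [Finite G]
    {F₁ : Type*} [Field F₁] [Fintype F₁] {F₂ : Type*} [Field F₂] [Fintype F₂]
    (hF₁ : Odd (Fintype.card F₁)) (hF₂ : Odd (Fintype.card F₂)) (L₁ L₂ : Subgroup G)
    (e₁ : ↥L₁ ≃* Matrix.SpecialLinearGroup (Fin 2) F₁) (e₂ : ↥L₂ ≃* Matrix.SpecialLinearGroup (Fin 2) F₂)
    (hc : ∀ x ∈ L₁, ∀ y ∈ L₂, x * y = y * x) (j : G) (hj : orderOf j = 2) (hm : L₁ ⊓ L₂ = Subgroup.zpowers j)
    (hle : L₁ ⊔ L₂ ≤ Subgroup.centralizer ({j} : Set G)) (hi : (L₁ ⊔ L₂).relIndex (Subgroup.centralizer ({j} : Set G)) = 2) (n : G) (hn : n ∈ Subgroup.centralizer ({j} : Set G)) (hn' : n ∉ L₁ ⊔ L₂) :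
    (L₁.map (MulAut.conj n).toMonoidHom = L₁ ∧ L₂.map (MulAut.conj n).toMonoidHom = L₂) ∨
      (L₁.map (MulAut.conj n).toMonoidHom = L₂ ∧ Fintype.card F₁ = Fintype.card F₂ ∧
        ∃ n' ∈ Subgroup.centralizer ({j} : Set G), n' ∉ L₁ ⊔ L₂ ∧ L₁.map (MulAut.conj n').toMonoidHom = L₂ ∧ n' ^ 2 ∈ Subgroup.zpowers j) := by
  have hj' := hm.ge (mem_zpowers j)
  have s₁ := slj_of_equiv (two_ne_of_odd hF₁) e₁ hj hj'.1
  have s₂ := slj_of_equiv (two_ne_of_odd hF₂) e₂ hj hj'.2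
  have z := fun x => (mem_zpowers_two (x := x) s₁.sq)
  have hnj : n * j * n⁻¹ = j := by
    rw [← mem_centralizer_singleton_iff.1 hn |>.symm]; group
  set φ := (MulAut.conj n).toMonoidHom
  have hφ : Function.Injective φ := (MulAut.conj n).injective
  have hc' : ∀ x ∈ L₁.map φ, ∀ y ∈ L₂.map φ, x * y = y * x := by
    rintro _ ⟨x, hx, rfl⟩ _ ⟨y, hy, rfl⟩
    rw [← map_mul, ← map_mul, hc x hx y hy]
  have hi' : L₁.map φ ⊓ L₂.map φ = zpowers j := by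
    rw [← map_inf _ _ _ hφ, hm, MonoidHom.map_zpowers]
    exact congrArg zpowers hnj
  haveI hN := normal_of_index_eq_two hi
  have hs : L₁.map φ ⊔ L₂.map φ = L₁ ⊔ L₂ := by
    rw [← Subgroup.map_sup]
    refine eq_of_le_of_card_ge ?_ (card_map_of_injective hφ).ge
    rintro _ ⟨x, hx, rfl⟩
    exact hN.conj_mem ⟨x, hle hx⟩ hx ⟨n, hn⟩
  have h1 := s₁.le_or_le hc' hi' (s₂.split s₁.mem hc hc' hi' hs)
  have h2 := s₂.le_or_le hc' hi' (s₁.split s₂.mem (fun x hx y hy => (hc y hy x hx).symm) hc' hi'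
    (hs.trans (sup_comm _ _)))
  have c1 : Nat.card (L₁.map φ) = Nat.card L₁ := card_map_of_injective hφ
  have c2 : Nat.card (L₂.map φ) = Nat.card L₂ := card_map_of_injective hφ
  have nle : ∀ {L : Subgroup G}, SLj L j → ¬ L.map φ ≤ zpowers j := fun s h => by
    obtain ⟨a, ha, haa⟩ := s.ex4
    have e : φ a * φ a = j := by rw [← map_mul, haa]; exact hnj
    rcases (z _).1 (h ⟨a, ha, rfl⟩) with h | h <;> rw [h] at e
    · exact s.ne (by simpa using e.symm)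
    · exact s.ne (by simpa using e)
  have n1 : ¬ (L₁ ≤ L₁.map φ ∧ L₂ ≤ L₁.map φ) := fun h =>
    nle s₂ (hi' ▸ le_inf ((le_sup_right.trans hs.le).trans (sup_le h.1 h.2)) le_rfl)
  have n2 : ¬ (L₁ ≤ L₂.map φ ∧ L₂ ≤ L₂.map φ) := fun h =>
    nle s₁ (hi' ▸ le_inf le_rfl ((le_sup_left.trans hs.le).trans (sup_le h.1 h.2)))
  rcases h1 with h1 | h1
  · exact Or.inl ⟨(eq_of_le_of_card_ge h1 c1.le).symm,
      (eq_of_le_of_card_ge (h2.resolve_left fun h => n1 ⟨h1, h⟩) c2.le).symm⟩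
  right
  replace h2 := h2.resolve_right fun h => n2 ⟨h1, h⟩
  have d1 := card_le_of_le h1
  have d2 := card_le_of_le h2
  have f1 : L₁.map φ = L₂ := (eq_of_le_of_card_ge h2 (by omega)).symm
  have f2 : L₂.map φ = L₁ := (eq_of_le_of_card_ge h1 (by omega)).symm
  refine ⟨f1, card_inj ?_ Fintype.one_lt_card, ?_⟩
  · rw [← H22.card_SL_two, ← H22.card_SL_two, ← Nat.card_congr e₁.toEquiv,
      ← Nat.card_congr e₂.toEquiv]
    omega
  have hn2 : n * n ∈ L₁ ⊔ L₂ := mul_self_mem_of_index_two hi ⟨n, hn⟩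
  obtain ⟨a, ha, b, hb, e⟩ := (mem_sup_comm hc).1 hn2
  have ha' : n * a * n⁻¹ ∈ L₂ := f1.le ⟨a, ha, rfl⟩
  have hb' : n * b * n⁻¹ ∈ L₁ := f2.le ⟨b, hb, rfl⟩
  have e1 : (n * a * n⁻¹)⁻¹ * b = n * b * n⁻¹ * a⁻¹ := by
    have : n * a * n⁻¹ * (n * b * n⁻¹) = a * b := by
      calc _ = n * (a * b) * n⁻¹ := by group
        _ = _ := by rw [e]; group
    rw [hc a ha b hb] at this
    rw [inv_mul_eq_iff_eq_mul, ← mul_assoc, this]; group
  refine ⟨n * a⁻¹, mul_mem hn (hle (mem_sup_left (inv_mem ha))),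
    fun h => hn' ((mul_mem_cancel_right (mem_sup_left (inv_mem ha))).1 h), ?_, ?_⟩
  · rw [← f1]
    ext x
    constructor
    · rintro ⟨y, hy, rfl⟩
      exact ⟨a⁻¹ * y * a, mul_mem (mul_mem (inv_mem ha) hy) ha, by simp [φ, mul_assoc]⟩
    · rintro ⟨y, hy, rfl⟩
      exact ⟨a * y * a⁻¹, mul_mem (mul_mem ha hy) (inv_mem ha), by simp [φ, mul_assoc]⟩
  · have : (n * a⁻¹) ^ 2 = (n * a * n⁻¹)⁻¹ * b := by
      calc (n * a⁻¹) ^ 2 = (n * a * n⁻¹)⁻¹ * (n * n) * a⁻¹ := by rw [_root_.sq]; group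
        _ = _ := by rw [← e, hc a ha b hb]; group
    rw [this]
    exact hm.le (mem_inf.2 ⟨e1 ▸ mul_mem hb' (inv_mem ha), mul_mem (inv_mem ha') hb⟩)

end Cfsg.Agent.S3210
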