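import Cfsg.Statements.S3211
import Cfsg.Agent.H12.SL2C
import Cfsg.Agent.H12.ZsC
import Cfsg.Agent.H13.SL2Syl

set_option autoImplicit false
open Cfsg

namespace Cfsg.Agent.S3211

open Subgroup H12
open scoped MatrixGroups

theorem sl2_two {F : Type*} [Field F] [Fintype F] (hF : Odd (Fintype.card F)) :
    ∃ (k : ℕ) (a b : SL(2, F)), a ^ 2 ^ (k + 1) = -1 ∧ b * b = -1 ∧ b * a * b⁻¹ = a⁻¹ ∧
      ∀ (c : SL(2, F)) (m : ℕ), c ^ 2 ^ m = 1 → c ^ 2 ^ (k + 1) = 1 ∨ c ^ 2 ^ (k + 1) = -1 := by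
  obtain ⟨P⟩ := (inferInstance : Nonempty (Sylow 2 SL(2, F)))
  obtain ⟨k, a, b, -, -, -, h1, h2, h3, -, h4, -⟩ := H13.sl2_gens hF P
  refine ⟨k, a, b, h1, h2, h3, fun c m hc => ?_⟩
  obtain ⟨i, -, hi⟩ := (Nat.dvd_prime_pow Nat.prime_two).1 (orderOf_dvd_of_pow_eq_one hc)
  obtain ⟨Q, hQ⟩ := (IsPGroup.of_card ((Nat.card_zpowers c).trans hi)).exists_le_sylow
  obtain ⟨g, rfl⟩ := MulAction.exists_smul_eq SL(2, F) P Q
  obtain ⟨d, hd, rfl⟩ := hQ (mem_zpowers c)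
  have s := slj_top (two_ne_of_odd hF)
  suffices d ^ 2 ^ (k + 1) = 1 ∨ d ^ 2 ^ (k + 1) = -1 by
    change (g * d * g⁻¹) ^ _ = 1 ∨ (g * d * g⁻¹) ^ _ = -1
    rw [conj_pow]
    rcases this with h | h <;> rw [h] <;> simp
  rw [← mem_zpowers_two s.sq]
  obtain ⟨i, rfl | rfl⟩ := h4 d hd
  · rw [← zpow_natCast, ← zpow_mul, mul_comm, zpow_mul, zpow_natCast, h1]
    exact zpow_mem (mem_zpowers _) i
  · have : (a ^ i * b) ^ 2 = -1 := by
      have e : b * a ^ i * b⁻¹ = (a ^ i)⁻¹ := by rw [← conj_zpow, h3, inv_zpow]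
      calc (a ^ i * b) ^ 2 = a ^ i * (b * a ^ i * b⁻¹) * (b * b) := by rw [sq]; group
        _ = -1 := by rw [e, h2]; simp
    rw [pow_succ', pow_mul, this]
    exact pow_mem (mem_zpowers _) _

theorem two_sub {G : Type*} [Group G] {F : Type*} [Field F] [Fintype F]
    (hF : Odd (Fintype.card F)) {L : Subgroup G} (e : L ≃* SL(2, F)) {j : G} (s : SLj L j) :
    ∃ (k : ℕ), ∃ a ∈ L, ∃ b ∈ L, a ^ 2 ^ (k + 1) = j ∧ b * b = j ∧ b * a * b⁻¹ = a⁻¹ ∧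
      ∀ c ∈ L, ∀ m : ℕ, c ^ 2 ^ m = 1 → c ^ 2 ^ (k + 1) ∈ zpowers j := by
  obtain ⟨k, a, b, h1, h2, h3, h4⟩ := sl2_two hF
  obtain ⟨a, rfl⟩ := e.surjective a
  obtain ⟨b, rfl⟩ := e.surjective b
  have ej : e ⟨j, s.mem⟩ = -1 := by
    refine ((slj_top (two_ne_of_odd hF)).sq1 _ trivial ?_).resolve_left fun h => s.ne ?_
    · rw [← map_mul, ← map_one e]; exact congrArg e (Subtype.ext s.sq)
    · exact congrArg Subtype.val ((map_eq_one_iff e e.injective).1 h)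
  have c : ∀ {a b : L}, e a = e b ↔ (a : G) = b := by simp
  rw [← ej, ← map_pow, c] at h1
  rw [← ej, ← map_mul, c] at h2
  rw [← map_inv, ← map_inv, ← map_mul, ← map_mul, c] at h3
  refine ⟨k, a, a.2, b, b.2, h1, h2, h3, fun x hx m h => ?_⟩
  have := h4 (e ⟨x, hx⟩) m (by rw [← map_pow, ← map_one e, c]; exact h)
  rw [← ej, ← map_one e, ← map_pow, c, c] at this
  exact (mem_zpowers_two s.sq).2 this

/-- Let G be a finite group with subgroups L₁ ≅ SL₂(q₁) and L₂ ≅ SL₂(q₂), q₁ and q₂ odd prime powers, which commute elementwise and meet in ⟨j⟩ for an involution j, and suppose L₁L₂ has index 2 in C_G(j). If some n ∈ C_G(j) with n² = j interchanges L₁ and L₂ under conjugation (so that C_G(j) = L₁L₂⟨n⟩), then G = C_G(j)O(G). -/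
theorem result {G : Type*} [Group G] [Finite G]
    {F₁ : Type*} [Field F₁] [Fintype F₁] {F₂ : Type*} [Field F₂] [Fintype F₂]
    (hF₁ : Odd (Fintype.card F₁)) (hF₂ : Odd (Fintype.card F₂)) (L₁ L₂ : Subgroup G)
    (e₁ : ↥L₁ ≃* Matrix.SpecialLinearGroup (Fin 2) F₁) (e₂ : ↥L₂ ≃* Matrix.SpecialLinearGroup (Fin 2) F₂)
    (hc : ∀ x ∈ L₁, ∀ y ∈ L₂, x * y = y * x) (j : G) (hj : orderOf j = 2) (hm : L₁ ⊓ L₂ = Subgroup.zpowers j)
    (hle : L₁ ⊔ L₂ ≤ Subgroup.centralizer ({j} : Set G)) (hi : (L₁ ⊔ L₂).relIndex (Subgroup.centralizer ({j} : Set G)) = 2) (n : G) (hn : n ∈ Subgroup.centralizer ({j} : Set G))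
    (hn2 : n ^ 2 = j) (hswap : L₁.map (MulAut.conj n).toMonoidHom = L₂) :
    Subgroup.centralizer ({j} : Set G) ⊔ Cfsg.oddCore G = ⊤ := by
  have hj' := hm.ge (mem_zpowers j)
  have s₁ := slj_of_equiv (two_ne_of_odd hF₁) e₁ hj hj'.1
  have s₂ := slj_of_equiv (two_ne_of_odd hF₂) e₂ hj hj'.2
  have z := fun x => (mem_zpowers_two (x := x) s₁.sq)
  have hnj : n * j * n⁻¹ = j := by
    rw [← mem_centralizer_singleton_iff.1 hn |>.symm]; group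
  have sw1 : ∀ x ∈ L₁, n * x * n⁻¹ ∈ L₂ := fun x hx => hswap.le ⟨x, hx, rfl⟩
  have cj : ∀ x ∈ L₁ ⊔ L₂, x * j = j * x := fun x hx => mem_centralizer_singleton_iff.1 (hle hx)
  have sw2 : ∀ x ∈ L₂, n * x * n⁻¹ ∈ L₁ := fun x hx => by
    obtain ⟨y, hy, rfl⟩ := hswap.ge hx
    have : n * (n * y * n⁻¹) * n⁻¹ = y := by
      calc _ = n ^ 2 * y * (n ^ 2)⁻¹ := by rw [sq]; group
        _ = y := by rw [hn2, ← cj y (mem_sup_left hy)]; group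
    exact this.symm ▸ hy
  have pw : ∀ a ∈ L₁, ∀ b ∈ L₂, ∀ k : ℕ, (a * b) ^ k = a ^ k * b ^ k := fun a ha b hb k =>
    Commute.mul_pow (hc a ha b hb) k
  have hnY : n ∉ L₁ ⊔ L₂ := fun h => by
    obtain ⟨a, ha, b, hb, rfl⟩ := (mem_sup_comm hc).1 h
    obtain ⟨x, hx, hxx⟩ := s₁.ex4
    have h1 : a * b * x * (a * b)⁻¹ = a * x * a⁻¹ := by
      rw [mul_assoc a, ← hc x hx b hb]; group
    have h2 := hm.le (mem_inf.2 ⟨mul_mem (mul_mem ha hx) (inv_mem ha), h1 ▸ sw1 x hx⟩)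
    have h3 : a * x * a⁻¹ * (a * x * a⁻¹) = j := by
      rw [conj_mul, hxx, cj a (mem_sup_left ha)]; group
    rcases (z _).1 h2 with h | h <;> rw [h] at h3
    · exact s₁.ne (by simpa using h3.symm)
    · exact s₁.ne (by simpa using h3)
  have invY : ∀ y ∈ centralizer ({j} : Set G), y * y = 1 → y ∈ L₁ ⊔ L₂ := fun y hy hyy => by
    by_contra h
    have h1 : n⁻¹ * y ∈ L₁ ⊔ L₂ := by
      have := (mul_mem_iff_of_index_two hi (a := ⟨n, hn⟩⁻¹) (b := ⟨y, hy⟩)).2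
        ⟨fun h => absurd (inv_mem_iff.1 h) hnY, fun h' => absurd h' h⟩
      exact this
    obtain ⟨a, ha, b, hb, e⟩ := (mem_sup_comm hc).1 h1
    obtain rfl : y = n * (a * b) := by rw [e]; group
    have h2 : (n * b * n⁻¹ * a) * (n * a * n⁻¹ * b) = j := by
      have e1 : n * (a * b) * (n * (a * b)) = n * a * n⁻¹ * (n * b * n⁻¹) * (n ^ 2 * (a * b)) := by
        rw [sq]; group
      rw [e1, hn2, ← cj _ (mul_mem_sup ha hb), ← hc _ (sw2 b hb) _ (sw1 a ha), ← mul_assoc,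
        mul_eq_one_iff_eq_inv, ← eq_inv_of_mul_eq_one_left s₁.sq] at hyy
      rw [← hyy, mul_assoc, ← mul_assoc a, hc a ha _ (sw1 a ha)]; group
    have hu := mul_mem (sw2 b hb) ha
    have hv := mul_mem (sw1 a ha) hb
    have h3 : n * a * n⁻¹ * b ∈ zpowers j := hm.le (mem_inf.2 ⟨by
      rw [← eq_inv_mul_iff_mul_eq] at h2
      rw [h2]; exact mul_mem (inv_mem hu) s₁.mem, hv⟩)
    have h4 : n * b * n⁻¹ * a = n * a * n⁻¹ * b := by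
      have e1 : n * (n * a * n⁻¹ * b) * n⁻¹ = a * (n * b * n⁻¹) := by
        calc _ = n ^ 2 * a * (n ^ 2)⁻¹ * (n * b * n⁻¹) := by rw [sq]; group
          _ = _ := by rw [hn2, ← cj a (mem_sup_left ha)]; group
      have e2 : n * b * n⁻¹ * a = a⁻¹ * (n * (n * a * n⁻¹ * b) * n⁻¹) * a := by rw [e1]; group
      rw [e2]
      rcases (z _).1 h3 with h | h <;> rw [h]
      · group
      · rw [hnj, mul_assoc, ← cj a (mem_sup_left ha)]; group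
    rw [h4] at h2
    rcases (z _).1 h3 with h | h <;> rw [h] at h2
    · exact s₁.ne (by simpa using h2.symm)
    · exact s₁.ne (by simpa using h2)
  obtain ⟨k, b₀, hb₀, b', hb', k1, k2, k3, k4⟩ := two_sub hF₂ e₂ s₂
  have k5 : ∀ c ∈ L₁, ∀ m : ℕ, c ^ 2 ^ m = 1 → c ^ 2 ^ (k + 1) ∈ zpowers j := fun c hc' m h => by
    have := k4 _ (sw1 c hc') m (by rw [conj_pow, h]; group)
    rw [conj_pow] at this
    rcases (z _).1 this with h | h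
    · rw [conj_eq_one_iff.1 h]; exact one_mem _
    · rw [← hnj, mul_left_inj, mul_right_inj] at h
      rw [h]; exact mem_zpowers _
  have k6 : ∀ w ∈ L₁ ⊔ L₂, w ^ 2 ^ (k + 2) = 1 → w ^ 2 ^ (k + 1) ∈ zpowers j := fun w hw h => by
    obtain ⟨c, hc', d, hd, rfl⟩ := (mem_sup_comm hc).1 hw
    rw [pw c hc' d hd] at h ⊢
    have h1 : c ^ 2 ^ (k + 2) ∈ zpowers j := hm.le (mem_inf.2 ⟨pow_mem hc' _, by
      rw [eq_inv_of_mul_eq_one_left h]; exact inv_mem (pow_mem hd _)⟩)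
    have h2 : d ^ 2 ^ (k + 2) ∈ zpowers j := by
      rw [eq_inv_of_mul_eq_one_right h]; exact inv_mem h1
    have t : ∀ x : G, x ^ 2 ^ (k + 2) ∈ zpowers j → x ^ 2 ^ (k + 3) = 1 := fun x hx => by
      rw [pow_succ, pow_mul, sq]
      rcases (z _).1 hx with h | h <;> rw [h]
      exacts [one_mul _, s₁.sq]
    exact mul_mem (k5 c hc' _ (t c h1)) (k4 d hd _ (t d h2))
  refine cent_sup_oddCore ⟨hj, fun g hg => ?_⟩
  by_contra hne
  have hx2 : g * j * g⁻¹ * (g * j * g⁻¹) = 1 := by rw [conj_mul, s₁.sq]; group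
  obtain ⟨c, hc', d, hd, e⟩ := (mem_sup_comm hc).1
    (invY _ (mem_centralizer_singleton_iff.2 hg.eq.symm) hx2)
  have e2 := hx2
  rw [← e, ← sq, pw c hc' d hd, sq, sq] at e2
  have h1 : c * c ∈ zpowers j := hm.le (mem_inf.2 ⟨mul_mem hc' hc', by
    rw [eq_inv_of_mul_eq_one_left e2]; exact inv_mem (mul_mem hd hd)⟩)
  rcases (z _).1 h1 with h | h
  · rw [h, one_mul] at e2
    rcases (z _).1 (mul_mem ((z c).2 (s₁.sq1 c hc' h)) ((z d).2 (s₂.sq1 d hd e2))) with h | h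
    · exact s₁.ne (conj_eq_one_iff.1 (e ▸ h))
    · exact hne (e ▸ h)
  rw [h, ← s₁.sq, mul_right_inj] at e2
  have hbb : b₀ ^ 2 ^ k * b₀ ^ 2 ^ k = j := by rw [← pow_add, ← two_mul, ← pow_succ', k1]
  obtain ⟨u, hu, rfl⟩ := s₂.conj4 _ (pow_mem hb₀ _) d hd hbb e2
  obtain ⟨a', ha', ea⟩ := s₁.conj4 c hc' c⁻¹ (inv_mem hc') h
    (by rw [← mul_inv_rev, h, ← eq_inv_of_mul_eq_one_left s₁.sq])
  obtain ⟨a, ha, haa, hac⟩ : ∃ a ∈ L₁, a * a = j ∧ a * c * a⁻¹ = c⁻¹ := by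
    obtain ⟨k', a₀, ha₀, a₁, ha₁, m1, m2, m3, -⟩ := two_sub hF₁ e₁ s₁
    obtain ⟨v, hv, rfl⟩ := s₁.conj4 _ (pow_mem ha₀ (2 ^ k')) c hc'
      (by rw [← pow_add, ← two_mul, ← pow_succ', m1]) h
    refine ⟨v * a₁ * v⁻¹, mul_mem (mul_mem hv ha₁) (inv_mem hv), ?_, ?_⟩
    · rw [conj_mul, m2, cj v (mem_sup_left hv)]; group
    · calc _ = v * (a₁ * a₀ * a₁⁻¹) ^ 2 ^ k' * v⁻¹ := by rw [conj_pow]; group
        _ = _ := by rw [m3]; group
  -- the involutions `a * b` for `b` inverting `b₀`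
  have key : ∀ b ∈ L₂, b * b = j → b * b₀ * b⁻¹ = b₀⁻¹ → (u⁻¹ * g)⁻¹ * (a * b) * (u⁻¹ * g) ∈ L₁ ⊔ L₂ :=
    fun b hb hbb' hb2 => by
      have f1 : u⁻¹ * g * j * (u⁻¹ * g)⁻¹ = c * b₀ ^ 2 ^ k := by
        calc _ = u⁻¹ * (g * j * g⁻¹) * u := by group
          _ = u⁻¹ * (c * u) * b₀ ^ 2 ^ k := by rw [← e]; group
          _ = _ := by rw [hc c hc' u hu]; group
      have f2 : a * b * (c * b₀ ^ 2 ^ k) * (a * b)⁻¹ = c * b₀ ^ 2 ^ k := by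
        have g1 : b * b₀ ^ 2 ^ k * b⁻¹ = (b₀ ^ 2 ^ k)⁻¹ := by rw [← conj_pow, hb2, inv_pow]
        have g2 := hc _ (inv_mem ha) _ (inv_mem (pow_mem hb₀ (2 ^ k)))
        have g3 : (c * b₀ ^ 2 ^ k) * (c * b₀ ^ 2 ^ k) = 1 := by
          rw [← sq, pw c hc' _ (pow_mem hb₀ _), sq, sq, h, hbb, s₁.sq]
        calc _ = a * (b * c) * b⁻¹ * (b * b₀ ^ 2 ^ k * b⁻¹) * a⁻¹ := by group
          _ = (a * c * a⁻¹) * a * ((b₀ ^ 2 ^ k)⁻¹ * a⁻¹) := by rw [← hc c hc' b hb, g1]; group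
          _ = (b₀ ^ 2 ^ k * c)⁻¹ := by rw [← g2, hac]; group
          _ = _ := by rw [← hc c hc' _ (pow_mem hb₀ _), ← eq_inv_of_mul_eq_one_left g3]
      refine invY _ (mem_centralizer_singleton_iff.2 ?_) ?_
      · rw [← f1] at f2
        calc _ = (u⁻¹ * g)⁻¹ * (a * b * (u⁻¹ * g * j * (u⁻¹ * g)⁻¹) * (a * b)⁻¹) * (a * b) *
            (u⁻¹ * g) := by group
          _ = _ := by rw [f2]; group
      · calc _ = (u⁻¹ * g)⁻¹ * (a * b) ^ 2 * (u⁻¹ * g) := by rw [sq]; group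
          _ = 1 := by rw [pw a ha b hb, sq, sq, haa, hbb', s₁.sq]; group
  have t1 := key b' hb' k2 k3
  have t2 := key (b' * b₀) (mul_mem hb' hb₀) (by
    calc _ = b' * b₀ * b'⁻¹ * (b' * b') * b₀ := by group
      _ = j := by rw [k3, k2, mul_assoc, ← cj b₀ (mem_sup_right hb₀)]; group) (by
    calc _ = b' * b₀ * b'⁻¹ := by group
      _ = _ := k3)
  have t3 : (u⁻¹ * g)⁻¹ * b₀ * (u⁻¹ * g) ∈ L₁ ⊔ L₂ := by
    have := mul_mem (inv_mem t1) t2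
    convert this using 1
    group
  have t4 : ((u⁻¹ * g)⁻¹ * b₀ * (u⁻¹ * g)) ^ 2 ^ (k + 1) = (u⁻¹ * g)⁻¹ * j * (u⁻¹ * g) := by
    have := conj_pow (a := (u⁻¹ * g)⁻¹) (b := b₀) (i := 2 ^ (k + 1))
    rwa [inv_inv, k1] at this
  have t5 := k6 _ t3 (by rw [pow_succ, pow_mul, t4, sq]; calc
    _ = (u⁻¹ * g)⁻¹ * (j * j) * (u⁻¹ * g) := by group
    _ = 1 := by rw [s₁.sq]; group)
  rw [t4] at t5
  rcases (z _).1 t5 with h | h
  · refine s₁.ne ?_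
    calc j = (u⁻¹ * g) * ((u⁻¹ * g)⁻¹ * j * (u⁻¹ * g)) * (u⁻¹ * g)⁻¹ := by group
      _ = 1 := by rw [h]; group
  · apply hne
    calc g * j * g⁻¹ = g * ((u⁻¹ * g)⁻¹ * j * (u⁻¹ * g)) * g⁻¹ := by rw [h]
      _ = u * j * u⁻¹ := by group
      _ = j := by rw [cj u (mem_sup_right hu)]; group

end Cfsg.Agent.S3211
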