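import Cfsg.Statements.S3213
import Cfsg.Agent.S2388
import Cfsg.Agent.H16.LA4

set_option autoImplicit false
open Cfsg

namespace Cfsg.Agent.S3213


open Matrix MatrixGroups Polynomial in
theorem cp {K : Type*} [Field K] (x : SL(2, K)) (hx : orderOf x = 3) :
    x.1.charpoly = X ^ 2 + X + 1 := by
  have e : x.1 * (x.1 * x.1) = 1 := by
    have := congrArg Subtype.val (pow_orderOf_eq_one x)
    rwa [hx, Matrix.SpecialLinearGroup.coe_pow, pow_three] at this
  have d := x.2
  rw [det_fin_two] at d
  have t : x.1.trace = -1 := by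
    by_contra t
    rw [trace_fin_two] at t
    have e1 := congrFun (congrFun e 0) 1
    have e2 := congrFun (congrFun e 1) 0
    have e3 := congrFun (congrFun e 0) 0
    have e4 := congrFun (congrFun e 1) 1
    simp [mul_apply, Fin.sum_univ_two] at e1 e2 e3 e4
    have : x = 1 := Subtype.ext (by
      ext i j; fin_cases i <;> fin_cases j <;> simp <;> grind)
    simp [this] at hx
  rw [charpoly_fin_two, t, x.2]
  simp

/-- Let F be the field with 3 elements and K the field with 5 elements. For every injective homomorphism φ from SL₂(K) into the symplectic group Sp₄(F) (4 × 4 matrices g with g J gᵀ = J for the standard alternating matrix J) and every element x of order 3 of SL₂(K), the vectors of F⁴ fixed by φ(x) form a 2-dimensional subspace that is totally isotropic for the alternating form defined by J. -/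
theorem result {F : Type*} [Field F] [Fintype F] (hF : Fintype.card F = 3)
    {K : Type*} [Field K] [Fintype K] (hK : Fintype.card K = 5)
    (φ : Matrix.SpecialLinearGroup (Fin 2) K →* ↥(Matrix.symplecticGroup (Fin 2) F)) (hφ : Function.Injective φ)
    (x : Matrix.SpecialLinearGroup (Fin 2) K) (hx : orderOf x = 3) :
    Module.finrank F ↥(LinearMap.ker (Matrix.toLin' ((φ x : Matrix (Fin 2 ⊕ Fin 2) (Fin 2 ⊕ Fin 2) F)) - LinearMap.id)) = 2 ∧
      ∀ v w : Fin 2 ⊕ Fin 2 → F, (φ x : Matrix (Fin 2 ⊕ Fin 2) (Fin 2 ⊕ Fin 2) F).mulVec v = v →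
        (φ x : Matrix (Fin 2 ⊕ Fin 2) (Fin 2 ⊕ Fin 2) F).mulVec w = w →
          dotProduct v ((Matrix.J (Fin 2) F).mulVec w) = 0 := by
  have c3 : CharP F 3 := charP_of_card_eq_prime_pow (p := 3) (f := 1) (hp := ⟨by norm_num⟩) hF
  have : Fact (Nat.Prime 5) := ⟨by norm_num⟩
  have : Fact (Nat.Prime 3) := ⟨by norm_num⟩
  have c5 : CharP K 5 := charP_of_card_eq_prime_pow (p := 5) (f := 1) hK
  have h5 : (5 : K) = 0 := by simpa using CharP.cast_eq_zero K 5
  have h3 : (3 : K) ≠ 0 := fun e => one_ne_zero (α := K) (by linear_combination 2 * e - h5)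
  let ψ : Matrix.SpecialLinearGroup (Fin 2) K →* Module.End F (Fin 2 ⊕ Fin 2 → F) :=
    (Matrix.toLinAlgEquiv' : Matrix _ _ F ≃ₐ[F] _).toMonoidHom.comp ((Submonoid.subtype _).comp φ)
  let C : Matrix.SpecialLinearGroup (Fin 2) K → Submodule F (Fin 2 ⊕ Fin 2 → F) := fun g => LinearMap.ker (ψ g - LinearMap.id)
  have hC : ∀ g v, v ∈ C g ↔ ψ g v = v := fun g v => by simp [C, sub_eq_zero]
  let u : Matrix.SpecialLinearGroup (Fin 2) K := ⟨!![1, 1; 0, 1], by simp⟩
  let a : Matrix.SpecialLinearGroup (Fin 2) K := ⟨!![0, -1; 1, -1], by simp⟩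
  let b : Matrix.SpecialLinearGroup (Fin 2) K := ⟨!![1, -3; 1, -2], by simp; norm_num⟩
  have o : ∀ (g : Matrix.SpecialLinearGroup (Fin 2) K) (p : ℕ) [Fact p.Prime], g.1 ^ p = 1 → g.1 0 1 ≠ 0 →
      orderOf g = p := fun g p _ e1 e2 => orderOf_eq_prime (Subtype.ext e1) (by rintro rfl; simp at e2)
  have ou : orderOf u = 5 := o u 5 (by
    ext i j; fin_cases i <;> fin_cases j <;> simp [u, pow_succ] ; linear_combination h5) (by simp [u])
  have oa : orderOf a = 3 := o a 3 (by ext i j; fin_cases i <;> fin_cases j <;> simp [a, pow_succ]) (by simp [a])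
  have ob : orderOf b = 3 := o b 3 (by ext i j; fin_cases i <;> fin_cases j <;> simp [b, pow_succ] <;> norm_num)
    (by simp [b, h3])
  have ab : a * b * (a * b) = u := Subtype.ext (show a.1 * b.1 * (a.1 * b.1) = u.1 by
    ext i j; fin_cases i <;> fin_cases j <;> simp [a, b, u] <;> first | ring1 | linear_combination -h5)
  have hu : C u = ⊥ := by
    let _ := MulAction.compHom (Fin 2 ⊕ Fin 2 → F) (ψ.comp (Subgroup.zpowers u).subtype)
    have := (IsPGroup.of_card (p := 5) (n := 1) ((Nat.card_zpowers u).trans ou)).card_modEq_card_fixedPoints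
      (Fin 2 ⊕ Fin 2 → F)
    have e : Nat.card (MulAction.fixedPoints (Subgroup.zpowers u) (Fin 2 ⊕ Fin 2 → F)) = Nat.card (C u) :=
      Nat.card_congr (Equiv.subtypeEquivRight fun v => ⟨fun h => (hC u v).2 (h ⟨u, Subgroup.mem_zpowers u⟩),
        fun h ⟨g, hg⟩ => by
          obtain ⟨n, rfl⟩ := (mem_powers_iff_mem_zpowers.2 hg)
          change ψ (u ^ n) v = v
          rw [map_pow, Module.End.pow_apply, Function.iterate_fixed ((hC u v).1 h)]⟩)
    rw [e, Module.natCard_eq_pow_finrank (K := F) (V := C u), Nat.card_fun] at this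
    have l := Submodule.finrank_lt (s := C u) fun e => by
      have : φ u = φ 1 := Subtype.ext (Matrix.toLinAlgEquiv'.injective (LinearMap.ext fun v =>
        ((hC u v).1 (e ▸ Submodule.mem_top)).trans (by simp)))
      simp [hφ this] at ou
    simp only [Nat.card_eq_fintype_card, hF, Module.finrank_fintype_fun_eq_card, Fintype.card_sum, Fintype.card_fin] at this l
    refine Submodule.finrank_eq_zero.1 ?_
    generalize Module.finrank F (C u) = d at this l
    interval_cases d <;> simp_all [Nat.ModEq]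
  have cj : ∀ g, orderOf g = 3 → Module.finrank F (C x) ≤ Module.finrank F (C g) := fun g hg => by
    obtain ⟨c, rfl⟩ := isConj_iff.1 (S2388.result 5 2 x g (by rw [hx]; norm_num) (by rw [hg]; norm_num)
      ((cp x hx).trans (cp g hg).symm))
    have i : Function.Injective (ψ c) := Function.LeftInverse.injective (g := ψ c⁻¹) fun v => by
      rw [← Module.End.mul_apply, ← map_mul]; simp
    refine LinearMap.finrank_le_finrank_of_injective (f := (ψ c).restrict (p := C x) fun v hv => (hC _ _).2 ?_)
      fun v w e => Subtype.ext (i (congrArg Subtype.val e))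
    rw [← Module.End.mul_apply, ← map_mul, inv_mul_cancel_right, map_mul, Module.End.mul_apply, (hC _ _).1 hv]
  have l1 := Submodule.finrank_add_finrank_le_of_disjoint (s := C a) (t := C b) (disjoint_iff.2 (eq_bot_iff.2
    (le_trans (fun v hv => (hC _ _).2 (by
      simp only [← ab, map_mul, Module.End.mul_apply, (hC _ _).1 hv.1, (hC _ _).1 hv.2])) hu.le)))
  have n3 : ((φ x).1 - 1) ^ 3 = 0 := (H16.pow_char_pow_eq_one_iff 3 _ 1).1 (by
    rw [pow_one, ← hx, ← SubmonoidClass.coe_pow, ← map_pow, pow_orderOf_eq_one, map_one]; rfl)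
  have e1 := H16.edM_eq_uni n3
  have l2 := H16.uni_rank e1
  have l3 := Multiset.sum_le_card_nsmul _ 3 ((H16.uni_pow_eq_zero_iff e1 3).1 n3)
  have e2 : Matrix.mulVecLin ((φ x).1 - 1) = ψ x - LinearMap.id := LinearMap.ext fun v => by
    simp [ψ]
  have l4 := LinearMap.finrank_range_add_finrank_ker (ψ x - LinearMap.id)
  have := cj a oa
  have := cj b ob
  rw [Matrix.rank, e2] at l2
  simp only [H16.jt_sum, Module.finrank_fintype_fun_eq_card, Fintype.card_sum, Fintype.card_fin, smul_eq_mul] at l1 l2 l3 l4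
  have d : Module.finrank F (C x) = 2 := by change _ + Module.finrank F (C x) = _ at l4; omega
  refine ⟨d, fun v w hv hw => by_contra fun h0 => ?_⟩
  let B : (Fin 2 ⊕ Fin 2 → F) → (Fin 2 ⊕ Fin 2 → F) → F := fun v w => v ⬝ᵥ (Matrix.J (Fin 2) F).mulVec w
  have al : ∀ v, B v v = 0 := fun v => by simp [B, Matrix.J, dotProduct, Matrix.mulVec]; ring
  have sk : ∀ v w, B v w = - B w v := fun v w => by simp [B, Matrix.J, dotProduct, Matrix.mulVec]; ring
  have iv : ∀ v r, (φ x).1.mulVec v = v → B v (((φ x).1 - 1).mulVec r) = 0 := fun v r hv => by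
    simp only [B, Matrix.sub_mulVec, Matrix.one_mulVec, Matrix.mulVec_sub, dotProduct_sub]
    nth_rw 1 [← hv]
    rw [← Matrix.vecMul_transpose, ← Matrix.dotProduct_mulVec, Matrix.mulVec_mulVec, Matrix.mulVec_mulVec,
      SymplecticGroup.mem_iff'.1 (φ x).2, sub_self]
  have li : LinearIndependent F ![(⟨v, (hC _ _).2 hv⟩ : C x), ⟨w, (hC _ _).2 hw⟩] := LinearIndependent.pair_iff.2 fun s t e => by
    have e := congrArg Subtype.val e
    have e1 := congrArg (B v) e
    have e2 := congrArg (B · w) e
    simp only [B, Submodule.coe_add, Submodule.coe_smul, Matrix.mulVec_add, Matrix.mulVec_smul, dotProduct_add,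
      dotProduct_smul, add_dotProduct, smul_dotProduct, smul_eq_mul] at e1 e2
    rw [show v ⬝ᵥ _ = 0 from al v] at e1
    rw [show w ⬝ᵥ _ = 0 from al w] at e2
    simpa [h0, e1] using And.intro e2 e1
  have z : ∀ r, ((φ x).1 - 1).mulVec (((φ x).1 - 1).mulVec r) = 0 → ((φ x).1 - 1).mulVec r = 0 := fun r hr => by
    have sp := li.span_eq_top_of_card_eq_finrank' (by simp [d])
    have := sp.ge (Submodule.mem_top (x := (⟨((φ x).1 - 1).mulVec r,
      (LinearMap.congr_fun e2 _).symm.trans hr⟩ : C x)))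
    rw [Matrix.range_cons_cons_empty, Submodule.mem_span_pair] at this
    obtain ⟨s, t, e⟩ := this
    have e := congrArg Subtype.val e
    have e1 := iv v r hv
    have e2 := iv w r hw
    simp only [Submodule.coe_add, Submodule.coe_smul] at e
    rw [← e] at e1 e2 ⊢
    rw [sk] at e2
    simp only [B, Matrix.mulVec_add, Matrix.mulVec_smul, dotProduct_add, dotProduct_smul, add_dotProduct,
      smul_dotProduct, smul_eq_mul] at e1 e2
    rw [show v ⬝ᵥ _ = 0 from al v] at e1
    rw [show w ⬝ᵥ _ = 0 from al w] at e2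
    simp [h0] at e1 e2
    simp [e1, e2]
  have : C x = ⊤ := eq_top_iff.2 fun r _ => (LinearMap.congr_fun e2 _).symm.trans
    (z r (z _ (by simp only [Matrix.mulVec_mulVec, ← pow_three, n3, Matrix.zero_mulVec])))
  rw [this] at d
  simp at d

end Cfsg.Agent.S3213
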