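import Cfsg.Statements.S3215
import Cfsg.Agent.H1.CIT1
import Cfsg.Agent.H11.CharP
import Cfsg.Agent.H2.FrobCompl
import Cfsg.Agent.H2.FPF2
import Cfsg.Agent.H1.Super
import Cfsg.Agent.H3.PComp
import Cfsg.Agent.H1.Solvable

set_option autoImplicit false
open Cfsg

namespace Cfsg.Agent.S3215

open Subgroup

theorem bar {K : Type*} [Group K] [Finite K] [Group.IsSolvable K] (hc : H1.CIT.Cit K)
    (h2 : pCore 2 K = ⊥) {X : Subgroup K} (hodd : Odd (Nat.card X)) {k : ℕ} (hk : X.index = 2 ^ k)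
    [IsZGroup X] : commutator K ≤ X ∧ ∃ S : Subgroup K, IsCyclic S ∧ X ⊔ S = ⊤ := by
  haveI : Fact (Nat.Prime 2) := ⟨Nat.prime_two⟩
  have hF1 : fittingSubgroup K ≤ pPrimeCore 2 K := by
    have := H1.fitting_le_pCore_sup_pPrimeCore (G := K) 2
    rwa [h2, bot_sup_eq] at this
  have hFc : (Nat.card (fittingSubgroup K)).Coprime 2 :=
    (H1.coprime_card_pPrimeCore 2).coprime_dvd_left (card_dvd_of_le hF1)
  have hFX : fittingSubgroup K ≤ X := by
    refine H1.normal_le_of_isPiNat_index (π := {2}ᶜ)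
      ((H1.isPiNat_compl_singleton_iff Nat.prime_two).2 hFc) ?_
    rw [compl_compl, H1.isPiNat_singleton_iff Nat.prime_two index_ne_zero_of_finite]
    exact ⟨k, hk⟩
  haveI : IsZGroup (fittingSubgroup K) := IsZGroup.of_injective (inclusion_injective hFX)
  haveI : IsCyclic (fittingSubgroup K) := inferInstance
  have hD : commutator K ≤ fittingSubgroup K :=
    (H1.commutator_le_centralizer_of_isCyclic _).trans H1.centralizer_fitting_le
  refine ⟨hD.trans hFX, ?_⟩
  obtain ⟨S⟩ : Nonempty (Sylow 2 K) := inferInstance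
  refine ⟨S, ?_, H3.sup_sylow_eq_top_of_index S hk⟩
  by_cases hF : fittingSubgroup K = ⊥
  · have h := H1.centralizer_fitting_le (G := K)
    rw [hF, coe_bot, centralizer_eq_top_iff_subset.2 (by simp)] at h
    haveI : Subsingleton K := ⟨fun a b => by
      rw [mem_bot.1 (h (mem_top a)), mem_bot.1 (h (mem_top b))]⟩
    infer_instance
  have hSF : (S : Subgroup K) ⊓ fittingSubgroup K = ⊥ :=
    H1.inf_eq_bot_of_isPGroup_of_coprime S.isPGroup' hFc
  haveI : IsMulCommutative (S : Subgroup K) := by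
    refine ⟨⟨fun a b => Subtype.ext ?_⟩⟩
    have h1 : (a : K) * b * (a : K)⁻¹ * (b : K)⁻¹ ∈ (S : Subgroup K) ⊓ fittingSubgroup K :=
      mem_inf.2 ⟨mul_mem (mul_mem (mul_mem a.2 b.2) (inv_mem a.2)) (inv_mem b.2),
        hD (commutator_mem_commutator (mem_top _) (mem_top _))⟩
    rw [hSF, mem_bot] at h1
    have h3 : (a : K) * b = ((a : K) * b * (a : K)⁻¹ * (b : K)⁻¹) * (b * a) := by group
    rw [coe_mul, coe_mul, h3, h1, one_mul]
  refine H2.isCyclic_of_fpf_comm' _ _ hF le_normalizer_of_normal fun a ha h1 => ?_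
  rw [eq_bot_iff]
  intro x hx
  refine mem_bot.2 (hc.two S.isPGroup' ha h1 ?_ (mem_centralizer_singleton_iff.1 hx.2).symm)
  have : orderOf x ∣ Nat.card (fittingSubgroup K) := orderOf_dvd_natCard _ hx.1
  exact Nat.coprime_two_right.1 (hFc.coprime_dvd_left this)

/-- Let H be a finite solvable group with no nontrivial normal subgroup of odd order in which the centralizer of every involution has a normal 2-complement. Let X be a Hall 2'-subgroup of H (odd order, index a power of 2) and Y = O₂(H). Then no non-identity element of X commutes with a non-identity element of Y (so for X ≠ 1 the group XY is a Frobenius group with kernel Y), every Sylow subgroup of X is cyclic, XY is normal in H, and H/XY is a cyclic 2-group. -/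
theorem result {H : Type*} [Group H] [Finite H] (hsol : Group.IsSolvable H)
    (hO : Cfsg.oddCore H = ⊥)
    (hI : ∀ t : H, orderOf t = 2 → Cfsg.HasNormalPComplement 2 ↥(Subgroup.centralizer ({t} : Set H)))
    (X : Subgroup H) (hXodd : Odd (Nat.card X)) (hXidx : ∃ k : ℕ, X.index = 2 ^ k) :
    (∀ x ∈ X, x ≠ 1 → ∀ y ∈ Cfsg.pCore 2 H, y ≠ 1 → x * y ≠ y * x) ∧
      (∀ (p : ℕ) [Fact p.Prime] (P : Sylow p ↥X), IsCyclic ↥(P : Subgroup ↥X)) ∧
      (X ⊔ Cfsg.pCore 2 H).Normal ∧
      ∀ hN : (X ⊔ Cfsg.pCore 2 H).Normal, IsCyclic (H ⧸ (X ⊔ Cfsg.pCore 2 H)) ∧ IsPGroup 2 (H ⧸ (X ⊔ Cfsg.pCore 2 H)) := by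
  haveI : Fact (Nat.Prime 2) := ⟨Nat.prime_two⟩
  have hY := H1.isPGroup_pCore (G := H) 2
  have hC : centralizer (pCore 2 H : Set H) ≤ pCore 2 H := H1.centralizer_pCore_le hO
  have hcit : H1.CIT.Cit H := by
    intro t x ht hx hc
    have hxc : (orderOf x).Coprime 2 := Nat.coprime_two_right.2 hx
    have hxt : x ∈ centralizer ({t} : Set H) := mem_centralizer_singleton_iff.2 hc.symm
    have h1 := H3.mem_centralizer_of_hasNormalPComplement (hI t ht)
      (Q := (pCore 2 H).subgroupOf (centralizer ({t} : Set H))) (hY.comap_subtype)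
      (g := ⟨x, hxt⟩) (le_normalizer_of_normal (mem_top _)) (by rwa [← orderOf_coe])
    have h2 : x ∈ centralizer (pCore 2 H : Set H) := by
      refine H11.mem_centralizer_of_AxB (B := zpowers t) hY
        (IsPGroup.of_card (n := 1) (by rw [Nat.card_zpowers, ht]; rfl)) le_normalizer_of_normal hxc
        (le_normalizer_of_normal (mem_top _)) ?_ ?_
      · rintro _ ⟨n, rfl⟩
        exact (hc.zpow_left n).eq
      · intro y hy
        have hyt : y ∈ centralizer ({t} : Set H) :=
          mem_centralizer_singleton_iff.2 (hy.2 t (mem_zpowers t)).symm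
        exact congrArg Subtype.val (h1 ⟨y, hyt⟩ hy.1)
    exact H1.CIT.eq_one_of_pg hY (hC h2) hx
  have hA : ∀ x ∈ X, x ≠ 1 → ∀ y ∈ pCore 2 H, y ≠ 1 → x * y ≠ y * x := by
    intro x hx h1 y hy h2 h
    exact h1 (hcit.two hY hy h2 (hXodd.of_dvd_nat (orderOf_dvd_natCard _ hx)) h.symm)
  haveI hZ : IsZGroup X := by
    by_cases h0 : pCore 2 H = ⊥
    · rw [h0, coe_bot, centralizer_eq_top_iff_subset.2 (by simp)] at hC
      haveI : Subsingleton H := ⟨fun a b => by
        rw [mem_bot.1 (hC (mem_top a)), mem_bot.1 (hC (mem_top b))]⟩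
      infer_instance
    refine H2.isZGroup_of_fpf_odd h0 le_normalizer_of_normal (fun a ha h1 => ?_) hXodd
    rw [eq_bot_iff]
    intro y hy
    by_contra h2
    exact hA a ha h1 y hy.1 h2 (mem_centralizer_singleton_iff.1 hy.2).symm
  set π := QuotientGroup.mk' (pCore 2 H) with hπ
  have hs : Function.Surjective π := QuotientGroup.mk'_surjective _
  obtain ⟨k, hk⟩ := hXidx
  have hcm : (X.map π).comap π = X ⊔ pCore 2 H := by
    rw [comap_map_eq, hπ, QuotientGroup.ker_mk']
  obtain ⟨j, -, hj⟩ : ∃ j ≤ k, (X ⊔ pCore 2 H).index = 2 ^ j :=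
    (Nat.dvd_prime_pow Nat.prime_two).1 (hk ▸ index_dvd_of_le le_sup_left)
  haveI : IsZGroup (X.map π) := IsZGroup.of_surjective (π.subgroupMap_surjective X)
  obtain ⟨hD, S, hS, hXS⟩ := bar (hcit.quot hs) (H1.pCore_quotient_pCore 2) (X := X.map π)
    (hXodd.of_dvd_nat (card_map_dvd _ _)) (k := j)
    (by rw [← hj, ← hcm, index_comap_of_surjective _ hs])
  have hN : (X ⊔ pCore 2 H).Normal := by
    rw [← hcm]
    haveI : (X.map π).Normal := Normal.of_commutator_le _ hD
    infer_instance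
  refine ⟨hA, fun p _ P => inferInstance, hN, fun hN' => ⟨?_, IsPGroup.of_card (n := j) hj⟩⟩
  let f : H ⧸ pCore 2 H →* H ⧸ (X ⊔ pCore 2 H) :=
    QuotientGroup.map _ _ (MonoidHom.id H) (by simp)
  refine isCyclic_of_surjective (f.comp S.subtype) fun q => ?_
  obtain ⟨g, rfl⟩ := QuotientGroup.mk_surjective q
  haveI : (X.map π).Normal := Normal.of_commutator_le _ hD
  have hg : π g ∈ X.map π ⊔ S := by rw [hXS]; exact mem_top _
  obtain ⟨a, ⟨x, hx, rfl⟩, s, hsS, h⟩ := mem_sup_of_normal_left.1 hg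
  refine ⟨⟨s, hsS⟩, ?_⟩
  have h1 : f (π x) = 1 := (QuotientGroup.eq_one_iff x).2 (mem_sup_left hx)
  have h2 := congrArg f h
  rw [map_mul, h1, one_mul] at h2
  exact h2

end Cfsg.Agent.S3215
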