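import Cfsg.Statements.S3225
import Cfsg.Agent.H6.Q8

set_option autoImplicit false
open Cfsg

namespace Cfsg.Agent.S3225

/-- Let G be a finite group of even order with no subgroup of index 2, S a Sylow 2-subgroup of G and M a subgroup of index 2 in S such that, for some n ≥ 1, every element of S outside M has order greater than 2^(n−1). Then every element of S of order 2ⁿ is conjugate in G to an element of M. -/
theorem result {G : Type*} [Group G] [Finite G] (hev : Even (Nat.card G))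
    (hG : ∀ H : Subgroup G, H.index ≠ 2) (S : Sylow 2 G) (M : Subgroup G) (hMS : M ≤ (S : Subgroup G)) (hM : M.relIndex (S : Subgroup G) = 2)
    (n : ℕ) (hn : 1 ≤ n) (hord : ∀ y ∈ (S : Subgroup G), y ∉ M → 2 ^ (n - 1) < orderOf y)
    (x : G) (hx : x ∈ (S : Subgroup G)) (hxn : orderOf x = 2 ^ n) :
    ∃ g : G, g * x * g⁻¹ ∈ M := by
  by_contra h2
  push Not at h2
  have hn : (M.subgroupOf (S : Subgroup G)).Normal := Subgroup.normal_of_index_eq_two hM
  have hc : Nat.card ((S : Subgroup G) ⧸ M.subgroupOf (S : Subgroup G)) = 2 := hM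
  have hcyc : IsCyclic ((S : Subgroup G) ⧸ M.subgroupOf (S : Subgroup G)) := isCyclic_of_prime_card hc
  let _ : CommGroup ((S : Subgroup G) ⧸ M.subgroupOf (S : Subgroup G)) := hcyc.commGroup
  let φ := QuotientGroup.mk' (M.subgroupOf (S : Subgroup G))
  have hne : ∀ x : (S : Subgroup G), (x : G) ∉ M → φ x ≠ 1 := fun x hx h =>
    hx ((QuotientGroup.eq_one_iff x).mp h)
  have huniq : ∀ a b : (S : Subgroup G) ⧸ M.subgroupOf (S : Subgroup G), a ≠ 1 → b ≠ 1 → a = b := by
    intro a b ha hb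
    obtain ⟨c, -, hc'⟩ := (Nat.card_eq_two_iff' (1 : (S : Subgroup G) ⧸ M.subgroupOf (S : Subgroup G))).mp hc
    rw [hc' a ha, hc' b hb]
  have hxM : x ∉ M := by simpa using h2 1
  have hφ2 : φ ⟨x, hx⟩ ^ 2 = 1 := by
    have := pow_card_eq_one' (x := φ ⟨x, hx⟩)
    rwa [hc] at this
  have hodd : ∀ k, Odd k → φ ⟨x, hx⟩ ^ k = φ ⟨x, hx⟩ := by
    rintro _ ⟨k, rfl⟩
    rw [pow_succ, pow_mul, hφ2, one_pow, one_mul]
  have h3 := H3.transfer_eq_pow_of φ ⟨x, hx⟩ fun k g h => by
    rcases Nat.even_or_odd k with ⟨k, rfl⟩ | hk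
    · rw [show φ ⟨x, hx⟩ ^ (k + k) = 1 by rw [← two_mul, pow_mul, hφ2, one_pow]]
      refine (QuotientGroup.eq_one_iff _).2 ?_
      by_contra hm
      have h4 := hord _ h hm
      have h5 : orderOf (g⁻¹ * x ^ (k + k) * g) ∣ 2 ^ (n - 1) := by
        rw [H6.orderOf_conj'', orderOf_dvd_iff_pow_eq_one, ← pow_mul, ← orderOf_dvd_iff_pow_eq_one,
          hxn]
        obtain ⟨n, rfl⟩ : ∃ m, n = m + 1 := ⟨n - 1, by omega⟩
        exact ⟨k, by simp; ring⟩
      exact absurd (Nat.le_of_dvd (by positivity) h5) (not_le.2 h4)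
    · rw [hodd k hk]
      refine huniq _ _ (hne _ fun hm => h2 g⁻¹ ?_) (hne _ hxM)
      refine H6.mem_of_pow_mem_of_coprime (n := k) (by rw [conj_pow, inv_inv]; exact hm) ?_
      rw [H6.orderOf_conj', hxn]
      exact Nat.Coprime.pow_left _ (H6.coprime_two_iff.2 hk).symm
  rw [hodd _ (H6.odd_index_sylow S)] at h3
  have h4 : MonoidHom.transfer φ x ≠ 1 := h3 ▸ hne _ hxM
  refine hG (MonoidHom.transfer φ).ker ?_
  suffices h : (MonoidHom.transfer φ).range = ⊤ by rw [Subgroup.index_ker, h, Subgroup.card_top, hc]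
  rw [eq_top_iff]
  intro a _
  by_cases ha : a = 1
  · rw [ha]; exact one_mem _
  · exact ⟨x, huniq _ _ h4 ha⟩

end Cfsg.Agent.S3225
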