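import Cfsg.Statements.S3244
import Cfsg.Agent.H5.Four
import Cfsg.Agent.H5.OutSolv
import Cfsg.Agent.H19.BS3
import Cfsg.Agent.H15.Syl

set_option autoImplicit false
open Cfsg

namespace Cfsg.Agent.S3244

open H5 Subgroup
open scoped commutatorElement

local notation "𝒩(" X ")" => Subgroup.normalizer (SetLike.coe X)
local notation "𝒞(" X ")" => Subgroup.centralizer (SetLike.coe X)
local notation "𝒞₁(" a ")" => Subgroup.centralizer (Singleton.singleton a : Set _)

theorem orderOf_conj {G : Type*} [Group G] {a b : G} : orderOf (a * b * a⁻¹) = orderOf b :=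
  (MulAut.conj a).orderOf_eq b

theorem exists_max {G : Type*} [Group G] [Finite G] (L : Subgroup G) :
    IsTwoLocal L → ∃ M, IsMaximalTwoLocal M ∧ L ≤ M := by
  induction L using subgroup_gt_induction with
  | h L ih =>
    intro h
    by_cases hm : ∀ N : Subgroup G, IsTwoLocal N → L ≤ N → N = L
    · exact ⟨L, ⟨h, hm⟩, le_rfl⟩
    · push Not at hm
      obtain ⟨N, h1, h2, h3⟩ := hm
      obtain ⟨M, h4, h5⟩ := ih N (lt_of_le_of_ne h2 h3.symm) h1
      exact ⟨M, h4, h2.trans h5⟩

theorem norm_zpowers {G : Type*} [Group G] [Finite G] {u : G} (hu : orderOf u = 2) :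
    𝒩(zpowers u) = 𝒞₁(u) := by
  have h2 : u * u = 1 := by rw [← pow_two, ← hu, pow_orderOf_eq_one]
  refine le_antisymm (fun g hg => mem_centralizer_singleton_iff.2 ?_) ?_
  · rcases mem_zpowers_two h2 ((mem_normalizer_iff.1 hg u).1 (mem_zpowers u)) with h | h
    · rw [mul_inv_eq_one, mul_eq_left] at h; rw [h] at hu; simp at hu
    · rwa [mul_inv_eq_iff_eq_mul] at h
  · rw [← centralizer_zpowers]; exact Subgroup.centralizer_le_normalizer _

theorem local_cent {G : Type*} [Group G] [Finite G] {u : G} (hu : orderOf u = 2) :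
    IsTwoLocal 𝒞₁(u) :=
  ⟨zpowers u, isPGroup_zpowers hu, by
    intro h; rw [zpowers_eq_bot] at h; rw [h] at hu; simp at hu, (norm_zpowers hu).symm⟩

/-- Say that a finite group G is of characteristic 2 type in the early sense when a Sylow 2-subgroup S of G has a self-centralizing normal subgroup of rank at least 3, S normalizes no nontrivial subgroup of odd order, and every 2-local subgroup of G is 2-constrained. If G is a non-abelian simple group of characteristic 2 type in this sense, then for some maximal 2-local subgroup M of G the centre of O₂(M) is not cyclic. -/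
theorem result {G : Type*} [Group G] [Finite G] [IsSimpleGroup G]
    (hG : ¬ IsMulCommutative G) (S : Sylow 2 G) (A : Subgroup G) (hA : Cfsg.IsSCN (S : Subgroup G) A) (hA3 : ¬ Cfsg.PRankLE 2 2 ↥A)
    (hinv : ∀ X : Subgroup G, Odd (Nat.card ↥X) → (S : Subgroup G) ≤ Subgroup.normalizer (X : Set G) → X = ⊥)
    (hcon : ∀ T : Subgroup G, IsPGroup 2 ↥T → T ≠ ⊥ → Cfsg.IsPConstrained 2 ↥(Subgroup.normalizer (T : Set G))) :
    ∃ M : Subgroup G, Cfsg.IsMaximalTwoLocal M ∧ ¬ IsCyclic ↥(Subgroup.center ↥(Cfsg.pCore 2 ↥M)) := by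
  by_contra hno
  push Not at hno
  have hL : ∀ t : G, orderOf t = 2 → plOf 2 𝒞₁(t) = ⊥ := fun t ht =>
    plOf_centralizer_eq_bot_of_local hcon ht
  have hAc : IsMulCommutative A := H15.scn_comm hA
  obtain ⟨B, hBA, hB, hBn, hB3⟩ := exists_elemAb_normal hAc hA3
  have gf := gf_core_of_constrained hL
  have hSB : (S : Subgroup G) ≤ 𝒩(B) := hA.2.1.trans hBn
  have hW : signalizerClosure B ocore = ⊥ :=
    hinv _ (Nat.coprime_two_right.1 (gf.mem hB hB3).cop)
      (hSB.trans (normalizer_le_normalizer_sigClosure fun a ha a1 => gf.eqv B hB hB3 a ha a1))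
  have hF := gf.fourCl_of_normal S.isPGroup' hSB hB hB3
  have hS2 : ¬ PRankLE 2 1 (S : Subgroup G) :=
    not_pRankLE_iff.2 ⟨B, hBA.trans hA.1, hB, le_trans (by norm_num) hB3⟩
  have hO : ∀ t : G, orderOf t = 2 → oppOf 2 𝒞₁(t) = ⊥ := by
    intro t ht
    obtain ⟨S', hS'⟩ := (isPGroup_zpowers ht).exists_le_sylow
    obtain ⟨g, rfl⟩ := MulAction.exists_smul_eq G S S'
    have h1 : g⁻¹ * t * g ∈ (S : Subgroup G) := mem_cj.1 (hS' (mem_zpowers t))
    have h2 := hF.le S.isPGroup' hS2 h1 (by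
      rw [← ht]; simpa using (orderOf_conj (a := g⁻¹) (b := t)))
    rw [hW, le_bot_iff] at h2
    have h3 := cj_oppOf_centralizer₁ 2 g (g⁻¹ * t * g)
    rw [show g * (g⁻¹ * t * g) * g⁻¹ = t by group] at h3
    rw [h3, cj_eq_bot_iff]; exact h2
  have hloc : ∀ M : Subgroup G, IsTwoLocal M → M ⊓ 𝒞(opOf 2 M) ≤ opOf 2 M := by
    rintro _ ⟨Q, hQ, hQ1, rfl⟩
    rw [← fstarOf_eq_opOf_iff_centralizer, fstarOf_eq_opOf_iff]
    have h1 := isPConstrained_iff_of.1 (hcon Q hQ hQ1)
    refine ⟨le_bot_iff.1 (h1 ▸ layerOf_le_plOf_two _), ?_⟩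
    obtain ⟨y, hy, hy1⟩ := (Subgroup.bot_or_exists_ne_one _).resolve_left
      (H1.inf_centralizer_ne_bot_of_isPGroup hQ hQ le_normalizer hQ1)
    obtain ⟨k, hk⟩ := exists_pow_eq_one_of_isPGroup hQ hy.1
    obtain ⟨t, ht, hto⟩ := exists_orderOf_eq_mem_zpowers hk hy1
    have ht' := zpowers_le.2 hy ht
    have h2 : Q ≤ 𝒞₁(t) := fun q hq =>
      mem_centralizer_singleton_iff.2 (mem_centralizer_iff.1 ht'.2 q hq)
    have h3 := (plOf_inf_centralizer_eq_bot hQ (le_normalizer_of_le h2) (hL t hto)).2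
    rw [hO t hto, inf_eq_right.2 (fun g hg => mem_centralizer_singleton_iff.2
      (mem_centralizer_iff.1 hg t ht'.1).symm)] at h3
    rw [oppOf_normalizer hQ]; exact le_bot_iff.1 h3
  have hcyc : ∀ M : Subgroup G, IsMaximalTwoLocal M → ∀ a b : G, orderOf a = 2 → orderOf b = 2 →
      a ∈ M ⊓ 𝒞(opOf 2 M) → b ∈ M ⊓ 𝒞(opOf 2 M) → a = b := by
    intro M hM a b ha hb h1 h2
    have hc := hno M hM
    have e : ((center (pCore 2 M)).map (pCore 2 M).subtype).map M.subtype = zOf (opOf 2 M) := by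
      rw [map_center_subtype, map_inf_centralizer_of_injective M.subtype_injective]
    have hc' : IsCyclic (zOf (opOf 2 M)) := by
      rw [← e]
      exact isCyclic_of_surjective _ (((Subgroup.equivMapOfInjective _ _
        (pCore 2 M).subtype_injective).trans
        (Subgroup.equivMapOfInjective _ _ M.subtype_injective)).surjective)
    exact H6.ord2_unique_of_isCyclic hc' ⟨hloc M hM.1 h1, h1.2⟩ ⟨hloc M hM.1 h2, h2.2⟩ ha hb
  have hS1 : (S : Subgroup G) ≠ ⊥ := by
    intro h
    have : B = ⊥ := le_bot_iff.1 (h ▸ hBA.trans hA.1)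
    rw [this] at hB3; simp at hB3
  obtain ⟨y, hy, hy1⟩ := (Subgroup.bot_or_exists_ne_one _).resolve_left
    (H1.inf_centralizer_ne_bot_of_isPGroup S.isPGroup' S.isPGroup' le_normalizer hS1)
  obtain ⟨k, hk⟩ := exists_pow_eq_one_of_isPGroup S.isPGroup' hy.1
  obtain ⟨z, hz, hzo⟩ := exists_orderOf_eq_mem_zpowers hk hy1
  have hz' := zpowers_le.2 hy hz
  have hSz : (S : Subgroup G) ≤ 𝒞₁(z) := fun q hq =>
    mem_centralizer_singleton_iff.2 (mem_centralizer_iff.1 hz'.2 q hq)
  have main : ∀ T : Subgroup G, IsPGroup 2 T → z ∈ T → T ≤ 𝒞₁(z) →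
      ∀ H : Subgroup G, IsTwoLocal H → T ≤ H → H ≤ 𝒞₁(z) := by
    intro T
    induction T using subgroup_gt_induction with
    | h T ih =>
      intro hT hzT hTz H hH hTH
      obtain ⟨M, hM, hHM⟩ := exists_max H hH
      refine hHM.trans ?_
      have hTM := hTH.trans hHM
      by_contra hMz
      have hT1 : T ≠ ⊥ := by
        intro h; rw [h, mem_bot] at hzT; rw [hzT] at hzo; simp at hzo
      have step : ∀ K : Subgroup G, IsTwoLocal K → T ≤ K → ¬ K ≤ 𝒞₁(z) →
          IsPiHallOf {2} T (K ⊓ 𝒞₁(z)) := by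
        intro K hK hTK hKz
        obtain ⟨T', h1, h2⟩ := exists_sylowOf_ge hT (le_inf hTK hTz)
        rcases h2.lt_or_eq with h | h
        · exact absurd (ih T' h (IsPiHallOf.isPGroup' h1) (h2 hzT) (h1.1.trans inf_le_right) K hK
            (h1.1.trans inf_le_left)) hKz
        · rwa [h]
      have hsyl : IsPiHallOf {2} T M := by
        by_cases hN : 𝒩(T) ≤ 𝒞₁(z)
        · exact H15.Cfsg.IsPiHallOf.syl_of_norm_le (step M hM.1 hTM hMz) hTM
            (inf_le_inf_left _ hN)
        · have h1 := step _ ⟨T, hT, hT1, rfl⟩ le_normalizer hN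
          rw [inf_comm] at h1
          have h2 := H15.syl_of_syl_norm hTz h1
          have h3 := H15.syl_top_sylow S
          have h4 := H15.Cfsg.IsPiHallOf.of_card_ge h3 (H15.Cfsg.IsPiHallOf.isPi h2) le_top
            (H15.Cfsg.IsPiHallOf.card_le h2 (H15.Cfsg.IsPiHallOf.isPi h3) hSz)
          exact H15.Cfsg.IsPiHallOf.of_le h4 hTM le_top
      have hQT : opOf 2 M ≤ T :=
        H15.Cfsg.IsPiHallOf.le_of_norm' hsyl (H15.IsPGroup.isPi (isPGroup_opOf 2 M)) (opOf_le 2 M)
          (hTM.trans (self_le_normalizer_opOf 2 M))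
      have hzM : z ∈ M ⊓ 𝒞(opOf 2 M) :=
        ⟨hTM hzT, fun q hq => mem_centralizer_singleton_iff.1 (hTz (hQT hq))⟩
      apply hMz
      intro m hm
      have h5 : m * z * m⁻¹ ∈ M ⊓ 𝒞(opOf 2 M) :=
        (mem_normalizer_iff.1 (le_normalizer_inf le_normalizer
          (le_normalizer_centralizer (self_le_normalizer_opOf 2 M)) hm) z).1 hzM
      have := hcyc M hM _ _ (by rw [← hzo]; exact orderOf_conj) hzo h5 hzM
      rw [mul_inv_eq_iff_eq_mul] at this
      exact mem_centralizer_singleton_iff.2 this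
  have main' : ∀ H : Subgroup G, IsTwoLocal H → z ∈ H → H ≤ 𝒞₁(z) := fun H hH h =>
    main (zpowers z) (isPGroup_zpowers hzo) (mem_zpowers z)
      (zpowers_le.2 (mem_centralizer_singleton_iff.2 rfl)) H hH (zpowers_le.2 h)
  have hiso : IsIsolatedInvolution z := by
    refine ⟨hzo, fun g hg => ?_⟩
    have ho : orderOf (g * z * g⁻¹) = 2 := by rw [← hzo]; exact orderOf_conj
    have h1 := main' _ (local_cent ho) (mem_centralizer_singleton_iff.2 hg.eq)
    have h2 : 𝒞₁(g * z * g⁻¹) = 𝒞₁(z) :=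
      eq_of_le_of_card_le h1 (by rw [← cj_centralizer_singleton, card_cj])
    obtain ⟨M, hM, hle⟩ := exists_max _ (local_cent hzo)
    have h3 : M = 𝒞₁(z) :=
      le_antisymm (main' M hM.1 (hle (mem_centralizer_singleton_iff.2 rfl))) hle
    refine hcyc M hM _ _ ho hzo ⟨?_, fun q hq => ?_⟩ ⟨?_, fun q hq => ?_⟩
    · rw [h3, ← h2]; exact mem_centralizer_singleton_iff.2 rfl
    · have := opOf_le 2 M hq
      rw [h3, ← h2] at this
      exact mem_centralizer_singleton_iff.1 this
    · rw [h3]; exact mem_centralizer_singleton_iff.2 rfl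
    · have := opOf_le 2 M hq
      rw [h3] at this
      exact mem_centralizer_singleton_iff.1 this
  have hzc := H19.zstar_center hiso (odd_normal_eq_bot_of_simple S hS1 _ inferInstance
    (Nat.coprime_two_right.1 (H1.coprime_card_pPrimeCore 2)))
  rcases (inferInstance : (center G).Normal).eq_bot_or_eq_top with h | h
  · rw [h, mem_bot] at hzc; rw [hzc] at hzo; simp at hzo
  · exact hG ⟨⟨fun a b => (mem_center_iff.1 (h ▸ mem_top b) a)⟩⟩

end Cfsg.Agent.S3244
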