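import Cfsg.Statements.S3245
import Cfsg.Agent.H17.Be1

set_option autoImplicit false
open Cfsg

namespace Cfsg.Agent.S3245

open H17 Cfsg

open Subgroup H16 H15 H15.Bd

/-- A finite non-abelian simple group in which all maximal 2-local subgroups are conjugate is isomorphic to L₂(2ⁿ), Sz(2ⁿ) or U₃(2ⁿ) for some n ≥ 2. -/
theorem result {G : Type*} [Group G] [Finite G] [IsSimpleGroup G] (hG : ¬ IsMulCommutative G)
    (h1 : ∀ M M' : Subgroup G, Cfsg.IsMaximalTwoLocal M → Cfsg.IsMaximalTwoLocal M' → ∃ g : G, M' = M.map (MulAut.conj g).toMonoidHom) :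
    (∃ (F : Type) (_ : Field F) (_ : Fintype F) (n : ℕ), 2 ≤ n ∧ Fintype.card F = 2 ^ n ∧
        Nonempty (G ≃* Matrix.ProjectiveSpecialLinearGroup (Fin 2) F)) ∨
      Cfsg.Lie.IsoSuzuki G ∨
      (∃ (F : Type) (_ : Field F) (_ : Fintype F) (n : ℕ), 2 ≤ n ∧ Fintype.card F = (2 ^ n) ^ 2 ∧ Nonempty (G ≃* Cfsg.PSU 3 F (2 ^ n))) := by
  have loc : ∀ T : Subgroup G, IsPGroup 2 T → T ≠ ⊥ → ∃ M, IsMaximalTwoLocal M ∧ N[T] ≤ M :=
    fun T hT h0 => by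
    obtain ⟨M, h2, h3⟩ := Finite.exists_le_maximal (p := IsTwoLocal) (a := N[T]) ⟨T, hT, h0, rfl⟩
    exact ⟨M, ⟨h3.1, fun N h4 h5 => le_antisymm (h3.2 h4 h5) h5⟩, h2⟩
  obtain ⟨t, -, -, -, ht, -⟩ := four_of_simple hG
  obtain ⟨S, hS, htS⟩ := exists_syl_ge (isPi_zp_inv ht) (le_top : zpowers t ≤ ⊤)
  have h0 : zpowers t ≠ ⊥ := zpowers_ne_bot.2 (H6.ord2_ne_one ht)
  obtain ⟨M, hM, hSM⟩ := loc S hS.isPGroup (ne_bot_of_le_ne_bot h0 htS)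
  have hSM' : S ≤ M := le_normalizer.trans hSM
  refine (H17.Be.bender_simple (H := M) (H6.stronglyEmbedded_iff.2 ⟨fun e => ?_,
    ⟨t, hSM' (htS (mem_zpowers t)), ht⟩, fun g u hu h2 h3 => ?_⟩) hG).1
  · obtain ⟨T, hT, h2, h3⟩ := hM.1
    have : T.Normal := normalizer_eq_top_iff.1 (h3 ▸ e)
    have h4 := (IsSimpleGroup.eq_bot_or_eq_top_of_normal T this).resolve_left h2
    subst h4
    have := (hT.of_equiv topEquiv).isNilpotent
    exact hG ⟨⟨IsSimpleGroup.comm_iff_isSolvable.2 inferInstance⟩⟩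
  by_contra hg
  obtain ⟨T, ⟨hT, hT0, g, hg, hTM⟩, hm⟩ := Set.Finite.exists_maximal
    (s := {T : Subgroup G | IsPiSubgroup {2} T ∧ T ≠ ⊥ ∧ ∃ g, g ∉ M ∧ T ≤ M ⊓ M :^ g}) (Set.toFinite _)
    ⟨zpowers u, isPi_zp_inv hu, zpowers_ne_bot.2 (H6.ord2_ne_one hu), g⁻¹, by simpa using hg,
      zpowers_le.2 (mem_inf.2 ⟨h2, H16.mem_cj.2 (by simpa using h3)⟩)⟩
  have hS1 : IsPiHallOf {2} S M := hS.of_le hSM' le_top
  by_cases hs : IsPiHallOf {2} T ⊤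
  · obtain ⟨m, h4, h5⟩ := (hs.of_le (hTM.trans inf_le_left) le_top).exists_cj_eq hS1
    obtain ⟨n, h6, h7⟩ := ((hs.cj_top g⁻¹).of_le (H16.le_cj_iff.1 (hTM.trans inf_le_right))
      le_top).exists_cj_eq hS1
    have : n * g⁻¹ * m⁻¹ ∈ N[S] := by
      rw [← H16.cj_eq_self_iff, ← cj_cj, ← cj_cj]
      conv_lhs => rw [← h5]
      rw [H16.cj_cj_inv, h7]
    exact hg (by simpa [mul_assoc] using inv_mem (mul_mem (mul_mem (inv_mem h6) (hSM this)) h4))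
  obtain ⟨M', hM', h4⟩ := loc T hT.isPGroup hT0
  obtain ⟨k, rfl⟩ := h1 M M' hM hM'
  have up : ∀ x : G, T ≤ M :^ x → ∃ R, IsPiSubgroup {2} R ∧ T < R ∧ R ≤ M :^ x ⊓ M :^ k := fun x hx => by
    obtain ⟨R, h5, h6⟩ := exists_gt_of_not_syl hT hx fun h => hs (hS.of_card_eq le_top
      ((h.card_eq (hS1.cj x)).trans (H16.card_cj _ _)))
    exact ⟨R, h5.isPi, h6, h5.le.trans (inf_le_inf_left _ h4)⟩
  obtain ⟨R, h5, h6, h7⟩ := up 1 (by rw [H16.cj_one]; exact hTM.trans inf_le_left)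
  rw [H16.cj_one] at h7
  have hk : k ∈ M := by
    by_contra hk
    exact h6.not_ge (hm ⟨h5, ne_bot_of_gt h6, k, hk, h7⟩ h6.le)
  obtain ⟨R, h5, h6, h7⟩ := up g (hTM.trans inf_le_right)
  rw [cj_self hk, inf_comm] at h7
  exact h6.not_ge (hm ⟨h5, ne_bot_of_gt h6, g, hg, h7⟩ h6.le)

end Cfsg.Agent.S3245
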