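import Cfsg.Statements.S3246
import Cfsg.Agent.H5.PRank

set_option autoImplicit false
open Cfsg

namespace Cfsg.Agent.S3246

/-- Let G be a finite group whose Sylow 2-subgroup S has a self-centralizing normal subgroup of rank at least 3. Suppose that either every maximal 2-local subgroup of G is 2-constrained with no nontrivial normal subgroup of odd order, or the centralizer of every involution of G is 2-constrained with no nontrivial normal subgroup of odd order. Then S normalizes no nontrivial subgroup of G of odd order and every 2-local subgroup of G is 2-constrained. -/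
theorem result {G : Type*} [Group G] [Finite G]
    (S : Sylow 2 G) (A : Subgroup G) (hA : Cfsg.IsSCN (S : Subgroup G) A) (hA3 : ¬ Cfsg.PRankLE 2 2 ↥A)
    (h : (∀ M : Subgroup G, Cfsg.IsMaximalTwoLocal M → Cfsg.IsPConstrained 2 ↥M ∧ Cfsg.oddCore ↥M = ⊥) ∨
      (∀ t : G, orderOf t = 2 → Cfsg.IsPConstrained 2 ↥(Subgroup.centralizer ({t} : Set G)) ∧
        Cfsg.oddCore ↥(Subgroup.centralizer ({t} : Set G)) = ⊥)) :
    (∀ X : Subgroup G, Odd (Nat.card ↥X) → (S : Subgroup G) ≤ Subgroup.normalizer (X : Set G) → X = ⊥) ∧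
      (∀ T : Subgroup G, IsPGroup 2 ↥T → T ≠ ⊥ → Cfsg.IsPConstrained 2 ↥(Subgroup.normalizer (T : Set G))) := by
  have h2 : ∀ t : G, orderOf t = 2 → H5.fstarOf (Subgroup.centralizer ({t} : Set G)) =
      H5.opOf 2 (Subgroup.centralizer ({t} : Set G)) := by
    have key : ∀ M : Subgroup G, Cfsg.IsPConstrained 2 ↥M ∧ Cfsg.oddCore ↥M = ⊥ →
        H5.fstarOf M = H5.opOf 2 M := fun M hM => by
      have e : H5.oppOf 2 M = ⊥ := by
        change (Cfsg.oddCore M).map M.subtype = ⊥
        rw [hM.2, Subgroup.map_bot]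
      exact H5.fstarOf_eq_opOf_iff.2 ⟨by
        rw [← H5.plOf_eq_layerOf e]; exact H5.isPConstrained_iff_of.1 hM.1, e⟩
    intro t ht
    rcases h with h | h
    · have t1 : t ≠ 1 := by rintro rfl; simp at ht
      obtain ⟨M, h1, h2, h3⟩ := H1.exists_maximal_ge Cfsg.IsTwoLocal
        (N := Subgroup.normalizer (Subgroup.zpowers t : Set G))
        ⟨_, H5.isPGroup_zpowers ht, by simpa using t1, rfl⟩
      have h4 := H5.fstarOf_inf_centralizer (H5.isPGroup_zpowers ht)
        ((Subgroup.le_normalizer.trans h2).trans Subgroup.le_normalizer) (key M (h M ⟨h1, h3⟩))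
      rwa [inf_eq_right.2 (Subgroup.centralizer_le_normalizer _ |>.trans h2),
        H5.centralizer_zpowers] at h4
    · exact key _ (h t ht)
  refine ⟨fun X hX hSX => ?_, fun T hT hT1 => ?_⟩
  · have hXc : (Nat.card X).Coprime 2 := Nat.coprime_two_right.2 hX
    have hAab : IsMulCommutative A := Subgroup.le_centralizer_iff_isMulCommutative.1
      (hA.2.2.ge.trans inf_le_right)
    obtain ⟨B, hBA, hB, hBn, hBc⟩ := H5.exists_elemAb_normal hAab hA3
    have hSB := hA.2.1.trans hBn
    have hBS := hBA.trans hA.1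
    obtain ⟨U, hUB, hSU, hU⟩ := H5.exists_inv_card S.isPGroup' (H5.isPGroup_of_elemAb hB) hSB (k := 2)
      (le_trans (by norm_num) hBc)
    have hUe := H5.elemAb_of_le hB hUB
    have hc := H5.card_le_mul_inf_centralizer (H5.isPGroup_of_elemAb hUe) hU.le S.isPGroup' hSU
    refine le_bot_iff.1 (H5.le_of_forall_point hUe hU.ge ((hUB.trans hBS).trans hSX) hXc
      fun u hu u1 => ?_)
    have ho := H5.orderOf_eq_of_elemAb hUe hu u1
    set C := Subgroup.centralizer ({u} : Set G) with hC
    set S₀ := (S : Subgroup G) ⊓ Subgroup.centralizer (U : Set G) with hS₀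
    have hS₀C : S₀ ≤ C := inf_le_right.trans (H5.centralizer_le_singleton hu)
    obtain ⟨T, hT, hST⟩ := H5.exists_sylowOf_ge (S.isPGroup'.to_le inf_le_left : IsPGroup 2 S₀) hS₀C
    have hQT : H5.opOf 2 C ≤ T := H1.IsPiHallOf.le_of_normalizes hT (H5.opOf_le _ _)
      (hT.1.trans (H5.self_le_normalizer_opOf _ _))
      (H1.isPiNat_card_singleton_iff.2 (H5.isPGroup_opOf _ _))
    have hTS : Nat.card T ≤ Nat.card S := H15.Cfsg.IsPiHallOf.card_le (H15.syl_top_sylow S) (H15.Cfsg.IsPiHallOf.isPi hT) le_top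
    have hi : S₀.relIndex T ≤ 2 := by
      have h3 := H5.card_mul_relIndex hST
      have h4 : 0 < Nat.card S₀ := Nat.card_pos
      refine Nat.le_of_mul_le_mul_left ?_ h4
      rw [h3, mul_comm]; exact hTS.trans hc
    have hYQ : X ⊓ C ≤ Subgroup.normalizer (H5.opOf 2 C : Set G) :=
      inf_le_right.trans (H5.self_le_normalizer_opOf _ _)
    have hcop : (Nat.card (X ⊓ C : Subgroup G)).Coprime (Nat.card (H5.opOf 2 C)) :=
      (H5.coprime_card_of_isPGroup (H5.isPGroup_opOf _ _) (H5.coprime_of_le hXc inf_le_left)).symm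
    have h5 : X ⊓ C ≤ Subgroup.centralizer (H5.opOf 2 C : Set G) := by
      refine H5.le_centralizer_of_card_le_two (Q₀ := S₀ ⊓ H5.opOf 2 C) inf_le_right hYQ ?_ ?_
        (hcop.coprime_dvd_right (Subgroup.card_dvd_of_le inf_le_right))
      · rw [← Subgroup.commutator_eq_bot_iff_le_centralizer, eq_bot_iff,
          ← H1.inf_eq_bot_of_coprime' hcop]
        refine le_inf (H5.commutator_le_left_of_le_normalizer (inf_le_left.trans
          (H5.le_normalizer_inf (inf_le_left.trans hSX) (H5.le_normalizer_of_le hS₀C)))) ?_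
        exact (Subgroup.commutator_mono le_rfl inf_le_right).trans
          (H5.commutator_le_right_of_le_normalizer hYQ)
      · rw [← H1.card_inf_mul_relIndex S₀ (H5.opOf 2 C), mul_comm]
        exact Nat.mul_le_mul_right _ ((Subgroup.relIndex_le_of_le_right hQT
          (H15.relIndex_pos _ _).ne').trans hi)
    have h6 := (le_inf inf_le_right h5).trans (H5.fstarOf_eq_opOf_iff_centralizer.1 (h2 u ho))
    rw [← H1.inf_eq_bot_of_coprime' hcop]
    exact le_inf le_rfl h6
  · obtain ⟨t, htT, htC, ht⟩ := H5.exists_central_of_isPGroup hT hT Subgroup.le_normalizer hT1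
    have h3 := H5.fstarOf_inf_centralizer hT
      ((H5.le_centralizer₁_iff.2 htC).trans Subgroup.le_normalizer) (h2 t ht)
    rw [inf_eq_right.2 (H5.centralizer_le_singleton htT)] at h3
    obtain ⟨h4, h5⟩ := H5.fstarOf_eq_opOf_iff.1 h3
    rw [H5.isPConstrained_iff_of, H5.plOf_normalizer hT, H5.plOf_eq_layerOf h5, h4]

end Cfsg.Agent.S3246
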