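import Cfsg.Statements.S3247
import Cfsg.Agent.H5.Balance3

set_option autoImplicit false
open Cfsg

namespace Cfsg.Agent.S3247

/-- Let G be a finite group and p a prime; here a p-local subgroup means the normalizer of a nontrivial p-subgroup, other than G itself. If every p-local subgroup of G that is maximal among p-local subgroups is p-constrained, or if the centralizer of every element of order p of G is p-constrained, then every p-local subgroup of G is p-constrained. -/
theorem result {G : Type*} [Group G] [Finite G] (p : ℕ) [hp : Fact p.Prime]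
    (h : (∀ M : Subgroup G, (∃ T : Subgroup G, IsPGroup p ↥T ∧ T ≠ ⊥ ∧ M = Subgroup.normalizer (T : Set G)) → M ≠ ⊤ →
        (∀ M' : Subgroup G, (∃ T' : Subgroup G, IsPGroup p ↥T' ∧ T' ≠ ⊥ ∧ M' = Subgroup.normalizer (T' : Set G)) → M' ≠ ⊤ → M ≤ M' → M = M') →
        Cfsg.IsPConstrained p ↥M) ∨
      (∀ x : G, orderOf x = p → Cfsg.IsPConstrained p ↥(Subgroup.centralizer ({x} : Set G))))
    (T : Subgroup G) (hT : IsPGroup p ↥T) (hT1 : T ≠ ⊥) (hTG : Subgroup.normalizer (T : Set G) ≠ ⊤) :
    Cfsg.IsPConstrained p ↥(Subgroup.normalizer (T : Set G)) := by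
  rw [H5.isPConstrained_iff_of, H5.plOf_normalizer hT]
  rcases h with h | h
  · obtain ⟨M, ⟨⟨T', h1, h2, h3⟩, h4⟩, h5, h6⟩ := H1.exists_maximal_ge
      (fun M : Subgroup G => (∃ T : Subgroup G, IsPGroup p T ∧ T ≠ ⊥ ∧
        M = Subgroup.normalizer (T : Set G)) ∧ M ≠ ⊤) ⟨⟨T, hT, hT1, rfl⟩, hTG⟩
    have h7 := h M ⟨T', h1, h2, h3⟩ h4 fun M' a b c => (h6 M' ⟨a, b⟩ c).symm
    rw [H5.isPConstrained_iff_of] at h7
    have h8 := (H5.plOf_inf_centralizer_eq_bot hT
      ((Subgroup.le_normalizer.trans h5).trans Subgroup.le_normalizer) h7).1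
    rwa [inf_eq_right.2 ((Subgroup.centralizer_le_normalizer _).trans h5)] at h8
  · have hZ := H1.inf_centralizer_ne_bot_of_isPGroup hT hT Subgroup.le_normalizer hT1
    obtain ⟨q, hq, hd⟩ := H1.exists_prime_dvd_card hZ
    have : Fact q.Prime := ⟨hq⟩
    obtain ⟨t, ht⟩ := exists_prime_orderOf_dvd_card' q hd
    have hq2 : q = p := by
      obtain ⟨k, hk⟩ := hT.to_le inf_le_left t
      have := orderOf_dvd_of_pow_eq_one hk
      rw [ht] at this
      exact (Nat.prime_dvd_prime_iff_eq hq hp.out).1 (hq.dvd_of_dvd_pow this)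
    subst hq2
    have h1 := H5.isPConstrained_iff_of.1 (h t (by rw [Subgroup.orderOf_coe, ht]))
    have h2 : T ≤ Subgroup.centralizer {(t : G)} := by
      intro x hx
      rw [Subgroup.mem_centralizer_singleton_iff]
      exact (t.2.2 x hx)
    have h3 := (H5.plOf_inf_centralizer_eq_bot hT (h2.trans Subgroup.le_normalizer) h1).1
    have h4 : Subgroup.centralizer {(t : G)} ⊓ Subgroup.centralizer (T : Set G) =
        Subgroup.centralizer (T : Set G) :=
      inf_eq_right.2 (Subgroup.centralizer_le (Set.singleton_subset_iff.2 t.2.1))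
    rwa [h4] at h3

end Cfsg.Agent.S3247
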