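import Cfsg.Statements.S3264
import Cfsg.Agent.H13.Bartels

set_option autoImplicit false
open Cfsg

namespace Cfsg.Agent.S3264

open H13

/-- Let G be a non-abelian finite simple group and X a conjugacy class of involutions of G. Form the graph on X in which two distinct involutions are joined when their product has odd order. Then this graph is connected. (By the Baer–Suzuki Theorem the graph has at least one edge; connectedness is the stronger statement.) -/
theorem result {G : Type*} [Group G] [Finite G] [IsSimpleGroup G]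
    (hG : ¬ IsMulCommutative G) (t : G) (ht : orderOf t = 2) :
    (SimpleGraph.fromRel fun x y : {x : G // IsConj t x} => Odd (orderOf (x.1 * y.1))).Connected := by
  set Γ := (SimpleGraph.fromRel fun x y : {x : G // IsConj t x} => Odd (orderOf (x.1 * y.1))) with hΓ
  have ht2 : t ^ 2 = 1 := by rw [← ht]; exact pow_orderOf_eq_one t
  have ht1 : t ≠ 1 := by rintro rfl; simp at ht
  haveI : Fact (Nat.Prime 2) := ⟨Nat.prime_two⟩
  have hsn := H13.Bart.bartels (p := 2) (x := t) (k := 1) (by simpa using ht2)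
  have htop : H13.Bart.SC t = ⊤ := by
    rcases hsn.eq_bot_or_top_of_isSimpleGroup inferInstance with h | h
    · exact absurd (Subgroup.mem_bot.1 (h ▸ H13.Bart.self_mem t)) ht1
    · exact h
  let t0 : {x : G // IsConj t x} := ⟨t, IsConj.refl t⟩
  let cj : G → {x : G // IsConj t x} → {x : G // IsConj t x} := fun g a =>
    ⟨g * a.1 * g⁻¹, H13.Bart.isConj_conj a.2 g⟩
  have hreach : ∀ (g : G) (a b : {x : G // IsConj t x}), Γ.Reachable a b →
      Γ.Reachable (cj g a) (cj g b) := by
    intro g a b h
    let φ : Γ →g Γ := ⟨cj g, by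
      intro a b hab
      rw [hΓ, SimpleGraph.fromRel_adj] at hab ⊢
      have e : ∀ a b : {x : G // IsConj t x}, orderOf ((cj g a).1 * (cj g b).1) = orderOf (a.1 * b.1) := by
        intro a b
        have : (cj g a).1 * (cj g b).1 = MulAut.conj g (a.1 * b.1) := by
          simp [cj, MulAut.conj_apply]
        rw [this, MulEquiv.orderOf_eq]
      rw [e, e]
      refine ⟨fun h => hab.1 (Subtype.ext ?_), hab.2⟩
      have : g * a.1 * g⁻¹ = g * b.1 * g⁻¹ := congrArg Subtype.val h
      simpa using this⟩
    exact h.map φ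
  let C : Set G := {s | ∃ h : IsConj t s, Γ.Reachable t0 ⟨s, h⟩}
  have hC : ∀ y ∈ C, y ∈ Subgroup.normalizer C := by
    rintro y ⟨hy, hr⟩
    have hy2 : y * y = 1 := by rw [← pow_two]; exact H13.Bart.pow_of_isConj hy ht2
    have key : ∀ s ∈ C, y * s * y⁻¹ ∈ C := by
      rintro s ⟨hs, hr2⟩
      refine ⟨H13.Bart.isConj_conj hs y, hr.trans ?_⟩
      have := hreach y _ _ (hr.symm.trans hr2)
      have e : cj y ⟨y, hy⟩ = ⟨y, hy⟩ := Subtype.ext (by simp [cj])
      rw [e] at this
      exact this
    rw [Subgroup.mem_set_normalizer_iff]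
    refine fun s => ⟨key s, fun h' => ?_⟩
    have := key _ h'
    have e : y * (y * s * y⁻¹) * y⁻¹ = (y * y) * s * (y * y)⁻¹ := by group
    rw [e, hy2] at this
    simpa using this
  have hle : H13.Bart.SC t ≤ Subgroup.normalizer C := by
    refine H13.Bart.SC_le fun y g hg e => hC y ?_
    have hy : IsConj t y := isConj_iff.2 ⟨g, e.symm⟩
    refine ⟨hy, ?_⟩
    by_cases hty : t0 = ⟨y, hy⟩
    · rw [hty]
    · refine SimpleGraph.Adj.reachable ?_
      rw [hΓ, SimpleGraph.fromRel_adj]
      obtain ⟨k, hk⟩ := H13.Bart.odd_of_strong (by rw [← pow_two]; exact ht2) hg e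
      exact ⟨hty, Or.inl (H13.Bart.odd_orderOf hk)⟩
  have hall : ∀ a : {x : G // IsConj t x}, Γ.Reachable t0 a := by
    rintro ⟨s, hs⟩
    obtain ⟨g, rfl⟩ := isConj_iff.1 hs
    have hg : g ∈ Subgroup.normalizer C := hle (by rw [htop]; trivial)
    obtain ⟨_, h⟩ := ((Subgroup.mem_set_normalizer_iff).1 hg t).1 ⟨IsConj.refl t, SimpleGraph.Reachable.refl _⟩
    exact h
  haveI : Nonempty {x : G // IsConj t x} := ⟨t0⟩
  exact ⟨fun a b => (hall a).symm.trans (hall b)⟩

end Cfsg.Agent.S3264
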