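import Cfsg.Statements.S3265
import Cfsg.Agent.H21.Lf3

set_option autoImplicit false
open Cfsg

open H21.Lf

namespace Cfsg.Agent.S3265

/-- Let n ≥ 5 and let X be a conjugacy class of involutions of the symmetric group of degree n. The graph on X joining two distinct involutions whose product has odd order is connected and has diameter exactly 2. -/
theorem result (n : ℕ) (hn : 5 ≤ n) (t : Equiv.Perm (Fin n)) (ht : orderOf t = 2) :
    (SimpleGraph.fromRel fun x y : {x : Equiv.Perm (Fin n) // IsConj t x} =>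
        Odd (orderOf (x.1 * y.1))).Connected ∧
      (SimpleGraph.fromRel fun x y : {x : Equiv.Perm (Fin n) // IsConj t x} =>
        Odd (orderOf (x.1 * y.1))).diam = 2 := by
  set Γ := (SimpleGraph.fromRel fun x y : {x : Equiv.Perm (Fin n) // IsConj t x} =>
        Odd (orderOf (x.1 * y.1))) with hΓ
  have st : Sq t := fun q => by
    have := pow_orderOf_eq_one t
    rw [ht, pow_two] at this
    exact congrArg (fun u : Equiv.Perm (Fin n) => u q) this
  have hle : ∀ u v, Γ.edist u v ≤ 2 := fun u v => by
    obtain ⟨su, nu⟩ := sq_of_isConj st u.2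
    obtain ⟨sv, nv⟩ := sq_of_isConj st v.2
    obtain ⟨z, sz, -, nz, g1, g2⟩ := main Finset.univ u.1 v.1 su sv
      (fun q hq => absurd (Finset.mem_univ q) hq) (fun q hq => absurd (Finset.mem_univ q) hq)
      (nu.trans nv.symm) (fun h => by have := h.1; simp at this; omega)
    let w : {x : Equiv.Perm (Fin n) // IsConj t x} := ⟨z, isConj_of_N st sz (nz.trans nu)⟩
    have key : ∀ a : {x : Equiv.Perm (Fin n) // IsConj t x}, Good a.1 z → Γ.edist a w ≤ 1 :=
      fun a ha => by
      rw [SimpleGraph.edist_le_one_iff_adj_or_eq]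
      by_cases h : a = w
      · exact Or.inr h
      · exact Or.inl ((SimpleGraph.fromRel_adj _ _ _).2 ⟨h, Or.inl (odd_of_good sz ha)⟩)
    calc Γ.edist u v ≤ Γ.edist u w + Γ.edist w v := SimpleGraph.edist_triangle
      _ ≤ 1 + 1 := add_le_add (key u g1) (by rw [SimpleGraph.edist_comm]; exact key v g2)
      _ = 2 := one_add_one_eq_two
  have h1 : t ≠ 1 := fun h => by rw [h, orderOf_one] at ht; omega
  obtain ⟨y, hy, hne, hc⟩ := exists_even (by simpa using hn) st h1
  obtain ⟨sy, -⟩ := sq_of_isConj st hy
  have hev : ∀ a b : Equiv.Perm (Fin n), Sq a → Sq b → a ≠ b → (∀ q, a (b q) = b (a q)) →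
      ¬ Odd (orderOf (a * b)) := fun a b sa sb hab h => by
    have : orderOf (a * b) = 2 := by
      refine orderOf_eq_prime ?_ fun e => hab (Equiv.ext fun q => ?_)
      · rw [pow_two]
        ext q
        simp only [Equiv.Perm.mul_apply, Equiv.Perm.one_apply]
        rw [← h, sa, sb]
      · have := congrArg (fun u : Equiv.Perm (Fin n) => a (u (b q))) e
        simp only [Equiv.Perm.mul_apply, Equiv.Perm.one_apply] at this
        rw [sb, sa, h] at this
        have h2 := congrArg b this
        rw [sb] at h2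
        exact h2.symm
    rw [this]
    decide
  have hd : Γ.ediam = 2 := by
    refine le_antisymm (SimpleGraph.ediam_le_of_edist_le hle) ?_
    refine le_trans ?_ (SimpleGraph.edist_le_ediam (u := ⟨t, IsConj.refl t⟩) (v := ⟨y, hy⟩))
    by_contra hlt
    rw [not_le] at hlt
    have h2 : Γ.edist ⟨t, IsConj.refl t⟩ ⟨y, hy⟩ ≤ 1 := Order.le_of_lt_add_one hlt
    rw [SimpleGraph.edist_le_one_iff_adj_or_eq] at h2
    rcases h2 with h2 | h2
    · rcases ((SimpleGraph.fromRel_adj _ _ _).1 h2).2 with h3 | h3
      · exact hev t y st sy hne hc h3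
      · exact hev y t sy st hne.symm (fun q => (hc q).symm) h3
    · exact hne (congrArg Subtype.val h2)
  haveI : Nonempty {x : Equiv.Perm (Fin n) // IsConj t x} := ⟨⟨t, IsConj.refl t⟩⟩
  refine ⟨SimpleGraph.connected_of_ediam_ne_top (by rw [hd]; decide), ?_⟩
  rw [SimpleGraph.diam, hd]
  rfl

end Cfsg.Agent.S3265
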