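import Cfsg.Statements.S3266
import Cfsg.Agent.H4.Tor5

set_option autoImplicit false
open Cfsg

namespace Cfsg.Agent.S3266

/-- Let F be a finite field with at least 4 elements and let X be a conjugacy class of involutions of PSL(2, F). The graph on X joining two distinct involutions whose product has odd order is connected and has diameter exactly 2. -/
theorem result {F : Type*} [Field F] [Fintype F] (hF : 4 ≤ Fintype.card F)
    (t : Matrix.ProjectiveSpecialLinearGroup (Fin 2) F) (ht : orderOf t = 2) :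
    (SimpleGraph.fromRel fun x y : {x : Matrix.ProjectiveSpecialLinearGroup (Fin 2) F // IsConj t x} =>
        Odd (orderOf (x.1 * y.1))).Connected ∧
      (SimpleGraph.fromRel fun x y : {x : Matrix.ProjectiveSpecialLinearGroup (Fin 2) F // IsConj t x} =>
        Odd (orderOf (x.1 * y.1))).diam = 2 := by
  have k0 : ∀ {x y : Matrix.ProjectiveSpecialLinearGroup (Fin 2) F}, orderOf x = 2 → orderOf y = 2 → IsConj x y := by
    intro x y hx hy
    by_cases h2 : (2 : F) = 0
    · obtain ⟨X, rfl⟩ := QuotientGroup.mk_surjective x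
      obtain ⟨Y, rfl⟩ := QuotientGroup.mk_surjective y
      have k : ∀ X : Matrix.SpecialLinearGroup (Fin 2) F, orderOf (X : Matrix.ProjectiveSpecialLinearGroup (Fin 2) F) = 2 →
          ¬ H4.Sc X.1 ∧ X.1.trace = 0 := fun X hX =>
        ⟨H4.not_sc_of_ne_one fun h => by rw [h, orderOf_one] at hX; omega,
          H4.trace_eq_zero_of_ord2 (by rw [← H4.psl2pgl_mk, H4.orderOf_psl, hX])⟩
      exact (QuotientGroup.mk' _).map_isConj (H4.sl_isConj_of (k X hx).1 (k Y hy).1
        ((k X hx).2.trans (k Y hy).2.symm) (Or.inr h2))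
    · exact H4.psl_isConj_of_ord2 h2 hx hy
  have k1 : ∀ x : {x : Matrix.ProjectiveSpecialLinearGroup (Fin 2) F // IsConj t x}, orderOf x.1 = 2 := fun x => by
    obtain ⟨g, hg⟩ := isConj_iff.1 x.2
    rw [← hg]; exact ((MulAut.conj g).orderOf_eq t).trans ht
  have k2 : ∀ x y : Matrix.ProjectiveSpecialLinearGroup (Fin 2) F, orderOf (x * y) = orderOf (y * x) := fun x y => by
    rw [← H4.orderOf_cj x (x * y)]; congr 1; group
  set Γ := SimpleGraph.fromRel fun x y : {x : Matrix.ProjectiveSpecialLinearGroup (Fin 2) F // IsConj t x} =>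
        Odd (orderOf (x.1 * y.1)) with hΓ
  have h1 : Γ.ediam ≤ 2 := SimpleGraph.ediam_le_of_edist_le fun x y => by
    by_cases hxy : x = y
    · rw [hxy, SimpleGraph.edist_self]; exact zero_le
    by_cases h : Odd (orderOf (x.1 * y.1))
    · rw [SimpleGraph.edist_eq_one_iff_adj.2 ((SimpleGraph.fromRel_adj _ _ _).2 ⟨hxy, Or.inl h⟩)]
      exact one_le_two
    · obtain ⟨z, hz, h3, h4⟩ := H4.exists_common_inv hF (k1 x) (k1 y) h
      have a1 : Γ.Adj x ⟨z, k0 ht hz⟩ := (SimpleGraph.fromRel_adj _ _ _).2 ⟨fun h5 => h (by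
        rw [k2, h5]; exact h4), Or.inl h3⟩
      have a2 : Γ.Adj ⟨z, k0 ht hz⟩ y := (SimpleGraph.fromRel_adj _ _ _).2 ⟨fun h5 => h (by
        rw [← h5]; exact h3), Or.inr h4⟩
      exact SimpleGraph.edist_le (SimpleGraph.Walk.cons a1 (SimpleGraph.Walk.cons a2 SimpleGraph.Walk.nil))
  obtain ⟨a, b, h4⟩ : ∃ a b : Matrix.ProjectiveSpecialLinearGroup (Fin 2) F, H4.Four a b := by
    by_cases h2 : (2 : F) = 0
    · have : CharP F 2 := CharTwo.of_one_ne_zero_of_two_eq_zero one_ne_zero h2
      obtain ⟨c, hc0, hc1⟩ : ∃ c : F, c ≠ 0 ∧ c ≠ 1 := by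
        classical
        by_contra H
        push Not at H
        have : (Finset.univ : Finset F) ⊆ {0, 1} := fun l _ => by
          by_cases hl : l = 0
          · simp [hl]
          · simp [H l hl]
        have := (Finset.card_le_card this).trans Finset.card_le_two
        rw [Finset.card_univ] at this
        omega
      refine ⟨H4.upT (1 : F), H4.upT c, H4.Four.of_map H4.psl2pgl_injective ⟨H4.smk_un_pow 2 (H4.un_upT one_ne_zero),
        H4.smk_un_pow 2 (H4.un_upT hc0), fun h => hc1 ?_, ?_⟩⟩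
      · rw [H4.psl2pgl_mk, H4.psl2pgl_mk, ← mul_inv_eq_one, ← map_inv, ← map_mul, H4.upT_inv,
          ← H4.upT_add, H4.smk_upT_eq_one_iff] at h
        linear_combination -h
      · change _ * _ = _ * _
        rw [H4.psl2pgl_mk, H4.psl2pgl_mk, ← map_mul, ← map_mul, ← H4.upT_add, ← H4.upT_add, add_comm]
    · obtain ⟨a, ha, b, hb, h, -⟩ := H4.exists_four_mem h2 (⊤ : Subfield F)
      obtain ⟨a, rfl⟩ := H4.pslS_le_pL _ ha
      obtain ⟨b, rfl⟩ := H4.pslS_le_pL _ hb
      exact ⟨a, b, H4.Four.of_map H4.psl2pgl_injective h⟩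
  have hab : (⟨a, k0 ht h4.oa⟩ : {x : Matrix.ProjectiveSpecialLinearGroup (Fin 2) F // IsConj t x}) ≠ ⟨b, k0 ht h4.ob⟩ :=
    fun h => h4.ne (congrArg Subtype.val h)
  have : Nontrivial {x : Matrix.ProjectiveSpecialLinearGroup (Fin 2) F // IsConj t x} := ⟨_, _, hab⟩
  have h2 : Γ.ediam ≠ 1 := fun h => by
    have h5 : Γ.Adj _ _ := (SimpleGraph.ediam_eq_one.1 h).symm ▸ (SimpleGraph.top_adj _ _).2 hab
    rcases ((SimpleGraph.fromRel_adj _ _ _).1 h5).2 with h6 | h6
    · rw [h4.oab] at h6; exact absurd h6 (by decide)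
    · rw [k2, h4.oab] at h6; exact absurd h6 (by decide)
  have h3 : Γ.ediam = 2 := by
    have h5 := SimpleGraph.ediam_ne_zero (G := Γ)
    generalize Γ.ediam = n at h1 h2 h5
    induction n using ENat.recTopCoe with
    | top => exact absurd h1 (by simp)
    | coe n =>
      have h6 : n ≤ 2 := by exact_mod_cast h1
      have h7 : n ≠ 1 := by exact_mod_cast h2
      have h8 : n ≠ 0 := by exact_mod_cast h5
      rw [show n = 2 by omega]; rfl
  exact ⟨SimpleGraph.connected_of_ediam_ne_top (by rw [h3]; simp), by rw [SimpleGraph.diam, h3]; rfl⟩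

end Cfsg.Agent.S3266
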