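import Cfsg.Statements.S3269
import Cfsg.Agent.H6.ZS
import Cfsg.Agent.H6.Dihedral
import Cfsg.Agent.H6.Q8

set_option autoImplicit false
open Cfsg

namespace Cfsg.Agent.S3269

theorem comp_comm {G : Type*} [Group G] {Q R : Subgroup G} (hc : ∀ a ∈ Q, ∀ b ∈ R, a * b = b * a)
    (hd : Q ⊓ R = ⊥) {q q' r r' : G} (hq : q ∈ Q) (hq' : q' ∈ Q) (hr : r ∈ R) (hr' : r' ∈ R)
    (h : Commute (q * r) (q' * r')) : Commute q q' := by
  have h1 : (q' * q)⁻¹ * (q * q') = (r' * r) * (r * r')⁻¹ := by
    have e1 : q * r * (q' * r') = (q * q') * (r * r') := by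
      rw [mul_assoc, ← mul_assoc r, ← hc q' hq' r hr]; group
    have e2 : q' * r' * (q * r) = (q' * q) * (r' * r) := by
      rw [mul_assoc, ← mul_assoc r', ← hc q hq r' hr']; group
    have := h.eq
    rw [e1, e2] at this
    calc (q' * q)⁻¹ * (q * q') = (q' * q)⁻¹ * (q * q' * (r * r')) * (r * r')⁻¹ := by group
      _ = _ := by rw [this]; group
  have h2 : (q' * q)⁻¹ * (q * q') ∈ Q ⊓ R :=
    Subgroup.mem_inf.2 ⟨mul_mem (inv_mem (mul_mem hq' hq)) (mul_mem hq hq'), h1 ▸ mul_mem (mul_mem hr' hr) (inv_mem (mul_mem hr hr'))⟩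
  rw [hd, Subgroup.mem_bot, inv_mul_eq_one] at h2
  exact h2.symm

theorem mem_prod {G : Type*} [Group G] {Q R : Subgroup G} (hc : ∀ a ∈ Q, ∀ b ∈ R, a * b = b * a) {x : G}
    (hx : x ∈ Q ⊔ R) : ∃ q ∈ Q, ∃ r ∈ R, q * r = x := by
  refine (H1.mem_sup_of_le_normalizer_right ?_).1 hx
  intro a ha
  exact H6.centralizer_le_normalizer' _ (H6.mem_centralizer_iff_commute.2 fun b hb => hc a ha b hb)

/-- Let G be a finite group whose Sylow 2-subgroup S is an internal direct product Q × R with Q generalized quaternion (of order at least 8) and R a subgroup all of whose involutions are central in R. Then G is not simple. In particular no finite simple group has a Sylow 2-subgroup that is a direct product of one or more generalized quaternion groups. -/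
theorem result {G : Type*} [Group G] [Finite G]
    (S : Sylow 2 G) (Q R : Subgroup G) (hQR : Cfsg.IsInternalDirectProduct Q R (S : Subgroup G))
    (n : ℕ) (hn : 1 ≤ n) (eQ : ↥Q ≃* QuaternionGroup (2 ^ n))
    (hR : ∀ r ∈ R, orderOf r = 2 → ∀ s ∈ R, r * s = s * r) :
    ¬ IsSimpleGroup G := by
  classical
  intro hs
  obtain ⟨hQS, hRS, hc, hd, hsup⟩ := hQR
  obtain ⟨a, b, ha, hb, hord, hbb, hab, -, hall⟩ := H6.exists_gens_of_quaternion_subgroup eQ
  obtain ⟨m, rfl⟩ : ∃ m, n = m + 1 := ⟨n - 1, by omega⟩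
  set z := a ^ 2 ^ (m + 1) with hz
  have hz2 : orderOf z = 2 := by
    rw [hz, orderOf_pow' _ (by positivity), hord, Nat.gcd_mul_left_left, Nat.mul_div_cancel _ (by positivity)]
  have hzQ : z ∈ Q := pow_mem ha _
  have huniq : ∀ s ∈ Q, orderOf s = 2 → s = z := by
    intro s hs h2
    obtain ⟨k, rfl | rfl⟩ := hall s hs
    · exact H6.ord2_unique_zpowers (zpow_mem (Subgroup.mem_zpowers a) k) (pow_mem (Subgroup.mem_zpowers a) _) h2 hz2
    · refine absurd ?_ (H6.ord2_ne_one hz2)
      rw [← H6.ord2_mul_self h2, ← hbb, mul_assoc, ← mul_assoc b, H6.mul_zpow_of_inverts hab]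
      group
  have hmem : ∀ s ∈ (S : Subgroup G), ∃ q ∈ Q, ∃ r ∈ R, q * r = s := fun s hs => mem_prod hc (hsup ▸ hs)
  have hcen : ∀ x ∈ (S : Subgroup G), x * x = 1 → ∀ s ∈ (S : Subgroup G), Commute s x := by
    intro x hx hxx s hs
    obtain ⟨q, hq, r, hr, rfl⟩ := hmem x hx
    obtain ⟨q', hq', r', hr', rfl⟩ := hmem s hs
    have e1 : q * q = (r * r)⁻¹ := by
      rw [eq_inv_iff_mul_eq_one, ← hxx, mul_assoc, mul_assoc, ← mul_assoc r q, ← hc q hq r hr]; group
    have e2 : q * q ∈ Q ⊓ R := Subgroup.mem_inf.2 ⟨mul_mem hq hq, e1 ▸ inv_mem (mul_mem hr hr)⟩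
    rw [hd, Subgroup.mem_bot] at e2
    have e3 : r * r = 1 := by rw [e2] at e1; exact inv_eq_one.1 e1.symm
    have c1 : Commute q' q := by
      by_cases h1 : q = 1
      · rw [h1]; exact Commute.one_right _
      · have h2 := H6.ord2_of e2 h1
        rw [← H6.conj_eq_iff_commute, huniq _ (mul_mem (mul_mem hq' hq) (inv_mem hq')) (H6.ord2_conj h2 q'),
          huniq q hq h2]
    have c2 : Commute r' r := by
      by_cases h1 : r = 1
      · rw [h1]; exact Commute.one_right _
      · exact (hR r hr (H6.ord2_of e3 h1) r' hr').symm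
    exact (c1.mul_right (hc q' hq' r hr)).mul_left (Commute.mul_right (hc q hq r' hr').symm c2)
  have hzR : z ∉ R := fun h => H6.ord2_ne_one hz2 (by
    have : z ∈ Q ⊓ R := ⟨hzQ, h⟩
    rwa [hd, Subgroup.mem_bot] at this)
  -- conjugates of `z` under the normalizer
  have key : ∀ n ∈ Subgroup.normalizer ((S : Subgroup G) : Set G), n * z * n⁻¹ ∉ R → n * z * n⁻¹ = z := by
    intro n hn hnR
    set Q' := Q.map (MulAut.conj n).toMonoidHom with hQ'
    set R' := R.map (MulAut.conj n).toMonoidHom with hR'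
    have hle : ∀ A : Subgroup G, A ≤ S → A.map (MulAut.conj n).toMonoidHom ≤ S := fun A hA => by
      rw [← H6.map_conj_eq_iff.2 hn]; exact Subgroup.map_mono hA
    have hc' : ∀ a ∈ Q', ∀ b ∈ R', a * b = b * a := by
      rintro _ ⟨x, hx, rfl⟩ _ ⟨y, hy, rfl⟩
      rw [← map_mul, ← map_mul, hc x hx y hy]
    have hsup' : Q' ⊔ R' = S := by rw [hQ', hR', ← Subgroup.map_sup, hsup, H6.map_conj_eq_iff.2 hn]
    have huniq' : ∀ s ∈ Q', orderOf s = 2 → s = n * z * n⁻¹ := by
      intro s hs h2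
      rw [← huniq _ (H6.mem_map_conj.1 hs) (by rwa [H6.orderOf_conj''])]; group
    have h1 : Q' ⊓ R = ⊥ := by
      by_contra hne
      obtain ⟨t, ht, ht2⟩ := H6.exists_ord2_of_pgroup (S.isPGroup'.to_le (inf_le_right.trans hRS)) hne
      exact hnR (huniq' t ht.1 ht2 ▸ ht.2)
    have hRn : (S : Subgroup G) ≤ Subgroup.normalizer (R : Set G) := by
      rw [← hsup]
      exact sup_le (fun a ha => H6.centralizer_le_normalizer' _
        (H6.mem_centralizer_iff_commute.2 fun b hb => hc a ha b hb)) Subgroup.le_normalizer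
    have h2 : Q' ⊔ R = S := by
      apply Subgroup.eq_of_le_of_card_ge (sup_le (hle Q hQS) hRS)
      rw [H1.card_sup_of_disjoint ((hle Q hQS).trans hRn) h1, H6.card_map_conj,
        ← H1.card_sup_of_disjoint (hQS.trans hRn) hd, hsup]
    have h3 : ∀ y ∈ R', ∀ q ∈ Q, Commute y q := by
      intro y hy q hq
      obtain ⟨q0, hq0, r0, hr0, rfl⟩ := hmem y (hle R hRS hy)
      obtain ⟨x, hx, r, hr, hxr⟩ := (H1.mem_sup_of_le_normalizer_right ((hle Q hQS).trans hRn)).1
        (h2 ▸ hQS hq : q ∈ Q' ⊔ R)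
      have h4 : Commute (q0 * r0) (q * r⁻¹) := by
        rw [← hxr, mul_inv_cancel_right]; exact (hc' x hx _ hy).symm
      exact (comp_comm hc hd hq0 hq hr0 (inv_mem hr) h4).mul_left (hc q hq r0 hr0).symm
    have h5 : a * a ∈ Q' := by
      obtain ⟨x, hx, y, hy, hxy⟩ := mem_prod hc' (hsup' ▸ hQS ha : a ∈ Q' ⊔ R')
      obtain ⟨u, hu, v, hv, huv⟩ := mem_prod hc' (hsup' ▸ hQS hb : b ∈ Q' ⊔ R')
      have e1 : a * a = a * b * a⁻¹ * b⁻¹ := by
        have h2 := H6.conj_zpow_of_inverts hab (-1)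
        calc a * a = a * (a ^ (-1 : ℤ))⁻¹ := by group
          _ = _ := by rw [← h2]; group
      have e2 : y * b * y⁻¹ = b := H6.conj_eq_iff_commute.2 (h3 y hy b hb)
      have e3 : x * v * x⁻¹ = v := H6.conj_eq_iff_commute.2 (hc' x hx v hv)
      have : a * a = x * u * x⁻¹ * u⁻¹ := by
        calc a * a = x * (y * b * y⁻¹) * x⁻¹ * b⁻¹ := by rw [e1, ← hxy]; group
          _ = x * u * x⁻¹ * (x * v * x⁻¹) * b⁻¹ := by rw [e2, ← huv]; group
          _ = _ := by rw [e3, ← huv]; group
      rw [this]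
      exact mul_mem (mul_mem (mul_mem hx hu) (inv_mem hx)) (inv_mem hu)
    refine (huniq' z ?_ hz2).symm
    have : z = (a * a) ^ 2 ^ m := by rw [hz, ← pow_two, ← pow_mul, pow_succ']
    rw [this]; exact pow_mem h5 _
  -- the product of the conjugates
  let Z := Subgroup.center (S : Subgroup G)
  haveI := Fintype.ofFinite Z
  letI : CommGroup Z := { (inferInstance : Group Z) with mul_comm := fun a b => mul_comm' a b }
  let f : Z →* G := (S : Subgroup G).subtype.comp Z.subtype
  have hf : Function.Injective f := (S : Subgroup G).subtype_injective.comp Z.subtype_injective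
  let O : Finset Z := Finset.univ.filter fun y => ∃ n ∈ Subgroup.normalizer ((S : Subgroup G) : Set G), n * z * n⁻¹ = f y
  let z0 : Z := ⟨⟨z, hQS hzQ⟩, Subgroup.mem_center_iff.2 fun s =>
    Subtype.ext (hcen z (hQS hzQ) (H6.ord2_mul_self hz2) s s.2).eq⟩
  have hz0 : z0 ∈ O := by simp only [O, Finset.mem_filter, Finset.mem_univ, true_and]; exact ⟨1, one_mem _, by simp [z0, f]⟩
  set w := ∏ y ∈ O, y with hw
  have hw1 : f w ≠ 1 := by
    intro h
    rw [hw, ← Finset.mul_prod_erase _ _ hz0, map_mul] at h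
    have : ∏ y ∈ O.erase z0, y ∈ R.comap f := by
      refine Subgroup.prod_mem _ fun y hy => ?_
      rw [Finset.mem_erase] at hy
      obtain ⟨n, hn, hn'⟩ := (Finset.mem_filter.1 hy.2).2
      by_contra h1
      rw [Subgroup.mem_comap, ← hn'] at h1
      exact hy.1 (hf (hn'.symm.trans (key n hn h1)))
    apply hzR
    have h2 : z = (f (∏ y ∈ O.erase z0, y))⁻¹ := eq_inv_of_mul_eq_one_left h
    rw [h2]; exact inv_mem this
  have hw2 : f w * f w = 1 := by
    rw [← map_mul, hw, ← Finset.prod_mul_distrib, Finset.prod_eq_one, map_one]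
    intro y hy
    obtain ⟨n, hn, hn'⟩ := (Finset.mem_filter.1 hy).2
    apply hf
    rw [map_mul, map_one, ← hn']
    exact H6.ord2_mul_self (H6.ord2_conj hz2 n)
  have hfix : ∀ n ∈ Subgroup.normalizer ((S : Subgroup G) : Set G), n * f w * n⁻¹ = f w := by
    intro n hn
    let φ : Z →* Z := {
      toFun := fun y => ⟨⟨n * f y * n⁻¹, H3.conj_mem_of_mem_normalizer hn y.1.2⟩,
        Subgroup.mem_center_iff.2 fun s => Subtype.ext (by
          have h1 := congrArg Subtype.val (Subgroup.mem_center_iff.1 y.2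
            ⟨_, H3.conj_mem_of_mem_normalizer' hn s.2⟩)
          have h2 : Commute (n⁻¹ * s * n) (f y) := h1
          have := h2.conj n
          show (s : G) * (n * f y * n⁻¹) = n * f y * n⁻¹ * s
          simpa [mul_assoc] using this.eq)⟩
      map_one' := hf (by show n * f 1 * n⁻¹ = f 1; simp)
      map_mul' := fun x y => hf (by
        show n * f (x * y) * n⁻¹ = (n * f x * n⁻¹) * (n * f y * n⁻¹)
        rw [map_mul]; group) }
    have hφ : ∀ y, f (φ y) = n * f y * n⁻¹ := fun y => rfl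
    have hinj : Function.Injective φ := fun x y h => hf (by
      have := congrArg f h
      rw [hφ, hφ] at this
      simpa using this)
    rw [← hφ, hw, map_prod]
    congr 1
    have himg : O.image φ = O := by
      apply Finset.eq_of_subset_of_card_le
      · intro y hy
        obtain ⟨x, hx, rfl⟩ := Finset.mem_image.1 hy
        obtain ⟨k, hk, hk'⟩ := (Finset.mem_filter.1 hx).2
        exact Finset.mem_filter.2 ⟨Finset.mem_univ _, n * k, mul_mem hn hk, by rw [hφ, ← hk']; group⟩
      · rw [Finset.card_image_of_injective _ hinj]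
    conv_rhs => rw [← himg, Finset.prod_image (fun x _ y _ h => hinj h)]
  have hwS : f w ∈ (S : Subgroup G) := w.1.2
  have hwc : H6.WC (S : Subgroup G) (f w) := ⟨hwS, fun g hg => by
    obtain ⟨n, hn, hn'⟩ := H6.burnside_fusion_comm S (hcen _ hwS hw2)
      (hcen _ hg (H6.ord2_mul_self (H6.ord2_conj (H6.ord2_of hw2 hw1) g))) (isConj_iff.2 ⟨g, rfl⟩)
    rw [← hn', hfix n hn]⟩
  rcases IsSimpleGroup.eq_bot_or_eq_top_of_normal (Cfsg.pPrimeCore 2 G) inferInstance with hO | hO
  · have h1 := hwc.mem_center hO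
    rcases IsSimpleGroup.eq_bot_or_eq_top_of_normal (Subgroup.center G) inferInstance with h2 | h2
    · rw [h2] at h1; exact hw1 h1
    · have h3 : a ∈ Subgroup.center G := h2 ▸ Subgroup.mem_top a
      rw [Subgroup.mem_center_iff.1 h3 b, mul_inv_cancel_right] at hab
      have h4 : a ^ 2 = 1 := by rw [pow_two]; exact mul_eq_one_iff_eq_inv.2 hab
      have := Nat.le_of_dvd (by norm_num) (orderOf_dvd_of_pow_eq_one h4)
      rw [hord, pow_succ] at this
      have : 0 < 2 ^ m := by positivity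
      omega
  · exact hw1 (H6.eq_one_of_mem_core S.isPGroup' hwS (hO ▸ Subgroup.mem_top _))

end Cfsg.Agent.S3269
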