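import Cfsg.Statements.S3276
import Cfsg.Agent.H6.Q8
import Cfsg.Agent.H5.Subnormal

set_option autoImplicit false
open Cfsg

namespace Cfsg.Agent.S3276

/-- Let x and y be commuting, non-conjugate involutions of a finite group G, and suppose that for every involution u commuting with x, each conjugate of y that commutes with u also commutes with y. Then the normal closure of y is a proper, normal, elementary abelian 2-subgroup of G; and if y is the only involution of that normal closure commuting with x, it has order at most 4. -/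
theorem result {G : Type*} [Group G] [Finite G] (x y : G) (hx : orderOf x = 2) (hy : orderOf y = 2)
    (hxy : Commute x y) (hnc : ¬ IsConj x y)
    (hstar : ∀ u : G, orderOf u = 2 → Commute u x → ∀ g : G, Commute (g * y * g⁻¹) u → Commute (g * y * g⁻¹) y) :
    Subgroup.normalClosure ({y} : Set G) ≠ ⊤ ∧ Cfsg.IsElementaryAbelian 2 (Subgroup.normalClosure ({y} : Set G)) ∧
      ((∀ u ∈ Subgroup.normalClosure ({y} : Set G), orderOf u = 2 → Commute u x → u = y) →
        Nat.card ↥(Subgroup.normalClosure ({y} : Set G)) ≤ 4) := by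
  have h0 : ∀ a ∈ Group.conjugatesOfSet ({y} : Set G), IsConj y a := fun a ha => by
    obtain ⟨b, hb, ha⟩ := Group.mem_conjugatesOfSet_iff.1 ha
    exact hb ▸ ha
  have h1 : ∀ g : G, Commute (g * y * g⁻¹) y := by
    intro g
    have he : Even (orderOf (x * (g * y * g⁻¹))) := by
      refine Nat.not_odd_iff_even.1 fun ho => hnc ?_
      exact (H6.isConj_of_odd (H6.ord2_mul_self hx) (H6.ord2_mul_self (H6.ord2_conj hy g)) ho).trans
        (isConj_iff.2 ⟨g, rfl⟩).symm
    obtain ⟨h2, h3, h4⟩ := H6.exists_central_inv (H6.ord2_mul_self hx)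
      (H6.ord2_mul_self (H6.ord2_conj hy g)) he
    exact hstar _ h2 h3 g h4.symm
  have h2 : ∀ a ∈ Group.conjugatesOfSet ({y} : Set G), ∀ b ∈ Group.conjugatesOfSet ({y} : Set G),
      Commute a b := by
    intro a ha b hb
    obtain ⟨g, rfl⟩ := isConj_iff.1 (h0 a ha)
    obtain ⟨c, rfl⟩ := isConj_iff.1 (h0 b hb)
    have := (h1 (c⁻¹ * g)).map (MulAut.conj c)
    simpa [mul_assoc] using this
  set N := Subgroup.normalClosure ({y} : Set G) with hN
  have h3 : ∀ a ∈ N, ∀ b ∈ N, Commute a b := by
    intro a ha b hb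
    refine Subgroup.closure_induction₂ (p := fun a b _ _ => Commute a b) (fun a b ha hb => h2 a ha b hb)
      (fun _ _ => Commute.one_left _) (fun _ _ => Commute.one_right _)
      (fun _ _ _ _ _ _ h h' => h.mul_left h') (fun _ _ _ _ _ _ h h' => h.mul_right h')
      (fun _ _ _ _ h => h.inv_left) (fun _ _ _ _ h => h.inv_right) ha hb
  have h4 : ∀ a ∈ N, a * a = 1 := by
    intro a ha
    induction ha using Subgroup.closure_induction with
    | mem a ha =>
      exact H6.ord2_mul_self ((H6.isConj_orderOf (h0 a ha)).symm.trans hy)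
    | one => simp
    | mul a b ha hb h h' => rw [(h3 a ha b hb).symm.mul_mul_mul_comm, h, h', one_mul]
    | inv a _ h => rw [← mul_inv_rev, h, inv_one]
  refine ⟨fun h => hnc ?_, ⟨⟨⟨fun a b => Subtype.ext (h3 a a.2 b b.2)⟩⟩,
    fun a ha => (pow_two a).trans (h4 a ha)⟩, fun h => ?_⟩
  · have h5 : (Subgroup.zpowers y).Normal := ⟨fun a ha g => by
      rwa [H6.conj_eq_iff_commute.2 (h3 g (h ▸ Subgroup.mem_top g) a (h ▸ Subgroup.mem_top a))]⟩
    have h6 : N ≤ Subgroup.zpowers y := Subgroup.normalClosure_le_normal (by simp)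
    rcases (H6.mem_zpowers_ord2 (H6.ord2_mul_self hy)).1 (h6 (h ▸ Subgroup.mem_top x)) with e | e
    · exact absurd e (H6.ord2_ne_one hx)
    · rw [e]
  · have hN' : N.Normal := inferInstance
    have h5 : ∀ a ∈ N, Commute a x → a ∈ Subgroup.zpowers y := fun a ha hc => by
      by_cases e : a = 1
      · rw [e]; exact one_mem _
      · rw [h a ha (H6.ord2_of (h4 a ha) e) hc]; exact Subgroup.mem_zpowers y
    have h6 : ∀ a ∈ N, a * (x * a * x⁻¹) ∈ Subgroup.zpowers y := fun a ha => by
      refine h5 _ (mul_mem ha (hN'.conj_mem a ha x)) (H6.conj_eq_iff_commute.1 ?_).symm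
      calc x * (a * (x * a * x⁻¹)) * x⁻¹ = (x * a * x⁻¹) * ((x * x) * a * (x * x)⁻¹) := by group
        _ = _ := by rw [H6.ord2_mul_self hx, one_mul, inv_one, mul_one,
          (h3 a ha _ (hN'.conj_mem a ha x)).eq]
    let f : N →* Subgroup.zpowers y := MonoidHom.mk' (fun a => ⟨_, h6 a a.2⟩) fun a b => by
      apply Subtype.ext
      show (a * b : G) * (x * (a * b) * x⁻¹) = a * (x * a * x⁻¹) * (b * (x * b * x⁻¹))
      rw [(h3 _ (hN'.conj_mem a a.2 x) b b.2).mul_mul_mul_comm]; group
    have h7 : f.ker.map N.subtype ≤ Subgroup.zpowers y := by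
      rintro _ ⟨a, ha, rfl⟩
      have h8 : (a : G) * (x * a * x⁻¹) = 1 := congrArg Subtype.val ha
      refine h5 a a.2 (H6.conj_eq_iff_commute.1 ?_).symm
      exact mul_left_cancel (h8.trans (h4 a a.2).symm)
    have h8 := Subgroup.card_le_of_le h7
    rw [Subgroup.card_map_of_injective N.subtype_injective, Nat.card_zpowers, hy] at h8
    have h9 := Subgroup.card_le_card_group f.range
    rw [Nat.card_zpowers, hy, ← Subgroup.index_ker] at h9
    rw [← f.ker.card_mul_index]
    exact Nat.mul_le_mul h8 h9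

end Cfsg.Agent.S3276
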