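import Cfsg.Statements.S3279
import Cfsg.Agent.H19.BS3
import Cfsg.Agent.H6.Inv2
import Cfsg.Agent.S0443
import Cfsg.Agent.S0446

set_option autoImplicit false
open Cfsg

namespace Cfsg.Agent.S3279

theorem aux3 {G : Type*} [Group G] [Finite G] {x : G} (hx : orderOf x = 2)
    (h3 : Nat.card {u : ↥(Subgroup.centralizer ({x} : Set G)) // orderOf u = 2} ≤ 3)
    {y u : G} (hy : orderOf y = 2) (hyx : Commute y x) (hne : y ≠ x) (hu : orderOf u = 2)
    (hux : Commute u x) : u = x ∨ u = y ∨ u = x * y := by
  classical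
  by_contra h
  push Not at h
  have hz := H6.ord2_mul_of_commute (H6.ord2_mul_self hx) (H6.ord2_mul_self hy) hyx.symm hne.symm
  let f : Fin 4 → G := ![x, y, x * y, u]
  have h1 : ∀ i, orderOf (f i) = 2 ∧ Commute (f i) x := by
    intro i
    fin_cases i
    exacts [⟨hx, Commute.refl x⟩, ⟨hy, hyx⟩, ⟨hz, (Commute.refl x).mul_left hyx⟩, ⟨hu, hux⟩]
  have h2 : Function.Injective f := by
    have a1 : x * y ≠ x := fun e => H6.ord2_ne_one hy (mul_eq_left.1 e)
    have a2 : x * y ≠ y := fun e => H6.ord2_ne_one hx (mul_eq_right.1 e)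
    intro i j
    fin_cases i <;> fin_cases j <;> simp [f, h.1, h.2.1, h.2.2, hne, a1, a2, h.1.symm, h.2.1.symm,
      h.2.2.symm, hne.symm, a1.symm, a2.symm]
  have h4 := Nat.card_le_card_of_injective (fun i : Fin 4 => (⟨⟨f i, H6.mem_cent_iff_commute.2 (h1 i).2⟩,
    by rw [← Subgroup.orderOf_coe]; exact (h1 i).1⟩ :
      {u : ↥(Subgroup.centralizer ({x} : Set G)) // orderOf u = 2}))
    (fun i j e => h2 (congrArg (fun t => t.1.1) e))
  simp at h4
  omega

/-- Let G be a finite simple group and x an involution of G whose centralizer contains at most three involutions. Then C_G(x) contains a Sylow 2-subgroup of G, and all involutions of G are conjugate. -/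
theorem result {G : Type*} [Group G] [Finite G] [IsSimpleGroup G] (x : G) (hx : orderOf x = 2)
    (h3 : Nat.card {u : ↥(Subgroup.centralizer ({x} : Set G)) // orderOf u = 2} ≤ 3) :
    (∃ S : Sylow 2 G, (S : Subgroup G) ≤ Subgroup.centralizer ({x} : Set G)) ∧
      ∀ u v : G, orderOf u = 2 → orderOf v = 2 → IsConj u v := by
  have hcen : ∀ z : G, z ≠ 1 → z ∈ Subgroup.center G → ∀ a b : G, Commute a b := by
    intro z hz h1 a b
    have := ((inferInstance : (Subgroup.center G).Normal).eq_bot_or_eq_top).resolve_left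
      fun e => hz (by rwa [e] at h1)
    exact Subgroup.mem_center_iff.1 (this ▸ Subgroup.mem_top b : b ∈ Subgroup.center G) a
  have key : ∀ u : G, orderOf u = 2 → IsConj x u := by
    by_cases hi : Cfsg.IsIsolatedInvolution x
    · have hO : Cfsg.pPrimeCore 2 G = ⊥ := by
        refine ((inferInstance : (Cfsg.pPrimeCore 2 G).Normal).eq_bot_or_eq_top).resolve_right fun e => ?_
        have := H1.pPrimeCore_eq_top_iff.1 e
        exact absurd (Nat.Coprime.eq_one_of_dvd this.symm (hx ▸ orderOf_dvd_natCard x)) (by decide)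
      have hc := hcen x (H6.ord2_ne_one hx) (H19.zstar_center hi hO)
      haveI : (Subgroup.zpowers x).Normal := ⟨fun n hn g => by rwa [(hc g n).eq, mul_inv_cancel_right]⟩
      have h1 := (this.eq_bot_or_eq_top).resolve_left
        (fun e => H6.ord2_ne_one hx (Subgroup.zpowers_eq_bot.1 e))
      intro u hu
      obtain ⟨k, hk⟩ := Subgroup.mem_zpowers_iff.1 (h1 ▸ Subgroup.mem_top u : u ∈ Subgroup.zpowers x)
      rw [← zpow_mod_orderOf, hx] at hk
      rcases Int.emod_two_eq_zero_or_one k with e | e
      · simp only [Nat.cast_ofNat, e, zpow_zero] at hk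
        exact absurd hk.symm (H6.ord2_ne_one hu)
      · simp only [Nat.cast_ofNat, e, zpow_one] at hk
        rw [hk]
    obtain ⟨g, hg, hne⟩ : ∃ g : G, Commute x (g * x * g⁻¹) ∧ g * x * g⁻¹ ≠ x := by
      by_contra h
      push Not at h
      exact hi ⟨hx, h⟩
    set y := g * x * g⁻¹ with hydef
    have hy : orderOf y = 2 := H6.ord2_conj hx g
    have hxy : IsConj x y := isConj_iff.2 ⟨g, rfl⟩
    have hz := H6.ord2_mul_of_commute (H6.ord2_mul_self hx) (H6.ord2_mul_self hy) hg hne.symm
    have hA : ∀ u, orderOf u = 2 → Commute u x → u = x ∨ u = y ∨ u = x * y :=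
      fun u hu h => aux3 hx h3 hy hg.symm hne hu h
    have hB : ∀ u, orderOf u = 2 → Commute u y → u = x ∨ u = y ∨ u = x * y := by
      intro u hu h
      have h1 : Commute (g⁻¹ * x * g) x := by
        have := hg.map (MulAut.conj g⁻¹)
        simpa [hydef, mul_assoc] using this
      have h2 : Commute (g⁻¹ * u * g) x := by
        have := h.map (MulAut.conj g⁻¹)
        simpa [hydef, mul_assoc] using this
      rcases aux3 hx h3 (y := g⁻¹ * x * g) (by rw [H6.orderOf_conj'', hx]) h1
        (fun e => hne (by rw [hydef]; conv_lhs => rw [← e]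
                          group)) (u := g⁻¹ * u * g) (by rw [H6.orderOf_conj'', hu]) h2 with e | e | e
      · right; left; rw [hydef, ← e]; group
      · left; simpa using e
      · right; right; rw [hg.eq, hydef]
        calc u = g * (g⁻¹ * u * g) * g⁻¹ := by group
          _ = _ := by rw [e]; group
    have hD : ∀ a s : G, orderOf a = 2 → orderOf s = 2 → ¬ IsConj a s →
        ∃ w, orderOf w = 2 ∧ Commute w a ∧ Commute w s := fun a s ha hs h =>
      ⟨_, H6.exists_central_inv (H6.ord2_mul_self ha) (H6.ord2_mul_self hs) (by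
        by_contra e
        exact h (H6.isConj_of_odd (H6.ord2_mul_self ha) (H6.ord2_mul_self hs)
          (Nat.not_even_iff_odd.1 e)))⟩
    have hxz : IsConj x (x * y) := by
      by_contra h
      have h1 : Subgroup.normalClosure {x * y} ≤ Subgroup.centralizer {x * y} := by
        rw [Subgroup.normalClosure, Subgroup.closure_le]
        intro s hs
        obtain ⟨a, ha, hs⟩ := Group.mem_conjugatesOfSet_iff.1 hs
        rw [Set.mem_singleton_iff] at ha
        subst ha
        have hs2 : orderOf s = 2 := H6.isConj_orderOf hs ▸ hz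
        have h2 : ¬ IsConj x s := fun e => h (e.trans hs.symm)
        have h3 : (s = x ∨ s = y ∨ s = x * y) → Commute s (x * y) := by
          rintro (e | e | e)
          · exact absurd (e ▸ IsConj.refl _) h2
          · exact absurd (e ▸ hxy) h2
          · rw [e]
        obtain ⟨w, hw, h4, h5⟩ := hD x s hx hs2 h2
        refine H6.mem_cent_iff_commute.2 ?_
        rcases hA w hw h4 with e | e | e
        · exact h3 (hA s hs2 (e ▸ h5.symm))
        · exact h3 (hB s hs2 (e ▸ h5.symm))
        · exact e ▸ h5.symm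
      have h2 := (Subgroup.normalClosure_normal (s := {x * y})).eq_bot_or_eq_top.resolve_left fun e =>
        H6.ord2_ne_one hz (by
          rw [← Subgroup.mem_bot, ← e]; exact Subgroup.subset_normalClosure rfl)
      have h4 := hcen (x * y) (H6.ord2_ne_one hz) (Subgroup.mem_center_iff.2 fun a =>
        H6.mem_cent_singleton.1 (h1 (h2 ▸ Subgroup.mem_top a)))
      exact hne (by rw [hydef, (h4 g x).eq, mul_inv_cancel_right])
    have hC : ∀ u, orderOf u = 2 → Commute u x → IsConj x u := by
      intro u hu h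
      rcases hA u hu h with e | e | e <;> rw [e]
      exacts [hxy, hxz]
    intro s hs
    by_contra h
    obtain ⟨w, hw, h4, h5⟩ := hD x s hx hs h
    obtain ⟨c, hc⟩ := isConj_iff.1 (hC w hw h4)
    have h6 : Commute (c⁻¹ * s * c) x := by
      have := h5.symm.map (MulAut.conj c⁻¹)
      simpa [← hc, mul_assoc] using this
    exact h ((hC _ (by rw [H6.orderOf_conj'', hs]) h6).trans (isConj_iff.2 ⟨c, by group⟩))
  refine ⟨?_, fun u v hu hv => (key u hu).symm.trans (key v hv)⟩
  obtain ⟨t, ht⟩ := Cfsg.Agent.S0446.result (G := G) (even_iff_two_dvd.2 (hx ▸ orderOf_dvd_natCard x))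
  obtain ⟨P, hP⟩ := (Cfsg.Agent.S0443.result t ht.1).1 ht
  obtain ⟨c, hc⟩ := isConj_iff.1 (key t ht.1)
  refine ⟨c⁻¹ • P, fun a ha => ?_⟩
  have h1 := H6.mem_cent_iff_commute.1 (hP ((H6.mem_sylow_smul P c⁻¹ a).1 ha))
  have := h1.map (MulAut.conj c⁻¹)
  exact H6.mem_cent_iff_commute.2 (by simpa [← hc, mul_assoc] using this)

end Cfsg.Agent.S3279
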