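import Cfsg.Statements.S3287
import Cfsg.Agent.H7.GWCor
import Cfsg.Agent.Lead.GW

set_option autoImplicit false
open Cfsg

namespace Cfsg.Agent.S3287



/-- Let G be a finite simple group whose Sylow 2-subgroups are dihedral, and suppose the centralizer of some involution of G is properly contained in a subgroup whose generalized Fitting subgroup equals its Fitting subgroup (a subgroup without components). Then G is isomorphic to the alternating group of degree 5 or 7, to PSL(3, 2), or to PSL(2, 9). -/
theorem result {G : Type*} [Group G] [Finite G] [IsSimpleGroup G] (S : Sylow 2 G) (m : ℕ) (eS : ↥(S : Subgroup G) ≃* DihedralGroup m)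
    (t : G) (ht : orderOf t = 2) (K : Subgroup G) (hlt : Subgroup.centralizer ({t} : Set G) < K)
    (hK : Cfsg.generalizedFittingSubgroup ↥K = Cfsg.fittingSubgroup ↥K) :
    Nonempty (G ≃* ↥(alternatingGroup (Fin 5))) ∨ Nonempty (G ≃* ↥(alternatingGroup (Fin 7))) ∨
      (∃ (F : Type) (_ : Field F) (_ : Fintype F), Fintype.card F = 2 ∧ Nonempty (G ≃* Matrix.ProjectiveSpecialLinearGroup (Fin 3) F)) ∨
      (∃ (F : Type) (_ : Field F) (_ : Fintype F), Fintype.card F = 9 ∧ Nonempty (G ≃* Matrix.ProjectiveSpecialLinearGroup (Fin 2) F)) := by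
  exact GW.s3287 (fun Y _ _ hs hc hd => GW.known hs hc hd) S m eS t ht K hlt hK

end Cfsg.Agent.S3287
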