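import Cfsg.Statements.S3299
import Cfsg.Agent.H7.Extra2
import Cfsg.Agent.H6.TT2
import Cfsg.Agent.H6.SCl
import Cfsg.Agent.H1.Cores

set_option autoImplicit false
open Cfsg

namespace Cfsg.Agent.S3299

open Subgroup H6

variable {G : Type*} [Group G]

/-- elementwise description of an extraspecial 2-group with central involution `z` -/
structure ES (E : Subgroup G) (z : G) : Prop where
  oz : orderOf z = 2
  zE : z ∈ E
  zc : ∀ x ∈ E, Commute x z
  cen : ∀ x ∈ E, (∀ y ∈ E, Commute x y) → x = 1 ∨ x = z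
  com : ∀ x ∈ E, ∀ y ∈ E, x * y = y * x ∨ x * y = y * x * z
  sq : ∀ x ∈ E, x * x = 1 ∨ x * x = z

theorem ES.of [Finite G] {E : Subgroup G} {z : G} (h : Cfsg.IsExtraspecial 2 E) (oz : orderOf z = 2)
    (zE : z ∈ E) (zc : ∀ x ∈ E, Commute x z) : ES E z := by
  haveI : Fact (Nat.Prime 2) := ⟨Nat.prime_two⟩
  have hz : zpowers z = E ⊓ centralizer (E : Set G) := by
    apply eq_of_le_of_card_ge
    · rw [zpowers_le]
      exact ⟨zE, mem_centralizer_iff.mpr fun x hx => (zc x hx).eq⟩
    · rw [H7.extraspecial_card_center h, Nat.card_zpowers, oz]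
  have key : ∀ x ∈ E ⊓ centralizer (E : Set G), x = 1 ∨ x = z := by
    intro x hx
    rw [← hz] at hx
    rw [zpowers_eq_closure] at hx
    have hs : ({z} : Set G) ⊆ {z, 1} := by simp
    have := (mem_closure_commute (a := z) (b := 1) (x := x) (ord2_mul_self oz) (by simp)
      (Commute.one_right z)).mp (closure_mono hs hx)
    simp only [mul_one] at this
    tauto
  refine ⟨oz, zE, zc, fun x hx hc => key x ⟨hx, mem_centralizer_iff.mpr fun y hy => (hc y hy).eq.symm⟩,
    fun x hx y hy => ?_, fun x hx => ?_⟩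
  · have := commutator_mem_commutator (inv_mem hx) (inv_mem hy)
    rw [H7.extraspecial_commutator h] at this
    rcases key _ this with h1 | h1
    · left
      have e : x * y = y * x * (x⁻¹ * y⁻¹ * x⁻¹⁻¹ * y⁻¹⁻¹) := by group
      rw [e, ← commutatorElement_def, h1, mul_one]
    · right
      have e : x * y = y * x * (x⁻¹ * y⁻¹ * x⁻¹⁻¹ * y⁻¹⁻¹) := by group
      rw [e, ← commutatorElement_def, h1]
  · rw [← pow_two]
    exact key _ (H7.extraspecial_pow_mem h hx)

namespace ES
variable {E : Subgroup G} {z : G} (h : ES E z)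
include h

theorem zz : z * z = 1 := ord2_mul_self h.oz

theorem com' {x y : G} (hx : x ∈ E) (hy : y ∈ E) (hn : ¬ Commute x y) : x * y = y * x * z :=
  (h.com x hx y hy).resolve_left hn

/-- two elements with the same centralizer in `E` differ by a central element -/
theorem same {a b : G} (ha : a ∈ E) (hb : b ∈ E) (hab : ∀ x ∈ E, Commute x a ↔ Commute x b) :
    b = a ∨ b = a * z := by
  have : a⁻¹ * b = 1 ∨ a⁻¹ * b = z := by
    refine h.cen _ (mul_mem (inv_mem ha) hb) fun y hy => ?_
    by_cases hc : Commute y a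
    · exact (hc.inv_right.mul_right ((hab y hy).mp hc)).symm
    · have h1 := h.com' hy ha hc
      have h2 := h.com' hy hb (fun k => hc ((hab y hy).mpr k))
      have h3 := (h.zc y hy).eq
      have h4 := (h.zc b hb).eq
      show a⁻¹ * b * y = y * (a⁻¹ * b)
      have e1 : y * a⁻¹ = a⁻¹ * y * z := by
        have h5 := (h.zc a ha).inv_left.eq
        calc y * a⁻¹ = a⁻¹ * (a * y * z) * z⁻¹ * a⁻¹ := by group
          _ = a⁻¹ * (y * a) * z⁻¹ * a⁻¹ := by rw [h1]
          _ = a⁻¹ * y * (a * z * a⁻¹) := by rw [ord2_inv h.oz]; group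
          _ = a⁻¹ * y * z := by rw [(h.zc a ha).eq]; group
      calc a⁻¹ * b * y = a⁻¹ * (b * y * z) * z := by
            rw [mul_assoc a⁻¹ (b * y * z), mul_assoc (b * y), h.zz]; group
        _ = a⁻¹ * y * (b * z) := by rw [← h2]; group
        _ = (a⁻¹ * y * z) * b := by rw [h4]; group
        _ = y * (a⁻¹ * b) := by rw [← e1]; group
  rcases this with h1 | h1
  · left; rw [← mul_one a, ← h1]; group
  · right; rw [← h1]; group

/-- the product of two elements not commuting with `a` commutes with `a` -/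
theorem mul_comm_of_not {a x y : G} (ha : a ∈ E) (hx : x ∈ E) (hy : y ∈ E) (h1 : ¬ Commute x a)
    (h2 : ¬ Commute y a) : Commute (x * y) a := by
  show x * y * a = a * (x * y)
  calc x * y * a = x * (a * y * z) := by rw [← h.com' hy ha h2]; group
    _ = (a * x * z) * y * z := by rw [← h.com' hx ha h1]; group
    _ = a * x * (z * y) * z := by group
    _ = a * x * y * (z * z) := by rw [← (h.zc y hy).eq]; group
    _ = a * (x * y) := by rw [h.zz]; group

/-- if the centralizer in `E` of a non-central element `e` is abelian then `E` has at most 8 elements -/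
theorem small [Finite G] {e : G} (he : e ∈ E) {u : G} (hu : u ∈ E) (hue : ¬ Commute u e)
    (hab : ∀ x ∈ E, ∀ y ∈ E, Commute x e → Commute y e → Commute x y) : Nat.card E ≤ 8 := by
  have h4 : ∀ w ∈ E, Commute w e → w = 1 ∨ w = z ∨ w = e ∨ w = e * z := by
    intro w hw hwe
    by_cases hc : Commute u w
    · have := h.cen w hw fun y hy => by
        by_cases hy' : Commute y e
        · exact hab w hw y hy hwe hy'
        · have h1 := h.mul_comm_of_not he (inv_mem hu) hy (fun k => hue (by simpa using k.inv_left)) hy'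
          have h2 := hab w hw _ (mul_mem (inv_mem hu) hy) hwe h1
          have h3 := hc.symm.mul_right h2
          rwa [mul_inv_cancel_left] at h3
      tauto
    · have := h.same he hw fun x hx => ⟨fun k => hab x hx w hw k hwe, fun k => by
        by_contra hy'
        have h1 := h.mul_comm_of_not he (inv_mem hu) hx (fun k => hue (by simpa using k.inv_left)) hy'
        have h2 := hab w hw _ (mul_mem (inv_mem hu) hx) hwe h1
        have h3 := h2.mul_right k.symm.inv_right
        rw [mul_inv_cancel_right] at h3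
        exact hc (by simpa using h3.symm.inv_left)⟩
      tauto
  classical
  have hsub : (E : Set G) ⊆ ({1, z, e, e * z, u, u * z, u * e, u * (e * z)} : Finset G) := by
    intro x hx
    by_cases hc : Commute x e
    · rcases h4 x hx hc with rfl | rfl | rfl | rfl <;> simp
    · have h1 := h.mul_comm_of_not he (inv_mem hu) hx (fun k => hue (by simpa using k.inv_left)) hc
      have e1 : x = u * (u⁻¹ * x) := by group
      rw [e1]
      rcases h4 _ (mul_mem (inv_mem hu) hx) h1 with k | k | k | k <;> rw [k] <;> simp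
  have := Set.ncard_le_ncard hsub (Set.toFinite _)
  rw [Set.ncard_coe_finset] at this
  have h8 : ({1, z, e, e * z, u, u * z, u * e, u * (e * z)} : Finset G).card ≤ 8 :=
    (Finset.card_insert_le _ _).trans (Nat.succ_le_succ ((Finset.card_insert_le _ _).trans
      (Nat.succ_le_succ Finset.card_le_six)))
  exact this.trans h8

end ES

/-- Let G be a finite group with no nontrivial 2-group quotient (O^2(G) = G), z an involution of G with H = C_G(z), and suppose E = O_2(H) is extraspecial with C_G(E) ≤ E and of order 2^(2n+1) with n ≥ 2. Then E is contained in every normal subgroup of H of index 2. -/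
theorem result {G : Type*} [Group G] [Finite G] (hres : Cfsg.pResidual 2 G = ⊤) (z : G) (hz : orderOf z = 2)
    (E : Subgroup G) (hE : E = (Cfsg.pCore 2 ↥(Subgroup.centralizer ({z} : Set G))).map (Subgroup.centralizer ({z} : Set G)).subtype)
    (hext : Cfsg.IsExtraspecial 2 ↥E) (hcent : Subgroup.centralizer (E : Set G) ≤ E) (n : ℕ) (hn : 2 ≤ n) (hcard : Nat.card ↥E = 2 ^ (2 * n + 1))
    (K : Subgroup G) (hKH : K ≤ Subgroup.centralizer ({z} : Set G))
    (hKn : ∀ h ∈ Subgroup.centralizer ({z} : Set G), K.map (MulAut.conj h).toMonoidHom = K)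
    (hKi : K.relIndex (Subgroup.centralizer ({z} : Set G)) = 2) : E ≤ K := by
  haveI : Fact (Nat.Prime 2) := ⟨Nat.prime_two⟩
  set H := centralizer ({z} : Set G) with hH
  have memH : ∀ x, x ∈ H ↔ Commute x z := fun x => mem_cent_iff_commute
  have hEH : E ≤ H := by rw [hE]; exact map_subtype_le _
  have hEn : ∀ h ∈ H, ∀ x ∈ E, h * x * h⁻¹ ∈ E := by
    intro h hh x hx
    rw [hE] at hx ⊢
    obtain ⟨y, hy, rfl⟩ := hx
    exact ⟨_, (inferInstance : (Cfsg.pCore 2 H).Normal).conj_mem y hy ⟨h, hh⟩, rfl⟩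
  have hEp : IsPGroup 2 E := hext.1.1
  have zE : z ∈ E := hcent (mem_centralizer_iff.mpr fun x hx => ((memH x).mp (hEH hx)).eq)
  have es : ES E z := ES.of hext hz zE fun x hx => (memH x).mp (hEH hx)
  have hKn' : ∀ h ∈ H, ∀ x ∈ K, h * x * h⁻¹ ∈ K := fun h hh x hx => by
    rw [← hKn h hh]; exact ⟨x, hx, rfl⟩
  have hK2 : ∀ a ∈ H, ∀ b ∈ H, (a * b ∈ K ↔ (a ∈ K ↔ b ∈ K)) := fun a ha b hb =>
    mul_mem_iff_of_index_two (H := K.subgroupOf H) hKi (a := ⟨a, ha⟩) (b := ⟨b, hb⟩)
  have hKc : ∀ a ∈ H, ∀ b ∈ H, a * b * a⁻¹ * b⁻¹ ∈ K := by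
    intro a ha b hb
    rw [hK2 _ (mul_mem (mul_mem ha hb) (inv_mem ha)) _ (inv_mem hb), hK2 _ (mul_mem ha hb) _ (inv_mem ha),
      hK2 _ ha _ hb, inv_mem_iff, inv_mem_iff]
    tauto
  have h32 : 8 < Nat.card E := by
    rw [hcard]
    calc 8 < 2 ^ 5 := by norm_num
      _ ≤ 2 ^ (2 * n + 1) := Nat.pow_le_pow_right (by norm_num) (by omega)
  have comz : ∀ x ∈ E, ∀ y ∈ E, ¬ Commute x y → x⁻¹ * y⁻¹ * x⁻¹⁻¹ * y⁻¹⁻¹ = z := by
    intro x hx y hy hn
    calc x⁻¹ * y⁻¹ * x⁻¹⁻¹ * y⁻¹⁻¹ = (y * x)⁻¹ * (x * y) := by group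
      _ = z := by rw [es.com' hx hy hn]; group
  have zK : z ∈ K := by
    obtain ⟨x, hx, y, hy, hn⟩ : ∃ x ∈ E, ∃ y ∈ E, ¬ Commute x y := by
      by_contra hc
      push Not at hc
      exact H7.extraspecial_not_comm hext ⟨⟨fun a b => Subtype.ext (hc a a.2 b b.2).eq⟩⟩
    rw [← comz x hx y hy hn]
    exact hKc _ (inv_mem (hEH hx)) _ (inv_mem (hEH hy))
  by_contra hEK
  obtain ⟨u₀, hu₀E, hu₀K⟩ := SetLike.not_le_iff_exists.mp hEK
  -- an element `e` whose centralizer in `E` is `E ⊓ K`
  obtain ⟨e, heE, he⟩ : ∃ e ∈ E, ∀ x ∈ E, Commute x e ↔ x ∈ K := by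
    set B := E ⊓ K with hB
    have hBi : B.relIndex E = 2 := by
      rw [hB, inf_relIndex_left]
      refine relIndex_eq_two_iff.mpr ⟨u₀, hu₀E, fun b hb => ?_⟩
      rw [hK2 _ (hEH hb) _ (hEH hu₀E)]
      by_cases hbK : b ∈ K <;> simp [hbK, hu₀K, Xor]
    have h1 := H7.extraspecial_relIndex_centralizer hext (B := B) inf_le_left
    by_contra hne
    push Not at hne
    have h2 : E ⊓ centralizer (B : Set G) ≤ E ⊓ centralizer (E : Set G) := by
      rintro e ⟨heE, heB⟩
      obtain ⟨x, hxE, hx⟩ := hne e heE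
      have heB' : ∀ y ∈ E, y ∈ K → Commute y e := fun y hy hyK => mem_centralizer_iff.mp heB y ⟨hy, hyK⟩
      have hx' : Commute x e ∧ x ∉ K := by
        rcases hx with hx | hx
        · exact hx
        · exact absurd (heB' x hxE hx.2) hx.1
      refine ⟨heE, mem_centralizer_iff.mpr fun y hy => ?_⟩
      by_cases hyK : y ∈ K
      · exact heB' y hy hyK
      · have h3 : x⁻¹ * y ∈ K := by
          rw [hK2 _ (inv_mem (hEH hxE)) _ (hEH hy), inv_mem_iff]; tauto
        have h4 := hx'.1.mul_left (heB' _ (mul_mem (inv_mem hxE) hy) h3)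
        rw [mul_inv_cancel_left] at h4
        exact h4
    have h3 : E ⊓ centralizer (B : Set G) = E ⊓ centralizer (E : Set G) :=
      le_antisymm h2 (inf_le_inf_left _ (centralizer_le (SetLike.coe_subset_coe.mpr inf_le_left)))
    rw [← inf_relIndex_left, h3, ← inf_relIndex_left B] at h1
    have h5 : B ⊓ centralizer (E : Set G) = E ⊓ centralizer (E : Set G) := by
      apply le_antisymm (inf_le_inf_right _ inf_le_left)
      rintro x ⟨hx1, hx2⟩
      refine ⟨⟨hx1, ?_⟩, hx2⟩
      rcases es.cen x hx1 (fun y hy => (mem_centralizer_iff.mp hx2 y hy).symm) with rfl | rfl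
      · exact one_mem _
      · exact zK
    rw [h5] at h1
    have h6 := relIndex_mul_relIndex (E ⊓ centralizer (E : Set G)) B E (h5 ▸ inf_le_left) inf_le_left
    rw [hBi, h1] at h6
    have h7 : (E ⊓ centralizer (E : Set G)).relIndex B ≠ 0 := index_ne_zero_of_finite
    omega
  -- an involution `u` of `E` outside `K`
  obtain ⟨u, huE, huK, huu⟩ : ∃ u ∈ E, u ∉ K ∧ u * u = 1 := by
    by_contra hne
    push Not at hne
    have hsq : ∀ x ∈ E, x ∉ K → x * x = z := fun x hx hxK => (es.sq x hx).resolve_left (hne x hx hxK)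
    have hw : ∀ x ∈ E, x ∉ K → ∀ w ∈ E, w ∈ K → w * x * w = x := by
      intro x hx hxK w hw hwK
      have h1 := hsq _ (mul_mem hx hw) (by rw [hK2 _ (hEH hx) _ (hEH hw)]; tauto)
      have h2 := hsq x hx hxK
      calc w * x * w = x⁻¹ * (x * w * (x * w)) := by group
        _ = x := by rw [h1, ← h2]; group
    have := es.small heE hu₀E (fun k => hu₀K ((he _ hu₀E).mp k)) fun x hx y hy h1 h2 => by
      have hxK := (he x hx).mp h1
      have hyK := (he y hy).mp h2
      have a1 := hw u₀ hu₀E hu₀K x hx hxK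
      have a2 := hw u₀ hu₀E hu₀K y hy hyK
      have a3 := hw u₀ hu₀E hu₀K (x * y) (mul_mem hx hy) (mul_mem hxK hyK)
      show x * y = y * x
      have b1 : x * u₀ = u₀ * x⁻¹ := by rw [eq_mul_inv_iff_mul_eq]; exact a1
      have b2 : y * u₀ = u₀ * y⁻¹ := by rw [eq_mul_inv_iff_mul_eq]; exact a2
      have b3 : x * y * u₀ = u₀ * (x * y)⁻¹ := by rw [eq_mul_inv_iff_mul_eq]; exact a3
      have b4 : x * y * u₀ = u₀ * (x⁻¹ * y⁻¹) := by rw [mul_assoc, b2, ← mul_assoc, b1]; group
      have b5 : (x * y)⁻¹ = (y * x)⁻¹ := by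
        have := mul_left_cancel (b3.symm.trans b4)
        rw [this]; group
      exact inv_injective b5
    omega
  have hue : ¬ Commute u e := fun k => huK ((he u huE).mp k)
  -- a Sylow subgroup of `H` is a Sylow subgroup of `G`
  obtain ⟨T₀⟩ : Nonempty (Sylow 2 H) := inferInstance
  set T := (T₀ : Subgroup H).map H.subtype with hT
  have hTp : IsPGroup 2 T := T₀.isPGroup'.map _
  have hTH : T ≤ H := map_subtype_le _
  have hET : E ≤ T := by
    rw [hE]; exact map_mono (H1.pCore_le_sylow T₀)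
  have hcT : ∀ x, (∀ y ∈ E, Commute x y) → x = 1 ∨ x = z := fun x hx =>
    es.cen x (hcent (mem_centralizer_iff.mpr fun y hy => (hx y hy).eq.symm)) hx
  have hTmax : ∀ P : Subgroup G, IsPGroup 2 P → T ≤ P → P ≤ H → P = T := by
    intro P hP h1 h2
    have := T₀.is_maximal' (Q := P.subgroupOf H) hP.comap_subtype (fun x hx => h1 ⟨x, hx, rfl⟩)
    rw [hT, ← this, map_subgroupOf_eq_of_le h2]
  obtain ⟨S, hS⟩ := exists_sylow_eq_of_normalizer hTp (fun x hx ⟨k, hk⟩ => by
    have hxH : x ∈ H := by
      rw [memH, ← conj_eq_iff_commute]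
      refine (hcT _ fun y hy => ?_).resolve_left (ord2_ne_one (ord2_conj hz x))
      have h1 : x⁻¹ * y * x ∈ T := by
        have := (mem_normalizer_iff.mp (inv_mem hx) y).mp (hET hy)
        simpa using this
      have h2 := ((memH _).mp (hTH h1)).map (MulAut.conj x).toMonoidHom
      simpa [mul_assoc] using h2.symm
    have := hTmax _ (isPGroup_sup_zpowers_of_normalizer hTp hk hx) le_sup_left
      (sup_le hTH (zpowers_le.mpr hxH))
    rw [← this]
    exact mem_sup_right (mem_zpowers x))
  -- a Sylow subgroup of `C_H(u)`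
  set C := H ⊓ centralizer ({u} : Set G) with hC
  obtain ⟨Q₀, hQ₀⟩ := ((hEp.to_inf_left (K := C)).comap_subtype (K := C)).exists_le_sylow
  set Q := (Q₀ : Subgroup C).map C.subtype with hQ
  have hQp : IsPGroup 2 Q := Q₀.isPGroup'.map _
  have hQC : Q ≤ C := map_subtype_le _
  have hEQ : ∀ x ∈ E, Commute x u → x ∈ Q := fun x hx hc =>
    ⟨⟨x, hEH hx, mem_cent_iff_commute.mpr hc⟩, hQ₀ ⟨hx, hEH hx, mem_cent_iff_commute.mpr hc⟩, rfl⟩
  have hQmax : ∀ x ∈ C, x ∈ normalizer (Q : Set G) → (∃ k : ℕ, x ^ 2 ^ k = 1) → x ∈ Q := by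
    rintro x hxC hx ⟨k, hk⟩
    have h1 := isPGroup_sup_zpowers_of_normalizer hQp hk hx
    have h2 : Q ⊔ zpowers x ≤ C := sup_le hQC (zpowers_le.mpr hxC)
    have := Q₀.is_maximal' (Q := (Q ⊔ zpowers x).subgroupOf C) h1.comap_subtype
      (fun y hy => mem_sup_left ⟨y, hy, rfl⟩)
    refine ⟨⟨x, hxC⟩, ?_, rfl⟩
    rw [← this]
    exact mem_sup_right (mem_zpowers x)
  have hZQ : ∀ c ∈ Q, (∀ y ∈ Q, Commute c y) → c = 1 ∨ c = z ∨ c = u ∨ c = u * z := by
    intro c hc hcc
    have hcH : c ∈ H := (hQC hc).1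
    have h1 : c * e * c⁻¹ = e ∨ c * e * c⁻¹ = e * z := by
      refine es.same heE (hEn c hcH e heE) fun x hx => ?_
      have hx' : c⁻¹ * x * c ∈ E := by simpa using hEn c⁻¹ (inv_mem hcH) x hx
      rw [he x hx]
      constructor
      · intro k
        have k' : c⁻¹ * x * c ∈ K := by simpa using hKn' c⁻¹ (inv_mem hcH) x k
        have := ((he _ hx').mpr k').map (MulAut.conj c).toMonoidHom
        simpa [mul_assoc] using this
      · intro k
        have := k.map (MulAut.conj c⁻¹).toMonoidHom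
        have k' : Commute (c⁻¹ * x * c) e := by simpa [mul_assoc] using this
        have := hKn' c hcH _ ((he _ hx').mp k')
        simpa [mul_assoc] using this
    have h2 : ∀ d : G, (∀ y ∈ E, Commute y u → Commute d y) → Commute d e → d = 1 ∨ d = z := by
      intro d hd hde
      refine hcT d fun y hy => ?_
      by_cases k : Commute y u
      · exact hd y hy k
      · have := es.mul_comm_of_not huE (inv_mem heE) hy (fun k => hue (by simpa using k.inv_left.symm)) k
        have h3 := hde.mul_right (hd _ (mul_mem (inv_mem heE) hy) this)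
        rwa [mul_inv_cancel_left] at h3
    rcases h1 with h1 | h1
    · have := h2 c (fun y hy k => hcc y (hEQ y hy k)) (conj_eq_iff_commute.mp h1)
      tauto
    · have := h2 (u⁻¹ * c) (fun y hy k => k.symm.inv_left.mul_left (hcc y (hEQ y hy k))) (by
        rw [← conj_eq_iff_commute]
        have e1 := es.com' heE huE (fun k => hue k.symm)
        calc u⁻¹ * c * e * (u⁻¹ * c)⁻¹ = u⁻¹ * (c * e * c⁻¹) * u := by group
          _ = u⁻¹ * e * (z * u) := by rw [h1]; group
          _ = u⁻¹ * (e * u) * z := by rw [← (es.zc u huE).eq]; group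
          _ = e * (z * z) := by rw [e1]; group
          _ = e := by rw [es.zz, mul_one])
      rcases this with k | k
      · right; right; left; rw [← mul_one u, ← k]; group
      · right; right; right; rw [← k]; group
  obtain ⟨a, haE, b, hbE, hau, hbu, hab⟩ : ∃ a ∈ E, ∃ b ∈ E, Commute a u ∧ Commute b u ∧ ¬ Commute a b := by
    by_contra hne
    push Not at hne
    have := es.small huE heE (fun k => hue k.symm) hne
    omega
  have hNQ : ∀ x ∈ normalizer (Q : Set G), x ∈ H := by
    intro x hx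
    have hxQ : ∀ y ∈ Q, x * y * x⁻¹ ∈ Q := fun y hy => (mem_normalizer_iff.mp hx y).mp hy
    have h1 : x * z * x⁻¹ ∈ K := by
      have := hKc _ (hQC (hxQ _ (inv_mem (hEQ a haE hau)))).1 _ (hQC (hxQ _ (inv_mem (hEQ b hbE hbu)))).1
      rw [← comz a haE b hbE hab]
      convert this using 1
      group
    have h2 := hZQ _ (hxQ z (hEQ z zE (es.zc u huE).symm)) fun y hy => by
      have h3 : x⁻¹ * y * x ∈ Q := by
        have := (mem_normalizer_iff.mp (inv_mem hx) y).mp hy
        simpa using this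
      have h4 := ((memH _).mp (hQC h3).1).map (MulAut.conj x).toMonoidHom
      simpa [mul_assoc] using h4.symm
    rw [memH, ← conj_eq_iff_commute]
    rcases h2 with k | k | k | k
    · exact absurd k (ord2_ne_one (ord2_conj hz x))
    · exact k
    · rw [k] at h1; exact absurd h1 huK
    · rw [k] at h1; exact absurd ((mul_mem_cancel_right zK).mp h1) huK
  have hG : ∀ M : Subgroup G, M.index ≠ 2 := fun M hM => by
    have := pResidual_le_of_index_two hM
    rw [hres, top_le_iff] at this
    rw [this, index_top] at hM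
    omega
  obtain ⟨g, -, hg2, hg3⟩ := tt_quot hG S (R := K)
    (fun a ha b hb => hKc a (hTH (hS ▸ ha)) b (hTH (hS ▸ hb))) (y := u) (hS ▸ hET huE) huu huK
    (fun s hs _ => by
      have hsH : s ∈ H := hTH (hS ▸ hs)
      rw [hK2 _ (inv_mem hsH) _ (hEH huE), inv_mem_iff]; tauto) hQp (fun x hx => (hQC hx).2)
  rw [hS] at hg3
  have hgH : g ∈ H := by
    set z' := g⁻¹ * z * g with hz'
    have oz' : orderOf z' = 2 := by rw [hz', orderOf_conj'']; exact hz
    set P := T.map (MulAut.conj g⁻¹).toMonoidHom with hP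
    have memP : ∀ x, x ∈ P ↔ g * x * g⁻¹ ∈ T := fun x => by rw [hP, mem_map_conj, inv_inv]
    have hQP : Q ≤ P := fun x hx => (memP x).mpr (hg3 x hx)
    have hPc : ∀ x ∈ P, Commute x z' := fun x hx => by
      have := ((memH _).mp (hTH ((memP x).mp hx))).map (MulAut.conj g⁻¹).toMonoidHom
      simpa [mul_assoc, hz'] using this
    have hz'N : z' ∈ normalizer (Q : Set G) :=
      centralizer_le_normalizer' Q (mem_centralizer_iff.mpr fun y hy => (hPc y (hQP hy)).eq)
    have huQ : u ∈ Q := hEQ u huE (Commute.refl u)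
    have hz'Q : z' ∈ Q := hQmax z' ⟨hNQ _ hz'N, mem_cent_iff_commute.mpr (hPc u (hQP huQ)).symm⟩ hz'N
      ⟨1, by rw [pow_one, pow_two]; exact ord2_mul_self oz'⟩
    have fin : z' = z → g ∈ H := fun k => by
      rw [memH]
      show g * z = z * g
      calc g * z = g * z' := by rw [k]
        _ = z * g := by rw [hz']; group
    have hPQ : (z' = u ∨ z' = u * z) → g ∈ H := by
      intro k
      rcases hQP.eq_or_lt with k1 | k1
      · have h1 : g * z * g⁻¹ = 1 ∨ g * z * g⁻¹ = z := hcT _ fun y hy => by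
          have h2 : g⁻¹ * y * g ∈ Q := by
            rw [k1, memP]; simpa [mul_assoc] using hET hy
          have h4 := ((memH _).mp (hQC h2).1).map (MulAut.conj g).toMonoidHom
          simpa [mul_assoc] using h4.symm
        rw [memH, ← conj_eq_iff_commute]
        exact h1.resolve_left (ord2_ne_one (ord2_conj hz g))
      · exfalso
        have hPp : IsPGroup 2 P := hTp.map _
        obtain ⟨x, hxP, hxQ, hxN⟩ := exists_mem_normalizer_of_lt hPp k1
        have hxH := hNQ x hxN
        refine hxQ (hQmax x ⟨hxH, mem_cent_iff_commute.mpr ?_⟩ hxN (IsPGroup_pow_eq_one hPp hxP))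
        have h1 := hPc x hxP
        rcases k with k | k
        · rwa [k] at h1
        · rw [k] at h1
          have := h1.mul_right ((memH x).mp hxH).inv_right
          rwa [mul_inv_cancel_right] at this
    rcases hZQ z' hz'Q (fun y hy => (hPc y (hQP hy)).symm) with k | k | k | k
    · exact absurd k (ord2_ne_one oz')
    · exact fin k
    · exact hPQ (Or.inl k)
    · exact hPQ (Or.inr k)
  apply huK
  have := hKn' g⁻¹ (inv_mem hgH) _ hg2
  simpa [mul_assoc] using this

end Cfsg.Agent.S3299
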