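import Cfsg.Statements.S3300
import Cfsg.Agent.H20.Tp1
-- import your own Cfsg.Agent.* helpers here

set_option autoImplicit false
open Cfsg

namespace Cfsg.Agent.S3300

/-- Let G be a finite group with no nontrivial 2-group quotient (O^2(G) = G), z an involution of G with H = C_G(z), and suppose E = O_2(H) is extraspecial with C_G(E) ≤ E and of order 2^(2n+1) with n ≥ 3. If H has a normal subgroup of index 2, then z is conjugate in G to an element of E other than z. -/
theorem result {G : Type*} [Group G] [Finite G] (hres : Cfsg.pResidual 2 G = ⊤) (z : G) (hz : orderOf z = 2)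
    (E : Subgroup G) (hE : E = (Cfsg.pCore 2 ↥(Subgroup.centralizer ({z} : Set G))).map (Subgroup.centralizer ({z} : Set G)).subtype)
    (hext : Cfsg.IsExtraspecial 2 ↥E) (hcent : Subgroup.centralizer (E : Set G) ≤ E) (n : ℕ) (hn : 3 ≤ n) (hcard : Nat.card ↥E = 2 ^ (2 * n + 1))
    (K : Subgroup G) (hKH : K ≤ Subgroup.centralizer ({z} : Set G))
    (hKn : ∀ h ∈ Subgroup.centralizer ({z} : Set G), K.map (MulAut.conj h).toMonoidHom = K)
    (hKi : K.relIndex (Subgroup.centralizer ({z} : Set G)) = 2) :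
    ∃ g : G, g * z * g⁻¹ ∈ E ∧ g * z * g⁻¹ ≠ z := by
  classical
  obtain ⟨w, -, h⟩ := H20Tp.xs_of_hyp hz hE hext hcent
  obtain rfl := h.w_eq hcard
  by_contra k
  have hi : (K.subgroupOf (H13.Cz z)).index = 2 := hKi
  let ψ : H13.Cz z →* ℤˣ := MonoidHom.mk' (fun x => if x ∈ K.subgroupOf (H13.Cz z) then 1 else -1) fun a b => by
    simp only [Subgroup.mul_mem_iff_of_index_two hi]
    by_cases ha : a ∈ K.subgroupOf (H13.Cz z) <;> by_cases hb : b ∈ K.subgroupOf (H13.Cz z) <;> simp [ha, hb]
  have := H20Tp.core h hres Int.units_mul_self ψ (fun r h1 h2 => (k ⟨r, h2, h1⟩).elim) (.inl hn)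
  rw [(Subgroup.eq_top_iff' (K.subgroupOf (H13.Cz z))).2 fun u => by_contra fun n => by simpa [ψ, n] using this u,
    Subgroup.index_top] at hi
  omega

end Cfsg.Agent.S3300
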