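import Cfsg.Statements.S3301
import Cfsg.Agent.H20.Tp1
-- import your own Cfsg.Agent.* helpers here

set_option autoImplicit false
open Cfsg

namespace Cfsg.Agent.S3301

/-- Let G be a finite group with no nontrivial 2-group quotient (O^2(G) = G), z an involution of G with H = C_G(z), and suppose E = O_2(H) is extraspecial with C_G(E) ≤ E. Then the Sylow 2-subgroups of H/[H, H] are elementary abelian: every element of 2-power order of the abelianization of H has order at most 2. -/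
theorem result {G : Type*} [Group G] [Finite G] (hres : Cfsg.pResidual 2 G = ⊤) (z : G) (hz : orderOf z = 2)
    (E : Subgroup G) (hE : E = (Cfsg.pCore 2 ↥(Subgroup.centralizer ({z} : Set G))).map (Subgroup.centralizer ({z} : Set G)).subtype)
    (hext : Cfsg.IsExtraspecial 2 ↥E) (hcent : Subgroup.centralizer (E : Set G) ≤ E) :
    ∀ q : Abelianization ↥(Subgroup.centralizer ({z} : Set G)), (∃ k : ℕ, orderOf q = 2 ^ k) → q ^ 2 = 1 := by
  obtain ⟨w, -, h⟩ := H20Tp.xs_of_hyp hz hE hext hcent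
  let R := (powMonoidHom 4 : Abelianization (H13.Cz z) →* _).range
  let ψ : H13.Cz z →* Abelianization (H13.Cz z) ⧸ R :=
    (QuotientGroup.mk' R).comp ((powMonoidHom 2).comp Abelianization.of)
  let S := ψ.range
  have hA : ∀ a : S, a * a = 1 := by
    rintro ⟨_, x, rfl⟩
    exact Subtype.ext ((QuotientGroup.eq_one_iff _).2 ⟨Abelianization.of x, by simp [← pow_add]⟩)
  have h2 : ∀ x : H13.Cz z, Abelianization.of (x * x) = 1 → ψ.rangeRestrict x = 1 := fun x e =>
    Subtype.ext (by simp [ψ, pow_two, ← map_mul, e])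
  have key := H20Tp.core h hres hA ψ.rangeRestrict (fun r tz tE x hx hx' => h2 _ (by_contra fun n => by
    have x2 : x * x = z := (h.sq hx).resolve_left fun e => n (by
      rw [show (⟨_, hx'⟩ * ⟨_, hx'⟩ : H13.Cz z) = 1 from Subtype.ext (by
        simpa [e] using H20A3.conj_sq r⁻¹ x), map_one])
    have t2 : r * z * r⁻¹ * (r * z * r⁻¹) = 1 := by rw [H20A3.conj_sq, h.zz]; group
    rcases h.cc tE hx (fun y hy c => (h.com hy hx).resolve_right fun e => n (by
      have hy' : r⁻¹ * y * r ∈ H13.Cz z := H13.conj_mem_Cz.2 (H13.mem_Cz.2 c)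
      have : (⟨_, hy'⟩ * ⟨_, hx'⟩ : H13.Cz z) = ⟨_, hx'⟩ * ⟨_, hy'⟩ * (⟨_, hx'⟩ * ⟨_, hx'⟩) := Subtype.ext (by
        change r⁻¹ * y * r * (r⁻¹ * x * r) = r⁻¹ * x * r * (r⁻¹ * y * r) * (r⁻¹ * x * r * (r⁻¹ * x * r))
        rw [show r⁻¹ * y * r * (r⁻¹ * x * r) = r⁻¹ * (y * x) * r by group, e, ← x2]; group)
      have := congrArg Abelianization.of this
      rw [map_mul _ (_ * _), map_mul, map_mul _ (⟨_, hx'⟩ : H13.Cz z) ⟨_, hy'⟩, mul_comm] at this
      exact mul_eq_left.1 this.symm)) with e | e | e | e <;> rw [e] at x2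
    exacts [h.z_ne (by rw [← x2, one_mul]), h.z_ne (x2.symm.trans h.zz), h.z_ne (x2.symm.trans t2),
      h.z_ne (x2.symm.trans ((H20A3.pm.sq h.zz (h.cz tE) (.inr rfl)).trans t2))]))
    (.inr fun x e => h2 x (by rw [e, map_one]))
  have k1 : ∀ b : Abelianization (H13.Cz z), ∃ c, c ^ 4 = b ^ 2 := fun b => by
    obtain ⟨x, rfl⟩ := QuotientGroup.mk_surjective b
    exact (QuotientGroup.eq_one_iff _).1 (congrArg Subtype.val (key x))
  let Q := (powMonoidHom 2 : Abelianization (H13.Cz z) →* _).range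
  have k2 : Function.Injective fun x : Q => x ^ 2 := Finite.injective_iff_surjective.2 (by
    rintro ⟨_, b, rfl⟩
    obtain ⟨c, e⟩ := k1 b
    exact ⟨⟨_, c, rfl⟩, Subtype.ext (by simp [← pow_mul, e])⟩)
  have k3 : ∀ k, ∀ x : Q, x ^ 2 ^ k = 1 → x = 1 := fun k => by
    induction k with
    | zero => simp
    | succ k ih => exact fun x e => ih x (k2 (by simpa [← pow_mul, ← pow_succ] using e))
  rintro q ⟨k, e⟩
  exact congrArg Subtype.val (k3 k ⟨_, q, rfl⟩ (Subtype.ext (by
    change (q ^ 2) ^ 2 ^ k = 1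
    rw [← e, ← pow_mul, mul_comm, pow_mul, pow_orderOf_eq_one, one_pow])))

end Cfsg.Agent.S3301
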