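import Cfsg.Statements.S3304
import Cfsg.Agent.H3.G48

set_option autoImplicit false
open Cfsg

namespace Cfsg.Agent.S3304

/-- Let G be a finite solvable group in which the intersection of any two distinct Sylow 2-subgroups has 2-rank at most 1 (contains no Klein four-group). Write Q = G/O(G), O(G) the largest normal subgroup of odd order. Then Q has a normal Sylow 2-subgroup; or Q is isomorphic to GL(2,3); or Q has order 48, centre of order 2 with central quotient isomorphic to the symmetric group of degree 4, and generalized quaternion Sylow 2-subgroups of order 16 (the binary octahedral group). The last two are the two representation groups of the symmetric group of degree 4. -/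
theorem result {G : Type*} [Group G] [Finite G] (hs : Group.IsSolvable G)
    (hI : ∀ S T : Sylow 2 G, S ≠ T → Cfsg.PRankLE 2 1 ↥((S : Subgroup G) ⊓ (T : Subgroup G))) :
    (∃ P : Sylow 2 (G ⧸ Cfsg.oddCore G), (P : Subgroup (G ⧸ Cfsg.oddCore G)).Normal) ∨
    Nonempty ((G ⧸ Cfsg.oddCore G) ≃* GL (Fin 2) (ZMod 3)) ∨
    (Nat.card (G ⧸ Cfsg.oddCore G) = 48 ∧ Nat.card ↥(Subgroup.center (G ⧸ Cfsg.oddCore G)) = 2 ∧
      Nonempty ((G ⧸ Cfsg.oddCore G) ⧸ Subgroup.center (G ⧸ Cfsg.oddCore G) ≃* Equiv.Perm (Fin 4)) ∧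
      ∀ P : Sylow 2 (G ⧸ Cfsg.oddCore G), Nonempty (↥(P : Subgroup (G ⧸ Cfsg.oddCore G)) ≃* QuaternionGroup 4)) := by
  refine H3.solv_ui (X := G ⧸ pPrimeCore 2 G) (H1.pPrimeCore_quotient_pPrimeCore (G := G) 2)
    fun S' T' h => ?_
  obtain ⟨S, T, h1, D, h2, h3⟩ := H7.sylowInt_of_surjective (QuotientGroup.mk'_surjective _) h
  have h4 := S.isPGroup'.to_le (inf_le_left : (S : Subgroup G) ⊓ T ≤ S)
  have h5 : GW.Q8.UI (D.map (QuotientGroup.mk' (pPrimeCore 2 G))) :=
    ((GW.Q8.ui_of_prank h4 (hI S T h1)).mono h2).map _ (by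
      rw [QuotientGroup.ker_mk']
      exact disjoint_iff.1 (Subgroup.disjoint_of_coprime_natCard (H1.IsPGroup.coprime_card
        (h4.to_le h2) (H1.coprime_card_pPrimeCore 2))))
  rw [h3] at h5
  exact h5.mono (le_inf (H1.pCore_le_sylow S') (H1.pCore_le_sylow T'))

end Cfsg.Agent.S3304
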