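import Cfsg.Statements.S3305


set_option autoImplicit false
open Cfsg

namespace Cfsg.Agent.S3305

theorem aux {G : Type*} [Group G] [Finite G] (H : Subgroup G) [H.Normal] (S : Sylow 2 (G ⧸ H))
    (U : Subgroup G) (hU : IsPGroup 2 U) (hUS : U.map (QuotientGroup.mk' H) ≤ S) :
    ∃ P : Sylow 2 G, U ≤ P ∧ (P : Subgroup G).map (QuotientGroup.mk' H) = S := by
  haveI : Fact (Nat.Prime 2) := ⟨Nat.prime_two⟩
  obtain ⟨P, hP⟩ := hU.exists_le_sylow
  set f := QuotientGroup.mk' H
  have hf : Function.Surjective f := QuotientGroup.mk'_surjective H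
  set M : Subgroup G := (S : Subgroup (G ⧸ H)).comap f with hM
  have hUM : U ≤ M := Subgroup.map_le_iff_le_comap.mp hUS
  have hU' : IsPGroup 2 (U.subgroupOf M) := hU.comap_subtype
  obtain ⟨Q, hQ⟩ := hU'.exists_le_sylow
  have hidx : M.index = (S : Subgroup (G ⧸ H)).index := Subgroup.index_comap_of_surjective _ hf
  have hQp : IsPGroup 2 ((Q : Subgroup M).map M.subtype) := Q.isPGroup'.map _
  have hQi : ¬ 2 ∣ ((Q : Subgroup M).map M.subtype).index := by
    rw [Subgroup.index_map_subtype, hidx]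
    intro h
    rcases (Nat.prime_two.dvd_mul).mp h with h | h
    · exact Q.not_dvd_index h
    · exact S.not_dvd_index h
  let R : Sylow 2 G := hQp.toSylow hQi
  refine ⟨R, ?_, ?_⟩
  · intro u hu
    exact ⟨⟨u, hUM hu⟩, hQ hu, rfl⟩
  · have h1 : (R : Subgroup G).map f ≤ S := by
      rw [Subgroup.map_le_iff_le_comap]
      rintro _ ⟨x, _, rfl⟩
      exact x.2
    have h2 := (R.mapSurjective hf).is_maximal' S.isPGroup' (by simpa using h1)
    simpa using h2.symm

/-- If any two distinct Sylow 2-subgroups of the finite group G intersect in a cyclic group, then the same holds in every quotient group G/H, H a normal subgroup of G. -/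
theorem result {G : Type*} [Group G] [Finite G]
    (hC : ∀ S T : Sylow 2 G, S ≠ T → IsCyclic ↥((S : Subgroup G) ⊓ (T : Subgroup G))) (H : Subgroup G) [H.Normal] :
    ∀ S T : Sylow 2 (G ⧸ H), S ≠ T → IsCyclic ↥((S : Subgroup (G ⧸ H)) ⊓ (T : Subgroup (G ⧸ H))) := by
  intro S T hST
  haveI : Fact (Nat.Prime 2) := ⟨Nat.prime_two⟩
  set f := QuotientGroup.mk' H
  have hf : Function.Surjective f := QuotientGroup.mk'_surjective H
  set D : Subgroup G := ((S : Subgroup (G ⧸ H)) ⊓ T).comap f with hD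
  obtain ⟨Q⟩ : Nonempty (Sylow 2 D) := inferInstance
  set U : Subgroup G := (Q : Subgroup D).map D.subtype with hU
  have hUp : IsPGroup 2 U := Q.isPGroup'.map _
  have hUD : U ≤ D := Subgroup.map_subtype_le _
  have hUm : U.map f ≤ (S : Subgroup (G ⧸ H)) ⊓ T := Subgroup.map_le_iff_le_comap.mpr hUD
  obtain ⟨P, hUP, hP⟩ := aux H S U hUp (hUm.trans inf_le_left)
  obtain ⟨R, hUR, hR⟩ := aux H T U hUp (hUm.trans inf_le_right)
  have hPR : P ≠ R := by
    rintro rfl
    exact hST (Sylow.ext (hP.symm.trans hR))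
  have hc := hC P R hPR
  have hUc : IsCyclic U := Subgroup.isCyclic_of_le (le_inf hUP hUR : U ≤ (P : Subgroup G) ⊓ R)
  -- the image of U is S ⊓ T
  let g : D →* ↥((S : Subgroup (G ⧸ H)) ⊓ T) := (f.comp D.subtype).codRestrict _ (fun x => x.2)
  have hg : Function.Surjective g := by
    rintro ⟨y, hy⟩
    obtain ⟨x, rfl⟩ := hf y
    exact ⟨⟨x, hy⟩, rfl⟩
  have hp : IsPGroup 2 ↥((S : Subgroup (G ⧸ H)) ⊓ T) := S.isPGroup'.to_inf_left
  have htop : ((Q.mapSurjective hg : Sylow 2 _) : Subgroup ↥((S : Subgroup (G ⧸ H)) ⊓ T)) = ⊤ := by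
    have := (Q.mapSurjective hg).is_maximal' (Q := ⊤) (hp.to_subgroup ⊤) le_top
    exact this.symm
  have hQc : IsCyclic (Q : Subgroup D) := by
    have e : (Q : Subgroup D) ≃* U := Subgroup.equivMapOfInjective _ _ D.subtype_injective
    exact isCyclic_of_surjective e.symm.toMonoidHom e.symm.surjective
  refine isCyclic_of_surjective (g.comp (Q : Subgroup D).subtype) ?_
  intro y
  have hy : y ∈ ((Q.mapSurjective hg : Sylow 2 _) : Subgroup ↥((S : Subgroup (G ⧸ H)) ⊓ T)) := by
    rw [htop]; trivial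
  obtain ⟨x, hx, rfl⟩ := hy
  exact ⟨⟨x, hx⟩, rfl⟩

end Cfsg.Agent.S3305
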