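import Cfsg.Statements.S3306
import Cfsg.Agent.H7.CycInt

set_option autoImplicit false
open Cfsg

namespace Cfsg.Agent.S3306



/-- Let G be a finite nonsolvable group in which any two distinct Sylow 2-subgroups intersect in a cyclic group, and let N be a solvable normal subgroup of G. Then the image of N in G/O(G) is a cyclic 2-group contained in the centre of G/O(G) (O(G) the largest normal subgroup of odd order). In other words the solvable radical of G is V·O(G) with V a cyclic 2-group central modulo O(G). -/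
theorem result {G : Type*} [Group G] [Finite G] (hns : ¬ Group.IsSolvable G)
    (hC : ∀ S T : Sylow 2 G, S ≠ T → IsCyclic ↥((S : Subgroup G) ⊓ (T : Subgroup G)))
    (N : Subgroup G) [N.Normal] (hN : Group.IsSolvable ↥N) :
    IsCyclic ↥(N.map (QuotientGroup.mk' (Cfsg.oddCore G))) ∧ IsPGroup 2 ↥(N.map (QuotientGroup.mk' (Cfsg.oddCore G))) ∧
      N.map (QuotientGroup.mk' (Cfsg.oddCore G)) ≤ Subgroup.center (G ⧸ Cfsg.oddCore G) := by
  have hs := QuotientGroup.mk'_surjective (oddCore G)
  have h1 : H7.CI (G ⧸ oddCore G) := H7.CI.of_surjective hC hs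
  have h2 : ¬ Group.IsSolvable (G ⧸ oddCore G) := fun h => hns (H1.isSolvable_of_normal_quotient _
    (H1.ft_odd (Nat.coprime_two_right.1 (H1.coprime_card_pPrimeCore 2))) h)
  have hO := H1.pPrimeCore_quotient_pPrimeCore (G := G) 2
  have h3 := H7.isCyclic_pCore_of_CI h1 fun ⟨P, _⟩ => h2 (H7.isSolvable_of_normal_sylow_two P)
  have := (inferInstance : N.Normal).map _ hs
  have h4 := H7.isPGroup_of_solvable_of_cyclic hO h3 _ (H1.isSolvable_map hN (QuotientGroup.mk' _))
  exact ⟨Subgroup.isCyclic_of_le (H1.le_pCore h4), h4,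
    (H1.le_pCore h4).trans (H7.pCore_le_center_of_CI h1 hO h2)⟩

end Cfsg.Agent.S3306
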