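import Cfsg.Statements.S3309
import Cfsg.Agent.H6.TT2
import Cfsg.Agent.H6.Klein

set_option autoImplicit false
open Cfsg

namespace Cfsg.Agent.S3309

abbrev X := Multiplicative (ZMod 2) × DihedralGroup 4

def c : X := (Multiplicative.ofAdd 1, 1)
def z : X := (1, .r 2)

def sg : DihedralGroup 4 → Multiplicative (ZMod 2)
  | .r _ => 1
  | .sr _ => Multiplicative.ofAdd 1

def M1 : Subgroup X where
  carrier := {x | x.1 = 1}
  one_mem' := rfl
  mul_mem' := fun {a b} => by simp only [Set.mem_ofPred_eq]; revert a b; decide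
  inv_mem' := fun {a} => by simp only [Set.mem_ofPred_eq]; revert a; decide

def M2 : Subgroup X where
  carrier := {x | x.1 = sg x.2}
  one_mem' := rfl
  mul_mem' := fun {a b} => by simp only [Set.mem_ofPred_eq]; revert a b; decide
  inv_mem' := fun {a} => by simp only [Set.mem_ofPred_eq]; revert a; decide

instance (x : X) : Decidable (x ∈ M1) := inferInstanceAs (Decidable (x.1 = 1))
instance (x : X) : Decidable (x ∈ M2) := inferInstanceAs (Decidable (x.1 = sg x.2))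

theorem f1 : ∀ a b : X, a * b * a⁻¹ * b⁻¹ ∈ M1 ∧ a * b * a⁻¹ * b⁻¹ ∈ M2 := by decide
theorem f2 : ∀ s y : X, (y ∉ M1 → s ∈ M1 ∨ s⁻¹ * y ∈ M1) ∧ (y ∉ M2 → s ∈ M2 ∨ s⁻¹ * y ∈ M2) := by
  decide
theorem f3 : ∀ s : X, s * s = 1 ∨ s * s = z := by decide
theorem f4 : ∀ s : X, s * c = c * s ∧ s * z = z * s := by decide
set_option synthInstance.maxSize 2000 in
set_option maxRecDepth 100000 in
theorem f5 : ∀ u v w : X, u * u = 1 → v * v = 1 → w * w = 1 → u ≠ 1 → v ≠ 1 → w ≠ 1 → u ≠ z →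
    v ≠ z → w ≠ z → ((u ∈ M1 ∧ v ∈ M1 ∧ w ∈ M1) ∨ (u ∈ M2 ∧ v ∈ M2 ∧ w ∈ M2)) →
    (u = v ∨ u = v * z) ∨ (w = u ∨ w = u * z) ∨ (w = v ∨ w = v * z) := by decide
theorem f6 : ∀ u : X, u * u = 1 → u ∈ M1 ∨ u ∈ M2 ∨ u = c ∨ u = c * z := by decide
theorem f7 : ∀ u : X, u * u = 1 → u ≠ 1 → u ≠ z → (u ∈ M1 ∨ u ∈ M2) →
    ∃ s : X, s * u * s⁻¹ = u * z := by decide

/-- A finite group whose Sylow 2-subgroups are isomorphic to the direct product of a group of order 2 and the dihedral group of order 8 is not a non-abelian simple group. -/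
theorem result {G : Type*} [Group G] [Finite G] (S : Sylow 2 G) (hS : Nonempty (↥(S : Subgroup G) ≃* Multiplicative (ZMod 2) × DihedralGroup 4))
    [IsSimpleGroup G] (hG : ¬ IsMulCommutative G) : False := by
  open Subgroup in
  obtain ⟨e⟩ := hS
  let f : X →* G := (S : Subgroup G).subtype.comp e.symm.toMonoidHom
  have hf : Function.Injective f := (S : Subgroup G).subtype_injective.comp e.symm.injective
  have hm : ∀ x, f x ∈ (S : Subgroup G) := fun x => (e.symm x).2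
  have hs : ∀ s ∈ (S : Subgroup G), ∃ x, f x = s := fun s hs => ⟨e ⟨s, hs⟩, by simp [f]⟩
  have hcen : ∀ x : X, (∀ s : X, s * x = x * s) → ∀ s ∈ (S : Subgroup G), Commute s (f x) := by
    intro x hx s hs'
    obtain ⟨y, rfl⟩ := hs s hs'
    show _ * _ = _ * _
    rw [← map_mul, hx, map_mul]
  have cz := hcen z fun s => (f4 s).2
  have cc := hcen c fun s => (f4 s).1
  have ccz : ∀ s ∈ (S : Subgroup G), Commute s (f (c * z)) := fun s h => by
    rw [map_mul]; exact (cc s h).mul_right (cz s h)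
  have hz1 : f z ≠ 1 := fun h => absurd (hf (h.trans f.map_one.symm)) (by decide)
  have hnz : ∀ n ∈ normalizer ((S : Subgroup G) : Set G), n * f z * n⁻¹ = f z := fun n hn => by
    obtain ⟨y, hy⟩ := hs _ ((mem_normalizer_iff.1 hn _).1 (hm (1, .r 1)))
    have h1 : n * f z * n⁻¹ = f (y * y) := by
      rw [map_mul, hy, show z = (1, .r 1) * (1, .r 1) by decide, map_mul]; group
    rcases f3 y with h | h
    · rw [h, map_one] at h1
      exact (hz1 (by simpa using h1)).elim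
    · rw [h1, h]
  have n1 : ¬ IsConj (f z) (f c) := fun h => by
    obtain ⟨n, hn, h⟩ := H6.burnside_fusion_comm S cz cc h
    exact absurd (hf ((hnz n hn).symm.trans h)) (by decide)
  have n2 : ¬ IsConj (f z) (f (c * z)) := fun h => by
    obtain ⟨n, hn, h⟩ := H6.burnside_fusion_comm S cz ccz h
    exact absurd (hf ((hnz n hn).symm.trans h)) (by decide)
  have n3 : ¬ IsConj (f c) (f (c * z)) := fun h => by
    obtain ⟨n, hn, h⟩ := H6.burnside_fusion_comm S cc ccz h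
    have h2 : n * f (c * z) * n⁻¹ = f c := by
      have : n * f (c * z) * n⁻¹ = (n * f c * n⁻¹) * (n * f z * n⁻¹) := by rw [map_mul]; group
      rw [this, h, hnz n hn, ← map_mul]; congr 1
    obtain ⟨m, hm1, hm2⟩ := H6.exists_odd_pow_mem_sylow S hn
    have h3 := H6.conj_odd_pow_of_sq (H6.commute_sq_of_swap h h2) hm1
    rw [h, H6.conj_eq_iff_commute.2 (cc _ hm2)] at h3
    exact absurd (hf h3) (by decide)
  have tt : ∀ (M : Subgroup X) (y : X), (∀ a b : X, a * b * a⁻¹ * b⁻¹ ∈ M) → y * y = 1 → y ≠ 1 → y ∉ M →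
      (∀ s : X, s ∈ M ∨ s⁻¹ * y ∈ M) → ∃ u ∈ M, u * u = 1 ∧ u ≠ 1 ∧ IsConj (f y) (f u) := by
    intro M y h1 h2 h2' h3 h4
    obtain ⟨g, -, ⟨u, hu, e⟩, -⟩ := H6.tt_quot (H6.simple_no_index_two hG) S (R := M.map f)
      (fun a ha b hb => by
        obtain ⟨a, rfl⟩ := hs a ha
        obtain ⟨b, rfl⟩ := hs b hb
        exact ⟨_, h1 a b, by simp⟩) (hm y) (by rw [← map_mul, h2, map_one])
      (fun ⟨u, hu, e⟩ => h3 (hf e ▸ hu)) (fun s hs' _ => by
        obtain ⟨s, rfl⟩ := hs s hs'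
        exact (h4 s).imp (fun h => ⟨_, h, rfl⟩) fun h => ⟨_, h, by simp⟩)
      (Q := ⊥) IsPGroup.of_bot bot_le
    refine ⟨u, hu, hf ?_, ?_, isConj_iff.2 ⟨g, e.symm⟩⟩
    · rw [map_mul, e, map_one]
      calc _ = g * (f y * f y) * g⁻¹ := by group
        _ = 1 := by rw [← map_mul, h2, map_one]; group
    · rintro rfl
      rw [map_one] at e
      exact h2' (hf (by simpa using e.symm))
  have sc : ∀ u v : X, u * u = 1 → u ≠ 1 → u ≠ z → (u ∈ M1 ∨ u ∈ M2) → (v = u ∨ v = u * z) →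
      IsConj (f u) (f v) := by
    rintro u v h1 h2 h3 h4 (rfl | rfl)
    · exact IsConj.refl _
    · obtain ⟨s, hs⟩ := f7 u h1 h2 h3 h4
      exact isConj_iff.2 ⟨f s, by rw [← hs]; simp⟩
  refine H6.simple_not_wc hG S hz1 ⟨hm z, fun g hg => ?_⟩
  obtain ⟨w, hw⟩ := hs _ hg
  have hzw : IsConj (f z) (f w) := isConj_iff.2 ⟨g, hw.symm⟩
  by_contra hne
  have w1 : w ≠ z := by rintro rfl; exact hne hw.symm
  have w2 : w * w = 1 := hf (by
    rw [map_mul, hw, map_one]
    calc _ = g * (f z * f z) * g⁻¹ := by group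
      _ = 1 := by rw [← map_mul, show z * z = 1 by decide, map_one]; group)
  have w3 : w ≠ 1 := by
    rintro rfl
    rw [map_one] at hw
    exact hz1 (by simpa using hw.symm)
  have fin : ∀ u v : X, u * u = 1 → v * v = 1 → u ≠ 1 → v ≠ 1 → IsConj (f c) (f u) →
      IsConj (f (c * z)) (f v) → ((u ∈ M1 ∧ v ∈ M1 ∧ w ∈ M1) ∨ (u ∈ M2 ∧ v ∈ M2 ∧ w ∈ M2)) → False := by
    intro u v u2 v2 u1 v1 hu hv h
    have uz : u ≠ z := by rintro rfl; exact n1 hu.symm
    have vz : v ≠ z := by rintro rfl; exact n2 hv.symm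
    have hu' : u ∈ M1 ∨ u ∈ M2 := h.imp (·.1) (·.1)
    have hv' : v ∈ M1 ∨ v ∈ M2 := h.imp (·.2.1) (·.2.1)
    rcases f5 u v w u2 v2 w2 u1 v1 w3 uz vz w1 h with h | h | h
    · exact n3 (hu.trans ((sc v u v2 v1 vz hv' h).symm.trans hv.symm))
    · exact n1 (hzw.trans ((sc u w u2 u1 uz hu' h).symm.trans hu.symm))
    · exact n2 (hzw.trans ((sc v w v2 v1 vz hv' h).symm.trans hv.symm))
  rcases f6 w w2 with h | h | rfl | rfl
  · obtain ⟨u, h1, h2, h3, h4⟩ := tt M1 c (fun a b => (f1 a b).1) (by decide) (by decide) (by decide)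
      fun s => (f2 s c).1 (by decide)
    obtain ⟨v, k1, k2, k3, k4⟩ := tt M1 (c * z) (fun a b => (f1 a b).1) (by decide) (by decide)
      (by decide) fun s => (f2 s _).1 (by decide)
    exact fin u v h2 k2 h3 k3 h4 k4 (Or.inl ⟨h1, k1, h⟩)
  · obtain ⟨u, h1, h2, h3, h4⟩ := tt M2 c (fun a b => (f1 a b).2) (by decide) (by decide) (by decide)
      fun s => (f2 s c).2 (by decide)
    obtain ⟨v, k1, k2, k3, k4⟩ := tt M2 (c * z) (fun a b => (f1 a b).2) (by decide) (by decide)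
      (by decide) fun s => (f2 s _).2 (by decide)
    exact fin u v h2 k2 h3 k3 h4 k4 (Or.inr ⟨h1, k1, h⟩)
  · exact n1 hzw
  · exact n2 hzw

end Cfsg.Agent.S3309
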