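import Cfsg.Statements.S3335
import Cfsg.Agent.H7.AltPres

set_option autoImplicit false
open Cfsg

namespace Cfsg.Agent.S3335

/-- A presentation of the alternating group of degree n ≥ 3 on generators x_1, …, x_{n−2} (indexed here by 0, …, n−3): the first generator cubes to 1, every other generator squares to 1, the product of two consecutive generators has order dividing 3, and the product of two generators at distance at least 2 has order dividing 2. The group so presented is isomorphic to the alternating group of degree n. -/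
theorem result (n : ℕ) (hn : 3 ≤ n) :
    Nonempty (PresentedGroup
      ({g : FreeGroup (Fin (n - 2)) | ∃ i : Fin (n - 2), i.val = 0 ∧ g = FreeGroup.of i ^ 3} ∪
       {g | ∃ i : Fin (n - 2), 1 ≤ i.val ∧ g = FreeGroup.of i ^ 2} ∪
       {g | ∃ i j : Fin (n - 2), j.val = i.val + 1 ∧ g = (FreeGroup.of i * FreeGroup.of j) ^ 3} ∪
       {g | ∃ i j : Fin (n - 2), i.val + 1 < j.val ∧ g = (FreeGroup.of i * FreeGroup.of j) ^ 2})
      ≃* alternatingGroup (Fin n)) := by
  open Subgroup Equiv H18 in
  obtain ⟨k, rfl⟩ : ∃ k, n = k + 3 := ⟨n - 3, by omega⟩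
  change Nonempty (PresentedGroup
      ({g : FreeGroup (Fin (k + 1)) | ∃ i : Fin (k + 1), i.val = 0 ∧ g = FreeGroup.of i ^ 3} ∪
       {g | ∃ i : Fin (k + 1), 1 ≤ i.val ∧ g = FreeGroup.of i ^ 2} ∪
       {g | ∃ i j : Fin (k + 1), j.val = i.val + 1 ∧ g = (FreeGroup.of i * FreeGroup.of j) ^ 3} ∪
       {g | ∃ i j : Fin (k + 1), i.val + 1 < j.val ∧ g = (FreeGroup.of i * FreeGroup.of j) ^ 2})
      ≃* alternatingGroup (Fin (k + 2 + 1)))
  set rels : Set (FreeGroup (Fin (k + 1))) := _ ∪ _ ∪ _ ∪ _ with hrels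
  have hsw : ∀ i : Fin (k + 2), (adjSw i).IsSwap := fun i => ⟨_, _, Fin.castSucc_lt_succ.ne, rfl⟩
  have h2 : ∀ i : Fin (k + 2), adjSw i * adjSw i = 1 := fun i => swap_mul_self _ _
  have hi : ∀ i : Fin (k + 2), (adjSw i)⁻¹ = adjSw i := fun i => swap_inv _ _
  have hc : ∀ i j : Fin (k + 2), i.val + 1 < j.val → adjSw i * adjSw j = adjSw j * adjSw i := by
    intro i j h
    refine (Perm.Disjoint.commute fun x => ?_).eq
    by_cases h1 : x = i.castSucc ∨ x = i.succ
    · right
      refine swap_apply_of_ne_of_ne ?_ ?_ <;> rcases h1 with rfl | rfl <;>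
        simp only [ne_eq, Fin.ext_iff, Fin.val_castSucc, Fin.val_succ] <;> omega
    · push Not at h1
      exact Or.inl (swap_apply_of_ne_of_ne h1.1 h1.2)
  have h3 : ∀ i j : Fin (k + 2), i.val + 1 = j.val → (adjSw i * adjSw j) ^ 3 = 1 := by
    intro i j h
    have e : j.castSucc = i.succ := Fin.ext (by simp [h])
    have : (adjSw i * adjSw j).IsThreeCycle := by
      rw [adjSw, adjSw, e, swap_comm]
      refine Perm.isThreeCycle_swap_mul_swap_same ?_ ?_ ?_ <;>
        simp only [ne_eq, Fin.ext_iff, Fin.val_castSucc, Fin.val_succ] <;> omega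
    rw [← this.orderOf, pow_orderOf_eq_one]
  let x : Fin (k + 1) → alternatingGroup (Fin (k + 2 + 1)) := fun i =>
    ⟨adjSw 0 * adjSw i.succ, Perm.mul_mem_alternatingGroup_of_isSwap (hsw _) (hsw _)⟩
  have hb : adjSw (0 : Fin (k + 2)) * adjSw (Fin.succ 0) * adjSw 0 =
      adjSw (Fin.succ 0) * adjSw 0 * adjSw (Fin.succ 0) := by
    have := h3 0 (Fin.succ 0) (by simp)
    rw [← mul_inv_eq_one, mul_inv_rev, mul_inv_rev, hi, hi, ← this]
    simp [pow_succ, mul_assoc]
  let φ : PresentedGroup rels →* alternatingGroup (Fin (k + 2 + 1)) :=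
    PresentedGroup.toGroup (f := x) (by
      rintro r (((⟨i, hi0, rfl⟩ | ⟨i, hi0, rfl⟩) | ⟨i, j, hij, rfl⟩) | ⟨i, j, hij, rfl⟩) <;>
        simp only [map_pow, map_mul, FreeGroup.lift_apply_of] <;> apply Subtype.ext <;>
        simp only [x, SubmonoidClass.coe_pow, Subgroup.coe_mul, OneMemClass.coe_one]
      · exact h3 _ _ (by simp [hi0])
      · rw [pow_two]
        nth_rewrite 1 [hc 0 i.succ (by simp only [Fin.val_succ, Fin.val_zero] at *; omega)]
        rw [mul_assoc, ← mul_assoc (adjSw 0), h2, one_mul, h2]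
      · rcases Nat.eq_zero_or_pos i.val with h0 | h0
        · obtain rfl : i = 0 := Fin.ext h0
          rw [← mul_assoc, mul_assoc _ (adjSw 0), hc 0 j.succ (by simp only [Fin.val_succ, Fin.val_zero] at *; omega), mul_assoc,
            ← mul_assoc (adjSw (Fin.succ 0)), ← mul_assoc]
          nth_rewrite 2 [← hi 0]
          rw [conj_pow, h3 _ _ (by simp [hij])]
          simp
        · rw [hc 0 i.succ (by simp only [Fin.val_succ, Fin.val_zero] at *; omega), mul_assoc, ← mul_assoc (adjSw 0), h2, one_mul]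
          exact h3 _ _ (by simp [hij])
      · rw [← mul_assoc, mul_assoc _ (adjSw 0), hc 0 j.succ (by simp only [Fin.val_succ, Fin.val_zero] at *; omega), mul_assoc,
          ← mul_assoc (adjSw i.succ), ← mul_assoc]
        nth_rewrite 2 [← hi 0]
        rw [conj_pow, pow_two]
        nth_rewrite 1 [hc i.succ j.succ (by simp only [Fin.val_succ, Fin.val_zero] at *; omega)]
        rw [mul_assoc (adjSw j.succ), ← mul_assoc (adjSw i.succ), h2, one_mul, h2]
        simp)
  have hφ : ∀ i, φ (PresentedGroup.of i) = x i := fun i => PresentedGroup.toGroup.of _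
  have hr : ∀ r ∈ rels, PresentedGroup.mk rels r = 1 := fun r hr => PresentedGroup.one_of_mem hr
  let y : Fin (k + 1) → PresentedGroup rels := PresentedGroup.of
  have r1 : y 0 ^ 3 = 1 := hr _ (Or.inl (Or.inl (Or.inl ⟨0, rfl, rfl⟩)))
  have r2 : ∀ i : Fin (k + 1), 1 ≤ i.val → y i ^ 2 = 1 := fun i h =>
    hr _ (Or.inl (Or.inl (Or.inr ⟨i, h, rfl⟩)))
  have r3 : ∀ i j : Fin (k + 1), j.val = i.val + 1 → (y i * y j) ^ 3 = 1 := fun i j h =>
    hr _ (Or.inl (Or.inr ⟨i, j, h, rfl⟩))
  have r4 : ∀ i j : Fin (k + 1), i.val + 1 < j.val → (y i * y j) ^ 2 = 1 := fun i j h =>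
    hr _ (Or.inr ⟨i, j, h, rfl⟩)
  have flip : ∀ (i j : Fin (k + 1)) (m : ℕ), 1 ≤ j.val → (y i * y j) ^ m = 1 →
      ((y i)⁻¹ * y j) ^ m = 1 := by
    intro i j m hj h
    have e : (y j)⁻¹ = y j := inv_eq_of_mul_eq_one_right (by rw [← pow_two, r2 j hj])
    have : (y i)⁻¹ * y j = y j * (y i * y j)⁻¹ * (y j)⁻¹ := by
      rw [mul_inv_rev, ← mul_assoc, mul_inv_cancel, one_mul, e]
    rw [this, conj_pow, inv_pow, h]
    simp
  obtain ⟨ψ, hψ⟩ := H7.exists_hom_alt (n := k + 2) (Fin.cons 1 y : Fin (k + 2) → _)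
    (fun i j h => by
      induction j using Fin.cases with
      | zero => simp at h
      | succ j =>
        induction i using Fin.cases with
        | zero =>
          obtain rfl : j = 0 := Fin.ext (by simpa using h.symm)
          simpa using r1
        | succ i =>
          simp only [Fin.val_succ] at h
          simpa using flip i j 3 (by omega) (r3 i j (by omega)))
    (fun i j h => by
      induction j using Fin.cases with
      | zero => simp at h
      | succ j =>
        induction i using Fin.cases with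
        | zero => simpa using r2 j (by simp at h; omega)
        | succ i =>
          simp only [Fin.val_succ] at h
          simpa using flip i j 2 (by omega) (r4 i j (by omega)))
  have hinj : Function.Injective φ := by
    have : ψ.comp φ = MonoidHom.id _ := PresentedGroup.ext fun i => by
      rw [MonoidHom.comp_apply, hφ, hψ 0 i.succ _ rfl]
      simp [y]
    exact Function.LeftInverse.injective (g := ψ) fun g => DFunLike.congr_fun this g
  let R := φ.range.map (alternatingGroup (Fin (k + 2 + 1))).subtype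
  have hR : ∀ i, adjSw 0 * adjSw i ∈ R := fun i => by
    induction i using Fin.cases with
    | zero => rw [h2]; exact one_mem _
    | succ i => exact ⟨x i, ⟨_, hφ i⟩, rfl⟩
  have hall : ∀ w : Perm (Fin (k + 2 + 1)), (Perm.sign w = 1 → w ∈ R) ∧
      (Perm.sign w = -1 → adjSw 0 * w ∈ R) := by
    intro w
    have h : w ∈ Submonoid.closure (Set.range fun i : Fin (k + 2) => swap i.castSucc i.succ) := by
      rw [Perm.mclosure_swap_castSucc_succ]; trivial
    induction h using Submonoid.closure_induction_left with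
    | one => exact ⟨fun _ => one_mem _, fun h => by simp at h⟩
    | mul_left s hs w _ ih =>
      obtain ⟨i, rfl⟩ := hs
      change (Perm.sign (adjSw i * w) = 1 → adjSw i * w ∈ R) ∧
        (Perm.sign (adjSw i * w) = -1 → adjSw 0 * (adjSw i * w) ∈ R)
      rw [map_mul, (hsw i).sign_eq]
      constructor
      · intro h
        have := mul_mem (inv_mem (hR i)) (ih.2 (by rw [← h]; simp))
        rwa [mul_inv_rev, hi, hi, mul_assoc, ← mul_assoc (adjSw 0), h2, one_mul] at this
      · intro h
        rw [← mul_assoc]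
        exact mul_mem (hR i) (ih.1 (by simpa using h))
  refine ⟨MulEquiv.ofBijective φ ⟨hinj, fun w => ?_⟩⟩
  obtain ⟨_, ⟨g, rfl⟩, e⟩ := (hall w).1 (Perm.mem_alternatingGroup.1 w.2)
  exact ⟨g, Subtype.ext e⟩

end Cfsg.Agent.S3335
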