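import Cfsg.Statements.S3349


set_option autoImplicit false
open Cfsg

namespace Cfsg.Agent.S3349

open Subgroup

/-- Let Q be a finite extraspecial p-group and α an automorphism of Q fixing every element of some maximal abelian subgroup of Q. Then the order of α is a power of p. -/
theorem result {Q : Type*} [Group Q] [Finite Q]
    (p : ℕ) [Fact p.Prime] (hQ : Cfsg.IsExtraspecial p Q) (α : MulAut Q)
    (A : Subgroup Q) (hA : IsMulCommutative A) (hmax : ∀ B : Subgroup Q, A ≤ B → IsMulCommutative B → B = A)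
    (hfix : ∀ a ∈ A, α a = a) :
    ∃ k : ℕ, orderOf α = p ^ k := by
  obtain ⟨⟨hp, h1, h2⟩, -⟩ := hQ
  have hC : ∀ c : Q, (∀ a ∈ A, c * a = a * c) → c ∈ A := by
    intro c hc
    have hB : IsMulCommutative (closure (insert c (A : Set Q))) := isMulCommutative_closure (by
      rintro x (rfl | hx) y (rfl | hy)
      · rfl
      · exact hc y hy
      · exact (hc x hx).symm
      · exact congrArg Subtype.val (hA.is_comm.comm ⟨x, hx⟩ ⟨y, hy⟩))
    rw [← hmax _ (fun a ha => subset_closure (Set.mem_insert_of_mem _ ha)) hB]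
    exact subset_closure (Set.mem_insert _ _)
  have hconj : ∀ x : Q, ∀ a ∈ A, x * a * x⁻¹ ∈ A := by
    intro x a ha
    have h3 : x * a * x⁻¹ * a⁻¹ ∈ center Q := by
      rw [← h2]
      exact commutator_mem_commutator (mem_top x) (mem_top a)
    have h4 := hC _ (fun b _ => (mem_center_iff.1 h3 b).symm)
    simpa using A.mul_mem h4 ha
  have key : ∀ x : Q, x⁻¹ * α x ∈ A := by
    intro x
    apply hC
    intro a ha
    have := hfix _ (hconj x a ha)
    rw [map_mul, map_mul, map_inv, hfix a ha] at this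
    calc x⁻¹ * α x * a = x⁻¹ * (α x * a * (α x)⁻¹) * α x := by group
      _ = _ := by rw [this]; group
  have key2 : ∀ (x : Q) (n : ℕ), (α ^ n) x = x * (x⁻¹ * α x) ^ n := by
    intro x n
    induction n with
    | zero => simp
    | succ n ih =>
      rw [pow_succ', MulAut.mul_apply, ih, map_mul, hfix _ (A.pow_mem (key x) n), pow_succ',
        ← mul_assoc, mul_inv_cancel_left]
  obtain ⟨m, hm⟩ := IsPGroup.iff_card.1 hp
  have h5 : α ^ p ^ m = 1 := by
    ext x
    rw [key2, ← hm, pow_card_eq_one', mul_one, MulAut.one_apply]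
  obtain ⟨k, -, hk⟩ := (Nat.dvd_prime_pow Fact.out).1 (orderOf_dvd_of_pow_eq_one h5)
  exact ⟨k, hk⟩

end Cfsg.Agent.S3349
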