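import Cfsg.Statements.S3366
import Cfsg.Agent.H22.Hs3
import Cfsg.Agent.H1.Cores
import Cfsg.Agent.S0245
import Cfsg.Agent.S0246

set_option autoImplicit false
open Cfsg

namespace Cfsg.Agent.S3366

open Subgroup Matrix H22.Hs3
open scoped commutatorElement MatrixGroups

theorem d1 : ∀ u : SL(2, Z3), u * u = 1 → u = 1 ∨ u = -1 := by decide +kernel
theorem d2 : ∃ i : SL(2, Z3), i * i = -1 := by decide +kernel
theorem d3 : ∀ M : Matrix (Fin 2) (Fin 2) Z3, M * M * (M * M) = 1 → M * M = 1 ∨ M * M = -1 := by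
  decide +kernel
theorem d4 : ∀ u : SL(2, Z3), ∃ v w : SL(2, Z3), v * v * v = 1 ∧ w * w * w = 1 ∧
    (u = v * w ∨ u = (v * w) * (v * w)) := by
  decide +kernel
theorem d5 : ∀ u : SL(2, Z3), u ≠ 1 → ∃ v : SL(2, Z3), -1 = u ∨ -1 = u * u ∨ -1 = u * u * u ∨
    -1 = u * (v * u⁻¹ * v⁻¹) * (u * (v * u⁻¹ * v⁻¹)) := by decide +kernel
theorem d6 : ∀ d : Z3, d * d * d = 1 → d = 1 := by decide
theorem d7 : ∀ h : Hs, mat (MulAut.conj h) = 1 := by decide +kernel
theorem d8 : ∀ s : Z3, s + s = 0 → s = 0 := by decide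
theorem d9 : ∀ h : Hs, h.x = 0 → h.y = 0 → h = c0 ^ h.s.val := by decide
theorem d10 : ∀ (M : Matrix (Fin 2) (Fin 2) Z3) (h w : Hs), ¬ (w.x = 0 ∧ w.y = 0) →
    h * lin M w * h⁻¹ = w → lin M h = h := by decide +kernel
theorem d12 : !![a0⁻¹.x, b0⁻¹.x; a0⁻¹.y, b0⁻¹.y] = (-1 : Matrix (Fin 2) (Fin 2) Z3) := by decide
theorem d11 : (-1 : Matrix (Fin 2) (Fin 2) Z3) ≠ 1 := by decide

section
variable {X : Type*} [Group X] [Finite X] {π : X →* SL(2, Z3)} (hs : Function.Surjective π)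
  (h27 : Nat.card π.ker = 27) (h3 : ∀ r ∈ π.ker, r ^ 3 = 1)
  (hcl : ∀ a ∈ π.ker, ∀ b ∈ π.ker, ∀ c ∈ π.ker, Commute ⁅a, b⁆ c)

include h27 h3 hcl in
theorem coords {a b : X} (ha : a ∈ π.ker) (hb : b ∈ π.ker) (hab : ⁅a, b⁆ ≠ 1) :
    ∃ η : Hs →* X, Function.Injective η ∧ η.range = π.ker ∧ η a0 = a ∧ η b0 = b := by
  have hc : ⁅a, b⁆ ∈ π.ker := by
    rw [commutatorElement_def]; exact mul_mem (mul_mem (mul_mem ha hb) (inv_mem ha)) (inv_mem hb)
  obtain ⟨η, e1, e2⟩ := exists_eta (h3 a ha) (h3 b hb) (h3 _ hc) (hcl a ha b hb a ha) (hcl a ha b hb b hb)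
  have hi := eta_inj (η := η) (by rwa [e1, e2])
  refine ⟨η, hi, eq_of_le_of_card_ge ?_ ?_, e1, e2⟩
  · rintro _ ⟨h, rfl⟩
    rw [nf h, map_mul, map_mul, map_pow, map_pow, map_pow, map_commutatorElement, e1, e2]
    exact mul_mem (mul_mem (pow_mem ha _) (pow_mem hb _)) (pow_mem hc _)
  · rw [h27, ← Nat.card_congr (MonoidHom.ofInjective hi).toEquiv, Hs.card]

include hs in
theorem action {η : Hs →* X} (hi : Function.Injective η) (hr : η.range = π.ker) :
    ∃ α : X →* MulAut Hs, (∀ g h, η (α g h) = g * η h * g⁻¹) ∧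
      (∀ g k, π g = π k → mat (α g) = mat (α k)) ∧ ∀ g, (mat (α g)).det = 1 := by
  have : η.range.Normal := hr ▸ inferInstance
  let e := MonoidHom.ofInjective hi
  let α : X →* MulAut Hs := (MulAut.congr e.symm).toMonoidHom.comp MulAut.conjNormal
  have h1 : ∀ g h, η (α g h) = g * η h * g⁻¹ := fun g h => by
    change ((e (e.symm (MulAut.conjNormal g (e h))) : η.range) : X) = _
    rw [e.apply_symm_apply]; rfl
  have h2 : ∀ g, π g = 1 → mat (α g) = 1 := fun g hg => by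
    obtain ⟨h, rfl⟩ : g ∈ η.range := hr ▸ hg
    have : α (η h) = MulAut.conj h := MulEquiv.ext fun k => hi (by simp [h1])
    rw [this, d7]
  have h4 : ∀ g k, π g = π k → mat (α g) = mat (α k) := fun g k e => by
    have := h2 (k⁻¹ * g) (by simp [e])
    rw [← mul_inv_cancel_left k g, map_mul, map_mul, this, mul_one]
  refine ⟨α, h1, h4, fun g => ?_⟩
  obtain ⟨v, w, hv, hw, e⟩ := d4 (π g)
  obtain ⟨v, rfl⟩ := hs v
  obtain ⟨w, rfl⟩ := hs w
  have f : ∀ v, π v * π v * π v = 1 → (mat (α v)).det = 1 := fun v hv => d6 _ (by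
    rw [← det_mul, ← det_mul, ← map_mul, ← map_mul, ← map_mul, ← map_mul, h2 _ (by simpa using hv),
      det_one])
  have f2 : (mat (α (v * w))).det = 1 := by rw [map_mul, map_mul, det_mul, f v hv, f w hw, one_mul]
  rcases e with e | e
  · rw [h4 g (v * w) (by rw [e, map_mul]), f2]
  · rw [h4 g (v * w * (v * w)) (by rw [e, ← map_mul, ← map_mul]), map_mul, map_mul, det_mul, f2, one_mul]

include hs h27 h3 hcl in
theorem good (hna : ∃ a ∈ π.ker, ∃ b ∈ π.ker, ⁅a, b⁆ ≠ 1) (hO : Cfsg.pCore 2 X = ⊥) :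
    ∃ (z : X) (η : Hs →* X), z * z = 1 ∧ π z = -1 ∧ Function.Injective η ∧ η.range = π.ker ∧
      z * η a0 * z⁻¹ = (η a0)⁻¹ ∧ z * η b0 * z⁻¹ = (η b0)⁻¹ := by
  have := Fact.mk Nat.prime_two
  have hX : Nat.card X = 27 * 24 := by
    rw [← π.ker.card_mul_index, index_ker, MonoidHom.range_eq_top.2 hs, h27, card_top, card_SL]
  obtain ⟨z, hz⟩ := exists_prime_orderOf_dvd_card' (G := X) 2 (by rw [hX]; norm_num)
  have z2 : z * z = 1 := by rw [← pow_two, ← hz, pow_orderOf_eq_one]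
  have z1 : z ≠ 1 := fun e => by rw [e, orderOf_one] at hz; omega
  have hπ : π z = -1 := (d1 _ (by rw [← map_mul, z2, map_one])).resolve_left fun e => z1 (by
    have := h3 z e
    rwa [pow_succ, pow_two, z2, one_mul] at this)
  obtain ⟨a, ha, b, hb, hab⟩ := hna
  obtain ⟨η, hi, hr, -, -⟩ := coords h27 h3 hcl ha hb hab
  obtain ⟨α, a1, a2, a3⟩ := action hs hi hr
  obtain ⟨i, hi2⟩ := d2
  obtain ⟨i, rfl⟩ := hs i
  have e1 : mat (α z) = mat (α i) * mat (α i) := by
    rw [← map_mul, ← map_mul]; exact a2 _ _ (by rw [map_mul, hi2, hπ])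
  have e2 : ∀ h, α z (α z h) = h := fun h => by
    rw [← MulAut.mul_apply, ← map_mul, z2, map_one]; rfl
  rcases d3 (mat (α i)) (by rw [← e1, ← map_mul, ← map_mul, z2, map_one, map_one]) with e | e
  · exfalso
    rw [← e1] at e
    have f : ∀ h, α z h = ⟨h.x, h.y, h.s + (α z a0).s * h.x + (α z b0).s * h.y⟩ := fun h => by
      rw [aut_apply, e]; simp
    have f1 : (α z a0).s = 0 := d8 _ (by
      have := congrArg Hs.s (e2 a0)
      rw [f, f a0] at this
      simpa [a0] using this)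
    have f2 : (α z b0).s = 0 := d8 _ (by
      have := congrArg Hs.s (e2 b0)
      rw [f, f b0] at this
      simpa [b0] using this)
    have f3 : ∀ r ∈ π.ker, z * r * z⁻¹ = r := fun r hr' => by
      obtain ⟨h, rfl⟩ : r ∈ η.range := hr ▸ hr'
      rw [← a1, f, f1, f2]; simp
    have f4 : z ∈ center X := mem_center_iff.2 fun g => by
      have m : g * z * g⁻¹ * z⁻¹ ∈ π.ker := by simp [MonoidHom.mem_ker, hπ]
      have m1 := f3 _ m
      have m2 := h3 _ m
      have zi : z⁻¹ = z := inv_eq_of_mul_eq_one_right z2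
      have m3 : (g * z * g⁻¹ * z⁻¹) * (g * z * g⁻¹ * z⁻¹) = 1 := by
        nth_rewrite 2 [← m1]
        calc _ = g * (z * z) * g⁻¹ * (z * z)⁻¹ := by group
          _ = 1 := by rw [z2]; group
      rw [pow_succ, pow_two, m3, one_mul, mul_inv_eq_one, mul_inv_eq_iff_eq_mul] at m2
      exact m2
    have : (zpowers z).Normal := ⟨by
      rintro _ ⟨k, rfl⟩ g
      rw [mem_center_iff.1 (zpow_mem f4 k) g, mul_inv_cancel_right]
      exact ⟨k, rfl⟩⟩
    have := H1.le_pCore (N := zpowers z) (p := 2) (IsPGroup.of_card (n := 1) (by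
      rw [Nat.card_zpowers, hz, pow_one])) (mem_zpowers z)
    rw [hO, mem_bot] at this
    exact z1 this
  · rw [← e1] at e
    have f : ∀ h, (α z h).x = -h.x ∧ (α z h).y = -h.y := fun h => by
      rw [aut_apply, e]; simp
    have m : ∀ h, η h ∈ π.ker := fun h => hr ▸ ⟨h, rfl⟩
    obtain ⟨η', hi', hr', p1, p2⟩ := coords h27 h3 hcl (m (a0⁻¹ * α z a0)) (m (b0⁻¹ * α z b0)) (by
      rw [← map_commutatorElement, Ne, map_eq_one_iff _ hi]
      intro e
      have := congrArg Hs.s e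
      simp [commutatorElement_def, f, a0, b0] at this
      have h3 : (3 : Z3) = 0 := rfl
      exact (by decide : (1 : Z3) ≠ 0) (by linear_combination -this + 3 * h3))
    refine ⟨z, η', z2, hπ, hi', hr', ?_, ?_⟩
    · rw [p1, ← a1, ← map_inv, map_mul, map_inv, e2]; simp
    · rw [p2, ← a1, ← map_inv, map_mul, map_inv, e2]; simp

include hs h27 h3 hcl in
theorem main (hna : ∃ a ∈ π.ker, ∃ b ∈ π.ker, ⁅a, b⁆ ≠ 1) (hO : Cfsg.pCore 2 X = ⊥)
    (hE : ∃ E : Subgroup X, IsMulCommutative E ∧ (∀ a ∈ E, a ^ 3 = 1) ∧ Nat.card E = 27) :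
    Nonempty (X0 ≃* X) := by
  have := Fact.mk Nat.prime_three
  obtain ⟨z, η, z2, hπ, hi, hr, za, zb⟩ := good hs h27 h3 hcl hna hO
  obtain ⟨α, a1, a2, a3⟩ := action hs hi hr
  have m : ∀ h, η h ∈ π.ker := fun h => hr ▸ ⟨h, rfl⟩
  have za' : α z a0 = a0⁻¹ := hi (by rw [a1, za, map_inv])
  have zb' : α z b0 = b0⁻¹ := hi (by rw [a1, zb, map_inv])
  have zm : mat (α z) = -1 := by
    change !![(α z a0).x, (α z b0).x; (α z a0).y, (α z b0).y] = -1
    rw [za', zb']; exact d12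
  have zf : ∀ h, α z h = ⟨-h.x, -h.y, h.s⟩ := fun h => by
    rw [aut_apply, a3, zm, za', zb']; simp [a0, b0]
  set L := centralizer ({z} : Set X) with hL
  have mL : ∀ {k}, k ∈ L ↔ k * z = z * k := mem_centralizer_singleton_iff
  have lf : ∀ k ∈ L, ∀ h, α k h = lin (mat (α k)) h := fun k hk h => by
    have c : ∀ h, α z (α k h) = α k (α z h) := fun h => by
      rw [← MulAut.mul_apply, ← MulAut.mul_apply, ← map_mul, ← map_mul, mL.1 hk]
    have c1 := congrArg Hs.s (c a0)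
    have c2 := congrArg Hs.s (c b0)
    rw [za', map_inv, zf] at c1
    rw [zb', map_inv, zf] at c2
    change (α k a0).s = -(α k a0).s at c1
    change (α k b0).s = -(α k b0).s at c2
    rw [aut_apply, a3, d8 (α k a0).s (by linear_combination c1), d8 (α k b0).s (by linear_combination c2)]
    simp [lin]
  have dec : ∀ g : X, ∃ h, ∃ k ∈ L, g = η h * k := fun g => by
    obtain ⟨h, hh⟩ : g * z * g⁻¹ * z⁻¹ ∈ η.range := by rw [hr]; simp [MonoidHom.mem_ker, hπ]
    have r3 := h3 _ (m h)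
    have zi : z⁻¹ = z := inv_eq_of_mul_eq_one_right z2
    have ri : z * η h * z⁻¹ = (η h)⁻¹ := by
      rw [hh, eq_inv_iff_mul_eq_one]
      calc _ = z * g * z * g⁻¹ * (z * z)⁻¹ * g * z * g⁻¹ * z⁻¹ := by group
        _ = z * g * (z * z) * g⁻¹ * z⁻¹ := by rw [z2, ← z2]; nth_rewrite 1 [z2]; group
        _ = 1 := by rw [z2]; group
    refine ⟨h * h, (η (h * h))⁻¹ * g, mL.2 ?_, by group⟩
    have e : g * z = η h * z * g := by rw [hh]; group
    have e2 : z * (η h)⁻¹ = η h * z := by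
      rw [← ri, zi, ← mul_assoc, ← mul_assoc, z2, one_mul]
    have e3 : (η h)⁻¹ = η h * η h := by rw [inv_eq_iff_mul_eq_one, ← r3, pow_succ', pow_two]
    rw [mul_assoc, e, map_mul, _root_.mul_inv_rev, ← mul_assoc z, ← mul_assoc z, e2]
    calc _ = (η h)⁻¹ * z * g := by group
      _ = η h * (z * (η h)⁻¹) * g := by rw [e2, e3]; group
      _ = _ := by group
  have cc : ∀ g, g * η c0 = η c0 * g := fun g => by
    rw [← mul_inv_eq_iff_eq_mul, ← a1, aut_apply, a3]; simp [c0]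
  have c3 : η c0 ^ 3 = 1 := h3 _ (m _)
  -- the element of order three
  obtain ⟨x, xL, x3, xR⟩ : ∃ x ∈ L, x ^ 3 = 1 ∧ π x ≠ 1 := by
    obtain ⟨E, hc, hE3, hE⟩ := hE
    have cm : ∀ a ∈ E, ∀ b ∈ E, a * b = b * a := fun a ha b hb =>
      congrArg Subtype.val (hc.is_comm.comm (⟨a, ha⟩ : E) ⟨b, hb⟩)
    obtain ⟨y, hy, hy'⟩ : ∃ y ∈ E, π y ≠ 1 := by
      by_contra hn
      push Not at hn
      have : E = π.ker := eq_of_le_of_card_ge hn (by rw [hE, h27])
      obtain ⟨a, ha, b, hb, hab⟩ := hna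
      exact hab (commutatorElement_eq_one_iff_mul_comm.2 (cm a (this ▸ ha) b (this ▸ hb)))
    obtain ⟨w, hw, hw'⟩ : ∃ w, η w ∈ E ∧ ¬ (w.x = 0 ∧ w.y = 0) := by
      by_contra hn
      push Not at hn
      have e := (π.comp E.subtype).ker.card_mul_index
      have e1 : Nat.card (π.comp E.subtype).ker ≤ 3 := by
        have : Nat.card (zpowers (η c0)) ≤ 3 := by
          rw [Nat.card_zpowers]; exact orderOf_le_of_pow_eq_one (by norm_num) c3
        refine le_trans (Nat.card_le_card_of_injective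
          (fun t : (π.comp E.subtype).ker => (⟨t.1.1, ?_⟩ : zpowers (η c0)))
          fun s t e => Subtype.ext (Subtype.ext (congrArg (fun t : zpowers (η c0) => t.1) e))) this
        obtain ⟨w, hw⟩ : t.1.1 ∈ η.range := hr ▸ t.2
        obtain ⟨p, q⟩ := hn w (hw ▸ t.1.2)
        rw [← hw, d9 w p q, map_pow]
        exact pow_mem (mem_zpowers _) _
      have e2 : (π.comp E.subtype).ker.index ≤ 3 := by
        have p1 : (π.comp E.subtype).ker.index ∣ 3 ^ 3 := (hE ▸ index_dvd_card _ :)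
        have p2 : (π.comp E.subtype).ker.index ∣ 24 := by
          rw [index_ker, ← card_SL]; exact card_subgroup_dvd_card _
        exact Nat.le_of_dvd (by norm_num) (by simpa using Nat.dvd_gcd p1 p2)
      rw [hE] at e
      nlinarith
    obtain ⟨h, k, hk, rfl⟩ := dec y
    have e : h * lin (mat (α k)) w * h⁻¹ = w := hi (by
      rw [← lf k hk, map_mul, map_mul, map_inv, a1]
      calc _ = η h * k * η w * (η h * k)⁻¹ := by group
        _ = _ := by rw [cm _ hy _ hw]; group)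
    have e2 : Commute (η h) k := by
      have := a1 k h
      rw [lf k hk, d10 _ _ _ hw' e, eq_mul_inv_iff_mul_eq] at this
      exact this
    refine ⟨k, hk, ?_, fun e => hy' (by rw [map_mul, e, mul_one]; exact m h)⟩
    have := hE3 _ hy
    rwa [e2.mul_pow, h3 _ (m h), one_mul] at this
  have ker1 : ∀ k ∈ L, π k = 1 → ∃ n : ℕ, k = η c0 ^ n := fun k hk e => by
    obtain ⟨h, rfl⟩ : k ∈ η.range := hr ▸ e
    have : α z h = h := hi (by rw [a1, ← mL.1 hk]; group)
    rw [zf, Hs.ext_iff] at this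
    exact ⟨_, by rw [← map_pow, ← d9 h (d8 _ (by linear_combination -this.1))
      (d8 _ (by linear_combination -this.2.1))]⟩
  have cL : η c0 ∈ L := mL.2 (cc z).symm
  have sL : Function.Surjective (π.comp L.subtype) := fun u => by
    obtain ⟨g, rfl⟩ := hs u
    obtain ⟨h, k, hk, rfl⟩ := dec g
    exact ⟨⟨k, hk⟩, by rw [map_mul, MonoidHom.mem_ker.1 (m h), one_mul]; rfl⟩
  have ox : orderOf (π x) = 3 := orderOf_eq_prime (by rw [← map_pow, x3, map_one]) xR
  let P : Subgroup L := (zpowers (π x)).comap (π.comp L.subtype)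
  have iP : P.index = 8 := by
    rw [index_comap_of_surjective _ sL]
    have := (zpowers (π x)).card_mul_index
    rw [Nat.card_zpowers, ox, card_SL] at this
    omega
  have dP : ∀ t : P, ∃ (i : ℤ) (n : ℕ), t.1.1 = x ^ i * η c0 ^ n := fun t => by
    obtain ⟨i, hi⟩ := t.2
    obtain ⟨n, hn⟩ := ker1 ((x ^ i)⁻¹ * t.1.1) (mul_mem (inv_mem (zpow_mem xL _)) t.1.2) (by
      rw [map_mul, map_inv, map_zpow, inv_mul_eq_one]; exact hi)
    exact ⟨i, n, by rw [← hn]; group⟩
  have cx : Commute x (η c0) := cc x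
  have cP : ∀ s t : P, s * t = t * s := fun s t => by
    obtain ⟨i, n, e⟩ := dP s
    obtain ⟨j, l, e'⟩ := dP t
    refine Subtype.ext (Subtype.ext ?_)
    change s.1.1 * t.1.1 = t.1.1 * s.1.1
    rw [e, e']
    exact (((Commute.zpow_zpow_self x i j).mul_right ((cx.zpow_left i).pow_right l)).mul_left
      ((((cx.zpow_left j).pow_right n).symm).mul_right (Commute.pow_pow_self _ n l))).eq
  let _ : CommGroup P := { mul_comm := cP }
  let xP : P := ⟨⟨x, xL⟩, mem_zpowers _⟩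
  let cP' : P := ⟨⟨η c0, cL⟩, by
    change π (η c0) ∈ zpowers (π x)
    rw [MonoidHom.mem_ker.1 (m c0)]; exact one_mem _⟩
  let φ : P →* P ⧸ zpowers xP := QuotientGroup.mk' _
  let τ := MonoidHom.transfer φ
  have tc : τ ⟨η c0, cL⟩ = (φ cP')⁻¹ := by
    rw [MonoidHom.transfer_eq_pow φ ⟨η c0, cL⟩ (fun k g _ => Subtype.ext (by
      change (g.1)⁻¹ * η c0 ^ k * g.1 = η c0 ^ k
      rw [mul_assoc, ← (Commute.pow_right (cc g.1) k).eq, inv_mul_cancel_left])), ← map_inv]
    congr 1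
    refine Subtype.ext (Subtype.ext ?_)
    change η c0 ^ P.index = (η c0)⁻¹
    rw [iP, eq_inv_iff_mul_eq_one, ← pow_succ, show 8 + 1 = 3 * 3 from rfl, pow_mul, c3, one_pow]
  have dL : ∀ k : L, ∃ n : ℕ, k * ⟨η c0, cL⟩ ^ n ∈ τ.ker := fun k => by
    obtain ⟨t, ht⟩ := QuotientGroup.mk'_surjective _ (τ k)
    obtain ⟨i, n, e⟩ := dP t
    have : t = xP ^ i * cP' ^ n := Subtype.ext (Subtype.ext e)
    refine ⟨n, ?_⟩
    rw [MonoidHom.mem_ker, map_mul, map_pow, tc, ← ht, this, map_mul, map_pow,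
      (QuotientGroup.eq_one_iff (xP ^ i)).2 ⟨i, rfl⟩ |> (show φ (xP ^ i) = 1 from ·)]
    simp [φ]
  let ρ : τ.ker →* SL(2, Z3) := MonoidHom.mk' (fun k => ⟨mat (α k.1.1), a3 _⟩) fun k l =>
    Subtype.ext (by change mat (α (k.1.1 * l.1.1)) = _; rw [map_mul, map_mul]; rfl)
  have ρi : Function.Injective ρ := by
    rw [injective_iff_map_eq_one]
    intro k hk
    have hk' : mat (α k.1.1) = 1 := congrArg Subtype.val hk
    have p1 : π k.1.1 = 1 := by
      by_contra hn
      obtain ⟨v, e⟩ := d5 _ hn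
      obtain ⟨v, rfl⟩ := hs v
      have hk2 : mat (α (k.1.1)⁻¹) = 1 := by
        have : mat (α k.1.1) * mat (α (k.1.1)⁻¹) = 1 := by
          rw [← map_mul, ← map_mul, mul_inv_cancel, map_one, map_one]
        rwa [hk', one_mul] at this
      have hv : mat (α (v * (k.1.1)⁻¹ * v⁻¹)) = 1 := by
        rw [map_mul, map_mul, map_mul, map_mul, hk2, mul_one, ← map_mul, ← map_mul, mul_inv_cancel,
          map_one, map_one]
      apply d11
      rw [← zm]
      rw [← hπ] at e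
      simp only [← map_mul, ← map_inv] at e
      rcases e with e | e | e | e <;> rw [a2 _ _ e] <;>
        simp only [map_mul α (k.1.1 * _), map_mul α k.1.1, map_mul mat, hk', hv, mul_one]
    obtain ⟨n, hn⟩ := ker1 _ k.1.2 p1
    have p2 : k.1 = ⟨η c0, cL⟩ ^ n := Subtype.ext hn
    have p3 := k.2
    rw [MonoidHom.mem_ker, p2, map_pow, tc, inv_pow, inv_eq_one, ← map_pow] at p3
    obtain ⟨i, hi⟩ := (QuotientGroup.eq_one_iff _).1 p3
    have p4 : x ^ i = k.1.1 := (congrArg (fun t : P => t.1.1) hi).trans hn.symm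
    have p5 : (π x) ^ i = 1 := by rw [← map_zpow, p4, p1]
    rw [← orderOf_dvd_iff_zpow_eq_one, ox] at p5
    obtain ⟨j, rfl⟩ := p5
    refine Subtype.ext (Subtype.ext ?_)
    rw [← p4, _root_.zpow_mul, _root_.zpow_natCast, x3, _root_.one_zpow]; rfl
  have dX : ∀ g : X, ∃ h, ∃ k : τ.ker, g = η h * k.1.1 := fun g => by
    obtain ⟨h, k, hk, rfl⟩ := dec g
    obtain ⟨n, hn⟩ := dL ⟨k, hk⟩
    refine ⟨h * (c0 ^ n)⁻¹, ⟨_, hn⟩, ?_⟩
    change _ = _ * (k * η c0 ^ n)
    rw [(Commute.pow_right (cc k) n).eq, map_mul, map_inv, map_pow]; group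
  have ρb : Function.Bijective ρ := by
    refine ρi.bijective_of_nat_card_le (Nat.card_le_card_of_surjective (fun k : τ.ker => π k.1.1) fun u => ?_)
    obtain ⟨g, rfl⟩ := hs u
    obtain ⟨h, k, rfl⟩ := dX g
    exact ⟨k, by rw [map_mul, MonoidHom.mem_ker.1 (m h), one_mul]⟩
  let ε := MulEquiv.ofBijective ρ ρb
  let κ : SL(2, Z3) →* X := L.subtype.comp (τ.ker.subtype.comp ε.symm.toMonoidHom)
  have hκ : ∀ k : τ.ker, κ (ρ k) = k.1.1 := fun k => congrArg (fun t : τ.ker => t.1.1) (ε.symm_apply_apply k)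
  let ψ : X0 →* X := SemidirectProduct.lift η κ fun g => MonoidHom.ext fun h => by
    obtain ⟨k, rfl⟩ := ρb.2 g
    change η (lin (mat (α k.1.1)) h) = κ (ρ k) * η h * (κ (ρ k))⁻¹
    rw [hκ, ← lf _ k.1.2, a1]
  have ψs : Function.Surjective ψ := fun g => by
    obtain ⟨h, k, rfl⟩ := dX g
    exact ⟨⟨h, ρ k⟩, by rw [← hκ]; rfl⟩
  have : Finite X0 := Nat.finite_of_card_ne_zero (by rw [card_X0]; norm_num)
  refine ⟨MulEquiv.ofBijective ψ (ψs.bijective_of_nat_card_le ?_)⟩
  rw [card_X0, ← π.ker.card_mul_index, index_ker, MonoidHom.range_eq_top.2 hs, h27, card_top, card_SL]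

end

/-- Let X be a finite group with O₃(X) extraspecial of order 27 and exponent 3, X/O₃(X) isomorphic to SL(2,3), O₂(X) = 1, and a Sylow 3-subgroup of X containing an elementary abelian subgroup of order 27. Then X is isomorphic to the centralizer in PSp(4,3) of a 3-central element of order 3 (an element of order 3 in the centre of a Sylow 3-subgroup). -/
theorem result {X : Type*} [Group X] [Finite X]
    (hR : Cfsg.IsExtraspecial 3 (Cfsg.pCore 3 X)) (hRcard : Nat.card (Cfsg.pCore 3 X) = 27)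
    (hRexp : ∀ r ∈ Cfsg.pCore 3 X, r ^ 3 = 1)
    (e : X ⧸ Cfsg.pCore 3 X ≃* Matrix.SpecialLinearGroup (Fin 2) (ZMod 3))
    (hO2 : Cfsg.pCore 2 X = ⊥)
    (hE : ∃ E : Subgroup X, IsMulCommutative E ∧ (∀ a ∈ E, a ^ 3 = 1) ∧ Nat.card E = 27)
    (F : Type*) [Field F] [Fintype F] (hF : Fintype.card F = 3) :
    ∃ (c : Cfsg.PSp 2 F) (S : Sylow 3 (Cfsg.PSp 2 F)), orderOf c = 3 ∧ c ∈ (S : Subgroup (Cfsg.PSp 2 F)) ∧
      c ∈ Subgroup.centralizer ((S : Subgroup (Cfsg.PSp 2 F)) : Set (Cfsg.PSp 2 F)) ∧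
      Nonempty (X ≃* Subgroup.centralizer ({c} : Set (Cfsg.PSp 2 F))) := by
  have := Fact.mk Nat.prime_three
  let π : X →* SL(2, Z3) := e.toMonoidHom.comp (QuotientGroup.mk' _)
  have hk : π.ker = pCore 3 X := by
    ext x
    rw [MonoidHom.mem_ker, MonoidHom.comp_apply, MulEquiv.coe_toMonoidHom, map_eq_one_iff _ e.injective,
      QuotientGroup.mk'_apply, QuotientGroup.eq_one_iff]
  obtain ⟨f⟩ := main (π := π) (e.surjective.comp (QuotientGroup.mk'_surjective _)) (hk ▸ hRcard)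
    (hk ▸ hRexp) (by
      rw [hk]
      intro a ha b hb c hc
      have : ⁅(⟨a, ha⟩ : pCore 3 X), (⟨b, hb⟩ : pCore 3 X)⁆ ∈ center (pCore 3 X) :=
        hR.1.2.2 ▸ commutator_mem_commutator (mem_top _) (mem_top _)
      exact (congrArg Subtype.val (mem_center_iff.1 this ⟨c, hc⟩)).symm) (by
      rw [hk]
      by_contra hn
      push Not at hn
      have : commutator (pCore 3 X) = ⊥ := by
        rw [eq_bot_iff, _root_.commutator_def, commutator_le]
        intro a _ b _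
        exact Subtype.ext (hn a a.2 b b.2)
      have h2 := hR.2
      rw [← hR.1.2.2, this, card_bot] at h2
      omega) hO2 hE
  let ε : PSp 2 (ZMod 3) ≃* PSp 2 F := H22.quotCenterCongr (H22.spCongr (H22.zmodEquiv hF).symm _)
  let c : PSp 2 F := ε (QuotientGroup.mk' _ (t1 c0))
  have g : X0 ≃* centralizer {c} := ((MonoidHom.ofInjective θ_inj).trans
    (MulEquiv.subgroupCongr range_θ)).trans ((ε.subgroupMap _).trans (MulEquiv.subgroupCongr (by
      ext x
      obtain ⟨x, rfl⟩ := ε.surjective x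
      rw [mem_centralizer_singleton_iff, ← map_mul, ← map_mul, ε.injective.eq_iff,
        ← mem_centralizer_singleton_iff]
      exact mem_map_iff_mem ε.injective)))
  have oc : orderOf c = 3 := by
    have : t1 c0 = θ (SemidirectProduct.inl c0) := (SemidirectProduct.lift_inl _ _ _ _).symm
    rw [MulEquiv.orderOf_eq, this, ← MonoidHom.comp_apply, orderOf_injective _ θ_inj,
      orderOf_injective _ SemidirectProduct.inl_injective]
    exact orderOf_eq_prime (by decide) (by decide)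
  have c2 : Nat.card (PSp 2 F) = 3 ^ 4 * 320 := by
    have := H22.card_center_mul_card_quotient (symplecticGroup (Fin 2) F)
    rw [S0246.result hF 2 (by norm_num), S0245.result hF 2] at this
    simp [Finset.prod_range_succ] at this
    change 2 * Nat.card (PSp 2 F) = _ at this
    omega
  have c3 : Nat.card (centralizer {c}) = 3 ^ 4 * 8 := by rw [← Nat.card_congr g.toEquiv, card_X0]; rfl
  obtain ⟨T⟩ : Nonempty (Sylow 3 (centralizer {c})) := inferInstance
  have hT : Nat.card ((T : Subgroup (centralizer {c})).map (centralizer {c}).subtype) =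
      3 ^ (Nat.card (PSp 2 F)).factorization 3 := by
    rw [card_subtype, T.card_eq_multiplicity, c2, c3, Nat.factorization_mul (by norm_num) (by norm_num),
      Nat.factorization_mul (by norm_num) (by norm_num), Nat.prime_three.factorization_pow]
    simp [Nat.factorization_eq_zero_of_not_dvd]
  have hc : c ∈ centralizer {c} := mem_centralizer_singleton_iff.2 rfl
  refine ⟨c, Sylow.ofCard _ hT, oc, ⟨⟨c, hc⟩, ?_, rfl⟩, ?_, ⟨f.symm.trans g⟩⟩
  · have : (zpowers (⟨c, hc⟩ : centralizer {c})).Normal := ⟨by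
      rintro _ ⟨k, rfl⟩ y
      have : Commute y ⟨c, hc⟩ := Subtype.ext (mem_centralizer_singleton_iff.1 y.2)
      rw [(this.zpow_right k).eq, mul_inv_cancel_right]
      exact ⟨k, rfl⟩⟩
    exact (IsPGroup.of_card (p := 3) (n := 1) (G := zpowers (⟨c, hc⟩ : centralizer {c})) (by
      rw [Nat.card_zpowers, ← orderOf_coe, pow_one]; exact oc)).le_sylow_of_normal T (mem_zpowers _)
  · rintro _ ⟨y, -, rfl⟩
    exact mem_centralizer_singleton_iff.1 y.2

end Cfsg.Agent.S3366
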