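import Mathlib
import Cfsg.Statements.S3376
import Cfsg.Agent.H7.Maschke
import Cfsg.Agent.H7.PGrp
import Cfsg.Agent.H10.Conj

set_option autoImplicit false
open Cfsg

namespace Cfsg.Agent.S3376

theorem ct (τ : Equiv.Perm (Fin 9)) (h : τ ^ 3 = 1) (h2 : ∀ i, τ i ≠ i) : τ.cycleType = {3, 3, 3} := by
  have : Fact (Nat.Prime 3) := ⟨by norm_num⟩
  have e := Equiv.Perm.cycleType_of_pow_prime_eq_one h
  have s := τ.sum_cycleType
  rw [Finset.eq_univ_iff_forall.2 fun i => Equiv.Perm.mem_support.2 (h2 i), e, Multiset.sum_replicate] at s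
  simp at s
  rw [e, show τ.cycleType.card = 3 by omega]; rfl

theorem result {G : Type*} [Group G] [Finite G] (hG : Nat.card G = 162)
    (S : Sylow 3 G) (T : Sylow 2 G) (J : Subgroup G) [hJn : J.Normal] (hJcomm : IsMulCommutative J)
    (hJexp : ∀ a ∈ J, a ^ 3 = 1) (hJcard : Nat.card J = 27)
    (Z : Subgroup G) (hZ : Z = (S : Subgroup G) ⊓ Subgroup.centralizer ((S : Subgroup G) : Set G)) (hZcard : Nat.card Z = 3)
    (hZT : Z ≤ Subgroup.centralizer ((T : Subgroup G) : Set G))
    (hST : (S : Subgroup G) ⊓ Subgroup.centralizer ((T : Subgroup G) : Set G) ≠ S) :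
    Nonempty (G ≃* Subgroup.centralizer ({Equiv.swap (0 : Fin 9) 1 * Equiv.swap 1 2 * Equiv.swap 3 4 * Equiv.swap 4 5 * Equiv.swap 6 7 * Equiv.swap 7 8} : Set (Equiv.Perm (Fin 9)))) := by
  classical
  have : Fact (Nat.Prime 3) := ⟨by norm_num⟩
  have cS : Nat.card S = 81 := by
    rw [S.card_eq_multiplicity, hG, show 162 = 3 ^ 4 * 2 by norm_num, Nat.factorization_mul (by norm_num)
      (by norm_num), Nat.prime_three.factorization_pow, Nat.prime_two.factorization]; simp
  have cT : Nat.card T = 2 := by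
    rw [T.card_eq_multiplicity, hG, show 162 = 3 ^ 4 * 2 by norm_num, Nat.factorization_mul (by norm_num)
      (by norm_num), Nat.prime_three.factorization_pow, Nat.prime_two.factorization]; simp
  have iS : (S : Subgroup G).index = 2 := by
    have := (S : Subgroup G).card_mul_index
    rw [cS] at this
    omega
  have nS := Subgroup.normal_of_index_eq_two iS
  have JS : J ≤ S := (IsPGroup.of_card (n := 3) hJcard).le_sylow_of_normal S
  have ZS : Z ≤ S := hZ ▸ inf_le_left
  have ZC : Z ≤ Subgroup.centralizer ((S : Subgroup G) : Set G) := hZ ▸ inf_le_right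
  have JJ : J ≤ Subgroup.centralizer (J : Set G) := Subgroup.le_centralizer_iff_isMulCommutative.2 hJcomm
  have z3 : ∀ X : Subgroup G, ¬ Z ≤ X → Z ⊓ X = ⊥ := fun X h => by
    have d := hZcard ▸ Subgroup.card_dvd_of_le (inf_le_left : Z ⊓ X ≤ Z)
    rcases (Nat.dvd_prime Nat.prime_three).1 d with e | e
    · exact Subgroup.card_eq_one.1 e
    · exact (h (inf_eq_left.1 (Subgroup.eq_of_le_of_card_ge inf_le_left (by omega)))).elim
  have ZJ : Z ≤ J := by
    by_contra c
    have e := H7.card_sup_mul_card_inf_of_le_normalizer (H := Z) (K := J) Subgroup.le_normalizer_of_normal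
    rw [z3 J c, Subgroup.card_bot, hZcard, hJcard] at e
    have e2 : Z ⊔ J = S := Subgroup.eq_of_le_of_card_ge (sup_le ZS JS) (by omega)
    have : (S : Subgroup G) ≤ Z := by
      rw [hZ]
      refine le_inf le_rfl (e2.ge.trans (sup_le ZC ?_))
      rw [← e2, H10.CC_sup]
      exact le_inf (H10.le_CC_symm (ZC.trans (H10.CC_anti JS))) JJ
    have := Subgroup.card_le_of_le this
    omega
  obtain ⟨W, TW, -, w1, w2⟩ := H7.maschke_amb (A := (T : Subgroup G)) (D := ⊥) (E := Z) (F := J)
    Nat.prime_three (by rw [cT]; norm_num) bot_le ZJ Subgroup.le_normalizer_of_normal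
    ((H10.le_CC_symm hZT).trans (H10.CC_le_NN _)) Subgroup.le_normalizer_of_normal
    (H10.comm_eq_bot.2 JJ).le hJexp
  have WJ : W ≤ J := w2 ▸ le_sup_right
  have cW : Nat.card W = 9 := by
    have e := H7.card_sup_mul_card_inf_of_le_normalizer (H := Z) (K := W)
      (ZC.trans ((H10.CC_anti (WJ.trans JS)).trans (H10.CC_le_NN _)))
    rw [w1, w2, Subgroup.card_bot, hZcard, hJcard] at e
    omega
  have TS : (T : Subgroup G) ⊓ S = ⊥ := disjoint_iff.1 (Subgroup.disjoint_of_coprime_natCard (by rw [cT, cS]; norm_num))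
  have cH : Nat.card ↥((T : Subgroup G) ⊔ W) = 18 := by
    have e := H7.card_sup_mul_card_inf_of_le_normalizer TW
    rw [eq_bot_iff.2 ((inf_le_inf_left _ (WJ.trans JS)).trans TS.le), Subgroup.card_bot, cT, cW] at e
    omega
  have HS : ((T : Subgroup G) ⊔ W) ⊓ S = W := by
    rw [sup_comm, H10.dedekind_right (WJ.trans JS) TW, TS, sup_bot_eq]
  set H := (T : Subgroup G) ⊔ W with hH
  have ZH : Z ⊓ H = ⊥ := by rw [← w1, ← HS, ← inf_assoc, inf_right_comm, inf_eq_left.2 ZS]
  have top : (T : Subgroup G) ⊔ S = ⊤ := by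
    have e := H7.card_sup_mul_card_inf_of_le_normalizer (H := (T : Subgroup G)) (K := S)
      Subgroup.le_normalizer_of_normal
    rw [TS, Subgroup.card_bot, cT, cS] at e
    exact Subgroup.eq_top_of_card_eq _ (by omega)
  have core : H.normalCore = ⊥ := by
    have n1 : H.normalCore ⊓ S = ⊥ := by
      by_contra c
      refine H7.inf_center_ne_bot S.isPGroup' (H.normalCore.subgroupOf S)
        (fun e => c (disjoint_iff.1 (Subgroup.subgroupOf_eq_bot.1 e))) (eq_bot_iff.2 fun x hx => ?_)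
      have : x.1 ∈ Z ⊓ H := ⟨hZ ▸ ⟨x.2, fun g hg => congrArg Subtype.val
        (Subgroup.mem_center_iff.1 hx.2 ⟨g, hg⟩)⟩, H.normalCore_le hx.1⟩
      rw [ZH] at this
      exact Subtype.ext this
    by_contra c
    have e := H7.card_sup_mul_card_inf_of_le_normalizer (H := H.normalCore) (K := S)
      Subgroup.le_normalizer_of_normal
    have l := Subgroup.card_le_card_group (H.normalCore ⊔ S)
    have l2 := mt Subgroup.card_eq_one.1 c
    have l3 := Nat.card_pos (α := H.normalCore)
    rw [n1, Subgroup.card_bot, cS] at e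
    have c2 : Nat.card H.normalCore = 2 := by omega
    have e2 : H.normalCore = T := Subgroup.eq_of_le_of_card_ge
      ((IsPGroup.of_card (n := 1) c2).le_sylow_of_normal T) (by omega)
    refine hST (inf_eq_left.2 ?_)
    rw [← e2, ← H10.comm_eq_bot', eq_bot_iff, ← n1]
    exact Subgroup.commutator_le_inf _ _
  obtain ⟨z, hz⟩ := exists_prime_orderOf_dvd_card' (G := Z) 3 hZcard.symm.dvd
  have zc : ∀ g : G, g * z = z * g := fun g => by
    have : z.1 ∈ Subgroup.centralizer (((T : Subgroup G) ⊔ S : Subgroup G) : Set G) := by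
      rw [H10.CC_sup]; exact ⟨hZT z.2, ZC z.2⟩
    exact this g (top ▸ Subgroup.mem_top g)
  have iH : Nat.card (G ⧸ H) = 9 := by
    have := H.card_mul_index
    rw [cH] at this
    change H.index = 9
    omega
  let e : G ⧸ H ≃ Fin 9 := Finite.equivFinOfCardEq iH
  let ρ : G →* Equiv.Perm (Fin 9) := e.permCongrHom.toMonoidHom.comp (MulAction.toPermHom G (G ⧸ H))
  have inj : Function.Injective ρ := e.permCongrHom.injective.comp
    ((MonoidHom.ker_eq_bot_iff _).1 (H.normalCore_eq_ker ▸ core))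
  have c1 := ct (ρ z) (by rw [← map_pow, ← Subgroup.coe_pow, ← hz, pow_orderOf_eq_one]; simp) fun i hi => by
    obtain ⟨x, rfl⟩ := e.surjective i
    obtain ⟨g, rfl⟩ := QuotientGroup.mk_surjective x
    have : z.1 • (g : G ⧸ H) = g := by simpa [ρ] using hi
    rw [MulAction.Quotient.smul_mk, smul_eq_mul, eq_comm, QuotientGroup.eq, ← zc, inv_mul_cancel_left] at this
    have : z.1 ∈ Z ⊓ H := ⟨z.2, this⟩
    rw [ZH, Subgroup.mem_bot, OneMemClass.coe_eq_one] at this
    rw [this, orderOf_one] at hz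
    omega
  have c2 := ct (Equiv.swap (0 : Fin 9) 1 * Equiv.swap 1 2 * Equiv.swap 3 4 * Equiv.swap 4 5 * Equiv.swap 6 7 *
    Equiv.swap 7 8) (by decide +kernel) (by decide +kernel)
  generalize Equiv.swap (0 : Fin 9) 1 * Equiv.swap 1 2 * Equiv.swap 3 4 * Equiv.swap 4 5 * Equiv.swap 6 7 *
    Equiv.swap 7 8 = σ at c2
  obtain ⟨g, hg⟩ := isConj_iff.1 (Equiv.Perm.isConj_iff_cycleType_eq.2 (c1.trans c2.symm))
  refine ⟨MulEquiv.ofBijective (((MulAut.conj g).toMonoidHom.comp ρ).codRestrict _ fun x => ?_)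
    (Function.Injective.bijective_of_nat_card_le (fun a b h => inj ((MulAut.conj g).injective
      (congrArg Subtype.val h))) ?_)⟩
  · rw [Subgroup.mem_centralizer_singleton_iff, ← hg]
    change g * ρ x * g⁻¹ * _ = _ * (g * ρ x * g⁻¹)
    rw [conj_mul, conj_mul, ← map_mul, ← map_mul, zc]
  · rw [Equiv.Perm.nat_card_centralizer, c2, hG]
    decide +kernel

end Cfsg.Agent.S3376
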