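import Cfsg.Statements.S3389
import Cfsg.Agent.H2.Frob
import Cfsg.Agent.H25.Stab
import Cfsg.Agent.H1.Basic

set_option autoImplicit false
open Cfsg

namespace Cfsg.Agent.S3389

open Subgroup MulAction Pointwise

/-- Let G be a finite group acting faithfully and transitively on a finite set Ω with fixity k ≥ 1: every non-identity element fixes at most k points and some non-identity element fixes exactly k points. Then |Z(G)| divides k; if k = 2 then |G| is even; and for every prime p > k dividing |G| and every point α, either p does not divide |G_α| or G_α contains a Sylow p-subgroup of G. -/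
theorem result {G : Type*} [Group G] [Finite G] {Ω : Type*} [Fintype Ω] [MulAction G Ω] [FaithfulSMul G Ω]
    (htr : MulAction.IsPretransitive G Ω) (k : ℕ) (hk : 1 ≤ k)
    (hfix : ∀ g : G, g ≠ 1 → Nat.card (MulAction.fixedBy Ω g) ≤ k) (hex : ∃ g : G, g ≠ 1 ∧ Nat.card (MulAction.fixedBy Ω g) = k) :
    Nat.card (Subgroup.center G) ∣ k ∧ (k = 2 → 2 ∣ Nat.card G) ∧
      ∀ (p : ℕ), p.Prime → k < p → p ∣ Nat.card G → ∀ α : Ω,
        ¬ p ∣ Nat.card (MulAction.stabilizer G α) ∨ ¬ p ∣ (MulAction.stabilizer G α).index := by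
  obtain ⟨g, hg1, hgk⟩ := hex
  refine ⟨?_, ?_, ?_⟩
  · rw [← hgk]
    refine H2.card_dvd_of_free (A := center G) (fixedBy Ω g) (fun z x hx => ?_) (fun z x _ hz => ?_)
    · change g • (z : G) • x = (z : G) • x
      rw [← mul_smul, mem_center_iff.1 z.2 g, mul_smul, mem_fixedBy.1 hx]
    · apply Subtype.ext
      apply eq_of_smul_eq_smul (α := Ω)
      intro b
      obtain ⟨y, rfl⟩ := exists_smul_eq G x b
      rw [← mul_smul, ← mem_center_iff.1 z.2 y, mul_smul]
      exact (congrArg (y • ·) hz).trans (one_smul G _).symm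
  · rintro rfl
    by_contra hodd
    obtain ⟨a, b, hab, hf⟩ := Set.ncard_eq_two.1 ((Nat.card_coe_set_eq _).symm.trans hgk)
    have ha : g • a = a := (hf ▸ Set.mem_insert a {b} : a ∈ fixedBy Ω g)
    have hb : g • b = b := (hf ▸ Set.mem_insert_of_mem a rfl : b ∈ fixedBy Ω g)
    set H := stabilizer G a ⊓ stabilizer G b with hH
    have hfix2 : ∀ h ∈ H, h ≠ 1 → ∀ c, h • c = c → c = a ∨ c = b := by
      intro h hh h1 c hc
      have h2 : ({a, b} : Set Ω) = fixedBy Ω h := by
        apply Set.eq_of_subset_of_ncard_le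
        · rintro x (rfl | rfl)
          · exact hh.1
          · exact hh.2
        · rw [Set.ncard_pair hab, ← Nat.card_coe_set_eq]; exact hfix h h1
        · exact Set.toFinite _
      exact (h2 ▸ hc : c ∈ ({a, b} : Set Ω))
    have hF : Cfsg.IsFrobeniusComplement H := by
      rw [H2.isFrob_iff]
      refine ⟨fun h => hg1 (mem_bot.1 (h ▸ ⟨ha, hb⟩ : g ∈ (⊥ : Subgroup G))), fun h => ?_, ?_⟩
      · obtain ⟨x, hx⟩ := exists_smul_eq G a b
        exact hab ((h ▸ mem_top x : x ∈ H).1.symm.trans hx)
      · intro x hx hx1 y hy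
        have h1 : ∀ c, (y⁻¹ * x * y) • c = c → y • c = a ∨ y • c = b := fun c hc =>
          hfix2 x hx hx1 _ (by rwa [mul_smul, mul_smul, inv_smul_eq_iff] at hc)
        have hsq : y ^ 2 ∈ H := by
          rcases h1 a hy.1 with h2 | h2 <;> rcases h1 b hy.2 with h3 | h3
          · exact (hab (smul_left_cancel y (h2.trans h3.symm))).elim
          · exact H.pow_mem ⟨h2, h3⟩ 2
          · exact mem_inf.2 ⟨by rw [mem_stabilizer_iff, sq, mul_smul, h2, h3],
              by rw [mem_stabilizer_iff, sq, mul_smul, h3, h2]⟩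
          · exact (hab (smul_left_cancel y (h2.trans h3.symm))).elim
        refine zpowers_le.2 hsq (mem_zpowers_pow_iff.2 ?_)
        exact (Nat.Prime.coprime_iff_not_dvd Nat.prime_two).2 fun h =>
          hodd (h.trans (orderOf_dvd_natCard y))
    obtain ⟨x, hx⟩ := exists_smul_eq G a b
    have hxH : MulAut.conj x • H ≤ stabilizer G b := by
      intro y hy
      have := (mem_inf.1 ((H2.mem_conj_smul_iff H x y).1 hy)).1
      rwa [mem_stabilizer_iff, mul_smul, mul_smul, inv_smul_eq_iff, hx] at this
    have hne : ¬ stabilizer G b ≤ H := by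
      intro h
      have e : stabilizer G b = stabilizer G a :=
        eq_of_le_of_card_ge (h.trans inf_le_left) (H25.card_stabilizer_eq a b).le
      have : x ∈ H := H2.frob_mem' hF (x := g) ⟨ha, hb⟩ hg1 (h (hxH (H2.conj_mem_conj_smul H x ⟨ha, hb⟩)))
      exact hab (this.1.symm.trans hx)
    have hne' : ¬ stabilizer G b ≤ MulAut.conj x • H := by
      intro h
      apply hne
      refine (eq_of_le_of_card_ge inf_le_right ?_).ge
      exact (card_le_of_le h).trans (H1.card_conj_smul x H).le
    obtain ⟨z, hz, hz1, y, hy⟩ := H2.exists_conj_mem_of_two_frob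
      (H2.frob_subgroupOf hF (by rw [inf_eq_left.2 inf_le_right]; exact hF.1) hne)
      (H2.frob_subgroupOf (H2.frob_conj hF x) (by rw [inf_eq_left.2 hxH]; exact (H2.frob_conj hF x).1) hne')
    have h1 : (y : G)⁻¹ * x ∈ H :=
      H2.frob_mem_two hF (x := (z : G)) (fun h => hz1 (Subtype.ext h)) hy
        ((H2.mem_conj_smul_iff H x z).1 hz)
    have h2 := (mem_inf.1 h1).1
    rw [mem_stabilizer_iff, mul_smul, hx, inv_smul_eq_iff] at h2
    exact hab (smul_left_cancel (y : G) (h2.symm.trans y.2.symm))
  · intro p hp hkp _ α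
    by_contra hcon
    push Not at hcon
    have := Fact.mk hp
    obtain ⟨P'⟩ : Nonempty (Sylow p (stabilizer G α)) := inferInstance
    set P := (P' : Subgroup (stabilizer G α)).map (stabilizer G α).subtype with hP
    set n := (Nat.card (stabilizer G α)).factorization p with hn
    have hPc : Nat.card P = p ^ n := by
      rw [hP, card_map_of_injective (subtype_injective _), P'.card_eq_multiplicity]
    have hP0 : P ≠ ⊥ := by
      rw [hP, Ne, map_eq_bot_iff_of_injective _ (subtype_injective _)]
      exact P'.ne_bot_of_dvd_card hcon.1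
    have hdvd : p ^ (n + 1) ∣ Nat.card G := by
      rw [← (stabilizer G α).card_mul_index, pow_succ]
      exact mul_dvd_mul (Nat.ordProj_dvd _ _) hcon.2
    obtain ⟨Q', hQ'⟩ := Sylow.exists_subgroup_card_pow_prime p
      (Sylow.prime_pow_dvd_card_normalizer hdvd hPc)
    set Q := Q'.map (normalizer (P : Set G)).subtype
    have hQc : Nat.card Q = p ^ (n + 1) := by rw [card_map_of_injective (subtype_injective _), hQ']
    obtain ⟨h, hh, hh1⟩ := P.bot_or_exists_ne_one.resolve_left hP0
    obtain ⟨β, -, hβ⟩ := H25.exists_fixed_of_not_dvd Q (IsPGroup.of_card hQc)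
      {x : Ω | ∀ y ∈ P, y • x = x} (by
        intro q hq x hx y hy
        have hq' : q ∈ normalizer (P : Set G) := map_subtype_le _ hq
        have := hx _ ((mem_normalizer_iff''.1 hq' y).1 hy)
        rwa [mul_smul, mul_smul, inv_smul_eq_iff] at this) (by
        intro hd
        have h1 : {x : Ω | ∀ y ∈ P, y • x = x}.ncard ≤ k := by
          refine le_trans (Set.ncard_le_ncard (t := fixedBy Ω h) (fun x hx => hx h hh)) ?_
          rw [← Nat.card_coe_set_eq]; exact hfix h hh1
        have h2 : 0 < {x : Ω | ∀ y ∈ P, y • x = x}.ncard :=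
          (Set.ncard_pos).2 ⟨α, fun y hy => map_subtype_le _ hy⟩
        have := Nat.le_of_dvd h2 hd
        omega)
    have h3 : p ^ (n + 1) ∣ Nat.card (stabilizer G α) := by
      rw [← hQc, H25.card_stabilizer_eq α β]
      exact card_dvd_of_le hβ
    exact Nat.pow_succ_factorization_not_dvd Nat.card_pos.ne' hp h3

end Cfsg.Agent.S3389
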