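import Cfsg.Statements.S3391
import Cfsg.Agent.H26.SzSub2

set_option autoImplicit false
open Cfsg

namespace Cfsg.Agent.S3391

theorem card_le {G : Type*} [Group G] [Finite G] {Ω : Type*} [Finite Ω] [MulAction G Ω] {α : Ω} {g : G}
    (hfix : Nat.card (MulAction.fixedBy Ω g) ≤ 2) (N : Subgroup G)
    (hN : ∀ n ∈ N, g • n • α = n • α) : (MulAction.stabilizer G α).relIndex N ≤ 2 := by
  have h1 : (MulAction.stabilizer G α).subgroupOf N = MulAction.stabilizer N α := by ext; simp; rfl
  rw [Subgroup.relIndex, h1, MulAction.index_stabilizer]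
  refine le_trans (Set.ncard_le_ncard ?_) hfix
  rintro _ ⟨n, rfl⟩
  exact hN n n.2

theorem sq_mem {G : Type*} [Group G] [Finite G] {S N : Subgroup G} (h : S.relIndex N ≤ 2) {x : G}
    (hx : x ∈ N) : x * x ∈ S := by
  have h0 : S.relIndex N ≠ 0 := Subgroup.index_ne_zero_of_finite
  obtain h | h : S.relIndex N = 1 ∨ S.relIndex N = 2 := by omega
  · have := Subgroup.relIndex_eq_one.1 h hx
    exact S.mul_mem this this
  · exact Subgroup.mul_self_mem_of_index_two h ⟨x, hx⟩

theorem mem_of_odd {G : Type*} [Group G] [Finite G] {S N : Subgroup G} (h : S.relIndex N ≤ 2) {x : G}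
    (hx : x ∈ N) (ho : Odd (orderOf x)) : x ∈ S := by
  obtain ⟨n, hn⟩ := exists_pow_eq_self_of_coprime (x := x) (n := 2) (Nat.coprime_two_left.2 ho)
  rw [← hn, sq]
  exact S.pow_mem (sq_mem h hx) n

theorem aux {G : Type*} [Group G] {F : Type*} [Field F] [Fintype F] {m : ℕ} (N : H26.SzModel G F m)
    {Ω : Type*} [Finite Ω] [MulAction G Ω] {α : Ω}
    (hfix : ∀ g : G, g ≠ 1 → Nat.card (MulAction.fixedBy Ω g) ≤ 2) {s : G} (hs : s • α = α) (hs1 : s ≠ 1)
    (hZ : s ∈ N.Z) : N.B ≤ MulAction.stabilizer G α := by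
  have := N.finite
  have h1 := card_le (α := α) (hfix s hs1) N.Q fun n hn => by
    rw [← mul_smul, (N.mem_Z_iff_central (N.Z_le_Q hZ)).1 hZ n hn, mul_smul, hs]
  have h2 : N.Z ≤ MulAction.stabilizer G α := by
    rintro _ ⟨b, rfl⟩
    obtain ⟨a, rfl⟩ := N.σ_mul_surj b
    rw [← N.u_sq a 0]
    exact sq_mem h1 (N.u_mem_Q _ _)
  have h3 := card_le (α := α) (hfix s hs1) N.B fun n hn => by
    have : (n⁻¹ * s * n⁻¹⁻¹) • α = α := h2 (N.conj_mem_Z (N.B.inv_mem hn) hZ)
    rwa [inv_inv, mul_smul, mul_smul, inv_smul_eq_iff] at this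
  have h4 : ∀ g ∈ N.B, ∀ x ∈ N.H, g * x * g⁻¹ ∈ MulAction.stabilizer G α := fun g hg x hx =>
    mem_of_odd h3 (N.B.mul_mem (N.B.mul_mem hg (N.H_le_B hx)) (N.B.inv_mem hg)) (by
      have := N.odd_orderOf_of_mem_H hx
      rwa [← (MulAut.conj g).orderOf_eq] at this)
  have h5 : N.H ≤ MulAction.stabilizer G α := fun x hx => by simpa using h4 1 N.B.one_mem x hx
  rw [← N.Q_sup_H, sup_le_iff]
  refine ⟨?_, h5⟩
  have := N.charP
  obtain ⟨y, hy0, hy1⟩ := N.exists_ne
  rintro _ ⟨a, b, rfl⟩
  have hσ : N.σ y + 1 ≠ 0 := by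
    intro e
    apply hy1
    apply N.σ.injective
    rw [map_one]; grind
  have h6 := mul_mem (h4 _ (N.Q_le_B (N.u_mem_Q (a / (N.σ y + 1)) 0)) _ (N.h_mem_H (Units.mk0 y hy0)))
    (inv_mem (h5 (N.h_mem_H (Units.mk0 y hy0))))
  rw [mul_assoc, mul_assoc, ← mul_assoc (N.h _), N.u_inv, N.h_conj_u, N.u_mul, Units.val_mk0,
    show a / (N.σ y + 1) + N.σ y * (a / (N.σ y + 1)) = a by field_simp; ring] at h6
  refine (Subgroup.mul_mem_cancel_right _ h6).1 (h2 ?_)
  rw [N.u_mul, show a + a = 0 by grind]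
  exact N.u_mem_Z _


/-- Let q = 2^{2m+1} ≥ 8 and let G be isomorphic to the Suzuki group Sz(q). If G acts faithfully and transitively on a finite set Ω with fixity 2 (every non-identity element fixes at most two points, and some fixes exactly two), then either |Ω| = q² + 1 and the action is 2-transitive, or |Ω| = q²(q² + 1) and the point stabilizers have order q − 1. -/
theorem result {G : Type*} [Group G] [Finite G] (F : Type) [Field F] [Fintype F] (m : ℕ) (hm : 1 ≤ m) (hF : Fintype.card F = 2 ^ (2 * m + 1))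
    (e : G ≃* ↥(Cfsg.Lie.Sz F (2 ^ (m + 1)))) {Ω : Type*} [Fintype Ω] [MulAction G Ω] [FaithfulSMul G Ω] (htr : MulAction.IsPretransitive G Ω)
    (hfix : ∀ g : G, g ≠ 1 → Nat.card (MulAction.fixedBy Ω g) ≤ 2) (hex : ∃ g : G, g ≠ 1 ∧ Nat.card (MulAction.fixedBy Ω g) = 2) :
    (Fintype.card Ω = Fintype.card F ^ 2 + 1 ∧ MulAction.IsMultiplyPretransitive G Ω 2) ∨
    (Fintype.card Ω = Fintype.card F ^ 2 * (Fintype.card F ^ 2 + 1) ∧ ∀ α : Ω, Nat.card (MulAction.stabilizer G α) = Fintype.card F - 1) := by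
  classical
  let N := (H26.Sz.lieModel hm hF).ofEquiv e
  obtain ⟨g, hg1, hg⟩ := hex
  obtain ⟨α, β, hαβ, -⟩ := Nat.card_eq_two_iff.1 hg
  have hne : MulAction.stabilizer G α.1 ≠ ⊤ := by
    intro h
    obtain ⟨k, hk⟩ := htr.exists_smul_eq α.1 β.1
    have : k ∈ MulAction.stabilizer G α.1 := h ▸ Subgroup.mem_top k
    exact hαβ (Subtype.ext (this.symm.trans hk))
  have hgα : g • α.1 = α.1 := α.2
  generalize α.1 = a at hne hgα
  have hcard : Fintype.card Ω * Nat.card (MulAction.stabilizer G a) = Nat.card G := by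
    rw [← Nat.card_eq_fintype_card, ← MulAction.index_stabilizer_of_transitive G a, Subgroup.index_mul_card]
  have h8 := N.eight_le_card
  by_cases hev : Even (Nat.card (MulAction.stabilizer G a))
  · left
    obtain ⟨s, hs, hs2⟩ := H6.exists_ord2_mem_of_even hev
    obtain ⟨k, hk⟩ := N.exists_mem_conj_Q_of_sq (H6.ord2_mul_self hs2)
    have h1 := aux (N.conj k) hfix hs (H6.ord2_ne_one hs2) hk
    have h2 : MulAction.stabilizer G a = (N.conj k).B := ((N.conj k).isCoatom_B.le_iff.1 h1).resolve_left hne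
    generalize N.conj k = N' at h2
    constructor
    · rw [h2, N'.card_B, N'.card_G, mul_assoc, mul_left_comm] at hcard
      exact Nat.eq_of_mul_eq_mul_right (by omega) (Nat.eq_of_mul_eq_mul_left (by positivity) hcard)
    · have key : ∀ x y : G, x • a = y • a ↔ x • N'.inf = y • N'.inf := fun x y => by
        rw [← inv_smul_eq_iff, ← mul_smul, ← MulAction.mem_stabilizer_iff, h2, N'.mem_B_iff, mul_smul,
          inv_smul_eq_iff]
      rw [MulAction.is_two_pretransitive_iff]
      intro b c d f hbc hdf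
      obtain ⟨b, rfl⟩ := htr.exists_smul_eq a b
      obtain ⟨c, rfl⟩ := htr.exists_smul_eq a c
      obtain ⟨d, rfl⟩ := htr.exists_smul_eq a d
      obtain ⟨f, rfl⟩ := htr.exists_smul_eq a f
      obtain ⟨x, h3, h4⟩ := MulAction.is_two_pretransitive_iff.1 N'.two_transitive
        (mt (key b c).2 hbc) (mt (key d f).2 hdf)
      exact ⟨x, by rw [← mul_smul, key, mul_smul, h3], by rw [← mul_smul, key, mul_smul, h4]⟩
  · right
    have hodd := Nat.not_even_iff_odd.1 hev
    have hnf : ∀ x, x • a = a → ¬ N.Fpf x := by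
      intro x hx hf
      have h1 := card_le (α := a) (hfix x hf.ne_one) (Subgroup.centralizer {x}) fun n hn => by
        rw [← mul_smul, ← Subgroup.mem_centralizer_singleton_iff.1 hn, mul_smul, hx]
      have h2 : Subgroup.centralizer {x} ≤ MulAction.stabilizer G a := fun y hy => mem_of_odd h1 hy
        (Odd.of_dvd_nat N.odd_card_sq_add_one
          ((Subgroup.orderOf_dvd_natCard _ hy).trans hf.card_centralizer_dvd))
      have h3 := card_le (α := a) (hfix x hf.ne_one) (Subgroup.normalizer (Subgroup.centralizer {x} : Set G))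
        fun n hn => by
          have : (n⁻¹ * x * n⁻¹⁻¹) • a = a := h2 ((Subgroup.mem_normalizer_iff.1 (inv_mem hn) x).1
            (Subgroup.mem_centralizer_singleton_iff.2 rfl))
          rwa [inv_inv, mul_smul, mul_smul, inv_smul_eq_iff] at this
      have h4 := Subgroup.index_mul_card
        ((MulAction.stabilizer G a).subgroupOf (Subgroup.normalizer (Subgroup.centralizer {x} : Set G)))
      have h5 : Odd (Nat.card ((MulAction.stabilizer G a).subgroupOf
          (Subgroup.normalizer (Subgroup.centralizer {x} : Set G)))) :=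
        hodd.of_dvd_nat (Subgroup.card_comap_dvd_of_injective _ _ Subtype.val_injective)
      rw [hf.card_normalizer] at h4
      have h0 : (MulAction.stabilizer G a).relIndex
        (Subgroup.normalizer (Subgroup.centralizer {x} : Set G)) ≠ 0 := Subgroup.index_ne_zero_of_finite
      unfold Subgroup.relIndex at h0 h3
      obtain ⟨j, hj⟩ := h5
      rw [hj] at h4
      obtain h | h : ((MulAction.stabilizer G a).subgroupOf
          (Subgroup.normalizer (Subgroup.centralizer {x} : Set G))).index = 1 ∨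
          ((MulAction.stabilizer G a).subgroupOf
          (Subgroup.normalizer (Subgroup.centralizer {x} : Set G))).index = 2 := by omega
      all_goals rw [h] at h4; omega
    have h1 : Nat.card (MulAction.stabilizer G a) ∣ Fintype.card F - 1 := by
      have h2 : Nat.card (MulAction.stabilizer G a) ∣ _ := N.card_G ▸ Subgroup.card_subgroup_dvd_card _
      refine Nat.Coprime.dvd_of_dvd_mul_left (Nat.Coprime.mul_right ?_ ?_) h2
      · rw [hF, ← pow_mul]
        exact Nat.Coprime.pow_right _ (Nat.coprime_two_right.2 hodd)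
      · refine Nat.Coprime.symm (Nat.coprime_of_dvd fun p hp h3 h4 => ?_)
        have : Fact p.Prime := ⟨hp⟩
        obtain ⟨x, hx⟩ := exists_prime_orderOf_dvd_card' p h4
        rw [← Subgroup.orderOf_coe] at hx
        exact hnf x x.2 (N.fpf_of_orderOf_dvd (by
          rintro e; rw [e, orderOf_one] at hx; exact hp.one_lt.ne hx) (hx ▸ h3))
    have h2 : Fintype.card F - 1 ∣ Nat.card (MulAction.stabilizer G a) := by
      have ho : Odd (orderOf g) := hodd.of_dvd_nat (Subgroup.orderOf_dvd_natCard _ hgα)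
      rcases N.elt_cases g with h | ⟨k, h⟩ | ⟨k, h⟩
      · exact absurd h (hnf g hgα)
      · have h3 := orderOf_dvd_of_pow_eq_one ((N.conj k).pow_four_of_mem_Q h)
        have h4 : Nat.Coprime (orderOf g) 4 := Nat.Coprime.pow_right 2 (Nat.coprime_two_right.2 ho)
        exact absurd (orderOf_eq_one_iff.1 (h4.eq_one_of_dvd h3)) hg1
      · have h3 := card_le (α := a) (hfix g hg1) (N.conj k).H fun n hn => by
          rw [← mul_smul, (N.conj k).H_comm h hn, mul_smul, hgα]
        rw [← (N.conj k).card_H]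
        exact Subgroup.card_dvd_of_le fun y hy => mem_of_odd h3 hy ((N.conj k).odd_orderOf_of_mem_H hy)
    have h3 := Nat.dvd_antisymm h1 h2
    rw [h3, N.card_G] at hcard
    have h4 := Nat.eq_of_mul_eq_mul_right (by omega) hcard
    refine ⟨h4, fun b => ?_⟩
    have h5 : Fintype.card Ω * Nat.card (MulAction.stabilizer G b) = Nat.card G := by
      rw [← Nat.card_eq_fintype_card, ← MulAction.index_stabilizer_of_transitive G b, Subgroup.index_mul_card]
    rw [h4, N.card_G] at h5
    exact Nat.eq_of_mul_eq_mul_left (by positivity) h5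

end Cfsg.Agent.S3391
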