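import Cfsg.Statements.S3410
import Cfsg.Agent.H25.ON6
import Cfsg.Agent.H5.Component

set_option autoImplicit false
open Cfsg

namespace Cfsg.Agent.S3410

theorem fstar_eq {G : Type*} [Group G] [Finite G] {N : Subgroup G} [N.Normal] [IsSimpleGroup N]
    (hC : Subgroup.centralizer (N : Set G) = ⊥) : generalizedFittingSubgroup G = N := by
  have z : Subgroup.center N = ⊥ := eq_bot_iff.2 fun a ha => Subtype.ext (hC.le fun b hb =>
    congrArg Subtype.val (Subgroup.mem_center_iff.1 ha ⟨b, hb⟩))
  have nc : ¬ IsMulCommutative N := fun e => bot_ne_top (z.symm.trans (Subgroup.center_eq_top_iff.2 e))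
  have q : IsQuasisimple N := ⟨⟨(Subgroup.Normal.eq_bot_or_eq_top inferInstance).resolve_left
    fun e => nc ((commutator_eq_bot_iff N).1 e)⟩,
    ((QuotientGroup.quotientMulEquivOfEq z).trans QuotientGroup.quotientBot).isSimpleGroup⟩
  refine le_antisymm (sup_le (sSup_le fun L hL => ?_) (sSup_le fun K hK => ?_))
    (le_sup_of_le_left (le_sSup ⟨Subgroup.Normal.isSubnormal ‹_›, q⟩))
  · have hL' := H5.compOf_top_iff.2 hL
    exact (hL'.le_or_commutator_eq_bot_of_le_normalizer le_top (Subgroup.normalizer_eq_top N ▸ le_top)).resolve_right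
      fun h0 => hL'.ne_bot (eq_bot_iff.2 (hC ▸ Subgroup.commutator_eq_bot_iff_le_centralizer.1 h0))
  · obtain ⟨k1, k2⟩ := hK
    rcases (Subgroup.normal_subgroupOf (H := N) (N := K)).eq_bot_or_eq_top with e | e
    · refine le_trans (hC ▸ Subgroup.commutator_eq_bot_iff_le_centralizer.1 (eq_bot_iff.2
        ((Subgroup.commutator_le_inf K N).trans ?_))) bot_le
      rw [← Subgroup.subgroupOf_map_subtype, e, Subgroup.map_bot]
    · have := nilpotent_of_mulEquiv (Subgroup.subgroupOfEquivOfLe (Subgroup.subgroupOf_eq_top.1 e))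
      exact absurd q.1.commutator_eq_top (Group.IsSolvable.commutator_lt_top_of_nontrivial N).ne

/-- Let a finite group G act faithfully and 2-transitively on a finite set X, and let N be an abelian normal subgroup of the stabilizer of a point x which is not semiregular on the remaining points (some non-identity element of N fixes a second point). Then the generalized Fitting subgroup of G is isomorphic to PSL_n(F) for some n ≥ 3 and some finite field F. -/
theorem result {G X : Type*} [Group G] [Finite G] [Fintype X]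
    [MulAction G X] [FaithfulSMul G X] (h2 : MulAction.IsMultiplyPretransitive G X 2) (x : X)
    (N : Subgroup G) (hNle : N ≤ MulAction.stabilizer G x)
    (hNnormal : ∀ g ∈ MulAction.stabilizer G x, ∀ n ∈ N, g * n * g⁻¹ ∈ N) (hNab : IsMulCommutative N)
    (hnsr : ∃ n ∈ N, n ≠ 1 ∧ ∃ y : X, y ≠ x ∧ n • y = y) :
    ∃ (F : Type) (_ : Field F) (_ : Fintype F) (n : ℕ), 3 ≤ n ∧
      Nonempty (↥(Cfsg.generalizedFittingSubgroup G) ≃* Matrix.ProjectiveSpecialLinearGroup (Fin n) F) := by
  obtain ⟨M, p, h, -⟩ := H25.exists_ON h2 x N hNle hNnormal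
    (fun a ha b hb => congrArg Subtype.val (hNab.1.1 ⟨a, ha⟩ ⟨b, hb⟩)) hnsr
  obtain ⟨-, -, -, y, hy, -⟩ := hnsr
  have : Nontrivial X := ⟨y, x, hy⟩
  obtain ⟨F, _, _, n, f, -, h3, hN, hC, ⟨e⟩, -⟩ := h.main
  have := H22.PSL_isSimpleGroup_of_three_le (F := F) (ι := Fin n) (by simpa)
  have := e.isSimpleGroup
  exact ⟨F, _, ‹_›, n, h3, ⟨(MulEquiv.subgroupCongr (fstar_eq hC)).trans e⟩⟩

end Cfsg.Agent.S3410
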