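import Cfsg.Statements.S3427
import Cfsg.Agent.H4.UG3
import Cfsg.Agent.S1059

set_option autoImplicit false
open Cfsg

namespace Cfsg.Agent.S3427

/-- Let F be the field with 2 elements and let M be the Chevalley group of type G₂ over F (a non-simple group of order 12096 whose derived subgroup, of index 2, is isomorphic to PSU(3, 3)). A finite group G is isomorphic to M if and only if G has the same set of element orders and the same order as M. -/
theorem result {G : Type*} [Group G] [Finite G] {F : Type*} [Field F] [Fintype F] (hF : Fintype.card F = 2) :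
    Nonempty (G ≃* ↥(Cfsg.Lie.chevG2.group F)) ↔
      (Set.range (orderOf : G → ℕ) = Set.range (orderOf : ↥(Cfsg.Lie.chevG2.group F) → ℕ) ∧ Nat.card G = Nat.card ↥(Cfsg.Lie.chevG2.group F)) := by
  have hM : Nat.card (Lie.chevG2.group F) = 12096 := by simpa using Cfsg.Agent.S1059.result hF
  have : Finite (Lie.chevG2.group F) := Nat.finite_of_card_ne_zero (by rw [hM]; norm_num)
  refine ⟨fun ⟨e⟩ => ⟨?_, Nat.card_congr e.toEquiv⟩, fun ⟨h1, h2⟩ => ?_⟩
  · ext n
    exact ⟨fun ⟨g, hg⟩ => ⟨e g, (e.orderOf_eq g).trans hg⟩,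
      fun ⟨g, hg⟩ => ⟨e.symm g, (e.symm.orderOf_eq g).trans hg⟩⟩
  · obtain ⟨a⟩ := H4.UG.uniq hM (H29.sp hF)
    obtain ⟨b⟩ := H4.UG.uniq (h2.trans hM) fun g => by
      obtain ⟨m, hm⟩ : orderOf g ∈ Set.range (orderOf : Lie.chevG2.group F → ℕ) := h1 ▸ ⟨g, rfl⟩
      simpa only [← orderOf_dvd_iff_pow_eq_one, hm] using H29.sp hF m
    exact ⟨b.trans a.symm⟩

end Cfsg.Agent.S3427
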