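import Mathlib
import Cfsg.Statements.S3431
import Cfsg.Agent.H8.NS3

set_option autoImplicit false
open Cfsg

namespace Cfsg.Agent.S3431

open H1.Ord H8.NS

theorem cnt (n k v : ℕ) (hk : k ≠ 0)
    (h : (Finset.univ.filter
      (fun g : Equiv.Perm (Fin n) => Equiv.Perm.sign g = 1 ∧ g ^ k = 1)).card = v) :
    ∑ d ∈ k.divisors, s (alternatingGroup (Fin n)) d = v := by
  rw [← sum_s _ hk, card_alt, h]

theorem v4 : s (alternatingGroup (Fin 4)) 2 = 3 ∧ s (alternatingGroup (Fin 4)) 3 = 8 := by
  have h1 := s_one (alternatingGroup (Fin 4))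
  have h2 := cnt 4 2 4 (by norm_num) (by decide +kernel)
  have h3 := cnt 4 3 9 (by norm_num) (by decide +kernel)
  rw [Nat.prime_two.sum_divisors] at h2
  rw [Nat.prime_three.sum_divisors] at h3
  omega

theorem v5 : s (alternatingGroup (Fin 5)) 2 = 15 ∧ s (alternatingGroup (Fin 5)) 3 = 20 ∧
    s (alternatingGroup (Fin 5)) 5 = 24 := by
  have h1 := s_one (alternatingGroup (Fin 5))
  have h2 := cnt 5 2 16 (by norm_num) (by decide +kernel)
  have h3 := cnt 5 3 21 (by norm_num) (by decide +kernel)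
  have h5 := cnt 5 5 25 (by norm_num) (by decide +kernel)
  rw [Nat.prime_two.sum_divisors] at h2
  rw [Nat.prime_three.sum_divisors] at h3
  rw [Nat.prime_five.sum_divisors] at h5
  omega

theorem c62 : ∑ d ∈ Nat.divisors 2, s (alternatingGroup (Fin 6)) d = 46 :=
  cnt 6 2 46 (by norm_num) (by decide +kernel)
theorem c63 : ∑ d ∈ Nat.divisors 3, s (alternatingGroup (Fin 6)) d = 81 :=
  cnt 6 3 81 (by norm_num) (by decide +kernel)
theorem c64 : ∑ d ∈ Nat.divisors 4, s (alternatingGroup (Fin 6)) d = 136 :=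
  cnt 6 4 136 (by norm_num) (by decide +kernel)
theorem c65 : ∑ d ∈ Nat.divisors 5, s (alternatingGroup (Fin 6)) d = 145 :=
  cnt 6 5 145 (by norm_num) (by decide +kernel)

theorem v6 : s (alternatingGroup (Fin 6)) 2 = 45 ∧ s (alternatingGroup (Fin 6)) 3 = 80 ∧
    s (alternatingGroup (Fin 6)) 4 = 90 ∧ s (alternatingGroup (Fin 6)) 5 = 144 := by
  have h1 := s_one (alternatingGroup (Fin 6))
  have h2 := c62
  have h3 := c63
  have h4 := c64
  have h5 := c65
  rw [Nat.prime_two.sum_divisors] at h2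
  rw [Nat.prime_three.sum_divisors] at h3
  rw [Nat.prime_five.sum_divisors] at h5
  rw [show Nat.divisors 4 = {1, 2, 4} by decide] at h4
  simp only [Finset.mem_insert, Finset.mem_singleton, Nat.reduceEqDiff, or_self,
    not_false_eq_true, Finset.sum_insert, Finset.sum_singleton] at h4
  omega

theorem cA (n : ℕ) (hn : 2 ≤ n) : 2 * Nat.card (alternatingGroup (Fin n)) = n.factorial := by
  haveI : Nontrivial (Fin n) := Fin.nontrivial_iff_two_le.2 hn
  rw [Nat.card_eq_fintype_card, two_mul_card_alternatingGroup, Fintype.card_perm, Fintype.card_fin]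

theorem result {G : Type*} [Group G] [Finite G] (n : ℕ) (hn : n = 4 ∨ n = 5 ∨ n = 6)
    (h : ((fun m : ℕ => Nat.card {g : G // orderOf g = m}) '' Set.range (orderOf : G → ℕ)) = ((fun m : ℕ => Nat.card {g : ↥(alternatingGroup (Fin n)) // orderOf g = m}) '' Set.range (orderOf : ↥(alternatingGroup (Fin n)) → ℕ))) :
    Nonempty (G ≃* ↥(alternatingGroup (Fin n))) := by
  rcases hn with rfl | rfl | rfl
  · obtain ⟨a2, a3⟩ := v4
    have a1 := s_one (alternatingGroup (Fin 4))
    have c := cA 4 (by norm_num)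
    rw [set_eq (A := alternatingGroup (Fin 4)) {1, 2, 3}
      (by simp [a1, a2, a3, Nat.factorial] at c ⊢; omega)
      (by simp [a1, a2, a3])] at h
    obtain ⟨h1, h2⟩ := vals h
    simp only [Finset.coe_insert, Finset.coe_singleton, Set.image_insert_eq, Set.image_singleton,
      a1, a2, a3, Set.mem_insert_iff, Set.mem_singleton_iff] at h1 h2
    exact a4 h1 (h2 _ (by norm_num)) (h2 _ (by norm_num))
  · obtain ⟨a2, a3, a5'⟩ := v5
    have a1 := s_one (alternatingGroup (Fin 5))
    have c := cA 5 (by norm_num)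
    rw [set_eq (A := alternatingGroup (Fin 5)) {1, 2, 3, 5}
      (by simp [a1, a2, a3, a5', Nat.factorial] at c ⊢; omega)
      (by simp [a1, a2, a3, a5'])] at h
    obtain ⟨h1, h2⟩ := vals h
    simp only [Finset.coe_insert, Finset.coe_singleton, Set.image_insert_eq, Set.image_singleton,
      a1, a2, a3, a5', Set.mem_insert_iff, Set.mem_singleton_iff] at h1 h2
    exact a5 h1 (h2 _ (by norm_num)) (h2 _ (by norm_num)) (h2 _ (by norm_num))
  · obtain ⟨a2, a3, a4', a5'⟩ := v6
    have a1 := s_one (alternatingGroup (Fin 6))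
    have c := cA 6 (by norm_num)
    rw [set_eq (A := alternatingGroup (Fin 6)) {1, 2, 3, 4, 5}
      (by simp [a1, a2, a3, a4', a5', Nat.factorial] at c ⊢; omega)
      (by simp [a1, a2, a3, a4', a5'])] at h
    obtain ⟨h1, h2⟩ := vals h
    simp only [Finset.coe_insert, Finset.coe_singleton, Set.image_insert_eq, Set.image_singleton,
      a1, a2, a3, a4', a5', Set.mem_insert_iff, Set.mem_singleton_iff] at h1 h2
    exact a6 h1 (h2 _ (by norm_num)) (h2 _ (by norm_num)) (h2 _ (by norm_num))
      (h2 _ (by norm_num))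

end Cfsg.Agent.S3431
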