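import Cfsg.Statements.S3493
import Cfsg.Agent.H25.ONS
import Cfsg.Agent.H25.ExtPrim2
import Cfsg.Agent.H25.Prim
import Cfsg.Agent.Lead.FT

set_option autoImplicit false
open Cfsg

namespace Cfsg.Agent.S3493

open MulAction Subgroup H25

theorem exists_real {T : Type*} [Group T] [Finite T] [IsSimpleGroup T] (h : ¬ IsMulCommutative T) :
    ∃ t s : T, t * t ≠ 1 ∧ s * t * s⁻¹ = t⁻¹ := by
  by_contra hn
  push Not at hn
  have h2 : 2 ∣ Nat.card T := by
    by_contra h2
    exact h ⟨⟨IsSimpleGroup.comm_iff_isSolvable.2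
      (FT.odd_solvable T (Nat.odd_iff.2 (by omega)))⟩⟩
  obtain ⟨u, hu⟩ := exists_prime_orderOf_dvd_card' 2 h2
  let I : Subgroup T :=
    { carrier := {x | x * x = 1}
      one_mem' := mul_one 1
      mul_mem' := fun {a b} ha hb => by
        by_contra hab
        refine hn (a * b) a hab ?_
        rw [mul_inv_rev, inv_eq_of_mul_eq_one_right hb, ← mul_assoc, show a * a = 1 from ha,
          one_mul]
      inv_mem' := fun {a} ha => by
        show a⁻¹ * a⁻¹ = 1
        rw [← mul_inv_rev, show a * a = 1 from ha, inv_one] }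
  have hI : I.Normal := ⟨fun n hn g => by
    show g * n * g⁻¹ * (g * n * g⁻¹) = 1
    rw [show g * n * g⁻¹ * (g * n * g⁻¹) = g * (n * n) * g⁻¹ by group, show n * n = 1 from hn]
    simp⟩
  rcases hI.eq_bot_or_eq_top with h0 | h0
  · have : u ∈ I := by
      show u * u = 1
      rw [← pow_two, ← hu, pow_orderOf_eq_one]
    rw [h0, mem_bot] at this
    simp [this] at hu
  · have hall : ∀ x : T, x⁻¹ = x := fun x =>
      inv_eq_of_mul_eq_one_right (show x ∈ I from h0 ▸ mem_top x)
    exact h ⟨⟨fun a b => by rw [← hall (a * b), mul_inv_rev, hall, hall]⟩⟩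

variable {G Ω : Type*} [Group G] [Finite G] [Finite Ω] [MulAction G Ω] [FaithfulSMul G Ω]
  [Nontrivial Ω] [IsPreprimitive G Ω] {N : Subgroup G} {m : ℕ} {T : Fin m → Subgroup G}
  [hN : N.Normal] [IsPretransitive N Ω] (h : Fac N T) (a : Ω)
  (hep : ∀ α ω : Ω, IsPreprimitive (stabilizer G α) (orbit (stabilizer G α) ω))
include h hep

theorem case_reg (hm : 2 ≤ m) (hreg : ∀ n ∈ N, n • a = a → n = 1) : False := by
  let i : Fin m := ⟨0, by omega⟩
  let j : Fin m := ⟨1, by omega⟩
  have hij : i ≠ j := by simp [i, j]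
  obtain ⟨⟨t, ht⟩, ht1⟩ := (Subgroup.ne_bot_iff_exists_ne_one).1 (h.ne_bot i)
  replace ht1 : t ≠ 1 := fun e => ht1 (Subtype.ext e)
  have hconj : ∀ g : G, g • a = a → ∀ s ∈ N, ∀ s' ∈ N, g • s • a = s' • a → g * s * g⁻¹ = s' := by
    intro g g1 s hs s' hs' g2
    have := hreg _ (mul_mem (inv_mem hs') (hN.conj_mem s hs g)) (by
      rw [mul_smul, mul_smul, mul_smul, inv_smul_eq_iff.2 g1.symm, g2, inv_smul_smul])
    exact (inv_mul_eq_one.1 this).symm
  have hsm : ∀ g : G, g • a = a → ∀ s : G, (g * s * g⁻¹) • a = g • s • a := by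
    intro g g1 s
    rw [mul_smul, mul_smul, inv_smul_eq_iff.2 g1.symm]
  have hB : IsBlock (stabilizer G a)
      {x : orbit (stabilizer G a) (t • a) | ∃ s ∈ T i, s • a = x} := by
    apply isBlock_of_maps
    rintro g x ⟨s, hs, hx⟩ ⟨s', hs', hx'⟩ y ⟨u, hu, hy⟩
    have e := hconj g g.2 s (h.le i hs) s' (h.le i hs') (by rw [hx, hx']; rfl)
    obtain ⟨k, hk⟩ := h.perm g i
    have hs1 : s' ≠ 1 := by
      rintro rfl
      obtain ⟨w, hw⟩ := (g • x).2
      rw [← hx', one_smul] at hw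
      exact ht1 (hreg t (h.le i ht) (smul_left_cancel w (hw.trans w.2.symm)))
    obtain rfl : i = k := by
      by_contra hik
      exact hs1 (h.eq_one hik hs' (e ▸ (hk s).1 hs))
    exact ⟨_, (hk u).1 hu, by rw [hsm g g.2, hy]; rfl⟩
  have key : ∀ g : G, g • a = a → g * t * g⁻¹ ∈ T i → g * t * g⁻¹ = t := by
    rcases (hep a (t • a)).isTrivialBlock_of_isBlock hB with h1 | h1
    · intro g g1 g2
      have := h1 (x := ⟨g • t • a, ⟨g, g1⟩, rfl⟩) ⟨_, g2, hsm g g1 t⟩
        (y := ⟨t • a, mem_orbit_self _⟩) ⟨t, ht, rfl⟩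
      exact hconj g g1 t (h.le i ht) t (h.le i ht) (congrArg Subtype.val this)
    · exfalso
      obtain ⟨g, g1, g2⟩ := h.trans_stab a i j
      obtain ⟨s, hs, e⟩ : (⟨g • t • a, ⟨g, g1⟩, rfl⟩ : orbit (stabilizer G a) (t • a)) ∈
        {x : orbit (stabilizer G a) (t • a) | ∃ s ∈ T i, s • a = x} := h1 ▸ Set.mem_univ _
      have e' := hconj g g1 t (h.le i ht) s (h.le i hs) e.symm
      have := h.eq_one hij hs (e' ▸ g2 t ht)
      rw [this, mul_inv_eq_one, mul_eq_left] at e'
      exact ht1 e'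
  let A : Subgroup G := closure {x | ∃ g : G, g • a = a ∧ g * t * g⁻¹ = x}
  have hAN : A ≤ N := by
    rw [closure_le]
    rintro _ ⟨g, -, rfl⟩
    exact hN.conj_mem t (h.le i ht) g
  have hA : IsMulCommutative A := by
    apply isMulCommutative_closure
    rintro _ ⟨g, g1, rfl⟩ _ ⟨k, k1, rfl⟩
    obtain ⟨l, hl⟩ := h.perm g i
    obtain ⟨l', hl'⟩ := h.perm k i
    by_cases e : l = l'
    · subst e
      have := key (k⁻¹ * g) (by rw [mul_smul, g1, inv_smul_eq_iff, k1]) ((hl' _).2 (by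
        rw [show k * (k⁻¹ * g * t * (k⁻¹ * g)⁻¹) * k⁻¹ = g * t * g⁻¹ by group]
        exact (hl t).1 ht))
      rw [show g * t * g⁻¹ = k * (k⁻¹ * g * t * (k⁻¹ * g)⁻¹) * k⁻¹ by group, this]
    · exact h.comm l l' e ((hl' t).1 ht) _ ((hl t).1 ht)
  have hn : stabilizer G a ≤ normalizer (A : Set G) := by
    apply le_normalizer_closure_iff.2
    rintro g hg _ ⟨k, k1, rfl⟩
    exact subset_closure ⟨g * k, by rw [mul_smul, k1]; exact hg, by group⟩
  have htop : A ⊔ stabilizer G a = ⊤ := by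
    refine (IsPreprimitive.isCoatom_stabilizer_of_isPreprimitive G a).2 _
      (lt_of_le_of_ne le_sup_right fun e => ht1 (hreg t (h.le i ht) ?_))
    have : t ∈ A ⊔ stabilizer G a :=
      mem_sup_left (subset_closure ⟨1, one_smul _ _, by simp⟩)
    rwa [← e] at this
  have hle : T i ≤ A := by
    intro s hs
    have : s ∈ ((A ⊔ stabilizer G a : Subgroup G) : Set G) := htop ▸ mem_top s
    rw [coe_mul_of_right_le_normalizer_left _ _ hn] at this
    obtain ⟨x, hx, y, hy, e⟩ := this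
    have hy1 := hreg y (by
      rw [show y = x⁻¹ * s by rw [← e]; simp]
      exact mul_mem (inv_mem (hAN hx)) (h.le i hs)) hy
    simp only [hy1, mul_one] at e
    exact e ▸ hx
  exact h.nonab i ⟨⟨fun x y => Subtype.ext
    (congrArg (fun z : A => (z : G)) (hA.1.1 ⟨x, hle x.2⟩ ⟨y, hle y.2⟩))⟩⟩

open scoped Pointwise in
theorem fac_trans (hH : ∀ α : Ω, stabilizer G α ≠ ⊥)
    (hK : (N ⊔ centralizer (N : Set G)) ⊓ stabilizer G a ≠ ⊥) (i : Fin m) :
    IsPretransitive (T i) Ω := by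
  set K := (N ⊔ centralizer (N : Set G)) ⊓ stabilizer G a with hKd
  have hn : stabilizer G a ≤ normalizer (K : Set G) :=
    (le_inf (le_top.trans (normalizer_eq_top (N ⊔ centralizer (N : Set G))).ge) le_normalizer).trans
      inf_normalizer_le_normalizer_inf
  have hKT : ∀ k ∈ K, ∀ t ∈ T i, k * t * k⁻¹ ∈ T i := by
    intro k hk t ht
    obtain ⟨n, hn, c, hc, rfl⟩ := mem_sup_of_normal_left.1 hk.1
    rw [show n * c * t * (n * c)⁻¹ = n * (c * t * c⁻¹) * n⁻¹ by group, ← hc t (h.le i ht),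
      mul_inv_cancel_right]
    exact h.norm i n hn t ht
  have hle : stabilizer G a ≤ stabilizer G (orbit (T i) a) := by
    intro g hg
    rw [mem_stabilizer_set_iff_smul_set_subset (Set.toFinite _)]
    rintro _ ⟨_, ⟨t, rfl⟩, rfl⟩
    by_cases hx : t • a = a
    · simp only [hx]
      rw [hg]; exact mem_orbit_self a
    have := orbit_eq_of_normal_prim (hep a (t • a)) inf_le_right hn
      fun hb => hK (manning hH hep a K inf_le_right hn hx hb)
    obtain ⟨k, hk⟩ : g • t • a ∈ orbit K (t • a) := this ▸ ⟨⟨g, hg⟩, rfl⟩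
    refine ⟨⟨_, hKT k k.2 t t.2⟩, ?_⟩
    show ((k : G) * t * (k : G)⁻¹) • a = _
    rw [mul_smul, mul_smul, inv_smul_eq_iff.2 (k.2.2 : (k : G) • a = a).symm]
    exact hk
  have htop : stabilizer G (orbit (T i) a) = ⊤ :=
    (IsPreprimitive.isCoatom_stabilizer_of_isPreprimitive G a).2 _
      (lt_of_le_of_ne hle fun e => h.not_le_stab a i (e ▸ le_stabilizer_orbit _ _))
  refine (isPretransitive_iff_base a).2 fun x => ?_
  obtain ⟨g, rfl⟩ := exists_smul_eq G a x
  have : g • orbit (T i) a = orbit (T i) a := (htop ▸ mem_top g : g ∈ stabilizer G _)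
  exact (this ▸ Set.smul_mem_smul_set (mem_orbit_self a) : g • a ∈ orbit (T i) a)

include a in
theorem case_diag (i : Fin m) [IsPretransitive (centralizer (T i : Set G)) Ω] : False := by
  have := h.simple i
  obtain ⟨⟨t, ht⟩, ⟨s, hs⟩, h1, h2⟩ := exists_real (h.nonab i)
  replace h1 : t * t ≠ 1 := fun e => h1 (Subtype.ext e)
  replace h2 : s * t * s⁻¹ = t⁻¹ := congrArg Subtype.val h2
  have hreg : ∀ u ∈ T i, ∀ v ∈ T i, u • a = v • a → u = v := by
    intro u hu v hv e
    have := eq_one_of_centralizer_trans (K := centralizer (T i : Set G)) (a := a) (t := v⁻¹ * u)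
      (fun k hk => (hk _ (mul_mem (inv_mem hv) hu)).symm) (by rw [mul_smul, e, inv_smul_smul])
    exact (inv_mul_eq_one.1 this).symm
  have hι : ∀ g : G, g • a = a → ∀ u ∈ T i, ∀ v ∈ T i, g • u • a = v • a →
      g • u⁻¹ • a = v⁻¹ • a := by
    intro g g1 u hu v hv e
    have hsm : ∀ s : G, (g * s * g⁻¹) • a = g • s • a := by
      intro s
      rw [mul_smul, mul_smul, inv_smul_eq_iff.2 g1.symm]
    rw [← hsm] at e ⊢
    obtain ⟨j, hj⟩ := h.perm g i
    rw [show g * u⁻¹ * g⁻¹ = (g * u * g⁻¹)⁻¹ by group]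
    by_cases hij : i = j
    · subst hij
      rw [hreg _ ((hj u).1 hu) v hv e]
    · rw [inv_smul_eq_iff, ← mul_smul, ← h.comm i j hij ((hj u).1 hu) _ (inv_mem hv), mul_smul, e,
        inv_smul_smul]
  have hcl : ∀ u ∈ T i, (u * t * u⁻¹) • a ∈ orbit (stabilizer G a) (t • a) := by
    intro u hu
    obtain ⟨c, hc⟩ := exists_smul_eq (centralizer (T i : Set G)) a (u⁻¹ • a)
    have hc' : (c : G) • a = u⁻¹ • a := hc
    refine ⟨⟨u * c, by rw [mem_stabilizer_iff, mul_smul, hc', smul_inv_smul]⟩, ?_⟩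
    show (u * c) • t • a = _
    rw [mul_smul, ← mul_smul (c : G), ← c.2 t ht, mul_smul, hc', mul_smul, mul_smul]
  have hB : IsBlock (stabilizer G a)
      {x : orbit (stabilizer G a) (t • a) | (x : Ω) = t • a ∨ (x : Ω) = t⁻¹ • a} := by
    apply isBlock_of_maps
    intro g x hx hx' y hy
    have hti := inv_mem ht
    change (g : G) • (x : Ω) = _ ∨ (g : G) • (x : Ω) = _ at hx'
    change (g : G) • (y : Ω) = _ ∨ (g : G) • (y : Ω) = _
    rcases hx with hx | hx <;> rcases hy with hy | hy <;> rw [hx] at hx' <;> rw [hy]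
    · exact hx'
    · exact (hx'.imp (hι g g.2 t ht _ ht) (fun e => by simpa using hι g g.2 t ht _ hti e)).symm
    · exact (hx'.imp (fun e => by simpa using hι g g.2 _ hti _ ht e)
        (fun e => by simpa using hι g g.2 _ hti _ hti e)).symm
    · exact hx'
  rcases (hep a (t • a)).isTrivialBlock_of_isBlock hB with h3 | h3
  · have := h3 (x := ⟨_, mem_orbit_self _⟩) (Or.inl rfl) (y := ⟨_, hcl s hs⟩) (Or.inr (congrArg (· • a) h2))
    have := hreg t ht _ (inv_mem ht) (h2 ▸ congrArg Subtype.val this)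
    exact h1 (mul_eq_one_iff_eq_inv.2 this)
  · have hz : (zpowers (⟨t, ht⟩ : T i)).Normal := by
      refine ⟨?_⟩
      rintro _ ⟨k, rfl⟩ u
      rw [← conj_zpow]
      apply zpow_mem
      have : (⟨_, hcl u u.2⟩ : orbit (stabilizer G a) (t • a)) ∈ {x : orbit (stabilizer G a) (t • a) |
        (x : Ω) = t • a ∨ (x : Ω) = t⁻¹ • a} := h3 ▸ Set.mem_univ _
      have hm : (u : G) * t * (u : G)⁻¹ ∈ T i := mul_mem (mul_mem u.2 ht) (inv_mem u.2)
      rcases this with e | e
      · exact ⟨1, Subtype.ext (by simpa using (hreg _ hm _ ht e).symm)⟩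
      · exact ⟨-1, Subtype.ext (by simpa using (hreg _ hm _ (inv_mem ht) e).symm)⟩
    rcases hz.eq_bot_or_eq_top with e | e
    · rw [zpowers_eq_bot] at e
      exact h1 (by rw [show t = 1 from congrArg Subtype.val e, mul_one])
    · have : IsCyclic (T i) := ⟨_, fun x => (e ▸ mem_top x : x ∈ zpowers _)⟩
      exact h.nonab i inferInstance

omit h hep

/-- An extremely primitive permutation group is of affine type or almost simple. Let a finite group G act faithfully and primitively on a finite set Ω with at least two points, in such a way that every point stabilizer acts primitively on each of its own orbits in Ω (an orbit of size one counts as primitive). Then either G has a non-trivial abelian normal subgroup whose elements other than the identity fix no point (affine type), or G has a non-abelian simple normal subgroup with trivial centralizer (almost simple). -/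
theorem result {G : Type*} [Group G] [Finite G] {Ω : Type*} [Fintype Ω] [MulAction G Ω] [FaithfulSMul G Ω] (hΩ : 2 ≤ Fintype.card Ω) (hprim : MulAction.IsPreprimitive G Ω) (hep : ∀ (α : Ω) (ω : Ω), MulAction.IsPreprimitive (MulAction.stabilizer G α) (MulAction.orbit (MulAction.stabilizer G α) ω)) :
    (∃ N : Subgroup G, N.Normal ∧ N ≠ ⊥ ∧ IsMulCommutative N ∧ ∀ ω : Ω, MulAction.stabilizer N ω = ⊥) ∨ (∃ T : Subgroup G, T.Normal ∧ IsSimpleGroup T ∧ ¬ IsMulCommutative T ∧ Subgroup.centralizer (T : Set G) = ⊥) := by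
  have : Nontrivial Ω := Fintype.one_lt_card_iff_nontrivial.1 hΩ
  rcases ons_cases hprim with ⟨N, h1, h0, h2, -, -, h5⟩ | h | ⟨N, m, T, h1, h2, h3, h4⟩
  · exact Or.inl ⟨N, h1, h0, h2, h5⟩
  · exact Or.inr h
  exfalso
  obtain ⟨a⟩ : Nonempty Ω := inferInstance
  have hH : ∀ α : Ω, stabilizer G α ≠ ⊥ := by
    intro α h0
    have hc := IsPreprimitive.isCoatom_stabilizer_of_isPreprimitive G α
    rw [h0] at hc
    have := (prime_card_of_isCoatom_bot hc).1
    exact h3.nonab ⟨0, h3.pos⟩ inferInstance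
  by_cases hK : (N ⊔ centralizer (N : Set G)) ⊓ stabilizer G a = ⊥
  · have hreg : ∀ n ∈ N ⊔ centralizer (N : Set G), n • a = a → n = 1 := fun n hn e =>
      (hK ▸ ⟨hn, e⟩ : n ∈ (⊥ : Subgroup G))
    refine case_reg h3 a hep (h4.resolve_right ?_) fun n hn => hreg n (mem_sup_left hn)
    rintro ⟨hC, hT⟩
    apply hC
    rw [eq_bot_iff]
    intro c hc
    obtain ⟨n, hn⟩ := exists_smul_eq N a (c • a)
    have := hreg _ (mul_mem (mem_sup_left (inv_mem n.2)) (mem_sup_right hc))
      (by rw [mul_smul, inv_smul_eq_iff]; exact hn.symm)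
    have hcN : c ∈ N := inv_mul_eq_one.1 this ▸ n.2
    have := h3.simple ⟨0, h3.pos⟩
    rw [← hT ⟨0, h3.pos⟩] at hcN hc
    exact inf_centralizer_eq_bot (h3.nonab _) hcN hc
  rcases h4 with hm | ⟨hC, hT⟩
  · have := fac_trans h3 a hep hH hK ⟨1, hm⟩
    have : IsPretransitive (centralizer (T ⟨0, h3.pos⟩ : Set G)) Ω := ⟨fun x y => by
      obtain ⟨t, ht⟩ := exists_smul_eq (T ⟨1, hm⟩) x y
      exact ⟨⟨t, h3.comm _ _ (by simp) t.2⟩, ht⟩⟩
    exact case_diag h3 a hep ⟨0, h3.pos⟩
  · have : IsPretransitive (centralizer (T ⟨0, h3.pos⟩ : Set G)) Ω := by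
      rw [hT]; exact normal_transitive_of_primitive _ hC
    exact case_diag h3 a hep ⟨0, h3.pos⟩

end Cfsg.Agent.S3493
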