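import Cfsg.Statements.S3495
import Cfsg.Agent.H25.ExtPrim

set_option autoImplicit false
open Cfsg

namespace Cfsg.Agent.S3495

open MulAction Subgroup

/-- Let a finite group G act faithfully and primitively on a finite set Ω with non-trivial point stabilizers, each acting primitively on every one of its orbits (an extremely primitive group), and suppose G has an elementary abelian normal p-subgroup N acting regularly on Ω (affine type). Then every non-trivial subgroup M of a point stabilizer G_α that is normal in G_α has the same orbits on Ω as G_α, and normalizes no subgroup of N other than 1 and N. -/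
theorem result {G : Type*} [Group G] [Finite G] {Ω : Type*} [Fintype Ω] [MulAction G Ω] [FaithfulSMul G Ω] (hprim : MulAction.IsPreprimitive G Ω) (hH : ∀ α : Ω, MulAction.stabilizer G α ≠ ⊥) (hep : ∀ (α : Ω) (ω : Ω), MulAction.IsPreprimitive (MulAction.stabilizer G α) (MulAction.orbit (MulAction.stabilizer G α) ω))
    (N : Subgroup G) [N.Normal] (hNc : IsMulCommutative N) (p : ℕ) (hp : p.Prime) (hNp : ∀ n ∈ N, n ^ p = 1)
    (hNtr : MulAction.IsPretransitive N Ω) (hNreg : ∀ ω : Ω, MulAction.stabilizer N ω = ⊥) (α : Ω) (M : Subgroup G) (hM : M ≠ ⊥) (hMle : M ≤ MulAction.stabilizer G α)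
    (hMn : MulAction.stabilizer G α ≤ Subgroup.normalizer (M : Set G)) :
    (∀ ω : Ω, MulAction.orbit M ω = MulAction.orbit (MulAction.stabilizer G α) ω) ∧
    (∀ L : Subgroup G, L ≤ N → M ≤ Subgroup.normalizer (L : Set G) → L = ⊥ ∨ L = N) := by
  have h1 : ∀ ω : Ω, orbit M ω = orbit (stabilizer G α) ω := by
    intro ω
    by_cases hω : ω = α
    · subst hω
      ext x
      exact ⟨by rintro ⟨m, rfl⟩; exact ⟨⟨m, hMle m.2⟩, rfl⟩, by
        rintro ⟨m, rfl⟩; exact ⟨1, (one_smul _ _).trans m.2.symm⟩⟩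
    · exact H25.orbit_eq_of_normal_prim (hep α ω) hMle hMn fun h =>
        hM (H25.manning hH hep α M hMle hMn hω h)
  refine ⟨h1, fun L hLN hML => ?_⟩
  have hinj : ∀ a ∈ N, ∀ b ∈ N, a • α = b • α → a = b := fun a ha b hb h =>
    congrArg Subtype.val ((H25.bijective_smul_of_regular α (hNreg α)).1 (a₁ := ⟨a, ha⟩) (a₂ := ⟨b, hb⟩) h)
  have hLn : L.Normal := by
    refine ⟨fun l hl g => ?_⟩
    obtain ⟨n, hn⟩ := exists_smul_eq N α (g • α)
    have h2 : (n : G)⁻¹ * g ∈ stabilizer G α := by
      rw [mem_stabilizer_iff, mul_smul, inv_smul_eq_iff]; exact hn.symm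
    obtain ⟨h, hh⟩ : ∃ h, h = (n : G)⁻¹ * g := ⟨_, rfl⟩
    rw [← hh] at h2
    have h3 : h * l * h⁻¹ ∈ L := by
      obtain ⟨m, hm⟩ : h • l • α ∈ orbit M (l • α) := h1 _ ▸ mem_orbit _ (⟨h, h2⟩ : stabilizer G α)
      have : h * l * h⁻¹ = m * l * (m : G)⁻¹ := by
        apply hinj _ (Normal.conj_mem inferInstance _ (hLN hl) _) _
          (Normal.conj_mem inferInstance _ (hLN hl) _)
        rw [mul_smul, mul_smul, mul_smul, mul_smul, mem_stabilizer_iff.1 (inv_mem h2),
          mem_stabilizer_iff.1 (inv_mem (hMle m.2))]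
        exact hm.symm
      rw [this]
      exact H1.conj_mem_of_mem_normalizer (hML m.2) hl
    have h4 : (n : G) * (h * l * h⁻¹) = h * l * h⁻¹ * n :=
      congrArg Subtype.val (hNc.is_comm.comm n ⟨_, hLN h3⟩)
    have : g * l * g⁻¹ = n * (h * l * h⁻¹) * (n : G)⁻¹ := by rw [hh]; group
    rw [this, h4, mul_inv_cancel_right]
    exact h3
  rw [or_iff_not_imp_left]
  intro hL
  have := H25.normal_transitive_of_primitive (α := Ω) L hL
  refine le_antisymm hLN fun n hn => ?_
  obtain ⟨l, hl⟩ := exists_smul_eq L α (n • α)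
  rw [← hinj l (hLN l.2) n hn hl]
  exact l.2

end Cfsg.Agent.S3495
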