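import Cfsg.Statements.S3496
import Cfsg.Agent.H25.ExtPrim2
import Cfsg.Agent.H25.ConjRep
import Cfsg.Agent.H25.Galois
import Cfsg.Agent.H7.IrrCyc
import Cfsg.Agent.H2.FPF2
import Cfsg.Agent.S3495

set_option autoImplicit false
open Cfsg

namespace Cfsg.Agent.S3496

open MulAction Subgroup

/-- The soluble extremely primitive groups. Let a finite solvable group G act faithfully and primitively on a finite set Ω with p ^ d points (p prime), with non-trivial point stabilizers each acting primitively on every one of its orbits. Then there is a prime q such that every orbit of a point stabilizer G_α other than {α} has exactly q points, q divides p ^ d − 1 but no p ^ i − 1 with 0 < i < d, and G_α has a normal subgroup T of order q with G_α generated by T and one further element and the order of G_α dividing q·d (so G_α is cyclic of order q, or an extension of T by a cyclic group of order dividing d). -/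
theorem result {G : Type*} [Group G] [Finite G] {Ω : Type*} [Fintype Ω] [MulAction G Ω] [FaithfulSMul G Ω] [Group.IsSolvable G] (p d : ℕ) (hp : p.Prime) (hcard : Fintype.card Ω = p ^ d)
    (hprim : MulAction.IsPreprimitive G Ω) (hH : ∀ α : Ω, MulAction.stabilizer G α ≠ ⊥) (hep : ∀ (α : Ω) (ω : Ω), MulAction.IsPreprimitive (MulAction.stabilizer G α) (MulAction.orbit (MulAction.stabilizer G α) ω)) (α : Ω) :
    ∃ q : ℕ, q.Prime ∧ (∀ ω : Ω, ω ≠ α → Nat.card (MulAction.orbit (MulAction.stabilizer G α) ω) = q) ∧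
      q ∣ p ^ d - 1 ∧ (∀ i : ℕ, 0 < i → i < d → ¬ q ∣ p ^ i - 1) ∧
      ∃ T : Subgroup G, T ≤ MulAction.stabilizer G α ∧ MulAction.stabilizer G α ≤ Subgroup.normalizer (T : Set G) ∧ Nat.card T = q ∧
        (∃ h : G, MulAction.stabilizer G α = T ⊔ Subgroup.zpowers h) ∧ Nat.card (MulAction.stabilizer G α) ∣ q * d := by
  have hp' := Fact.mk hp
  have hG0 : (⊤ : Subgroup G) ≠ ⊥ := fun h => hH α (eq_bot_iff.2 (h ▸ le_top))
  obtain ⟨N, r, hNn, hN0, -, hr, hNc, hNp, hNpg, -⟩ :=
    H1.exists_minimal_normal_elementary (⊤ : Subgroup G) inferInstance hG0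
  have hNtr := H25.normal_transitive_of_primitive (α := Ω) N hN0
  have hNreg := H25.stabilizer_eq_bot_of_comm (G := N) (α := Ω) fun x y => hNc.is_comm.comm x y
  have hNcard : Nat.card N = p ^ d := by
    rw [H25.card_eq_of_regular α (hNreg α), Nat.card_eq_fintype_card, hcard]
  obtain rfl : r = p := by
    have := Fact.mk hr
    have : Nontrivial N := (nontrivial_iff_ne_bot N).2 hN0
    obtain ⟨n, hn0, hn⟩ := hNpg.nontrivial_iff_card.1 this
    exact (Nat.prime_dvd_prime_iff_eq hr hp).1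
      (hr.dvd_of_dvd_pow (hNcard ▸ hn ▸ dvd_pow_self r hn0.ne'))
  obtain ⟨ω₀, hω₀⟩ : ∃ ω, ω ≠ α := by
    by_contra h
    push Not at h
    apply hH α
    rw [eq_bot_iff]
    intro g _
    exact eq_of_smul_eq_smul (α := Ω) fun x => (h _).trans (h _).symm
  obtain ⟨hU, hc⟩ := H25.extPrim_corefree hH hep hω₀
  have hH0 : (⊤ : Subgroup (stabilizer G α)) ≠ ⊥ := by
    have := (nontrivial_iff_ne_bot _).2 (hH α)
    exact top_ne_bot
  obtain ⟨T₀, q, hTn, hT0, -, hq, hTc, hTq, -, -⟩ :=
    H1.exists_minimal_normal_elementary (⊤ : Subgroup (stabilizer G α)) inferInstance hH0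
  have hq' := Fact.mk hq
  have hCT : T₀ = centralizer (T₀ : Set (stabilizer G α)) :=
    H1.eq_centralizer_of_corefree hU hc hT0 hT0 T₀.le_centralizer
  set T := T₀.map (stabilizer G α).subtype with hT
  have hTH : T ≤ stabilizer G α := map_subtype_le _
  have hTN : stabilizer G α ≤ normalizer (T : Set G) := H1.le_normalizer_map_subtype_iff.2 hTn
  have hTne : T ≠ ⊥ := by rwa [hT, Ne, map_eq_bot_iff_of_injective _ (subtype_injective _)]
  have hfree : ∀ ω ≠ α, stabilizer G ω ⊓ T = ⊥ := by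
    intro ω hω
    obtain ⟨hU', hc'⟩ := H25.extPrim_corefree hH hep hω
    rw [eq_bot_iff]
    rintro _ ⟨h1, t, ht, rfl⟩
    have : t ∈ (⊥ : Subgroup (stabilizer G α)) := by
      rw [← H1.centralizer_inf_corefree hU' hc' hT0, ← hCT]
      exact ⟨ht, h1⟩
    rw [mem_bot.1 this]; exact one_mem _
  have hfpf : ∀ t ∈ T, t ≠ 1 → N ⊓ centralizer {t} = ⊥ := by
    intro t ht ht1
    rw [eq_bot_iff]
    rintro n ⟨hn, hnt⟩
    have h1 : n • α = α := by
      by_contra hne
      apply ht1
      rw [← mem_bot, ← hfree _ hne]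
      refine ⟨?_, ht⟩
      change t • n • α = n • α
      rw [← mul_smul, ← mem_centralizer_singleton_iff.1 hnt, mul_smul, hTH ht]
    have : (⟨n, hn⟩ : N) ∈ stabilizer N α := h1
    rw [hNreg] at this
    exact congrArg Subtype.val (mem_bot.1 this)
  have hTcyc : IsCyclic T := H2.isCyclic_of_fpf_comm T N hN0 le_normalizer_of_normal hfpf
  obtain ⟨t, ht⟩ := (Subgroup.isCyclic_iff_exists_zpowers_eq_top T).1 hTcyc
  have htT : t ∈ T := ht ▸ mem_zpowers t
  have ht1 : t ≠ 1 := by rintro rfl; exact hTne (by rw [← ht, zpowers_one_eq_bot])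
  have htq : t ^ q = 1 := by
    obtain ⟨s, hs, rfl⟩ := htT
    exact congrArg Subtype.val (hTq s hs)
  have hTcard : Nat.card T = q := by rw [← ht, Nat.card_zpowers, orderOf_eq_prime htq ht1]
  obtain ⟨horb, hirr⟩ := S3495.result hprim hH hep N hNc r hp hNp hNtr hNreg α T hTne hTH hTN
  have hrq : r ≠ q := by
    rintro rfl
    refine H2.not_dvd_card_of_fpf hp htq (le_normalizer_of_normal (mem_top t)) (hfpf t htT ht1) ?_
    have : Nontrivial N := (nontrivial_iff_ne_bot N).2 hN0
    obtain ⟨n, hn0, hn⟩ := hNpg.nontrivial_iff_card.1 this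
    exact hn ▸ dvd_pow_self r hn0.ne'
  have hCN : centralizer (N : Set G) ⊓ stabilizer G α = ⊥ := by
    rw [eq_bot_iff]
    rintro g ⟨hg, hgα⟩
    refine eq_of_smul_eq_smul (α := Ω) fun x => ?_
    obtain ⟨n, rfl⟩ := exists_smul_eq N α x
    change g • (n : G) • α = (1 : G) • (n : G) • α
    rw [← mul_smul, ← hg n n.2, mul_smul, hgα, one_smul]
  have hd : d = orderOf (r : ZMod q) := by
    have := H7.card_irr_amb hq hp hrq hNp (x := t) (le_normalizer_of_normal (mem_top t))
      (htq ▸ one_mem _) (fun h => ht1 (mem_bot.1 (hCN ▸ ⟨h, hTH htT⟩)))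
      (fun W hW h => hirr W hW (ht ▸ zpowers_le.2 h))
    rw [hNcard] at this
    exact Nat.pow_right_injective hp.two_le this
  have hdvd : ∀ i, q ∣ r ^ i - 1 ↔ d ∣ i := by
    intro i
    rw [hd, orderOf_dvd_iff_pow_eq_one, ← Nat.modEq_iff_dvd' (Nat.one_le_pow _ _ hp.pos),
      ← ZMod.natCast_eq_natCast_iff, eq_comm]
    simp
  have hT₀card : Nat.card T₀ = q := by rw [← hTcard, card_map_of_injective (subtype_injective _)]
  have hcyc : IsCyclic (stabilizer G α ⧸ T₀) := by
    have : IsCyclic T₀ := isCyclic_of_prime_card hT₀card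
    have h1 : IsCyclic (MulAut T₀) := by
      rw [(IsCyclic.mulAutMulEquiv T₀).isCyclic, hT₀card]
      infer_instance
    have hk : (MulAut.conjNormal (H := T₀)).ker = T₀ := by
      conv_rhs => rw [hCT]
      ext g
      rw [MonoidHom.mem_ker, mem_centralizer_iff]
      constructor
      · intro h x hx
        have := congrArg (fun f : MulAut T₀ => (f ⟨x, hx⟩ : stabilizer G α)) h
        exact (mul_inv_eq_iff_eq_mul.1 this).symm
      · intro h
        ext x
        simp [← h _ x.2]
    exact isCyclic_of_injective _ (QuotientGroup.injective_lift_iff T₀ _ hk.ge |>.2 hk.symm)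
  obtain ⟨h, hh⟩ := hcyc.exists_generator
  obtain ⟨h, rfl⟩ := QuotientGroup.mk_surjective h
  refine ⟨q, hq, fun ω hω => ?_, (hdvd d).2 dvd_rfl,
    fun i hi hid h => absurd (Nat.le_of_dvd hi ((hdvd i).1 h)) (by omega), T, hTH, hTN, hTcard,
    ⟨h, le_antisymm (fun g hg => ?_) (sup_le hTH (zpowers_le.2 h.2))⟩, ?_⟩
  · rw [← horb, Nat.card_coe_set_eq, H25.ncard_suborbit, ← hTcard, ← inf_relIndex_right, hfree ω hω,
      relIndex_bot_left]
  · obtain ⟨k, hk⟩ := hh ((⟨g, hg⟩ : stabilizer G α) : stabilizer G α ⧸ T₀)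
    simp only at hk
    rw [← QuotientGroup.mk_zpow, QuotientGroup.eq] at hk
    have h1 : ((h : G) ^ k)⁻¹ * g ∈ T := ⟨_, hk, by simp⟩
    have : g = h ^ k * (((h : G) ^ k)⁻¹ * g) := by simp
    rw [this]
    exact mul_mem (mem_sup_right (zpow_mem (mem_zpowers _) k)) (mem_sup_left h1)
  · rw [← T₀.card_mul_index, hT₀card]
    apply Nat.mul_dvd_mul_left
    rw [Subgroup.index, ← orderOf_eq_card_of_forall_mem_zpowers hh, orderOf_dvd_iff_pow_eq_one,
      ← QuotientGroup.mk_pow, QuotientGroup.eq_one_iff, hCT]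
    intro s hs
    have h1 := H25.pow_comm_of_irr_amb hNp hNcard hN0 T hirr (hTN h.2) (t := s) ⟨s, hs, rfl⟩
    have h2 : ((s : G) * h ^ d)⁻¹ * (h ^ d * s) ∈ (⊥ : Subgroup G) := by
      rw [← hCN]
      exact ⟨h1, ((s * h ^ d)⁻¹ * (h ^ d * s)).2⟩
    exact Subtype.ext (inv_mul_eq_one.1 (mem_bot.1 h2))

end Cfsg.Agent.S3496
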