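import Cfsg.Statements.S3497
import Cfsg.Agent.H25.ExtPrim2
import Cfsg.Agent.H9.SmallAut
import Cfsg.Agent.H2.Frob

set_option autoImplicit false
open Cfsg

namespace Cfsg.Agent.S3497

open MulAction Subgroup

/-- Restrictions on the point stabilizer of an extremely primitive group. Let a finite group G act faithfully and primitively on a finite set Ω with point stabilizers H = G_α whose order is neither 1 nor a prime, each acting primitively on every one of its orbits. Then H has trivial center, the Fitting subgroup F(H) is an elementary abelian p-group for some prime p, and if F(H) ≠ 1 has order p ^ e then p ^ e divides the number of points minus one and H / F(H) embeds in GL_e(p) (there is a homomorphism from H to GL_e(p) with kernel exactly F(H)). -/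
theorem result {G : Type*} [Group G] [Finite G] {Ω : Type*} [Fintype Ω] [MulAction G Ω] [FaithfulSMul G Ω] (hprim : MulAction.IsPreprimitive G Ω) (hep : ∀ (α : Ω) (ω : Ω), MulAction.IsPreprimitive (MulAction.stabilizer G α) (MulAction.orbit (MulAction.stabilizer G α) ω)) (α : Ω)
    (hH1 : MulAction.stabilizer G α ≠ ⊥) (hHp : ¬ (Nat.card (MulAction.stabilizer G α)).Prime) :
    Subgroup.center (MulAction.stabilizer G α) = ⊥ ∧
    IsMulCommutative (Cfsg.fittingSubgroup (MulAction.stabilizer G α)) ∧
    ∃ p e : ℕ, p.Prime ∧ Nat.card (Cfsg.fittingSubgroup (MulAction.stabilizer G α)) = p ^ e ∧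
      (∀ x ∈ Cfsg.fittingSubgroup (MulAction.stabilizer G α), x ^ p = 1) ∧
      (Cfsg.fittingSubgroup (MulAction.stabilizer G α) ≠ ⊥ →
        p ^ e ∣ Fintype.card Ω - 1 ∧
        ∃ φ : MulAction.stabilizer G α →* GL (Fin e) (ZMod p), φ.ker = Cfsg.fittingSubgroup (MulAction.stabilizer G α)) := by
  have hH := H25.stabilizer_ne_bot_of_trans hH1
  obtain ⟨ω, hω⟩ : ∃ ω, ω ≠ α := by
    by_contra h
    push Not at h
    apply hH1
    rw [eq_bot_iff]
    intro g _
    exact eq_of_smul_eq_smul (α := Ω) fun x => (h _).trans (h _).symm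
  obtain ⟨hU, hc⟩ := H25.extPrim_corefree hH hep hω
  refine ⟨?_, ?_⟩
  · by_contra hZ
    have h1 := H1.centralizer_inf_corefree hU hc hZ
    have h2 : centralizer (center (stabilizer G α) : Set (stabilizer G α)) = ⊤ := by
      rw [eq_top_iff]
      intro x _ z hz
      exact (mem_center_iff.1 hz x).symm
    rw [h2, top_inf_eq] at h1
    exact hHp (H25.prime_card_of_isCoatom_bot (h1 ▸ hU)).2
  · by_cases hF : fittingSubgroup (stabilizer G α) = ⊥
    · rw [hF]
      exact ⟨inferInstance, 2, 0, Nat.prime_two, by simp, by simp, fun h => (h rfl).elim⟩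
    obtain ⟨N, p, hNn, hN0, hNF, hp, hNc, hNp, hNpg, hmin⟩ :=
      H1.exists_minimal_normal_elementary (fittingSubgroup (stabilizer G α)) inferInstance hF
    have := Fact.mk hp
    have hCN : N = centralizer (N : Set (stabilizer G α)) :=
      H1.eq_centralizer_of_corefree hU hc hN0 hN0 N.le_centralizer
    have hFN : fittingSubgroup (stabilizer G α) = N := by
      refine le_antisymm ?_ hNF
      have h1 := H1.inf_centralizer_ne_bot inferInstance hNF le_normalizer_of_normal hN0
      have h2 := (hmin _ inferInstance inf_le_left).resolve_left h1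
      rw [hCN, le_centralizer_iff]
      exact h2.ge.trans inf_le_right
    rw [hFN]
    obtain ⟨e, he⟩ := IsPGroup.iff_card.1 hNpg
    refine ⟨hNc, p, e, hp, he, hNp, fun _ => ⟨?_, ?_⟩⟩
    · have h1 := H2.card_dvd_of_free (A := N) ({α}ᶜ : Set Ω) (fun a x hx h => hx
        (smul_left_cancel (a : stabilizer G α).1 ((show _ = α from h).trans a.1.2.symm)))
        (fun a x hx h => by
          obtain ⟨hU', hc'⟩ := H25.extPrim_corefree hH hep (show x ≠ α from hx)
          apply Subtype.ext
          rw [OneMemClass.coe_one, ← mem_bot, ← H1.centralizer_inf_corefree hU' hc' hN0, ← hCN]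
          exact ⟨a.2, h⟩)
      rwa [he, Nat.card_coe_set_eq, Set.compl_eq_univ_diff,
        Set.ncard_diff_singleton_of_mem (Set.mem_univ _), Set.ncard_univ,
        Nat.card_eq_fintype_card] at h1
    · obtain ⟨ρ, hρ⟩ := H9.exists_matrix_rep N ⟨hNc, hNp⟩ he
      refine ⟨ρ.toHomUnits, ?_⟩
      ext g
      rw [MonoidHom.mem_ker, Units.ext_iff, MonoidHom.coe_toHomUnits, Units.val_one, hρ, ← hCN]

end Cfsg.Agent.S3497
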