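import Cfsg.Statements.S3498
import Cfsg.Agent.H2.FPF
import Cfsg.Agent.H17.Frob

set_option autoImplicit false
open Cfsg

namespace Cfsg.Agent.S3498

open Subgroup

theorem eq_bot_of_comm {G : Type*} [Group G] (T : Subgroup G) [T.Normal] (hT : IsSimpleGroup T)
    (hTc : ¬ IsMulCommutative T) (hC : Subgroup.centralizer (T : Set G) = ⊥) (V : Subgroup G)
    [V.Normal] [hV : IsMulCommutative V] : V = ⊥ := by
  rcases hT.eq_bot_or_eq_top_of_normal (V.subgroupOf T) inferInstance with h | h
  · rw [eq_bot_iff, ← hC, ← commutator_eq_bot_iff_le_centralizer, eq_bot_iff]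
    rw [subgroupOf_eq_bot, disjoint_iff] at h
    rw [← h]
    exact commutator_le_inf V T
  · exact (hTc (H1.isMulCommutative_of_le (subgroupOf_eq_top.1 h))).elim

/-- A maximal subgroup of a finite almost simple group does not have prime order. Here G is almost simple in the sense that it has a non-abelian simple normal subgroup T with trivial centralizer. -/
theorem result {G : Type*} [Group G] [Finite G] (T : Subgroup G) [T.Normal] (hT : IsSimpleGroup T) (hTc : ¬ IsMulCommutative T)
    (hC : Subgroup.centralizer (T : Set G) = ⊥) (H : Subgroup G) (hmax : IsCoatom H) : ¬ (Nat.card H).Prime := by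
  intro hp
  have := Fact.mk hp
  have hcyc : IsCyclic H := isCyclic_of_prime_card rfl
  have hH0 : H ≠ ⊥ := by
    rintro rfl
    rw [card_bot] at hp
    exact Nat.not_prime_one hp
  have hgen : ∀ h ∈ H, h ≠ 1 → zpowers h = H := by
    intro h hh h1
    apply eq_of_le_of_card_ge (zpowers_le.2 hh)
    rw [Nat.card_zpowers]
    rcases (Nat.dvd_prime hp).1 (orderOf_dvd_natCard H hh) with h2 | h2
    · exact (h1 (orderOf_eq_one_iff.1 h2)).elim
    · exact h2.ge
  have hN : normalizer (H : Set G) = H := by
    by_contra hne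
    have := normalizer_eq_top_iff.1 (hmax.2 _ (lt_of_le_of_ne le_normalizer (Ne.symm hne)))
    have := hcyc.isMulCommutative
    exact hH0 (eq_bot_of_comm T hT hTc hC H)
  have hTI : ∀ x : G, x ∉ H → ∀ h ∈ H, x * h * x⁻¹ ∈ H → h = 1 := by
    intro x hx h hh hxh
    by_contra h1
    apply hx
    rw [← hN]
    apply mem_normalizer_fintype
    intro n hn
    rw [← hgen h hh h1] at hn
    obtain ⟨k, rfl⟩ := hn
    simp only [SetLike.mem_coe]
    rw [← conj_zpow]
    exact zpow_mem hxh k
  obtain ⟨K, -, hKn, hK⟩ := H17.frobenius_kernel hTI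
  have hK0 : K ≠ ⊥ := by
    rintro rfl
    exact hmax.1 (isComplement'_bot_left.1 hK)
  obtain ⟨a, ha, ha1⟩ := H.bot_or_exists_ne_one.resolve_left hH0
  obtain ⟨V, hVK, hV0, hVc, hV⟩ := H2.exists_abelian_normalized hK0 (a := a)
    (le_normalizer_of_normal (mem_top a)) (by
      rw [eq_bot_iff, ← hK.disjoint.eq_bot]
      refine inf_le_inf_left _ fun x hx => ?_
      by_contra hxH
      refine ha1 (hTI x hxH a ha ?_)
      rw [mem_centralizer_singleton_iff.1 hx, mul_inv_cancel_right]
      exact ha)
  have h1 : H ≤ normalizer (V : Set G) := by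
    rw [← hgen a ha ha1, zpowers_le]
    exact hV a (le_normalizer_of_normal (mem_top a)) (by simp)
  have h2 : normalizer (V : Set G) = ⊤ := by
    refine hmax.2 _ (lt_of_le_of_ne h1 fun h => hV0 ?_)
    rw [eq_bot_iff, ← hK.disjoint.eq_bot]
    exact le_inf hVK (h ▸ le_normalizer)
  have := normalizer_eq_top_iff.1 h2
  exact hV0 (eq_bot_of_comm T hT hTc hC V)

end Cfsg.Agent.S3498
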