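import Cfsg.Statements.S3504
import Cfsg.Agent.H25.PrimeCyc

set_option autoImplicit false
open Cfsg

namespace Cfsg.Agent.S3504

/-- For n ≥ 5, the fixed-point-free permutations of prime order in the symmetric group of degree n form a single conjugacy class if and only if n is a prime power. -/
theorem result (n : ℕ) (hn : 5 ≤ n) :
    Nat.card {c : ConjClasses (Equiv.Perm (Fin n)) // ∃ g : Equiv.Perm (Fin n), ConjClasses.mk g = c ∧ (orderOf g).Prime ∧ ∀ i : Fin n, g i ≠ i} = 1 ↔ IsPrimePow n := by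
  have key : ∀ g : Equiv.Perm (Fin n), (orderOf g).Prime → (∀ i, g i ≠ i) →
      orderOf g ∣ n ∧ g.cycleType = Multiset.replicate (n / orderOf g) (orderOf g) := by
    intro g hg hf
    obtain ⟨c, -, h1, h2⟩ := H25.support_prime_order hg rfl
    have : g.support = Finset.univ := Finset.eq_univ_of_forall fun i => Equiv.Perm.mem_support.2 (hf i)
    rw [this, Finset.card_univ, Fintype.card_fin] at h1
    refine ⟨Dvd.intro_left _ h1.symm, ?_⟩
    rw [h2]
    congr 1
    exact (Nat.div_eq_of_eq_mul_left hg.pos h1).symm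
  have ex : ∀ p : ℕ, p.Prime → p ∣ n → ∃ g : Equiv.Perm (Fin n), orderOf g = p ∧ ∀ i, g i ≠ i := by
    rintro p hp ⟨c, hc⟩
    obtain ⟨g, h1, h2, -⟩ := H25.exists_perm_prime_order (α := Fin n) (c := c) hp
      (Nat.pos_of_ne_zero (by rintro rfl; omega)) (by rw [Fintype.card_fin, hc, mul_comm])
    refine ⟨g, h1, fun i => Equiv.Perm.mem_support.1 ?_⟩
    have : g.support = Finset.univ := Finset.eq_univ_of_card _ (by rw [h2, Fintype.card_fin, hc, mul_comm])
    rw [this]; exact Finset.mem_univ i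
  rw [isPrimePow_iff_unique_prime_dvd, Nat.card_eq_one_iff_exists]
  constructor
  · rintro ⟨⟨c, g, rfl, hg, hf⟩, h⟩
    refine ⟨orderOf g, ⟨hg, (key g hg hf).1⟩, fun p hp => ?_⟩
    obtain ⟨k, hk, hkf⟩ := ex p hp.1 hp.2
    have := congrArg Subtype.val (h ⟨_, k, rfl, hk ▸ hp.1, hkf⟩)
    simp only [ConjClasses.mk_eq_mk_iff_isConj] at this
    obtain ⟨x, hx⟩ := isConj_iff.1 this
    rw [← hk, ← hx]
    exact ((MulAut.conj x).orderOf_eq k).symm
  · rintro ⟨p, hp, hu⟩
    obtain ⟨k, hk, hkf⟩ := ex p hp.1 hp.2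
    refine ⟨⟨_, k, rfl, hk ▸ hp.1, hkf⟩, ?_⟩
    rintro ⟨c, g, rfl, hg, hf⟩
    apply Subtype.ext
    simp only [ConjClasses.mk_eq_mk_iff_isConj]
    apply Equiv.Perm.isConj_of_cycleType_eq
    rw [(key g hg hf).2, (key k (hk ▸ hp.1) hkf).2, hk, hu _ ⟨hg, (key g hg hf).1⟩]

end Cfsg.Agent.S3504
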