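import Cfsg.Statements.S3508
import Cfsg.Agent.H25.Aff
import Cfsg.Agent.H25.Fix

set_option autoImplicit false
open Cfsg

namespace Cfsg.Agent.S3508

/-- Let a finite group G act faithfully on a set Ω with p ^ m points (p prime) and have an elementary abelian normal p-subgroup N acting regularly on Ω (so G is a group of affine transformations of an m-dimensional space over the field with p elements). If G contains an element of order p ^ r with r ≥ 1, then p ^ (r − 1) ≤ m. In particular an element of order p ^ m forces m ≤ 2, and m ≤ 1 when p is odd. -/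
theorem result {G : Type*} [Group G] [Finite G] {Ω : Type*} [Fintype Ω] [MulAction G Ω] [FaithfulSMul G Ω] (p m : ℕ) (hp : p.Prime) (hcard : Fintype.card Ω = p ^ m)
    (N : Subgroup G) [N.Normal] (hNc : IsMulCommutative N) (hNp : ∀ n ∈ N, n ^ p = 1)
    (hNtr : MulAction.IsPretransitive N Ω) (hNreg : ∀ ω : Ω, MulAction.stabilizer N ω = ⊥)
    (g : G) (r : ℕ) (hr : 1 ≤ r) (hg : orderOf g = p ^ r) :
    p ^ (r - 1) ≤ m ∧ (r = m → m ≤ 2 ∧ (2 < p → m ≤ 1)) := by
  have := Fact.mk hp
  have key : p ^ (r - 1) ≤ m := by
    obtain ⟨a⟩ : Nonempty Ω := Fintype.card_pos_iff.1 (hcard ▸ pow_pos hp.pos m)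
    obtain ⟨V, _, _, β, ρ, h0, h1, -, -, -⟩ := H25.exists_affine N hNc hNp
      (fun c d => by obtain ⟨n, hn⟩ := MulAction.exists_smul_eq N c d; exact ⟨n, n.2, hn⟩) a
    have : Finite V := Finite.of_equiv _ β.symm
    have hV : Module.finrank (ZMod p) V = m := by
      have e := Module.natCard_eq_pow_finrank (K := ZMod p) (V := V)
      rw [Nat.card_congr β, Nat.card_eq_fintype_card, hcard, Nat.card_zmod] at e
      exact (Nat.pow_right_injective hp.two_le e).symm
    let T : Module.End (ZMod p) (V × ZMod p) :=
      ((ρ g : V →ₗ[ZMod p] V).coprod (LinearMap.toSpanSingleton _ _ (β.symm (g • a)))).prod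
        (LinearMap.snd _ _ _)
    have hT : ∀ (k : ℕ) (v : V), (T ^ k) (v, 1) = (β.symm (g ^ k • β v), 1) := by
      intro k
      induction k with
      | zero => simp
      | succ k ih =>
        intro v
        rw [pow_succ', Module.End.mul_apply, ih, pow_succ', mul_smul]
        conv_rhs => rw [← β.apply_symm_apply (g ^ k • β v), h1, β.symm_apply_apply]
        simp [T]
    have hT1 : T ^ p ^ r = 1 := by
      have e : ∀ v : V, (T ^ p ^ r) (v, 1) = (v, 1) := fun v => by
        rw [hT, ← hg, pow_orderOf_eq_one, one_smul, β.symm_apply_apply]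
      refine LinearMap.ext fun ⟨v, c⟩ => ?_
      have : (v, c) = (v, (1 : ZMod p)) + (c - 1) • ((0 : V), (1 : ZMod p)) := by simp
      rw [this, map_add, map_smul, e, e]
      rfl
    have : CharP (Module.End (ZMod p) (V × ZMod p)) p :=
      charP_of_injective_algebraMap (algebraMap (ZMod p) _).injective p
    have hn : IsNilpotent (T - 1) := ⟨p ^ r, by
      rw [sub_pow_char_pow_of_commute _ _ (Commute.one_right T), hT1, one_pow, sub_self]⟩
    have h2 : (T - 1) ^ (m + 1) = 0 := by
      have e1 := (T - 1).isNilpotent_iff_charpoly.1 hn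
      have e2 := (T - 1).aeval_self_charpoly
      rw [e1, map_pow, Polynomial.aeval_X, Module.finrank_prod, hV, Module.finrank_self] at e2
      exact e2
    by_contra hlt
    have h3 : (T - 1) ^ p ^ (r - 1) = 0 := pow_eq_zero_of_le (by omega) h2
    rw [sub_pow_char_pow_of_commute _ _ (Commute.one_right T), one_pow, sub_eq_zero] at h3
    have h4 : g ^ p ^ (r - 1) = 1 := eq_of_smul_eq_smul (α := Ω) fun x => by
      have := hT (p ^ (r - 1)) (β.symm x)
      rw [h3, β.apply_symm_apply] at this
      rw [one_smul]
      exact β.symm.injective (congrArg Prod.fst this).symm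
    have := orderOf_dvd_of_pow_eq_one h4
    rw [hg, Nat.pow_dvd_pow_iff_le_right hp.one_lt] at this
    omega
  refine ⟨key, fun e => ?_⟩
  subst e
  obtain ⟨k, rfl⟩ : ∃ k, r = k + 1 := ⟨r - 1, by omega⟩
  simp only [Nat.add_sub_cancel] at key
  constructor
  · by_contra h
    have h2 : 2 ^ k ≤ p ^ k := Nat.pow_le_pow_left hp.two_le k
    have : ∀ j, 2 ≤ j → j + 1 < 2 ^ j := fun j hj => by
      induction j, hj using Nat.le_induction with
      | base => norm_num
      | succ j _ ih => rw [pow_succ]; omega
    have := this k (by omega)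
    omega
  · intro h3
    by_contra h
    have h2 : 3 ^ k ≤ p ^ k := Nat.pow_le_pow_left h3 k
    have : ∀ j, 1 ≤ j → j + 1 < 3 ^ j := fun j hj => by
      induction j, hj using Nat.le_induction with
      | base => norm_num
      | succ j _ ih => rw [pow_succ]; omega
    have := this k (by omega)
    omega

end Cfsg.Agent.S3508
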