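import Cfsg.Statements.S3511


set_option autoImplicit false
open Cfsg

namespace Cfsg.Agent.S3511

/-- Let a finite group G act faithfully on a set Ω. If every element of G of square-free order has a regular cycle (an orbit of the cyclic group it generates with trivial stabilizer), then every element of G has a regular cycle. -/
theorem result {G : Type*} [Group G] [Finite G] {Ω : Type*} [MulAction G Ω] [FaithfulSMul G Ω]
    (h : ∀ g : G, Squarefree (orderOf g) → ∃ ω : Ω, MulAction.stabilizer (Subgroup.zpowers g) ω = ⊥) (g : G) :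
    ∃ ω : Ω, MulAction.stabilizer (Subgroup.zpowers g) ω = ⊥ := by
  classical
  set n := orderOf g with hn
  have hn0 : n ≠ 0 := (orderOf_pos g).ne'
  set r := UniqueFactorizationMonoid.radical n with hr
  have hrn : r ∣ n := UniqueFactorizationMonoid.radical_dvd_self
  obtain ⟨c, hc⟩ := hrn
  have hc0 : c ≠ 0 := by rintro rfl; exact hn0 (by simpa using hc)
  have hord : orderOf (g ^ c) = r := by
    rw [orderOf_pow' g hc0, ← hn, Nat.gcd_eq_right (by rw [hc]; exact Dvd.intro_left _ rfl)]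
    rw [hc, Nat.mul_div_cancel _ (Nat.pos_of_ne_zero hc0)]
  obtain ⟨ω, hω⟩ := h (g ^ c) (by rw [hord]; exact UniqueFactorizationMonoid.squarefree_radical)
  refine ⟨ω, ?_⟩
  by_contra hne
  have hnt : Nontrivial (MulAction.stabilizer (Subgroup.zpowers g) ω) :=
    (Subgroup.nontrivial_iff_ne_bot _).2 hne
  have h1 : Nat.card (MulAction.stabilizer (Subgroup.zpowers g) ω) ≠ 1 :=
    (Finite.one_lt_card).ne'
  obtain ⟨p, hp, hpd⟩ := Nat.exists_prime_and_dvd h1
  haveI := Fact.mk hp
  obtain ⟨x, hx⟩ := exists_prime_orderOf_dvd_card' p hpd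
  have hx1 : orderOf ((x : Subgroup.zpowers g) : G) = p := by
    rw [Subgroup.orderOf_coe, Subgroup.orderOf_coe, hx]
  obtain ⟨j, hj⟩ := (Subgroup.mem_zpowers_iff).1 (x : Subgroup.zpowers g).2
  -- g^(j p) = 1, so n ∣ j p
  have hjp : g ^ (j * p) = 1 := by
    rw [zpow_mul, hj, zpow_natCast, ← hx1, pow_orderOf_eq_one]
  have hdvd : (n : ℤ) ∣ j * p := (orderOf_dvd_iff_zpow_eq_one).2 hjp
  have hpn : p ∣ n := by
    rw [← hx1, hn]; exact orderOf_dvd_of_mem_zpowers (x : Subgroup.zpowers g).2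
  have hpr : p ∣ r := by
    rw [hr]
    exact (UniqueFactorizationMonoid.dvd_radical_iff_of_irreducible hp.prime.irreducible hn0).2 hpn
  obtain ⟨e, he⟩ := hpr
  have hcj : (c : ℤ) ∣ j := by
    have : ((p * e * c : ℕ) : ℤ) ∣ j * p := by rw [← he, ← hc]; exact hdvd
    push_cast at this
    have h2 : (p : ℤ) * (e * c) ∣ p * j := by rw [← mul_assoc, mul_comm (p:ℤ) j]; exact this
    have h3 := Int.dvd_of_mul_dvd_mul_left (by exact_mod_cast hp.ne_zero) h2
    exact Dvd.dvd.trans (Dvd.intro_left _ rfl) h3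
  obtain ⟨d, hd⟩ := hcj
  have hmem : ((x : Subgroup.zpowers g) : G) ∈ Subgroup.zpowers (g ^ c) := by
    rw [← hj, hd, zpow_mul, zpow_natCast]; exact ⟨d, rfl⟩
  have hst : (⟨_, hmem⟩ : Subgroup.zpowers (g ^ c)) ∈ MulAction.stabilizer (Subgroup.zpowers (g ^ c)) ω := by
    have := x.2
    rw [MulAction.mem_stabilizer_iff] at this ⊢
    exact this
  rw [hω, Subgroup.mem_bot] at hst
  have : ((x : Subgroup.zpowers g) : G) = 1 := congrArg Subtype.val hst
  rw [this, orderOf_one] at hx1
  exact hp.one_lt.ne hx1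

end Cfsg.Agent.S3511
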