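import Cfsg.Statements.S3514
import Cfsg.Agent.H1.Basic

set_option autoImplicit false
open Cfsg

namespace Cfsg.Agent.S3514

open MulAction in
theorem card_orb {G X : Type*} [Group G] [MulAction G X] (K : Subgroup G) (v : X) :
    Nat.card {u : X | ∃ k ∈ K, k • v = u} = (stabilizer G v).relIndex K := by
  have h1 : {u : X | ∃ k ∈ K, k • v = u} = orbit K v := by
    ext u
    constructor
    · rintro ⟨k, hk, rfl⟩; exact ⟨⟨k, hk⟩, rfl⟩
    · rintro ⟨k, rfl⟩; exact ⟨k, k.2, rfl⟩
  rw [h1, Nat.card_coe_set_eq, ← index_stabilizer]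
  rfl

theorem relIndex_mul_card {G : Type*} [Group G] (A B : Subgroup G) :
    A.relIndex B * Nat.card (A ⊓ B : Subgroup G) = Nat.card B := by
  rw [← Subgroup.relIndex_bot_left, ← Subgroup.relIndex_bot_left, ← Subgroup.inf_relIndex_right, mul_comm,
    Subgroup.relIndex_mul_relIndex _ _ _ bot_le inf_le_right]

theorem relIndex_sup_eq {G : Type*} [Group G] [Finite G] (A N : Subgroup G)
    (h : A ≤ Subgroup.normalizer (N : Set G)) : A.relIndex (A ⊔ N) = A.relIndex N := by
  have h1 := H1.card_sup_mul_card_inf h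
  have h2 := relIndex_mul_card A (A ⊔ N)
  have h3 := relIndex_mul_card A N
  rw [inf_eq_left.2 le_sup_left] at h2
  have p1 : 0 < Nat.card A := Nat.card_pos
  have p2 : 0 < Nat.card (A ⊓ N : Subgroup G) := Nat.card_pos
  rw [← h2, ← h3] at h1
  have : A.relIndex (A ⊔ N) * (Nat.card A * Nat.card (A ⊓ N : Subgroup G)) =
      A.relIndex N * (Nat.card A * Nat.card (A ⊓ N : Subgroup G)) := by
    rw [← mul_assoc, h1]; ring
  exact Nat.eq_of_mul_eq_mul_right (Nat.mul_pos p1 p2) this

/-- Let p be a prime, V a finite vector space over the field with p elements, and H a group of linear transformations of V all of whose orbits on V have size coprime to p. (i) Every normal subgroup K of H has all its orbits on V of size coprime to p. (ii) If N is a group of linear transformations of V of order coprime to p that is normalized by H, then the group generated by N and H has all its orbits on V of size coprime to p. -/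
theorem result (p : ℕ) [Fact p.Prime] {V : Type*} [AddCommGroup V] [Module (ZMod p) V] [Finite V]
    (H : Subgroup (V ≃ₗ[ZMod p] V)) (hH : ∀ v : V, ¬ p ∣ Nat.card {u : V | ∃ h ∈ H, h v = u}) :
    (∀ K : Subgroup (V ≃ₗ[ZMod p] V), K ≤ H → H ≤ Subgroup.normalizer (K : Set (V ≃ₗ[ZMod p] V)) →
        ∀ v : V, ¬ p ∣ Nat.card {u : V | ∃ k ∈ K, k v = u}) ∧
    (∀ N : Subgroup (V ≃ₗ[ZMod p] V), ¬ p ∣ Nat.card N → H ≤ Subgroup.normalizer (N : Set (V ≃ₗ[ZMod p] V)) →
        ∀ v : V, ¬ p ∣ Nat.card {u : V | ∃ x ∈ N ⊔ H, x v = u}) := by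
  haveI : Finite (V ≃ₗ[ZMod p] V) := Finite.of_injective (fun f : V ≃ₗ[ZMod p] V => (f : V → V)) DFunLike.coe_injective
  have hp : p.Prime := Fact.out
  have key : ∀ (K : Subgroup (V ≃ₗ[ZMod p] V)) (v : V), Nat.card {u : V | ∃ k ∈ K, k v = u} =
      (MulAction.stabilizer (V ≃ₗ[ZMod p] V) v).relIndex K := fun K v => card_orb K v
  constructor
  · intro K hKH hn v
    have h := hH v
    rw [key] at h ⊢
    set S := MulAction.stabilizer (V ≃ₗ[ZMod p] V) v
    intro hd
    apply h
    have e1 : (S ⊓ H).relIndex (S ⊓ H ⊔ K) = S.relIndex K := by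
      rw [relIndex_sup_eq _ _ (inf_le_right.trans hn), ← Subgroup.inf_relIndex_right, inf_assoc,
        inf_eq_right.2 hKH, Subgroup.inf_relIndex_right]
    rw [← Subgroup.inf_relIndex_right, ← Subgroup.relIndex_mul_relIndex (S ⊓ H) (S ⊓ H ⊔ K) H le_sup_left
      (sup_le inf_le_right hKH), e1]
    exact Dvd.dvd.mul_right hd _
  · intro N hN hn v
    have h := hH v
    rw [key] at h ⊢
    set S := MulAction.stabilizer (V ≃ₗ[ZMod p] V) v
    intro hd
    have h1 : S.relIndex (N ⊔ H) ∣ (S ⊓ H).relIndex (N ⊔ H) :=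
      Subgroup.relIndex_dvd_of_le_left _ inf_le_left
    rw [← Subgroup.relIndex_mul_relIndex (S ⊓ H) H (N ⊔ H) inf_le_right le_sup_right,
      Subgroup.inf_relIndex_right, sup_comm N H, relIndex_sup_eq _ _ hn] at h1
    rw [sup_comm] at hd
    rcases (hp.dvd_mul).1 (hd.trans h1) with h2 | h2
    · exact h h2
    · exact hN (h2.trans (Subgroup.relIndex_dvd_card _ _))

end Cfsg.Agent.S3514
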