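import Cfsg.Statements.S3515
import Cfsg.Agent.H25.AffClos

set_option autoImplicit false
open Cfsg

namespace Cfsg.Agent.S3515

theorem hx : ∀ x : Fin 2 → ZMod 2, x = 0 ∨ x = ![1, 0] ∨ x = ![0, 1] ∨ x = ![1, 1] := by decide
theorem h01 : (0 : Fin 2 → ZMod 2) ≠ ![1, 1] := by decide
theorem h02 : (![1, 0] : Fin 2 → ZMod 2) ≠ ![1, 1] := by decide
theorem h03 : (![0, 1] : Fin 2 → ZMod 2) ≠ ![1, 1] := by decide

/-- Every primitive affine permutation group of degree p² is 3-closed. Let p be a prime and G a group of permutations of the plane V = F_p² consisting of affine maps x ↦ Ax + b, containing all translations, and acting primitively on V. Then any permutation σ of V that agrees on every triple of points with some element of G (σ preserves every G-orbit on ordered triples) already lies in G. -/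
theorem result (p : ℕ) [Fact p.Prime] (G : Subgroup (Equiv.Perm (Fin 2 → ZMod p)))
    (haff : (G : Set (Equiv.Perm (Fin 2 → ZMod p))) ⊆ {τ : Equiv.Perm (Fin 2 → ZMod p) | ∃ (A : (Fin 2 → ZMod p) ≃ₗ[ZMod p] (Fin 2 → ZMod p)) (b : Fin 2 → ZMod p), ∀ x, τ x = A x + b})
    (htrans : ∀ b : Fin 2 → ZMod p, ∃ g ∈ G, ∀ x, g x = x + b) (hprim : MulAction.IsPreprimitive G (Fin 2 → ZMod p))
    (σ : Equiv.Perm (Fin 2 → ZMod p)) (hσ : (∀ t : Fin 3 → (Fin 2 → ZMod p), ∃ g ∈ G, ∀ i, σ (t i) = g (t i))) : σ ∈ G := by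
  obtain ⟨g, hg, hgt⟩ := hσ ![0, ![1, 0], ![0, 1]]
  have h0 : σ 0 = g 0 := hgt 0
  have h1 : σ ![1, 0] = g ![1, 0] := hgt 1
  have h2 : σ ![0, 1] = g ![0, 1] := hgt 2
  suffices h : σ = g by rw [h]; exact hg
  by_cases hp : p = 2
  · subst hp
    have h3 : σ ![1, 1] = g ![1, 1] := by
      obtain ⟨y, hy⟩ := g.surjective (σ ![1, 1])
      rcases hx y with rfl | rfl | rfl | rfl
      · exact absurd (σ.injective (h0.trans hy)) h01
      · exact absurd (σ.injective (h1.trans hy)) h02
      · exact absurd (σ.injective (h2.trans hy)) h03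
      · exact hy.symm
    refine Equiv.ext fun x => ?_
    rcases hx x with rfl | rfl | rfl | rfl <;> assumption
  · have h2' : (2 : ZMod p) ≠ 0 := by
      intro h
      have : ((2 : ℕ) : ZMod p) = 0 := by exact_mod_cast h
      rw [ZMod.natCast_eq_zero_iff] at this
      exact hp ((Nat.prime_dvd_prime_iff_eq Fact.out Nat.prime_two).1 this)
    obtain ⟨A, b, hA⟩ := H25.affine_of_triples h2' σ fun t => by
      obtain ⟨g, hg, hgt⟩ := hσ t
      obtain ⟨A, b, hA⟩ := haff hg
      exact ⟨A, b, fun i => by rw [hgt, hA]; rfl⟩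
    obtain ⟨B, c, hB⟩ := haff hg
    rw [hA, hB] at h0 h1 h2
    simp only [map_zero, zero_add] at h0
    subst h0
    refine Equiv.ext fun x => ?_
    have e : x = x 0 • ![1, 0] + x 1 • ![0, 1] := by
      ext i; fin_cases i <;> simp
    rw [hA, hB, e, map_add, map_add, map_smul, map_smul, map_smul, map_smul,
      add_right_cancel h1, add_right_cancel h2]

end Cfsg.Agent.S3515
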