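import Cfsg.Statements.S3517
import Cfsg.Agent.H25.AffClos

set_option autoImplicit false
open Cfsg

namespace Cfsg.Agent.S3517

/-- For d ≥ 3, the 3-closure of the affine group AGL_d(2) acting on F_2^d is the full symmetric group: every permutation of F_2^d agrees on every ordered triple of points with some affine map (AGL_d(2) is 3-transitive). -/
theorem result (d : ℕ) (hd : 3 ≤ d) (σ : Equiv.Perm (Fin d → ZMod 2)) (t : Fin 3 → (Fin d → ZMod 2)) :
    ∃ (A : (Fin d → ZMod 2) ≃ₗ[ZMod 2] (Fin d → ZMod 2)) (b : Fin d → ZMod 2), ∀ i, σ (t i) = A (t i) + b := by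
  have h2 : ∀ x : Fin d → ZMod 2, x + x = 0 := fun x => by
    ext i; simp only [Pi.add_apply, Pi.zero_apply]; exact CharTwo.add_self_eq_zero _
  have key : ∀ (s : Fin 3 → (Fin d → ZMod 2)) (c : Fin 2 → ZMod 2),
      ∑ i, c i • ![s 1 - s 0, s 2 - s 0] i = 0 ↔
        (c 0 = 1 ∧ c 1 = 0 → s 1 = s 0) ∧ (c 0 = 0 ∧ c 1 = 1 → s 2 = s 0) ∧
          (c 0 = 1 ∧ c 1 = 1 → s 1 = s 2) := by
    intro s c
    have hc : ∀ a : ZMod 2, a = 0 ∨ a = 1 := by decide
    rw [Fin.sum_univ_two]
    simp only [Matrix.cons_val_zero, Matrix.cons_val_one]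
    rcases hc (c 0) with h0 | h0 <;> rcases hc (c 1) with h1 | h1 <;> simp [h0, h1, sub_eq_zero]
    constructor
    · intro h
      linear_combination h + h2 (s 0) - h2 (s 2)
    · intro h
      linear_combination h - h2 (s 0) + h2 (s 2)
  obtain ⟨A, hA⟩ := H25.exists_linearEquiv_of_rel (K := ZMod 2) ![t 1 - t 0, t 2 - t 0]
    ![σ (t 1) - σ (t 0), σ (t 2) - σ (t 0)] (fun c => by
      rw [key t c, key (fun i => σ (t i)) c]
      simp)
  refine ⟨A, σ (t 0) - A (t 0), fun i => ?_⟩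
  have h0 := hA 0
  have h1 := hA 1
  simp only [Matrix.cons_val_zero, Matrix.cons_val_one, map_sub] at h0 h1
  fin_cases i
  · simp
  · simp only [Fin.mk_one]; linear_combination -h0
  · simp only [Fin.reduceFinMk]; linear_combination -h1

end Cfsg.Agent.S3517
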