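import Cfsg.Statements.S3524


set_option autoImplicit false
open Cfsg

namespace Cfsg.Agent.S3524

/-- A permutation group with a base is closed at one level above the base size. Let G be a group of permutations of a set Ω and suppose some k points α₁, …, α_k are fixed simultaneously only by the identity of G (a base of size k). Then G is (k+1)-closed: a permutation of Ω that agrees on every (k+1)-tuple of points with some element of G belongs to G. -/
theorem result {Ω : Type*} (G : Subgroup (Equiv.Perm Ω)) (k : ℕ) (α : Fin k → Ω)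
    (hbase : ∀ g ∈ G, (∀ i, g (α i) = α i) → g = 1) (σ : Equiv.Perm Ω)
    (hσ : ∀ t : Fin (k + 1) → Ω, ∃ g ∈ G, ∀ i, σ (t i) = g (t i)) : σ ∈ G := by
  classical
  by_cases hne : Nonempty Ω
  swap
  · have : σ = 1 := by ext x; exact (hne ⟨x⟩).elim
    rw [this]; exact G.one_mem
  obtain ⟨x0⟩ := hne
  obtain ⟨g0, hg0, h0⟩ := hσ (Fin.snoc α x0 : Fin (k+1) → Ω)
  have : σ = g0 := by
    ext x
    obtain ⟨g, hg, h⟩ := hσ (Fin.snoc α x : Fin (k+1) → Ω)
    have e : g0⁻¹ * g = 1 := by
      apply hbase _ (G.mul_mem (G.inv_mem hg0) hg)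
      intro i
      have h1 := h i.castSucc
      have h2 := h0 i.castSucc
      simp only [Fin.snoc_castSucc] at h1 h2
      rw [Equiv.Perm.mul_apply, ← h1, h2]; simp
    have e' : g = g0 := by rw [inv_mul_eq_one] at e; exact e.symm
    have h3 := h (Fin.last k)
    simp only [Fin.snoc_last] at h3
    rw [h3, e']
  rw [this]; exact hg0

end Cfsg.Agent.S3524
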