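import Cfsg.Statements.S3518
import Cfsg.Agent.H25.AffClos
import Cfsg.Agent.S3524

set_option autoImplicit false
open Cfsg

namespace Cfsg.Agent.S3518

open H25

theorem eq_of_two {p : ℕ} [Fact p.Prime] {σ τ : Equiv.Perm (ZMod p)} {a b c d : ZMod p}
    (h1 : ∀ x, σ x = a * x + b) (h2 : ∀ x, τ x = c * x + d) (h0 : σ 0 = τ 0) (h : σ 1 = τ 1) :
    σ = τ := by
  rw [h1, h2] at h0 h
  ext x
  rw [h1, h2]
  linear_combination (1 - x) * h0 + x * h

/-- Closures of subgroups of the one-dimensional affine group. Let p be a prime and G a group of permutations of F_p lying in the affine group AGL₁(p) = {x ↦ ax + b, a ≠ 0} and containing all translations. (1) If G is a proper subgroup of AGL₁(p), then G is 2-closed: a permutation of F_p agreeing on every ordered pair of points with some element of G lies in G. (2) Every permutation of F_p agrees on every ordered pair with some element of AGL₁(p) (the 2-closure of AGL₁(p) is the symmetric group). (3) AGL₁(p) is 3-closed: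 a permutation agreeing on every ordered triple with some affine map is affine. -/
theorem result (p : ℕ) [Fact p.Prime] (G : Subgroup (Equiv.Perm (ZMod p))) (hG : G ≤ Cfsg.affineGroup (ZMod p))
    (htrans : ∀ b : ZMod p, ∃ g ∈ G, ∀ x, g x = x + b) :
    (G ≠ Cfsg.affineGroup (ZMod p) → ∀ σ : Equiv.Perm (ZMod p), (∀ t : Fin 2 → ZMod p, ∃ g ∈ G, ∀ i, σ (t i) = g (t i)) → σ ∈ G) ∧
    (∀ σ : Equiv.Perm (ZMod p), (∀ t : Fin 2 → ZMod p, ∃ g ∈ Cfsg.affineGroup (ZMod p), ∀ i, σ (t i) = g (t i))) ∧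
    (∀ σ : Equiv.Perm (ZMod p), (∀ t : Fin 3 → ZMod p, ∃ g ∈ Cfsg.affineGroup (ZMod p), ∀ i, σ (t i) = g (t i)) → σ ∈ Cfsg.affineGroup (ZMod p)) := by
  refine ⟨fun hne σ hσ => ?_, fun σ t => ?_, fun σ hσ => ?_⟩
  · obtain ⟨c, hcG, hc⟩ := htrans 1
    rcases affine_or_two_trans (kClosure G 2) c (le_kClosure G 2 hcG) hc with h | h
    · obtain ⟨a, b, hab⟩ := h σ hσ
      obtain ⟨g, hg, h2⟩ := hσ ![0, 1]
      obtain ⟨a', b', hab'⟩ := hG hg
      rw [eq_of_two hab hab' (h2 0) (h2 1)]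
      exact hg
    · exfalso
      apply hne
      refine le_antisymm hG fun τ hτ => ?_
      obtain ⟨a, b, hab⟩ := hτ
      obtain ⟨s, hs0, hs1⟩ := MulAction.is_two_pretransitive_iff.1 h
        (zero_ne_one (α := ZMod p)) (τ.injective.ne (zero_ne_one (α := ZMod p)))
      obtain ⟨g, hg, h2⟩ := s.2 ![0, 1]
      obtain ⟨a', b', hab'⟩ := hG hg
      rw [eq_of_two hab hab' (hs0.symm.trans (h2 0)) (hs1.symm.trans (h2 1))]
      exact hg
  · by_cases h : t 0 = t 1
    · refine ⟨Equiv.addRight (σ (t 0) - t 0), ⟨1, σ (t 0) - t 0, fun x => by simp⟩, fun i => ?_⟩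
      fin_cases i
      · simp
      · simp [h]
    · have h1 : t 0 - t 1 ≠ 0 := sub_ne_zero.2 h
      have h2 : σ (t 0) - σ (t 1) ≠ 0 := sub_ne_zero.2 (σ.injective.ne h)
      let a : (ZMod p)ˣ := Units.mk0 ((σ (t 0) - σ (t 1)) / (t 0 - t 1)) (div_ne_zero h2 h1)
      refine ⟨(Units.mulLeft a).trans (Equiv.addRight (σ (t 0) - a * t 0)),
        ⟨a, σ (t 0) - a * t 0, fun x => by simp⟩, fun i => ?_⟩
      fin_cases i
      · simp
      · simp only [Fin.mk_one, Fin.isValue, Equiv.trans_apply, Units.mulLeft_apply, Equiv.coe_addRight, a,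
          Units.val_mk0]
        field_simp
        ring
  · refine Cfsg.Agent.S3524.result _ 2 ![0, 1] ?_ σ hσ
    rintro g ⟨a, b, hab⟩ h
    exact eq_of_two (c := 1) (d := 0) hab (fun x => by simp) (h 0) (h 1)

end Cfsg.Agent.S3518
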