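import Cfsg.Statements.S3521
import Cfsg.Agent.H25.ExtAff
import Cfsg.Agent.H25.ExtPrim2
import Cfsg.Agent.H25.Prim

set_option autoImplicit false
open Cfsg

namespace Cfsg.Agent.S3521

/-- Let a finite group G that is not solvable act faithfully and primitively on a finite set with p ^ d points (p prime), with a non-trivial abelian normal subgroup acting regularly (affine type) and with non-trivial point stabilizers each acting primitively on every one of its orbits (an insoluble extremely primitive group of affine type). Then p = 2; and if moreover G is not 2-transitive, then a point stabilizer is almost simple (it has a non-abelian simple normal subgroup with trivial centralizer). -/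
theorem result {G : Type*} [Group G] [Finite G] {Ω : Type*} [Fintype Ω] [MulAction G Ω] [FaithfulSMul G Ω] (p d : ℕ) (hp : p.Prime) (hcard : Fintype.card Ω = p ^ d) (hsol : ¬ Group.IsSolvable G)
    (N : Subgroup G) [N.Normal] (hN : N ≠ ⊥) (hNc : IsMulCommutative N) (hNreg : ∀ ω : Ω, MulAction.stabilizer N ω = ⊥)
    (hprim : MulAction.IsPreprimitive G Ω) (hH : ∀ α : Ω, MulAction.stabilizer G α ≠ ⊥) (hep : ∀ (α : Ω) (ω : Ω), MulAction.IsPreprimitive (MulAction.stabilizer G α) (MulAction.orbit (MulAction.stabilizer G α) ω)) (α : Ω) :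
    p = 2 ∧ (¬ MulAction.IsMultiplyPretransitive G Ω 2 → ∃ T : Subgroup (MulAction.stabilizer G α), T.Normal ∧ IsSimpleGroup T ∧ ¬ IsMulCommutative T ∧ Subgroup.centralizer (T : Set (MulAction.stabilizer G α)) = ⊥) := by
  open MulAction Subgroup in
  have ht := H25.normal_transitive_of_primitive (α := Ω) N hN
  letI : CommGroup N := { (inferInstance : Group N) with mul_comm := hNc.1.1 }
  let φ : stabilizer G α →* MulAut N := MulAut.conjNormal.comp (stabilizer G α).subtype
  letI : MulDistribMulAction (stabilizer G α) N := MulDistribMulAction.compHom N φ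
  have hinj : ∀ n n' : N, (n : G) • α = (n' : G) • α → n = n' := fun n n' e => by
    have : n'⁻¹ * n ∈ stabilizer N α := by
      show ((n' : G)⁻¹ * n) • α = α
      rw [mul_smul, e, inv_smul_smul]
    rw [hNreg, mem_bot] at this
    exact (inv_mul_eq_one.1 this).symm
  have hsm : ∀ (h : stabilizer G α) (n : N), ((h • n : N) : G) • α = (h : G) • (n : G) • α := by
    intro h n
    show ((h : G) * n * (h : G)⁻¹) • α = _
    rw [mul_smul, mul_smul, show (h : G)⁻¹ • α = α from h⁻¹.2]
  have hst : ∀ n : N, stabilizer (stabilizer G α) n = stabilizer (stabilizer G α) ((n : G) • α) := by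
    intro n
    ext h
    rw [mem_stabilizer_iff, mem_stabilizer_iff]
    exact ⟨fun e => (hsm h n).symm.trans (by rw [e]), fun e => hinj _ _ ((hsm h n).trans e)⟩
  have hc : ∀ v : N, v ≠ 1 → IsCoatom (stabilizer (stabilizer G α) v) ∧
      (stabilizer (stabilizer G α) v).normalCore = ⊥ := fun v hv => by
    rw [hst]
    exact H25.extPrim_corefree hH hep fun e => hv (hinj v 1 (by simpa using e))
  have : Nontrivial N := (nontrivial_iff_ne_bot _).2 hN
  have hs : ¬ Group.IsSolvable (stabilizer G α) := fun h => hsol (by
    have : Group.IsSolvable N := Group.isSolvable_of_comm hNc.1.1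
    have : Group.IsSolvable (G ⧸ N) := by
      refine Group.isSolvable_of_surjective
        (f := (QuotientGroup.mk' N).comp (stabilizer G α).subtype) fun x => ?_
      obtain ⟨g, rfl⟩ := QuotientGroup.mk_surjective x
      obtain ⟨n, hn⟩ := exists_smul_eq N α (g • α)
      refine ⟨⟨(n : G)⁻¹ * g, ?_⟩, ?_⟩
      · show ((n : G)⁻¹ * g) • α = α
        rw [mul_smul, ← hn]
        exact inv_smul_smul (n : G) α
      · simp [(QuotientGroup.eq_one_iff _).2 n.2]
    exact Group.isSolvable_of_ker_le_range N.subtype (QuotientGroup.mk' N) (by simp))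
  refine ⟨?_, fun _ => H25.extAff_almostSimple hc hs⟩
  obtain ⟨u, hu, hu2⟩ := H25.extAff_two hc hs
  have h2 : orderOf u = 2 := orderOf_eq_prime (by rw [pow_two, hu2]) hu
  have hcN : Nat.card N = p ^ d := by
    rw [← hcard, ← Nat.card_eq_fintype_card]
    exact Nat.card_eq_of_bijective (fun n : N => (n : G) • α)
      ⟨hinj, fun ω => exists_smul_eq N α ω⟩
  have := orderOf_dvd_natCard u
  rw [h2, hcN] at this
  exact ((Nat.prime_dvd_prime_iff_eq Nat.prime_two hp).1 (Nat.prime_two.dvd_of_dvd_pow this)).symm

end Cfsg.Agent.S3521
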