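import Cfsg.Statements.S3548
import Cfsg.Agent.H25.Derang
import Cfsg.Agent.H25.Prim

set_option autoImplicit false
open Cfsg

namespace Cfsg.Agent.S3548

/-- Let G act faithfully and transitively on a finite set with n ≥ 2 points and let D be the subgroup generated by the derangements. Then the index of D in G divides n − 1, and if it equals n − 1 then n is a prime power. -/
theorem result {G Ω : Type*} [Group G] [Finite G] [MulAction G Ω] [FaithfulSMul G Ω] [Finite Ω]
    (htrans : MulAction.IsPretransitive G Ω) (hΩ : 2 ≤ Nat.card Ω) :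
    (Subgroup.closure {g : G | ∀ ω : Ω, g • ω ≠ ω}).index ∣ Nat.card Ω - 1 ∧
    ((Subgroup.closure {g : G | ∀ ω : Ω, g • ω ≠ ω}).index = Nat.card Ω - 1 → IsPrimePow (Nat.card Ω)) := by
  have hnt : Nontrivial Ω := Finite.one_lt_card_iff_nontrivial.1 hΩ
  have hD := H25.derang_closure (G := G) (Ω := Ω)
  have hN := H25.derang_closure_normal (G := G) (Ω := Ω)
  set D := Subgroup.closure {g : G | ∀ ω : Ω, g • ω ≠ ω}
  have htr := (H25.derang_trans D hD).1
  constructor
  · obtain ⟨a⟩ : Nonempty Ω := inferInstance
    have := H25.derang_index_dvd D hD (a := a) Set.univ trivial (fun _ _ _ _ => trivial)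
    rwa [Set.ncard_univ] at this
  · intro h
    have key : ∀ a b : Ω, a ≠ b → MulAction.orbit (MulAction.stabilizer G a) b = {a}ᶜ ∧
        D ⊓ MulAction.stabilizer G a ≤ MulAction.stabilizer G b := by
      intro a b hab
      have h1 := H25.derang_orbit_eq D hD hab
      have hsub : MulAction.orbit (MulAction.stabilizer G a) b ⊆ {a}ᶜ := by
        rintro _ ⟨g, rfl⟩ h'
        exact hab (smul_left_cancel (g : G) (g.2.trans h'.symm))
      have h2 : ({a}ᶜ : Set Ω).ncard = Nat.card Ω - 1 := by
        rw [Set.compl_eq_univ_diff, Set.ncard_diff_singleton_of_mem (Set.mem_univ a), Set.ncard_univ]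
      have h3 := Set.ncard_le_ncard hsub
      have h4 : (MulAction.stabilizer G b ⊓ MulAction.stabilizer G a).relIndex
          (D ⊓ MulAction.stabilizer G a) ≠ 0 := Subgroup.index_ne_zero_of_finite
      rw [h1, h2, h] at h3
      have h5 : (MulAction.stabilizer G b ⊓ MulAction.stabilizer G a).relIndex
          (D ⊓ MulAction.stabilizer G a) = 1 := by
        have := Nat.le_of_mul_le_mul_right (h3.trans (one_mul _).ge) (by omega)
        omega
      refine ⟨Set.eq_of_subset_of_ncard_le hsub (by rw [h1, h2, h5, h, one_mul]), ?_⟩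
      exact (Subgroup.relIndex_eq_one.1 h5).trans inf_le_left
    have h2 : MulAction.IsMultiplyPretransitive G Ω 2 := by
      rw [MulAction.is_two_pretransitive_iff]
      intro a b c d hab hcd
      obtain ⟨g, rfl⟩ := MulAction.exists_smul_eq G a c
      have : g⁻¹ • d ∈ MulAction.orbit (MulAction.stabilizer G a) b := by
        rw [(key a b hab).1]
        intro h'
        apply hcd
        rw [← Set.mem_singleton_iff.1 h', smul_inv_smul]
      obtain ⟨k, hk⟩ := this
      refine ⟨g * k, ?_, ?_⟩
      · rw [mul_smul, k.2]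
      · rw [mul_smul]
        exact (congrArg (g • ·) hk).trans (smul_inv_smul g d)
    obtain ⟨p, j, hp, hj, hc, -⟩ := H25.elemAb_of_regular_normal h2 D htr (by
      intro a
      rw [eq_bot_iff]
      intro g hg
      rw [Subgroup.mem_bot]
      apply Subtype.ext
      apply eq_of_smul_eq_smul (α := Ω)
      intro b
      rw [OneMemClass.coe_one, one_smul]
      by_cases hab : a = b
      · exact hab ▸ hg
      · exact (key a b hab).2 ⟨g.2, hg⟩)
    rw [hc]
    exact (hp.prime.isPrimePow).pow (by omega)

end Cfsg.Agent.S3548
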