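import Cfsg.Statements.S3549
import Cfsg.Agent.H25.Derang

set_option autoImplicit false
open Cfsg

namespace Cfsg.Agent.S3549

open Pointwise in
theorem aux {G Ω : Type*} [Group G] [Finite G] [MulAction G Ω] [Finite Ω]
    (htrans : MulAction.IsPretransitive G Ω) (himp : ¬ MulAction.IsPreprimitive G Ω)
    (D : Subgroup G) (hD : ∀ g, g ∉ D → ∃ ω : Ω, g • ω = ω) :
    (D.index + 1) * (D.index + 1) ≤ Nat.card Ω := by
  obtain ⟨B, hB, hnt⟩ : ∃ B : Set Ω, MulAction.IsBlock G B ∧ ¬ MulAction.IsTrivialBlock B := by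
    by_contra h
    push Not at h
    exact himp { isTrivialBlock_of_isBlock := fun {B} hB => h B hB }
  rw [MulAction.IsTrivialBlock, not_or, Set.not_subsingleton_iff] at hnt
  obtain ⟨a, ha⟩ := hnt.1.nonempty
  have h1 := H25.derang_index_dvd D hD B ha (fun g hg x hx => by
    rw [← MulAction.isBlock_iff_smul_eq_of_mem.1 hB ha (hg.symm ▸ ha : g • a ∈ B)]
    exact Set.smul_mem_smul_set hx)
  have hD' : ∀ g, g ∉ D → ∃ ω : MulAction.orbit G B, g • ω = ω := by
    intro g hg
    obtain ⟨ω, hω⟩ := hD g hg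
    obtain ⟨k, rfl⟩ := MulAction.exists_smul_eq G a ω
    refine ⟨⟨k • B, MulAction.mem_orbit B k⟩, Subtype.ext ?_⟩
    exact MulAction.isBlock_iff_smul_eq_of_mem.1 (hB.translate k) (Set.smul_mem_smul_set ha)
      (hω.symm ▸ Set.smul_mem_smul_set ha)
  have h2 := H25.derang_index_dvd D hD' (a := ⟨B, MulAction.mem_orbit_self B⟩) Set.univ trivial
    (fun _ _ _ _ => trivial)
  rw [Set.ncard_univ, Nat.card_coe_set_eq] at h2
  have h3 := hB.ncard_block_mul_ncard_orbit_eq ⟨a, ha⟩
  have h4 : 1 < B.ncard := (Set.one_lt_ncard_iff_nontrivial).2 hnt.1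
  have h5 : B.ncard < Nat.card Ω := by
    rw [← Set.ncard_univ]
    exact Set.ncard_lt_ncard (Set.ssubset_univ_iff.2 hnt.2)
  have h6 : 1 < (MulAction.orbit G B).ncard := by
    by_contra h
    have : B.ncard * (MulAction.orbit G B).ncard ≤ B.ncard * 1 := Nat.mul_le_mul_left _ (by omega)
    omega
  have h7 := Nat.le_of_dvd (by omega) h1
  have h8 := Nat.le_of_dvd (by omega) h2
  rw [← h3]
  exact Nat.mul_le_mul (by omega) (by omega)

/-- Let G act faithfully, transitively but imprimitively on a finite set with n points, and let D be the subgroup generated by the derangements. Then the index of D in G is at most √n − 1. -/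
theorem result {G Ω : Type*} [Group G] [Finite G] [MulAction G Ω] [FaithfulSMul G Ω] [Finite Ω]
    (htrans : MulAction.IsPretransitive G Ω) (himp : ¬ MulAction.IsPreprimitive G Ω) :
    ((Subgroup.closure {g : G | ∀ ω : Ω, g • ω ≠ ω}).index : ℝ) ≤ Real.sqrt (Nat.card Ω) - 1 := by
  have := aux htrans himp _ (H25.derang_closure (G := G) (Ω := Ω))
  rw [le_sub_iff_add_le]
  apply Real.le_sqrt_of_sq_le
  rw [sq]
  exact_mod_cast this

end Cfsg.Agent.S3549
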