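import Mathlib
import Cfsg.Statements.S3559
import Cfsg.Agent.H8.BGrp

set_option autoImplicit false
open Cfsg

namespace Cfsg.Agent.S3559

theorem result {G Ω : Type*} [Group G] [Finite G] [MulAction G Ω] [FaithfulSMul G Ω] [Finite Ω]
    (htrans : MulAction.IsPretransitive G Ω) (hn : 2 ≤ Nat.card Ω) (hnp : ¬ IsPrimePow (Nat.card Ω))
    (C : Subgroup G) (hcyc : IsCyclic ↥C) (hC : MulAction.IsPretransitive ↥C Ω ∧ ∀ a : Ω, MulAction.stabilizer ↥C a = ⊥) :
    ¬ MulAction.IsPreprimitive G Ω ∨ MulAction.IsMultiplyPretransitive G Ω 2 := by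
  by_cases h : MulAction.IsPreprimitive G Ω
  · right
    haveI : Nonempty Ω := (Nat.card_pos_iff.1 (by omega)).1
    obtain ⟨ω⟩ : Nonempty Ω := inferInstance
    have hb : Function.Bijective fun c : C => (c : G) • ω := by
      refine ⟨fun a b e => ?_, fun y => hC.1.exists_smul_eq ω y⟩
      have : b⁻¹ * a ∈ MulAction.stabilizer C ω := by
        rw [MulAction.mem_stabilizer_iff, mul_smul, inv_smul_eq_iff]
        exact e
      rw [hC.2, Subgroup.mem_bot] at this
      exact (inv_mul_eq_one.1 this).symm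
    have hc := Nat.card_eq_of_bijective _ hb
    exact H8.two_pretransitive_of_cyclic C ω hb (by omega) (fun hp => hnp (hc ▸ hp.isPrimePow))
  · exact Or.inl h

end Cfsg.Agent.S3559
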