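import Cfsg.Statements.S3560
import Cfsg.Agent.H25.Prim

set_option autoImplicit false
open Cfsg

namespace Cfsg.Agent.S3560

open Equiv MulAction Function

def Adj {ι X : Type*} (x y : ι → X) : Prop := ∃ i, x i ≠ y i ∧ ∀ j, j ≠ i → x j = y j

def hamAut {ι X Y : Type*} (φ : Y ≃ (ι → X)) : Subgroup (Perm Y) where
  carrier := {σ | ∀ a b, Adj (φ (σ a)) (φ (σ b)) ↔ Adj (φ a) (φ b)}
  one_mem' := fun _ _ => Iff.rfl
  mul_mem' := fun {s t} hs ht a b => (hs _ _).trans (ht a b)
  inv_mem' := fun {s} hs a b => by simpa using (hs (s⁻¹ a) (s⁻¹ b)).symm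

theorem base_mem {ι X Y : Type*} (φ : Y ≃ (ι → X)) (π : ι → Perm X) (s : Perm ι) :
    ∃ σ ∈ hamAut φ, ∀ a i, φ (σ a) i = π i (φ a (s i)) := by
  refine ⟨φ.symm.permCongr ((s.symm.arrowCongr (Equiv.refl X)).trans (Equiv.piCongrRight π)),
    fun a b => ?_, fun a i => by simp⟩
  simp only [Adj, permCongr_apply, symm_symm, apply_symm_apply, trans_apply, piCongrRight_apply,
    Pi.map_apply, arrowCongr_apply, coe_refl, comp_apply, id, ne_eq, EmbeddingLike.apply_eq_iff_eq]
  constructor
  · rintro ⟨i, h1, h2⟩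
    exact ⟨s i, h1, fun j hj => by simpa using h2 (s.symm j) (fun e => hj (by simp [← e]))⟩
  · rintro ⟨i, h1, h2⟩
    exact ⟨s.symm i, by simpa using h1, fun j hj => h2 (s j) (fun e => hj (by simp [← e]))⟩

theorem ham_trans {ι X Y : Type*} (φ : Y ≃ (ι → X)) (a b : Y) : ∃ σ ∈ hamAut φ, σ a = b := by
  classical
  obtain ⟨σ, h1, h2⟩ := base_mem φ (fun i => swap (φ a i) (φ b i)) 1
  exact ⟨σ, h1, φ.injective (funext fun i => by simp [h2])⟩

theorem ham_prim {ι Y : Type*} [Finite ι] {m : ℕ} (hm : 3 ≤ m) (φ : Y ≃ (ι → Fin m)) :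
    IsPreprimitive (hamAut φ) Y := by
  classical
  have : IsPretransitive (hamAut φ) Y := ⟨fun a b => by
    obtain ⟨σ, h1, h2⟩ := ham_trans φ a b
    exact ⟨⟨σ, h1⟩, h2⟩⟩
  refine ⟨fun {B} hB => ?_⟩
  by_cases hs : B.Subsingleton
  · exact Or.inl hs
  right
  obtain ⟨x, hx, y, hy, hxy⟩ := Set.not_subsingleton_iff.1 hs
  have hmap : ∀ σ ∈ hamAut φ, ∀ u ∈ B, σ u ∈ B → ∀ v ∈ B, σ v ∈ B := fun σ hσ u hu h v hv =>
    H25.IsBlock.maps hB ⟨σ, hσ⟩ hu h hv
  obtain ⟨i, hi⟩ : ∃ i, φ x i ≠ φ y i := by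
    by_contra h
    push Not at h
    exact hxy (φ.injective (funext h))
  obtain ⟨c, hc1, hc2⟩ : ∃ c : Fin m, c ≠ φ x i ∧ c ≠ φ y i := by
    obtain ⟨c, hc⟩ : ∃ c, c ∉ ({φ x i, φ y i} : Finset (Fin m)) := by
      by_contra h
      push Not at h
      have h1 := Finset.card_le_card (fun c _ => h c : Finset.univ ⊆ ({φ x i, φ y i} : Finset _))
      have h2 := Finset.card_le_two (a := φ x i) (b := φ y i)
      rw [Finset.card_fin] at h1
      omega
    exact ⟨c, by simpa using hc⟩
  have h1 : φ.symm (update (φ y) i c) ∈ B := by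
    obtain ⟨σ, hσ, h⟩ := base_mem φ (update 1 i (swap (φ y i) c)) 1
    have e1 : σ x = x := φ.injective (funext fun j => by
      rw [h]
      by_cases hj : j = i
      · subst hj; simp [swap_apply_of_ne_of_ne hi hc1.symm]
      · simp [hj])
    have e2 : σ y = φ.symm (update (φ y) i c) := φ.injective (funext fun j => by
      rw [h]
      by_cases hj : j = i
      · subst hj; simp
      · simp [hj])
    exact e2 ▸ hmap σ hσ x hx (e1.symm ▸ hx) y hy
  have h2 : ∀ z, Adj (φ y) (φ z) → z ∈ B := by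
    rintro z ⟨j, hj, hz⟩
    obtain ⟨σ, hσ, h⟩ := base_mem φ (fun k => (if k = j then
      swap (swap (φ y k) (φ y (swap i j k)) c) (φ z j) else 1) * swap (φ y k) (φ y (swap i j k)))
      (swap i j)
    have hne : swap (φ y j) (φ y i) c ≠ φ y j := fun e => hc2 (by
      rw [swap_apply_eq_iff, swap_apply_left] at e; exact e)
    have e1 : σ y = y := φ.injective (funext fun k => by
      rw [h]
      by_cases hk : k = j
      · subst hk; simp [swap_apply_of_ne_of_ne hne.symm hj]
      · simp [hk])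
    have e2 : σ (φ.symm (update (φ y) i c)) = z := φ.injective (funext fun k => by
      rw [h]
      by_cases hk : k = j
      · subst hk; simp
      · have : swap i j k ≠ i := fun e => hk (by rw [swap_apply_eq_iff, swap_apply_left] at e; exact e)
        simp [hk, this, hz k hk])
    exact e2 ▸ hmap σ hσ y hy (e1.symm ▸ hy) _ h1
  have h3 : ∀ w ∈ B, ∀ z, Adj (φ w) (φ z) → z ∈ B := by
    intro w hw z hz
    obtain ⟨σ, hσ, rfl⟩ := ham_trans φ y w
    obtain ⟨z, rfl⟩ := σ.surjective z
    exact hmap σ hσ y hy hw z (h2 z ((hσ _ _).1 hz))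
  have h4 : ∀ (s : Finset ι) (z : Y), (∀ k, k ∉ s → φ z k = φ y k) → z ∈ B := by
    intro s
    induction s using Finset.induction_on with
    | empty => intro z hz; exact (φ.injective (funext fun k => hz k (by simp))).symm ▸ hy
    | insert j s hj ih =>
      intro z hz
      by_cases e : φ z j = φ y j
      · exact ih z fun k hk => by
          by_cases e' : k = j
          · rw [e', e]
          · exact hz k (by simp [e', hk])
      refine h3 _ (ih (φ.symm (update (φ z) j (φ y j))) fun k hk => ?_) z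
        ⟨j, by simpa using Ne.symm e, fun k hk => by simp [hk]⟩
      by_cases e' : k = j
      · simp [e']
      · simpa [e'] using hz k (by simp [e', hk])
  have := Fintype.ofFinite ι
  exact Set.eq_univ_of_forall fun z => h4 Finset.univ z (by simp)

/-- Let K be a finite group isomorphic to a direct product of r ≥ 2 groups all of the same order m ≥ 3. Then K is not a B-group: there is a primitive but not doubly transitive permutation group (on some finite set) containing a regular subgroup isomorphic to K. -/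
theorem result {K : Type*} [Group K] [Finite K] {ι : Type*} [Fintype ι] (F : ι → Type*) [∀ i, Group (F i)]
    (hr : 2 ≤ Fintype.card ι) (m : ℕ) (hm : 3 ≤ m) (hcard : ∀ i, Nat.card (F i) = m) (e : K ≃* (∀ i, F i)) :
    ∃ (n : ℕ) (G R : Subgroup (Equiv.Perm (Fin n))), R ≤ G ∧ Nonempty (↥R ≃* K) ∧
      MulAction.IsPretransitive ↥R (Fin n) ∧ (∀ a : Fin n, MulAction.stabilizer ↥R a = ⊥) ∧
      MulAction.IsPreprimitive ↥G (Fin n) ∧ ¬ MulAction.IsMultiplyPretransitive ↥G (Fin n) 2 := by
  classical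
  have : ∀ i, Finite (F i) := fun i => Nat.finite_of_card_ne_zero (by rw [hcard]; omega)
  let ε : ∀ i, F i ≃ Fin m := fun i => Finite.equivFinOfCardEq (hcard i)
  let φ : Fin (Nat.card (ι → Fin m)) ≃ (ι → Fin m) := (Finite.equivFin _).symm
  let ψ : Fin (Nat.card (ι → Fin m)) ≃ K := φ.trans ((Equiv.piCongrRight ε).symm.trans e.symm.toEquiv)
  let ρ : K →* Perm (Fin (Nat.card (ι → Fin m))) :=
    ψ.symm.permCongrHom.toMonoidHom.comp (toPermHom K K)
  have hρ : ∀ k a, ρ k a = ψ.symm (k * ψ a) := fun _ _ => rfl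
  have hinj : Injective ρ := ψ.symm.permCongrHom.injective.comp MulAction.toPerm_injective
  refine ⟨_, hamAut φ, ρ.range, ?_, ⟨(MonoidHom.ofInjective hinj).symm⟩, ⟨fun a b => ?_⟩,
    fun a => ?_, ham_prim hm φ, fun h => ?_⟩
  · rintro _ ⟨k, rfl⟩
    obtain ⟨σ, hσ, h⟩ := base_mem φ (fun i => (ε i).permCongr (toPerm (e k i))) 1
    convert hσ
    ext1 a
    refine φ.injective (funext fun i => ?_)
    rw [h, hρ]
    simp [ψ]
  · exact ⟨⟨_, ψ b * (ψ a)⁻¹, rfl⟩, by
      show ρ _ a = b
      rw [hρ, inv_mul_cancel_right, Equiv.symm_apply_apply]⟩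
  · refine eq_bot_iff.2 ?_
    rintro ⟨_, k, rfl⟩ hk
    have hk' : ρ k a = a := hk
    rw [hρ, Equiv.symm_apply_eq, mul_eq_right] at hk'
    simp [hk']
  · obtain ⟨i, j, hij⟩ := Fintype.exists_pair_of_one_lt_card hr
    let a : Fin m := ⟨0, by omega⟩
    let b : Fin m := ⟨1, by omega⟩
    have hab : a ≠ b := by simp [a, b]
    rw [is_two_pretransitive_iff] at h
    obtain ⟨g, h1, h2⟩ := h (a := φ.symm fun _ => a) (b := φ.symm (update (fun _ => a) i b))
      (c := φ.symm fun _ => a) (d := φ.symm fun _ => b)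
      (φ.symm.injective.ne fun e => hab (by simpa using congrFun e i))
      (φ.symm.injective.ne fun e => hab (congrFun e i))
    have h3 := (g.2 (φ.symm fun _ => a) (φ.symm (update (fun _ => a) i b))).2
      ⟨i, by simpa using hab, fun k hk => by simp [hk]⟩
    rw [Subgroup.smul_def, Perm.smul_def] at h1 h2
    rw [h1, h2] at h3
    obtain ⟨k, -, hk⟩ := h3
    by_cases e : i = k
    · exact hab (by simpa using hk j (e ▸ hij.symm))
    · exact hab (by simpa using hk i e)

end Cfsg.Agent.S3560
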