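import Cfsg.Statements.S3573
import Cfsg.Agent.H25.PrimeCyc

set_option autoImplicit false
open Cfsg

namespace Cfsg.Agent.S3573

/-- Let 1 ≤ k with 2k < n and consider the symmetric group of degree n acting on the k-subsets of an n-set. Let r be a prime dividing the number C(n,k) of k-subsets. If r is odd, then every permutation of order r fixes some k-subset if and only if r ≤ k and the remainder of k modulo r is at most the remainder of n modulo r. If r = 2, then every involution fixes some k-subset if and only if k is even or n is odd. -/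
theorem result (n k : ℕ) (hk : 1 ≤ k) (hkn : 2 * k < n) (r : ℕ) (hr : r.Prime) (hrd : r ∣ Nat.choose n k) :
    (r ≠ 2 → ((∀ σ : Equiv.Perm (Fin n), orderOf σ = r → ∃ s : Finset (Fin n), s.card = k ∧ s.image σ = s) ↔
      (r ≤ k ∧ k % r ≤ n % r))) ∧
    (r = 2 → ((∀ σ : Equiv.Perm (Fin n), orderOf σ = 2 → ∃ s : Finset (Fin n), s.card = k ∧ s.image σ = s) ↔
      (Even k ∨ Odd n))) := by
  have hrn : r ≤ n := by
    rw [← hr.dvd_factorial]
    refine hrd.trans ?_
    rw [← Nat.choose_mul_factorial_mul_factorial (by omega : k ≤ n), mul_assoc]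
    exact Dvd.intro _ rfl
  have hpos := hr.pos
  have key : (∀ σ : Equiv.Perm (Fin n), orderOf σ = r → ∃ s : Finset (Fin n), s.card = k ∧ s.image σ = s) ↔
      k % r ≤ n % r := by
    constructor
    · intro h
      have hn := Nat.div_add_mod' n r
      obtain ⟨σ, h1, -, h2⟩ := H25.exists_perm_prime_order (α := Fin n) (c := n / r) hr
        (Nat.div_pos hrn hpos) (by rw [Fintype.card_fin]; omega)
      obtain ⟨a, b, -, hb, rfl⟩ := (H25.exists_invariant_iff hr h1 h2 k).1 (h σ h1)
      rw [Fintype.card_fin] at hb
      rw [Nat.mul_add_mod_of_lt (lt_of_le_of_lt (by omega) (Nat.mod_lt n hpos))]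
      omega
    · intro h σ hσ
      obtain ⟨c, -, h1, h2⟩ := H25.support_prime_order hr hσ
      rw [H25.exists_invariant_iff hr hσ h2, Fintype.card_fin]
      have h3 : c * r ≤ n := by
        rw [← h1]; simpa using Finset.card_le_univ σ.support
      have hk' := Nat.div_add_mod' k r
      by_cases hc : k / r ≤ c
      · refine ⟨k / r, k % r, hc, ?_, hk'.symm⟩
        have h4 : c ≤ n / r := (Nat.le_div_iff_mul_le hpos).2 h3
        have h5 := Nat.mul_le_mul_right r h4
        have hn := Nat.div_add_mod' n r
        omega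
      · have h5 := Nat.mul_le_mul_right r (le_of_lt (not_le.1 hc))
        exact ⟨c, k - c * r, le_rfl, by omega, by omega⟩
  constructor
  · intro _
    rw [key]
    refine ⟨fun h => ⟨?_, h⟩, fun h => h.2⟩
    by_contra hlt
    push Not at hlt
    have := Fact.mk hr
    have h1 := Choose.choose_modEq_choose_mod_mul_choose_div_nat (n := n) (k := k) (p := r)
    rw [Nat.div_eq_of_lt hlt, Nat.choose_zero_right, mul_one] at h1
    have h2 : r ∣ (n % r).choose (k % r) := (h1.dvd_iff dvd_rfl).1 hrd
    have h3 : r ∣ (n % r).factorial := by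
      refine h2.trans ?_
      rw [← Nat.choose_mul_factorial_mul_factorial h, mul_assoc]
      exact Dvd.intro _ rfl
    rw [hr.dvd_factorial] at h3
    exact absurd (Nat.mod_lt n hpos) (by omega)
  · rintro rfl
    rw [key, Nat.even_iff, Nat.odd_iff]
    omega

end Cfsg.Agent.S3573
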