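import Cfsg.Statements.S3575
import Cfsg.Agent.H11.HS7

set_option autoImplicit false
open Cfsg

namespace Cfsg.Agent.S3575

/-- Let a, b ≥ 2 and consider the symmetric group of degree a·b acting on the partitions of an (a·b)-set into b parts of size a (encoded as maps onto a b-element set all of whose fibres have a elements; a permutation fixes such a partition when it permutes the fibres). Let r be a prime dividing the number (ab)!/((a!)^b·b!) of such partitions, and let ℓ and k be the remainders of a and b modulo r. Then every permutation of order r fixes some such partition if and only if r ≤ a and one of the following holds: ℓ = 0; or k = 0 and ℓ = 1; or ℓ and k are non-zero, k·ℓ < r, and either b < r or (k + r)·ℓ ≤ k·a + r. -/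
theorem result (a b : ℕ) (ha : 2 ≤ a) (hb : 2 ≤ b) (r : ℕ) (hr : r.Prime)
    (hrd : r ∣ (a * b).factorial / (a.factorial ^ b * b.factorial)) :
    (∀ σ : Equiv.Perm (Fin (a * b)), orderOf σ = r →
        ∃ f : Fin (a * b) → Fin b, (∀ j : Fin b, Nat.card {x : Fin (a * b) // f x = j} = a) ∧
          ∃ π : Equiv.Perm (Fin b), ∀ x : Fin (a * b), f (σ x) = π (f x)) ↔
      (r ≤ a ∧ (a % r = 0 ∨ (b % r = 0 ∧ a % r = 1) ∨
        (a % r ≠ 0 ∧ b % r ≠ 0 ∧ (b % r) * (a % r) < r ∧ (b < r ∨ (b % r + r) * (a % r) ≤ (b % r) * a + r)))) := by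
  refine (H11.HS.all_fx_iff (α := Fin (a * b)) hr (by omega) (Fintype.card_fin _)).trans ?_
  have r0 := hr.pos
  have ea := Nat.div_add_mod' a r
  have eb := Nat.div_add_mod' b r
  have la := Nat.mod_lt a r0
  have lb := Nat.mod_lt b r0
  have hn : r ≤ a * b := (hr.dvd_factorial).1 (hrd.trans (Nat.div_dvd_of_dvd (by
    have := Nat.uniformBell_mul_eq b (n := a) (by omega)
    rw [mul_comm a b, ← this, mul_assoc]
    exact dvd_mul_left _ _)))
  generalize a / r = q at ea
  generalize a % r = l at *
  generalize b / r = s at eb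
  generalize b % r = k at *
  subst ea eb
  rcases Nat.eq_zero_or_pos l with rfl | l0
  · refine iff_of_true (fun c _ hc => ⟨0, by omega, by omega, ?_⟩) ⟨?_, .inl rfl⟩
    · rw [add_zero, Nat.mul_div_cancel _ r0]
      refine Nat.le_of_mul_le_mul_right ?_ r0
      simp only [zero_mul, Nat.sub_zero, zero_add]
      nlinarith
    · rcases Nat.eq_zero_or_pos q with rfl | q0
      · omega
      · nlinarith
  rw [H11.HS.iv_iff la lb l0]
  have hs : s * r + k < r ↔ s = 0 := ⟨fun h => by
    by_contra s0
    have : 1 * r ≤ s * r := Nat.mul_le_mul_right _ (by omega)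
    omega, by rintro rfl; omega⟩
  have hl : (k + r) * l ≤ k * (q * r + l) + r ↔ l ≤ k * q + 1 :=
    ⟨fun h => Nat.le_of_mul_le_mul_right (by nlinarith) r0, fun h => by nlinarith⟩
  rw [hs, hl]
  constructor
  · rintro ⟨h1, h2⟩
    refine ⟨?_, .inr ?_⟩
    · rcases Nat.eq_zero_or_pos q with rfl | q0
      · rcases h2 with rfl | h2
        · simp only [zero_mul, zero_add] at hn
          nlinarith
        · omega
      · nlinarith
    · rcases Nat.eq_zero_or_pos k with rfl | k0
      · refine .inl ⟨rfl, ?_⟩
        rcases h2 with rfl | h2 <;> omega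
      · exact .inr ⟨by omega, by omega, h1, h2⟩
  · rintro ⟨-, h | ⟨rfl, rfl⟩ | h⟩
    · omega
    · exact ⟨by omega, .inr (by omega)⟩
    · exact h.2.2

end Cfsg.Agent.S3575
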