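import Cfsg.Statements.S3592
import Cfsg.Agent.H25.O7920
import Cfsg.Agent.H27.MSub

set_option autoImplicit false
open Cfsg

namespace Cfsg.Agent.S3592

open H25 Subgroup

/-- Let M be the Mathieu group M₁₁ (order 7920). If a finite group G has the same order as M and the same set of values of the function 'number of elements of order n' (taken over the element orders n that occur), then G is isomorphic to M. -/
theorem result {G : Type*} [Group G] [Finite G]
    (hcard : Nat.card G = Nat.card ↥Cfsg.Spor.M11)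
    (hnse : {c : ℕ | 0 < c ∧ ∃ n : ℕ, c = Nat.card {g : G // orderOf g = n}} =
      {c : ℕ | 0 < c ∧ ∃ n : ℕ, c = Nat.card {g : ↥Cfsg.Spor.M11 // orderOf g = n}}) :
    Nonempty (G ≃* ↥Cfsg.Spor.M11) := by
  have := H27.simple_H11
  have hM := H27.m11Equiv.symm.isSimpleGroup
  have c := (Nat.card_congr H27.m11Equiv.symm.toEquiv).trans H27.card_H11
  have : Finite Spor.M11 := Nat.finite_of_card_ne_zero (by omega)
  have hord := hcard.trans c
  have key : ∀ n, 0 < Nat.card {g : G // orderOf g = n} → Nat.card {g : G // orderOf g = n} = 1 ∨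
      Nat.card {g : G // orderOf g = n} = 1440 ∨ 11 ∣ Nat.card {g : G // orderOf g = n} :=
    fun n h => by
      obtain ⟨-, m, e⟩ := hnse.le ⟨h, n, rfl⟩
      exact e ▸ o7920_nse c m
  suffices IsSimpleGroup G from m11_unique hord c
  by_contra hs
  obtain ⟨P⟩ : Nonempty (Sylow 11 G) := inferInstance
  have hP : Nat.card (P : Subgroup G) = 11 := card_sylow_eq_prime (by omega) (by omega) P
  obtain ⟨n1, n2⟩ := o7920_n11 hord P
  have k := key 11
  rw [H2.sm_card_ord_p P hP] at k
  have n : Nat.card (Sylow 11 G) = 144 := by omega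
  obtain ⟨K, hK, k1, k2, k3, -⟩ := o7920_normal hord hs P (by rw [n]; norm_num)
  rw [n] at n1
  have d := card_dvd_of_le (k3.trans (centralizer_le_normalizer _))
  rw [show Nat.card (normalizer ((P : Subgroup G) : Set G)) = 5 * 11 by omega] at d
  have d5 := (Nat.dvd_prime Nat.prime_five).1 ((Nat.coprime_comm.1
    (Nat.prime_eleven.coprime_iff_not_dvd.2 k2)).dvd_of_dvd_mul_right d)
  have c5 := d5.resolve_left (mt card_eq_one.1 k1)
  obtain ⟨Q⟩ : Nonempty (Sylow 5 G) := inferInstance
  have hQ : Nat.card (Q : Subgroup G) = 5 := card_sylow_eq_prime (by omega) (by omega) Q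
  have k := key 5
  have e := card_sylow_dvd_normal Q K (H2.br_le_of_normal Q hQ K c5.symm.dvd)
  rw [hQ, c5] at e
  rw [H2.sm_card_ord_p Q hQ, Nat.dvd_one.1 (Nat.dvd_of_mul_dvd_mul_right (k := 5) (n := 1)
    (by norm_num) e)] at k
  omega

end Cfsg.Agent.S3592
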