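import Cfsg.Statements.S3619
import Cfsg.Agent.H25.JSet

set_option autoImplicit false
open Cfsg

namespace Cfsg.Agent.S3619

open MulAction Pointwise

/-- In a quasiprimitive group, every non-identity element moves a translate of any proper block. -/
theorem exists_moved {G Ω : Type*} [Group G] [MulAction G Ω]
    (hqp : ∀ N : Subgroup G, N.Normal → N ≠ ⊥ → MulAction.IsPretransitive ↥N Ω)
    {B : Set Ω} (hB : B ≠ Set.univ) (hne : B.Nonempty) {f : G} (hf : f ≠ 1) :
    ∃ k : G, f • k • B ≠ k • B := by
  by_contra h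
  push Not at h
  have := hqp (stabilizer G B).normalCore inferInstance (fun h0 => hf (by
    rw [← Subgroup.mem_bot, ← h0]
    intro k
    rw [mem_stabilizer_iff, mul_smul, mul_smul, h, smul_inv_smul]))
  obtain ⟨a, ha⟩ := hne
  apply hB
  rw [Set.eq_univ_iff_forall]
  intro b
  obtain ⟨g, rfl⟩ := exists_smul_eq (stabilizer G B).normalCore a b
  exact (mem_stabilizer_iff.1 (Subgroup.normalCore_le _ g.2)).le (Set.smul_mem_smul_set ha)

/-- Let G act faithfully on a finite set in such a way that every non-trivial normal subgroup of G is transitive (G is quasiprimitive). Let Γ be a subset with more than one point and not the whole set, such that the pointwise stabilizer of the complement of Γ acts transitively on Γ (a Jordan set). If that pointwise stabilizer acts primitively on Γ, then G is k-fold transitive where k is one more than the number of points outside Γ (the Jordan set is a trivial one). -/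
theorem result {G Ω : Type*} [Group G] [Finite G] [MulAction G Ω] [FaithfulSMul G Ω] [Finite Ω]
    (hqp : ∀ N : Subgroup G, N.Normal → N ≠ ⊥ → MulAction.IsPretransitive ↥N Ω)
    (Γ : Set Ω) (hΓ1 : 1 < Γ.ncard) (hΓ2 : Γ.ncard < Nat.card Ω)
    (hJ : MulAction.IsPretransitive ↥(fixingSubgroup G Γᶜ) ↥(SubMulAction.ofFixingSubgroup G Γᶜ))
    (hJp : MulAction.IsPreprimitive ↥(fixingSubgroup G Γᶜ) ↥(SubMulAction.ofFixingSubgroup G Γᶜ)) :
    MulAction.IsMultiplyPretransitive G Ω (Nat.card Ω - Γ.ncard + 1) := by
  obtain ⟨x, hx, y, hy, hxy⟩ := (Set.one_lt_ncard_iff_nontrivial).1 hΓ1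
  obtain ⟨f, hf, hfx⟩ := H25.jSet_iff.2 hJ x hx y hy
  have hf1 : f ≠ 1 := by rintro rfl; exact hxy ((one_smul G x).symm.trans hfx)
  have htr : IsPretransitive G Ω := ⟨fun a b => by
    obtain ⟨g, hg⟩ := (hqp ⊤ inferInstance (fun h => hf1 (Subgroup.mem_bot.1
      (h ▸ Subgroup.mem_top f)))).exists_smul_eq a b
    exact ⟨g, hg⟩⟩
  have hmaps : ∀ g : G, (∀ z ∉ Γ, g • z = z) → g • Γ = Γ := by
    intro g hg
    apply Set.eq_of_subset_of_ncard_le _ (by rw [Set.ncard_smul_set])
    rintro _ ⟨z, hz, rfl⟩
    by_contra h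
    have e : g • z = z := smul_left_cancel g (hg _ h)
    exact h (by simpa only [e] using hz)
  have hprim : IsPreprimitive G Ω := ⟨fun {B} hB => by
    by_contra hnt
    rw [IsTrivialBlock, not_or, Set.not_subsingleton_iff] at hnt
    obtain ⟨k, hk⟩ := exists_moved hqp hnt.2 hnt.1.nonempty hf1
    have hB' := hB.translate k
    have hsub : k • B ⊆ Γᶜᶜ := by
      intro z hz hzΓ
      exact hk (isBlock_iff_smul_eq_of_mem.1 hB' hz ((hf z hzΓ).symm ▸ hz))
    rcases H25.block_of_fixing hJp hsub (fun g _ u hu hu' v hv => H25.IsBlock.maps hB' g hu hu' hv)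
      with h | h
    · exact hnt.1.not_subsingleton (fun u hu v hv => smul_left_cancel k
        (h (Set.smul_mem_smul_set hu) (Set.smul_mem_smul_set hv)))
    · rw [compl_compl] at h
      exact hk (by rw [h, hmaps f hf])⟩
  have e := Set.ncard_add_ncard_compl Γ
  have := (hprim.isMultiplyPreprimitive (s := Γᶜ) (n := Γᶜ.ncard - 1) (by omega) (by omega)
    hJp).isMultiplyPretransitive
  convert this using 1
  omega

end Cfsg.Agent.S3619
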