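import Cfsg.Statements.S3639
import Cfsg.Agent.H26.SzSub2

set_option autoImplicit false
open Cfsg

namespace Cfsg.Agent.S3639

open Matrix

variable {G : Type*} [Group G] {F : Type*} [Field F] [Fintype F] {m : ℕ} (N : H26.SzModel G F m)

theorem fpf {x : G} {p : ℕ} (hp : p.Prime) (h2 : p ≠ 2) (hx : x ^ p = 1) (h1 : x ≠ 1) {v : Fin 4 → F}
    (hv : N.ρ x *ᵥ v = v) : v = 0 := by
  have : Fact p.Prime := ⟨hp⟩
  have ho := orderOf_eq_prime hx h1
  rcases N.elt_cases x with h | ⟨k, h⟩ | ⟨k, h⟩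
  · rcases H26.Sz.invariant_eq_bot_or_top hp h2 (N.prime_dvd_of_fpf hp ho h) (A := N.ρ x)
      (by rw [← map_pow, hx, map_one]) (fun e => h1 (N.inj (e.trans (map_one _).symm)))
      (Submodule.span F {v}) (fun w hw => by
        obtain ⟨c, rfl⟩ := Submodule.mem_span_singleton.1 hw
        rw [mulVec_smul, hv]
        exact hw) with h3 | h3
    · simpa using h3
    · have h4 := finrank_span_le_card (R := F) ({v} : Set (Fin 4 → F))
      rw [h3] at h4
      simp at h4
  · have h3 := orderOf_dvd_of_pow_eq_one ((N.conj k).pow_four_of_mem_Q h)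
    rw [ho] at h3
    exact absurd ((Nat.prime_dvd_prime_iff_eq hp Nat.prime_two).1 (hp.dvd_of_dvd_pow (n := 2) h3)) h2
  · obtain ⟨s, hs⟩ := N.mem_H.1 (N.mem_conj_H.1 h)
    have hs1 : (s : F) ≠ 1 := fun e => h1 (H26.inv_conj_eq_one.1 (by rw [hs, Units.val_eq_one.1 e, map_one]))
    have hs2 : (s : F) * N.σ s ≠ 1 := fun e => hs1 (N.σ_mul_inj (by rw [mul_comm, e]; simp))
    have h3 : H26.Sz.hM N.σ s *ᵥ (N.ρ k⁻¹ *ᵥ v) = N.ρ k⁻¹ *ᵥ v := by
      rw [← N.ρ_h, ← hs, mulVec_mulVec, ← map_mul, mul_inv_cancel_right, map_mul, ← mulVec_mulVec, hv]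
    have h4 : N.ρ k⁻¹ *ᵥ v = 0 := by
      generalize N.ρ k⁻¹ *ᵥ v = w at h3
      have key : ∀ c a : F, c ≠ 1 → c * a = a → a = 0 := fun c a hc h => by
        by_contra h0
        exact hc (mul_right_cancel₀ h0 (h.trans (one_mul a).symm))
      ext i
      have := congrFun h3 i
      fin_cases i
      · exact key _ _ hs2 (by simpa [H26.Sz.hM, mulVec, dotProduct, Fin.sum_univ_four] using this)
      · exact key _ _ hs1 (by simpa [H26.Sz.hM, mulVec, dotProduct, Fin.sum_univ_four] using this)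
      · exact key _ _ (inv_ne_one.2 hs1) (by simpa [H26.Sz.hM, mulVec, dotProduct, Fin.sum_univ_four] using this)
      · exact key _ _ (inv_ne_one.2 hs2)
          (by simpa [H26.Sz.hM, mulVec, dotProduct, Fin.sum_univ_four] using this)
    have h5 := congrArg (fun w => N.ρ k *ᵥ w) h4
    simpa [mulVec_mulVec, ← map_mul] using h5

/-- the action on copies of the natural module -/
def φ (n : ℕ) : G →* MulAut (Multiplicative (Fin n → Fin 4 → F)) :=
  MonoidHom.mk' (fun g =>
    { toFun := fun v => Multiplicative.ofAdd fun i => N.ρ g *ᵥ v.toAdd i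
      invFun := fun v => Multiplicative.ofAdd fun i => N.ρ g⁻¹ *ᵥ v.toAdd i
      left_inv := fun v => by simp [mulVec_mulVec, ← map_mul]
      right_inv := fun v => by simp [mulVec_mulVec, ← map_mul]
      map_mul' := fun v w => by
        apply Multiplicative.toAdd.injective
        ext1 i
        simp [mulVec_add] }) fun g h => by
    ext1 v
    simp [mulVec_mulVec]

theorem aux {n : ℕ} {y : Multiplicative (Fin n → Fin 4 → F) ⋊[φ N n] G} {r s : ℕ} (hr : r.Prime)
    (hs : s.Prime) (hrs : r ≠ s) (hy : orderOf y = r * s) : y.right ^ r ≠ 1 := by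
  have := N.charP
  intro h
  have key : ∀ z : Multiplicative (Fin n → Fin 4 → F) ⋊[φ N n] G, z.right = 1 → z ^ 2 = 1 := fun z hz => by
    rw [← SemidirectProduct.inl_left_mul_inr_right z, hz, map_one, mul_one, ← map_pow]
    have : z.left ^ 2 = 1 := by
      apply Multiplicative.toAdd.injective
      ext i j
      simp [CharTwo.two_eq_zero]
    rw [this, map_one]
  have h1 : (y ^ r).right = 1 := (map_pow SemidirectProduct.rightHom y r).trans h
  have h2 := orderOf_dvd_of_pow_eq_one ((pow_mul y r 2).trans (key _ h1))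
  rw [hy] at h2
  obtain rfl := (Nat.prime_dvd_prime_iff_eq hs Nat.prime_two).1 (Nat.dvd_of_mul_dvd_mul_left hr.pos h2)
  have h3 : y.right ≠ 1 := fun e => by
    have := Nat.le_of_dvd two_pos (orderOf_dvd_of_pow_eq_one (key y e))
    have := hr.two_le
    omega
  have h4 := congrArg SemidirectProduct.left ((Commute.refl y).pow_right r).eq
  rw [SemidirectProduct.mul_left, SemidirectProduct.mul_left, h1, map_one, MulAut.one_apply, mul_comm,
    mul_left_inj] at h4
  have h5 : (y ^ r).left = 1 := by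
    apply Multiplicative.toAdd.injective
    ext1 i
    exact fpf N hr hrs h h3 (congrFun (congrArg Multiplicative.toAdd h4) i)
  have h6 := Nat.le_of_dvd hr.pos (orderOf_dvd_of_pow_eq_one (SemidirectProduct.ext h5 h1 : y ^ r = 1))
  have := hr.two_le
  omega


/-- Let S be the Suzuki group over the field with q = 2^(2m+1) ≥ 8 elements. Then there are finite groups of arbitrarily large order with the same prime graph as S. -/
theorem result {F : Type*} [Field F] [Fintype F] {m : ℕ} (hm : 1 ≤ m) (hF : Fintype.card F = 2 ^ (2 * m + 1)) (N : ℕ) :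
    ∃ (H : Type) (_ : Group H) (_ : Fintype H), N < Fintype.card H ∧ ((∀ r : ℕ, r.Prime → (r ∣ Nat.card ↥(Cfsg.Lie.Sz F (2 ^ (m + 1))) ↔ r ∣ Nat.card H)) ∧
      (∀ r s : ℕ, r.Prime → s.Prime → r ≠ s → ((∃ x : ↥(Cfsg.Lie.Sz F (2 ^ (m + 1))), orderOf x = r * s) ↔ (∃ y : H, orderOf y = r * s)))) := by
  let M := H26.Sz.lieModel hm hF
  have := M.finite
  let H := Multiplicative (Fin N → Fin 4 → F) ⋊[φ M N] ↥(Cfsg.Lie.Sz F (2 ^ (m + 1)))
  have : Finite H := Finite.of_equiv _ SemidirectProduct.equivProd.symm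
  have e : Shrink.{0} H ≃* H := Shrink.mulEquiv
  have : Finite (Shrink.{0} H) := Finite.of_equiv _ e.symm.toEquiv
  have hc : Nat.card (Shrink.{0} H) = 2 ^ ((2 * m + 1) * 4 * N) * Nat.card ↥(Cfsg.Lie.Sz F (2 ^ (m + 1))) := by
    rw [Nat.card_congr e.toEquiv, SemidirectProduct.card]
    simp [hF, pow_mul]
  refine ⟨Shrink.{0} H, inferInstance, Fintype.ofFinite _, ?_, fun r hr => ?_, fun r s hr hs hrs => ?_⟩
  · rw [Fintype.card_eq_nat_card, hc]
    calc N < 2 ^ N := Nat.lt_two_pow_self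
      _ ≤ 2 ^ ((2 * m + 1) * 4 * N) := Nat.pow_le_pow_right two_pos (by nlinarith)
      _ ≤ _ := Nat.le_mul_of_pos_right _ Nat.card_pos
  · rw [hc]
    refine ⟨fun h => h.mul_left _, fun h => ((Nat.Prime.dvd_mul hr).1 h).elim (fun h => ?_) id⟩
    rw [(Nat.prime_dvd_prime_iff_eq hr Nat.prime_two).1 (hr.dvd_of_dvd_pow h), M.card_G]
    exact ((even_iff_two_dvd.1 (M.even_card.pow_of_ne_zero two_ne_zero)).mul_right _).mul_right _
  · constructor
    · rintro ⟨x, hx⟩
      exact ⟨e.symm (SemidirectProduct.inr x), by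
        rw [MulEquiv.orderOf_eq, orderOf_injective _ SemidirectProduct.inr_injective, hx]⟩
    · rintro ⟨y, hy⟩
      rw [← e.orderOf_eq] at hy
      refine ⟨(e y).right, orderOf_eq_of_pow_and_pow_div_prime (Nat.mul_pos hr.pos hs.pos) ?_ ?_⟩
      · rw [← hy]
        exact (map_pow SemidirectProduct.rightHom _ _).symm.trans (by rw [pow_orderOf_eq_one, map_one])
      · intro p hp hd
        rcases (Nat.Prime.dvd_mul hp).1 hd with h | h
        · rw [(Nat.prime_dvd_prime_iff_eq hp hr).1 h, Nat.mul_div_cancel_left _ hr.pos]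
          exact aux M hs hr hrs.symm (hy.trans (mul_comm _ _))
        · rw [(Nat.prime_dvd_prime_iff_eq hp hs).1 h, Nat.mul_div_cancel _ hs.pos]
          exact aux M hr hs hrs hy

end Cfsg.Agent.S3639
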