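import Cfsg.Statements.S3680
import Cfsg.Agent.H25.Socle

set_option autoImplicit false
open Cfsg

namespace Cfsg.Agent.S3680

open MulAction Subgroup

/-- The socle of a finite primitive permutation group. Let a finite group G act faithfully and primitively on a set Ω, and let N be the subgroup generated by the minimal normal subgroups of G. Then either N is an elementary abelian p-group for some prime p and acts regularly on Ω (transitively with trivial point stabilizers), or N is isomorphic to a direct product of m ≥ 1 copies of a non-abelian simple group. -/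
theorem result {G Ω : Type*} [Group G] [Finite G] [MulAction G Ω] [FaithfulSMul G Ω] [Finite Ω]
    (hprim : MulAction.IsPreprimitive G Ω) (N : Subgroup G)
    (hN : N = sSup {V : Subgroup G | V.Normal ∧ V ≠ ⊥ ∧ ∀ M : Subgroup G, M.Normal → M ≤ V → M = ⊥ ∨ M = V}) :
    (∃ p : ℕ, p.Prime ∧ IsMulCommutative N ∧ (∀ x : N, x ^ p = 1) ∧
      MulAction.IsPretransitive N Ω ∧ ∀ ω : Ω, MulAction.stabilizer N ω = ⊥) ∨
    (∃ (T : Type) (_ : Group T) (m : ℕ), 1 ≤ m ∧ IsSimpleGroup T ∧ ¬ IsMulCommutative T ∧ Nonempty (N ≃* (Fin m → T))) := by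
  by_cases hG : (⊤ : Subgroup G) = ⊥
  · left
    have h0 : N = ⊤ := le_antisymm le_top (hG ▸ bot_le)
    have : Subsingleton G := ⟨fun a b =>
      (mem_bot.1 (hG.le (mem_top a))).trans (mem_bot.1 (hG.le (mem_top b))).symm⟩
    refine ⟨2, Nat.prime_two, ⟨⟨fun a b => Subsingleton.elim _ _⟩⟩, fun x => Subsingleton.elim _ _,
      ⟨fun a b => ?_⟩, fun ω => Subsingleton.elim _ _⟩
    obtain ⟨g, hg⟩ := exists_smul_eq G a b
    exact ⟨⟨g, h0 ▸ mem_top g⟩, hg⟩
  have hnt : Nontrivial Ω := by
    by_contra h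
    rw [not_nontrivial_iff_subsingleton] at h
    exact hG (eq_bot_iff.2 fun g _ => eq_of_smul_eq_smul (α := Ω) fun x => Subsingleton.elim _ _)
  obtain ⟨a⟩ : Nonempty Ω := inferInstance
  have hU := IsPreprimitive.isCoatom_stabilizer_of_isPreprimitive G a
  have hc := H25.corefree_stabilizer (G := G) a
  obtain ⟨V, hVn, hV0, -, hVmin⟩ := H1.exists_minimal_normal_le (⊤ : Subgroup G) hG
  have hother : ∀ W : Subgroup G, W.Normal → W ≠ ⊥ →
      (∀ M : Subgroup G, M.Normal → M ≤ W → M = ⊥ ∨ M = W) → W ≠ V →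
      V ⊓ W = ⊥ ∧ W = centralizer (V : Set G) := by
    intro W hWn hW0 hWmin hWV
    have h1 : V ⊓ W = ⊥ := by
      rcases hVmin (V ⊓ W) inferInstance inf_le_left with h | h
      · exact h
      · exact (hWV ((hWmin V hVn (inf_eq_left.1 h)).resolve_left hV0).symm).elim
    exact ⟨h1, H1.eq_centralizer_of_corefree hU hc hV0 hW0
      (H1.le_centralizer_of_inf_eq_bot (inf_comm V W ▸ h1))⟩
  have hVN : V ≤ N := hN ▸ le_sSup ⟨hVn, hV0, hVmin⟩
  by_cases hVc : IsMulCommutative V
  · left
    have hNV : N = V := by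
      refine le_antisymm (hN ▸ sSup_le fun W hW => ?_) hVN
      by_contra hWV
      have := hother W hW.1 hW.2.1 hW.2.2 fun h => hWV h.le
      exact hWV (this.2.trans (H1.eq_centralizer_of_corefree hU hc hV0 hV0 V.le_centralizer).symm).le
    subst hNV
    obtain ⟨-, p, hp, hpV⟩ := H1.elementary_of_minimal_normal N (H1.isSolvable_of_comm' hVc) hV0 hVmin
    have := H25.normal_transitive_of_primitive (α := Ω) N hV0
    exact ⟨p, hp, hVc, fun x => Subtype.ext (hpV x x.2), this,
      H25.stabilizer_eq_bot_of_comm fun x y => hVc.is_comm.comm x y⟩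
  · right
    obtain ⟨T, _, m, e, hT, hm, -⟩ := H25.exists_pi_simple_decomp_minimal_normal V hV0 hVmin
    have hTc : ¬ IsMulCommutative T := fun h => hVc (H25.comm_of_pi_comm e h)
    by_cases hNV : N ≤ V
    · exact ⟨T, inferInstance, m, hm, hT, hTc, ⟨(MulEquiv.subgroupCongr (le_antisymm hNV hVN)).trans e⟩⟩
    · obtain ⟨W, hW, hWV⟩ : ∃ W : Subgroup G, (W.Normal ∧ W ≠ ⊥ ∧
          ∀ M : Subgroup G, M.Normal → M ≤ W → M = ⊥ ∨ M = W) ∧ W ≠ V := by
        by_contra h
        push Not at h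
        exact hNV (hN ▸ sSup_le fun W hW => (h W hW).le)
      have hWn := hW.1
      obtain ⟨h1, h2⟩ := hother W hW.1 hW.2.1 hW.2.2 hWV
      have hNe : N = V ⊔ W := by
        refine le_antisymm (hN ▸ sSup_le fun X hX => ?_) (sup_le hVN (hN ▸ le_sSup hW))
        by_cases hXV : X = V
        · exact hXV ▸ le_sup_left
        · rw [(hother X hX.1 hX.2.1 hX.2.2 hXV).2, ← h2]; exact le_sup_right
      obtain ⟨f⟩ := H25.equiv_of_inf_eq_bot hU hc hV0 hW.2.1 h1
      obtain ⟨g⟩ := H25.sup_equiv_prod h1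
      exact ⟨T, inferInstance, m + m, by omega, hT, hTc, ⟨(MulEquiv.subgroupCongr hNe).trans
        (g.trans ((e.prodCongr (f.symm.trans e)).trans (H25.piAppendEquiv T m m)))⟩⟩

end Cfsg.Agent.S3680
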