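import Cfsg.Statements.S3684
import Cfsg.Agent.H25.Stab
import Cfsg.Agent.H6.Dihedral
import Cfsg.Agent.H1.Basic

set_option autoImplicit false
open Cfsg

namespace Cfsg.Agent.S3684

open MulAction

theorem exists_gen {G : Type*} [Group G] (K : Subgroup G) (h : Nat.card K = 2) :
    ∃ s : G, s ≠ 1 ∧ s * s = 1 ∧ K = Subgroup.zpowers s := by
  have : Finite K := Nat.finite_of_card_ne_zero (by omega)
  have := Fact.mk Nat.prime_two
  obtain ⟨x, hx⟩ := exists_prime_orderOf_dvd_card' 2 (h ▸ dvd_rfl : 2 ∣ Nat.card K)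
  have hx' : orderOf (x : G) = 2 := by rw [Subgroup.orderOf_coe, hx]
  refine ⟨x, ?_, ?_, ?_⟩
  · intro h1; rw [h1, orderOf_one] at hx'; omega
  · rw [← sq, ← hx', pow_orderOf_eq_one]
  · symm
    apply Subgroup.eq_of_le_of_card_ge (Subgroup.zpowers_le.2 x.2)
    rw [h, Nat.card_zpowers, hx']

/-- Let a finite group G act faithfully and primitively on a set Ω, and suppose the stabilizer of a point a has an orbit of length 2. Then the stabilizer of a has order 2 and G is isomorphic to the dihedral group of order 2p for some prime p. -/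
theorem result {G Ω : Type*} [Group G] [Finite G] [MulAction G Ω] [FaithfulSMul G Ω] [Finite Ω]
    (hprim : MulAction.IsPreprimitive G Ω) (a b : Ω) (h2 : Nat.card (MulAction.orbit (MulAction.stabilizer G a) b) = 2) :
    Nat.card (MulAction.stabilizer G a) = 2 ∧ ∃ p : ℕ, p.Prime ∧ Nonempty (G ≃* DihedralGroup p) := by
  rw [Nat.card_coe_set_eq, H25.ncard_suborbit] at h2
  have hne : stabilizer G a ≠ stabilizer G b := by
    intro h; rw [h, Subgroup.relIndex_self] at h2; omega
  have hab : a ≠ b := by rintro rfl; exact hne rfl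
  have : Nontrivial Ω := ⟨a, b, hab⟩
  have hc := fun x : Ω => IsPreprimitive.isCoatom_stabilizer_of_isPreprimitive G x
  have hcard := H25.card_stabilizer_eq (G := G) a b
  have h3 : (stabilizer G a).relIndex (stabilizer G b) = 2 := by
    have e1 := H1.card_inf_mul_relIndex (stabilizer G a) (stabilizer G b)
    have e2 := H1.card_inf_mul_relIndex (stabilizer G b) (stabilizer G a)
    rw [inf_comm, h2, hcard, ← e1] at e2
    exact (Nat.eq_of_mul_eq_mul_left Nat.card_pos e2).symm
  have hsup : stabilizer G a ⊔ stabilizer G b = ⊤ := (hc a).sup_eq_top_of_ne (hc b) hne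
  have hn : ∀ A B : Subgroup G, A.relIndex B = 2 → B ≤ Subgroup.normalizer ((A ⊓ B : Subgroup G) : Set G) := by
    intro A B h
    rw [← Subgroup.normal_subgroupOf_iff_le_normalizer inf_le_right, Subgroup.inf_subgroupOf_right]
    exact Subgroup.normal_of_index_eq_two h
  have hK : (stabilizer G a ⊓ stabilizer G b).Normal := by
    rw [← Subgroup.normalizer_eq_top_iff, eq_top_iff, ← hsup]
    exact sup_le (inf_comm (stabilizer G a) _ ▸ hn _ _ h2) (hn _ _ h3)
  have hK1 := H25.eq_bot_of_normal_le_stabilizer _ (inf_le_left : stabilizer G a ⊓ stabilizer G b ≤ _)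
  have hb2 : Nat.card (stabilizer G b) = 2 := by
    rw [← H1.card_inf_mul_relIndex (stabilizer G a), hK1, h3, Subgroup.card_bot]
  have ha2 := hcard.trans hb2
  refine ⟨ha2, ?_⟩
  obtain ⟨s, hs1, hs, hsa⟩ := exists_gen _ ha2
  obtain ⟨t, ht1, ht, htb⟩ := exists_gen _ hb2
  have hsi : s⁻¹ = s := inv_eq_of_mul_eq_one_right hs
  have hti : t⁻¹ = t := inv_eq_of_mul_eq_one_right ht
  have hinv : s * (s * t) * s⁻¹ = (s * t)⁻¹ := by
    rw [← mul_assoc, hs, one_mul, mul_inv_rev, hti]
  have htop : Subgroup.closure ({s * t, s} : Set G) = ⊤ := by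
    rw [eq_top_iff, ← hsup, hsa, htb]
    have h1 : s ∈ Subgroup.closure ({s * t, s} : Set G) := Subgroup.subset_closure (by simp)
    have h2 : s * t ∈ Subgroup.closure ({s * t, s} : Set G) := Subgroup.subset_closure (by simp)
    refine sup_le (Subgroup.zpowers_le.2 h1) (Subgroup.zpowers_le.2 ?_)
    simpa using Subgroup.mul_mem _ (Subgroup.inv_mem _ h1) h2
  have hsr : s ∉ Subgroup.zpowers (s * t) := by
    intro h
    have h1 : Subgroup.zpowers (s * t) = ⊤ := by
      rw [eq_top_iff, ← htop, Subgroup.closure_le]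
      rintro x (rfl | rfl)
      · exact Subgroup.mem_zpowers _
      · exact h
    have hcyc : IsCyclic G := ⟨s * t, fun x => (h1 ▸ Subgroup.mem_top x : x ∈ Subgroup.zpowers (s * t))⟩
    have : (stabilizer G a).Normal := ⟨fun n hn g => by
      rwa [hcyc.isMulCommutative.is_comm.comm g n, mul_inv_cancel_right]⟩
    have h4 := H25.eq_bot_of_normal_le_stabilizer (stabilizer G a) le_rfl
    rw [h4, Subgroup.card_bot] at ha2
    omega
  have hr1 : orderOf (s * t) ≠ 1 := by
    rw [Ne, orderOf_eq_one_iff, mul_eq_one_iff_eq_inv, hti]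
    rintro rfl
    exact hne (hsa.trans htb.symm)
  obtain ⟨p, hp, c, hc'⟩ := Nat.exists_prime_and_dvd hr1
  refine ⟨p, hp, H6.equiv_dihedral_of_top ?_ hs hinv hsr htop⟩
  have hpos := orderOf_pos (s * t)
  have hc0 : c ≠ 0 := by rintro rfl; omega
  set r := s * t
  have hrc : orderOf (r ^ c) = p := by
    rw [orderOf_pow' r hc0, hc', Nat.gcd_eq_right (Dvd.intro_left _ rfl),
      Nat.mul_div_cancel _ (Nat.pos_of_ne_zero hc0)]
  have hinv' : s * r ^ c * s⁻¹ = (r ^ c)⁻¹ := by
    rw [← conj_pow, hinv, inv_pow]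
  have h5 : Subgroup.closure ({r ^ c, s} : Set G) = ⊤ := by
    apply (hc a).2
    rw [hsa]
    refine lt_of_le_of_ne (Subgroup.zpowers_le.2 (Subgroup.subset_closure (by simp))) fun h => ?_
    have h6 : r ^ c ∈ Subgroup.zpowers s := h ▸ Subgroup.subset_closure (by simp)
    obtain ⟨k, hk⟩ := h6
    simp only at hk
    rcases Int.even_or_odd' k with ⟨j, rfl | rfl⟩
    · rw [zpow_mul, zpow_two, hs, one_zpow] at hk
      rw [← hk, orderOf_one] at hrc
      exact hp.one_lt.ne hrc
    · rw [zpow_add, zpow_mul, zpow_two, hs, one_zpow, one_mul, zpow_one] at hk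
      exact hsr (hk ▸ Subgroup.pow_mem _ (Subgroup.mem_zpowers r) c)
  obtain ⟨k, hk | hk⟩ := (H6.mem_closure_inverts hs hinv').1 (h5 ▸ Subgroup.mem_top r)
  · have h7 : orderOf r ∣ p := by
      rw [← hrc]
      exact orderOf_dvd_of_mem_zpowers ⟨k, hk.symm⟩
    exact Nat.dvd_antisymm h7 ⟨c, hc'⟩
  · exfalso
    apply hsr
    have : s = ((r ^ c) ^ k)⁻¹ * r := by rw [eq_inv_mul_iff_mul_eq, ← hk]
    rw [this]
    exact Subgroup.mul_mem _ (Subgroup.inv_mem _ (Subgroup.zpow_mem _
      (Subgroup.pow_mem _ (Subgroup.mem_zpowers r) c) k)) (Subgroup.mem_zpowers r)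

end Cfsg.Agent.S3684
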