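import Cfsg.Statements.S3696
import Cfsg.Agent.H25.CompLen

set_option autoImplicit false
open Cfsg

namespace Cfsg.Agent.S3696

theorem amgm {ι : Type*} (s : Finset ι) (z : ι → ℕ) :
    (∏ i ∈ s, z i) * s.card ^ s.card ≤ (∑ i ∈ s, z i) ^ s.card := by
  rcases s.eq_empty_or_nonempty with rfl | hs
  · simp
  have hc : (0 : ℝ) < s.card := by exact_mod_cast hs.card_pos
  have h := Real.geom_mean_le_arith_mean s (fun _ => 1) (fun i => z i) (by simp) (by simpa using hs)
    (by simp)
  simp only [Real.rpow_one, Finset.sum_const, nsmul_eq_mul, mul_one, one_mul] at h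
  have h0 : (0 : ℝ) ≤ ∏ i ∈ s, (z i : ℝ) := Finset.prod_nonneg (by simp)
  have h2 := pow_le_pow_left₀ (Real.rpow_nonneg h0 _) h s.card
  rw [Real.rpow_inv_natCast_pow h0 hs.card_pos.ne', div_pow, le_div_iff₀ (pow_pos hc _)] at h2
  exact_mod_cast h2

theorem sum_le_prod' {ι : Type*} (s : Finset ι) (z : ι → ℕ) (h : ∀ i, 1 < z i) :
    ∑ i ∈ s, z i ≤ ∏ i ∈ s, z i := by
  classical
  induction s using Finset.induction_on with
  | empty => simp
  | insert i s hi ih =>
    rw [Finset.sum_insert hi, Finset.prod_insert hi]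
    rcases s.eq_empty_or_nonempty with rfl | ⟨j, hj⟩
    · simp
    have h1 : z j ≤ ∑ i ∈ s, z i := Finset.single_le_sum (fun _ _ => Nat.zero_le _) hj
    have := h i
    have := h j
    nlinarith

theorem chars {A : Type*} [CommGroup A] [Finite A] (K : Subgroup A) :
    ∃ (ι : Type) (_ : Fintype ι) (m : ι → ℕ) (χ : ∀ i, A →* Multiplicative (ZMod (m i))),
      (∀ i, 1 < m i) ∧ (∀ a, (∀ i, χ i a = 1) → a ∈ K) ∧ ∑ i, m i ≤ K.index := by
  obtain ⟨ι, _, m, hm, ⟨e⟩⟩ := CommGroup.equiv_prod_multiplicative_zmod_of_finite (A ⧸ K)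
  refine ⟨ι, inferInstance, m, fun i => (Pi.evalMonoidHom _ i).comp
    (e.toMonoidHom.comp (QuotientGroup.mk' K)), hm, fun a ha => ?_, ?_⟩
  · exact (QuotientGroup.eq_one_iff a).1 (e.map_eq_one_iff.1 (funext ha))
  · rw [Subgroup.index, Nat.card_congr e.toEquiv, Nat.card_pi]
    simpa [Nat.card_congr Multiplicative.toAdd] using sum_le_prod' Finset.univ m hm

/-- Let p be a prime, Ω a finite set with n ≥ p elements, and A an abelian p-subgroup of the symmetric group on Ω whose elements of order dividing p number p^k (so k is the rank of A). Then |A| · k^k ≤ n^k, that is, |A| ≤ (n/k)^k. -/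
theorem result {Ω : Type*} [Fintype Ω] [DecidableEq Ω]
    (p : ℕ) (hp : p.Prime) (hn : p ≤ Fintype.card Ω) (A : Subgroup (Equiv.Perm Ω)) (hA : IsPGroup p A) (hab : IsMulCommutative A)
    (k : ℕ) (hk : Nat.card {x : A // x ^ p = 1} = p ^ k) :
    Nat.card A * k ^ k ≤ Fintype.card Ω ^ k := by
  open MulAction Subgroup ArithmeticFunction in
  classical
  have := Fact.mk hp
  letI : CommGroup A := { (inferInstance : Group A) with mul_comm := hab.1.1 }
  have := Fintype.ofFinite (orbitRel.Quotient A Ω)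
  choose ι hι m χ hm hχ hs using fun ω : orbitRel.Quotient A Ω => chars (stabilizer A ω.out)
  let J := Σ ω, ι ω
  let m' : J → ℕ := fun j => m j.1 j.2
  let χ' : ∀ j : J, A →* Multiplicative (ZMod (m' j)) := fun j => χ j.1 j.2
  have hsum : ∑ j, m' j ≤ Fintype.card Ω := by
    rw [← Nat.card_eq_fintype_card, Nat.card_congr (selfEquivSigmaOrbits A Ω), Nat.card_sigma,
      Fintype.sum_sigma]
    refine Finset.sum_le_sum fun ω _ => (hs ω).trans ?_
    rw [Nat.card_coe_set_eq, ← index_stabilizer]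
  have hinj : ∀ a, (∀ j, χ' j a = 1) → a = 1 := fun a ha =>
    eq_of_smul_eq_smul (α := Ω) fun x => by
      have h2 := hχ (Quotient.mk _ x) a fun i => ha ⟨_, i⟩
      obtain ⟨b, hb⟩ : ∃ b : A, b • x = (Quotient.mk (orbitRel A Ω) x).out :=
        Quotient.mk_out (s := orbitRel A Ω) x
      rw [mem_stabilizer_iff, ← hb, smul_smul, mul_comm, mul_smul] at h2
      rw [one_smul]
      exact MulAction.injective b h2
  have key : ∀ (i : ℕ) (D : Subgroup A), cardFactors (Nat.card D) ≤ i →
      ∃ S : Finset J, S.card ≤ i ∧ ∀ a ∈ D, (∀ j ∈ S, χ' j a = 1) → a = 1 := by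
    intro i
    induction i with
    | zero =>
      intro D hD
      have h1 : ¬ 1 < Nat.card D := fun e => by have := cardFactors_pos_iff_one_lt.2 e; omega
      refine ⟨∅, le_rfl, fun a ha _ => ?_⟩
      rwa [(card_le_one_iff_eq_bot D).1 (not_lt.1 h1), mem_bot] at ha
    | succ i ih =>
      intro D hD
      by_cases h : ∀ j, D ≤ (χ' j).ker
      · exact ⟨∅, Nat.zero_le _, fun a ha _ => hinj a fun j => h j ha⟩
      push Not at h
      obtain ⟨j, hj⟩ := h
      have := H25.cardFactors_card_lt (inf_lt_left.2 hj)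
      obtain ⟨S, h1, h2⟩ := ih (D ⊓ (χ' j).ker) (by omega)
      exact ⟨insert j S, (Finset.card_insert_le _ _).trans (by omega), fun a ha h =>
        h2 a ⟨ha, h j (Finset.mem_insert_self _ _)⟩ fun l hl => h l (Finset.mem_insert_of_mem hl)⟩
  let E : Subgroup A := (powMonoidHom p : A →* A).ker
  have hE : Nat.card E = p ^ k := hk
  obtain ⟨S, h1, h2⟩ := key k E (by rw [hE, cardFactors_apply_prime_pow hp])
  have hz : ∀ j, NeZero (m' j) := fun j => ⟨by have := hm j.1 j.2; simp only [m']; omega⟩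
  have h3 : Nat.card A ≤ ∏ j ∈ S, m' j := by
    have : Nat.card (∀ j : S, Multiplicative (ZMod (m' j))) = ∏ j ∈ S, m' j := by
      rw [Nat.card_pi, ← Finset.prod_coe_sort S]; simp
    rw [← this]
    refine Nat.card_le_card_of_injective (MonoidHom.pi fun j : S => χ' j)
      ((MonoidHom.ker_eq_bot_iff _).1 ?_)
    by_contra hK
    have hK' := (hA.to_subgroup (MonoidHom.pi fun j : S => χ' j).ker).card_eq_or_dvd.resolve_left
      (mt card_eq_one.1 hK)
    obtain ⟨x, hx⟩ := exists_prime_orderOf_dvd_card' p hK'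
    have hx1 : (x : A) = 1 := h2 x (by
      show (x : A) ^ p = 1
      rw [← Subgroup.coe_pow, ← hx, pow_orderOf_eq_one]; rfl) fun j hj => congrFun x.2 ⟨j, hj⟩
    rw [OneMemClass.coe_eq_one.1 hx1, orderOf_one] at hx
    exact hp.one_lt.ne hx
  have h4 : k ≤ S.card := by
    have : Nat.card E ≤ Nat.card (∀ j : S, {x : Multiplicative (ZMod (m' j)) // x ^ p = 1}) := by
      refine Nat.card_le_card_of_injective (fun a j => ⟨χ' j a, by
        rw [← map_pow, show (a : A) ^ p = 1 from a.2, map_one]⟩) fun a b h => ?_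
      refine Subtype.ext (mul_inv_eq_one.1 (h2 _ (mul_mem a.2 (inv_mem b.2)) fun j hj => ?_))
      rw [map_mul, map_inv, mul_inv_eq_one]
      exact congrArg Subtype.val (congrFun h ⟨j, hj⟩)
    rw [hE, Nat.card_pi] at this
    refine (Nat.pow_le_pow_iff_right hp.one_lt).1 (this.trans ?_)
    rw [← Fintype.card_coe S]
    refine Finset.prod_le_pow_card _ _ _ fun j _ => ?_
    rw [Nat.card_eq_fintype_card, Fintype.card_subtype]
    exact IsCyclic.card_pow_eq_one_le hp.pos
  obtain rfl : k = S.card := le_antisymm h4 h1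
  refine (Nat.mul_le_mul_right _ h3).trans ((amgm S m').trans (Nat.pow_le_pow_left ?_ _))
  exact (Finset.sum_le_sum_of_subset (Finset.subset_univ S)).trans hsum

end Cfsg.Agent.S3696
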