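import Cfsg.Statements.S3699
import Cfsg.Agent.H1.CIT14

set_option autoImplicit false
open Cfsg

namespace Cfsg.Agent.S3699

open H1.CIT

/-- Let `q = 2^(2m+1) ≥ 8` and `S = Sz(q)` the Suzuki group. If a finite group `G` has the same prime graph as `S` (same prime divisors of the order; for distinct primes `r, s` an element of order `rs` in one iff in the other), then `G/O₂(G)` is isomorphic to `S`. The known proof uses the classification of finite simple groups. -/
theorem result {F : Type*} [Field F] [Fintype F] (m : ℕ) (hm : 1 ≤ m)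
    (hF : Fintype.card F = 2 ^ (2 * m + 1)) {G : Type*} [Group G] [Finite G]
    (h : ((∀ r : ℕ, r.Prime → (r ∣ Nat.card ↥(Cfsg.Lie.Sz F (2 ^ (m + 1))) ↔ r ∣ Nat.card G)) ∧
      (∀ r s : ℕ, r.Prime → s.Prime → r ≠ s → ((∃ x : ↥(Cfsg.Lie.Sz F (2 ^ (m + 1))), orderOf x = r * s) ↔ (∃ y : G, orderOf y = r * s))))) :
    Nonempty (G ⧸ Cfsg.pCore 2 G ≃* ↥(Cfsg.Lie.Sz F (2 ^ (m + 1)))) := by
  have M := H26.Sz.lieModel hm hF
  have key := fun k => el_sz M hF (k := k)
  have e1 : 2 ^ (m + 1) < 2 ^ (2 * m + 1) := Nat.pow_lt_pow_right (by norm_num) (by omega)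
  have e2 : 2 ∣ 2 ^ (m + 1) := dvd_pow_self 2 (by omega)
  have e3 : 2 ∣ 2 ^ (2 * m + 1) := dvd_pow_self 2 (by omega)
  have e4 : 0 < 2 ^ (m + 1) := by positivity
  have h2 : ∀ r : ℕ, r.Prime → r ≠ 2 → ¬ El G (2 * r) := fun r hr r2 e => by
    rcases (key _).1 ((h.2 2 r Nat.prime_two hr r2.symm).2 e) with e | e | e | e
    · exact r2 ((Nat.prime_dvd_prime_iff_eq hr Nat.prime_two).1
        (hr.dvd_of_dvd_pow (n := 2) ((dvd_mul_left _ _).trans e)))
    all_goals have := (dvd_mul_right _ _).trans e; omega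
  have hns : ¬ Group.IsSolvable G := fun hs => by
    obtain ⟨r, hr, h1⟩ := Nat.exists_prime_and_dvd (n := 2 ^ (2 * m + 1) - 1) (by omega)
    have co := M.coprime_card_B
    rw [hF] at co
    have d5 : 5 ∣ (2 ^ (2 * m + 1)) ^ 2 + 1 := by
      rw [← H26.np_mul_nm]; exact Nat.prime_five.dvd_mul.2 (five_dvd_sz m)
    have no : ∀ s : ℕ, s.Prime → s ∣ (2 ^ (2 * m + 1)) ^ 2 + 1 → ¬ s ∣ 2 ^ (2 * m + 1) - 1 :=
      fun s hs a b => hs.one_lt.ne' (Nat.eq_one_of_dvd_coprimes co a (b.mul_left _))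
    have r2 : r ≠ 2 := by rintro rfl; omega
    have r5 : r ≠ 5 := by rintro rfl; exact no 5 hr d5 h1
    rcases three_primes hs Nat.prime_two Nat.prime_five hr (by norm_num) r2.symm r5.symm
      ((h.1 2 Nat.prime_two).1 ((key 2).2 (by simp)).card)
      ((h.1 5 Nat.prime_five).1 ((key 5).2 (.inr (.inr (five_dvd_sz m)))).card)
      ((h.1 r hr).1 ((key r).2 (.inr (.inl h1))).card) with e | e | e
    · exact h2 5 Nat.prime_five (by norm_num) e
    · exact h2 r hr r2 e
    rcases (key _).1 ((h.2 5 r Nat.prime_five hr r5.symm).2 e) with e | e | e | e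
    · exact absurd ((dvd_mul_right _ _).trans e) (by norm_num)
    · exact no 5 Nat.prime_five d5 ((dvd_mul_right _ _).trans e)
    · exact no r hr (H26.np_mul_nm m ▸ ((dvd_mul_left _ _).trans e).mul_right _) h1
    · exact no r hr (H26.np_mul_nm m ▸ ((dvd_mul_left _ _).trans e).mul_left _) h1
  have h3 : ¬ 3 ∣ Nat.card (G ⧸ pCore 2 G) := fun e => sz_not_three M hF
    ((h.1 3 Nat.prime_three).2 ((dvd_card_quot hns Nat.prime_three).2 e))
  obtain ⟨K, i1, i2, n, hn, hK, ⟨f⟩⟩ := (((cit_of_el h2).struct' hns).resolve_right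
    fun e => h3 e.three).three.resolve_left h3
  have M' := (H26.Sz.lieModel hn hK).ofEquiv f
  have := M.finite
  obtain rfl : n = m := le_antisymm
    (sz_le M' hK M hF fun r hr e => (h.1 r hr).2 ((dvd_card_quot hns hr).2 e))
    (sz_le M hF M' hK fun r hr e => (dvd_card_quot hns hr).1 ((h.1 r hr).1 e))
  exact sz_equiv M' M (hK.trans hF.symm)

end Cfsg.Agent.S3699
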