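import Cfsg.Statements.S3700
import Cfsg.Agent.H1.CIT14

set_option autoImplicit false
open Cfsg

namespace Cfsg.Agent.S3700

open H1.CIT

/-- Let `F` be a finite field with `2^m` elements, `m ≥ 4`. If a finite group `G` has the same prime graph as `PSL(2, F)` (same prime divisors of the order; for distinct primes `r, s` an element of order `rs` in one iff in the other), then `G/O₂(G)` is isomorphic to `PSL(2, F)`. The known proof uses the classification of finite simple groups. -/
theorem result {F : Type*} [Field F] [Fintype F] (m : ℕ) (hm : 4 ≤ m)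
    (hF : Fintype.card F = 2 ^ m) {G : Type*} [Group G] [Finite G]
    (h : ((∀ r : ℕ, r.Prime → (r ∣ Nat.card (Matrix.ProjectiveSpecialLinearGroup (Fin 2) F) ↔ r ∣ Nat.card G)) ∧
      (∀ r s : ℕ, r.Prime → s.Prime → r ≠ s → ((∃ x : (Matrix.ProjectiveSpecialLinearGroup (Fin 2) F), orderOf x = r * s) ↔ (∃ y : G, orderOf y = r * s))))) :
    Nonempty (G ⧸ Cfsg.pCore 2 G ≃* Matrix.ProjectiveSpecialLinearGroup (Fin 2) F) := by
  have key := fun k => el_psl_even (by omega) hF (m := k)
  have e1 : 2 ^ 4 ≤ 2 ^ m := Nat.pow_le_pow_right (by norm_num) hm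
  have e2 : 4 ∣ 2 ^ m := pow_dvd_pow 2 (show 2 ≤ m by omega)
  have two : ∀ {r : ℕ}, r.Prime → r ∣ 2 → r = 2 := fun hr =>
    (Nat.prime_dvd_prime_iff_eq hr Nat.prime_two).1
  have h2 : ∀ r : ℕ, r.Prime → r ≠ 2 → ¬ El G (2 * r) := fun r hr r2 e => by
    rcases (key _).1 ((h.2 2 r Nat.prime_two hr r2.symm).2 e) with e | e | e
    · exact r2 (two hr ((dvd_mul_left _ _).trans e))
    all_goals have := (dvd_mul_right _ _).trans e; omega
  have no : ∀ s : ℕ, s.Prime → s ∣ 2 ^ m - 1 → ¬ s ∣ 2 ^ m + 1 := fun s hs a b => by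
    have := Nat.dvd_sub b a
    rw [show 2 ^ m + 1 - (2 ^ m - 1) = 2 by omega] at this
    obtain rfl := two hs this
    omega
  have hns : ¬ Group.IsSolvable G := fun hs => by
    obtain ⟨r, hr, h1⟩ := Nat.exists_prime_and_dvd (n := 2 ^ m - 1) (by omega)
    obtain ⟨s, hs', h3⟩ := Nat.exists_prime_and_dvd (n := 2 ^ m + 1) (by omega)
    have r2 : r ≠ 2 := by rintro rfl; omega
    have s2 : s ≠ 2 := by rintro rfl; omega
    have rs : r ≠ s := by rintro rfl; exact no r hr h1 h3
    rcases three_primes hs Nat.prime_two hr hs' r2.symm s2.symm rs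
      ((h.1 2 Nat.prime_two).1 ((key 2).2 (by simp)).card)
      ((h.1 r hr).1 ((key r).2 (.inr (.inl h1))).card)
      ((h.1 s hs').1 ((key s).2 (.inr (.inr h3))).card) with e | e | e
    · exact h2 r hr r2 e
    · exact h2 s hs' s2 e
    rcases (key _).1 ((h.2 r s hr hs' rs).2 e) with e | e | e
    · exact r2 (two hr ((dvd_mul_right _ _).trans e))
    · exact no s hs' ((dvd_mul_left _ _).trans e) h3
    · exact no r hr h1 ((dvd_mul_right _ _).trans e)
  have hd : ∀ r : ℕ, r.Prime → (r ∣ Nat.card (Matrix.ProjectiveSpecialLinearGroup (Fin 2) F) ↔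
      r ∣ Nat.card (G ⧸ pCore 2 G)) := fun r hr => (h.1 r hr).trans (dvd_card_quot hns hr)
  have small : ¬ Nat.card (G ⧸ pCore 2 G) ∣ 210 ^ 6 := fun e => by
    obtain ⟨r, hr⟩ := ppd_two (n := 2 * m) (by omega) (by omega)
    have h1 := hr.1.dvd_of_dvd_pow (((hd r hr.1).1
      (card_psl_even (by omega) hF ▸ hr.2.1.mul_left _)).trans e)
    have h3 := hr.lt one_le_two (by omega)
    rw [show 210 = 2 * (3 * (5 * 7)) by norm_num] at h1
    simp only [hr.1.dvd_mul] at h1
    rcases h1 with h1 | h1 | h1 | h1 <;> have := Nat.le_of_dvd (by norm_num) h1 <;> omega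
  rcases (cit_of_el h2).struct' hns with hK | hK
  swap
  · exact absurd (by rw [hK.card]; norm_num) small
  rcases hK with (⟨K, i1, i2, n, h1, hK, ⟨f⟩⟩ | ⟨K, i1, i2, n, h1, hK, ⟨f⟩⟩) |
    ⟨K, i1, i2, k, h1, hK, h3, ⟨f⟩⟩ | ⟨⟨f⟩⟩ <;> rw [Nat.card_congr f.toEquiv] at hd small
  · have := psl_dvd (by omega) (by omega) (by omega) hF hK fun r hr => (hd r hr).1
    obtain rfl : n = m := le_antisymm
      (psl_dvd h1 (by omega) (by omega) hK hF fun r hr => (hd r hr).2) this
    exact (H18.psl_congr (hK.trans hF.symm) 2).map f.trans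
  · exact absurd ((hd 3 Nat.prime_three).1 three_dvd_psl) (sz_not_three (H26.Sz.lieModel h1 hK) hK)
  swap
  · exact absurd (by rw [card_psl34]; norm_num) small
  rcases h3 with h3 | h3
  · exact absurd (by rw [card_psl_of (n := 360) h3 (by norm_num)]; norm_num) small
  exfalso
  have e3 := eight_le_pow h1
  have e4 : 8 ∣ 2 ^ k := pow_dvd_pow 2 h1
  have key' := fun m => (El.congr f (n := m)).trans (el_psl_odd (n := 1) h3 (by omega)
    (pow_one _).symm (by omega))
  have hp := (hd _ h3).2 ((El.congr f).1 ((key' _).2 (.inl dvd_rfl))).card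
  have hd' := fun r hr e => ((hd r hr).1 e).trans card_psl_dvd
  generalize Fintype.card K = p at *
  have a1 : ∀ N, N = 2 ^ m - 1 ∨ N = 2 ^ m + 1 → p ∣ N → N = p := fun N hN hp => by
    obtain ⟨j, hj⟩ := pow_of_primes (n := N) (p := p) (by omega) fun r hr e => by
      by_contra rp
      have r2 : r ≠ 2 := by rintro rfl; omega
      have d := ((Nat.coprime_primes hr h3).2 rp).mul_dvd_of_dvd_of_dvd e hp
      have h4 := (key' _).1 (El.quot_odd ((hr.odd_of_ne_two r2).mul (h3.odd_of_ne_two (by omega)))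
        ((h.2 r p hr h3 rp).1 ((key _).2 (.inr (hN.imp (fun e => d.trans (Eq.dvd e)) fun e => d.trans (Eq.dvd e))))))
      have h5 : 2 * p ≤ r * p := Nat.mul_le_mul_right _ hr.two_le
      rcases h4 with e | e | e <;> have := Nat.le_of_dvd (by omega) e <;> omega
    have j0 : 0 < j := Nat.pos_of_ne_zero (by rintro rfl; rw [pow_zero] at hj; omega)
    rcases prime_of_succ h3 j0 (a := m) (by omega) (by rw [← hj]; omega) with e | e
    · have := (Nat.prime_dvd_prime_iff_eq Nat.prime_three h3).1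
        (Nat.prime_three.dvd_of_dvd_pow (n := j) (by omega))
      omega
    · rw [hj, e.eq_one_of_pow, pow_one]
  have a2 : ∀ r : ℕ, r.Prime → r ∣ 2 ^ m - 1 ∨ r ∣ 2 ^ m + 1 → r ∣ p ∨ r ∣ p + 1 ∨ r ∣ p - 1 :=
    fun r hr e => by simpa only [hr.dvd_mul] using hd' r hr ((key r).2 (.inr e)).card
  have three : ∀ {r : ℕ}, r.Prime → r ∣ 3 → r = 3 := fun hr =>
    (Nat.prime_dvd_prime_iff_eq hr Nat.prime_three).1
  rw [card_psl_even (by omega) hF, mul_comm 2, pow_mul, sq_sub_one] at hp
  simp only [h3.dvd_mul] at hp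
  rcases hp with hp | hp | hp
  · have := two h3 (h3.dvd_of_dvd_pow hp); omega
  · obtain rfl := a1 _ (.inr rfl) hp
    obtain ⟨j, hj⟩ := pow_of_primes (n := 2 ^ m - 1) (p := 3) (by omega) fun r hr e => by
      rcases a2 r hr (.inl e) with e' | e' | e'
      · exact absurd e' (no r hr e)
      · exact three hr ((show 2 ^ m + 1 + 1 - (2 ^ m - 1) = 3 by omega) ▸ Nat.dvd_sub e' e)
      · exact absurd e' (not_dvd_two_pow (by omega) hr e)
    have := three_pow_sub (a := m) (j := j) (by omega) (by omega)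
    omega
  · obtain rfl := a1 _ (.inl rfl) hp
    obtain ⟨j, hj⟩ := pow_of_primes (n := 2 ^ m + 1) (p := 3) (by omega) fun r hr e => by
      rcases a2 r hr (.inr e) with e' | e' | e'
      · exact absurd e (no r hr e')
      · obtain rfl := two hr ((show 2 ^ m + 1 - (2 ^ m - 1 + 1) = 1 by omega) ▸ Nat.dvd_sub e e' |>.trans
          (one_dvd _))
        omega
      · exact three hr ((show 2 ^ m + 1 - (2 ^ m - 1 - 1) = 3 by omega) ▸ Nat.dvd_sub e e')
    have := three_pow_add (a := m) (j := j) (by omega) hj.symm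
    omega

end Cfsg.Agent.S3700
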