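import Cfsg.Statements.S3701
import Cfsg.Agent.H25.Tri5

set_option autoImplicit false
open Cfsg

namespace Cfsg.Agent.S3701

open H25 Subgroup Equiv

def f0 (v : V27) : Perm (Fin 9) :=
  (swap (0 : Fin 9) 1 * swap 1 2) ^ v.1.val * (swap (3 : Fin 9) 4 * swap 4 5) ^ v.2.1.val *
    (swap (6 : Fin 9) 7 * swap 7 8) ^ v.2.2.val

def k0 (k : Bool × Bool) : Perm (Fin 9) :=
  (if k.1 then swap (0 : Fin 9) 1 * swap 3 4 else 1) * (if k.2 then swap (0 : Fin 9) 1 * swap 6 7 else 1)

def kap (k : Bool × Bool) (v : V27) : V27 :=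
  (if xor k.1 k.2 then -v.1 else v.1, if k.1 then -v.2.1 else v.2.1, if k.2 then -v.2.2 else v.2.2)

theorem f0_add : ∀ u v, f0 (u + v) = f0 u * f0 v := by decide +kernel

theorem f0_one : ∀ u, f0 u = 1 → u = 0 := by decide +kernel

theorem k0_conj : ∀ k u, k0 k * f0 u * (k0 k)⁻¹ = f0 (kap k u) := by decide +kernel

theorem k0_mul : ∀ k l, k0 k * k0 l = k0 (xor k.1 l.1, xor k.2 l.2) := by decide +kernel

def gens : Set (Perm (Fin 9)) := {Equiv.swap (0 : Fin 9) 1 * Equiv.swap 1 2, Equiv.swap (3 : Fin 9) 4 * Equiv.swap 4 5, Equiv.swap (6 : Fin 9) 7 * Equiv.swap 7 8,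
        Equiv.swap (0 : Fin 9) 1 * Equiv.swap 3 4, Equiv.swap (0 : Fin 9) 1 * Equiv.swap 6 7}

theorem f0_mem (v : V27) : f0 v ∈ closure gens := by
  refine mul_mem (mul_mem (pow_mem ?_ _) (pow_mem ?_ _)) (pow_mem ?_ _) <;>
    exact subset_closure (by simp [gens])

theorem k0_mem (k : Bool × Bool) : k0 k ∈ closure gens := by
  refine mul_mem ?_ ?_ <;> split_ifs <;>
    first | exact one_mem _ | exact subset_closure (by simp [gens])

theorem decomp {x : Perm (Fin 9)} (hx : x ∈ closure gens) : ∃ v k, x = f0 v * k0 k := by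
  have step : ∀ w l v k, ∃ v' k', f0 w * k0 l * (f0 v * k0 k) = f0 v' * k0 k' := fun w l v k =>
    ⟨w + kap l v, _, by rw [f0_add, ← k0_conj, ← k0_mul l k]; group⟩
  have g : ∀ y ∈ gens, (∃ w l, y = f0 w * k0 l) ∧ ∃ w l, y⁻¹ = f0 w * k0 l := by
    intro y hy
    simp only [gens, Set.mem_insert_iff, Set.mem_singleton_iff] at hy
    rcases hy with rfl | rfl | rfl | rfl | rfl <;> decide +kernel
  induction hx using closure_induction_left with
  | one => exact ⟨0, (false, false), by decide⟩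
  | mul_left y hy x _ ih =>
    obtain ⟨v, k, rfl⟩ := ih
    obtain ⟨⟨w, l, rfl⟩, -⟩ := g y hy
    exact step w l v k
  | inv_mul_cancel y hy x _ ih =>
    obtain ⟨v, k, rfl⟩ := ih
    obtain ⟨-, w, l, e⟩ := g y hy
    rw [e]
    exact step w l v k

theorem aux {G : Type*} [Group G] [Finite G] (H : Subgroup G) (f : V27 → G) (k : Bool × Bool → G)
    (add : ∀ u v, f (u + v) = f u * f v) (inj : Function.Injective f)
    (cj : ∀ l u, k l * f u * (k l)⁻¹ = f (kap l u)) (k1 : k (false, false) = 1)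
    (dec : ∀ g ∈ H, ∃ v l, g = f v * k l)
    (T : Subgroup G) (hTH : T ≤ H) (hT : Nat.card T = 27) (hN : Subgroup.normalizer (T : Set G) = H)
    (hC : ∀ t ∈ T, t ≠ 1 → Subgroup.centralizer ({t} : Set G) ≤ H) : H = ⊤ := by
  have f0 : f 0 = 1 := by
    have := add 0 0
    rw [add_zero] at this
    exact left_eq_mul.1 this
  have act : ∀ v l u, f v * k l * f u * (f v * k l)⁻¹ = f (kap l u) := fun v l u => by
    calc f v * k l * f u * (f v * k l)⁻¹ = f v * (k l * f u * (k l)⁻¹) * (f v)⁻¹ := by group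
      _ = _ := by rw [cj, ← add, add_comm, add]; group
  have odd : ∀ g ∈ H, ∀ m : ℕ, g ^ (2 * m + 1) = 1 → ∃ v, f v = g := by
    intro g hg m hm
    obtain ⟨v, l, rfl⟩ := dec g hg
    have kk : ∀ l u, kap l (kap l u) = u := by decide
    have p : ∀ m : ℕ, ∀ u, (f v * k l) ^ (2 * m + 1) * f u * ((f v * k l) ^ (2 * m + 1))⁻¹ =
        f (kap l u) := by
      intro m
      induction m with
      | zero => simpa using act v l
      | succ m ih =>
        intro u
        have := act v l (kap l (kap l u))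
        rw [← act v l (kap l u), ← ih u, kk] at this
        rw [← this]
        generalize f v * k l = x
        group
    have q : ∀ u, kap l u = u := fun u => inj (by rw [← p m u, hm]; simp)
    have : l = (false, false) := (by decide : ∀ l, (∀ u, kap l u = u) → l = (false, false)) l q
    exact ⟨v, by rw [this, k1, mul_one]⟩
  have sur : ∀ g, g ∈ T ↔ ∃ v, f v = g := by
    have s : (T : Set G) ⊆ Set.range f := fun g hg => odd g (hTH hg) 13 (by
      have := pow_card_eq_one' (x := (⟨g, hg⟩ : T))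
      rw [hT] at this
      exact congrArg Subtype.val this)
    have := Set.eq_of_subset_of_ncard_le s (by
      rw [Set.ncard_range_of_injective inj]
      exact (show Nat.card V27 = 27 by simp).trans_le hT.ge)
    exact fun g => Set.ext_iff.1 this g
  have c3 : ∀ v, f v ^ 3 = 1 := fun v => by
    rw [pow_succ, pow_two, ← add, ← add, show v + v + v = 0 by revert v; decide, f0]
  have h : T3 f H := {
    add := add
    inj := inj
    three := by decide
    cent := fun v hv g c => hC _ ((sur _).2 ⟨v, rfl⟩) (fun e => hv (inj (e.trans f0.symm)))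
      (mem_centralizer_singleton_iff.2 c)
    sc := fun v g hg c => odd g hg 1 (by
      obtain ⟨x, rfl⟩ := isConj_iff.1 c
      rw [conj_pow, c3]; simp)
    nrm := fun g hg => by
      rw [← hN]
      refine mem_normalizer_fintype fun t ht => ?_
      obtain ⟨v, rfl⟩ := (sur t).1 ht
      exact (sur _).2 (hg v) }
  have hb : ∀ v, ¬ T3Bad f H v := fun v ⟨w, hw, w3, hn, _⟩ => by
    obtain ⟨u, hu⟩ := odd w hw 1 w3
    exact hn u hu
  have hr : ∀ a b, a ≠ 0 → (IsConj (f a) (f b) ↔ rE27 a b) := fun a b ha => by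
    have : rE27 a b ↔ ∃ l, kap l a = b := by revert a b; decide +kernel
    rw [this]
    constructor
    · intro c
      obtain ⟨g, hg⟩ := isConj_iff.1 c
      obtain ⟨v, l, rfl⟩ := dec g (h.fus ha hg)
      exact ⟨l, inj ((act v l a).symm.trans hg)⟩
    · rintro ⟨l, rfl⟩
      exact isConj_iff.2 ⟨_, cj l a⟩
  refine h.e27_top hb hr ?_
  rw [← h.cz_mul hr (u := (1, 1, 1)) (by decide)]
  have : centralizer {f (1, 1, 1)} = T := by
    ext g
    rw [mem_centralizer_singleton_iff, sur]
    constructor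
    · intro c
      obtain ⟨v, l, rfl⟩ := dec g (h.cent _ (by decide) g c)
      have := act v l (1, 1, 1)
      rw [c, mul_inv_cancel_right] at this
      have : l = (false, false) :=
        (by decide : ∀ l, (1, 1, 1) = kap l (1, 1, 1) → l = (false, false)) l (inj this)
      exact ⟨v, by rw [this, k1, mul_one]⟩
    · rintro ⟨v, rfl⟩
      exact h.comm _ _
  rw [cz, this, hT]
  decide

/-- Let H₀ ≤ Sym(9) be generated by the 3-cycles (1 2 3), (4 5 6), (7 8 9) and the involutions (1 2)(4 5), (1 2)(7 8) (a group of order 108, elementary abelian of order 27 extended by a four-group). Let G be a finite group with a subgroup H ≅ H₀, and T ≤ H of order 27 (a Sylow 3-subgroup of H) with N_G(T) = H and C_G(t) ≤ H for every t ≠ 1 in T. Then G = H. -/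
theorem result {G : Type*} [Group G] [Finite G] (H : Subgroup G)
    (hH : Nonempty (↥H ≃* ↥(Subgroup.closure ({Equiv.swap (0 : Fin 9) 1 * Equiv.swap 1 2, Equiv.swap (3 : Fin 9) 4 * Equiv.swap 4 5, Equiv.swap (6 : Fin 9) 7 * Equiv.swap 7 8,
        Equiv.swap (0 : Fin 9) 1 * Equiv.swap 3 4, Equiv.swap (0 : Fin 9) 1 * Equiv.swap 6 7} : Set (Equiv.Perm (Fin 9))))))
    (T : Subgroup G) (hTH : T ≤ H) (hT : Nat.card T = 27) (hN : Subgroup.normalizer (T : Set G) = H)
    (hC : ∀ t ∈ T, t ≠ 1 → Subgroup.centralizer ({t} : Set G) ≤ H) : H = ⊤ := by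
  obtain ⟨e⟩ := hH
  let ψ : closure gens →* G := H.subtype.comp e.symm.toMonoidHom
  have ψi : Function.Injective ψ := H.subtype_injective.comp e.symm.injective
  refine aux H (fun v => ψ ⟨f0 v, f0_mem v⟩) (fun l => ψ ⟨k0 l, k0_mem l⟩) (fun u v => ?_)
    (fun u v h => ?_) (fun l u => ?_) ?_ (fun g hg => ?_) T hTH hT hN hC
  · rw [← map_mul]; exact congrArg ψ (Subtype.ext (f0_add u v))
  · have := congrArg Subtype.val (ψi h)
    rw [← sub_eq_zero]
    apply f0_one
    have e := f0_add (u - v) v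
    rw [sub_add_cancel] at e
    simp only at this
    rw [this] at e
    exact right_eq_mul.1 e
  · rw [← map_inv, ← map_mul, ← map_mul]; exact congrArg ψ (Subtype.ext (k0_conj l u))
  · rw [← map_one ψ]; exact congrArg ψ (Subtype.ext (by decide))
  · obtain ⟨v, l, h⟩ := decomp (e ⟨g, hg⟩).2
    refine ⟨v, l, ?_⟩
    rw [← map_mul, show (⟨f0 v, f0_mem v⟩ * ⟨k0 l, k0_mem l⟩ : closure gens) = e ⟨g, hg⟩ from
      Subtype.ext h.symm]
    exact (congrArg Subtype.val (e.symm_apply_apply ⟨g, hg⟩)).symm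

end Cfsg.Agent.S3701
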