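import Cfsg.Statements.S3703
import Cfsg.Agent.H12.Maz
import Cfsg.Agent.S0035
import Cfsg.Agent.S0039
import Cfsg.Agent.S0042

set_option autoImplicit false
open Cfsg

namespace Cfsg.Agent.S3703

open Subgroup H10 H12

/-- Let N be a normal subgroup of the finite group G such that G/N is a Frobenius group with kernel F and cyclic complement H, where the order of F is coprime to that of N and F is not contained in the image of C_G(N) in G/N. Then G has an element of order p·#H for some prime p dividing the order of N. (A standard tool in recognising groups by their element orders.) -/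
theorem result {G : Type*} [Group G] [Finite G] (N : Subgroup G) [N.Normal]
    (Fb Hb : Subgroup (G ⧸ N)) [Fb.Normal] (hHb : Cfsg.IsFrobeniusComplement Hb) (hker : Cfsg.frobeniusKernel Hb = (Fb : Set (G ⧸ N)))
    (hcyc : IsCyclic Hb) (hcop : (Nat.card Fb).Coprime (Nat.card N))
    (hnot : ¬ Fb ≤ (Subgroup.centralizer (N : Set G)).map (QuotientGroup.mk' N)) :
    ∃ p : ℕ, p.Prime ∧ p ∣ Nat.card N ∧ ∃ g : G, orderOf g = p * Nat.card Hb := by
  by_contra hcon
  set f := QuotientGroup.mk' N with hf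
  have hfs : Function.Surjective f := QuotientGroup.mk'_surjective N
  have hk : ∀ g, f g = 1 ↔ g ∈ N := fun g => QuotientGroup.eq_one_iff g
  obtain ⟨x, hx⟩ := hcyc.exists_generator
  have hxo : orderOf (x : G ⧸ N) = Nat.card Hb := by
    rw [orderOf_coe, orderOf_eq_card_of_forall_mem_zpowers hx]
  have H0 : ∀ g, f g = x → orderOf g = Nat.card Hb := by
    intro g hg
    obtain ⟨m, hm⟩ : Nat.card Hb ∣ orderOf g := by rw [← hxo, ← hg]; exact orderOf_map_dvd f g
    by_contra hne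
    have hm1 : m ≠ 1 := by rintro rfl; exact hne (by simpa using hm)
    obtain ⟨r, hr, s, rfl⟩ := Nat.exists_prime_and_dvd hm1
    have h0 : 0 < orderOf g := orderOf_pos g
    have hs : s ≠ 0 := by rintro rfl; simp [hm] at h0
    have hn0 : Nat.card Hb ≠ 0 := Nat.card_pos.ne'
    refine hcon ⟨r, hr, ?_, g ^ s, ?_⟩
    · have h1 : g ^ Nat.card Hb ∈ N := by rw [← hk, map_pow, hg, ← hxo, pow_orderOf_eq_one]
      refine Dvd.dvd.trans ?_ (N.orderOf_dvd_natCard h1)
      rw [orderOf_pow_of_dvd hn0 ⟨_, hm⟩, hm, Nat.mul_div_cancel_left _ Nat.card_pos]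
      exact dvd_mul_right _ _
    · rw [orderOf_pow_of_dvd hs (hm ▸ Dvd.intro_left (Nat.card Hb * r) (by ring)), hm,
        ← mul_assoc, Nat.mul_div_cancel _ (Nat.pos_of_ne_zero hs), mul_comm]
  obtain ⟨N1, h1, -, hnil⟩ := Cfsg.Agent.S0042.result Hb hHb
  obtain rfl : N1 = Fb := SetLike.coe_injective (h1.trans hker)
  obtain ⟨N2, h2, -, hc⟩ := Cfsg.Agent.S0035.result Hb hHb
  obtain rfl : N2 = N1 := SetLike.coe_injective (h2.trans hker)
  have hF1 : N2 ≠ ⊥ := by rintro rfl; exact hnot bot_le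
  have hfr := (Cfsg.Agent.S0039.result N2 Hb hc hF1 hHb.1).1 hHb
  have hNK : N ≤ N2.comap f := fun g hg => by
    rw [mem_comap, (hk g).2 hg]; exact one_mem _
  have hidx : N.relIndex (N2.comap f) = Nat.card N2 := by
    have := relIndex_ker (N2.comap f) f
    rwa [map_comap_eq_self_of_surjective hfs, QuotientGroup.ker_mk'] at this
  obtain ⟨F, f1, f2, f3, f4⟩ := H1.schurZassenhaus_exists hNK (le_NN_of_normal _ _)
    (hidx ▸ hcop.symm)
  rw [hidx] at f4
  have hFm : F.map f = N2 := by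
    rw [← map_comap_eq_self_of_surjective hfs N2, ← f3, Subgroup.map_sup,
      (Subgroup.map_eq_bot_iff _).2 (QuotientGroup.ker_mk' N).ge, bot_sup_eq]
  have hF0 : ∀ k ∈ F, f k = 1 → k = 1 := fun k h1 h2 => by
    have : k ∈ N ⊓ F := ⟨(hk k).1 h2, h1⟩
    rwa [f2, mem_bot] at this
  have hFs : Group.IsSolvable F := by
    let φ : F →* N2 := (f.comp F.subtype).codRestrict N2 fun k => f1 k.2
    refine Group.isSolvable_of_isSolvable_injective (f := φ) ((injective_iff_map_eq_one _).2 ?_)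
    intro k h
    exact Subtype.ext (hF0 k k.2 (congrArg Subtype.val h))
  have hcF : (Nat.card F).Coprime (Nat.card N) := f4 ▸ hcop
  obtain ⟨p, hp, P, hP, hFP, hPC⟩ : ∃ p : ℕ, p.Prime ∧ ∃ P : Subgroup G, IsPiHallOf {p} P N ∧
      F ≤ NN(P) ∧ ¬ P ≤ CC(F) := by
    by_contra! h
    refine hnot (hFm ▸ map_mono (le_CC_symm (H1.le_of_forall_sylowOf_le fun p hp _ => ?_)))
    obtain ⟨P, h1, h2⟩ := H1.exists_invariant_sylowOf (K := N) (A := F) p (le_NN_of_normal _ _) hcF
      (Or.inl hFs)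
    exact ⟨P, h1, h p hp.out P h1 h2⟩
  haveI : Fact p.Prime := ⟨hp⟩
  obtain ⟨g, hg⟩ := hfs x
  obtain ⟨c, hc, e1⟩ := H1.schurZassenhaus_conj_of_sup_eq (N := N) (A := cj g F) (B := F)
    (le_NN_of_normal _ _) (by rw [card_cj]; exact hcF.symm) hcF.symm
    (Or.inr (H1.isSolvable_conj_smul hFs g))
    (by rw [← cj_eq_of_normal g N, ← cj_sup, f3, cj_eq_of_normal g N, cj_eq_of_normal, f3])
  rw [cj_smul, ← cj_mul, ← mem_NN] at e1
  obtain ⟨d, hd, e2⟩ := H1.invariant_sylowOf_conj (K := N) (A := F) (le_NN_of_normal _ _) hcF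
    (Or.inl hFs) (hall_of_syl ((syl_of_hall hP).cj_of_mem_NN (g := c * g)
      (le_NN_of_normal ⊤ _ (mem_top _)))) hP
    (by rw [← cj_eq_of_mem_NN e1, ← cj_normalizer, cj_le_cj]; exact hFP) hFP
  rw [cj_smul, ← cj_mul, ← mem_NN] at e2
  set h := d * (c * g)
  have hh : f h = x := by rw [map_mul, map_mul, (hk d).2 hd.1, (hk c).2 hc, hg, one_mul, one_mul]
  have hhF : h ∈ NN(F) := mul_mem (CC_le_NN _ hd.2) e1
  have hPp := H1.IsPiHallOf.isPGroup hP
  have hU : ⁅P, F⁆ ≤ P := comm_le_left hFP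
  have hcP : (Nat.card F).Coprime (Nat.card P) := hcF.coprime_dvd_right (card_dvd_of_le hP.1)
  have key := comm_le_der_of_norm (F := F) (U := ⁅P, F⁆) (h := h) (right_le_NN_comm _ _)
    (mem_NN_commutator e2 hhF) hhF ?_ (hcP.symm.coprime_dvd_left (card_dvd_of_le hU)) ?_
  · rw [H1.commutator_commutator_eq hFP hcP (Or.inl hFs)] at key
    exact hPC (comm_eq_bot.1 (eq_bot_of_le_comm hPp hU hU key))
  · rintro _ ⟨i, rfl⟩ hr
    rw [eq_bot_iff]
    intro k hk'
    have a1 : f (h ^ i) ∈ Hb := by rw [map_zpow, hh]; exact zpow_mem x.2 i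
    have a2 : f (h ^ i) ≠ 1 := by
      intro e
      rw [map_zpow, hh, ← orderOf_dvd_iff_zpow_eq_one, hxo, ← H0 h hh,
        orderOf_dvd_iff_zpow_eq_one] at e
      exact hr e
    have a3 : f k ∈ N2 ⊓ centralizer {f (h ^ i)} := by
      refine ⟨f1 hk'.1, mem_centralizer_singleton_iff.2 ?_⟩
      have : k * h ^ i = h ^ i * k := mem_centralizer_singleton_iff.1 hk'.2
      rw [← map_mul, this, map_mul]
    rw [hfr _ a1 a2, mem_bot] at a3
    exact hF0 k hk'.1 a3
  · intro u hu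
    rw [H0 h hh, ← H0 (u * h) (by rw [map_mul, (hk u).2 (hP.1 (hU hu)), one_mul, hh]),
      pow_orderOf_eq_one]

end Cfsg.Agent.S3703
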