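import Cfsg.Statements.S3706
import Cfsg.Agent.H25.ON7
import Cfsg.Agent.H25.Dual2

set_option autoImplicit false
open Cfsg

namespace Cfsg.Agent.S3706

open MulAction Subgroup

/-- Let G be a finite group acting faithfully and 2-transitively on a finite set Ω of size n, and let H be a subgroup of index n in G which is not transitive on Ω and fixes no point of Ω. Suppose H acts unfaithfully on one of its orbits: some non-identity element of H fixes every point of that orbit. Then there are an integer m ≥ 2 and a finite field F with #Ω = (#F^(m+1) − 1)/(#F − 1), and G has a normal subgroup isomorphic to PSL_{m+1}(F) whose centralizer in G is trivial (so that G lies between PSL_{m+1}(F) and its automorphism group). -/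
theorem result {G Ω : Type*} [Group G] [Finite G] [MulAction G Ω] [FaithfulSMul G Ω] [Finite Ω] (h2 : MulAction.IsMultiplyPretransitive G Ω 2) (H : Subgroup G) (hidx : H.index = Nat.card Ω) (hnt : ¬ MulAction.IsPretransitive H Ω) (hfix : ∀ a : Ω, ∃ h : H, h • a ≠ a) (hunf : ∃ a : Ω, ∃ h : H, h ≠ 1 ∧ ∀ b ∈ MulAction.orbit H a, h • b = b) : ∃ (m : ℕ) (F : Type) (_ : Field F) (_ : Fintype F), 2 ≤ m ∧ Nat.card Ω = (Fintype.card F ^ (m + 1) - 1) / (Fintype.card F - 1) ∧ ∃ N : Subgroup G, N.Normal ∧ Nonempty (N ≃* Matrix.ProjectiveSpecialLinearGroup (Fin (m + 1)) F) ∧ Subgroup.centralizer (N : Set G) = ⊥ := by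
  obtain ⟨d2, df, -⟩ := H25.dual_action h2 H hidx hnt
  obtain ⟨a, n, n1, hn⟩ := hunf
  obtain ⟨b, hb⟩ : ∃ b, b ∉ orbit H a := by
    by_contra h
    push Not at h
    exact hnt ((isPretransitive_iff_base a).2 h)
  let B : G ⧸ H → Set Ω := fun q => {x | ∀ g : G, (g : G ⧸ H) = q → g⁻¹ • x ∈ orbit H a}
  have mB : ∀ {g : G} {x}, x ∈ B g ↔ g⁻¹ • x ∈ orbit H a := fun {g x} =>
    ⟨fun e => e g rfl, fun e k hk => by
      simpa [Subgroup.smul_def, mul_smul] using
        mem_orbit_of_mem_orbit (⟨_, QuotientGroup.eq.1 hk⟩ : H) e⟩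
  have ob : ∀ x ∉ orbit H a, x ∈ orbit H b := fun x hx =>
    by_contra (H25.false_of_three_orbits h2 H hidx hb hx)
  have k : H25.DS G B := ⟨h2, d2, fun g hg => FaithfulSMul.eq_of_smul_eq_smul (α := Ω)
    (by simpa using hg), df, fun g q x hx => ?_, fun q => ?_, fun {q x y} hx hy => ?_⟩
  · obtain ⟨M, p, k, -⟩ := k.exists_ON (β := (1 : G)) (g := n)
      (fun x hx => hn x (by simpa using mB.1 hx)) fun e => n1 (Subtype.ext e)
    have : Nontrivial (G ⧸ H) := Finite.one_lt_card_iff_nontrivial.1 (hidx.symm ▸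
      Finite.one_lt_card_iff_nontrivial.2 ⟨a, b, by rintro rfl; exact hb (mem_orbit_self _)⟩ :
        1 < H.index)
    obtain ⟨F, _, _, m, f, -, h3, h4, h5, h6, h7⟩ := k.main
    obtain ⟨m, rfl⟩ : ∃ k, m = k + 1 := ⟨m - 1, by omega⟩
    refine ⟨m, F, _, ‹_›, by omega, ?_, _, h4, h6, h5⟩
    rw [← h7, Nat.mul_div_cancel _ (Nat.sub_pos_of_lt Fintype.one_lt_card), ← hidx]
    rfl
  · obtain ⟨k, rfl⟩ := QuotientGroup.mk_surjective q
    exact (mB (g := g * k)).2 (by simpa [mul_smul] using mB.1 hx)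
  · obtain ⟨k, rfl⟩ := QuotientGroup.mk_surjective q
    obtain ⟨s, hs⟩ := hfix a
    obtain ⟨t, ht⟩ := hfix b
    refine ⟨k • s • a, mB.2 (by simp), k • a, mB.2 (by simp), by simpa, k • t • b,
      fun e => hb ?_, k • b, fun e => hb (by simpa using mB.1 e), by simpa⟩
    simpa using mem_orbit_of_mem_orbit t⁻¹ (by simpa using mB.1 e : t • b ∈ orbit H a)
  · obtain ⟨k, rfl⟩ := QuotientGroup.mk_surjective q
    obtain ⟨s, hs⟩ := ob _ (mt mB.2 hx)
    obtain ⟨t, ht⟩ := ob _ (mt mB.2 hy)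
    refine ⟨k * (t * s⁻¹ : H) * k⁻¹, by simp [QuotientGroup.eq, mul_mem], ?_⟩
    rw [mul_smul, mul_smul, ← hs, ← Subgroup.smul_def, mul_smul, inv_smul_smul]
    exact (eq_inv_smul_iff.1 ht)

end Cfsg.Agent.S3706
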