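import Cfsg.Statements.S3708
import Cfsg.Agent.Lead.Pha6

set_option autoImplicit false
open Cfsg

namespace Cfsg.Agent.S3708

/-- Phan's recognition of unitary groups. Let F be a finite field with q² elements, q > 4, and n ≥ 2. Let G be a group generated by subgroups U_0, …, U_{n−1}, each isomorphic to the special unitary group SU(2, q²) (determinant-one isometries of the standard Hermitian form in two variables over F), and let D_i ≤ U_i be cyclic subgroups of order q + 1. Suppose that U_i and U_j commute elementwise whenever the indices differ by at least 2, that the subgroup generated by U_i and U_{i+1} is isomorphic to SU(3, q²) for each i, and that D_i and D_j commute elementwise for all i, j. Then G is a homomorphic image of SU(n+1, q²). (Generation of G by the U_i is part of the hypothesis; G is not assumed finite.) -/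
theorem result {G : Type*} [Group G] (n : ℕ) (hn : 2 ≤ n)
    (F : Type*) [Field F] [Fintype F] (q : ℕ) (hq : 4 < q) (hF : Fintype.card F = q ^ 2)
    (U : Fin n → Subgroup G) (e : ∀ i, ↥(Cfsg.SU 2 F q) ≃* ↥(U i)) (hgen : ⨆ i, U i = ⊤)
    (D : Fin n → Subgroup G) (hD : ∀ i, D i ≤ U i ∧ IsCyclic ↥(D i) ∧ Nat.card ↥(D i) = q + 1)
    (h1 : ∀ i j : Fin n, (i : ℕ) + 2 ≤ j → ∀ x ∈ U i, ∀ y ∈ U j, x * y = y * x)
    (h2 : ∀ i j : Fin n, (i : ℕ) + 1 = j → Nonempty (↥(U i ⊔ U j) ≃* ↥(Cfsg.SU 3 F q)))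
    (h3 : ∀ i j : Fin n, i ≠ j → ∀ x ∈ D i, ∀ y ∈ D j, x * y = y * x) :
    ∃ f : ↥(Cfsg.SU (n + 1) F q) →* G, Function.Surjective f := by
  have hd : ∀ i, ∃ d ∈ D i, d ≠ 1 ∧ d ^ (q + 1) = 1 := fun i => by
    have : Finite (D i) := Nat.finite_of_card_ne_zero (by rw [(hD i).2.2]; omega)
    have : Nontrivial (D i) := Finite.one_lt_card_iff_nontrivial.1 (by rw [(hD i).2.2]; omega)
    obtain ⟨d, hd⟩ := exists_ne (1 : D i)
    exact ⟨d, d.2, fun e => hd (Subtype.ext e),
      congrArg Subtype.val ((hD i).2.2 ▸ pow_card_eq_one' (x := d))⟩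
  obtain ⟨Φ, hΦ⟩ := Lead.Pha.phan hF hq.le hn U e h1 fun i j h => by
    obtain ⟨θ⟩ := h2 i j h
    obtain ⟨d, d0, d1, d2⟩ := hd i
    obtain ⟨d', d0', d1', d2'⟩ := hd j
    have m : d ∈ U i ⊔ U j := Subgroup.mem_sup_left ((hD i).1 d0)
    have m' : d' ∈ U i ⊔ U j := Subgroup.mem_sup_right ((hD j).1 d0')
    let ι := (U i ⊔ U j).subtype.comp θ.symm.toMonoidHom
    have ιi : Function.Injective ι := Subtype.val_injective.comp θ.symm.injective
    have k : ∀ (l : Fin n) (hl : U l ≤ U i ⊔ U j), ((θ.toMonoidHom.comp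
        ((Subgroup.inclusion hl).comp (e l).toMonoidHom)).range).map ι = U l := fun l hl => by
      ext x
      constructor
      · rintro ⟨_, ⟨y, rfl⟩, rfl⟩
        simp [ι]
      · exact fun hx => ⟨_, ⟨(e l).symm ⟨x, hx⟩, rfl⟩, by simp [ι]⟩
    obtain ⟨ψ, a, b⟩ := Lead.Pha.std3 (hF := hF) hq.le
      (θ.toMonoidHom.comp ((Subgroup.inclusion le_sup_left).comp (e i).toMonoidHom))
      (θ.toMonoidHom.comp ((Subgroup.inclusion le_sup_right).comp (e j).toMonoidHom))
      (θ.injective.comp ((Subgroup.inclusion_injective le_sup_left).comp (e i).injective))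
      (θ.injective.comp ((Subgroup.inclusion_injective le_sup_right).comp (e j).injective))
      (Subgroup.map_injective ιi (by
        rw [Subgroup.map_sup, k, k, ← MonoidHom.range_eq_map, MonoidHom.range_comp,
          MonoidHom.range_eq_top.2 θ.symm.surjective, ← MonoidHom.range_eq_map,
          Subgroup.range_subtype]))
      (d := θ ⟨d, m⟩) (d' := θ ⟨d', m'⟩) ⟨(e i).symm ⟨d, (hD i).1 d0⟩, by simp; rfl⟩
      ⟨(e j).symm ⟨d', (hD j).1 d0'⟩, by simp; rfl⟩ (by simpa using d1) (by simpa using d1')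
      (by rw [← map_pow, map_eq_one_iff _ θ.injective]; exact Subtype.ext d2)
      (by rw [← map_pow, map_eq_one_iff _ θ.injective]; exact Subtype.ext d2')
      (Commute.map (Subtype.ext (h3 i j (fun c => by simp [c] at h) d d0 d' d0')) θ)
    exact ⟨ι.comp ψ, by rw [MonoidHom.comp_assoc, MonoidHom.range_comp, a, k],
      by rw [MonoidHom.comp_assoc, MonoidHom.range_comp, b, k]⟩
  exact ⟨Φ, MonoidHom.range_eq_top.1 (eq_top_iff.2 (hgen ▸ iSup_le hΦ))⟩

end Cfsg.Agent.S3708
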