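import Cfsg.Statements.S3710
import Cfsg.Agent.Lead.Phb5

set_option autoImplicit false
open Cfsg

namespace Cfsg.Agent.S3710

/-- Recognition of unitary groups over the field with 9 elements from a weak Phan system. Let F be a field with 9 elements and n ≥ 4. Let G be a group with subgroups U_0, …, U_{n−1}, each isomorphic to SU(2, 9), and, for consecutive indices, subgroups V_{i,i+1} in which U_i and U_{i+1} form a standard pair (via an isomorphism from SU(3, 9) or PSU(3, 9) carrying the block-diagonal subgroups, or their images, onto U_i and U_{i+1}); suppose U_i and U_j commute elementwise whenever the indices differ by at least 2, that G is generated by the U_i and the V_{i,i+1}, and moreover that for each i the subgroup generated by V_{i,i+1} and V_{i+1,i+2} is a homomorphic image of SU(4, 9). Then G is a homomorphic image of SU(n+1, 9). (G is not assumed finite.) -/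
theorem result {G : Type*} [Group G] (n : ℕ) (hn : 4 ≤ n)
    (F : Type*) [Field F] [Fintype F] (hF : Fintype.card F = 9)
    (U : Fin n → Subgroup G) (e : ∀ i, ↥(Cfsg.SU 2 F 3) ≃* ↥(U i))
    (V : Fin n → Fin n → Subgroup G)
    (h1 : ∀ i j : Fin n, (i : ℕ) + 2 ≤ j → ∀ x ∈ U i, ∀ y ∈ U j, x * y = y * x)
    (h2 : ∀ i j : Fin n, (i : ℕ) + 1 = j → Cfsg.IsStandardUnitaryPair (V i j) (U i) (U j) F 3)
    (hgen : (⨆ i, U i) ⊔ (⨆ (i : Fin n) (j : Fin n) (_ : (i : ℕ) + 1 = j), V i j) = ⊤)
    (h4 : ∀ i j k : Fin n, (i : ℕ) + 1 = j → (j : ℕ) + 1 = k →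
      ∃ g : ↥(Cfsg.SU 4 F 3) →* ↥(V i j ⊔ V j k), Function.Surjective g) :
    ∃ f : ↥(Cfsg.SU (n + 1) F 3) →* G, Function.Surjective f := by
  have hF' : Fintype.card F = 3 ^ 2 := hF
  have hl : ∀ i j : Fin n, (i : ℕ) + 1 = j → U i ⊔ U j ≤ V i j := fun i j h => by
    rcases h2 i j h with ⟨ψ, a, b⟩ | ⟨ψ, a, b⟩ <;> rw [← a, ← b] <;>
      exact sup_le (by rintro _ ⟨x, -, rfl⟩; exact Subtype.property _)
        (by rintro _ ⟨x, -, rfl⟩; exact Subtype.property _)
  obtain ⟨Φ, hΦ⟩ := Lead.Pha.phan3 hF' (by omega) U e h1 (fun i j h =>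
    (Lead.Pha.std_pair3 hF' le_rfl (h2 i j h)).2) fun i j k h h' => by
      obtain ⟨g, hg⟩ := h4 i j k h h'
      refine ⟨(V i j ⊔ V j k).subtype.comp g, ?_⟩
      rw [MonoidHom.range_comp, MonoidHom.range_eq_top.2 hg, ← MonoidHom.range_eq_map,
        Subgroup.range_subtype]
      exact sup_le_sup (hl i j h) (le_sup_right.trans (hl j k h'))
  refine ⟨Φ, MonoidHom.range_eq_top.1 (eq_top_iff.2 (hgen ▸ sup_le (iSup_le hΦ)
    (iSup_le fun i => iSup_le fun j => iSup_le fun h => ?_)))⟩
  exact (Lead.Pha.std_pair3 hF' le_rfl (h2 i j h)).1.trans (sup_le (hΦ i) (hΦ j))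

end Cfsg.Agent.S3710
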