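import Cfsg.Statements.S3713
import Cfsg.Agent.Lead.SpA4

set_option autoImplicit false
open Cfsg

namespace Cfsg.Agent.S3713

/-- A presentation of the symplectic group as the universal completion of an amalgam of small subgroups. Let F be a field with more than two elements, n ≥ 2, and Sp the group of 2n × 2n matrices over F preserving the standard alternating form, acting on column vectors; write e_k, f_k for the standard basis vectors of the two halves (a hyperbolic basis). For each k let S_k be the subgroup of Sp fixing e_l and f_l for all l ≠ k (a copy of SL(2, F) on the plane of e_k, f_k), and for each i with i + 1 < n let M_i be the subgroup fixing every e_l and fixing f_l for all l other than i, i+1 (an abelian group isomorphic to the additive group of F³). Then Sp is the universal completion of the amalgam formed by the S_k, the M_i and the subgroups generated by two of them: for every group H and homomorphisms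 σ_k : S_k → H, μ_i : M_i → H such that for each pair of these subgroups some homomorphism on the subgroup they generate restricts to the given ones, there is exactly one homomorphism Sp → H restricting to every σ_k and μ_i. -/
theorem result
    (F : Type*) [Field F] (hF : ∃ a : F, a ≠ 0 ∧ a ≠ 1) (n : ℕ) (hn : 2 ≤ n)
    (S M : Fin n → Subgroup ↥(Matrix.symplecticGroup (Fin n) F))
    (hS : ∀ j : Fin n, S j = Subgroup.closure {A : ↥(Matrix.symplecticGroup (Fin n) F) | ∀ k : Fin n, k ≠ j →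
      ((A : ↥(Matrix.symplecticGroup (Fin n) F)) : Matrix (Fin n ⊕ Fin n) (Fin n ⊕ Fin n) F).mulVec (Pi.single (Sum.inl k) (1 : F)) = (Pi.single (Sum.inl k) (1 : F)) ∧ ((A : ↥(Matrix.symplecticGroup (Fin n) F)) : Matrix (Fin n ⊕ Fin n) (Fin n ⊕ Fin n) F).mulVec (Pi.single (Sum.inr k) (1 : F)) = (Pi.single (Sum.inr k) (1 : F))})
    (hM : ∀ i : Fin n, (i : ℕ) + 1 < n → M i = Subgroup.closure {A : ↥(Matrix.symplecticGroup (Fin n) F) |
      (∀ k : Fin n, ((A : ↥(Matrix.symplecticGroup (Fin n) F)) : Matrix (Fin n ⊕ Fin n) (Fin n ⊕ Fin n) F).mulVec (Pi.single (Sum.inl k) (1 : F)) = (Pi.single (Sum.inl k) (1 : F))) ∧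
        ∀ k : Fin n, (k : ℕ) ≠ i → (k : ℕ) ≠ (i : ℕ) + 1 → ((A : ↥(Matrix.symplecticGroup (Fin n) F)) : Matrix (Fin n ⊕ Fin n) (Fin n ⊕ Fin n) F).mulVec (Pi.single (Sum.inr k) (1 : F)) = (Pi.single (Sum.inr k) (1 : F))})
    {H : Type*} [Group H] (σ : ∀ j : Fin n, ↥(S j) →* H) (μ : ∀ i : Fin n, ↥(M i) →* H)
    (hSS : ∀ j l : Fin n, j ≠ l → ∃ Ψ : ↥(S j ⊔ S l) →* H,
      (∀ (g : ↥(Matrix.symplecticGroup (Fin n) F)) (hg : g ∈ S j), Ψ ⟨g, Subgroup.mem_sup_left hg⟩ = σ j ⟨g, hg⟩) ∧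
        (∀ (g : ↥(Matrix.symplecticGroup (Fin n) F)) (hg : g ∈ S l), Ψ ⟨g, Subgroup.mem_sup_right hg⟩ = σ l ⟨g, hg⟩))
    (hMM : ∀ i i' : Fin n, i ≠ i' → (i : ℕ) + 1 < n → (i' : ℕ) + 1 < n → ∃ Ψ : ↥(M i ⊔ M i') →* H,
      (∀ (g : ↥(Matrix.symplecticGroup (Fin n) F)) (hg : g ∈ M i), Ψ ⟨g, Subgroup.mem_sup_left hg⟩ = μ i ⟨g, hg⟩) ∧
        (∀ (g : ↥(Matrix.symplecticGroup (Fin n) F)) (hg : g ∈ M i'), Ψ ⟨g, Subgroup.mem_sup_right hg⟩ = μ i' ⟨g, hg⟩))
    (hMS : ∀ i j : Fin n, (i : ℕ) + 1 < n → ∃ Ψ : ↥(M i ⊔ S j) →* H,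
      (∀ (g : ↥(Matrix.symplecticGroup (Fin n) F)) (hg : g ∈ M i), Ψ ⟨g, Subgroup.mem_sup_left hg⟩ = μ i ⟨g, hg⟩) ∧
        (∀ (g : ↥(Matrix.symplecticGroup (Fin n) F)) (hg : g ∈ S j), Ψ ⟨g, Subgroup.mem_sup_right hg⟩ = σ j ⟨g, hg⟩)) :
    ∃! Φ : ↥(Matrix.symplecticGroup (Fin n) F) →* H,
      (∀ (j : Fin n) (g : ↥(Matrix.symplecticGroup (Fin n) F)) (hg : g ∈ S j), Φ g = σ j ⟨g, hg⟩) ∧
        (∀ (i : Fin n), (i : ℕ) + 1 < n → ∀ (g : ↥(Matrix.symplecticGroup (Fin n) F)) (hg : g ∈ M i), Φ g = μ i ⟨g, hg⟩) := by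
  obtain ⟨k, rfl⟩ : ∃ k, n = k + 1 := ⟨n - 1, by omega⟩
  have := Lead.SpA.main hF (Lead.SpA.p1_iso (H := H)) (fun j => Lead.SpA.gr (σ j))
    (fun i => Lead.SpA.gr (μ i))
    (fun j => Lead.SpA.gr_rep _ fun g => by
      rw [hS]
      refine Lead.SpA.mem_closure_iff (Y := Lead.SpA.FxS (Lead.SpA.p0 _ F) {j}) (fun g => ?_) g
      refine Iff.trans ?_ Lead.SpA.Fx_iff.symm
      exact ⟨fun h i hi => by rcases i with k | k; exacts [(h k hi).1, (h k hi).2],
        fun h k hk => ⟨h (Sum.inl k) hk, h (Sum.inr k) hk⟩⟩)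
    (fun p m hp => Lead.SpA.gr_rep _ fun g => by
      rw [hM p (hp ▸ m.2)]
      refine Lead.SpA.mem_closure_iff (Y := Lead.SpA.FxS (Lead.SpA.p0 _ F) {p, m} ⊓
        (Lead.SpA.FvS (Lead.SpA.p0 _ F) (Lead.SpA.bb (Sum.inl p)) ⊓
          Lead.SpA.FvS (Lead.SpA.p0 _ F) (Lead.SpA.bb (Sum.inl m)))) (fun g => ?_) g
      refine ⟨fun h => ⟨Lead.SpA.Fx_iff.2 fun i hi => ?_, h.1 p, h.1 m⟩, fun h =>
        ⟨Lead.SpA.MP.fe h, fun k h1 h2 => Lead.SpA.Fx_iff.1 h.1 (Sum.inr k) ?_⟩⟩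
      · rcases i with k | k
        · exact h.1 k
        · simp only [Lead.SpA.ix_r, Set.mem_insert_iff, Set.mem_singleton_iff, not_or,
            Fin.ext_iff] at hi
          exact h.2 k hi.1 (hp ▸ hi.2)
      · simp only [Lead.SpA.ix_r, Set.mem_insert_iff, Set.mem_singleton_iff, not_or, Fin.ext_iff]
        exact ⟨h1, hp ▸ h2⟩)
    (fun j l h => Lead.SpA.gr_inj (hSS j l h))
    (fun i i' h h1 h2 => Lead.SpA.gr_inj (hMM i i' h h1 h2))
    (fun i j h => Lead.SpA.gr_inj (hMS i j h)) hn k (by omega)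
  exact Lead.SpA.final σ μ this.1 this.2.1

end Cfsg.Agent.S3713
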