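import Cfsg.Statements.S3802
import Cfsg.Agent.H7.Prim

set_option autoImplicit false
open Cfsg

namespace Cfsg.Agent.S3802



/-- Let G be a finite group, M a maximal subgroup of G and N a subnormal subgroup of G contained in M. Then N is contained in every conjugate of M, that is, N lies in the core of M in G. -/
theorem result {G : Type*} [Group G] [Finite G] (M N : Subgroup G) (hM : IsCoatom M) (hN : N.IsSubnormal) (hNM : N ≤ M) :
    N ≤ Subgroup.normalCore M := by
  obtain ⟨W, h1, h2, h3, h4⟩ := H7.exists_max_subnormal_le M
  haveI : W.Normal := by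
    rcases hM.le_iff.1 h2 with h | h
    · exact Subgroup.normalizer_eq_top_iff.1 h
    · exact h4 h.le
  exact (h3 N hN hNM).trans (Subgroup.normal_le_normalCore.2 h1)

end Cfsg.Agent.S3802
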