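import Cfsg.Statements.S3803
import Cfsg.Agent.H6.HSub
import Cfsg.Agent.H7.CycInt
import Cfsg.Agent.H3.Critical
import Cfsg.Agent.H1.Frattini
import Cfsg.Agent.H10.Act
import Cfsg.Agent.H9.Basic

set_option autoImplicit false
open Cfsg

namespace Cfsg.Agent.S3803

open Subgroup H10

/-- Let P be a 2-subgroup and A a subgroup of odd order of a finite group, with A normalizing P. Let D ≤ P with 1 < |D| < |P|. If every subgroup of P of order |D|, and also every subgroup of P of order 4 in case |D| = 2, is normalized by A, then A centralizes P. -/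
theorem result {X : Type*} [Group X] [Finite X] (P A D : Subgroup X) (hP : IsPGroup 2 P) (hA : Odd (Nat.card A))
    (hAP : A ≤ Subgroup.normalizer (P : Set X)) (hDP : D ≤ P) (hD1 : 1 < Nat.card D) (hD2 : Nat.card D < Nat.card P)
    (hinv : ∀ E : Subgroup X, E ≤ P → (Nat.card E = Nat.card D ∨ (Nat.card D = 2 ∧ Nat.card E = 4)) → A ≤ Subgroup.normalizer (E : Set X)) :
    A ≤ Subgroup.centralizer (P : Set X) := by
  haveI : Fact (Nat.Prime 2) := ⟨Nat.prime_two⟩
  obtain ⟨d, hd⟩ := IsPGroup.iff_card.1 (hP.to_le hDP)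
  obtain ⟨n, hn⟩ := IsPGroup.iff_card.1 hP
  have hodd : ∀ g ∈ A, Odd (orderOf g) := fun g hg => hA.of_dvd_nat (A.orderOf_dvd_natCard hg)
  have hcyc : ∀ E : Subgroup X, E ≤ P → IsCyclic E → A ≤ NN(E) → A ≤ CC(E) :=
    fun E h1 h2 h3 g hg => H7.cent_of_odd_cyclic_two (hP.to_le h1) h2 (h3 hg) (hodd g hg)
  have hE : ∀ E : Subgroup X, E ≤ P → Nat.card E = 2 ^ d → A ≤ CC(E) := by
    intro E hEP hEc
    have hinv' : ∀ F : Subgroup X, F ≤ P → Nat.card F = 2 ^ d → A ≤ NN(F) := fun F h1 h2 =>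
      hinv F h1 (Or.inl (h2.trans hd.symm))
    by_cases hc : IsCyclic E
    · exact hcyc E hEP hc (hinv' E hEP hEc)
    obtain ⟨R, hER, hRP, hR⟩ := H6.exists_card_between hP hEP (m := d + 1)
      (by rw [hEc]; exact Nat.pow_le_pow_right two_pos (by omega))
      (by rw [hd, hn] at hD2; rw [hn]
          exact Nat.pow_le_pow_right two_pos ((Nat.pow_lt_pow_iff_right one_lt_two).1 hD2))
    have hRp := hP.to_le hRP
    have hlt : E < R := lt_of_le_of_ne hER (fun e => by
      rw [e, hR] at hEc; have := Nat.pow_right_injective le_rfl hEc; omega)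
    obtain ⟨y, hyR, hyE⟩ := SetLike.exists_of_lt hlt
    have hy : zpowers y ≠ R := fun e => hc (by
      haveI : IsCyclic R := e ▸ inferInstanceAs (IsCyclic (zpowers y))
      exact isCyclic_of_le hER)
    have hsm : ∀ F : Subgroup X, F < R → Nat.card F ≤ 2 ^ d := fun F hF => by
      obtain ⟨k, hk⟩ := IsPGroup.iff_card.1 (hRp.to_le hF.le)
      have := card_lt_of_lt hF
      rw [hk, hR] at this
      rw [hk]
      exact Nat.pow_le_pow_right two_pos
        (Nat.lt_succ_iff.1 ((Nat.pow_lt_pow_iff_right one_lt_two).1 this))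
    obtain ⟨F, hF1, hF2, hF3⟩ := H6.exists_card_between hRp (zpowers_le.2 hyR) (m := d)
      (hsm _ (lt_of_le_of_ne (zpowers_le.2 hyR) hy))
      (by rw [hR]; exact Nat.pow_le_pow_right two_pos (by omega))
    have hsup : E ⊔ F = R := by
      by_contra hne
      have h1 := hsm _ (lt_of_le_of_ne (sup_le hER hF2) hne)
      have h2 : E < E ⊔ F := lt_of_le_of_ne le_sup_left fun e =>
        hyE (e ▸ mem_sup_right (hF1 (mem_zpowers y)))
      have := card_lt_of_lt h2
      omega
    have hAR : A ≤ NN(R) := hsup ▸ le_NN_sup (hinv' E hEP hEc) (hinv' F (hF2.trans hRP) hF3)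
    refine (H1.le_centralizer_of_commutator_le_frattini hAR ?_ ?_).trans (CC_anti hER)
    · obtain ⟨k, hk⟩ := IsPGroup.iff_card.1 (hRp.to_subgroup (frattini R))
      rw [hk]; exact (Nat.coprime_two_right.2 hA).pow_right k
    · rw [le_map_subtype_iff]
      refine ⟨comm_le_left hAR, le_iInf₂ fun M hM => ?_⟩
      have hi := H9.index_of_isCoatom hRp hM
      have hM2 : Nat.card (M.map R.subtype) = 2 ^ d := by
        have := M.index_mul_card
        rw [hi, hR, pow_succ, mul_comm] at this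
        rw [card_map_subtype]; omega
      have hAM := hinv' _ ((map_subtype_le M).trans hRP) hM2
      rw [← le_map_subtype_iff.trans (and_iff_right (comm_le_left hAR)), commutator_le]
      intro r hr a ha
      have h1 : a * r⁻¹ * a⁻¹ ∈ R := conj_mem_of_mem_NN (hAR ha) (inv_mem hr)
      have h2 := (mul_mem_iff_of_index_two hi (a := ⟨r, hr⟩) (b := ⟨_, h1⟩)).2 (by
        have e : ∀ (x : X) (hx : x ∈ R), (⟨x, hx⟩ : R) ∈ M ↔ x ∈ M.map R.subtype := fun x hx =>
          (mem_map_iff_mem (f := R.subtype) (subtype_injective R) (x := ⟨x, hx⟩)).symm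
        rw [e, e, ← mem_normalizer_iff.1 (hAM ha), inv_mem_iff])
      refine ⟨_, h2, ?_⟩
      simp [commutatorElement_def, mul_assoc]
  intro g hg
  refine H3.mem_centralizer_of_centralizes_omega hP (hAP hg)
    (Nat.coprime_two_right.2 (hodd g hg)) fun x hx h4 => ?_
  have h4' : x ^ 2 ^ 2 = 1 := by
    rcases h4 with h | h
    · rw [show 2 ^ 2 = 2 * 2 from rfl, pow_mul, h, one_pow]
    · exact h.2
  obtain ⟨k, hk, ho⟩ := (Nat.dvd_prime_pow Nat.prime_two).1 (orderOf_dvd_of_pow_eq_one h4')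
  by_cases hkd : k ≤ d
  · obtain ⟨E, h1, h2, h3⟩ := H6.exists_card_between hP (zpowers_le.2 hx) (m := d)
      (by rw [Nat.card_zpowers, ho]; exact Nat.pow_le_pow_right two_pos hkd) (hd ▸ hD2.le)
    exact mem_CC.1 (hE E h2 h3 hg) x (h1 (mem_zpowers x))
  · have hd0 : d ≠ 0 := by rintro rfl; omega
    obtain rfl : d = 1 := by omega
    obtain rfl : k = 2 := by omega
    exact mem_CC.1 (hcyc _ (zpowers_le.2 hx) inferInstance
      (hinv _ (zpowers_le.2 hx) (Or.inr ⟨hd, by rw [Nat.card_zpowers, ho]; rfl⟩)) hg) x (mem_zpowers x)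

end Cfsg.Agent.S3803
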