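import Cfsg.Statements.S3805
import Cfsg.Agent.H25.Tri3

set_option autoImplicit false
open Cfsg

namespace Cfsg.Agent.S3805

open H25 Subgroup in
theorem aux {G : Type*} [Group G] [Finite G] (T : Sylow 3 G) (hT : Cfsg.IsElementaryAbelian 3 (T : Subgroup G))
    (hcard : Nat.card T = 9) (hC : centralizer ((T : Subgroup G) : Set G) = T)
    (hloc : ∀ t ∈ (T : Subgroup G), t ≠ 1 → centralizer ({t} : Set G) ≤ normalizer ((T : Subgroup G) : Set G))
    (hN : Nat.card (normalizer ((T : Subgroup G) : Set G)) = 36)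
    (hcm : ∀ x ∈ normalizer ((T : Subgroup G) : Set G), ∀ y ∈ normalizer ((T : Subgroup G) : Set G),
      x⁻¹ * y⁻¹ * x * y ∈ (T : Subgroup G))
    (hsq : ∀ x ∈ normalizer ((T : Subgroup G) : Set G), x * x ∈ (T : Subgroup G))
    {v n s : G} (hv : v ∈ normalizer ((T : Subgroup G) : Set G)) (hn : n ∈ normalizer ((T : Subgroup G) : Set G))
    (v1 : v ∉ (T : Subgroup G)) (n1 : n ∉ (T : Subgroup G)) (vn : v * n ∉ (T : Subgroup G))
    (hs : s ∈ (T : Subgroup G)) (hsv : v * s * v⁻¹ ≠ s⁻¹) :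
    normalizer ((T : Subgroup G) : Set G) = ⊤ := by
  have cm : ∀ x ∈ (T : Subgroup G), ∀ y ∈ (T : Subgroup G), x * y = y * x := fun x hx y hy =>
    congrArg Subtype.val (hT.1.is_comm.comm ⟨x, hx⟩ ⟨y, hy⟩)
  have cj : ∀ g ∈ normalizer ((T : Subgroup G) : Set G), ∀ x ∈ (T : Subgroup G), g * x * g⁻¹ ∈ (T : Subgroup G) :=
    fun g hg x hx => (mem_normalizer_iff.1 hg x).1 hx
  have vv : ∀ x ∈ (T : Subgroup G), v * (v * x * v⁻¹) * v⁻¹ = x := fun x hx => by
    have := cm _ (hsq v hv) x hx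
    calc v * (v * x * v⁻¹) * v⁻¹ = (v * v * x) * (v * v)⁻¹ := by group
      _ = x := by rw [this]; group
  obtain ⟨s', hs', hs1⟩ : ∃ s' ∈ (T : Subgroup G), v * s' * v⁻¹ ≠ s' := by
    by_contra! h
    apply v1
    rw [← hC, mem_centralizer_iff]
    intro x hx
    exact (mul_inv_eq_iff_eq_mul.1 (h x hx)).symm
  set a := s * (v * s * v⁻¹) with ha
  set b := s'⁻¹ * (v * s' * v⁻¹) with hb
  have aT : a ∈ (T : Subgroup G) := mul_mem hs (cj v hv s hs)
  have bT : b ∈ (T : Subgroup G) := mul_mem (inv_mem hs') (cj v hv s' hs')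
  have va : v * a * v⁻¹ = a := by
    calc v * a * v⁻¹ = (v * s * v⁻¹) * (v * (v * s * v⁻¹) * v⁻¹) := by rw [ha]; group
      _ = a := by rw [vv s hs, cm _ (cj v hv s hs) s hs]
  have vb : v * b * v⁻¹ = b⁻¹ := by
    calc v * b * v⁻¹ = (v * s' * v⁻¹)⁻¹ * (v * (v * s' * v⁻¹) * v⁻¹) := by rw [hb]; group
      _ = b⁻¹ := by rw [vv s' hs', hb]; group
  have a1 : a ≠ 1 := fun e => hsv (eq_inv_of_mul_eq_one_right e)
  have b1 : b ≠ 1 := fun e => hs1 (inv_mul_eq_one.1 e).symm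
  have bi : b ≠ b⁻¹ := fun e => b1 (by
    have h3 := hT.2 b bT
    rw [pow_succ, pow_two] at h3
    nth_rw 2 [e] at h3
    simpa using h3)
  have inj := md2_inj (hT.2 a aT) (hT.2 b bT) (cm a aT b bT) a1 b1
    (fun e => bi (by rw [← vb, e, va])) (fun e => bi (by
      rw [← vb, e, ← conj_inv, va]))
  have sur := md2_surj inj hcard aT bT
  obtain ⟨h, hbad⟩ := T3.of_sylow T (md2_add (hT.2 a aT) (hT.2 b bT) (cm a aT b bT)) inj
    (by decide) sur hloc
  have lv : ∀ u, v * md2 a b u * v⁻¹ = md2 a b (lin9 (1, 0) (0, -1) u) :=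
    h.conj_lin (by rw [md2_a, va]) (by rw [md2_b, vb, show ((0, -1) : V9) = -(0, 1) by decide, h.neg, md2_b])
  have diag : ∀ g ∈ normalizer ((T : Subgroup G) : Set G), ∃ i j : ZMod 3,
      ∀ u, g * md2 a b u * g⁻¹ = md2 a b (lin9 (i, 0) (0, j) u) := by
    intro g hg
    obtain ⟨p, q, hpq⟩ := h.exists_lin hg
    have key : ∀ u, lin9 (1, 0) (0, -1) (lin9 p q u) = lin9 p q (lin9 (1, 0) (0, -1) u) := by
      intro u
      apply inj
      rw [← lv, ← hpq, ← hpq, ← lv]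
      have := cm _ (hcm v hv g hg) _ ((sur _).2 ⟨u, rfl⟩)
      calc v * (g * md2 a b u * g⁻¹) * v⁻¹ =
            g * v * (v⁻¹ * g⁻¹ * v * g * md2 a b u) * (v⁻¹ * g⁻¹ * v * g)⁻¹ * v⁻¹ * g⁻¹ := by group
        _ = _ := by rw [this]; group
    have k1 := key (1, 0)
    have k2 := key (0, 1)
    have : p = (p.1, 0) ∧ q = (0, q.2) := by revert k1 k2; generalize p = p; generalize q = q; revert p q; decide
    exact ⟨p.1, q.2, by rw [← this.1, ← this.2]; exact hpq⟩
  have triv : ∀ g : G, (∀ u, g * md2 a b u * g⁻¹ = md2 a b u) → g ∈ (T : Subgroup G) := by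
    intro g hg
    rw [← hC, mem_centralizer_iff]
    intro x hx
    obtain ⟨u, rfl⟩ := (sur x).1 hx
    exact (mul_inv_eq_iff_eq_mul.1 (hg u)).symm
  have nz : ∀ g : G, ∀ L : V9 → V9, (∀ u, g * md2 a b u * g⁻¹ = md2 a b (L u)) → ∀ u, u ≠ 0 → L u ≠ 0 := by
    intro g L hL u hu e
    have := hL u
    rw [e, h.zero, mul_inv_eq_one, mul_eq_left] at this
    exact h.ne_one hu this
  obtain ⟨i, j, hij⟩ := diag n hn
  have lvn : ∀ u, v * n * md2 a b u * (v * n)⁻¹ = md2 a b (lin9 (1, 0) (0, -1) (lin9 (i, 0) (0, j) u)) := by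
    intro u; rw [← lv, ← hij]; group
  have hi : i = -1 ∧ (j = 1 ∨ j = -1) := by
    have z1 := nz n _ hij (1, 0) (by decide)
    have z2 := nz n _ hij (0, 1) (by decide)
    have z3 : ¬ ∀ u, lin9 (i, 0) (0, j) u = u := fun e => n1 (triv n fun u => by rw [hij, e])
    have z4 : ¬ ∀ u, lin9 (1, 0) (0, -1) (lin9 (i, 0) (0, j) u) = u := fun e =>
      vn (triv _ fun u => by rw [lvn, e])
    revert z1 z2 z3 z4; generalize i = i; generalize j = j; revert i j; decide
  refine h.v4_top hbad (fun u w hu => ⟨fun hc => ?_, fun hc => ?_⟩) hN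
  · obtain ⟨g, hg⟩ := isConj_iff.1 hc
    obtain ⟨i, j, e⟩ := diag g (h.fus hu hg)
    have z1 := nz g _ e (1, 0) (by decide)
    have z2 := nz g _ e (0, 1) (by decide)
    rw [e] at hg
    obtain rfl := inj hg
    clear hg hc e
    revert i j u; decide
  · have : w = u ∨ w = lin9 (1, 0) (0, -1) u ∨ w = lin9 (i, 0) (0, j) u ∨
        w = lin9 (1, 0) (0, -1) (lin9 (i, 0) (0, j) u) := by
      obtain ⟨rfl, rfl | rfl⟩ := hi <;> revert u w <;> decide
    rcases this with rfl | rfl | rfl | rfl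
    · exact IsConj.refl _
    · exact isConj_iff.2 ⟨v, lv u⟩
    · exact isConj_iff.2 ⟨n, hij u⟩
    · exact isConj_iff.2 ⟨v * n, lvn u⟩

/-- Let G be a finite group whose Sylow 3-subgroup T is elementary abelian of order 9 and self-centralizing, with N_G(T)/T a Klein four-group, and suppose that the centralizer of every nonidentity element of T lies in N_G(T). Then T is normal in G. -/
theorem result {G : Type*} [Group G] [Finite G]
    (T : Sylow 3 G) (hT : Cfsg.IsElementaryAbelian 3 (T : Subgroup G)) (hcard : Nat.card T = 9)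
    (hC : Subgroup.centralizer ((T : Subgroup G) : Set G) = T)
    [hn : ((T : Subgroup G).subgroupOf (Subgroup.normalizer ((T : Subgroup G) : Set G))).Normal]
    (hK : IsKleinFour (↥(Subgroup.normalizer ((T : Subgroup G) : Set G)) ⧸
      (T : Subgroup G).subgroupOf (Subgroup.normalizer ((T : Subgroup G) : Set G))))
    (hloc : ∀ t ∈ (T : Subgroup G), t ≠ 1 →
      Subgroup.centralizer ({t} : Set G) ≤ Subgroup.normalizer ((T : Subgroup G) : Set G)) :
    Subgroup.normalizer ((T : Subgroup G) : Set G) = ⊤ := by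
  classical
  set N := Subgroup.normalizer ((T : Subgroup G) : Set G) with hNdef
  have hle : (T : Subgroup G) ≤ N := Subgroup.le_normalizer
  have hN : Nat.card N = 36 := by
    rw [Subgroup.card_eq_card_quotient_mul_card_subgroup ((T : Subgroup G).subgroupOf N), hK.card_four,
      Nat.card_congr (Subgroup.subgroupOfEquivOfLe hle).toEquiv]
    exact congrArg (4 * ·) hcard
  have mem : ∀ x : N, (x : N ⧸ (T : Subgroup G).subgroupOf N) = 1 ↔ (x : G) ∈ (T : Subgroup G) := fun x =>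
    QuotientGroup.eq_one_iff x
  have hsq : ∀ x ∈ N, x * x ∈ (T : Subgroup G) := fun x hx => by
    refine (mem (⟨x, hx⟩ * ⟨x, hx⟩)).1 ?_
    rw [QuotientGroup.mk_mul]
    exact IsKleinFour.mul_self _
  have hcm : ∀ x ∈ N, ∀ y ∈ N, x⁻¹ * y⁻¹ * x * y ∈ (T : Subgroup G) := fun x hx y hy => by
    have h1 := hsq _ (mul_mem (inv_mem hx) (inv_mem hy))
    have h2 := hsq _ hy
    have h3 := (Subgroup.mem_normalizer_iff.1 (mul_mem hy hx) _).1 (hsq x hx)
    have h4 := (Subgroup.mem_normalizer_iff.1 hy _).1 (hsq x hx)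
    have : x⁻¹ * y⁻¹ * x * y = (x⁻¹ * y⁻¹ * (x⁻¹ * y⁻¹)) * (y * (x * x) * y⁻¹) * (y * y) := by group
    rw [this]
    exact mul_mem (mul_mem h1 h4) h2
  obtain ⟨x, y, hx, hy, hxy⟩ : ∃ x y : N ⧸ (T : Subgroup G).subgroupOf N, x ≠ 1 ∧ y ≠ 1 ∧ x * y ≠ 1 := by
    have := Fintype.ofFinite (N ⧸ (T : Subgroup G).subgroupOf N)
    have h4 : 2 < Fintype.card (N ⧸ (T : Subgroup G).subgroupOf N) := by
      rw [← Nat.card_eq_fintype_card, hK.card_four]; norm_num
    obtain ⟨a, b, c, h1, h2, h3⟩ := Fintype.two_lt_card_iff.1 h4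
    refine ⟨a⁻¹ * b, c⁻¹ * a, fun e => h1 (inv_mul_eq_one.1 e), fun e => h2 (inv_mul_eq_one.1 e).symm, fun e => h3 ?_⟩
    have := mul_eq_one_comm.1 e
    rw [mul_assoc, mul_inv_cancel_left, inv_mul_eq_one] at this
    exact this.symm
  obtain ⟨x, rfl⟩ := QuotientGroup.mk_surjective x
  obtain ⟨y, rfl⟩ := QuotientGroup.mk_surjective y
  rw [← QuotientGroup.mk_mul, Ne, mem] at hxy
  rw [Ne, mem] at hx hy
  by_cases h1 : ∀ s ∈ (T : Subgroup G), (x : G) * s * (x : G)⁻¹ = s⁻¹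
  · by_cases h2 : ∀ s ∈ (T : Subgroup G), (y : G) * s * (y : G)⁻¹ = s⁻¹
    · exfalso
      apply hxy
      rw [← hC, Subgroup.mem_centralizer_iff]
      intro s hs
      have e : (x : G) * y * s * ((x : G) * y)⁻¹ = s := by
        calc (x : G) * y * s * ((x : G) * y)⁻¹ = x * (y * s * (y : G)⁻¹) * (x : G)⁻¹ := by group
          _ = s := by rw [h2 s hs, h1 _ (inv_mem hs), inv_inv]
      exact (mul_inv_eq_iff_eq_mul.1 e).symm
    · push Not at h2
      obtain ⟨s, hs, h3⟩ := h2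
      refine aux T hT hcard hC hloc hN hcm hsq y.2 x.2 hy hx (fun e => hxy ?_) hs h3
      have := (Subgroup.mem_normalizer_iff.1 x.2 _).1 e
      simpa [mul_assoc] using this
  · push Not at h1
    obtain ⟨s, hs, h3⟩ := h1
    exact aux T hT hcard hC hloc hN hcm hsq x.2 y.2 hx hy hxy hs h3

end Cfsg.Agent.S3805
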