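import Cfsg.Statements.S3815
import Cfsg.Agent.H1.Cores
import Cfsg.Agent.H3.PComp

set_option autoImplicit false
open Cfsg

namespace Cfsg.Agent.S3815



/-- Let G be a finite group, p a prime and d ∈ G an element of order prime to p. If dg has order prime to p for every element g ∈ G of order prime to p, then d ∈ O_{p'}(G). -/
theorem result {G : Type*} [Group G] [Finite G] {p : ℕ} [Fact p.Prime]
    (d : G) (hd : (orderOf d).Coprime p)
    (h : ∀ g : G, (orderOf g).Coprime p → (orderOf (d * g)).Coprime p) :
    d ∈ Cfsg.pPrimeCore p G := by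
  let D : Submonoid G :=
    { carrier := {d | ∀ g : G, (orderOf g).Coprime p → (orderOf (d * g)).Coprime p}
      one_mem' := fun g hg => by simpa using hg
      mul_mem' := fun {a b} ha hb g hg => by rw [mul_assoc]; exact ha _ (hb g hg) }
  let E : Subgroup G :=
    { D with
      inv_mem' := fun {a} ha => by
        have : a⁻¹ = a ^ (orderOf a - 1) := by
          rw [inv_eq_iff_mul_eq_one, ← pow_succ', Nat.sub_add_cancel (orderOf_pos a),
            pow_orderOf_eq_one]
        rw [this]; exact D.pow_mem ha _ }
  have hconj : ∀ a g : G, orderOf (g * a * g⁻¹) = orderOf a := fun a g =>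
    (MulAut.conj g).orderOf_eq a
  haveI : E.Normal := ⟨fun a ha g x hx => by
    have := ha (g⁻¹ * x * g⁻¹⁻¹) (by rwa [hconj])
    rw [← hconj _ g] at this
    convert this using 2
    group⟩
  have hE : (Nat.card E).Coprime p :=
    H3.coprime_card_of_forall_orderOf fun g hg => by simpa using hg 1 (by simp)
  exact H1.le_pPrimeCore hE (show d ∈ E from h)

end Cfsg.Agent.S3815
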