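import Cfsg.Statements.S3816
import Cfsg.Agent.H17.Fv2

set_option autoImplicit false
open Cfsg

namespace Cfsg.Agent.S3816

open H17 Cfsg

open Subgroup H1 H16 H17.Fv SemidirectProduct in

/-- Let p be an odd prime, H a finite solvable group of order prime to p, and x an automorphism of H of order p (so P = ⟨x⟩ has prime order p > 2 and acts coprimely on H). For h ∈ H let [h, P] be the subgroup generated by the commutators h⁻¹·xⁱ(h), and let [H, P] be the subgroup generated by all of these. Then the fixed points of x in [H, P] are generated by the fixed points of x in the subgroups [h, P], h ∈ H. -/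
theorem result {H : Type*} [Group H] [Finite H]
    [Group.IsSolvable H] {p : ℕ} [Fact p.Prime] (hp : p ≠ 2) (hcop : (Nat.card H).Coprime p)
    (x : MulAut H) (hx : orderOf x = p) :
    Subgroup.closure {c : H | ∃ h : H, ∃ i : ℕ, c = h⁻¹ * (x ^ i) h} ⊓ (x : H →* H).eqLocus (MonoidHom.id H) =
      ⨆ h : H, Subgroup.closure {c : H | ∃ i : ℕ, c = h⁻¹ * (x ^ i) h} ⊓ (x : H →* H).eqLocus (MonoidHom.id H) := by
  refine le_antisymm ?_ (iSup_le fun h => inf_le_inf_right _ (closure_mono fun c ⟨i, e⟩ => ⟨h, i, e⟩))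
  rintro c ⟨c1, c2⟩
  let φ := MonoidHom.id (MulAut H)
  have e0 : ∀ (i : ℕ) (h : H), (inl (h⁻¹ * (x ^ i) h) : H ⋊[φ] MulAut H) =
      (inl h)⁻¹ * (inr x ^ i * inl h * (inr x ^ i)⁻¹) := fun i h => by
    rw [← map_pow, H8.inr_conj_inl, map_mul, map_inv]; rfl
  have e1 : ∀ c : H, (inl c : H ⋊[φ] MulAut H) ∈ C1[inr x] ↔ x c = c := fun c => by
    rw [mem_cent1, eq_comm, ← mul_inv_eq_iff_eq_mul, H8.inr_conj_inl]
    exact inl_injective.eq_iff
  have := key (K := H8.sdL φ ⊤) (x := inr x) Fact.out hp (by rw [← map_pow, ← hx, pow_orderOf_eq_one, map_one])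
    (nn ⊤ _ trivial) (isSolvable_map inferInstance _) (H15.isPi_compl_of_coprime (by
      rw [H8.card_sdL, card_top]; exact hcop))
  replace this := @this (inl c) ⟨by
      refine (show Subgroup.closure _ ≤ comap inl ⁅H8.sdL φ ⊤, zpowers (inr x : H ⋊[φ] MulAut H)⁆ from (closure_le _).2 ?_) c1
      rintro _ ⟨h, i, rfl⟩
      exact mem_comap.2 ((e0 i h).symm ▸ Bx_le_comm (mem_map_of_mem _ (mem_top h)) (mem_Bx i)), (e1 c).2 c2⟩
  refine (H8.inl_mem_sdL φ).1 (Dx_le_iff.2 ?_ this)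
  rintro _ ⟨h, -, rfl⟩ a ⟨a1, a2⟩
  obtain ⟨b, b1, rfl⟩ := (Bx_le_iff (T := H8.sdL φ (Subgroup.closure {c : H | ∃ i : ℕ, c = h⁻¹ * (x ^ i) h}))).2
    (fun i => e0 i h ▸ mem_map_of_mem _ (subset_closure ⟨i, rfl⟩)) a1
  exact mem_map_of_mem _ (mem_iSup_of_mem h ⟨b1, (e1 b).1 a2⟩)

end Cfsg.Agent.S3816
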