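import Cfsg.Statements.S3818
import Cfsg.Agent.H12.Rb5

set_option autoImplicit false
open Cfsg

namespace Cfsg.Agent.S3818

open Subgroup H2 in

/-- Let G be a finite solvable group and P a subgroup of G of prime order p > 3 whose conjugates generate G. Let V be a faithful irreducible representation of G over a field of positive characteristic, finite-dimensional. Then the subspace of V fixed by P has dimension less than half the dimension of V. -/
theorem result {G : Type*} [Group G] [Finite G] [Group.IsSolvable G]
    {p : ℕ} [Fact p.Prime] (hp : 3 < p) (P : Subgroup G) (hP : Nat.card P = p) (hgen : Subgroup.normalClosure (P : Set G) = ⊤)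
    {k : Type*} [Field k] (ℓ : ℕ) [Fact ℓ.Prime] [CharP k ℓ]
    {V : Type*} [AddCommGroup V] [Module k V] [FiniteDimensional k V]
    (ρ : Representation k G V) [ρ.IsIrreducible] (hfaith : Function.Injective ρ) :
    2 * Module.finrank k ↥(⨅ g : ↥P, LinearMap.ker (ρ (g : G) - LinearMap.id)) < Module.finrank k V := by
  have : IsCyclic P := isCyclic_of_prime_card hP
  obtain ⟨x, rfl⟩ := H16.exists_gen this
  have h5 : 5 ≤ p := (Fact.out : p.Prime).five_le_of_ne_two_of_ne_three (by omega) (by omega)
  have : Nontrivial V := by
    obtain ⟨a, b, h⟩ := exists_pair_ne (Subrepresentation ρ)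
    by_contra h'
    rw [not_nontrivial_iff_subsingleton] at h'
    exact h (Subrepresentation.toSubmodule_injective (Subsingleton.elim _ _))
  have := H12.Rb.irr_case ℓ Fact.out h5 (x := x) (by rw [← hP, Nat.card_zpowers]) (by
    rw [eq_top_iff, ← hgen]
    exact normalClosure_le_normal (zpowers_le.2 (subset_normalClosure rfl))) ρ
    ((MonoidHom.ker_eq_bot_iff ρ).2 hfaith) fun U hU =>
      (eq_bot_or_eq_top (⟨U, fun g v hv => hU g v hv⟩ : Subrepresentation ρ)).imp
        (congrArg Subrepresentation.toSubmodule) (congrArg Subrepresentation.toSubmodule)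
  rwa [show fix ρ (zpowers x) = ⨅ g : zpowers x, LinearMap.ker (ρ (g : G) - LinearMap.id) by
    ext v
    simp only [mem_fix, Submodule.mem_iInf, LinearMap.mem_ker, LinearMap.sub_apply, sub_eq_zero,
      LinearMap.id_apply, Subtype.forall]] at this

end Cfsg.Agent.S3818
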