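import Cfsg.Statements.S3819
import Cfsg.Agent.H15.TB
import Cfsg.Agent.H16.QNil
import Cfsg.Agent.H8.Sdp

set_option autoImplicit false
open Cfsg

namespace Cfsg.Agent.S3819


open Subgroup H1 H16 H15 in

/-- Let G be a finite group with Sylow p-subgroup P and H = O_{p'}(G), and suppose G = PH and the commutator subgroup [H, P] is solvable. Let q be a prime and z an element of q-power order of C_H(P). Then (O_{q'}(C_H(z)) ∩ O_{q'}(C_H(P))) · [O_{q'}(C_H(z)), P] ≤ O_{q'}(H). -/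
theorem result {G : Type*} [Group G] [Finite G] {p : ℕ} [Fact p.Prime]
    (P : Sylow p G) (hPH : Cfsg.pPrimeCore p G ⊔ (P : Subgroup G) = ⊤)
    (hsol : Group.IsSolvable ↥⁅Cfsg.pPrimeCore p G, (P : Subgroup G)⁆)
    {q : ℕ} [Fact q.Prime] (z : G) (hzH : z ∈ Cfsg.pPrimeCore p G) (hzP : z ∈ Subgroup.centralizer ((P : Subgroup G) : Set G))
    (hz : ∃ k : ℕ, orderOf z = q ^ k) :
    ((Cfsg.pPrimeCore q ↥(Cfsg.pPrimeCore p G ⊓ Subgroup.centralizer ({z} : Set G))).map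
        (Cfsg.pPrimeCore p G ⊓ Subgroup.centralizer ({z} : Set G)).subtype ⊓
      (Cfsg.pPrimeCore q ↥(Cfsg.pPrimeCore p G ⊓ Subgroup.centralizer ((P : Subgroup G) : Set G))).map
        (Cfsg.pPrimeCore p G ⊓ Subgroup.centralizer ((P : Subgroup G) : Set G)).subtype) ⊔
    ⁅(Cfsg.pPrimeCore q ↥(Cfsg.pPrimeCore p G ⊓ Subgroup.centralizer ({z} : Set G))).map
        (Cfsg.pPrimeCore p G ⊓ Subgroup.centralizer ({z} : Set G)).subtype, (P : Subgroup G)⁆ ≤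
    (Cfsg.pPrimeCore q ↥(Cfsg.pPrimeCore p G)).map (Cfsg.pPrimeCore p G).subtype := by
  simp only [pPrimeCore_map_subtype]
  set H := pPrimeCore p G
  set Q := (P : Subgroup G)
  set X := Op[{q}ᶜ] (H ⊓ C1[z])
  set W := Op[{q}ᶜ] (H ⊓ C[Q])
  have nn : ∀ (A K : Subgroup G) [K.Normal], A ≤ N[K] := fun _ _ _ => le_normalizer_of_normal
  have hN : (⁅H, Q⁆ : Subgroup G).Normal := normalizer_eq_top_iff.1 (eq_top_iff.2 (hPH.ge.trans
    (sup_le (H8.le_normalizer_commutator_left _ _) (norm_comm (nn _ _) (le_norm _)))))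
  have a1 : W ⊔ ⁅H, Q⁆ ≤ H := sup_le ((piCoreOf_le _ _).trans inf_le_left) (H16.comm_le_left (nn _ _))
  have a2 : H ≤ N[W ⊔ ⁅H, Q⁆] := by
    conv_lhs => rw [← cop_comm_sup_cent (nn Q H) (H15.Cfsg.IsPiSubgroup.coprime (pg_iff.2 P.2) isPi_pPrimeCore)
      (Or.inl (sol_of_nil P.2.isNilpotent))]
    exact sup_le (norm_of_le le_sup_right) (norm_sup (le_norm_piCoreOf_self _ _) (nn _ _))
  have hq : Pg[q] (zpowers z) := by
    obtain ⟨k, hk⟩ := hz
    exact isPi_of_card_eq_pow Fact.out ((card_zpowers z).trans hk)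
  have a3 : zpowers z ⊔ (W ⊔ ⁅H, Q⁆) ≤ H := sup_le (zpowers_le.2 hzH) a1
  have a4 := (pcon_of_psolvable (IsPSolvable.sup (isPSolvable_of_isPGroup (pg_iff.1 hq)) (IsPSolvable.sup
    (isPSolvable_of_coprime (H15.Cfsg.IsPiSubgroup.coprime_p (isPi_piCoreOf _ (H ⊓ C[Q]))))
    (isPSolvable_of_isSolvable q hsol) (nn _ _)) ((zpowers_le.2 hzH).trans a2))).le_core_of_cent
    (K := X ⊓ (zpowers z ⊔ (W ⊔ ⁅H, Q⁆))) (H15.Cfsg.IsPiSubgroup.inf_left (isPi_piCoreOf _ _)) hq inf_le_right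
    le_sup_left (by rw [H16.cent_zpowers]; exact inf_le_left.trans ((piCoreOf_le _ _).trans inf_le_right))
    (norm_inf (by rw [H16.cent_zpowers]; exact (inf_le_inf_right _ a3).trans (le_norm_piCoreOf_self _ _))
      (norm_of_le inf_le_left))
  refine le_trans ?_ (((inf_le_inf_right (W ⊔ ⁅H, Q⁆) a4).trans (piCoreOf_inf_le _ le_sup_right)).trans
    (piCoreOf_le_of_normal _ a1 a2))
  have a5 : X ⊓ W ⊔ ⁅X, Q⁆ ≤ W ⊔ ⁅H, Q⁆ := sup_le_sup inf_le_right
    (commutator_mono ((piCoreOf_le _ _).trans inf_le_left) le_rfl)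
  exact le_inf (le_inf (sup_le inf_le_left (H16.comm_le_left (le_norm_piCoreOf _ (norm_inf (nn _ _)
    (norm_cent1 (le_cent1.2 hzP)))))) (a5.trans le_sup_right)) a5

end Cfsg.Agent.S3819
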