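import Cfsg.Statements.S3821
import Cfsg.Agent.H7.Basic

set_option autoImplicit false
open Cfsg

namespace Cfsg.Agent.S3821



/-- Let A be a normal subgroup of the finite group G and H a subgroup of A. Then H is pronormal in G (H and gHg⁻¹ conjugate inside ⟨H, gHg⁻¹⟩ for every g ∈ G) if and only if H is pronormal in A and G = A · N_G(H). -/
theorem result {G : Type*} [Group G] [Finite G] (A H : Subgroup G) [A.Normal] (hHA : H ≤ A) :
    Cfsg.IsPronormal H ↔ (Cfsg.IsPronormal (H.subgroupOf A) ∧ A ⊔ Subgroup.normalizer (H : Set G) = ⊤) := by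
  have hcj : ∀ g : G, H.map (MulAut.conj g).toMonoidHom ≤ A := fun g =>
    H7.cj_le_of_mem_normalizer (by simp [Subgroup.normalizer_eq_top]) hHA
  have hsub : ∀ a : A, ((H.subgroupOf A).map (MulAut.conj a).toMonoidHom).map A.subtype =
      H.map (MulAut.conj (a : G)).toMonoidHom := by
    intro a
    ext x
    constructor
    · rintro ⟨y, hy, rfl⟩
      rw [SetLike.mem_coe, H7.mem_cj] at hy
      rw [H7.mem_cj]
      exact hy
    · intro hx
      refine ⟨⟨x, hcj _ hx⟩, ?_, rfl⟩
      rw [SetLike.mem_coe, H7.mem_cj]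
      rw [H7.mem_cj] at hx
      exact hx
  constructor
  · intro h
    constructor
    · intro a
      obtain ⟨x, hx, e⟩ := h a
      have hxA : x ∈ A := sup_le hHA (hcj _) hx
      refine ⟨⟨x, hxA⟩, ?_, ?_⟩
      · rw [← Subgroup.mem_map_iff_mem A.subtype_injective, Subgroup.map_sup, hsub,
          Subgroup.map_subgroupOf_eq_of_le hHA]
        exact hx
      · apply Subgroup.map_injective A.subtype_injective
        rw [hsub, hsub]; exact e
    · rw [eq_top_iff]
      intro g _
      obtain ⟨x, hx, e⟩ := h g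
      have hxA : x ∈ A := sup_le hHA (hcj _) hx
      have := H7.cj_eq_cj_iff.1 e
      have h2 := mul_mem (Subgroup.mem_sup_left hxA : x ∈ A ⊔ Subgroup.normalizer (H : Set G))
        (Subgroup.mem_sup_right this)
      simpa using h2
  · rintro ⟨h, htop⟩ g
    have hg : g ∈ A ⊔ Subgroup.normalizer (H : Set G) := htop ▸ Subgroup.mem_top g
    obtain ⟨a, ha, n, hn, rfl⟩ := Subgroup.mem_sup_of_normal_left.1 hg
    have e0 : H.map (MulAut.conj (a * n)).toMonoidHom = H.map (MulAut.conj a).toMonoidHom := by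
      rw [← H7.cj_cj, H7.cj_eq_self_iff.2 hn]
    rw [e0]
    obtain ⟨x, hx, e⟩ := h ⟨a, ha⟩
    refine ⟨x, ?_, ?_⟩
    · rw [← Subgroup.mem_map_iff_mem A.subtype_injective, Subgroup.map_sup, hsub,
          Subgroup.map_subgroupOf_eq_of_le hHA] at hx
      exact hx
    · have := congrArg (Subgroup.map A.subtype) e
      rwa [hsub, hsub] at this

end Cfsg.Agent.S3821
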