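import Cfsg.Statements.S3825
import Cfsg.Agent.H7.Maschke
import Cfsg.Agent.H7.PGrp2
import Cfsg.Agent.H9.Rank

set_option autoImplicit false
open Cfsg

namespace Cfsg.Agent.S3825

open Subgroup
open scoped IsMulCommutative commutatorElement

/-- Let U be a subgroup of a finite group H and w an involution of H normalizing U and commuting with exactly two elements of U, the identity and y. If V is a non-cyclic elementary abelian 2-subgroup of U containing y which is normal in U and invariant under w, then V is a Sylow 2-subgroup of U, V has order 4, and U/V is abelian. -/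
theorem result {H : Type*} [Group H] [Finite H] (U : Subgroup H) (w : H) (hw : orderOf w = 2)
    (hwU : w ∈ Subgroup.normalizer (U : Set H)) (y : H) (hy : y ≠ 1) (hyU : y ∈ U)
    (hfix : ∀ u ∈ U, w * u * w⁻¹ = u ↔ (u = 1 ∨ u = y))
    (V : Subgroup H) (hVU : V ≤ U) (hVn : (V.subgroupOf U).Normal) (hVw : ∀ v ∈ V, w * v * w⁻¹ ∈ V)
    (hVe : Cfsg.IsElementaryAbelian 2 V) (hVc : ¬ IsCyclic ↥V) (hyV : y ∈ V) :
    ¬ 2 ∣ V.relIndex U ∧ Nat.card ↥V = 4 ∧ ⁅U, U⁆ ≤ V := by
  haveI := hVe.1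
  have hw2 : w * w = 1 := by rw [← sq, ← hw, pow_orderOf_eq_one]
  have hc : ∀ a ∈ V, ∀ b ∈ V, a * b = b * a := fun a ha b hb =>
    congrArg Subtype.val (mul_comm (⟨a, ha⟩ : V) ⟨b, hb⟩)
  have hww : ∀ u : H, w * (w * u * w⁻¹) * w⁻¹ = u := fun u => by
    rw [show w * (w * u * w⁻¹) * w⁻¹ = (w * w) * u * (w * w)⁻¹ by group, hw2]; simp
  have hsq : ∀ v ∈ V, v * v = 1 := fun v hv => by rw [← sq, hVe.2 v hv]
  let f : V →* H :=
    { toFun := fun v => v * (w * v * w⁻¹)
      map_one' := by simp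
      map_mul' := fun a b => by
        have := hc b b.2 _ (hVw a a.2)
        calc (a : H) * b * (w * (a * b) * w⁻¹) = a * (b * (w * a * w⁻¹)) * (w * b * w⁻¹) := by group
          _ = _ := by rw [this]; group }
  have hz : Nat.card (zpowers y) = 2 := by
    rw [Nat.card_zpowers, orderOf_eq_prime (hVe.2 y hyV) hy]
  have hY : ∀ u ∈ U, w * u * w⁻¹ = u → u ∈ zpowers y := fun u hu h => by
    rcases (hfix u hu).1 h with rfl | rfl
    exacts [one_mem _, mem_zpowers _]
  have h1 : f.range ≤ zpowers y := by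
    rintro _ ⟨v, rfl⟩
    refine hY _ (hVU (mul_mem v.2 (hVw v v.2))) ?_
    show w * (v * (w * v * w⁻¹)) * w⁻¹ = v * (w * v * w⁻¹)
    rw [← conj_mul, hww, hc _ v.2 _ (hVw v v.2)]
  have h2 : ∀ v ∈ V, v * (w * v * w⁻¹) = 1 → v ∈ zpowers y := fun v hv h =>
    hY v (hVU hv) (mul_left_cancel (h.trans (hsq v hv).symm))
  have h3 : Nat.card f.ker ≤ 2 := by
    rw [← hz, ← card_map_of_injective V.subtype_injective]
    refine card_le_of_le ?_
    rintro _ ⟨v, hv, rfl⟩
    exact h2 v v.2 hv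
  have h4 := H7.sq_le_card_of_not_isCyclic (H9.isPGroup_of_elementary hVe) hVc
  have h5 := f.ker.card_mul_index
  rw [index_ker] at h5
  have h6 := card_le_of_le h1
  have h7 : Nat.card f.range = 2 := by
    rw [hz] at h6
    nlinarith
  have h8 : f.range = zpowers y := eq_of_le_of_card_ge h1 (by omega)
  let φ : U →* U := (U.normalizerMonoidHom ⟨w, hwU⟩).toMonoidHom
  have hφ : ∀ u : U, (φ u : H) = w * u * w⁻¹ := fun u => rfl
  let ψ := QuotientGroup.map (V.subgroupOf U) (V.subgroupOf U) φ fun v hv => hVw _ hv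
  have hinv : Function.Involutive ψ := fun u => QuotientGroup.induction_on u fun u =>
    congrArg QuotientGroup.mk (Subtype.ext (hww u))
  have hfpf : MonoidHom.FixedPointFree ψ := fun u => QuotientGroup.induction_on u fun u h => by
    have e1 : (u : H)⁻¹ * (w * u * w⁻¹) ∈ V := (QuotientGroup.eq (s := V.subgroupOf U) (b := φ u)).1 h.symm
    have e2 := h2 _ e1 (by
      rw [← conj_mul, hww, ← conj_inv]; group)
    obtain ⟨v, hv⟩ := h8.ge e2
    have e3 : (v : H) * (w * v * w⁻¹) = (u : H)⁻¹ * (w * u * w⁻¹) := hv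
    have e4 := hY (u * v) (mul_mem u.2 (hVU v.2)) (by
      rw [← conj_mul, ← mul_inv_cancel_left (u : H) (w * u * w⁻¹), ← e3, mul_assoc, mul_assoc (v : H),
        hsq _ (hVw v v.2), mul_one])
    exact (QuotientGroup.eq_one_iff u).2
      ((mul_mem_cancel_right v.2).1 (zpowers_le.2 hyV e4))
  refine ⟨(hfpf.odd_card_of_involutive hinv).not_two_dvd_nat, by nlinarith,
    commutator_le.2 fun a ha b hb => ?_⟩
  exact (QuotientGroup.eq_one_iff (N := V.subgroupOf U) ⁅(⟨a, ha⟩ : U), ⟨b, hb⟩⁆).1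
    ((map_commutatorElement (QuotientGroup.mk' (V.subgroupOf U)) _ _).trans
      (hfpf.commute_all_of_involutive hinv _ _).commutator_eq)

end Cfsg.Agent.S3825
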