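import Cfsg.Statements.S3835
import Cfsg.Agent.H12.QdX

set_option autoImplicit false
open Cfsg

namespace Cfsg.Agent.S3835

open H12 H4 Subgroup Equiv
open scoped MatrixGroups commutatorElement

theorem comm_of_lt {α : Type*} [Finite α] {p : ℕ} [hp : Fact p.Prime] {P : Type*} [Group P]
    [Finite P] [MulAction P α] [FaithfulSMul P α] (hP : IsPGroup p P) (h : Nat.card α < p ^ 2) :
    IsMulCommutative P := by
  refine ⟨⟨fun a b => ?_⟩⟩
  rw [← commutatorElement_eq_one_iff_mul_comm]
  refine eq_of_smul_eq_smul (α := α) fun x => ?_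
  rw [one_smul, ← MulAction.mem_stabilizer_iff]
  obtain ⟨k, hk⟩ := hP.index (MulAction.stabilizer P x)
  have h1 : p ^ k < p ^ 2 := by
    rw [← hk, MulAction.index_stabilizer]
    exact (Set.ncard_le_card _).trans_lt h
  have h2 := (Nat.pow_lt_pow_iff_right hp.out.one_lt).1 h1
  interval_cases k
  · rw [pow_zero, index_eq_one] at hk
    rw [hk]; trivial
  · rw [pow_one] at hk
    obtain ⟨m, hm⟩ := hP.exists_card_eq
    have hm0 : m ≠ 0 := by
      rintro rfl
      have := index_dvd_card (MulAction.stabilizer P x)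
      rw [hk, hm, pow_zero] at this
      exact hp.out.one_lt.ne' (Nat.dvd_one.1 this)
    haveI := normal_of_index_eq_minFac_card (H := MulAction.stabilizer P x)
      (by rw [hk, hm, hp.out.pow_minFac hm0])
    haveI := isCyclic_of_prime_card (α := P ⧸ MulAction.stabilizer P x) hk
    rw [← QuotientGroup.eq_one_iff, ← QuotientGroup.mk'_apply, map_commutatorElement,
      commutatorElement_eq_one_iff_mul_comm]
    exact IsCyclic.isMulCommutative.is_comm.comm _ _

theorem sign_triv {p : ℕ} [Fact p.Prime] (hp : p ≠ 2) (s : qdOver (ZMod p) →* ℤˣ)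
    (X : qdOver (ZMod p)) : s X = 1 := by
  have h1 : ∀ X, X ^ p = 1 → s X = 1 := fun X h => by
    have := congrArg s h
    rw [map_pow, map_one] at this
    rcases Int.units_eq_one_or (s X) with e | e
    · exact e
    · rw [e, ((Fact.out : p.Prime).odd_of_ne_two hp).neg_one_pow] at this
      exact absurd this (by decide)
  let ι : SL(2, ZMod p) →* qdOver (ZMod p) :=
    { toFun := fun M => af M 0
      map_one' := af_one
      map_mul' := fun M N => by rw [af_mul]; simp }
  have h2 : (s.comp ι).ker = ⊤ := by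
    refine sl2_eq_top_of_upT_loT (fun t => h1 _ ?_) fun t => h1 _ ?_
    · rw [← map_pow, upT_pow]; simp [upT_zero]
    · rw [← map_pow, loT_pow]; simp [loT_zero]
  obtain ⟨M, v, rfl⟩ := af_surj X
  have : af M v = af 1 v * af M 0 := by rw [af_mul]; simp
  rw [this, map_mul, h1 _ (by rw [af_one_pow]; simp [af_one]), one_mul]
  exact (h2.ge (mem_top M) : M ∈ (s.comp ι).ker)

/-- Let p be an odd prime and n a natural number. The alternating group of degree n has a subgroup isomorphic to Qd(p) (the natural semidirect product of an elementary abelian group of order p² by SL₂(p)) if and only if n ≥ p²; and if n < p² then Qd(p) is not even involved in it. -/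
theorem result {p : ℕ} [Fact p.Prime] (hp : p ≠ 2) (n : ℕ) : ((∃ H : Subgroup (alternatingGroup (Fin n)), Nonempty (↥H ≃* ↥(Cfsg.qd p))) ↔ p ^ 2 ≤ n) ∧ (n < p ^ 2 → ¬ Cfsg.Involves ↥(Cfsg.qd p) ↥(alternatingGroup (Fin n))) := by
  have key : n < p ^ 2 → ¬ Cfsg.Involves ↥(Cfsg.qd p) ↥(alternatingGroup (Fin n)) := fun hn => by
    rw [involves_iff]
    intro h
    obtain ⟨T⟩ := (inferInstance : Nonempty (Sylow p (alternatingGroup (Fin n))))
    obtain ⟨S, hS⟩ := (sylIn_qS (p := p) (F := ZMod p)).exists_sylow
    have h1 := h.sylow_comm T (comm_of_lt (α := Fin n) T.2 (by simpa using hn)) S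
    rw [hS] at h1
    have : heis (1 : ZMod p) 0 0 * heis 0 0 1 = heis 0 0 1 * heis 1 0 0 := h1.is_comm.comm _ _
    rw [heis_mul, heis_mul, heis_inj] at this
    simp at this
  refine ⟨⟨?_, fun hn => ?_⟩, key⟩
  · rintro ⟨H, ⟨e⟩⟩
    by_contra hn
    refine key (by omega) (involves_iff.2 ?_)
    exact ⟨H, e.toMonoidHom, le_top, e.surjective⟩
  · letI : MulAction (qdOver (ZMod p)) (Fin 2 → ZMod p) :=
      { smul := fun X w => (afEquiv.symm X).2 + (afEquiv.symm X).1 • w
        one_smul := fun w => by
          change (afEquiv.symm 1).2 + (afEquiv.symm 1).1 • w = w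
          rw [← af_one, afEquiv_symm]; simp
        mul_smul := fun X Y w => by
          obtain ⟨M, v, rfl⟩ := af_surj X
          obtain ⟨N, u, rfl⟩ := af_surj Y
          change (afEquiv.symm _).2 + (afEquiv.symm _).1 • w = (afEquiv.symm _).2 +
            (afEquiv.symm _).1 • ((afEquiv.symm _).2 + (afEquiv.symm _).1 • w)
          rw [af_mul]
          simp only [afEquiv_symm, smul_add, mul_smul, add_assoc] }
    have hf : Function.Injective (MulAction.toPermHom (qdOver (ZMod p)) (Fin 2 → ZMod p)) := by
      rw [injective_iff_map_eq_one]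
      intro X hX
      obtain ⟨M, v, rfl⟩ := af_surj X
      have h1 : ∀ w, v + M • w = w := fun w => by
        have : (afEquiv.symm (af M v)).2 + (afEquiv.symm (af M v)).1 • w = w :=
          congrArg (fun c : Perm (Fin 2 → ZMod p) => c w) hX
        rwa [afEquiv_symm] at this
      have h2 : v = 0 := by simpa using h1 0
      subst h2
      rw [sl2_eq_one_of_smul (M := M) (by simpa using h1), af_one]
    obtain ⟨ι⟩ : Nonempty ((Fin 2 → ZMod p) ↪ Fin n) :=
      Function.Embedding.nonempty_of_card_le (by simpa using hn)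
    let φ := (Perm.viaEmbeddingHom ι).comp (MulAction.toPermHom (qdOver (ZMod p)) (Fin 2 → ZMod p))
    have hφ : Function.Injective φ := (Perm.viaEmbeddingHom_injective ι).comp hf
    let ψ := φ.codRestrict (alternatingGroup (Fin n)) fun X =>
      Perm.mem_alternatingGroup.2 (sign_triv hp (Perm.sign.comp φ) X)
    exact ⟨ψ.range, ⟨(MonoidHom.ofInjective (f := ψ) fun a b h =>
      hφ (congrArg Subtype.val h)).symm⟩⟩

end Cfsg.Agent.S3835
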