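import Cfsg.Statements.S3836
import Cfsg.Agent.H7.Extra2

set_option autoImplicit false
open Cfsg

namespace Cfsg.Agent.S3836



/-- Let G be a finite group that is p-stable in the normalizer form: for every p-subgroup Q and every x ∈ N_G(Q) with [Q, x, x] = 1, the image of x in N_G(Q)/C_G(Q) lies in O_p(N_G(Q)/C_G(Q)). Then every subgroup of G is p-stable in the same sense. -/
theorem result {G : Type*} [Group G] [Finite G] {p : ℕ} [Fact p.Prime] (hst : Cfsg.IsNormalizerPStable p G) (H : Subgroup G) : Cfsg.IsNormalizerPStable p ↥H := by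
  intro P hP g hg hq
  have hmem : ∀ x : H, x ∈ Subgroup.normalizer (P : Set H) →
      (x : G) ∈ Subgroup.normalizer ((P.map H.subtype : Subgroup G) : Set G) := fun x hx =>
    Subgroup.le_normalizer_map H.subtype ⟨x, hx, rfl⟩
  have h1 := hst (P.map H.subtype) (hP.map _) g (hmem g hg) (by
    have := congrArg (Subgroup.map H.subtype) hq
    simpa [Subgroup.map_commutator] using this)
  let f : Subgroup.normalizer (P : Set H) →*
      Subgroup.normalizer ((P.map H.subtype : Subgroup G) : Set G) :=
    (H.subtype.comp (Subgroup.subtype _)).codRestrict _ (fun x => hmem x x.2)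
  let φ := QuotientGroup.map
    ((Subgroup.centralizer (P : Set H)).subgroupOf (Subgroup.normalizer (P : Set H)))
    ((Subgroup.centralizer ((P.map H.subtype : Subgroup G) : Set G)).subgroupOf
      (Subgroup.normalizer ((P.map H.subtype : Subgroup G) : Set G))) f
    (fun x hx => H5.map_centralizer_le H.subtype P ⟨x, hx, rfl⟩)
  have hφ : Function.Injective φ := by
    rw [injective_iff_map_eq_one]
    intro x hx
    obtain ⟨x, rfl⟩ := QuotientGroup.mk_surjective x
    replace hx := (QuotientGroup.eq_one_iff (f x)).1 hx
    rw [QuotientGroup.eq_one_iff]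
    intro y hy
    exact Subtype.ext (hx y ⟨y, hy, rfl⟩)
  exact H1.comap_pCore_le p (f := φ) (IsPGroup.ker_isPGroup_of_injective hφ) h1

end Cfsg.Agent.S3836
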