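import Cfsg.Statements.S3838
import Cfsg.Agent.H3.Tate
import Cfsg.Agent.H3.Critical
import Cfsg.Agent.H1.Frattini

set_option autoImplicit false
open Cfsg
open scoped commutatorElement

namespace Cfsg.Agent.S3838

/-- Let G be a finite group with Sylow p-subgroup P such that N_G(P) has a normal p-complement. Then N_G(Q) has a normal p-complement for every subgroup Q with [P, P] ≤ Q ≤ Φ(P). -/
theorem result {G : Type*} [Group G] [Finite G] {p : ℕ} [Fact p.Prime] (P : Sylow p G) (hN : Cfsg.HasNormalPComplement p ↥(Subgroup.normalizer ((P : Subgroup G) : Set G))) (Q : Subgroup G) (h1 : (commutator ↥(P : Subgroup G)).map (P : Subgroup G).subtype ≤ Q) (h2 : Q ≤ (frattini ↥(P : Subgroup G)).map (P : Subgroup G).subtype) : Cfsg.HasNormalPComplement p ↥(Subgroup.normalizer (Q : Set G)) := by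
  have hQP : Q ≤ P := h2.trans (Subgroup.map_subtype_le _)
  have h1' : ⁅(P : Subgroup G), (P : Subgroup G)⁆ ≤ Q := by
    refine le_trans (le_of_eq ?_) h1
    rw [commutator_def, Subgroup.map_commutator, ← MonoidHom.range_eq_map, Subgroup.range_subtype]
  set H := Subgroup.normalizer (Q : Set G) with hH
  have hPH : (P : Subgroup G) ≤ H := fun g hg => H3.mem_normalizer_of_conj_mem fun x hx => by
    have := Q.mul_mem (h1' (Subgroup.commutator_mem_commutator hg (hQP hx))) hx
    simpa [commutatorElement_def] using this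
  set P' := P.subtype hPH with hP'
  set f := QuotientGroup.mk' (Q.subgroupOf H) with hf
  have hfs : Function.Surjective f := QuotientGroup.mk'_surjective _
  have hk : f.ker ≤ P' := by
    rw [hf, QuotientGroup.ker_mk']; exact fun x hx => hQP hx
  set P'' := P'.mapSurjective hfs with hP''
  have hab : IsMulCommutative (P'' : Subgroup (H ⧸ Q.subgroupOf H)) := H1.isMulCommutative_iff'.mpr (by
    rintro _ ⟨a, ha, rfl⟩ _ ⟨b, hb, rfl⟩
    rw [← commutatorElement_eq_one_iff_mul_comm, ← map_commutatorElement, ← MonoidHom.mem_ker, hf,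
      QuotientGroup.ker_mk']
    exact h1' (Subgroup.commutator_mem_commutator ha hb))
  have h3 : Cfsg.HasNormalPComplement p (Subgroup.normalizer ((P' : Subgroup H) : Set H)) := by
    refine (H3.hasNormalPComplement_congr (Subgroup.equivMapOfInjective _ H.subtype
      H.subtype_injective)).mpr (H3.hasNormalPComplement_of_le ?_ hN)
    refine (Subgroup.le_normalizer_map _).trans (le_of_eq ?_)
    rw [hP', Sylow.coe_subtype, Subgroup.map_subgroupOf_eq_of_le hPH]
  have h4 : Cfsg.HasNormalPComplement p (H ⧸ Q.subgroupOf H) := by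
    refine H3.hasNormalPComplement_of_fusion_subgroup P'' Subgroup.le_normalizer
      (H3.fusion_of_abelian P'') (H3.hasNormalPComplement_of_le (fun y hy => ?_)
        (H3.hasNormalPComplement_map f h3))
    obtain ⟨y, rfl⟩ := hfs y
    refine ⟨y, H3.mem_normalizer_of_conj_mem fun x hx => ?_, rfl⟩
    have := H3.conj_mem_of_mem_normalizer hy (x := f x) ⟨x, hx, rfl⟩
    rw [← map_inv, ← map_mul, ← map_mul] at this
    exact (Subgroup.comap_map_eq_self hk).le this
  refine H3.hasNormalPComplement_of_le_frattini P' fun x hx => ?_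
  have h5 : f x = 1 := Subgroup.disjoint_def.mp ((H3.hasNormalPComplement_iff_disjoint P'').mp h4)
    (H3.map_pResidual_le f ⟨x, hx.2, rfl⟩) ⟨x, hx.1, rfl⟩
  have h6 : x ∈ Q.subgroupOf H := (QuotientGroup.eq_one_iff x).mp h5
  obtain ⟨y, hy, e⟩ := h2 h6
  let e' := (Subgroup.subgroupOfEquivOfLe hPH).symm
  exact ⟨e' y, (H1.map_frattini_equiv e').le ⟨y, hy, rfl⟩, Subtype.ext e⟩

end Cfsg.Agent.S3838
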