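import Cfsg.Statements.S3839
import Cfsg.Agent.H3.Misc
import Cfsg.Agent.H10.Conj
import Cfsg.Agent.H1.Coprime

set_option autoImplicit false
open Cfsg
open scoped commutatorElement

namespace Cfsg.Agent.S3839

/-- A Frobenius normal p-complement criterion relative to a strongly closed subgroup. Let G be a finite group, S a Sylow p-subgroup and D a subgroup of S strongly closed in S with respect to G. Then G has a normal p-complement if and only if N_G(U) has a normal p-complement for every subgroup U of D with C_D(U) ≤ U. -/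
theorem result {G : Type*} [Group G] [Finite G] {p : ℕ} [Fact p.Prime] (S : Sylow p G) (D : Subgroup G) (hD : Cfsg.IsStronglyClosed D (S : Subgroup G)) : Cfsg.HasNormalPComplement p G ↔ ∀ U : Subgroup G, U ≤ D → D ⊓ Subgroup.centralizer (U : Set G) ≤ U → Cfsg.HasNormalPComplement p ↥(Subgroup.normalizer (U : Set G)) := by
  refine ⟨fun h U _ _ => H3.hasNormalPComplement_subgroup _ h, fun h => ?_⟩
  have hG := H12.fusPredC_subgroup (S : Subgroup G) (S : Subgroup G)
  have key := H12.alperin_ind_extremal (H12.sylIn_top S) hG.toFusPred fun U hU hext IH g _ hg => by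
    rw [top_inf_eq] at hext
    have hUp : IsPGroup p U := S.isPGroup'.to_le hU
    have hN : Subgroup.normalizer (U : Set G) ≤ Subgroup.normalizer ((U ⊓ D : Subgroup G) : Set G) :=
      fun n hn => H3.mem_normalizer_of_conj_mem fun x hx => by
        have := H3.conj_mem_of_mem_normalizer hn hx.1
        exact ⟨this, hD.2 x hx.2 n (hU this)⟩
    have hSD : (S : Subgroup G) ≤ Subgroup.normalizer (D : Set G) := fun s hs =>
      H3.mem_normalizer_of_conj_mem fun x hx => hD.2 x hx s
        (Subgroup.mul_mem _ (Subgroup.mul_mem _ hs (hD.1 hx)) (Subgroup.inv_mem _ hs))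
    by_cases hc : D ⊓ Subgroup.centralizer ((U ⊓ D : Subgroup G) : Set G) ≤ U ⊓ D
    · have h1 := H3.hasNormalPComplement_of_le hN (h _ inf_le_right hc)
      obtain ⟨c, hc, s, hs, -, -, rfl⟩ := H3.exists_mul_of_pPrime_le (p := p) hext.not_dvd
        (C := Subgroup.centralizer (U : Set G)) (fun x hx hco => by
          have := H3.mem_centralizer_of_hasNormalPComplement h1
            (Q := U.subgroupOf _) hUp.comap_subtype (g := ⟨x, hx⟩)
            (Subgroup.le_normalizer_of_normal (Subgroup.mem_top _)) (by rwa [Subgroup.orderOf_mk])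
          rwa [H10.CC_subgroupOf Subgroup.le_normalizer] at this) hg
      refine ⟨s, hs.1, fun a ha => ?_⟩
      have := Subgroup.mem_centralizer_iff.mp hc _ (H3.conj_mem_of_mem_normalizer hs.2 ha)
      calc s * a * s⁻¹ = (s * a * s⁻¹ * c) * c⁻¹ := by group
        _ = c * s * a * (c * s)⁻¹ := by rw [this]; group
    refine H3.alperin_step_of_subgroup hG hU hext (fun B h1 h2 g h3 => IH B h1 h2 g trivial h3)
      (L := Subgroup.normalizer (U : Set G) ⊓ (Subgroup.centralizer ((U ⊓ D : Subgroup G) : Set G)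
        ⊓ H10.stabMod U (U ⊓ D))) inf_le_left
      (H10.le_NN_inf Subgroup.le_normalizer (H10.le_NN_inf (H10.le_NN_CC hN) fun n hn =>
        H3.mem_normalizer_of_conj_mem fun x hx => ⟨?_, fun v hv => ?_⟩)) (fun x hx hco => ?_)
      (fun c => hc ?_) g hg
    · exact Subgroup.mul_mem _ (Subgroup.mul_mem _ (hN hn) hx.1) (Subgroup.inv_mem _ (hN hn))
    · have := H3.conj_mem_of_mem_normalizer (hN hn)
        (hx.2 _ (H3.conj_mem_of_mem_normalizer' hn hv))
      rwa [show n * ⁅x, n⁻¹ * v * n⁆ * n⁻¹ = ⁅n * x * n⁻¹, v⁆ by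
        simp only [commutatorElement_def]; group] at this
    · refine H1.le_centralizer_of_commutator_le (A := Subgroup.zpowers x) (N := U ⊓ D) ?_ ?_ ?_
        (Subgroup.mem_zpowers x)
      · rw [Subgroup.commutator_comm]
        exact (H10.le_stabMod.mp (Subgroup.zpowers_le.mpr hx.2.2)).2
      · exact H10.le_CC_symm (Subgroup.zpowers_le.mpr hx.2.1)
      · rw [Nat.card_zpowers]
        exact (H1.IsPGroup.coprime_card hUp.to_inf_left hco).symm
    · set C := D ⊓ Subgroup.centralizer ((U ⊓ D : Subgroup G) : Set G) with hC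
      have hUC : U ≤ Subgroup.normalizer (C : Set G) :=
        H10.le_NN_inf (hU.trans hSD) (H10.le_NN_CC (Subgroup.le_normalizer.trans hN))
      have hCS : C ≤ S := inf_le_left.trans hD.1
      refine le_inf ?_ inf_le_left
      by_contra hCU
      have h1 := H3.lt_inf_normalizer_of_isPGroup (S.isPGroup'.to_le (sup_le hU hCS))
        (left_lt_sup.mpr hCU)
      obtain ⟨x, hx, hxU⟩ := SetLike.exists_of_lt h1
      obtain ⟨u, hu, y, hy, rfl⟩ := (H10.mem_sup_of_NN hUC).mp hx.1
      have hyN : y ∈ Subgroup.normalizer (U : Set G) :=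
        (Subgroup.mul_mem_cancel_left _ (Subgroup.le_normalizer hu)).mp hx.2
      refine hxU (U.mul_mem hu (c ⟨hCS hy, hyN, hy.2, hN hyN, fun v hv => ⟨?_, ?_⟩⟩))
      · exact H10.comm_le_right (Subgroup.zpowers_le.mpr hyN)
          (Subgroup.commutator_mem_commutator (Subgroup.mem_zpowers y) hv)
      · exact H10.comm_le_left (hU.trans hSD) (Subgroup.commutator_mem_commutator hy.1 hv)
  refine H3.hasNormalPComplement_of_fusion S fun x hx g hg => ?_
  obtain ⟨u, hu, e⟩ := key (Subgroup.zpowers x) (Subgroup.zpowers_le.mpr hx) g trivial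
    (by rw [MonoidHom.map_zpowers]; exact Subgroup.zpowers_le.mpr hg)
  exact ⟨u, hu, (e x (Subgroup.mem_zpowers x)).symm⟩

end Cfsg.Agent.S3839
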