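import Cfsg.Statements.S3841
import Cfsg.Agent.H17.Be3

set_option autoImplicit false
open Cfsg

namespace Cfsg.Agent.S3841

open H17 Cfsg


/-- Let G be a finite group with a strongly embedded subgroup (a proper subgroup of even order meeting each of its conjugates by outside elements in a group of odd order), S a Sylow 2-subgroup of G, and V a finite-dimensional vector space over the field with two elements on which G acts linearly and faithfully through ρ. If S has order 2ᵏ then dim V ≥ 2k; and if Z(S) is elementary abelian of order 2ⁿ then for every nonidentity s ∈ S the image of ρ(s) − 1 has dimension at least n. -/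
theorem result {G : Type*} [Group G] [Finite G] (H : Subgroup G) (hH : Cfsg.IsStronglyEmbedded H) (S : Sylow 2 G) {V : Type*} [AddCommGroup V] [Module (ZMod 2) V] [Module.Finite (ZMod 2) V] (ρ : Representation (ZMod 2) G V) (hρ : Function.Injective ρ) : (∀ k : ℕ, Nat.card ↥(S : Subgroup G) = 2 ^ k → 2 * k ≤ Module.finrank (ZMod 2) V) ∧ ∀ n : ℕ, (∀ z ∈ (S : Subgroup G) ⊓ Subgroup.centralizer ((S : Subgroup G) : Set G), z ^ 2 = 1) → Nat.card ↥((S : Subgroup G) ⊓ Subgroup.centralizer ((S : Subgroup G) : Set G)) = 2 ^ n → ∀ s ∈ (S : Subgroup G), s ≠ 1 → n ≤ Module.finrank (ZMod 2) ↥(LinearMap.range (ρ s - 1)) := by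
  by_cases h4 : H15.Bd.Four (⊤ : Subgroup G)
  · refine ⟨(H17.Be.bound_four hH h4 hρ S.2).1, fun n h1 h2 s hs h3 => ?_⟩
    obtain ⟨k, hk⟩ := S.2 ⟨s, hs⟩
    obtain ⟨z, h5, h6⟩ := H17.Be.exists_cm_le (ρ := ρ) h3 (k := k) (congrArg Subtype.val hk)
    exact ((H17.Be.bound_four hH h4 hρ (S.2.to_le inf_le_left)).2 n h1 h2 z h5).trans h6
  · refine ⟨fun k => H17.Be.bound_one hH h4 hρ S.2, fun n h1 h2 s _ h3 => le_trans ?_ (H17.Be.cm_pos hρ h3)⟩
    by_contra! h5
    exact h4 (H17.Be.four_of_rank ⟨_, H15.comm_inf_cent _, h1, h2 ▸ Nat.pow_le_pow_right two_pos h5⟩)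

end Cfsg.Agent.S3841
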