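import Cfsg.Statements.S3857
import Cfsg.Agent.H12.TwoFrob

set_option autoImplicit false
open Cfsg

namespace Cfsg.Agent.S3857

open Subgroup H10 H12 H1

def NE (π : Set ℕ) (X : Type*) [Group X] : Prop :=
  ∀ a ∈ π, ∀ b ∉ π, a.Prime → b.Prime → ∀ g : X, orderOf g ≠ a * b

variable {X : Type*} [Group X] [Finite X] {π : Set ℕ}

omit [Finite X] in
theorem NE.compl (h : NE π X) : NE πᶜ X := fun a ha b hb pa pb g hg =>
  h b (not_not.1 hb) a ha pb pa g (hg.trans (mul_comm _ _))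

theorem NE.quot (h : NE π X) (N : Subgroup X) [N.Normal] : NE π (X ⧸ N) := by
  intro a ha b hb pa pb g hg
  obtain ⟨g, rfl⟩ := QuotientGroup.mk'_surjective N g
  obtain ⟨k, e⟩ := exists_orderOf_of_dvd (g := g) (n := a * b) (orderOf_pos _).ne'
    (hg ▸ orderOf_map_dvd _ g)
  exact h a ha b hb pa pb _ e

theorem NE.eq_one (h : NE π X) {x y : X} (hx : IsPiNat π (orderOf x)) (hy : IsPiNat πᶜ (orderOf y))
    (x1 : x ≠ 1) (hc : Commute x y) : y = 1 := by
  by_contra y1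
  obtain ⟨a, pa, ha⟩ := Nat.exists_prime_and_dvd (mt orderOf_eq_one_iff.1 x1)
  obtain ⟨b, pb, hb⟩ := Nat.exists_prime_and_dvd (mt orderOf_eq_one_iff.1 y1)
  obtain ⟨k, e1⟩ := exists_orderOf_of_dvd (orderOf_pos x).ne' ha
  obtain ⟨l, e2⟩ := exists_orderOf_of_dvd (orderOf_pos y).ne' hb
  refine h a (hx a pa ha) b (hy b pb hb) pa pb (x ^ k * y ^ l) ?_
  rw [(hc.pow_pow k l).orderOf_mul_eq_mul_orderOf_of_coprime, e1, e2]
  rw [e1, e2]
  exact (Nat.coprime_primes pa pb).2 fun e => hy b pb hb (e ▸ hx a pa ha)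

theorem cop {m n : ℕ} (hm : IsPiNat π m) (hn : IsPiNat πᶜ n) : m.Coprime n :=
  Nat.coprime_of_dvd fun p hp h1 h2 => hn p hp h2 (hm p hp h1)

theorem NE.fk (h : NE π X) {N M : Subgroup X} [N.Normal] (hN : IsPiNat π (Nat.card N))
    (hM : IsPiNat πᶜ (N.relIndex M)) : FK N M := by
  intro x hx x1 y hy hc
  have a1 : y ^ N.relIndex M ∈ N := pow_relIndex_mem N hy
  have a2 : y ^ Nat.card N = 1 := by
    refine h.eq_one (fun p hp hd => hN p hp (hd.trans (N.orderOf_dvd_natCard hx)))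
      (fun p hp hd => hM p hp (hd.trans ?_)) x1 (hc.pow_right _)
    rw [orderOf_dvd_iff_pow_eq_one, ← pow_mul, mul_comm, pow_mul, ← orderOf_dvd_iff_pow_eq_one]
    exact N.orderOf_dvd_natCard a1
  refine zpowers_le.2 a1 (mem_zpowers_pow_iff.2 ?_)
  exact ((cop hN hM).coprime_dvd_left (orderOf_dvd_of_pow_eq_one a2)).symm

theorem core {G : Type*} [Group G] [Finite G] (hsol : Group.IsSolvable G) (h : NE π G)
    (hb : ∃ b ∉ π, b.Prime ∧ b ∣ Nat.card G) (h1 : piCore π G ≠ ⊥) :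
    (∃ C : Subgroup G, Cfsg.IsFrobeniusComplement C) ∨
    (∃ (H K : Subgroup G) (_ : H.Normal), K.Normal ∧ H < K ∧
      (∃ C : Subgroup ↥K, Cfsg.IsFrobeniusComplement C ∧
        Cfsg.frobeniusKernel C = (H.subgroupOf K : Set ↥K)) ∧
      (∃ C : Subgroup (G ⧸ H), Cfsg.IsFrobeniusComplement C ∧
        Cfsg.frobeniusKernel C = (K.map (QuotientGroup.mk' H) : Set (G ⧸ H)))) := by
  set H := piCore π G
  have hH : IsPiNat π (Nat.card H) := isPiNat_card_piCore π
  set f := QuotientGroup.mk' H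
  have hfs : Function.Surjective f := QuotientGroup.mk'_surjective H
  have h0 : piCore π (G ⧸ H) = ⊥ := piCore_quotient_piCore π
  have hHt : H ≠ ⊤ := fun e => by
    obtain ⟨b, b1, b2, b3⟩ := hb
    exact b1 (piCore_eq_top_iff.1 e b b2 b3)
  haveI : Nontrivial (G ⧸ H) := QuotientGroup.nontrivial_iff.2 hHt
  have sep : PiSep π (G ⧸ H) := piSep_of_isSolvable π inferInstance
  set Kb := piCore πᶜ (G ⧸ H)
  have hKb : IsPiNat πᶜ (Nat.card Kb) := isPiNat_card_piCore _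
  have k1 : Kb ≠ ⊥ := sep.piCore_ne_bot.resolve_left (not_not.2 h0)
  have km : (Kb.comap f).map f = Kb := map_comap_eq_self_of_surjective hfs _
  have hle : H ≤ Kb.comap f := (QuotientGroup.ker_mk' H).ge.trans (ker_le_comap _ _)
  have hlt : H < Kb.comap f := hle.lt_of_ne fun e => k1 (by
    rw [← km, ← e, Subgroup.map_eq_bot_iff, QuotientGroup.ker_mk'])
  have hi : H.relIndex (Kb.comap f) = Nat.card Kb := by
    have := relIndex_ker (Kb.comap f) f
    rwa [km, QuotientGroup.ker_mk'] at this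
  have F1 : FK H (Kb.comap f) := h.fk hH (hi ▸ hKb)
  have c1 : (Nat.card H).Coprime (H.relIndex (Kb.comap f)) := cop hH (hi ▸ hKb)
  by_cases ht : Kb = ⊤
  · left
    rw [ht, comap_top] at F1 c1
    obtain ⟨C, hC, -⟩ := frob_of_FK h1 hHt (by rwa [relIndex_top_right] at c1) F1
    exact ⟨C, hC⟩
  refine Or.inr ⟨H, Kb.comap f, inferInstance, inferInstance, hlt, frob_of_FK ?_ ?_ ?_ F1.to_sub, ?_⟩
  · rwa [Ne, subgroupOf_eq_bot, disjoint_iff, inf_eq_left.2 hle]
  · rw [Ne, subgroupOf_eq_top]; exact hlt.not_ge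
  · rwa [H10.card_subgroupOf_of_le hle]
  obtain ⟨a, pa, a1, a2⟩ : ∃ a : ℕ, a.Prime ∧ a ∣ Nat.card (G ⧸ H) ∧ a ∈ π := by
    by_contra! e
    exact ht (piCore_eq_top_iff.2 e)
  haveI : Fact a.Prime := ⟨pa⟩
  obtain ⟨x, hx⟩ := exists_prime_orderOf_dvd_card' a a1
  obtain ⟨-, -, -, -, -, -, -, cy⟩ := twoFrob_core hle h1 c1 F1 pa (hx ▸ pow_orderOf_eq_one x) (by
    rw [km, eq_bot_iff]
    intro y hy
    exact (h.quot H).eq_one
      (fun p hp hd => (Nat.prime_dvd_prime_iff_eq hp pa).1 (hx ▸ hd) ▸ a2)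
      (fun p hp hd => hKb p hp (hd.trans (Kb.orderOf_dvd_natCard hy.1))) (ne_one_of_orderOf_eq hx)
      (mem_centralizer_singleton_iff.1 hy.2).symm)
  rw [km] at cy ⊢
  have hc : commutator (G ⧸ H) ≤ Kb := (H9.commutator_le_centralizer_of_isCyclic _ cy).trans
    (sep.compl.centralizer_piCore_le (by rwa [compl_compl]))
  have hidx : IsPiNat πᶜᶜ Kb.index := by
    intro p hp hd hπ
    haveI : Fact p.Prime := ⟨hp⟩
    obtain ⟨z, hz⟩ := exists_prime_orderOf_dvd_card' (G := (G ⧸ H) ⧸ Kb) p hd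
    haveI := Normal.quotient_commutative_iff_commutator_le.2 hc
    haveI : (zpowers z).Normal := ⟨fun n hn g => by
      rwa [mul_comm' g n, mul_inv_cancel_right]⟩
    have := piCore_eq_bot_iff.1 (piCore_quotient_piCore (G := G ⧸ H) πᶜ) (zpowers z) inferInstance
      fun r hr hd => (Nat.prime_dvd_prime_iff_eq hr hp).1 (by rwa [Nat.card_zpowers, hz] at hd) ▸ hπ
    exact ne_one_of_orderOf_eq hz (by simpa using this)
  exact frob_of_FK k1 ht (cop hKb hidx) ((h.quot H).compl.fk hKb (by rwa [relIndex_top_right]))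

/-- A finite solvable group whose prime graph (prime divisors of the order, two distinct primes joined when there is an element of order their product) is disconnected is a Frobenius group or a 2-Frobenius group (it has normal subgroups H < K with K a Frobenius group with kernel H and G/H a Frobenius group with kernel K/H). -/
theorem result {G : Type*} [Group G] [Finite G] (hsol : Group.IsSolvable G)
    (hdisc : (∃ A : Set ℕ, (∃ a ∈ A, a.Prime ∧ a ∣ Nat.card G) ∧ (∃ b ∉ A, b.Prime ∧ b ∣ Nat.card G) ∧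
      ∀ a ∈ A, ∀ b ∉ A, a.Prime → b.Prime → a ∣ Nat.card G → b ∣ Nat.card G → ¬ ∃ g : G, orderOf g = a * b)) :
    (∃ C : Subgroup G, Cfsg.IsFrobeniusComplement C) ∨
    (∃ (H K : Subgroup G) (_ : H.Normal), K.Normal ∧ H < K ∧
      (∃ C : Subgroup ↥K, Cfsg.IsFrobeniusComplement C ∧ Cfsg.frobeniusKernel C = (H.subgroupOf K : Set ↥K)) ∧
      (∃ C : Subgroup (G ⧸ H), Cfsg.IsFrobeniusComplement C ∧ Cfsg.frobeniusKernel C = (K.map (QuotientGroup.mk' H) : Set (G ⧸ H)))) := by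
  obtain ⟨A, ⟨a, a1, a2, a3⟩, hb, h⟩ := hdisc
  have hN : NE A G := fun a ha b hb pa pb g hg => h a ha b hb pa pb
    ((dvd_mul_right a b).trans (hg ▸ orderOf_dvd_natCard g))
    ((dvd_mul_left b a).trans (hg ▸ orderOf_dvd_natCard g)) ⟨g, hg⟩
  haveI : Nontrivial G := by
    rw [← Finite.one_lt_card_iff_nontrivial]
    exact a2.one_lt.trans_le (Nat.le_of_dvd Nat.card_pos a3)
  rcases (piSep_of_isSolvable A hsol).piCore_ne_bot with h1 | h1
  · exact core hsol hN hb h1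
  · exact core hsol hN.compl ⟨a, not_not.2 a1, a2, a3⟩ h1

end Cfsg.Agent.S3857
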