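import Cfsg.Statements.S3858
import Cfsg.Agent.H7.Simple

set_option autoImplicit false
open Cfsg

namespace Cfsg.Agent.S3858



/-- Let G be a finite group with a normal non-abelian simple subgroup T whose centralizer is trivial (G almost simple with socle T), r a prime and R a Sylow r-subgroup of G meeting T nontrivially. Then R lies in exactly one maximal subgroup of G if and only if G has exactly one conjugacy class of maximal subgroups whose index is prime to r. -/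
theorem result {G : Type*} [Group G] [Finite G] (T : Subgroup G) [T.Normal] (hT : IsSimpleGroup T) (hna : ¬ IsMulCommutative T)
    (hC : Subgroup.centralizer (T : Set G) = ⊥) {r : ℕ} [Fact r.Prime] (R : Sylow r G) (hR0 : (R : Subgroup G) ⊓ T ≠ ⊥) :
    (∃! M : Subgroup G, IsCoatom M ∧ (R : Subgroup G) ≤ M) ↔
      ((∃ M : Subgroup G, IsCoatom M ∧ ¬ r ∣ M.index) ∧
        ∀ M₁ M₂ : Subgroup G, IsCoatom M₁ → ¬ r ∣ M₁.index → IsCoatom M₂ → ¬ r ∣ M₂.index → ∃ g : G, M₂ = M₁.map (MulAut.conj g).toMonoidHom) := by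
  constructor
  · rintro ⟨M, ⟨hM, hR⟩, huq⟩
    refine ⟨⟨M, hM, H7.not_dvd_index_of_sylow_le R hR⟩, fun M₁ M₂ h1 h1' h2 h2' => ?_⟩
    obtain ⟨g, hg⟩ := H7.exists_sylow_le_cj_of_not_dvd_index R h1'
    obtain ⟨h, hh⟩ := H7.exists_sylow_le_cj_of_not_dvd_index R h2'
    have e1 := huq _ ⟨H7.isCoatom_cj h1 g, hg⟩
    have e2 := huq _ ⟨H7.isCoatom_cj h2 h, hh⟩
    refine ⟨h⁻¹ * g, ?_⟩
    rw [← H7.cj_cj, e1, ← e2, H7.cj_cj, inv_mul_cancel]
    exact (H7.cj_eq_self_iff.2 (one_mem _)).symm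
  · rintro ⟨-, hc⟩
    have hN : Subgroup.normalizer ((R : Subgroup G) : Set G) ≠ ⊤ := fun h =>
      H7.normalizer_sylow_inf_ne_top hT hna R hR0 (top_le_iff.1 (h ▸
        H1.le_normalizer_inf le_rfl Subgroup.le_normalizer_of_normal))
    obtain ⟨M, hM, hle⟩ := H1.exists_coatom_ge hN
    have hR : (R : Subgroup G) ≤ M := Subgroup.le_normalizer.trans hle
    refine ⟨M, ⟨hM, hR⟩, ?_⟩
    rintro M' ⟨hM', hR'⟩
    obtain ⟨g, rfl⟩ := hc M M' hM (H7.not_dvd_index_of_sylow_le R hR) hM'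
      (H7.not_dvd_index_of_sylow_le R hR')
    exact H7.cj_eq_self_iff.2 (Subgroup.le_normalizer (H7.mem_of_sylow_le_cj R hle hR'))

end Cfsg.Agent.S3858
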