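import Cfsg.Statements.S3859
import Cfsg.Agent.H7.Simple

set_option autoImplicit false
open Cfsg

namespace Cfsg.Agent.S3859



/-- Let G be a finite group with a normal non-abelian simple subgroup T whose centralizer is trivial (G almost simple with socle T), r a prime and R a Sylow r-subgroup of G meeting T nontrivially. If R lies in exactly one maximal subgroup of G, then G/T is an r-group. -/
theorem result {G : Type*} [Group G] [Finite G] (T : Subgroup G) [T.Normal] (hT : IsSimpleGroup T) (hna : ¬ IsMulCommutative T)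
    (hC : Subgroup.centralizer (T : Set G) = ⊥) {r : ℕ} [Fact r.Prime] (R : Sylow r G) (hR0 : (R : Subgroup G) ⊓ T ≠ ⊥)
    (huniq : ∃! M : Subgroup G, IsCoatom M ∧ (R : Subgroup G) ≤ M) : IsPGroup r (G ⧸ T) := by
  obtain ⟨M, ⟨hM, -⟩, huq⟩ := huniq
  have hle : ∀ L : Subgroup G, L ≠ ⊤ → (R : Subgroup G) ≤ L → L ≤ M := fun L hL hR => by
    obtain ⟨M', hM', h⟩ := H1.exists_coatom_ge hL
    exact huq M' ⟨hM', hR.trans h⟩ ▸ h
  have h1 := hle _ (H7.normalizer_sylow_inf_ne_top hT hna R hR0)
    (H1.le_normalizer_inf Subgroup.le_normalizer Subgroup.le_normalizer_of_normal)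
  have h2 : T ⊔ (R : Subgroup G) = ⊤ := by
    by_contra h
    have := sup_le (le_sup_left.trans (hle _ h le_sup_right)) h1
    rw [H7.sup_normalizer_sylow_inf, top_le_iff] at this
    exact hM.1 this
  have h3 := R.2.map (QuotientGroup.mk' T)
  have h4 : (R : Subgroup G).map (QuotientGroup.mk' T) = ⊤ := by
    apply Subgroup.comap_injective (QuotientGroup.mk'_surjective T)
    rw [QuotientGroup.comap_map_mk', h2, Subgroup.comap_top]
  rw [h4] at h3
  exact h3.of_equiv Subgroup.topEquiv

end Cfsg.Agent.S3859
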