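import Cfsg.Statements.S3861
import Cfsg.Agent.H3.Misc

set_option autoImplicit false
open Cfsg

namespace Cfsg.Agent.S3861

/-- A finite group G has no non-identity element of odd order that is conjugate to its inverse if and only if the Sylow 2-subgroups of G are normal. -/
theorem result {G : Type*} [Group G] [Finite G] (P : Sylow 2 G) : (∀ x : G, x ≠ 1 → Odd (orderOf x) → ¬ IsConj x x⁻¹) ↔ (P : Subgroup G).Normal := by
  refine ⟨fun h => H3.normal_sylow_two_of_no_real h P, fun hP x hx ho hc => hx ?_⟩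
  obtain ⟨g, hg⟩ := isConj_iff.mp hc
  have hodd : ∀ y : G ⧸ (P : Subgroup G), Odd (orderOf y) := fun y =>
    (H6.odd_index_sylow P).of_dvd_nat (orderOf_dvd_natCard y)
  obtain ⟨m, hm⟩ := H6.exists_sq_pow_of_odd (hodd g)
  have h1 : (g : G ⧸ (P : Subgroup G)) * x * (g : G ⧸ (P : Subgroup G))⁻¹ =
      (x : G ⧸ (P : Subgroup G))⁻¹ := congrArg (QuotientGroup.mk' (P : Subgroup G)) hg
  have h2 : Commute ((g : G ⧸ (P : Subgroup G)) * g) x := by
    rw [← H6.conj_eq_iff_commute]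
    calc _ = (g : G ⧸ (P : Subgroup G)) * (g * x * (g : G ⧸ (P : Subgroup G))⁻¹) *
          (g : G ⧸ (P : Subgroup G))⁻¹ := by group
      _ = (g : G ⧸ (P : Subgroup G)) * (x : G ⧸ (P : Subgroup G))⁻¹ *
          (g : G ⧸ (P : Subgroup G))⁻¹ := by rw [h1]
      _ = ((g : G ⧸ (P : Subgroup G)) * x * (g : G ⧸ (P : Subgroup G))⁻¹)⁻¹ := by group
      _ = _ := by rw [h1, inv_inv]
  have h3 : Commute (g : G ⧸ (P : Subgroup G)) x := by
    rw [← hm, ← (Commute.refl _).mul_pow]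
    exact h2.pow_left m
  rw [H6.conj_eq_iff_commute.mpr h3, eq_inv_iff_mul_eq_one] at h1
  have h4 : x ∈ (P : Subgroup G) :=
    (QuotientGroup.eq_one_iff x).mp (H6.eq_one_of_odd_of_sq (hodd _) h1)
  obtain ⟨k, hk⟩ := H6.IsPGroup_pow_eq_one P.2 h4
  exact H6.eq_one_of_odd_of_two_pow ho hk

end Cfsg.Agent.S3861
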