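import Mathlib
import Cfsg.Statements.S3862
import Cfsg.Agent.H8.RealC

set_option autoImplicit false
open Cfsg

namespace Cfsg.Agent.S3862

theorem result {G : Type*} [Group G] [Finite G] (h : ∀ x : G, (∃ j : ℕ, orderOf x = 2 ^ j) → IsConj x x⁻¹ → x ∈ Subgroup.center G) : Cfsg.HasNormalPComplement 2 G := by
  exact H8.npc_of_real_central h

end Cfsg.Agent.S3862
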