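import Cfsg.Statements.S3863
import Cfsg.Agent.H7.PGrp
import Cfsg.Agent.H1.Basic

set_option autoImplicit false
open Cfsg

namespace Cfsg.Agent.S3863



/-- Let x be an element of the finite group G that is conjugate to its inverse. Then some 2-element conjugates x to its inverse; if the conjugacy class of x has odd size then x ^ 2 = 1; and x lies in, and is conjugate to its inverse inside, every normal subgroup of odd index. -/
theorem result {G : Type*} [Group G] [Finite G] (x : G) (hx : IsConj x x⁻¹) : (∃ t : G, (∃ j : ℕ, orderOf t = 2 ^ j) ∧ t * x * t⁻¹ = x⁻¹) ∧ (Odd (Subgroup.centralizer ({x} : Set G)).index → x ^ 2 = 1) ∧ ∀ (N : Subgroup G) [N.Normal], Odd N.index → ∃ hxN : x ∈ N, IsConj (⟨x, hxN⟩ : N) (⟨x, hxN⟩ : N)⁻¹ := by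
  obtain ⟨g, hg⟩ := isConj_iff.1 hx
  have hodd : ∀ (g : G) (k : ℕ), g * x * g⁻¹ = x⁻¹ → Odd k → g ^ k * x * (g ^ k)⁻¹ = x⁻¹ := by
    rintro g _ hg ⟨k, rfl⟩
    have h2 : g * x⁻¹ * g⁻¹ = x := by
      have := congrArg (·⁻¹) hg
      simpa [mul_assoc] using this
    induction k with
    | zero => simpa using hg
    | succ k ih =>
      have : g ^ (2 * (k + 1) + 1) = g * g * g ^ (2 * k + 1) := by
        rw [← pow_two, ← pow_add]; congr 1; ring
      rw [this]
      calc g * g * g ^ (2 * k + 1) * x * (g * g * g ^ (2 * k + 1))⁻¹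
          = g * (g * (g ^ (2 * k + 1) * x * (g ^ (2 * k + 1))⁻¹) * g⁻¹) * g⁻¹ := by group
        _ = x⁻¹ := by rw [ih, h2, hg]
  obtain ⟨j, m, hm, e⟩ := Nat.exists_eq_two_pow_mul_odd (orderOf_pos g).ne'
  have hm0 : m ≠ 0 := by rintro rfl; simp at hm
  have ho : orderOf (g ^ m) = 2 ^ j := by
    rw [orderOf_pow_of_dvd hm0 (e ▸ dvd_mul_left _ _), e, Nat.mul_div_cancel _ (Nat.pos_of_ne_zero hm0)]
  have ht := hodd g m hg hm
  set t := g ^ m
  have hcop : ∀ n, Odd n → (Nat.card (Subgroup.zpowers t)).Coprime n := fun n hn => by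
    rw [Nat.card_zpowers, ho]
    exact Nat.Coprime.pow_left _ (Nat.coprime_two_left.2 hn)
  refine ⟨⟨t, ⟨j, ho⟩, ht⟩, fun hC => ?_, fun N _ hN => ?_⟩
  · set C := Subgroup.centralizer ({x} : Set G)
    have h1 : t ∈ Subgroup.normalizer (C : Set G) := by
      apply H7.mem_normalizer_of_finite
      intro c hc
      rw [Subgroup.mem_centralizer_singleton_iff] at hc ⊢
      have h2 : x = t * x⁻¹ * t⁻¹ := by
        have := congrArg (·⁻¹) ht
        simpa [mul_assoc] using this.symm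
      have h3 : c * x⁻¹ = x⁻¹ * c := (Commute.inv_right hc)
      calc t * c * t⁻¹ * x = t * c * t⁻¹ * (t * x⁻¹ * t⁻¹) := by rw [← h2]
        _ = t * (c * x⁻¹) * t⁻¹ := by group
        _ = (t * x⁻¹ * t⁻¹) * (t * c * t⁻¹) := by rw [h3]; group
        _ = _ := by rw [← h2]
    have h2 : Subgroup.zpowers t ≤ C :=
      H1.le_of_coprime_relIndex (K := C ⊔ Subgroup.zpowers t) le_sup_right
        (sup_le Subgroup.le_normalizer (Subgroup.zpowers_le.2 h1))
        (hcop _ (hC.of_dvd_nat (Subgroup.relIndex_dvd_index_of_le le_sup_left)))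
    have h3 := Subgroup.mem_centralizer_singleton_iff.1 (h2 (Subgroup.mem_zpowers t))
    rw [h3, mul_inv_cancel_right] at ht
    rw [pow_two]; nth_rewrite 1 [ht]; simp
  · have h1 : t ∈ N := H1.le_of_coprime_index (hcop _ hN) (Subgroup.mem_zpowers t)
    have h2 : x ^ 2 ∈ N := by
      have := mul_mem (‹N.Normal›.conj_mem _ (inv_mem h1) x) h1
      have e : x * t⁻¹ * x⁻¹ * t = x ^ 2 := by
        have : t⁻¹ * x⁻¹ * t = x := by rw [← ht]; group
        rw [mul_assoc, mul_assoc, ← mul_assoc t⁻¹, this, pow_two]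
      rwa [e] at this
    have h3 : x ∈ N := by
      obtain ⟨k, hk⟩ := hN
      have := N.pow_index_mem x
      rw [hk, pow_succ, pow_mul] at this
      exact (mul_mem_cancel_left (pow_mem h2 k)).1 this
    exact ⟨h3, isConj_iff.2 ⟨⟨t, h1⟩, Subtype.ext ht⟩⟩

end Cfsg.Agent.S3863
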