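import Cfsg.Statements.S3864
import Cfsg.Agent.S1255
import Cfsg.Agent.H15.Pi
import Cfsg.Agent.S0111

set_option autoImplicit false
open Cfsg

namespace Cfsg.Agent.S3864

open Subgroup H6 in
theorem swap {G : Type*} [Group G] {S : Subgroup G} {k : ℕ} {x y : G} (h : DH S k x y) :
    DH S k x (x * y) := by
  refine ⟨h.ox, by simpa using h.sq 1, by simpa using h.conj_x 1 1, by simpa using h.not_mem_zpowers 1,
    fun g => (h.mem g).trans ⟨?_, ?_⟩⟩
  · rintro ⟨i, rfl | rfl⟩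
    exacts [⟨i, Or.inl rfl⟩, ⟨i - 1, Or.inr (by group)⟩]
  · rintro ⟨i, rfl | rfl⟩
    exacts [⟨i, Or.inl rfl⟩, ⟨i + 1, Or.inr (by group)⟩]

open Subgroup H6 in
theorem cls {G : Type*} [Group G] [Finite G] {S : Sylow 2 G} {k : ℕ} {x y : G}
    (h : DH (S : Subgroup G) k x y) :
    {C : ConjClasses G | ∃ g : G, ConjClasses.mk g = C ∧ orderOf g = 2} =
      {ConjClasses.mk (x ^ ((2 : ℤ) ^ k)), ConjClasses.mk y, ConjClasses.mk (x * y)} := by
  ext C
  simp only [Set.mem_ofPred_eq, Set.mem_insert_iff, Set.mem_singleton_iff]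
  constructor
  · rintro ⟨g, rfl, hg⟩
    obtain ⟨s, hs, hs2, hc⟩ := isConj_sylow_ord S (k := 1) hg
    rw [← ConjClasses.mk_eq_mk_iff_isConj.2 hc]
    rcases h.of_ord2 hs hs2 with rfl | ⟨i, rfl⟩
    · exact Or.inl rfl
    rcases Int.even_or_odd' i with ⟨c, rfl | rfl⟩
    · refine Or.inr (Or.inl (ConjClasses.mk_eq_mk_iff_isConj.2 (isConj_iff.2 ⟨x ^ (-c), ?_⟩)))
      rw [h.conj_xy]; simp
    · refine Or.inr (Or.inr (ConjClasses.mk_eq_mk_iff_isConj.2 (isConj_iff.2 ⟨x ^ (-c), ?_⟩)))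
      rw [h.conj_xy]; simp
  · rintro (rfl | rfl | rfl)
    exacts [⟨_, rfl, h.ord_z⟩, ⟨_, rfl, h.ord_y⟩, ⟨_, rfl, (swap h).ord_y⟩]

open Subgroup H6 in
theorem two {G : Type*} [Group G] [Finite G] {S : Sylow 2 G} {k : ℕ} {x y : G}
    (h : DH (S : Subgroup G) (k + 1) x y) (h1 : IsConj (x ^ ((2 : ℤ) ^ (k + 1))) y)
    (h2 : ¬ IsConj (x ^ ((2 : ℤ) ^ (k + 1))) (x * y)) :
    (∃ N : Subgroup G, N.Normal ∧ N.index = 2) ∧ ∀ N : Subgroup G, N.Normal → N.index ≠ 4 := by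
  constructor
  · rcases S0111.result S _ (h.D_le 0) (h.relIndex_D 0) (x * y) (swap h).ord_y (swap h).yS (fun e => by
      simpa using (h.xy_mem_D (i := 0) (j := 1)).1 (by simpa using e)) with ⟨M, h3, h4, -⟩ | ⟨g, hg⟩
    · exact ⟨M, h3, h4⟩
    refine (h2 (IsConj.trans ?_ (isConj_iff.2 ⟨g, rfl⟩).symm)).elim
    rcases h.of_ord2 (h.D_le 0 hg) (ord2_conj (swap h).ord_y g) with e | ⟨i, e⟩
    · rw [e]
    · rw [e] at hg ⊢
      obtain ⟨c, hc⟩ := h.xy_mem_D.1 hg
      refine h1.trans (isConj_iff.2 ⟨x ^ c, ?_⟩)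
      have := h.conj_xy c 0
      rw [zpow_zero, one_mul] at this
      rw [this]; congr 2; omega
  intro N hN h4
  have hq : IsPGroup 2 (G ⧸ N) := IsPGroup.of_card (n := 2) (by rw [← index_eq_card, h4]; rfl)
  have hs : (S : Subgroup G).map (QuotientGroup.mk' N) = ⊤ := by
    have := (S.mapSurjective (QuotientGroup.mk'_surjective N)).is_maximal' (Q := ⊤) (hq.to_subgroup _) le_top
    exact this.symm
  have h5 : N.relIndex S = 4 := by
    rw [← QuotientGroup.ker_mk' N, relIndex_ker, hs, card_top, ← index_eq_card, h4]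
  have hD : closure ({x ^ (2 : ℤ), x ^ (0 : ℤ) * y} : Set G) ≤ N → False := fun e => by
    have := relIndex_dvd_of_le_left (S : Subgroup G) e
    rw [h5, h.relIndex_D] at this
    omega
  have hy : ∀ i : ℤ, x ^ i * y ∈ N → x ^ (2 : ℤ) ∈ N := fun i e => by
    have := mul_mem (hN.conj_mem _ e (x ^ (1 : ℤ))) e
    rw [h.conj_xy, mul_assoc, ← mul_assoc y, h.ymul, mul_assoc, h.yy] at this
    convert this using 1
    group
  have hz : x ^ ((2 : ℤ) ^ (k + 1)) ∈ N := by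
    have h6 : (N ⊓ S : Subgroup G) ≠ ⊥ := fun e => by
      have := H1.card_inf_mul_relIndex N S
      rw [e, h5, card_bot, ← H1.card_inf_mul_relIndex (zpowers x), inf_eq_left.2 h.X_le, h.relIndex_X,
        Nat.card_zpowers, h.ox, pow_succ, pow_succ] at this
      have := Nat.two_pow_pos k
      omega
    obtain ⟨t, ht, h7⟩ := H15.exists_mem_orderOf_eq Nat.prime_two (H15.Cfsg.IsPiSubgroup.dvd_of_ne_bot
      (H15.IsPGroup.isPi (S.isPGroup'.to_le (inf_le_right (a := N)))) h6)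
    rcases h.of_ord2 ht.2 h7 with rfl | ⟨i, rfl⟩
    · exact ht.1
    · rw [pow_succ', zpow_mul]; exact zpow_mem (hy i ht.1) _
  obtain ⟨c, hc⟩ := isConj_iff.1 h1
  have hyN : x ^ (0 : ℤ) * y ∈ N := by simpa [hc] using hN.conj_mem _ hz c
  exact hD ((closure_le _).2 (Set.pair_subset (hy 0 hyN) hyN))

/-- Let G be a finite group whose Sylow 2-subgroups are dihedral of order 2 ^ n with n ≥ 3, and count the conjugacy classes of involutions of G. Then exactly one of the following holds: there is one class of involutions and no normal subgroup of index 2; there are two classes of involutions, a normal subgroup of index 2 and none of index 4; there are three classes of involutions and G has a normal 2-complement. -/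
theorem result {G : Type*} [Group G] [Finite G] (P : Sylow 2 G) (n : ℕ) (hn : 3 ≤ n) (hdih : Nonempty (↥(P : Subgroup G) ≃* DihedralGroup (2 ^ (n - 1)))) : (Nat.card {C : ConjClasses G // ∃ g : G, ConjClasses.mk g = C ∧ orderOf g = 2} = 1 ∧ ∀ N : Subgroup G, N.Normal → N.index ≠ 2) ∨ (Nat.card {C : ConjClasses G // ∃ g : G, ConjClasses.mk g = C ∧ orderOf g = 2} = 2 ∧ (∃ N : Subgroup G, N.Normal ∧ N.index = 2) ∧ ∀ N : Subgroup G, N.Normal → N.index ≠ 4) ∨ (Nat.card {C : ConjClasses G // ∃ g : G, ConjClasses.mk g = C ∧ orderOf g = 2} = 3 ∧ Cfsg.HasNormalPComplement 2 G) := by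
  obtain ⟨e⟩ := hdih
  have hm : 2 ≤ 2 ^ (n - 1) := Nat.le_self_pow (by omega) 2
  obtain ⟨k, x, y, h, hc⟩ := H6.dh_sub P.isPGroup' hm e
  obtain _ | k := k
  · rw [Nat.card_congr e.toEquiv, DihedralGroup.nat_card, ← pow_succ'] at hc
    have := Nat.pow_right_injective le_rfl hc
    omega
  have hcard : Nat.card {C : ConjClasses G // ∃ g : G, ConjClasses.mk g = C ∧ orderOf g = 2} =
      Set.ncard {ConjClasses.mk (x ^ ((2 : ℤ) ^ (k + 1))), ConjClasses.mk y, ConjClasses.mk (x * y)} := by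
    rw [← cls h]; rfl
  rw [hcard]
  have E := @ConjClasses.mk_eq_mk_iff_isConj G _
  by_cases h1 : IsConj (x ^ ((2 : ℤ) ^ (k + 1))) y <;>
    by_cases h2 : IsConj (x ^ ((2 : ℤ) ^ (k + 1))) (x * y)
  · refine Or.inl ⟨by rw [← E.2 h1, ← E.2 h2]; simp, fun N _ => ((S1255.result P _ hm e).2
      (Or.inl fun a b ha hb => E.1 ?_)).1 N⟩
    have := cls h
    rw [← E.2 h1, ← E.2 h2] at this
    have a1 := this.le ⟨a, rfl, ha⟩
    have a2 := this.le ⟨b, rfl, hb⟩
    simp only [Set.mem_insert_iff, Set.mem_singleton_iff, or_self] at a1 a2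
    rw [a1, a2]
  · refine Or.inr (Or.inl ⟨?_, two h h1 h2⟩)
    rw [← E.2 h1, Set.insert_eq_of_mem (Set.mem_insert _ _), Set.ncard_pair (mt E.1 h2)]
  · refine Or.inr (Or.inl ⟨?_, two (swap h) h2 fun e => h1 (e.trans (isConj_iff.2 ⟨x ^ (-1 : ℤ), ?_⟩))⟩)
    · rw [← E.2 h2, Set.pair_comm (ConjClasses.mk y), Set.insert_eq_of_mem (Set.mem_insert _ _),
        Set.ncard_pair (mt E.1 h1)]
    · have := h.conj_xy (-1) 2
      rw [show x * (x * y) = x ^ (2 : ℤ) * y by rw [zpow_two, mul_assoc], this]; simp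
  have hN : HasNormalPComplement 2 G := H3.frobenius P fun Q hQ g hg ho => by
    by_contra hc
    have hn := H6.not_noOdd_iff.2 ⟨g, hg, H6.coprime_two_iff.1 ho, hc⟩
    obtain ⟨i, rfl⟩ := h.four_eq (h.classify hQ hn) hQ
    have := E.2 (h.conj_z hn)
    rcases Int.even_or_odd' i with ⟨c, rfl | rfl⟩
    · refine h1 ((h.conj_z hn).trans (isConj_iff.2 ⟨x ^ (-c), ?_⟩))
      rw [h.conj_xy]; simp
    · refine h2 ((h.conj_z hn).trans (isConj_iff.2 ⟨x ^ (-c), ?_⟩))
      rw [h.conj_xy]; simp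
  refine Or.inr (Or.inr ⟨Set.ncard_eq_three.2 ⟨_, _, _, mt E.1 h1, mt E.1 h2, fun e => ?_, rfl⟩, hN⟩)
  obtain ⟨g, hg⟩ := isConj_iff.1 (E.1 e)
  obtain ⟨u, hu, hu'⟩ := H3.fusion_of_hasNormalPComplement hN P g
  rw [hu' y h.yS (hg ▸ (swap h).yS)] at hg
  have hD : y ∈ Subgroup.closure ({x ^ (2 : ℤ), x ^ (0 : ℤ) * y} : Set G) := by
    simpa using (h.xy_mem_D (i := 0) (j := 0)).2 (by simp)
  have hn := Subgroup.normal_of_index_eq_two (h.relIndex_D 0)
  have := hn.conj_mem ⟨y, h.yS⟩ hD ⟨u, hu⟩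
  rw [Subgroup.mem_subgroupOf] at this
  change u * y * u⁻¹ ∈ _ at this
  rw [hg] at this
  simpa using (h.xy_mem_D (i := 0) (j := 1)).1 (by simpa using this)

end Cfsg.Agent.S3864
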