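import Cfsg.Statements.S3867
import Cfsg.Agent.H7.PGrp

set_option autoImplicit false
open Cfsg

namespace Cfsg.Agent.S3867

open Subgroup in
theorem aux {G : Type*} [Group G] [Finite G] (p : ℕ) [Fact p.Prime] (M N : Subgroup G) [M.Normal]
    [N.Normal] (hMN : M ⊓ N = ⊥) (P : Sylow p G) {m n : G} (hm : m ∈ M) (hn : n ∈ N)
    (h : m * n ∈ normalizer ((P : Subgroup G) : Set G)) :
    m ∈ normalizer ((P : Subgroup G) : Set G) := by
  have hR : IsPGroup p (M ⊓ ((P : Subgroup G) ⊔ N) : Subgroup G) := by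
    rintro ⟨r, hrM, hr⟩
    obtain ⟨y, hy, z, hz, rfl⟩ := mem_sup_of_normal_right.1 hr
    obtain ⟨k, hk⟩ := P.isPGroup' ⟨y, hy⟩
    refine ⟨k, Subtype.ext ?_⟩
    have h1 : (y * z) ^ p ^ k ∈ N := by
      rw [← QuotientGroup.eq_one_iff, QuotientGroup.mk_pow, QuotientGroup.mk_mul,
        (QuotientGroup.eq_one_iff z).2 hz, mul_one, ← QuotientGroup.mk_pow]
      have : y ^ p ^ k = 1 := congrArg Subtype.val hk
      rw [this]; rfl
    have h2 : (y * z) ^ p ^ k ∈ M ⊓ N := ⟨pow_mem hrM _, h1⟩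
    rw [hMN] at h2
    exact h2
  have hPR : (P : Subgroup G) ≤ normalizer ((M ⊓ ((P : Subgroup G) ⊔ N) : Subgroup G) : Set G) :=
    H1.le_normalizer_inf le_normalizer_of_normal (le_sup_left.trans le_normalizer)
  have h3 := P.is_maximal' (P.isPGroup'.to_sup_of_normal_right' hR hPR) le_sup_left
  have h4 : M ⊓ ((P : Subgroup G) ⊔ N) ≤ P := le_sup_right.trans h3.le
  apply H7.mem_normalizer_of_finite
  intro x hx
  have h5 : m * x * m⁻¹ * x⁻¹ ∈ M ⊓ ((P : Subgroup G) ⊔ N) := by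
    refine ⟨by
      have := mul_mem hm (‹M.Normal›.conj_mem _ (inv_mem hm) x)
      simpa [mul_assoc] using this, ?_⟩
    have h6 : m * n ∈ normalizer (((P : Subgroup G) ⊔ N : Subgroup G) : Set G) :=
      normalizer_le_normalizer_sup_normal h
    have h7 : x⁻¹ * n⁻¹ * x * n ∈ N := by
      have := mul_mem (‹N.Normal›.conj_mem _ (inv_mem hn) x⁻¹) hn
      simpa using this
    have h8 := H7.conj_mem_of_mem_normalizer h6 (mul_mem (mem_sup_left hx) (mem_sup_right h7))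
    have h9 := mul_mem h8 (mem_sup_left (inv_mem hx))
    have e : m * n * (x * (x⁻¹ * n⁻¹ * x * n)) * (m * n)⁻¹ * x⁻¹ = m * x * m⁻¹ * x⁻¹ := by group
    rw [e] at h9
    exact h9
  have := mul_mem (h4 h5) hx
  simpa using this

/-- Let M and N be nontrivial normal subgroups of the finite group G with M ⊓ N trivial, and let p be a prime. Writing n(X) for the number of Sylow p-subgroups of a group X, one has n(G) · n(G/MN) = n(G/M) · n(G/N). -/
theorem result {G : Type*} [Group G] [Finite G] (p : ℕ) [Fact p.Prime] (M N : Subgroup G) [M.Normal] [N.Normal] (hM : M ≠ ⊥) (hN : N ≠ ⊥) (hMN : M ⊓ N = ⊥) : Nat.card (Sylow p G) * Nat.card (Sylow p (G ⧸ (M ⊔ N))) = Nat.card (Sylow p (G ⧸ M)) * Nat.card (Sylow p (G ⧸ N)) := by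
  obtain ⟨P⟩ : Nonempty (Sylow p G) := inferInstance
  rw [H7.card_sylow_quotient _ P, H7.card_sylow_quotient _ P, H7.card_sylow_quotient _ P,
    P.card_eq_index_normalizer]
  set H := Subgroup.normalizer ((P : Subgroup G) : Set G) with hH
  change H.index * _ = _
  have e1 : H ⊓ (M ⊔ N) = (H ⊓ M) ⊔ (H ⊓ N) := by
    refine le_antisymm ?_ (le_inf (sup_le inf_le_left inf_le_left)
      (sup_le_sup inf_le_right inf_le_right))
    rintro x ⟨hx, hx'⟩
    obtain ⟨m, hm, n, hn, rfl⟩ := Subgroup.mem_sup_of_normal_right.1 hx'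
    have h1 := aux p M N hMN P hm hn hx
    exact mul_mem (Subgroup.mem_sup_left ⟨h1, hm⟩)
      (Subgroup.mem_sup_right ⟨(mul_mem_cancel_left h1).1 hx, hn⟩)
  have e2 : Nat.card ↥(H ⊓ (M ⊔ N)) = Nat.card ↥(H ⊓ M) * Nat.card ↥(H ⊓ N) := by
    rw [e1]
    refine H1.card_sup_of_disjoint (H1.le_normalizer_inf (inf_le_left.trans Subgroup.le_normalizer)
      Subgroup.le_normalizer_of_normal) ?_
    rw [eq_bot_iff, ← hMN]
    exact inf_le_inf inf_le_right inf_le_right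
  have e3 : Nat.card ↥(M ⊔ N) = Nat.card M * Nat.card N :=
    H1.card_sup_of_disjoint Subgroup.le_normalizer_of_normal hMN
  have a1 := H7.card_sup_mul_card_inf H M
  have a2 := H7.card_sup_mul_card_inf H N
  have a3 := H7.card_sup_mul_card_inf H (M ⊔ N)
  rw [e2, e3] at a3
  have b0 := H.card_mul_index
  have b1 := (H ⊔ M).card_mul_index
  have b2 := (H ⊔ N).card_mul_index
  have b3 := (H ⊔ (M ⊔ N)).card_mul_index
  have c1 : Nat.card H * Nat.card ↥(H ⊔ (M ⊔ N)) = Nat.card ↥(H ⊔ M) * Nat.card ↥(H ⊔ N) := by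
    apply Nat.eq_of_mul_eq_mul_right (Nat.mul_pos (Nat.card_pos (α := ↥(H ⊓ M)))
      (Nat.card_pos (α := ↥(H ⊓ N))))
    rw [mul_assoc, a3, mul_mul_mul_comm, a1, a2]; ring
  apply Nat.eq_of_mul_eq_mul_left (Nat.mul_pos (Nat.card_pos (α := ↥(H ⊔ M)))
      (Nat.card_pos (α := ↥(H ⊔ N))))
  rw [mul_mul_mul_comm _ _ (H ⊔ M).index, b1, b2, ← c1, mul_mul_mul_comm, b0, b3]

end Cfsg.Agent.S3867
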