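import Cfsg.Statements.S3878
import Cfsg.Agent.H3.Epi

set_option autoImplicit false
open Cfsg

namespace Cfsg.Agent.S3878

/-- For a set of primes π the following are equivalent: every finite group has a Hall π-subgroup; in every finite group the maximal π-subgroups are pairwise conjugate; π contains at most one prime or contains every prime. -/
theorem result (π : Set ℕ) :
    ((∀ (G : Type) [Group G] [Finite G], Cfsg.IsEPiGroup π G) ↔
      ((∀ p q : ℕ, p.Prime → q.Prime → p ∈ π → q ∈ π → p = q) ∨ ∀ p : ℕ, p.Prime → p ∈ π)) ∧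
    ((∀ (G : Type) [Group G] [Finite G], Cfsg.IsDPiGroup π G) ↔
      ((∀ p q : ℕ, p.Prime → q.Prime → p ∈ π → q ∈ π → p = q) ∨ ∀ p : ℕ, p.Prime → p ∈ π)) := by
  exact ⟨⟨H3.small_of_epi, fun h G _ _ => H3.epi_of_dpi (H3.dpi_of_small h G)⟩,
    ⟨fun h => H3.small_of_epi fun G _ _ => H3.epi_of_dpi (h G), fun h G _ _ => H3.dpi_of_small h G⟩⟩

end Cfsg.Agent.S3878
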