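import Cfsg.Statements.S3881
import Cfsg.Agent.H7.Meta2

set_option autoImplicit false
open Cfsg

namespace Cfsg.Agent.S3881



/-- Let p be an odd prime and G a finite metacyclic p-group (G has a cyclic normal subgroup with cyclic quotient). Suppose G is non-abelian with |G'| = p^n. Then for 1 ≤ i ≤ n the number of elements of G whose conjugacy class has exactly p^i elements is |Z(G)| · (p^(2i) − p^(2i−2)). -/
theorem result {G : Type*} [Group G] [Finite G] {p : ℕ} [Fact p.Prime] (hp : p ≠ 2) (hG : IsPGroup p G) (hmc : Cfsg.IsMetacyclic G) (n : ℕ) (hn : n ≠ 0) (hGn : Nat.card ↥(commutator G) = p ^ n) (i : ℕ) (hi : 1 ≤ i) (hin : i ≤ n) :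
    Nat.card {g : G // (Subgroup.centralizer ({g} : Set G)).index = p ^ i} =
      Nat.card ↥(Subgroup.center G) * (p ^ (2 * i) - p ^ (2 * i - 2)) := by
  classical
  have h : H7.MC p G := ⟨hp, hG, hmc⟩
  have h1 : p.Prime := Fact.out
  have h2 : ∀ s ≤ n, Nat.card (powerClosure p (n - s) (⊤ : Subgroup G)) =
      Nat.card (Subgroup.center G) * p ^ (2 * s) := fun s hs => by
    have e1 := (powerClosure p (n - s) (⊤ : Subgroup G)).card_mul_index
    rw [h.index_mho hGn (Nat.sub_le n s), ← (Subgroup.center G).card_mul_index, h.index_center, hGn,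
      ← pow_mul, show n * 2 = 2 * s + 2 * (n - s) by omega, pow_add, ← mul_assoc] at e1
    exact Nat.eq_of_mul_eq_mul_right (pow_pos h1.pos _) e1
  have h3 : powerClosure p (n - (i - 1)) (⊤ : Subgroup G) ≤ powerClosure p (n - i) ⊤ := fun g hg => by
    rw [h.mem_mho_iff hGn (Nat.sub_le _ _)] at hg ⊢
    exact hg.trans (Nat.pow_le_pow_right h1.pos (by omega))
  have h4 := Set.ncard_diff (s := (powerClosure p (n - (i - 1)) (⊤ : Subgroup G) : Set G))
    (t := (powerClosure p (n - i) (⊤ : Subgroup G) : Set G)) h3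
  rw [mul_tsub, show 2 * i - 2 = 2 * (i - 1) by omega, ← h2 i hin, ← h2 (i - 1) (by omega)]
  refine Eq.trans (Nat.card_congr (Equiv.subtypeEquivRight fun g => ?_)) h4
  obtain ⟨k, hk⟩ := hG.index (Subgroup.centralizer {g})
  rw [Set.mem_diff, SetLike.mem_coe, SetLike.mem_coe, h.mem_mho_iff hGn (Nat.sub_le _ _),
    h.mem_mho_iff hGn (Nat.sub_le _ _), hk, Nat.pow_le_pow_iff_right h1.one_lt,
    Nat.pow_le_pow_iff_right h1.one_lt, Nat.pow_right_inj h1.one_lt]
  omega

end Cfsg.Agent.S3881
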