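import Cfsg.Statements.S3883
import Cfsg.Agent.H7.Meta2

set_option autoImplicit false
open Cfsg

namespace Cfsg.Agent.S3883



/-- Let p be an odd prime and G a finite metacyclic p-group (G has a cyclic normal subgroup with cyclic quotient). Suppose G is non-abelian. Then an element g of G lies outside the Frattini subgroup if and only if its centralizer C_G(g) is abelian. -/
theorem result {G : Type*} [Group G] [Finite G] {p : ℕ} [Fact p.Prime] (hp : p ≠ 2) (hG : IsPGroup p G) (hmc : Cfsg.IsMetacyclic G) (hna : ¬ IsMulCommutative G) (g : G) :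
    g ∉ frattini G ↔ IsMulCommutative ↥(Subgroup.centralizer ({g} : Set G)) := by
  have h : H7.MC p G := ⟨hp, hG, hmc⟩
  have h1 : p.Prime := Fact.out
  obtain ⟨n, hn⟩ := H9.card_eq_pow hG (commutator G)
  have h2 : 1 ≤ n := Nat.one_le_iff_ne_zero.2 fun e => hna
    ((commutator_eq_bot_iff G).1 (Subgroup.card_eq_one.1 (by rw [hn, e, pow_zero])))
  obtain ⟨k, hk⟩ := hG.index (Subgroup.centralizer {g})
  rw [h.frattini_eq, h.mem_mho_iff hn h2, h.comm_iff_index hn, hk,
    Nat.pow_le_pow_iff_right h1.one_lt, Nat.pow_le_pow_iff_right h1.one_lt]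
  omega

end Cfsg.Agent.S3883
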