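import Cfsg.Statements.S3887
import Cfsg.Agent.H7.Meta2

set_option autoImplicit false
open Cfsg

namespace Cfsg.Agent.S3887



/-- Let p be an odd prime and G a finite metacyclic p-group (G has a cyclic normal subgroup with cyclic quotient). Then a subgroup R of G maximizes |R| · |C_G(R)| over all subgroups of G if and only if R contains the center of G. -/
theorem result {G : Type*} [Group G] [Finite G] {p : ℕ} [Fact p.Prime] (hp : p ≠ 2) (hG : IsPGroup p G) (hmc : Cfsg.IsMetacyclic G) (R : Subgroup G) : Cfsg.IsCentralizerLarge R ↔ Subgroup.center G ≤ R := by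
  have h : H7.MC p G := ⟨hp, hG, hmc⟩
  have h2 : Cfsg.maxCentralizerProduct G = (commutator G).index ^ 2 := by
    refine IsGreatest.csSup_eq ⟨⟨⊤, h.card_mul_card_centralizer le_top⟩, ?_⟩
    rintro _ ⟨R, rfl⟩
    exact (h.card_mul_card_centralizer_le R).1
  rw [IsCentralizerLarge, h2]
  exact ⟨(h.card_mul_card_centralizer_le R).2, h.card_mul_card_centralizer⟩

end Cfsg.Agent.S3887
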