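import Cfsg.Statements.S3897
import Cfsg.Agent.H7.PiClass

set_option autoImplicit false
open Cfsg

namespace Cfsg.Agent.S3897



/-- Let p be an odd prime and G a finite group with Sylow p-subgroup P, and write k_p(G) for the number of conjugacy classes of G consisting of p-elements (elements of p-power order, the identity included). Then k_p(G) > (p + 1)|P|/(2p) if and only if G has a normal p-complement and P is abelian. -/
theorem result {G : Type*} [Group G] [Finite G] {p : ℕ} [Fact p.Prime] (hp : p ≠ 2) (P : Sylow p G) :
    (p + 1) * Nat.card ↥(P : Subgroup G) < 2 * p * Nat.card {c : ConjClasses G // ∀ x ∈ c.carrier, ∃ k : ℕ, orderOf x = p ^ k} ↔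
      Cfsg.HasNormalPComplement p G ∧ IsMulCommutative ↥(P : Subgroup G) := by
  refine ⟨H7.npc_of_kc P, fun h => ?_⟩
  have h1 := H7.card_conjClasses_le_kc P h.1
  rw [H7.card_conjClasses_of_comm h.2] at h1
  have h2 : 1 < p := (Fact.out : p.Prime).one_lt
  have h3 : 0 < Nat.card (P : Subgroup G) := Nat.card_pos
  refine lt_of_lt_of_le ?_ (Nat.mul_le_mul_left _ h1)
  nlinarith

end Cfsg.Agent.S3897
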