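import Cfsg.Statements.S3898
import Cfsg.Agent.H7.PiClass4
import Cfsg.Agent.H7.PiClass3

set_option autoImplicit false
open Cfsg

namespace Cfsg.Agent.S3898



/-- Let π be a finite set of primes containing 2 and G a finite group. Write k_π(G) for the number of conjugacy classes of G consisting of π-elements (elements all of whose order's prime divisors lie in π) and |G|_π for the π-part of the order of G. If k_π(G) > |G|_π/2, then G has a normal π-complement (a normal subgroup of order prime to π whose index is a π-number) and an abelian Hall subgroup for the set of odd primes in π. -/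
theorem result {G : Type*} [Group G] [Finite G] (π : Finset ℕ) (hπ : ∀ r ∈ π, r.Prime) (h2 : 2 ∈ π)
    (hk : π.prod (fun r => r ^ (Nat.card G).factorization r) < 2 * Nat.card {c : ConjClasses G // ∀ x ∈ c.carrier, ∀ r : ℕ, r.Prime → r ∣ orderOf x → r ∈ π}) :
    (∃ N : Subgroup G, N.Normal ∧ (∀ r : ℕ, r.Prime → r ∣ Nat.card ↥N → r ∉ π) ∧ ∀ r : ℕ, r.Prime → r ∣ N.index → r ∈ π) ∧ ∃ H : Subgroup G, Cfsg.IsPiHall ((↑π : Set ℕ) \ {2}) H ∧ IsMulCommutative ↥H := by
  classical
  obtain ⟨S⟩ : Nonempty (Sylow 2 G) := inferInstance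
  have hk' : 1 * π.prod (fun r => r ^ (Nat.card G).factorization r) <
      2 * H7.kc (fun x : G => ∀ r : ℕ, r.Prime → r ∣ orderOf x → r ∈ π) := by
    rw [one_mul]; exact hk
  have hn2 : Cfsg.HasNormalPComplement 2 G :=
    H7.npc_two_of_kc S (by simpa using H7.kc_prime_le π hπ h2 S 1 2 hk')
  have hO := H3.hasNormalPComplement_iff_coprime.1 hn2
  have key : ∀ r ∈ (π : Set ℕ) \ {2}, r.Prime → Cfsg.HasNormalPComplement r G ∧
      ∃ P : Sylow r G, IsMulCommutative (P : Subgroup G) := by
    rintro r ⟨hr, hr2⟩ hr'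
    haveI := Fact.mk hr'
    have hr2' : r ≠ 2 := hr2
    obtain ⟨R, hR, hSR⟩ := H1.exists_invariant_sylowOf r (A := (S : Subgroup G))
      (K := Cfsg.pResidual 2 G) Subgroup.le_normalizer_of_normal
      (H1.IsPGroup.coprime_card S.2 hO) (Or.inl (by haveI := S.2.isNilpotent; infer_instance))
    obtain ⟨h3, h4, h5⟩ := H1.isPiHallOf_singleton_iff.1 hR
    have h6 : ¬ r ∣ R.index := by
      rw [← Subgroup.relIndex_mul_index h3]
      obtain ⟨k, hk⟩ := H3.index_pResidual (p := 2) (G := G)
      intro h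
      rcases (Nat.Prime.dvd_mul hr').1 h with h | h
      · exact h5 h
      · rw [hk] at h
        exact hr2' ((Nat.prime_dvd_prime_iff_eq hr' Nat.prime_two).1 (hr'.dvd_of_dvd_pow h))
    let P : Sylow r G := h4.toSylow h6
    have hPR : (P : Subgroup G) = R := rfl
    have h7 : Nat.card (P : Subgroup G) < 2 * H7.kc (fun x : G => ∃ k, orderOf x = r ^ k) := by
      simpa using H7.kc_prime_le π hπ hr P 1 2 hk'
    haveI hc := H7.comm_of_kc hr2' P h7
    refine ⟨H7.npc_of_kc_of_two hr2' P S ?_ h7, P, hc⟩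
    have h8 := H7.kc_pi_le π hπ {2, r} (by
      intro a ha
      rcases Finset.mem_insert.1 ha with rfl | ha
      · exact h2
      · rw [Finset.mem_singleton.1 ha]; exact hr) 1 2 hk'
    rw [Finset.prod_pair hr2'.symm, ← S.card_eq_multiplicity, ← P.card_eq_multiplicity, one_mul,
      Finset.coe_pair, hPR, ← H1.card_sup_of_disjoint hSR
        (IsPGroup.disjoint_of_ne 2 r hr2'.symm _ _ S.2 h4).eq_bot] at h8
    have h9 := H7.kc_two_le hr2' S hn2 hR hSR
    by_contra h10
    haveI : IsMulCommutative (R.subgroupOf ((S : Subgroup G) ⊔ R)) := by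
      haveI : IsMulCommutative R := hc
      infer_instance
    have h11 := H7.two_mul_card_conjClasses_le (G := ((S : Subgroup G) ⊔ R : Subgroup G)) hr2'
      (R := R.subgroupOf _) h4.comap_subtype fun e => h10 fun s hs a ha => by
        have : (⟨s, Subgroup.mem_sup_left hs⟩ : ((S : Subgroup G) ⊔ R : Subgroup G)) ∈
          Subgroup.centralizer (R.subgroupOf ((S : Subgroup G) ⊔ R) : Set _) := e ▸ Subgroup.mem_top _
        exact congrArg Subtype.val (this ⟨a, Subgroup.mem_sup_right ha⟩ ha)
    omega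
  obtain ⟨N, h1, h3, h4, -⟩ := H7.piResid_spec (G := G) (π : Set ℕ) fun r a b => by
    by_cases e : r = 2
    · subst e; exact hn2
    · exact (key r ⟨a, e⟩ b).1
  exact ⟨⟨N, h1, h3, h4⟩, H7.exists_abelian_hall _ key⟩

end Cfsg.Agent.S3898
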