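import Cfsg.Statements.S3899
import Cfsg.Agent.H7.PiClass2

set_option autoImplicit false
open Cfsg

namespace Cfsg.Agent.S3899



/-- Let π be a finite non-empty set of odd primes with smallest member p and G a finite group. Write k_π(G) for the number of conjugacy classes of G consisting of π-elements (elements all of whose order's prime divisors lie in π) and |G|_π for the π-part of the order of G. If k_π(G) > (p + 1)|G|_π/(2p), then G has a normal π-complement (a normal subgroup of order prime to π whose index is a π-number) and an abelian Hall π-subgroup. -/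
theorem result {G : Type*} [Group G] [Finite G] (π : Finset ℕ) (hπ : ∀ r ∈ π, r.Prime) (h2 : 2 ∉ π) (p : ℕ) (hp : p ∈ π)
    (hmin : ∀ r ∈ π, p ≤ r) (hk : (p + 1) * π.prod (fun r => r ^ (Nat.card G).factorization r) < 2 * p * Nat.card {c : ConjClasses G // ∀ x ∈ c.carrier, ∀ r : ℕ, r.Prime → r ∣ orderOf x → r ∈ π}) :
    (∃ N : Subgroup G, N.Normal ∧ (∀ r : ℕ, r.Prime → r ∣ Nat.card ↥N → r ∉ π) ∧ ∀ r : ℕ, r.Prime → r ∣ N.index → r ∈ π) ∧ ∃ H : Subgroup G, Cfsg.IsPiHall (↑π : Set ℕ) H ∧ IsMulCommutative ↥H := by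
  have key : ∀ r ∈ (π : Set ℕ), r.Prime → Cfsg.HasNormalPComplement r G ∧
      ∃ P : Sylow r G, IsMulCommutative (P : Subgroup G) := by
    intro r hr hr'
    haveI := Fact.mk hr'
    obtain ⟨P⟩ : Nonempty (Sylow r G) := inferInstance
    have h1 := H7.kc_prime_le π hπ hr P _ _ hk
    have h2 := hmin r hr
    have h3 := (hπ p hp).pos
    have h4 := H7.npc_of_kc P (by
      refine lt_of_mul_lt_mul_left (a := p) ?_ (Nat.zero_le _)
      have h5 := Nat.mul_lt_mul_of_pos_left h1 hr'.pos
      nlinarith [Nat.mul_le_mul_right (Nat.card (P : Subgroup G)) h2])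
    exact ⟨h4.1, P, h4.2⟩
  obtain ⟨N, h1, h2, h3, -⟩ := H7.piResid_spec (π : Set ℕ) fun r a b => (key r a b).1
  exact ⟨⟨N, h1, h2, h3⟩, H7.exists_abelian_hall _ key⟩

end Cfsg.Agent.S3899
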