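import Cfsg.Statements.S3903
import Cfsg.Agent.H6.DJT
import Cfsg.Agent.H6.Misc

set_option autoImplicit false
open Cfsg

namespace Cfsg.Agent.S3903

open Subgroup

theorem cent_pgroup {G : Type*} [Group G] [Finite G] (N : Subgroup G) [N.Normal]
    (h : ∀ x : G, x ∉ N → IsPrimePow (orderOf x)) {x : G} (hx : x ∉ N) {p k : ℕ} [hp : Fact p.Prime]
    (hk : orderOf x = p ^ k) : IsPGroup p (centralizer ({x} : Set G)) := by
  rw [IsPGroup.iff_card]
  refine ⟨_, Nat.eq_prime_pow_of_unique_prime_dvd Nat.card_pos.ne' fun {q} hq hd => ?_⟩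
  by_contra hne
  haveI := Fact.mk hq
  obtain ⟨y, hy⟩ := exists_prime_orderOf_dvd_card' q hd
  have hc : Commute x y := (mem_centralizer_iff.1 y.2 x rfl)
  have hy' : orderOf (y : G) = q := by rw [orderOf_coe, hy]
  have hcop : (orderOf x).Coprime (orderOf (y : G)) := by
    rw [hk, hy']; exact ((Nat.coprime_primes hp.out hq).2 (Ne.symm hne)).pow_left _
  have hz : x * y ∈ N := by
    by_contra hz
    have h1 := h _ hz
    rw [hc.orderOf_mul_eq_mul_orderOf_of_coprime hcop] at h1
    rcases (Nat.Coprime.isPrimePow_dvd_mul hcop h1).1 dvd_rfl with h2 | h2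
    · have := Nat.le_of_dvd (orderOf_pos _) h2
      have := hq.two_le
      have := orderOf_pos x
      rw [hy'] at *
      nlinarith
    · have := Nat.le_of_dvd (orderOf_pos _) h2
      have := (h x hx).two_le
      have := hq.two_le
      nlinarith
  have h2 : x ^ q ∈ N := by
    have := N.pow_mem hz q
    rwa [hc.mul_pow, ← hy', pow_orderOf_eq_one, mul_one, hy'] at this
  obtain ⟨m, hm⟩ := exists_pow_eq_self_of_coprime (x := x) (n := q) (hy' ▸ hcop.symm)
  exact hx (hm ▸ N.pow_mem h2 m)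

/-- Let N be a proper normal subgroup of the finite group G such that every element x of G outside N has prime power order and has centralizer C_G(x) a maximal subgroup of G. Then N is solvable. -/
theorem result {G : Type*} [Group G] [Finite G] (N : Subgroup G) [N.Normal] (hN : N ≠ ⊤)
    (h : ∀ x : G, x ∉ N → IsPrimePow (orderOf x) ∧ IsCoatom (Subgroup.centralizer ({x} : Set G))) : Group.IsSolvable ↥N := by
  classical
  obtain ⟨x, hx⟩ : ∃ x, x ∉ N := by
    by_contra! h1
    exact hN (eq_top_iff.2 fun x _ => h1 x)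
  suffices Group.IsSolvable G from inferInstance
  by_cases h2 : ∃ y, y ∉ N ∧ ∀ k, orderOf y ≠ 2 ^ k
  · obtain ⟨y, hy, hy2⟩ := h2
    obtain ⟨p, k, hp, -, hk⟩ := (isPrimePow_nat_iff _).1 (h y hy).1
    haveI := Fact.mk hp
    have hP := cent_pgroup N (fun x hx => (h x hx).1) hy hk.symm
    refine H6.isSolvable_of_nilpotent_coatom_central (h y hy).2 hP.isNilpotent ?_
    rintro z ⟨l, hl⟩
    obtain ⟨m, hm⟩ := (IsPGroup.iff_orderOf.1 hP) z
    have hp2 : p ≠ 2 := by rintro rfl; exact hy2 k hk.symm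
    have : orderOf z = 1 := Nat.Coprime.eq_one_of_dvd (k := orderOf z)
      (by nth_rewrite 1 [hm]; rw [hl]; exact ((Nat.coprime_primes hp Nat.prime_two).2 hp2).pow _ _) dvd_rfl
    rw [orderOf_eq_one_iff.1 this]; exact one_mem _
  push Not at h2
  have hS : ∀ y, y ∉ N → IsPGroup 2 (centralizer ({y} : Set G)) := fun y hy => by
    obtain ⟨k, hk⟩ := h2 y hy
    exact cent_pgroup N (fun x hx => (h x hx).1) hy hk
  by_cases hG : IsPGroup 2 G
  · haveI := hG.isNilpotent; infer_instance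
  have hS' : ∀ y, y ∉ N → ∃ Q : Sylow 2 G, (Q : Subgroup G) = centralizer ({y} : Set G) := fun y hy => by
    obtain ⟨Q, hQ⟩ := (hS y hy).exists_le_sylow
    refine ⟨Q, ?_⟩
    rcases hQ.eq_or_lt with e | e
    · exact e.symm
    · exact absurd ((Q.isPGroup'.of_equiv (MulEquiv.subgroupCongr ((h y hy).2.2 _ e))).of_equiv topEquiv) hG
  obtain ⟨P, hP⟩ := hS' x hx
  have hxP : x ∈ (P : Subgroup G) := hP ▸ mem_centralizer_iff.2 (by simp)
  have hq : IsPGroup 2 (G ⧸ N) := fun g => by
    obtain ⟨g, rfl⟩ := QuotientGroup.mk_surjective g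
    by_cases hg : g ∈ N
    · exact ⟨0, by simpa using hg⟩
    · obtain ⟨k, hk⟩ := h2 g hg
      exact ⟨k, by rw [← QuotientGroup.mk_pow, ← hk, pow_orderOf_eq_one, QuotientGroup.mk_one]⟩
  have hsup : (P : Subgroup G) ⊔ N = ⊤ := by
    obtain ⟨k, hk⟩ := IsPGroup.iff_card.1 hq
    rw [← index_eq_one]
    refine Nat.Coprime.eq_one_of_dvd (k := ((P : Subgroup G) ⊔ N).index) ?_ dvd_rfl
    refine Nat.Coprime.coprime_dvd_left (index_dvd_of_le le_sup_left)
      (Nat.Coprime.coprime_dvd_right (index_dvd_of_le le_sup_right) ?_)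
    rw [index_eq_card N, hk]
    exact ((Nat.prime_two.coprime_iff_not_dvd.2 P.not_dvd_index).symm).pow_right _
  have c1 := relIndex_sup_right (P : Subgroup G) N
  rw [hsup, relIndex_top_right, relIndex] at c1
  have c2 := (N.subgroupOf P).card_mul_index
  have c3 := N.card_mul_index
  have c4 := (P : Subgroup G).card_mul_index
  have c5 : Nat.card N = (P : Subgroup G).index * Nat.card (N.subgroupOf P) := by
    refine Nat.eq_of_mul_eq_mul_right (Nat.pos_of_ne_zero N.index_ne_zero_of_finite) ?_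
    rw [c3, ← c4, ← c2, ← c1]; ring
  have c6 : Nat.card {g : G // g ∉ N} + Nat.card N = Nat.card G := by
    rw [add_comm, ← Nat.card_sum]; exact Nat.card_congr (Equiv.sumCompl _)
  have c7 : Nat.card {g : P // g ∉ N.subgroupOf P} + Nat.card (N.subgroupOf P) = Nat.card P := by
    rw [add_comm, ← Nat.card_sum]; exact Nat.card_congr (Equiv.sumCompl _)
  let Z := {g : P // g ∉ N.subgroupOf P ∧ g ∈ center P}
  let f : (G ⧸ (P : Subgroup G)) × Z → {g : G // g ∉ N} := fun q =>
    ⟨q.1.out * q.2.1.1 * q.1.out⁻¹, fun h => q.2.2.1 (mem_subgroupOf.2 (by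
      simpa [mul_assoc] using ‹N.Normal›.conj_mem _ h q.1.out⁻¹))⟩
  have hf : Function.Surjective f := by
    rintro ⟨y, hy⟩
    obtain ⟨Q, hQ⟩ := hS' y hy
    obtain ⟨g, rfl⟩ := MulAction.exists_smul_eq G P Q
    have hm : ∀ z, z ∈ centralizer ({y} : Set G) ↔ g⁻¹ * z * g ∈ (P : Subgroup G) := fun z => by
      rw [← hQ, Sylow.coe_subgroup_smul, mem_pointwise_smul_iff_inv_smul_mem]; simp
    have hy1 : g⁻¹ * y * g ∈ (P : Subgroup G) := (hm y).1 (mem_centralizer_iff.2 (by simp))
    have hy2 : ∀ s ∈ (P : Subgroup G), s * (g⁻¹ * y * g) = g⁻¹ * y * g * s := fun s hs => by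
      have := mem_centralizer_iff.1 ((hm (g * s * g⁻¹)).2 (by simpa [mul_assoc] using hs)) y rfl
      calc _ = g⁻¹ * (g * s * g⁻¹ * y) * g := by group
        _ = _ := by rw [← this]; group
    obtain ⟨s, hs⟩ := QuotientGroup.mk_out_eq_mul (P : Subgroup G) g
    refine ⟨⟨g, ⟨⟨_, hy1⟩, fun h => hy (by
      simpa [mul_assoc, mem_subgroupOf] using ‹N.Normal›.conj_mem _ h g),
        mem_center_iff.2 fun s => Subtype.ext (hy2 s s.2)⟩⟩, Subtype.ext ?_⟩
    show (g : G ⧸ (P : Subgroup G)).out * (g⁻¹ * y * g) * (g : G ⧸ (P : Subgroup G)).out⁻¹ = y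
    rw [hs, mul_assoc g, hy2 s s.2]; group
  have c8 := Nat.card_le_card_of_surjective f hf
  rw [Nat.card_prod, ← index_eq_card] at c8
  have c9 : Nat.card {g : P // g ∉ N.subgroupOf P} ≤ Nat.card Z := by
    refine Nat.le_of_mul_le_mul_left ?_ (Nat.pos_of_ne_zero (P : Subgroup G).index_ne_zero_of_finite)
    refine le_trans (le_of_eq ?_) c8
    refine Nat.add_right_cancel (m := Nat.card N) ?_
    rw [c6, c5, ← mul_add, c7, ← c4, mul_comm]
  let ι : Z → {g : P // g ∉ N.subgroupOf P} := fun z => ⟨z.1, z.2.1⟩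
  have hι : Function.Bijective ι := by
    have hi : Function.Injective ι := fun a b e => Subtype.ext (Subtype.mk.inj e)
    exact (Nat.bijective_iff_injective_and_card _).2 ⟨hi, le_antisymm (Nat.card_le_card_of_injective _ hi) c9⟩
  have hc : ∀ g : P, g ∉ N.subgroupOf P → g ∈ center P := fun g hg => by
    obtain ⟨z, hz⟩ := hι.2 ⟨g, hg⟩
    exact (Subtype.mk.inj hz : z.1 = g) ▸ z.2.2
  have hc' : ∀ g : P, g ∈ center P := fun g => by
    by_cases hg : g ∈ N.subgroupOf P
    · have h1 := hc ⟨x, hxP⟩ hx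
      have h3 := hc (g * ⟨x, hxP⟩) fun h => hx ((mul_mem_cancel_left hg).1 h)
      exact (mul_mem_cancel_right h1).1 h3
    · exact hc g hg
  have hco := (h x hx).2
  rw [← hP] at hco
  exact H6.isSolvable_of_nilpotent_coatom_central hco P.isPGroup'.isNilpotent fun g _ => hc' g

end Cfsg.Agent.S3903
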