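import Cfsg.Statements.S3904
import Cfsg.Agent.H12.CM

set_option autoImplicit false
open Cfsg

namespace Cfsg.Agent.S3904

open Subgroup H16 H12.CM

/-- Let G be a non-abelian finite group in which the centralizer of every non-central element is a maximal subgroup. Then G/Z(G) is either an elementary abelian p-group for some prime p, or a minimal non-abelian group (non-abelian with all proper subgroups abelian) of order p^a · q for distinct primes p, q with a normal Sylow p-subgroup. -/
theorem result {G : Type*} [Group G] [Finite G] (hna : ¬ IsMulCommutative G)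
    (h : ∀ x : G, x ∉ Subgroup.center G → IsCoatom (Subgroup.centralizer ({x} : Set G))) :
    (∃ p : ℕ, p.Prime ∧ Cfsg.IsElementaryAbelian p (⊤ : Subgroup (G ⧸ Subgroup.center G))) ∨
    (¬ IsMulCommutative (G ⧸ Subgroup.center G) ∧ (∀ H : Subgroup (G ⧸ Subgroup.center G), H ≠ ⊤ → IsMulCommutative ↥H) ∧
      ∃ p q a : ℕ, p.Prime ∧ q.Prime ∧ p ≠ q ∧ Nat.card (G ⧸ Subgroup.center G) = p ^ a * q ∧
        ∀ P : Subgroup (G ⧸ Subgroup.center G), Nat.card ↥P = p ^ a → P.Normal) := by
  have ec : C[(⊤ : Subgroup G)] = center G := by rw [coe_top, centralizer_univ]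
  have hy : Hy (⊤ : Subgroup G) := fun x _ hx => h x (ec ▸ hx)
  by_cases h2 : Two (⊤ : Subgroup G)
  · right
    obtain ⟨A, y, p, q, hp, hq, hpq, hAn, -, hab, h0, hAp, -, hy', hyq, hg, hf⟩ := Hy.struct hy h2
    rw [ec] at h0 hAp hy' hyq hf
    obtain ⟨K, hK, hK0, hKe, ho, k1, k2⟩ := quot hp hq hpq hab h0 hAp hy' hyq (fun g => hg g trivial) hf
    obtain ⟨hd, f1, f2⟩ := frob hp hq hpq hK0 hKe.2 ho k1 k2
    let π := QuotientGroup.mk' (center G)
    have hπ : Function.Surjective π := QuotientGroup.mk'_surjective _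
    have hk : π.ker = center G := QuotientGroup.ker_mk' _
    set z : G ⧸ center G := QuotientGroup.mk y with hz
    have hQ : IsCoatom (zpowers z) := by
      refine ⟨f1.2.1, fun L hL => ?_⟩
      have h1 : C1[y] ≤ (zpowers z).comap π := fun g hg' => by
        obtain ⟨k, hk, i, e⟩ := k1 (π g)
        have e2 : π g * z = z * π g := by
          rw [show z = π y from rfl, ← map_mul, ← map_mul, mem_cent1.1 hg']
        rw [e, mul_assoc, ← pow_succ, pow_succ', ← mul_assoc, ← mul_assoc, mul_left_inj] at e2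
        rw [mem_comap, e, k2 k hk e2, one_mul]
        exact pow_mem (mem_zpowers _) _
      have := (h y hy').2 (L.comap π) (h1.trans_lt ((comap_lt_comap_of_surjective hπ).2 hL))
      rw [← map_comap_eq_self_of_surjective hπ L, this, map_top_of_surjective _ hπ]
    have hle : ∀ H : Subgroup (G ⧸ center G), ¬ q ∣ Nat.card H → H ≤ K := fun H hH g hg' => by
      refine mem_of_pow (n := q) ?_ ((Nat.Prime.coprime_iff_not_dvd hq).2 fun e => hH (e.trans (orderOf_dvd_card hg'))).symm
      obtain ⟨k, hk, i, rfl⟩ := k1 g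
      rw [← QuotientGroup.eq_one_iff] at hk ⊢
      rw [QuotientGroup.mk_pow, QuotientGroup.mk_mul, hk, one_mul, ← QuotientGroup.mk_pow, ← pow_mul, mul_comm,
        pow_mul, ← ho, pow_orderOf_eq_one, one_pow, QuotientGroup.mk_one]
    haveI : Fact p.Prime := ⟨hp⟩
    obtain ⟨a, ha⟩ := IsPGroup.iff_card.1 (show IsPGroup p K from fun k => ⟨1, Subtype.ext (by simpa using hKe.2 k k.2)⟩)
    refine ⟨fun hc => ?_, fun H hH => ?_, p, q, a, hp, hq, hpq, ?_, fun P hP => ?_⟩
    · obtain ⟨k, hk, hk1⟩ := exists_ne_one hK0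
      exact hk1 (k2 k hk (hc.is_comm.comm _ _))
    · by_cases hqH : q ∣ Nat.card H
      · obtain ⟨w, hw, hwo⟩ := exists_orderOf hq hqH
        have hw1 : w ≠ 1 := fun e => hq.one_lt.ne (by rw [← hwo, e, orderOf_one])
        have hwK : w ∉ Cfsg.frobeniusKernel (zpowers z) := fun e => by
          have h1 : w ∈ K := by rw [← SetLike.mem_coe, f2]; exact e
          exact hpq ((Nat.prime_dvd_prime_iff_eq hq hp).1 (hwo ▸ orderOf_dvd_of_pow_eq_one (hKe.2 w h1))).symm
        rw [H2.mem_frobKernel_iff] at hwK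
        push Not at hwK
        obtain ⟨g, hg'⟩ := hwK.2
        have h1 : zpowers z ≤ H :^ g⁻¹ := by
          rw [← zpowers_eq_of_prime (by rw [card_zpowers, ho]; exact hq) hg' (fun e => hw1 (by
            have e' : w = g * (g⁻¹ * w * g) * g⁻¹ := by group
            rw [e', e]; group)), zpowers_le]
          simpa using cj_mem (g := g⁻¹) hw
        have h3 : H :^ g⁻¹ = zpowers z := by
          by_contra hne
          exact hH (cj_eq_top.1 (hQ.2 _ (lt_of_le_of_ne h1 (Ne.symm hne))))
        rw [← comm_cj g⁻¹, h3]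
        exact comm_of_cyclic (cyclic_zpowers _)
      · exact comm_of_le hKe.1 (hle H hqH)
    · have e : K ⊔ zpowers z = ⊤ := eq_top_iff.2 fun g _ => by
        obtain ⟨k, hk, i, rfl⟩ := k1 g
        exact mul_mem (mem_sup_left hk) (mem_sup_right (pow_mem (mem_zpowers z) i))
      have h1 := card_sup_of_inf_bot (H := K) (K := zpowers z) (Or.inr le_normalizer_of_normal) hd
      rwa [e, card_top, ha, card_zpowers, ho] at h1
    · rw [eq_of_le_of_card (hle P fun e => hpq ((Nat.prime_dvd_prime_iff_eq hq hp).1 (hq.dvd_of_dvd_pow (hP ▸ e))).symm)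
        (by rw [hP, ha])]
      exact hK
  · left
    obtain ⟨p, hp, h3, h4⟩ := Hy.one hy h2
    rw [ec] at h3 h4
    exact ⟨p, hp, elem (fun a b => h3 a trivial b trivial) fun a => h4 a trivial⟩

end Cfsg.Agent.S3904
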