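import Cfsg.Statements.S3905
import Cfsg.Agent.H12.CM

set_option autoImplicit false
open Cfsg

namespace Cfsg.Agent.S3905

open Subgroup H16 H12.CM

/-- Let N be a normal subgroup of the finite group G such that for every element x of N outside the center of N the centralizer C_G(x) is a maximal subgroup of G. Then N/Z(N) is either an elementary abelian p-group for some prime p, or a Frobenius group whose kernel is an elementary abelian normal subgroup and whose complement has prime order. -/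
theorem result {G : Type*} [Group G] [Finite G] (N : Subgroup G) [N.Normal]
    (h : ∀ x : G, x ∈ N → x ∉ Subgroup.centralizer (N : Set G) → IsCoatom (Subgroup.centralizer ({x} : Set G))) :
    (∃ p : ℕ, p.Prime ∧ Cfsg.IsElementaryAbelian p (⊤ : Subgroup (↥N ⧸ Subgroup.center ↥N))) ∨
    (∃ (Q K : Subgroup (↥N ⧸ Subgroup.center ↥N)) (p : ℕ), p.Prime ∧ Cfsg.IsFrobeniusComplement Q ∧ (Nat.card ↥Q).Prime ∧
      K.Normal ∧ (K : Set (↥N ⧸ Subgroup.center ↥N)) = Cfsg.frobeniusKernel Q ∧ Cfsg.IsElementaryAbelian p K) := by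
  by_cases h2 : Two N
  · right
    obtain ⟨A, y, p, q, hp, hq, hpq, hAn, hAN, hab, h0, hAp, hy, hy', hyq, hg, hf⟩ := Hy.struct h h2
    obtain ⟨K, hK, hK0, hKe, ho, k1, k2⟩ := quot (A := A.subgroupOf N) (y := (⟨y, hy⟩ : N)) hp hq hpq
      (fun a ha => mem_cent.2 fun b hb => Subtype.ext (mem_cent.1 (hab ha) b hb))
      (fun e => h0 fun a ha => mem_center_sub.1 (e (show (⟨a, hAN ha⟩ : N) ∈ A.subgroupOf N from ha)))
      (fun a ha => mem_center_sub.2 (hAp a ha)) (fun e => hy' (mem_center_sub.1 e)) (mem_center_sub.2 hyq)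
      (fun g => by
        obtain ⟨a, ha, i, e⟩ := hg g g.2
        exact ⟨⟨a, hAN ha⟩, ha, i, Subtype.ext e⟩)
      (fun k hk e => mem_center_sub.2 (hf k hk (congrArg Subtype.val e)))
    obtain ⟨-, f1, f2⟩ := frob hp hq hpq hK0 hKe.2 ho k1 k2
    exact ⟨_, K, p, hp, f1, by rw [card_zpowers, ho]; exact hq, hK, f2, hKe⟩
  · left
    obtain ⟨p, hp, h3, h4⟩ := Hy.one h h2
    exact ⟨p, hp, elem (fun a b => mem_center_sub.2 (h3 a a.2 b b.2)) fun a => mem_center_sub.2 (h4 a a.2)⟩

end Cfsg.Agent.S3905
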