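import Cfsg.Statements.S3906
import Cfsg.Agent.H10.Kr4

set_option autoImplicit false
open Cfsg H10

namespace Cfsg.Agent.S3906

/-- Let p be a prime and let k ≥ 3, c ≥ 0 and d ≥ 0 be integers with 2^d + 2 ≤ k. There is a bound B depending only on p, k, c and d such that the following holds for every finite group G of order prime to p and every elementary abelian subgroup A of order p^k of the automorphism group of G: if, for every non-identity a ∈ A, the d-th derived subgroup of the fixed-point subgroup C_G(a) (the 0-th derived subgroup of a group being the group itself) is nilpotent of class at most c, then the d-th derived subgroup of G is nilpotent of class at most B. -/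
theorem result (p k c d : ℕ) (hp : p.Prime) (hk : 3 ≤ k) (hd : 2 ^ d + 2 ≤ k) :
    ∃ B : ℕ, ∀ (G : Type) [Group G] [Finite G], (Nat.card G).Coprime p →
      ∀ A : Subgroup (MulAut G), Cfsg.IsElementaryAbelian p A → Nat.card ↥A = p ^ k →
        (∀ a ∈ A, a ≠ 1 → (derivedSeries ↥((a : MulAut G).toMonoidHom.eqLocus (MonoidHom.id G)) d).lowerCentralSeries c = ⊥) →
        (derivedSeries G d).lowerCentralSeries B = ⊥ := by
  refine ⟨KR.bdK p (c + 1) (d + c) (KR.cD (2 ^ p ^ k) d), fun G _ _ hc A hA hk' h => ?_⟩
  obtain ⟨h1, h2, h3, h4⟩ := KR.sdp_setup hc hA hk'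
  have := KR.amb_D (c := c) hp h1 h2 hk hd h3 (fun a' ha' h0 => by
    obtain ⟨a, ha, h5, e⟩ := h4 a' ha' h0
    rw [e, ← KR.map_dS, ← Subgroup.map_lowerCentralSeries, KR.dS_top, h a ha h5, Subgroup.map_bot])
  rw [← KR.map_dS, ← Subgroup.map_lowerCentralSeries, KR.dS_top,
    Subgroup.map_eq_bot_iff_of_injective _ SemidirectProduct.inl_injective] at this
  exact this

end Cfsg.Agent.S3906
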