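import Cfsg.Statements.S3908
import Cfsg.Agent.S0016
import Cfsg.Agent.H9.Rank
import Cfsg.Agent.H7.PGrp2
import Cfsg.Agent.H10.SylowIn

set_option autoImplicit false
open Cfsg

namespace Cfsg.Agent.S3908

open Subgroup in
theorem H7.s3908_aux {G : Type*} [Group G] [Finite G] (hB : ∀ A B : Subgroup G, IsMulCommutative ↥A → IsMulCommutative ↥B → Nat.card ↥A = Nat.card ↥B → ∃ g : G, B = A.map (MulAut.conj g).toMonoidHom) {p : ℕ} [hp : Fact p.Prime] (P : Subgroup G) (hP : IsPGroup p P) :
    (∀ x ∈ P, x ^ p = 1) ∨ IsCyclic P ∨ (p = 2 ∧ ∃ n : ℕ, Nonempty (P ≃* QuaternionGroup (2 ^ n))) := by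
  rw [or_iff_not_imp_left]
  intro hx
  push Not at hx
  obtain ⟨x, hxP, hx⟩ := hx
  obtain ⟨k, hk⟩ := H10.orderOf_eq_pow_of_mem hP hxP
  obtain ⟨k, rfl⟩ : ∃ m, k = m + 2 := by
    refine ⟨k - 2, ?_⟩
    by_contra h
    apply hx
    rw [← orderOf_dvd_iff_pow_eq_one, hk]
    have : k ≤ 1 := by omega
    simpa using pow_dvd_pow p this
  have h1 := H9.orderOf_pow_prime_pow hk
  have key : ∀ H K : Subgroup P, Nat.card H = p → Nat.card K = p → K ≤ center P → H = K := by
    intro H K hH hK hc
    by_contra hne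
    have hHe : ∀ a ∈ H, a ^ p = 1 := fun a ha => by
      have := pow_card_eq_one' (x := (⟨a, ha⟩ : H))
      rw [hH] at this; exact congrArg Subtype.val this
    have hKe : ∀ a ∈ K, a ^ p = 1 := fun a ha => by
      have := pow_card_eq_one' (x := (⟨a, ha⟩ : K))
      rw [hK] at this; exact congrArg Subtype.val this
    haveI := isCyclic_of_prime_card hH
    haveI := isCyclic_of_prime_card hK
    have h2 := H9.elementary_sup (p := p) (A := H) (B := K) ⟨inferInstance, hHe⟩ ⟨inferInstance, hKe⟩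
      fun a _ b hb => mem_center_iff.1 (hc hb) a
    have h3 : H ⊓ K = ⊥ := (H7.eq_or_eq_bot_of_card_prime hK inf_le_right).resolve_right fun e =>
      hne (eq_of_le_of_card_ge (inf_eq_right.1 e) (by omega)).symm
    have h4 := H1.card_sup_of_disjoint
      (H5.le_normalizer_of_le_centralizer (le_centralizer_iff.1 (hc.trans (center_le_centralizer _)))) h3
    haveI := h2.1
    obtain ⟨g, hg⟩ := hB ((H ⊔ K).map P.subtype) (zpowers (x ^ p ^ k)) inferInstance inferInstance (by
      rw [card_map_of_injective P.subtype_injective, h4, hH, hK, Nat.card_zpowers, h1, pow_two])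
    have h5 := mem_zpowers (x ^ p ^ k)
    rw [hg] at h5
    obtain ⟨_, ⟨y, hy, rfl⟩, e⟩ := h5
    have h6 : (x ^ p ^ k) ^ p = 1 := by
      rw [← e, ← map_pow, ← map_pow, h2.2 y hy, map_one, map_one]
    have h7 := Nat.le_of_dvd hp.out.pos (h1 ▸ orderOf_dvd_of_pow_eq_one h6)
    have := hp.out.one_lt
    nlinarith
  refine Cfsg.Agent.S0016.result p hP fun H K hH hK => ?_
  obtain ⟨z, -, hz, hz2⟩ := H9.exists_mem_center_orderOf_eq hP (M := ⊤) (fun e => by
    have : H = ⊥ := le_bot_iff.1 (e ▸ le_top)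
    rw [this, card_bot] at hH
    exact hp.out.one_lt.ne hH)
  have h2 : Nat.card (zpowers z) = p := by rw [Nat.card_zpowers, hz2]
  rw [key H _ hH h2 (zpowers_le.2 hz), key K _ hK h2 (zpowers_le.2 hz)]

/-- Let G be a finite group in which any two abelian subgroups of the same order are conjugate. Then a Sylow 2-subgroup of G is cyclic, elementary abelian or generalized quaternion, and for an odd prime p a Sylow p-subgroup of G is cyclic or has exponent dividing p. -/
theorem result {G : Type*} [Group G] [Finite G] (hB : ∀ A B : Subgroup G, IsMulCommutative ↥A → IsMulCommutative ↥B → Nat.card ↥A = Nat.card ↥B → ∃ g : G, B = A.map (MulAut.conj g).toMonoidHom) :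
    (∀ P : Sylow 2 G, IsCyclic ↥(P : Subgroup G) ∨ Cfsg.IsElementaryAbelian 2 (P : Subgroup G) ∨ ∃ k : ℕ, Nonempty (↥(P : Subgroup G) ≃* QuaternionGroup (2 ^ k))) ∧
    ∀ (p : ℕ) [Fact p.Prime], p ≠ 2 → ∀ P : Sylow p G, IsCyclic ↥(P : Subgroup G) ∨ ∀ x ∈ (P : Subgroup G), x ^ p = 1 := by
  refine ⟨fun P => ?_, fun p _ hp P => ?_⟩
  · rcases H7.s3908_aux hB _ P.2 with h | h | h
    · refine Or.inr (Or.inl ⟨H1.isMulCommutative_iff'.2 fun a ha b hb => ?_, h⟩)
      have h1 := h _ (mul_mem ha hb)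
      have h2 := h a ha
      have h3 := h b hb
      rw [pow_two] at h1 h2 h3
      calc a * b = a * (a * b * (a * b)) * b := by rw [h1, mul_one]
        _ = (a * a) * (b * a) * (b * b) := by group
        _ = b * a := by rw [h2, h3]; group
    · exact Or.inl h
    · exact Or.inr (Or.inr h.2)
  · rcases H7.s3908_aux hB _ P.2 with h | h | h
    · exact Or.inr h
    · exact Or.inl h
    · exact absurd h.1 hp

end Cfsg.Agent.S3908
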