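import Cfsg.Statements.S3909
import Cfsg.Agent.H7.Simple
import Cfsg.Agent.H9.Basic

set_option autoImplicit false
open Cfsg

namespace Cfsg.Agent.S3909



/-- Let G be a finite group in which any two abelian subgroups of the same order are conjugate. Let M be a normal subgroup of G. If M contains an element of the same order as a ∈ G, then a ∈ M; and if M is elementary abelian of order p^t with p prime and t ≥ 2, then M is the unique Sylow p-subgroup of G. -/
theorem result {G : Type*} [Group G] [Finite G] (hB : ∀ A B : Subgroup G, IsMulCommutative ↥A → IsMulCommutative ↥B → Nat.card ↥A = Nat.card ↥B → ∃ g : G, B = A.map (MulAut.conj g).toMonoidHom) (M : Subgroup G) [M.Normal] :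
    (∀ a : G, (∃ m ∈ M, orderOf m = orderOf a) → a ∈ M) ∧
    ∀ (p t : ℕ) [Fact p.Prime], 2 ≤ t → Nat.card ↥M = p ^ t → Cfsg.IsElementaryAbelian p M → ∀ P : Sylow p G, (P : Subgroup G) = M := by
  have key : ∀ (a : G) (E : Subgroup G), E ≤ M → IsMulCommutative E → Nat.card E = orderOf a → a ∈ M := by
    intro a E hE hc h
    obtain ⟨g, hg⟩ := hB E (Subgroup.zpowers a) hc inferInstance (by rw [h, Nat.card_zpowers])
    have : a ∈ E.map (MulAut.conj g).toMonoidHom := hg ▸ Subgroup.mem_zpowers a
    have h2 := (inferInstance : M.Normal).conj_mem _ (hE (H7.mem_cj.1 this)) g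
    simpa [mul_assoc] using h2
  refine ⟨?_, fun p t _ ht hM hE P => ?_⟩
  · rintro a ⟨m, hm, h⟩
    exact key a (Subgroup.zpowers m) (Subgroup.zpowers_le.2 hm) inferInstance
      (by rw [Nat.card_zpowers, h])
  · refine le_antisymm ?_ ((IsPGroup.of_card hM).le_sylow_of_normal P)
    by_contra hle
    obtain ⟨x, hxP, hx⟩ := SetLike.not_le_iff_exists.1 hle
    obtain ⟨j, h1, h2⟩ := H9.exists_pow_not_mem_pow_mem P.2 (N := M.subgroupOf P) (x := ⟨x, hxP⟩) hx
    apply h1
    have h3 : (x ^ p ^ j) ^ p ^ 2 = 1 := by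
      rw [sq, pow_mul]
      exact hE.2 _ h2
    obtain ⟨k, hk, e⟩ := (Nat.dvd_prime_pow Fact.out).1 (orderOf_dvd_of_pow_eq_one h3)
    obtain ⟨E, hE'⟩ := Sylow.exists_subgroup_card_pow_prime (G := M) p (n := k)
      (hM ▸ pow_dvd_pow p (hk.trans ht))
    haveI := hE.1
    exact key (x ^ p ^ j) (E.map M.subtype) (Subgroup.map_subtype_le _)
      (H1.isMulCommutative_of_le (Subgroup.map_subtype_le _))
      (by rw [Subgroup.card_map_of_injective M.subtype_injective, hE', e])

end Cfsg.Agent.S3909
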