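import Cfsg.Statements.S3910
import Cfsg.Agent.H7.Simple
import Cfsg.Agent.H9.NormalCyc

set_option autoImplicit false
open Cfsg

namespace Cfsg.Agent.S3910

theorem aux {P : Type*} [Group P] [Finite P] {p : ℕ} [hp : Fact p.Prime] (hP : IsPGroup p P)
    (h : ∀ A B : Subgroup P, A.Normal → IsMulCommutative A → IsMulCommutative B →
      Nat.card A = Nat.card B → B = A) : IsCyclic P := by
  obtain ⟨A, hAn, hA, -, hC, -⟩ := H9.exists_maximal_abelian_normal hP ⊥ inferInstance
  obtain ⟨a, ha⟩ := H9.card_eq_pow hP A
  have hall : ∀ x : P, x ∈ A := by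
    intro x
    obtain ⟨m, hm⟩ := H9.card_eq_pow hP (Subgroup.zpowers x)
    rcases le_or_gt m a with hle | hlt
    · obtain ⟨K, hK, -, hKA, hc⟩ := H9.exists_normal_card_eq_pow hP (bot_le : ⊥ ≤ A) (k := m)
        (by simpa using Nat.one_le_pow _ _ hp.out.pos) (ha ▸ Nat.pow_le_pow_right hp.out.pos hle)
      exact hKA (h K _ hK (H1.isMulCommutative_of_le hKA) inferInstance (hc.trans hm.symm) ▸
        Subgroup.mem_zpowers x)
    · rw [Nat.card_zpowers] at hm
      obtain ⟨d, rfl⟩ := Nat.exists_eq_add_of_le' hlt.le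
      have := h A (Subgroup.zpowers (x ^ p ^ d)) hAn hA inferInstance
        (by rw [Nat.card_zpowers, H9.orderOf_pow_prime_pow hm, ha])
      rw [← hC, ← this, H9.mem_centralizer_zpowers]
      exact (Commute.refl x).pow_left _
  have hA' : A = ⊤ := eq_top_iff.2 fun x _ => hall x
  subst hA'
  rw [← H9.isCyclic_iff_top]
  refine H9.isCyclic_of_abelian_unique hP hA fun x _ y _ hx hy => ?_
  by_cases hy1 : y = 1
  · exact hy1 ▸ one_mem _
  have hn : (Subgroup.zpowers x).Normal := ⟨fun a ha g => by
    rwa [H1.isMulCommutative_iff'.1 hA g trivial a trivial, mul_inv_cancel_right]⟩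
  exact h _ (Subgroup.zpowers y) hn inferInstance inferInstance
    (by rw [Nat.card_zpowers, Nat.card_zpowers, hx, orderOf_eq_prime hy hy1]) ▸
    Subgroup.mem_zpowers y

/-- A finite nilpotent group in which any two abelian subgroups of the same order are conjugate is cyclic. -/
theorem result {G : Type*} [Group G] [Finite G] (hB : ∀ A B : Subgroup G, IsMulCommutative ↥A → IsMulCommutative ↥B → Nat.card ↥A = Nat.card ↥B → ∃ g : G, B = A.map (MulAut.conj g).toMonoidHom) (hnil : Group.IsNilpotent G) : IsCyclic G := by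
  haveI : IsZGroup G := ⟨fun p hp P => by
    haveI := Fact.mk hp
    refine aux P.2 fun A B hAn hA hB' hc => ?_
    have hn : Subgroup.normalizer ((A.map (P : Subgroup G).subtype : Subgroup G) : Set G) = ⊤ := by
      rw [eq_top_iff, ← H1.pCore_sup_pPrimeCore_eq_top p]
      refine sup_le ((H1.pCore_le_sylow P).trans (H1.le_normalizer_map_subtype_iff.2 hAn)) ?_
      refine (H1.pPrimeCore_le_centralizer_pCore p).trans (le_trans ?_
        (Subgroup.centralizer_le_normalizer _))
      exact Subgroup.centralizer_le (H1.le_pCore_of_isNilpotent (P.2.to_le (Subgroup.map_subtype_le _)))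
    obtain ⟨g, hg⟩ := hB (A.map (P : Subgroup G).subtype) (B.map (P : Subgroup G).subtype)
      inferInstance inferInstance (by
        rw [Subgroup.card_map_of_injective (Subgroup.subtype_injective _),
          Subgroup.card_map_of_injective (Subgroup.subtype_injective _), hc])
    rw [H7.cj_eq_self_iff.2 (hn ▸ Subgroup.mem_top g)] at hg
    exact Subgroup.map_injective (Subgroup.subtype_injective _) hg⟩
  infer_instance

end Cfsg.Agent.S3910
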