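import Cfsg.Statements.S3915
import Cfsg.Agent.H5.Component
import Cfsg.Agent.H1.FTLib
import Cfsg.Agent.H7.Basic
import Cfsg.Agent.H10.SylowIn

set_option autoImplicit false
open Cfsg

namespace Cfsg.Agent.S3915

open Subgroup H5
open scoped commutatorElement

theorem exists_two {G : Type*} [Group G] [Finite G] {L : Subgroup G} (h : IsQuasisimple L) :
    ∃ x ∈ L, x ∉ centralizer (L : Set G) ∧ ∃ k, orderOf x = 2 ^ k := by
  haveI : Fact (Nat.Prime 2) := ⟨Nat.prime_two⟩
  by_contra hcon
  push Not at hcon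
  obtain ⟨S⟩ : Nonempty (Sylow 2 L) := inferInstance
  have hS : (S : Subgroup L) ≤ center L := by
    intro s hs
    obtain ⟨k, hk⟩ := H10.orderOf_eq_pow_of_mem S.isPGroup' hs
    have : (s : G) ∈ centralizer (L : Set G) := by
      by_contra h1
      exact hcon s s.2 h1 k (by rw [Subgroup.orderOf_coe, hk])
    exact mem_center_iff.2 fun g => Subtype.ext (this g g.2)
  haveI : Group.IsSolvable (L ⧸ center L) :=
    H1.ft_not_two fun h2 => S.not_dvd_index (h2.trans (index_dvd_of_le hS))
  haveI : Group.IsSolvable (center L) := Group.isSolvable_of_comm fun a b => mul_comm' a b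
  exact qs_not_solvable h (Group.isSolvable_of_ker_le_range (center L).subtype
    (QuotientGroup.mk' (center L)) (by simp))

theorem aux {G : Type*} [Group G] [Finite G]
    (hP : ∀ A B : Subgroup G, IsCyclic ↥A → IsCyclic ↥B → IsPGroup 2 ↥A → Nat.card ↥A = Nat.card ↥B →
      ∃ g : G, B = A.map (MulAut.conj g).toMonoidHom) {L M : Subgroup G} (hL : CompOf L ⊤)
    (hM : CompOf M ⊤) (hne : L ≠ M) {x y : G} (hx : x ∈ L) (hy : y ∈ M)
    (hxc : x ∉ centralizer (L : Set G)) (hyc : y ∉ centralizer (M : Set G)) {a b : ℕ}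
    (ha : orderOf x = 2 ^ a) (hb : orderOf y = 2 ^ b) (hab : b ≤ a) : False := by
  haveI : Fact (Nat.Prime 2) := ⟨Nat.prime_two⟩
  have hc : ∀ {A B : Subgroup G}, CompOf A ⊤ → CompOf B ⊤ → A ≠ B → A ≤ centralizer (B : Set G) :=
    fun hA hB h => commutator_eq_bot_iff_le_centralizer.1 (hA.commutator_eq_bot hB h)
  have hxy : Commute x y := (hc hL hM hne hx y hy).symm
  have h1 : orderOf (x * y) ∣ 2 ^ a := by
    apply orderOf_dvd_of_pow_eq_one
    rw [hxy.mul_pow, ← ha, pow_orderOf_eq_one, one_mul, ha]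
    exact orderOf_dvd_iff_pow_eq_one.1 (hb ▸ pow_dvd_pow 2 hab)
  obtain ⟨c, hca, hc'⟩ := (Nat.dvd_prime_pow Nat.prime_two).1 h1
  have h2 : orderOf (x ^ 2 ^ (a - c)) = 2 ^ c := by
    rw [orderOf_pow_of_dvd (by positivity) (ha ▸ pow_dvd_pow 2 (by omega)), ha,
      Nat.pow_div (by omega) (by norm_num)]
    congr 1; omega
  obtain ⟨g, hg⟩ := hP (zpowers (x ^ 2 ^ (a - c))) (zpowers (x * y)) inferInstance inferInstance
    (H10.isPGroup_zpowers_of_orderOf h2) (by rw [Nat.card_zpowers, Nat.card_zpowers, h2, hc'])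
  have h3 : x * y ∈ L.map (MulAut.conj g).toMonoidHom :=
    H7.cj_mono g (zpowers_le.2 (pow_mem hx _)) (hg ▸ mem_zpowers _)
  have hL' : CompOf (L.map (MulAut.conj g).toMonoidHom) ⊤ := hL.cj_of_mem (le_normalizer (mem_top g))
  by_cases e : L.map (MulAut.conj g).toMonoidHom = L
  · have := hc hL' hM (e.symm ▸ hne) h3
    exact hyc ((mul_mem_cancel_left (hc hL hM hne hx)).1 this)
  · have := hc hL' hL e h3
    exact hxc ((mul_mem_cancel_right (hc hM hL hne.symm hy)).1 this)

/-- Let G be a finite group in which, for every prime p, any two cyclic p-subgroups of the same order are conjugate. If the layer E(G), the subgroup generated by the components of G, is non-trivial, then E(G)/Z(E(G)) is a non-abelian simple group. -/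
theorem result {G : Type*} [Group G] [Finite G] (hP : ∀ (p : ℕ), p.Prime → ∀ A B : Subgroup G, IsCyclic ↥A → IsCyclic ↥B → IsPGroup p ↥A → Nat.card ↥A = Nat.card ↥B → ∃ g : G, B = A.map (MulAut.conj g).toMonoidHom) (hE : Cfsg.layer G ≠ ⊥) :
    IsSimpleGroup (↥(Cfsg.layer G) ⧸ Subgroup.center ↥(Cfsg.layer G)) ∧ ¬ IsMulCommutative (↥(Cfsg.layer G) ⧸ Subgroup.center ↥(Cfsg.layer G)) := by
  obtain ⟨L, hL⟩ : ∃ L : Subgroup G, CompOf L ⊤ := by
    by_contra h
    push Not at h
    exact hE (by rw [← layerOf_top]; exact layerOf_eq_bot_iff.2 h)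
  have huniq : ∀ M : Subgroup G, CompOf M ⊤ → M = L := by
    intro M hM
    by_contra hne
    obtain ⟨x, hx, hxc, a, ha⟩ := exists_two hL.qs
    obtain ⟨y, hy, hyc, b, hb⟩ := exists_two hM.qs
    rcases le_total a b with h | h
    · exact aux (hP 2 Nat.prime_two) hM hL hne hy hx hyc hxc hb ha h
    · exact aux (hP 2 Nat.prime_two) hL hM (Ne.symm hne) hx hy hxc hyc ha hb h
  have e : layer G = L := by
    rw [← layerOf_top]
    exact le_antisymm (layerOf_le_iff.2 fun M hM => (huniq M hM).le) hL.le_layerOf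
  rw [e]
  refine ⟨hL.qs.2, fun h => ?_⟩
  haveI : Group.IsSolvable (L ⧸ center L) := Group.isSolvable_of_comm fun a b => mul_comm' a b
  haveI : Group.IsSolvable (center L) := Group.isSolvable_of_comm fun a b => mul_comm' a b
  exact qs_not_solvable hL.qs (Group.isSolvable_of_ker_le_range (center L).subtype
    (QuotientGroup.mk' (center L)) (by simp))

end Cfsg.Agent.S3915
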