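import Cfsg.Statements.S3917
import Cfsg.Agent.H7.PGrp2

set_option autoImplicit false
open Cfsg

namespace Cfsg.Agent.S3917



/-- Say that a group has self-centralizing non-cyclic subgroups when every non-cyclic subgroup H satisfies C_G(H) ≤ H. A finite abelian group with self-centralizing non-cyclic subgroups is cyclic or elementary abelian of order p² for a prime p. -/
theorem result {G : Type*} [CommGroup G] [Finite G] (hX : (∀ H : Subgroup G, ¬ IsCyclic ↥H → Subgroup.centralizer (H : Set G) ≤ H)) :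
    IsCyclic G ∨ ∃ p : ℕ, p.Prime ∧ Nat.card G = p ^ 2 ∧ Monoid.exponent G = p := by
  have htop : ∀ H : Subgroup G, ¬ IsCyclic H → H = ⊤ := fun H hH =>
    eq_top_iff.2 fun x _ => hX H hH fun y _ => mul_comm y x
  by_cases hc : IsCyclic G
  · exact Or.inl hc
  right
  have hZ : ¬ IsZGroup G := fun h => hc inferInstance
  rw [isZGroup_iff] at hZ
  push Not at hZ
  obtain ⟨p, hp, P, hP⟩ := hZ
  haveI := Fact.mk hp
  have hG : IsPGroup p G := (htop _ hP ▸ P.2).of_equiv Subgroup.topEquiv
  obtain ⟨V, -, -, hV, hcV⟩ := H9.exists_normal_rank_two_of_abelian hG ⊤ inferInstance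
    (by rwa [H9.isCyclic_iff_top])
  have h1 := htop V (H9.not_isCyclic_of_elementary hV.2 (by
      rw [hcV, sq]; exact lt_mul_of_one_lt_left hp.pos hp.one_lt))
  subst h1
  rw [Subgroup.card_top] at hcV
  refine ⟨p, hp, hcV, ?_⟩
  rcases (Nat.dvd_prime hp).1 (Monoid.exponent_dvd_of_forall_pow_eq_one fun g => hV.2 g trivial)
    with h | h
  · rw [Monoid.exp_eq_one_iff] at h
    exact absurd isCyclic_of_subsingleton hc
  · exact h

end Cfsg.Agent.S3917
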