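import Cfsg.Statements.S3919
import Cfsg.Agent.S0112
import Cfsg.Agent.H9.Rank

set_option autoImplicit false
open Cfsg

namespace Cfsg.Agent.S3919

open Subgroup

/-- Say that a group has self-centralizing non-cyclic subgroups when every non-cyclic subgroup H satisfies C_G(H) ≤ H. A finite non-abelian 2-group G of order 2^n has self-centralizing non-cyclic subgroups if and only if G has nilpotency class n − 1 (that is, G is dihedral, semidihedral or generalized quaternion). -/
theorem result {G : Type*} [Group G] [Finite G] (hna : ¬ IsMulCommutative G) (n : ℕ) (hG : Nat.card G = 2 ^ n) :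
    (∀ H : Subgroup G, ¬ IsCyclic ↥H → Subgroup.centralizer (H : Set G) ≤ H) ↔ (⊤ : Subgroup G).lowerCentralSeries (n - 2) ≠ ⊥ := by
  have hP : IsPGroup 2 G := IsPGroup.of_card hG
  have := hP.isNilpotent
  obtain ⟨m, rfl⟩ : ∃ m, n = m + 3 := ⟨n - 3, by
    by_contra h
    have := H9.lcs_eq_bot_of_card_le 0 hP (hG ▸ Nat.pow_le_pow_right (by norm_num) (by omega))
    exact hna (Group.IsNilpotent.nilpotencyClass_le_one_iff.1 (Subgroup.lowerCentralSeries_eq_bot_iff_nilpotencyClass_le.1 this))⟩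
  have u := Subgroup.lowerCentralSeries_eq_bot_iff_nilpotencyClass_le.1 (H9.lcs_eq_bot_of_card_le (m + 1) hP hG.le)
  rw [Ne, Subgroup.lowerCentralSeries_eq_bot_iff_nilpotencyClass_le]
  refine ⟨fun h => ?_, fun h H hH c hc => ?_⟩
  · suffices Group.nilpotencyClass G = m + 2 by omega
    by_cases hV : ∀ V : Subgroup G, V.Normal → IsMulCommutative V → (∀ v ∈ V, v ^ 2 = 1) → Nat.card V ≠ 4
    · rcases H9.cyclic_or_dqs hP hV with a | a
      · exact (hna a.isMulCommutative).elim
      · obtain ⟨k, a, b, c, d, -, -, -, e⟩ := H6.dqs_data a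
        exact H6.class_of_card_cent (m + 1) G b hG (H6.card_cent_le_four c d e)
    · push Not at hV
      obtain ⟨V, -, a, b, c⟩ := hV
      exact S0112.result _ hG V c (le_antisymm (h V (H9.not_isCyclic_of_elementary b (by omega))) (le_centralizer V))
  obtain ⟨k, a, b, o, i, hb, -, -, e⟩ := H6.dqs_data (H6.dqs_of_class (by omega) hG (by omega)).2.2
  obtain ⟨x, hx, n⟩ : ∃ x ∈ H, x ∉ zpowers a := by
    by_contra! f
    exact hH (Subgroup.isCyclic_of_le f)
  have z : zpowers (a ^ 2 ^ (k + 1)) ≤ H := by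
    obtain ⟨y, hy, y1⟩ : ∃ y ∈ H ⊓ zpowers a, y ≠ 1 := by
      by_contra! f
      refine hH ⟨⟨⟨x, hx⟩, fun ⟨y, hy⟩ => ?_⟩⟩
      by_cases g : y ∈ zpowers a
      · exact ⟨0, (zpow_zero _).trans (Subtype.ext (f y ⟨hy, g⟩).symm)⟩
      · exact ⟨-1, Subtype.ext ((zpow_neg_one x).trans (inv_eq_of_mul_eq_one_right (f _ ⟨mul_mem hx hy,
          (mul_mem_iff_of_index_two i).2 (iff_of_false n g)⟩)))⟩
    obtain ⟨w, hw, ow⟩ := H9.exists_pow_orderOf_eq_prime hP y1
    have hw := zpowers_le.2 hy hw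
    rw [← eq_of_le_of_card_ge (zpowers_le.2 (H9.zpow_mem_zpowers_of_pow_eq_one (p := 2) (i := 1) o hw.2
      (by rw [pow_one, ← ow, pow_orderOf_eq_one]))) (by
        rw [Nat.card_zpowers, Nat.card_zpowers, ow, H9.orderOf_pow_prime_pow (p := 2) (i := 1) o, pow_one])]
    exact zpowers_le.2 hw.1
  have f : ∀ y ∈ zpowers a, Commute y x → y ∈ H := fun y hy g => z (e y hy (by
    have := (mul_mem_iff_of_index_two i).2 (iff_of_false n (mt inv_mem_iff.1 hb))
    have : Commute y (x * b⁻¹) := congrArg Subtype.val (mul_comm' (⟨y, hy⟩ : zpowers a) ⟨_, this⟩)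
    simpa using this.inv_right.mul_right g))
  have g : Commute c x := (hc x hx).symm
  by_cases j : c ∈ zpowers a
  · exact f c j g
  · exact (H.mul_mem_cancel_right hx).1 (f _ ((mul_mem_iff_of_index_two i).2 (iff_of_false j n)) (g.mul_left rfl))

end Cfsg.Agent.S3919
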