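import Cfsg.Statements.S3920
import Cfsg.Agent.H7.PGrp2
import Cfsg.Agent.H6.Count

set_option autoImplicit false
open Cfsg

namespace Cfsg.Agent.S3920

open DihedralGroup in
def sub (n q : ℕ) : Subgroup (DihedralGroup n) where
  carrier := {x | match x with
    | r i => (q : ZMod n) * i = 0
    | sr i => (q : ZMod n) * i = 0}
  one_mem' := by show (q : ZMod n) * 0 = 0; simp
  mul_mem' := by
    rintro (i | i) (j | j) hi hj <;>
      simp only [Set.mem_setOf_eq, r_mul_r, r_mul_sr, sr_mul_r, sr_mul_sr] at hi hj ⊢ <;>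
      simp [mul_add, mul_sub, hi, hj]
  inv_mem' := by
    rintro (i | i) hi <;> simp only [Set.mem_setOf_eq, inv_r, inv_sr] at hi ⊢ <;> simp [hi]

/-- Say that a group has self-centralizing non-cyclic subgroups when every non-cyclic subgroup H satisfies C_G(H) ≤ H. For n ≥ 3, the dihedral group of order 2n has self-centralizing non-cyclic subgroups if and only if n is odd or a power of 2. -/
theorem result (n : ℕ) (hn : 3 ≤ n) : (∀ H : Subgroup (DihedralGroup n), ¬ IsCyclic ↥H → Subgroup.centralizer (H : Set (DihedralGroup n)) ≤ H) ↔ (Odd n ∨ ∃ k : ℕ, n = 2 ^ k) := by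
  open DihedralGroup in
  haveI : NeZero n := ⟨by omega⟩
  constructor
  · intro h
    by_contra hne
    push Not at hne
    obtain ⟨h1, h2⟩ := hne
    obtain ⟨m, hm⟩ := Nat.not_odd_iff_even.1 h1
    obtain ⟨q, hq, hqn, hq2⟩ : ∃ q : ℕ, q.Prime ∧ q ∣ n ∧ q ≠ 2 := by
      by_contra hq
      push Not at hq
      exact h2 _ (Nat.eq_prime_pow_of_unique_prime_dvd (by omega) fun hq' hd => hq _ hq' hd)
    obtain ⟨d, hd⟩ := hqn
    have hq3 : 3 ≤ q := by have := hq.two_le; omega
    have hd0 : 0 < d := Nat.pos_of_ne_zero (by rintro rfl; omega)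
    have hnc : ¬ IsCyclic (sub n q) := by
      intro hc
      have := H1.isMulCommutative_iff'.1 (inferInstance : IsMulCommutative (sub n q)) (r d)
        (by show (q : ZMod n) * d = 0; rw [← Nat.cast_mul, ← hd, ZMod.natCast_self]) (sr 0)
        (by show (q : ZMod n) * 0 = 0; simp)
      simp only [r_mul_sr, sr_mul_r, zero_sub, zero_add, sr.injEq] at this
      have h3 : ((2 * d : ℕ) : ZMod n) = 0 := by
        push_cast; linear_combination -this
      rw [ZMod.natCast_eq_zero_iff] at h3
      have := Nat.le_of_dvd (by omega) h3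
      nlinarith
    have hmm : (m : ZMod n) + m = 0 := by rw [← Nat.cast_add, ← hm, ZMod.natCast_self]
    have h4 : r (m : ZMod n) ∈ sub n q := by
      refine h _ hnc ?_
      rintro (i | i) -
      · simp [add_comm]
      · simp only [r_mul_sr, sr_mul_r, sr.injEq]
        linear_combination hmm
    have h5 : ((q * m : ℕ) : ZMod n) = 0 := by push_cast; exact h4
    rw [ZMod.natCast_eq_zero_iff, hm, ← two_mul] at h5
    have := Nat.dvd_of_mul_dvd_mul_right (by omega) h5
    exact hq2 ((Nat.prime_dvd_prime_iff_eq Nat.prime_two hq).1 this).symm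
  · intro h H hH
    have hr : ∀ i : ZMod n, r i ∈ Subgroup.zpowers (r 1 : DihedralGroup n) := fun i =>
      ⟨i.val, by simp⟩
    obtain ⟨a, ha⟩ : ∃ a, sr a ∈ H := by
      by_contra hc
      push Not at hc
      refine hH (H6.isCyclic_of_le' (K := Subgroup.zpowers (r 1)) inferInstance ?_)
      rintro (i | i) hi
      · exact hr i
      · exact absurd hi (hc i)
    obtain ⟨b, hb, hb0⟩ : ∃ b, r b ∈ H ∧ b ≠ 0 := by
      by_contra hc
      push Not at hc
      refine hH (H6.isCyclic_of_le' (K := Subgroup.zpowers (sr a)) inferInstance ?_)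
      rintro (i | i) hi
      · rw [hc i hi]; exact one_mem _
      · have := hc _ (mul_mem ha hi)
        rw [sub_eq_zero] at this
        exact this ▸ Subgroup.mem_zpowers _
    have key : ∀ i : ZMod n, sr a * r i = r i * sr a → r i ∈ H := by
      intro i hi
      simp only [r_mul_sr, sr_mul_r, sr.injEq] at hi
      have h2 : (r i) ^ 2 = 1 := by
        rw [r_pow, ← r_zero]; congr 1; push_cast; linear_combination hi
      by_cases hi0 : r i = 1
      · exact hi0 ▸ one_mem _
      have ho := orderOf_eq_prime h2 hi0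
      have hcard : Nat.card (Subgroup.zpowers (r 1 : DihedralGroup n)) = n := by
        rw [Nat.card_zpowers, orderOf_r_one]
      rcases h with h | ⟨k, hk⟩
      · have := Subgroup.orderOf_dvd_natCard _ (hr i)
        rw [ho, hcard] at this
        exact absurd (even_iff_two_dvd.2 this) (Nat.not_even_iff_odd.2 h)
      · have hP : IsPGroup 2 (Subgroup.zpowers (r 1 : DihedralGroup n)) :=
          IsPGroup.of_card (hcard.trans hk)
        obtain ⟨z, hz, hz2⟩ := H9.exists_pow_orderOf_eq_prime hP (a := ⟨r b, hr b⟩)
          (fun e => hb0 (r.inj (congrArg Subtype.val e : r b = r 0)))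
        rw [H6.ord2_unique_of_isCyclic inferInstance (hr i) z.2 ho (by simpa using hz2)]
        obtain ⟨t, rfl⟩ := hz
        exact zpow_mem hb t
    rintro (i | i) hx
    · exact key i (hx _ ha)
    · have h1 := key (a - i) (by
        have := hx _ ha
        rw [← sr_mul_sr, ← mul_assoc, this, mul_assoc])
      have := mul_mem h1 ha
      simpa using this

end Cfsg.Agent.S3920
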