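import Cfsg.Statements.S3927
import Cfsg.Agent.H7.Flavell

set_option autoImplicit false
open Cfsg

namespace Cfsg.Agent.S3927



/-- Let G be a finite group and α an automorphism of G with [G, α] = G, that is, the elements g·α(g)⁻¹ generate G. Then for every k ≥ 1 the iterated commutators [g, α, …, α] with k entries α — the values of the k-th iterate of the map c ↦ c·α(c)⁻¹ — also generate G. -/
theorem result {G : Type*} [Group G] [Finite G] (α : MulAut G) (hG : Subgroup.closure (Set.range (fun c : G => c * (α c)⁻¹)) = ⊤) (k : ℕ) (hk : 1 ≤ k) :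
    Subgroup.closure (Set.range ((fun c : G => c * (α c)⁻¹)^[k])) = ⊤ := by
  open scoped commutatorElement in
  set f : G → G := fun c : G => c * (α c)⁻¹ with hf
  haveI : Finite (MulAut G) := Finite.of_injective (fun e : MulAut G => (e : G → G)) DFunLike.coe_injective
  let φ : Subgroup.zpowers α →* MulAut G := (Subgroup.zpowers α).subtype
  haveI : Finite (G ⋊[φ] Subgroup.zpowers α) := Finite.of_equiv _ SemidirectProduct.equivProd.symm
  let a : G ⋊[φ] Subgroup.zpowers α := SemidirectProduct.inr ⟨α, Subgroup.mem_zpowers α⟩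
  have hc : ∀ γ : G ⋊[φ] Subgroup.zpowers α, ⁅γ, a⁆ = SemidirectProduct.inl (f γ.left) := by
    intro γ
    have h1 : Commute (SemidirectProduct.inr γ.right : G ⋊[φ] Subgroup.zpowers α) a := by
      apply Commute.map
      exact mul_comm' _ _
    have h2 : a * SemidirectProduct.inl γ.left⁻¹ * a⁻¹ = SemidirectProduct.inl (α γ.left)⁻¹ := by
      rw [← map_inv SemidirectProduct.inr, ← SemidirectProduct.inl_aut, map_inv]; rfl
    conv_lhs => rw [← SemidirectProduct.inl_left_mul_inr_right γ]
    rw [commutatorElement_def, hf]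
    simp only [map_mul, ← h2, mul_inv_rev, map_inv]
    rw [mul_assoc (SemidirectProduct.inl γ.left), h1.eq]
    group
  have hn : H5.ncl (Subgroup.zpowers a) ⊤ = ⊤ := by
    rw [H7.ncl_top_eq, eq_top_iff]
    intro γ _
    have ha : a ∈ Subgroup.normalClosure (Subgroup.zpowers a : Set _) :=
      Subgroup.le_normalClosure (Subgroup.mem_zpowers a)
    rw [← SemidirectProduct.inl_left_mul_inr_right γ]
    apply mul_mem
    · have : (⊤ : Subgroup G) ≤ (Subgroup.normalClosure (Subgroup.zpowers a : Set (G ⋊[φ] Subgroup.zpowers α))).comap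
          SemidirectProduct.inl := by
        rw [← hG, Subgroup.closure_le]
        rintro _ ⟨x, rfl⟩
        have h1 := hc (SemidirectProduct.inl x)
        simp only [SemidirectProduct.left_inl] at h1
        show SemidirectProduct.inl (f x) ∈ Subgroup.normalClosure (Subgroup.zpowers a : Set (G ⋊[φ] Subgroup.zpowers α))
        rw [← h1, commutatorElement_def]
        exact mul_mem (Subgroup.normalClosure_normal.conj_mem _ ha _) (inv_mem ha)
      exact this (Subgroup.mem_top _)
    · obtain ⟨j, hj⟩ := Subgroup.mem_zpowers_iff.1 γ.right.2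
      have : γ.right = ⟨α, Subgroup.mem_zpowers α⟩ ^ j := Subtype.ext hj.symm
      rw [this, map_zpow]
      exact zpow_mem ha j
  have h1 := H7.engel_gen a k hn
  set S := Subgroup.closure (Set.range f^[k]) with hS
  have hinv : ∀ β ∈ Subgroup.zpowers α, ∀ s ∈ S, β s ∈ S := by
    intro β hβ s hs
    have h2 : S ≤ S.comap β.toMonoidHom := by
      rw [hS, Subgroup.closure_le]
      rintro _ ⟨x, rfl⟩
      have h3 : Function.Semiconj β f f := fun y => by
        obtain ⟨j, rfl⟩ := Subgroup.mem_zpowers_iff.1 hβ
        have h4 : (α ^ j) (α y) = α ((α ^ j) y) := by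
          rw [← MulAut.mul_apply, ← MulAut.mul_apply, (Commute.refl α).zpow_left j |>.eq]
        simp only [hf, map_mul, map_inv, h4]
      show β (f^[k] x) ∈ Subgroup.closure _
      rw [h3.iterate_right k x]
      exact Subgroup.subset_closure ⟨_, rfl⟩
    exact h2 hs
  let T : Subgroup (G ⋊[φ] Subgroup.zpowers α) :=
    { carrier := {γ | γ.left ∈ S}
      one_mem' := S.one_mem
      mul_mem' := fun {x y} hx hy => by
        show (x * y).left ∈ S
        rw [SemidirectProduct.mul_left]
        exact mul_mem hx (hinv _ x.right.2 _ hy)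
      inv_mem' := fun {x} hx => by
        show (x⁻¹).left ∈ S
        rw [SemidirectProduct.inv_left]
        exact hinv _ (x.right⁻¹).2 _ (inv_mem hx) }
  have h2 : (⊤ : Subgroup _) ≤ T := by
    rw [← h1, sup_le_iff, Subgroup.closure_le, Subgroup.zpowers_le]
    refine ⟨?_, S.one_mem⟩
    rintro _ ⟨γ, rfl⟩
    obtain ⟨j, rfl⟩ := Nat.exists_eq_add_of_le' hk
    have h3 : Function.Semiconj (SemidirectProduct.inl : G → G ⋊[φ] Subgroup.zpowers α) f
        (fun g => ⁅g, a⁆) := fun y => by
      simp only [hc, SemidirectProduct.left_inl]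
    show ((fun g => ⁅g, a⁆)^[j + 1] γ).left ∈ S
    rw [Function.iterate_succ_apply, hc, ← h3.iterate_right j, SemidirectProduct.left_inl,
      ← Function.iterate_succ_apply]
    exact Subgroup.subset_closure ⟨_, rfl⟩
  rw [eq_top_iff]
  intro x _
  exact h2 (Subgroup.mem_top (SemidirectProduct.inl x))

end Cfsg.Agent.S3927
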