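import Cfsg.Statements.S3928
import Cfsg.Agent.H13.InvBd

set_option autoImplicit false
open Cfsg

namespace Cfsg.Agent.S3928

open H13

/-- There is a function f such that for every non-trivial finite group G and every automorphism α of G of order 2 with [G, α] = G (the elements g·α(g)⁻¹ generate G), the order of G is at most f(m), where m is the number of elements of odd order inverted by α. -/
theorem result : ∃ f : ℕ → ℕ, ∀ (G : Type) [Group G] [Finite G] [Nontrivial G] (α : MulAut G), orderOf α = 2 →
    Subgroup.closure (Set.range (fun c : G => c * (α c)⁻¹)) = ⊤ →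
      Nat.card G ≤ f (Nat.card {g : G // Odd (orderOf g) ∧ α g = g⁻¹}) := by
  refine ⟨H13.InvBd.fF, fun G _ _ _ α hα hgen => H13.InvBd.main α (fun g => ?_) hgen⟩
  have h : α ^ 2 = 1 := by rw [← hα]; exact pow_orderOf_eq_one α
  rw [← MulAut.mul_apply, ← pow_two, h, MulAut.one_apply]

end Cfsg.Agent.S3928
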