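import Cfsg.Statements.S3937
import Cfsg.Agent.H7.Flavell

set_option autoImplicit false
open Cfsg

namespace Cfsg.Agent.S3937

open scoped commutatorElement in
theorem H7.foldl_replicate_comm {G : Type*} [Group G] (g : G) (n : ℕ) (x : G) :
    (List.replicate n g).foldl (fun a b => a * b * a⁻¹ * b⁻¹) x = (fun y : G => ⁅y, g⁆)^[n] x := by
  induction n generalizing x with
  | zero => rfl
  | succ n ih => rw [List.replicate_succ, List.foldl_cons, ih, Function.iterate_succ_apply]; rfl

/-- Baer's characterization of the Fitting subgroup: in a finite group G, an element g lies in the Fitting subgroup if and only if g is a left Engel element, that is, for every x there is n with [x, g, g, …, g] = 1 (n entries g, [a, b] = aba⁻¹b⁻¹). -/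
theorem result {G : Type*} [Group G] [Finite G] (g : G) :
    g ∈ Cfsg.fittingSubgroup G ↔ ∀ x : G, ∃ n : ℕ, (List.replicate n g).foldl (fun a b => a * b * a⁻¹ * b⁻¹) x = 1 := by
  open scoped commutatorElement in
  simp only [H7.foldl_replicate_comm]
  constructor
  · intro hg x
    obtain ⟨n, hn⟩ := nilpotent_iff_lowerCentralSeries.1 (H1.isNilpotent_fitting (G := G))
    have hx : ⁅x, g⁆ ∈ Cfsg.fittingSubgroup G := by
      rw [commutatorElement_def]
      exact mul_mem (H1.fitting_normal.conj_mem g hg x) (inv_mem hg)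
    have key : ∀ j, ∃ y ∈ Subgroup.lowerCentralSeries (⊤ : Subgroup (Cfsg.fittingSubgroup G)) j,
        (y : G) = (fun y : G => ⁅y, g⁆)^[j] ⁅x, g⁆ := by
      intro j
      induction j with
      | zero => exact ⟨⟨_, hx⟩, by simp, rfl⟩
      | succ j ih =>
        obtain ⟨y, hy, e⟩ := ih
        refine ⟨⁅y, ⟨g, hg⟩⁆, Subgroup.commutator_mem_commutator hy (Subgroup.mem_top _), ?_⟩
        rw [Function.iterate_succ_apply', ← e]
        simp [commutatorElement_def]
    obtain ⟨y, hy, e⟩ := key n
    rw [hn, Subgroup.mem_bot] at hy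
    refine ⟨n + 1, ?_⟩
    rw [Function.iterate_succ_apply, ← e, hy]; rfl
  · intro h
    choose f hf using h
    obtain ⟨k, hk⟩ := (Set.finite_range f).bddAbove
    have hall : ∀ x, (fun y : G => ⁅y, g⁆)^[k] x = 1 := by
      intro x
      obtain ⟨d, hd⟩ := Nat.exists_eq_add_of_le' (hk ⟨x, rfl⟩)
      rw [hd, Function.iterate_add_apply, hf]
      exact Function.iterate_fixed (by simp) d
    obtain ⟨B, h1, h2, h3⟩ := H7.exists_snClosure (le_top : Subgroup.zpowers g ≤ ⊤)
    have ha : g ∈ B := h1 (Subgroup.mem_zpowers g)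
    have e : (Subgroup.zpowers g).subgroupOf B = Subgroup.zpowers (⟨g, ha⟩ : B) := by
      apply Subgroup.map_injective B.subtype_injective
      rw [Subgroup.subgroupOf_map_subtype, inf_eq_left.2 h1, MonoidHom.map_zpowers]; rfl
    have h4 := H7.engel_gen (⟨g, ha⟩ : B) k
      (by rw [← e]; exact (H7.ncl_subgroupOf_iff h1).2 h3)
    have h5 : Subgroup.closure (Set.range ((fun y : B => ⁅y, (⟨g, ha⟩ : B)⁆)^[k])) = ⊥ := by
      rw [Subgroup.closure_eq_bot_iff]
      rintro _ ⟨x, rfl⟩
      have : Function.Semiconj (B.subtype : B → G) (fun y : B => ⁅y, (⟨g, ha⟩ : B)⁆)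
        (fun y : G => ⁅y, g⁆) := fun y => by simp [commutatorElement_def]
      apply Subtype.ext
      exact ((this.iterate_right k) x).trans (hall _)
    rw [h5, bot_sup_eq, ← e, Subgroup.subgroupOf_eq_top] at h4
    have h6 : B = Subgroup.zpowers g := le_antisymm h4 h1
    rw [h6, H5.sn_top_iff] at h2
    exact H1.subnormal_le_fitting h2 (H1.isNilpotent_of_comm inferInstance) (Subgroup.mem_zpowers g)

end Cfsg.Agent.S3937
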