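import Cfsg.Statements.S3939
import Cfsg.Agent.H5.Wielandt
import Cfsg.Agent.H8.Elt
import Cfsg.Agent.H7.PGrp

set_option autoImplicit false
open Cfsg

namespace Cfsg.Agent.S3939

open Subgroup in
theorem H7.s3939_center {G : Type*} [Group G] [Finite G] (g : G) (hg : g ≠ 1)
    (h : ∀ x : G, Group.IsNilpotent ↥(Subgroup.closure ({x, g} : Set G))) : center G ≠ ⊥ := by
  obtain ⟨p, hp, hd⟩ := H1.exists_prime_dvd_card (H := zpowers g) (by simpa using hg)
  haveI : Fact p.Prime := ⟨hp⟩
  obtain ⟨a, ha⟩ := exists_prime_orderOf_dvd_card' p hd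
  have hcard : Nat.card (zpowers (a : G)) = p := by rw [Nat.card_zpowers, orderOf_coe, ha]
  have hpa : IsPGroup p (zpowers (a : G)) := IsPGroup.of_card (n := 1) (by simpa using hcard)
  have hmem : ∀ x : G, (a : G) ∈ closure ({x, g} : Set G) := fun x =>
    (zpowers_le.2 (subset_closure (by simp)) : zpowers g ≤ _) a.2
  have hF : zpowers (a : G) ≤ Cfsg.fittingSubgroup G := by
    rw [← H5.fitOf_top]
    refine H5.le_fitOf_of_forall_nilpotent le_top fun x _ => H1.isNilpotent_of_le (h x) ?_
    have h1 : zpowers (a : G) ≤ closure ({x, g} : Set G) := zpowers_le.2 (hmem x)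
    exact sup_le h1 (H5.cj_le_of_le h1 (le_normalizer (subset_closure (by simp))))
  have hO := H1.le_pCore_of_le_fitting hpa hF
  let S : Set G := {y | (orderOf y).Coprime p}
  let C := centralizer S
  haveI hC : C.Normal := ⟨fun c hc x => by
    rw [mem_centralizer_iff] at hc ⊢
    intro y hy
    have h1 := hc (x⁻¹ * y * x) (by
      show (orderOf (x⁻¹ * y * x)).Coprime p
      have := (MulAut.conj x⁻¹).orderOf_eq y
      simp only [MulAut.conj_apply, inv_inv] at this
      rw [this]; exact hy)
    calc y * (x * c * x⁻¹) = x * (x⁻¹ * y * x * c) * x⁻¹ := by group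
      _ = x * (c * (x⁻¹ * y * x)) * x⁻¹ := by rw [h1]
      _ = _ := by group⟩
  have haC : (a : G) ∈ C := by
    rw [mem_centralizer_iff]
    intro y hy
    haveI := h y
    have := H1.commute_of_coprime_orderOf (G := closure ({y, g} : Set G))
      (a := ⟨y, subset_closure (by simp)⟩) (b := ⟨a, hmem y⟩) (by
        rw [← orderOf_coe, ← orderOf_coe (⟨a, hmem y⟩ : closure ({y, g} : Set G))]
        show (orderOf y).Coprime (orderOf (a : G))
        rw [orderOf_coe, ha]; exact hy)
    exact congrArg Subtype.val this.eq
  have hN : Cfsg.pCore p G ⊓ C ≠ ⊥ := by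
    intro h1
    have h2 : (a : G) ∈ Cfsg.pCore p G ⊓ C := ⟨hO (mem_zpowers _), haC⟩
    rw [h1, mem_bot] at h2
    have : orderOf (a : G) = 1 := by rw [h2, orderOf_one]
    rw [orderOf_coe, ha] at this
    exact hp.one_lt.ne' this
  obtain ⟨P⟩ : Nonempty (Sylow p G) := inferInstance
  have h3 := H7.inf_centralizer_ne_bot P.2 ((H1.isPGroup_pCore p).to_inf_left (K := C))
    (le_normalizer_of_normal) hN
  intro hc
  apply h3
  rw [eq_bot_iff, ← hc]
  rintro z ⟨⟨-, hz1⟩, hz2⟩
  have h4 : centralizer ({z} : Set G) = ⊤ := by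
    refine H8.eq_top_of_forall_sylow fun q hq => ?_
    by_cases hqp : q = p
    · subst hqp
      refine ⟨P, fun y hy => ?_⟩
      rw [mem_centralizer_singleton_iff]
      exact hz2 y hy
    · haveI : Fact q.Prime := ⟨hq⟩
      obtain ⟨Q⟩ : Nonempty (Sylow q G) := inferInstance
      refine ⟨Q, fun y hy => ?_⟩
      rw [mem_centralizer_singleton_iff]
      refine hz1 y ?_
      obtain ⟨k, hk⟩ := (IsPGroup.iff_orderOf.1 Q.2) ⟨y, hy⟩
      show (orderOf y).Coprime p
      rw [← orderOf_coe] at hk
      rw [hk]
      exact Nat.Coprime.pow_left _ ((Nat.coprime_primes hq hp).2 hqp)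
  rw [mem_center_iff]
  intro y
  have : y ∈ centralizer ({z} : Set G) := h4 ▸ mem_top y
  rwa [mem_centralizer_singleton_iff] at this

open Subgroup in
theorem H7.s3939_aux.{u} {G : Type u} [Group G] [Finite G] (g : G)
    (h : ∀ x : G, Group.IsNilpotent ↥(Subgroup.closure ({x, g} : Set G))) :
    ∃ n, g ∈ Subgroup.upperCentralSeries G n := by
  induction hn : Nat.card G using Nat.strong_induction_on generalizing G with
  | _ n ih =>
  by_cases hg : g = 1
  · exact ⟨0, hg ▸ one_mem _⟩
  obtain ⟨m, hm⟩ := ih _ (hn ▸ H1.card_quotient_lt (H7.s3939_center g hg h))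
    (QuotientGroup.mk' (center G) g) (fun x => by
      obtain ⟨y, rfl⟩ := QuotientGroup.mk'_surjective _ x
      have := H1.isNilpotent_map (h y) (QuotientGroup.mk' (center G))
      rwa [MonoidHom.map_closure, Set.image_pair] at this) rfl
  exact ⟨m + 1, by rw [← Subgroup.comap_upperCentralSeries_quotient_center]; exact hm⟩

/-- In a finite group G the set of elements g such that the subgroup generated by g and x is nilpotent for every x ∈ G is exactly the hypercenter of G (the last term of the upper central series). -/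
theorem result {G : Type*} [Group G] [Finite G] (g : G) :
    (∀ x : G, Group.IsNilpotent ↥(Subgroup.closure ({x, g} : Set G))) ↔ g ∈ ⨆ n : ℕ, Subgroup.upperCentralSeries G n := by
  constructor
  · intro h
    obtain ⟨n, hn⟩ := H7.s3939_aux g h
    exact Subgroup.mem_iSup_of_mem n hn
  · intro h x
    rw [Subgroup.mem_iSup_of_directed (Subgroup.upperCentralSeries_mono G).directed_le] at h
    obtain ⟨n, hn⟩ := h
    have key : ∀ i j, i + j = n → (Subgroup.closure ({x, g} : Set G)).lowerCentralSeries (i + 1) ≤
        Subgroup.upperCentralSeries G j := by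
      intro i
      induction i with
      | zero =>
        intro j hj
        obtain rfl : j = n := by omega
        rw [Subgroup.lowerCentralSeries_succ, Subgroup.lowerCentralSeries_zero,
          ← QuotientGroup.ker_mk' (Subgroup.upperCentralSeries G j), ← Subgroup.map_eq_bot_iff,
          Subgroup.map_commutator, MonoidHom.map_closure, Set.image_pair,
          (QuotientGroup.eq_one_iff g).2 hn |> fun h => (show QuotientGroup.mk' _ g = 1 from h)]
        have : Subgroup.closure ({QuotientGroup.mk' (Subgroup.upperCentralSeries G j) x, 1} : Set _) =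
            Subgroup.zpowers (QuotientGroup.mk' (Subgroup.upperCentralSeries G j) x) := by
          rw [Set.pair_comm, Subgroup.closure_insert_one, Subgroup.zpowers_eq_closure]
        rw [this]
        exact Subgroup.commutator_self_eq_bot_iff.2 inferInstance
      | succ i ih =>
        intro j hj
        rw [Subgroup.lowerCentralSeries_succ]
        exact (Subgroup.commutator_mono (ih (j + 1) (by omega)) le_top).trans
          (Subgroup.commutator_upperCentralSeries_top_le G j)
    exact Subgroup.isNilpotent_of_lowerCentralSeries_eq_bot (le_bot_iff.1 (key n 0 rfl))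

end Cfsg.Agent.S3939
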