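import Cfsg.Statements.S3941
import Cfsg.Agent.H7.Simple
import Cfsg.Agent.H1.Solvable

set_option autoImplicit false
open Cfsg

namespace Cfsg.Agent.S3941

theorem pclosed_mem {X : Type*} [Group X] [Finite X] {p : ℕ} [Fact p.Prime] (h : IsPClosed p X) :
    ∃ P : Subgroup X, IsPGroup p P ∧ P.Normal ∧ ∀ Q : Subgroup X, IsPGroup p Q → Q ≤ P := by
  obtain ⟨P⟩ := (inferInstance : Nonempty (Sylow p X))
  haveI := h P
  exact ⟨P, P.2, h P, fun Q hQ => by
    obtain ⟨S, hS⟩ := hQ.exists_le_sylow
    haveI := Sylow.unique_of_normal P (h P)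
    exact Subsingleton.elim S P ▸ hS⟩

noncomputable def emb (m : ℕ) : alternatingGroup (Fin m) →* alternatingGroup (Fin (m + 1)) :=
  ((Equiv.Perm.viaEmbeddingHom Fin.castSuccEmb).comp (Subgroup.subtype _)).codRestrict _ fun x => by
    rw [Equiv.Perm.mem_alternatingGroup, MonoidHom.comp_apply, Equiv.Perm.viaEmbeddingHom_apply,
      Equiv.Perm.viaEmbedding]
    convert Equiv.Perm.mem_alternatingGroup.1 x.2 using 1
    convert Equiv.Perm.sign_extendDomain _ _
    rfl

theorem emb_inj (m : ℕ) : Function.Injective (emb m) := fun _ _ h =>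
  Subtype.ext (Equiv.Perm.viaEmbeddingHom_injective _ (congrArg Subtype.val h))

/-- Let n ≥ 5 and p an odd prime with p ≤ n, and suppose that every proper subgroup of the alternating group of degree n whose order is divisible by p has a normal Sylow p-subgroup. Then n = p. -/
theorem result (n p : ℕ) (hn : 5 ≤ n) [Fact p.Prime] (hp : p ≠ 2) (hpn : p ≤ n)
    (h : ∀ H : Subgroup ↥(alternatingGroup (Fin n)), H ≠ ⊤ → p ∣ Nat.card ↥H → Cfsg.IsPClosed p ↥H) : n = p := by
  have hp0 := (Fact.out : p.Prime)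
  by_contra hne
  obtain ⟨m, rfl⟩ : ∃ m, n = m + 1 := ⟨n - 1, by omega⟩
  have hpm : p ≤ m := by omega
  haveI : Nontrivial (Fin m) := Fin.nontrivial_iff_two_le.2 (by omega)
  haveI : Nontrivial (Fin (m + 1)) := Fin.nontrivial_iff_two_le.2 (by omega)
  have c1 := two_mul_nat_card_alternatingGroup (α := Fin m)
  have c2 := two_mul_nat_card_alternatingGroup (α := Fin (m + 1))
  rw [Nat.card_perm, Nat.card_eq_fintype_card (α := Fin _), Fintype.card_fin] at c1 c2
  let e := MonoidHom.ofInjective (emb_inj m)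
  have c3 : Nat.card (emb m).range = Nat.card (alternatingGroup (Fin m)) :=
    (Nat.card_congr e.toEquiv).symm
  have hd : p ∣ Nat.card (alternatingGroup (Fin m)) :=
    ((Nat.coprime_primes hp0 Nat.prime_two).2 hp).dvd_of_dvd_mul_left
      (c1 ▸ (hp0.dvd_factorial).2 hpm)
  obtain ⟨P, hP, hPn, hmax⟩ := pclosed_mem (h (emb m).range (fun ht => by
    rw [ht, Subgroup.card_top] at c3
    rw [c3, c1, Nat.factorial_succ] at c2
    have := Nat.factorial_pos m
    nlinarith) (c3 ▸ hd))
  have hP' : IsPGroup p (P.comap e.toMonoidHom) := hP.comap_of_injective _ e.injective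
  have hmax' : ∀ x : alternatingGroup (Fin m), x ^ p = 1 → x ∈ P.comap e.toMonoidHom := by
    intro x hx
    refine hmax (Subgroup.zpowers (e x)) (H1.isPGroup_of_pow_eq_one ?_) (Subgroup.mem_zpowers _)
    rintro _ ⟨k, rfl⟩
    show (e x ^ k) ^ p = 1
    rw [← zpow_natCast, ← zpow_mul, mul_comm, zpow_mul, zpow_natCast, ← map_pow, hx, map_one,
      one_zpow]
  have h2 : ∀ x ∈ P.comap e.toMonoidHom, x ^ 2 = 1 → x = 1 := fun x hx hx2 =>
    congrArg Subtype.val (H9.eq_one_of_pow_eq_one_of_coprime hP' (x := ⟨x, hx⟩) (n := 2)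
      (fun hd => hp ((Nat.prime_dvd_prime_iff_eq hp0 Nat.prime_two).1 hd)) (Subtype.ext hx2))
  rcases (show m = 4 ∨ 5 ≤ m by omega) with rfl | h5
  · have : p = 3 := by
      have := hp0.two_le
      interval_cases p
      · exact absurd rfl hp
      · rfl
      · exact absurd hp0 (by decide)
    subst this
    have := h2 _ (mul_mem (hmax' ⟨c[0, 1, 2], Equiv.Perm.mem_alternatingGroup.2 (by decide)⟩ (by decide))
      (hmax' ⟨c[1, 2, 3], Equiv.Perm.mem_alternatingGroup.2 (by decide)⟩ (by decide))) (by decide)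
    exact absurd this (by decide)
  · haveI := alternatingGroup.isSimpleGroup (α := Fin m) (by simpa using h5)
    rcases (hPn.comap e.toMonoidHom).eq_bot_or_eq_top with h3 | h3
    · obtain ⟨x, hx⟩ := exists_prime_orderOf_dvd_card' p hd
      have := hmax' x (hx ▸ pow_orderOf_eq_one x)
      rw [h3, Subgroup.mem_bot] at this
      rw [this, orderOf_one] at hx
      exact hp0.one_lt.ne hx
    · have h4 : 2 ∣ Nat.card (alternatingGroup (Fin m)) := by
        have : 2 * 2 ∣ m.factorial := (show 2 * 2 ∣ Nat.factorial 4 by decide).trans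
          (Nat.factorial_dvd_factorial (by omega))
        exact Nat.dvd_of_mul_dvd_mul_left two_pos (c1 ▸ this)
      obtain ⟨x, hx⟩ := exists_prime_orderOf_dvd_card' 2 h4
      have := h2 x (h3 ▸ Subgroup.mem_top x) (hx ▸ pow_orderOf_eq_one x)
      rw [this, orderOf_one] at hx
      omega

end Cfsg.Agent.S3941
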