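import Cfsg.Statements.S3946
import Cfsg.Agent.H7.Kegel

set_option autoImplicit false
open Cfsg

namespace Cfsg.Agent.S3946



/-- Call an automorphism α of order n of a group G splitting when x · α(x) · α²(x) ⋯ α^(n−1)(x) = 1 for every x ∈ G. A finite group admitting a splitting automorphism of prime order is nilpotent (this contains the case of a fixed-point-free automorphism of prime order). -/
theorem result {G : Type*} [Group G] [Finite G] (α : MulAut G) (hp : (orderOf α).Prime)
    (hsplit : ∀ x : G, (((List.range (orderOf α)).map (fun i : ℕ => (α ^ i) x)).prod = 1)) : Group.IsNilpotent G := by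
  haveI : Finite (MulAut G) := Finite.of_injective (fun e : MulAut G => (e : G → G)) DFunLike.coe_injective
  let φ : Subgroup.zpowers α →* MulAut G := (Subgroup.zpowers α).subtype
  haveI : Finite (G ⋊[φ] Subgroup.zpowers α) := Finite.of_equiv _ SemidirectProduct.equivProd.symm
  let b : Subgroup.zpowers α := ⟨α, Subgroup.mem_zpowers α⟩
  have hb : orderOf b = orderOf α := (Subgroup.orderOf_coe b).symm
  haveI := Fact.mk hp
  have hcard : Nat.card (Subgroup.zpowers α) = orderOf α := Nat.card_zpowers α
  have h1 : ∀ γ : G ⋊[φ] Subgroup.zpowers α, γ.right = b → γ ^ orderOf α = 1 := by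
    intro γ hγ
    have h2 : ∀ n : ℕ, (γ ^ n).left = ((List.range n).map (fun i : ℕ => (α ^ i) γ.left)).prod ∧
        (γ ^ n).right = b ^ n := by
      intro n
      induction n with
      | zero => simp
      | succ n ih =>
        rw [pow_succ, SemidirectProduct.mul_left, SemidirectProduct.mul_right, ih.1, ih.2, hγ,
          List.range_succ, List.map_append, List.prod_append, ← pow_succ]
        simp [φ, b]
    ext
    · rw [(h2 _).1, hsplit]; rfl
    · rw [(h2 _).2, ← hb, pow_orderOf_eq_one]; rfl
  have hK := H7.kegel hp (SemidirectProduct.rightHom (φ := φ)).ker (fun e => by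
    have h3 : SemidirectProduct.inr b ∈ (SemidirectProduct.rightHom (φ := φ)).ker := by
      rw [e]; trivial
    rw [MonoidHom.mem_ker, SemidirectProduct.rightHom_inr] at h3
    rw [h3, orderOf_one] at hb
    exact hp.one_lt.ne hb) (fun γ hγ => by
    have h3 : γ.right ≠ 1 := hγ
    have h4 : b ∈ Submonoid.powers γ.right := by
      rw [mem_powers_iff_mem_zpowers]
      exact (zpowers_eq_top_of_prime_card hcard h3) ▸ Subgroup.mem_top b
    obtain ⟨j, hj⟩ := h4
    have h5 : γ.right ^ orderOf α = 1 := by rw [← hcard]; exact pow_card_eq_one'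
    have hr : ∀ n : ℕ, (γ ^ n).right = γ.right ^ n := fun n =>
      map_pow (SemidirectProduct.rightHom (φ := φ)) γ n
    have h6 := orderOf_dvd_of_pow_eq_one ((pow_mul γ j _).trans (h1 (γ ^ j) ((hr j).trans hj)))
    have h7 := orderOf_dvd_of_pow_eq_one ((pow_mul γ (j + orderOf α) _).trans
      (h1 (γ ^ (j + orderOf α)) (by rw [hr, pow_add, h5, mul_one]; exact hj)))
    rw [add_mul, ← Nat.dvd_add_iff_right h6] at h7
    have h8 : j.Coprime (orderOf α) := by
      rw [Nat.coprime_comm, hp.coprime_iff_not_dvd]
      rintro ⟨k, rfl⟩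
      simp only [pow_mul, h5, one_pow] at hj
      rw [← hj, orderOf_one] at hb
      exact hp.one_lt.ne hb
    have h9 := Nat.dvd_gcd h6 h7
    rw [Nat.gcd_mul_right, h8, one_mul] at h9
    exact orderOf_dvd_iff_pow_eq_one.1 h9)
  rw [← SemidirectProduct.range_inl_eq_ker_rightHom] at hK
  exact Group.nilpotent_of_mulEquiv (MonoidHom.ofInjective
    (SemidirectProduct.inl_injective (φ := φ))).symm

end Cfsg.Agent.S3946
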