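import Cfsg.Statements.S3947
import Cfsg.Agent.H7.Flavell

set_option autoImplicit false
open Cfsg

namespace Cfsg.Agent.S3947



/-- Let G be a finite group and A a proper subgroup of G whose normal closure is G. Let Y be the join of all proper subgroups H of G that contain A and are generated by their own conjugates of A (the normal closure of A in H is H). Then either Y = G, or A is contained in exactly one maximal subgroup of G. -/
theorem result {G : Type*} [Group G] [Finite G] (A : Subgroup G) (hA : Subgroup.normalClosure (A : Set G) = ⊤) (hAG : A ≠ ⊤) :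
    sSup {H : Subgroup G | A ≤ H ∧ H ≠ ⊤ ∧ Subgroup.normalClosure ((A.subgroupOf H : Subgroup ↥H) : Set ↥H) = ⊤} = ⊤ ∨
      ∃! M : Subgroup G, IsCoatom M ∧ A ≤ M := by
  have hA' : H5.ncl A ⊤ = ⊤ := by rw [H7.ncl_top_eq, hA]
  rw [or_iff_not_imp_left]
  intro hY
  obtain ⟨M, hM, hle⟩ := H1.exists_coatom_ge hY
  have key : ∀ H, A ≤ H → H ≠ ⊤ → H5.ncl A H = H → H ≤ M := by
    intro H a b c
    refine le_trans (le_sSup ?_) hle
    refine ⟨a, b, ?_⟩
    rw [← H7.ncl_top_eq]
    exact (H7.ncl_subgroupOf_iff a).2 c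
  have hAM : A ≤ M := key A le_rfl hAG (H5.ncl_eq_self Subgroup.le_normalizer)
  exact ⟨M, ⟨hM, hAM⟩, fun K hK => H7.flavell_unique A hA' key hM hAM hK.1 hK.2⟩

end Cfsg.Agent.S3947
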