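import Cfsg.Statements.S3949
import Cfsg.Agent.H7.Simple

set_option autoImplicit false
open Cfsg

namespace Cfsg.Agent.S3949



/-- Let G be a finite group and α an automorphism of G of order 2 such that the elements g·α(g)⁻¹ generate G. Let j be a positive integer such that 2^j divides the order of no element inverted by α. Then the set of values of the j-th iterate of the map c ↦ c·α(c)⁻¹ is exactly the set of elements of odd order inverted by α. -/
theorem result {G : Type*} [Group G] [Finite G] (α : MulAut G) (hα : orderOf α = 2) (hG : Subgroup.closure (Set.range (fun c : G => c * (α c)⁻¹)) = ⊤)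
    (j : ℕ) (hj : ∀ g : G, α g = g⁻¹ → ¬ 2 ^ j ∣ orderOf g) :
    Set.range ((fun c : G => c * (α c)⁻¹)^[j]) = {g : G | Odd (orderOf g) ∧ α g = g⁻¹} := by
  have hαα : ∀ c, α (α c) = c := fun c => by
    have : α ^ 2 = 1 := hα ▸ pow_orderOf_eq_one α
    rw [← MulAut.mul_apply, ← sq, this, MulAut.one_apply]
  have key : ∀ (k : ℕ) (h : G), α h = h⁻¹ → (fun c : G => c * (α c)⁻¹)^[k] h = h ^ 2 ^ k := by
    intro k
    induction k with
    | zero => simp
    | succ k ih =>
      intro h hh
      rw [Function.iterate_succ_apply', ih h hh, map_pow, hh, inv_pow, inv_inv, pow_succ 2 k,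
        pow_mul, sq]
  ext g
  constructor
  · rintro ⟨c, rfl⟩
    obtain ⟨k, rfl⟩ : ∃ k, j = k + 1 := Nat.exists_eq_succ_of_ne_zero (by
      rintro rfl
      exact hj 1 (by simp) (by simp))
    have hd : α (c * (α c)⁻¹) = (c * (α c)⁻¹)⁻¹ := by simp [hαα]
    rw [Function.iterate_succ_apply, key _ _ hd]
    refine ⟨?_, by rw [map_pow, hd, inv_pow]⟩
    have h1 := hj _ hd
    generalize c * (α c)⁻¹ = d at h1
    rw [orderOf_pow, ← Nat.not_even_iff_odd, even_iff_two_dvd]
    intro h2
    obtain ⟨i, hi, e⟩ := (Nat.dvd_prime_pow Nat.prime_two).1 (Nat.gcd_dvd_right (orderOf d) (2 ^ k))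
    have h3 : 2 ^ (i + 1) ∣ orderOf d := by
      rw [pow_succ, ← e]
      exact Nat.mul_dvd_of_dvd_div (Nat.gcd_dvd_left _ _) h2
    rcases hi.lt_or_eq with hi | rfl
    · have := Nat.dvd_gcd h3 (pow_dvd_pow 2 hi)
      rw [e, Nat.pow_dvd_pow_iff_le_right one_lt_two] at this
      omega
    · exact h1 h3
  · rintro ⟨h1, h2⟩
    obtain ⟨m, hm⟩ := exists_pow_eq_self_of_coprime (x := g) (n := 2 ^ j)
      (Nat.Coprime.pow_left _ ((Nat.coprime_two_left).2 h1))
    refine ⟨g ^ m, ?_⟩
    rw [key _ _ (by rw [map_pow, h2, inv_pow]), ← pow_mul, mul_comm, pow_mul, hm]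

end Cfsg.Agent.S3949
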