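import Mathlib
import Cfsg.Statements.S3982
import Cfsg.Agent.H8.Elt
import Cfsg.Agent.H7.Basic
import Cfsg.Agent.H2.FPF

set_option autoImplicit false
open Cfsg

namespace Cfsg.Agent.S3982

open Subgroup in

theorem result {G : Type*} [Group G] [Finite G] (p : ℕ) [Fact p.Prime] (hp2 : p ≠ 2) (hpG : p ∣ Nat.card G) (h2G : 2 ∣ Nat.card G) (hC : ∀ g : G, g ≠ 1 → (∃ k : ℕ, orderOf g = p ^ k) → Odd (Nat.card ↥(Subgroup.centralizer ({g} : Set G)))) (Q : Subgroup G) (hQ : IsPGroup p ↥Q) (hQ1 : Q ≠ ⊥) (hev : Even (Nat.card ↥(Subgroup.normalizer (Q : Set G)))) (P : Sylow p G) : Even (Nat.card ↥(Subgroup.normalizer ((P : Subgroup G) : Set G))) := by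
  have : Fact (Nat.Prime 2) := ⟨Nat.prime_two⟩
  have hp : p.Prime := Fact.out
  obtain ⟨⟨y, hyQ⟩, hy⟩ := exists_prime_orderOf_dvd_card' 2 (even_iff_two_dvd.1 hev)
  rw [← orderOf_coe] at hy
  simp only at hy
  have hy2 : y * y = 1 := by rw [← pow_two, ← hy, pow_orderOf_eq_one]
  have hyi : y⁻¹ = y := inv_eq_of_mul_eq_one_right hy2
  obtain ⟨R, ⟨hR, hyR⟩, hQR, hmax⟩ := H1.exists_maximal_ge
    (fun R : Subgroup G => IsPGroup p R ∧ y ∈ normalizer (R : Set G)) ⟨hQ, hyQ⟩
  -- no nontrivial p-element is centralized by y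
  have hfpf : ∀ r ∈ R, y * r * y⁻¹ = r → r = 1 := by
    intro r hr h
    by_contra hne
    have h1 := hC r hne (H8.exists_orderOf_eq_of_mem hR hr)
    have h2 : y ∈ centralizer ({r} : Set G) := H8.mem_centralizer_singleton_iff'.2 h
    have h3 := orderOf_dvd_natCard _ h2
    rw [hy] at h3
    exact (Nat.not_even_iff_odd.2 h1) (even_iff_two_dvd.2 h3)
  -- y inverts R
  have hinv : ∀ r ∈ R, y * r * y⁻¹ = r⁻¹ := by
    have hinj : Function.Injective (fun r : R => (⟨(r : G)⁻¹ * (y * r * y⁻¹),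
        mul_mem (inv_mem r.2) (H1.conj_mem_of_mem_normalizer hyR r.2)⟩ : R)) := by
      intro a b hab
      have h1 : (a : G)⁻¹ * (y * a * y⁻¹) = (b : G)⁻¹ * (y * b * y⁻¹) := congrArg Subtype.val hab
      have h2 := hfpf ((b : G) * (a : G)⁻¹) (mul_mem b.2 (inv_mem a.2)) (by
        calc y * (b * (a : G)⁻¹) * y⁻¹ = b * ((b : G)⁻¹ * (y * b * y⁻¹)) * (y * a * y⁻¹)⁻¹ := by group
          _ = b * (a : G)⁻¹ := by rw [← h1]; group)
      exact Subtype.ext (mul_inv_eq_one.1 h2).symm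
    intro r hr
    obtain ⟨a, ha⟩ := (Finite.injective_iff_surjective.1 hinj) ⟨r, hr⟩
    have h1 : (a : G)⁻¹ * (y * a * y⁻¹) = r := congrArg Subtype.val ha
    rw [← h1, hyi]
    calc y * ((a : G)⁻¹ * (y * a * y)) * y = y * (a : G)⁻¹ * y * a * (y * y) := by group
      _ = y⁻¹ * (a : G)⁻¹ * y⁻¹ * a := by rw [hy2, hyi]; group
      _ = ((a : G)⁻¹ * (y * a * y))⁻¹ := by group
  set C := centralizer (R : Set G) with hCd
  have hRC : R ≤ C := by
    intro a ha b hb
    have h1 := hinv _ (mul_mem ha hb)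
    have h2 : y * (a * b) * y⁻¹ = (y * a * y⁻¹) * (y * b * y⁻¹) := by group
    rw [h2, hinv a ha, hinv b hb, ← mul_inv_rev] at h1
    exact inv_injective h1
  have hCodd : Odd (Nat.card C) := by
    obtain ⟨⟨r, hr⟩, hr1⟩ := (ne_bot_iff_exists_ne_one).1 hQ1
    have hr1' : r ≠ 1 := fun h => hr1 (Subtype.ext h)
    exact (hC r hr1' (H8.exists_orderOf_eq_of_mem hQ hr)).of_dvd_nat
      (card_dvd_of_le (centralizer_le (by simpa using hQR hr)))
  have hNC := H7.normalizer_le_normalizer_centralizer R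
  -- every p-element normalizing R is in R
  have key : ∀ t ∈ normalizer (R : Set G), IsPGroup p (zpowers t) → t ∈ R := by
    intro t ht htp
    have h1 : y * t * y⁻¹ * t⁻¹ ∈ C := by
      intro r hr
      have e1 := hinv _ (H1.conj_mem_of_mem_normalizer' ht hr)
      have e2 := hinv _ hr
      have e3 : y⁻¹ * (t⁻¹ * r * t) * y = (t⁻¹ * r * t)⁻¹ := by
        conv_lhs => rw [hyi]; enter [2]; rw [← hyi]
        exact e1
      have e4 : y * r⁻¹ * y⁻¹ = r := by
        have := congrArg (·⁻¹) e2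
        simpa [mul_assoc] using this
      symm
      calc y * t * y⁻¹ * t⁻¹ * r = y * t * (y⁻¹ * (t⁻¹ * r * t) * y) * y⁻¹ * t⁻¹ := by group
        _ = (y * r⁻¹ * y⁻¹) * (y * t * y⁻¹ * t⁻¹) := by rw [e3]; group
        _ = r * (y * t * y⁻¹ * t⁻¹) := by rw [e4]
    set D := C ⊔ zpowers t with hD
    have hyD : zpowers y ≤ normalizer (D : Set G) := by
      rw [zpowers_le]
      refine mem_normalizer_fintype fun g hg => ?_
      obtain ⟨n, hn, k, rfl⟩ := (H9.mem_sup_zpowers (hNC ht)).1 hg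
      have : y * (n * t ^ k) * y⁻¹ = (y * n * y⁻¹) * ((y * t * y⁻¹ * t⁻¹) * t) ^ k := by
        rw [inv_mul_cancel_right, conj_zpow]; group
      rw [this]
      exact mul_mem (mem_sup_left (H1.conj_mem_of_mem_normalizer (hNC hyR) hn))
        (zpow_mem (mul_mem (mem_sup_left h1) (mem_sup_right (mem_zpowers t))) _)
    have hDodd : Odd (Nat.card D) := by
      have h2 := H7.card_sup_mul_card_inf_of_le_normalizer (zpowers_le.2 (hNC ht))
      rw [sup_comm] at h2
      obtain ⟨k, hk⟩ := htp.exists_card_eq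
      have h3 : Odd (Nat.card (zpowers t) * Nat.card C) := by
        rw [hk]; exact ((hp.odd_of_ne_two hp2).pow).mul hCodd
      exact h3.of_dvd_nat (Dvd.intro _ h2)
    have hcop : (Nat.card (zpowers y)).Coprime (Nat.card D) := by
      rw [Nat.card_zpowers, hy]; exact (Nat.coprime_two_left).2 hDodd
    obtain ⟨S, hS, hRS, hyS⟩ := H1.exists_invariant_sylowOf_ge (p := p) hyD hcop
      (Or.inl inferInstance) (hRC.trans le_sup_left) hR (zpowers_le.2 hyR)
    have hSR := hmax S ⟨H1.IsPiHallOf.isPGroup hS, hyS (mem_zpowers y)⟩ hRS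
    subst hSR
    have h5 := H1.IsPiHallOf.le_of_le_normalizer hS (le_sup_right : zpowers t ≤ D)
      (zpowers_le.2 ht) (H1.isPiNat_card_singleton_iff.2 htp)
    exact h5 (mem_zpowers t)
  obtain ⟨T, hT⟩ := hR.exists_le_sylow
  have hTR : R = T := by
    by_contra hne
    have h1 := H3.lt_inf_normalizer_of_isPGroup T.2 (lt_of_le_of_ne hT hne)
    obtain ⟨t, ht, htR⟩ := SetLike.exists_of_lt h1
    exact htR (key t ht.2 (H8.isPGroup_zpowers_of_mem T.2 ht.1))
  obtain ⟨g, rfl⟩ := MulAction.exists_smul_eq G T P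
  rw [H3.coe_smul_sylow_eq_map, H3.normalizer_map_conj, H3.card_map_conj, ← hTR,
    even_iff_two_dvd, ← hy]
  exact orderOf_dvd_natCard _ hyR

end Cfsg.Agent.S3982
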