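import Mathlib
import Cfsg.Statements.S3984
import Cfsg.Agent.H8.Elt

set_option autoImplicit false
open scoped Pointwise
open Cfsg

namespace Cfsg.Agent.S3984

open Subgroup in

theorem result {G : Type*} [Group G] [Finite G] (p : ℕ) [Fact p.Prime] (P : Sylow p G) (hTI : ∀ g : G, g ∉ Subgroup.normalizer ((P : Subgroup G) : Set G) → (P : Subgroup G) ⊓ (MulAut.conj g • (P : Subgroup G)) = ⊥) (N : Subgroup G) [N.Normal] (hN : (Nat.card ↥N).Coprime p) (Q : Sylow p (G ⧸ N)) : ∀ x : G ⧸ N, x ∉ Subgroup.normalizer ((Q : Subgroup (G ⧸ N)) : Set (G ⧸ N)) → (Q : Subgroup (G ⧸ N)) ⊓ (MulAut.conj x • (Q : Subgroup (G ⧸ N))) = ⊥ := by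
  rw [H8.ti_sylow_iff] at hTI ⊢
  intro Q₁ Q₂ x h1 h2 hx
  obtain ⟨g, rfl⟩ := QuotientGroup.mk_surjective x
  obtain ⟨a, b, ⟨k, hk⟩, hb, hab⟩ := H3.exists_pPart_mul_pPrimePart (p := p) g (orderOf_pos g).ne'
  have hb1 : ((g ^ b : G) : G ⧸ N) = 1 := by
    obtain ⟨j, hj⟩ := H8.exists_pow_eq_one_of_mem Q₁.2 (pow_mem h1 b)
    rw [← orderOf_eq_one_iff]
    exact Nat.eq_one_of_dvd_coprimes (hb.pow_right j) (orderOf_map_dvd (QuotientGroup.mk' N) _)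
      (orderOf_dvd_of_pow_eq_one hj)
  have hg : ((g ^ a : G) : G ⧸ N) = g := by
    conv_rhs => rw [← hab]
    rw [QuotientGroup.mk_mul, hb1, mul_one]
  have hf := QuotientGroup.mk'_surjective N
  have key : ∀ Q : Sylow p (G ⧸ N), (g : G ⧸ N) ∈ (Q : Subgroup (G ⧸ N)) →
      ∃ T : Sylow p G, g ^ a ∈ (T : Subgroup G) ∧ T.mapSurjective hf = Q := by
    intro Q hQ
    have h3 : zpowers (g ^ a) ≤ (Q : Subgroup (G ⧸ N)).comap (QuotientGroup.mk' N) := by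
      rw [zpowers_le, mem_comap]; simpa [← QuotientGroup.mk_pow, hg] using hQ
    obtain ⟨S, h4, h5, h6, h7⟩ := H3.exists_sylowIn (H8.isPGroup_zpowers_of_orderOf hk) h3
    have h8 : ¬ p ∣ S.index := by
      rw [← relIndex_mul_index h5, index_comap_of_surjective _ hf]
      exact fun h => ((Nat.Prime.dvd_mul Fact.out).1 h).elim h7 Q.not_dvd_index
    refine ⟨h6.toSylow h8, h4 (mem_zpowers _), ?_⟩
    apply Sylow.ext
    exact (((h6.toSylow h8).mapSurjective hf).3 Q.2 (map_le_iff_le_comap.2 h5)).symm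
  obtain ⟨T₁, h3, rfl⟩ := key Q₁ h1
  obtain ⟨T₂, h4, rfl⟩ := key Q₂ h2
  rw [hTI T₁ T₂ _ h3 h4 (fun h => hx (by rw [← hg, h]; rfl))]

end Cfsg.Agent.S3984
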