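import Mathlib
import Cfsg.Statements.S3985
import Cfsg.Agent.H8.Elt
import Cfsg.Agent.H8.Cyc
import Cfsg.Agent.H1.Coprime2

set_option autoImplicit false
open scoped Pointwise
open Cfsg

namespace Cfsg.Agent.S3985

open Subgroup in

theorem result {G : Type*} [Group G] [Finite G] (p : ℕ) [Fact p.Prime] (P : Sylow p G) (hcyc : IsCyclic ↥(P : Subgroup G)) : (∀ g : G, g ∉ Subgroup.normalizer ((P : Subgroup G) : Set G) → (P : Subgroup G) ⊓ (MulAut.conj g • (P : Subgroup G)) = ⊥) ↔ ∀ x : G, x ∈ (P : Subgroup G) → x ≠ 1 → Subgroup.centralizer ({x} : Set G) = Subgroup.centralizer ((P : Subgroup G) : Set G) := by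
  have hp : p.Prime := Fact.out
  have hcomm : IsMulCommutative (P : Subgroup G) := inferInstance
  have hPC : (P : Subgroup G) ≤ centralizer ((P : Subgroup G) : Set G) := le_centralizer _
  constructor
  · intro h x hx hx1
    refine le_antisymm (fun g hg => ?_) (centralizer_le (by simpa using hx))
    have hgN : ∀ g ∈ centralizer ({x} : Set G), g ∈ normalizer ((P : Subgroup G) : Set G) := by
      intro g hg
      by_contra hn
      have h1 : x ∈ (P : Subgroup G) ⊓ (MulAut.conj g • (P : Subgroup G)) := by
        refine ⟨hx, H1.mem_conj_smul_iff.2 ?_⟩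
        have := H8.mem_centralizer_singleton_iff'.1 (inv_mem hg)
        rw [inv_inv] at this
        rwa [this]
      rw [h g hn] at h1
      exact hx1 h1
    obtain ⟨a, b, ⟨k, hk⟩, hb, hab⟩ :=
      H3.exists_pPart_mul_pPrimePart (p := p) g (orderOf_pos g).ne'
    rw [← hab]
    refine mul_mem (hPC (H8.mem_sylow_of_mem_normalizer P (hgN _ (pow_mem hg _))
      (H8.isPGroup_zpowers_of_orderOf hk))) ?_
    refine H1.le_centralizer_of_prime_order (A := zpowers (g ^ b))
      (zpowers_le.2 (hgN _ (pow_mem hg _))) ?_ ?_ (mem_zpowers _)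
    · rw [Nat.card_zpowers]; exact H3.sylow_card_coprime_of_coprime P hb
    · intro v hv hvp a ha
      have h1 : a ∈ centralizer ({x} : Set G) := zpowers_le.2 (pow_mem hg _) ha
      have h2 : v ∈ zpowers x := by
        obtain ⟨j, hj⟩ := H8.exists_orderOf_eq_of_mem P.2 hv
        obtain ⟨i, hi⟩ := H8.exists_orderOf_eq_of_mem P.2 hx
        have h3 : orderOf v ∣ orderOf x := by
          have : j = 1 := by rw [hj] at hvp; exact hvp.eq_one_of_pow
          rw [hj, this, hi]
          refine pow_dvd_pow _ (Nat.pos_of_ne_zero fun h0 => hx1 ?_)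
          rwa [h0, pow_zero, orderOf_eq_one_iff] at hi
        exact H8.mem_zpowers_of_isCyclic hcyc hx hv h3
      obtain ⟨n, rfl⟩ := h2
      exact ((show Commute a x from mem_centralizer_singleton_iff.1 h1).zpow_right n).eq
  · intro h g hg
    rw [eq_bot_iff]
    intro x hx
    by_contra hx1
    apply hg
    have h1 := H1.mem_conj_smul_iff.1 hx.2
    have h2 := h _ h1 (fun h0 => hx1 (by
      have : x = g * (g⁻¹ * x * g) * g⁻¹ := by group
      rw [this, h0]; simp))
    have h3 := h _ hx.1 hx1
    have h4 : ((g • P : Sylow p G) : Subgroup G) ≤ centralizer ((P : Subgroup G) : Set G) := by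
      rw [← h3]
      intro y hy
      have h5 := hPC (H3.mem_coe_smul_sylow.1 hy)
      rw [← h2, mem_centralizer_singleton_iff] at h5
      rw [mem_centralizer_singleton_iff]
      calc y * x = g * (g⁻¹ * y * g * (g⁻¹ * x * g)) * g⁻¹ := by group
        _ = x * y := by rw [h5]; group
    have h6 := H8.le_sylow_of_le_normalizer P (h4.trans (centralizer_le_normalizer _)) (g • P).2
    exact (H8.smul_sylow_eq_iff P).1 (Sylow.ext ((g • P).3 P.2 h6).symm)

end Cfsg.Agent.S3985
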