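import Mathlib
import Cfsg.Statements.S3987
import Cfsg.Agent.H8.Elt
import Cfsg.Agent.S3986
import Cfsg.Agent.H1.Coprime2

set_option autoImplicit false
open Cfsg

namespace Cfsg.Agent.S3987

open Subgroup in

theorem result {G : Type*} [Group G] [Finite G] (p : ℕ) [Fact p.Prime] : (∃ (P : Sylow p G) (K : Subgroup G), (P : Subgroup G).Normal ∧ K.Normal ∧ (P : Subgroup G) ⊓ K = ⊥ ∧ (P : Subgroup G) ⊔ K = ⊤) ↔ ∀ x y : G, (∃ a : ℕ, orderOf x = p ^ a) → (∃ q b : ℕ, q.Prime ∧ q ≠ p ∧ orderOf y = q ^ b) → (Subgroup.centralizer ({x * y} : Set G)).index = (Subgroup.centralizer ({x} : Set G)).index * (Subgroup.centralizer ({y} : Set G)).index := by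
  have hp : p.Prime := Fact.out
  constructor
  · intro h x y ⟨a, ha⟩ ⟨q, b, hq, hqp, hb⟩
    have h' := (S3986.result p).1 h
    have hxy : Commute x y := h' x y ⟨a, ha⟩ ⟨q, b, hq, hqp, hb⟩
    have hcop : (orderOf x).Coprime (orderOf y) := by
      rw [ha, hb]; exact Nat.coprime_pow_primes _ _ hp hq (Ne.symm hqp)
    have h1 : centralizer ({x * y} : Set G) = centralizer {x} ⊓ centralizer {y} := by
      ext g
      simp only [mem_inf, mem_centralizer_singleton_iff]
      refine ⟨fun hg => ?_, fun hg => (Commute.mul_right hg.1 hg.2).eq⟩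
      have e1 : x ∈ zpowers (x * y) := by
        have : (x * y) ^ orderOf y = x ^ orderOf y := by
          rw [hxy.mul_pow, pow_orderOf_eq_one, mul_one]
        refine H9.mem_of_pow_mem_of_coprime (m := orderOf x) (n := orderOf y) ?_ ?_ hcop
        · rw [pow_orderOf_eq_one]; exact one_mem _
        · rw [← this]; exact pow_mem (mem_zpowers _) _
      obtain ⟨n, hn⟩ := e1
      have e2 : Commute g x := hn ▸ Commute.zpow_right hg n
      refine ⟨e2, ?_⟩
      have := (e2.inv_right).mul_right (show Commute g (x * y) from hg)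
      rwa [inv_mul_cancel_left] at this
    rw [h1]
    refine (S0007.result _ _ ?_).1
    have h2 : pResidual p G ≤ centralizer ({x} : Set G) := by
      refine H3.pResidual_le_iff.2 fun g hg => H3.mem_of_forall_primePow fun r hr hd c k hk => ?_
      rw [mem_centralizer_singleton_iff]
      refine (h' x _ ⟨a, ha⟩ ⟨r, k, hr, ?_, hk⟩).symm
      rintro rfl
      exact hp.one_lt.ne' (Nat.eq_one_of_dvd_coprimes hg hd dvd_rfl)
    obtain ⟨k, hk⟩ := H3.index_pResidual (p := p) (G := G)
    refine Nat.Coprime.coprime_dvd_left (hk ▸ index_dvd_of_le h2) (Nat.Coprime.pow_left _ ?_)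
    rw [hp.coprime_iff_not_dvd]
    refine H8.not_dvd_index_of_sylow_le (default : Sylow p G) fun g hg => ?_
    rw [mem_centralizer_singleton_iff]
    exact h' g y (H8.exists_orderOf_eq_of_mem (default : Sylow p G).2 hg) ⟨q, b, hq, hqp, hb⟩
  · intro h
    refine (S3986.result p).2 fun x y hx hy => ?_
    have h1 := h x y hx hy
    have h2 : centralizer {x} ⊓ centralizer {y} ≤ centralizer ({x * y} : Set G) := by
      intro g hg
      simp only [mem_inf, mem_centralizer_singleton_iff] at hg ⊢
      exact (Commute.mul_right hg.1 hg.2).eq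
    have h3 := index_inf_le (H := centralizer ({x} : Set G)) (K := centralizer {y})
    have h4 : centralizer ({x * y} : Set G) ≤ centralizer {x} ⊓ centralizer {y} := by
      rw [← relIndex_eq_one]
      have h5 := relIndex_mul_index h2
      have h6 : 0 < (centralizer ({x * y} : Set G)).index := Nat.pos_of_ne_zero FiniteIndex.index_ne_zero
      have h7 : 0 < (centralizer {x} ⊓ centralizer ({y} : Set G)).index :=
        Nat.pos_of_ne_zero FiniteIndex.index_ne_zero
      rw [← h1, ← h5] at h3
      have h8 : (centralizer {x} ⊓ centralizer {y}).relIndex (centralizer ({x * y} : Set G)) ≤ 1 := by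
        nlinarith
      have h9 : (centralizer {x} ⊓ centralizer {y}).relIndex (centralizer ({x * y} : Set G)) ≠ 0 := by
        intro h0; rw [h0, zero_mul] at h5; omega
      omega
    have h5 := (mem_inf.1 (h4 (mem_centralizer_singleton_iff.2 rfl))).1
    rw [mem_centralizer_singleton_iff, mul_assoc] at h5
    exact (mul_left_cancel h5).symm

end Cfsg.Agent.S3987
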