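import Cfsg.Statements.S3992
import Cfsg.Agent.H1.CIT13

set_option autoImplicit false
open Cfsg

namespace Cfsg.Agent.S3992

open H1.CIT Subgroup H10

theorem aux {H : Type*} [Group H] [Finite H] (hO : pCore 2 H = ⊥) (h : Kn H ∨ MT H) (hns : ¬ Group.IsSolvable H) :
    ∃ M : Subgroup H, M.Normal ∧ IsSimpleGroup M ∧ ¬ Group.IsSolvable M ∧
      ∀ N : Subgroup H, N.Normal → N ≠ ⊥ → M ≤ N := by
  rcases h with h | ⟨M, _, h1, F, _, _, h2, ⟨f⟩⟩
  · have := h.simple
    exact ⟨⊤, inferInstance, topEquiv.isSimpleGroup, fun e => hns (H1.isSolvable_of_mulEquiv e topEquiv),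
      fun N hN h0 => (hN.eq_bot_or_eq_top.resolve_left h0).ge⟩
  have two : ∀ {L : Type _} [Group L], Nat.card L ∣ 2 → IsPGroup 2 L := fun h =>
    IsPGroup.of_card_dvd_pow (n := 1) (by simpa using h)
  obtain ⟨g⟩ := H18.psl_a6 h2
  have : IsSimpleGroup M := (f.trans g).isSimpleGroup
  refine ⟨M, ‹_›, this, fun e => hns (solv_of_quot M e (solv_of_pg (two h1.dvd))), fun N hN h0 => ?_⟩
  refine subgroupOf_eq_top.1 ((inferInstance : (N.subgroupOf M).Normal).eq_bot_or_eq_top.resolve_left fun e => h0 ?_)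
  refine H1.pCore_eq_bot_iff.1 hO N hN (two ?_)
  rw [← h1, ← relIndex_bot_left, ← (subgroupOf_eq_bot.1 e).symm.eq_bot, inf_relIndex_right]
  exact relIndex_dvd_index_of_normal M N

/-- Let G be a finite non-solvable group in which every element has prime-power order, and let R be its largest solvable normal subgroup. Then R is a p-group for some prime p; G/R has a non-abelian simple normal subgroup contained in every nontrivial normal subgroup of G/R (its unique minimal normal subgroup); and the order of every solvable subgroup of G has at most two prime divisors. -/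
theorem result {G : Type*} [Group G] [Finite G] (hns : ¬ Group.IsSolvable G) (hpp : ∀ g : G, g ≠ 1 → IsPrimePow (orderOf g))
    (R : Subgroup G) [R.Normal] (hRs : Group.IsSolvable ↥R) (hRmax : ∀ N : Subgroup G, N.Normal → Group.IsSolvable ↥N → N ≤ R) :
    (∃ p : ℕ, p.Prime ∧ IsPGroup p ↥R) ∧
      (∃ M : Subgroup (G ⧸ R), M.Normal ∧ IsSimpleGroup ↥M ∧ ¬ IsMulCommutative ↥M ∧
        ∀ N : Subgroup (G ⧸ R), N.Normal → N ≠ ⊥ → M ≤ N) ∧
      ∀ H : Subgroup G, Group.IsSolvable ↥H → (Nat.card ↥H).primeFactors.card ≤ 2 := by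
  have he := eppo_of hpp
  obtain ⟨M, h1, h2, h3, h4⟩ := aux (H1.pCore_quotient_pCore 2) (he.cit.struct' hns)
    fun h => hns (solv_of_quot _ (solv_of_pg isPGroup_pCore') h)
  obtain rfl : R = pCore 2 G := by
    refine le_antisymm ?_ (hRmax _ inferInstance (solv_of_pg isPGroup_pCore'))
    rw [← QuotientGroup.ker_mk' (pCore 2 G), ← Subgroup.map_eq_bot_iff]
    by_contra h0
    exact h3 (H1.isSolvable_of_le (H1.isSolvable_map hRs _)
      (h4 _ (Normal.map ‹_› _ (QuotientGroup.mk'_surjective _)) h0))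
  refine ⟨⟨2, Nat.prime_two, isPGroup_pCore'⟩, ⟨M, h1, h2, fun e => h3 (H1.isSolvable_of_comm' e), h4⟩,
    fun H hH => (eppo_of fun g h1 => ?_).card_le hH⟩
  rw [← Subgroup.orderOf_coe]
  exact hpp g fun e => h1 (Subtype.ext e)

end Cfsg.Agent.S3992
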