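import Cfsg.Statements.S4002
import Cfsg.Agent.H1.CIT12

set_option autoImplicit false
open Cfsg

namespace Cfsg.Agent.S4002



/-- If the set of element orders of a finite group G is {1, 2, …, n} with n ≥ 7, then G is not solvable. -/
theorem result {G : Type*} [Group G] [Finite G] (n : ℕ) (hn : 7 ≤ n) (h : Set.range (orderOf : G → ℕ) = {k : ℕ | 1 ≤ k ∧ k ≤ n}) : ¬ Group.IsSolvable G := by
  intro hs
  obtain ⟨p, q, r, hp, hq, hr, h1, h2, h3, h4⟩ : ∃ p q r : ℕ, p.Prime ∧ q.Prime ∧ r.Prime ∧ p < q ∧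
      q < r ∧ r ≤ n ∧ n < p * q := by
    by_cases a : n < 15
    · exact ⟨3, 5, 7, by norm_num, by norm_num, by norm_num, by norm_num, by norm_num, hn, a⟩
    by_cases b : n < 35
    · exact ⟨5, 7, 11, by norm_num, by norm_num, by norm_num, by norm_num, by norm_num, by omega, b⟩
    obtain ⟨p, hp, p1, p2⟩ := Nat.exists_prime_lt_and_le_two_mul (n / 8) (by omega)
    obtain ⟨q, hq, q1, q2⟩ := Nat.exists_prime_lt_and_le_two_mul (2 * (n / 8)) (by omega)
    obtain ⟨r, hr, r1, r2⟩ := Nat.exists_prime_lt_and_le_two_mul (4 * (n / 8)) (by omega)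
    refine ⟨p, q, r, hp, hq, hr, by omega, by omega, by omega, ?_⟩
    have : 4 ≤ n / 8 := by omega
    have : n < 8 * (n / 8) + 8 := by omega
    nlinarith
  have d : ∀ k, 1 ≤ k → k ≤ n → k ∣ Nat.card G := fun k a b => by
    obtain ⟨g, rfl⟩ : k ∈ Set.range (orderOf : G → ℕ) := h.ge ⟨a, b⟩
    exact orderOf_dvd_natCard g
  have e : ∀ k, H1.CIT.El G k → k ≤ n := fun k hk => (h.le hk).2
  rcases H1.CIT.three_primes hs hp hq hr h1.ne (h1.trans h2).ne h2.ne (d p hp.pos (by omega))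
    (d q hq.pos (by omega)) (d r hr.pos h3) with a | a | a <;> have := e _ a <;> nlinarith

end Cfsg.Agent.S4002
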