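import Cfsg.Statements.S4009
import Cfsg.Agent.H17.Mann

set_option autoImplicit false
open Cfsg

namespace Cfsg.Agent.S4009

open H17 Cfsg


/-- Let P be a finite p-group of order p^n whose derived length is exactly k + 1 (the k-th derived subgroup is nontrivial and the (k+1)-st is trivial). Then n ≥ 2^k + 2k − 2. -/
theorem result {P : Type*} [Group P] [Finite P] (p : ℕ) [Fact p.Prime] (n k : ℕ) (hcard : Nat.card P = p ^ n) (hk : derivedSeries P k ≠ ⊥) (hk' : derivedSeries P (k + 1) = ⊥) : 2 ^ k + 2 * k ≤ n + 2 := by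
  have hG : IsPGroup p P := IsPGroup.of_card hcard
  have p1 := (Fact.out : p.Prime).one_lt
  obtain ⟨j, -, -, h⟩ := H17.Mann.main hG k hk
  obtain ⟨t, ht⟩ := (hG.to_subgroup (derivedSeries P k)).exists_card_eq
  have ht0 : 1 ≤ t := by
    rcases t with _ | t
    · exact absurd (Subgroup.card_eq_one.1 (by simpa using ht)) hk
    · omega
  rw [ht, hcard, ← pow_add, ← pow_succ', ← pow_add, ← pow_add] at h
  rcases h with h | ⟨h, -⟩ | ⟨h, -⟩ <;> have := (Nat.pow_le_pow_iff_right p1).1 h <;> omega

end Cfsg.Agent.S4009
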