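import Mathlib
import Cfsg.Statements.S4013
import Cfsg.Agent.H8.Elt
import Cfsg.Agent.H7.Basic

set_option autoImplicit false
open Cfsg

namespace Cfsg.Agent.S4013

open Subgroup in

theorem result {G : Type*} [Group G] [Finite G] (p : ℕ) [Fact p.Prime] (hG : IsPGroup p G) (N M : Subgroup G) [N.Normal] [M.Normal] (hNM : N < M) (g : G) (hgM : g ∈ M) (hgN : g ∉ N) (hcl : {h : G | IsConj g h} = (M : Set G) \ (N : Set G)) : p = 2 ∧ N.relIndex M = 2 := by
  have hp : p.Prime := Fact.out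
  have h1 := H8.card_conj_class g
  have h2 : Nat.card {y : G // IsConj g y} = Nat.card M - Nat.card N := by
    change Nat.card ({h : G | IsConj g h} : Set G) = _
    rw [hcl, Nat.card_coe_set_eq, Set.ncard_diff hNM.le, ← Nat.card_coe_set_eq,
      ← Nat.card_coe_set_eq]
    rfl
  have h3 := H7.card_mul_relIndex hNM.le
  obtain ⟨a, ha⟩ := hG.index (centralizer ({g} : Set G))
  obtain ⟨b, hb⟩ := (hG.to_subgroup M).index (N.subgroupOf M)
  change N.relIndex M = _ at hb
  have h4 : N.relIndex M - 1 ∣ p ^ a := by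
    rw [← ha, ← h1, h2, ← h3, ← Nat.mul_sub_one]
    exact Dvd.intro_left _ rfl
  have hb0 : b ≠ 0 := by
    rintro rfl
    rw [pow_zero, relIndex_eq_one] at hb
    exact hNM.not_ge hb
  have h5 : (p ^ b - 1).Coprime p := by
    have : 1 ≤ p ^ b := Nat.one_le_pow _ _ hp.pos
    have h6 : (p ^ b - 1).Coprime (p ^ b) := by
      obtain ⟨c, hc⟩ : ∃ c, p ^ b = c + 1 := ⟨p ^ b - 1, by omega⟩
      rw [hc]; simp
    exact h6.coprime_dvd_right (dvd_pow_self _ hb0)
  rw [hb] at h4 ⊢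
  have h6 := Nat.eq_one_of_dvd_coprimes (h5.pow_right a) dvd_rfl h4
  have h7 : p ^ b = 2 := by omega
  refine ⟨?_, h7⟩
  exact (Nat.prime_dvd_prime_iff_eq hp Nat.prime_two).1 (h7 ▸ dvd_pow_self _ hb0)

end Cfsg.Agent.S4013
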