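import Cfsg.Statements.S4014
import Cfsg.Agent.H16.LA20
-- import your own Cfsg.Agent.* helpers here

set_option autoImplicit false
open Cfsg

namespace Cfsg.Agent.S4014

open H16 in
/-- Let p be a prime, n ≥ 1, and P a Sylow p-subgroup of the symmetric group on n letters. Then the derived length of P is exactly k = ⌊log_p n⌋ (the largest k with p^k ≤ n): the k-th derived subgroup of P is trivial and, when k ≥ 1, the (k−1)-st is not. -/
theorem result (p : ℕ) [Fact p.Prime] (n : ℕ) (hn : 1 ≤ n) (P : Sylow p (Equiv.Perm (Fin n))) : derivedSeries ↥(P : Subgroup (Equiv.Perm (Fin n))) (Nat.log p n) = ⊥ ∧ (1 ≤ Nat.log p n → derivedSeries ↥(P : Subgroup (Equiv.Perm (Fin n))) (Nat.log p n - 1) ≠ ⊥) := by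
  refine ⟨der_sylow_perm n _ (by simp) P, fun h => ?_⟩
  obtain ⟨H, _, _, ι, _, _, h1, h2, h3⟩ := exists_der_perm (p := p) (Nat.log p n - 1)
  have : Finite ι := Nat.finite_of_card_ne_zero (h2 ▸ pow_ne_zero _ (Fact.out : p.Prime).ne_zero)
  obtain ⟨φ, hφ⟩ := exists_perm_hom H ι (Fin n) (by
    rw [h2, Nat.sub_add_cancel h]; simpa using Nat.pow_log_le_self p (by omega))
  exact der_sylow_ne h1 φ hφ h3 P

end Cfsg.Agent.S4014
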