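import Cfsg.Statements.S4015
import Cfsg.Agent.H16.LA17
-- import your own Cfsg.Agent.* helpers here

set_option autoImplicit false
open Cfsg

namespace Cfsg.Agent.S4015

open H16 in
/-- Let p be an odd prime, F a finite field with q elements where p does not divide q, and e the multiplicative order of q modulo p. Let n ≥ e and write w = ⌊n/e⌋ and k = ⌊log_p w⌋. Then a Sylow p-subgroup of GL(n, F) has derived length exactly k + 1: its (k+1)-st derived subgroup is trivial and its k-th is not. -/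
theorem result (p : ℕ) [Fact p.Prime] (hp : p ≠ 2) (F : Type*) [Field F] [Fintype F] (q : ℕ) (hq : Fintype.card F = q) (hpq : ¬ p ∣ q) (n : ℕ) (hn : orderOf (q : ZMod p) ≤ n) (P : Sylow p (Matrix.GeneralLinearGroup (Fin n) F)) : derivedSeries ↥(P : Subgroup (Matrix.GeneralLinearGroup (Fin n) F)) (Nat.log p (n / orderOf (q : ZMod p)) + 1) = ⊥ ∧ derivedSeries ↥(P : Subgroup (Matrix.GeneralLinearGroup (Fin n) F)) (Nat.log p (n / orderOf (q : ZMod p))) ≠ ⊥ := by
  subst hq
  refine ⟨by simpa using der_GL_cross hpq P.isPGroup' P.1.subtype P.1.subtype_injective, fun h => ?_⟩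
  have h0 := orderOf_zmod_pos hpq
  obtain ⟨H, _, _, ι, _, _, φ, h1, h2, g, h3, h4⟩ := exists_der_ne hpq
    (Nat.log p (n / orderOf (Fintype.card F : ZMod p)))
  obtain ⟨ψ, -, hψ⟩ := exists_extM (n := Fin n) φ (by
    rw [h2, Fintype.card_fin]
    exact (Nat.mul_le_mul_left _ (Nat.pow_log_le_self p (Nat.div_pos hn h0).ne')).trans
      (Nat.mul_div_le _ _))
  obtain ⟨Q, hQ⟩ := (h1.of_surjective _ ψ.toHomUnits.rangeRestrict_surjective).exists_le_sylow
  have h5 := map_derivedSeries_le_derivedSeries ((Q.equiv P).toMonoidHom.comp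
    (ψ.toHomUnits.codRestrict Q fun x => hQ ⟨x, rfl⟩)) _ ⟨g, h3, rfl⟩
  rw [h, Subgroup.mem_bot] at h5
  exact h4 ((hψ g).1 (congrArg (·.1.1) ((map_eq_one_iff _ (Q.equiv P).injective).1 h5)))

end Cfsg.Agent.S4015
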