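import Cfsg.Statements.S4027
import Cfsg.Agent.H3.Misc

set_option autoImplicit false
open Cfsg

namespace Cfsg.Agent.S4027

/-- Let G be a finite group in which every element x of odd order satisfies N_G(⟨x⟩) = C_G(x). Then the Sylow 2-subgroups of G are normal. -/
theorem result {G : Type*} [Group G] [Finite G]
    (hirr : ∀ x : G, (∀ r : ℕ, r.Prime → r ∣ orderOf x → r ≠ 2) →
      Subgroup.normalizer ((Subgroup.zpowers x : Subgroup G) : Set G) ≤ Subgroup.centralizer {x}) (P : Sylow 2 G) :
    (P : Subgroup G).Normal := by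
  refine H3.normal_sylow_two_of_no_real (fun x hx ho hc => hx ?_) P
  obtain ⟨g, hg⟩ := isConj_iff.mp hc
  have h1 := hirr x (fun r _ hr h2 => by subst h2; exact ho.not_two_dvd_nat hr)
    (H3.mem_normalizer_of_conj_mem (g := g) (by
      rintro _ ⟨i, rfl⟩
      rw [← conj_zpow, hg]
      exact zpow_mem (inv_mem (Subgroup.mem_zpowers x)) i))
  rw [H6.conj_eq_iff_commute.mpr (H6.mem_cent_iff_commute.mp h1), eq_inv_iff_mul_eq_one] at hg
  exact H6.eq_one_of_odd_of_sq ho hg

end Cfsg.Agent.S4027
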