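import Mathlib
import Cfsg.Statements.S4028
import Cfsg.Agent.H8.Elt
import Cfsg.Agent.H8.Cyc
import Cfsg.Agent.H1.Coprime2

set_option autoImplicit false
open Cfsg

namespace Cfsg.Agent.S4028

open Subgroup in

theorem result {G : Type*} [Group G] [Finite G] (P : Sylow 2 G) :
    (∀ x : G, (∀ r : ℕ, r.Prime → r ∣ orderOf x → r = 2) →
      Subgroup.normalizer ((Subgroup.zpowers x : Subgroup G) : Set G) ≤ Subgroup.centralizer {x}) ↔
    (∀ y : ↥(P : Subgroup G), Subgroup.normalizer ((Subgroup.zpowers y : Subgroup ↥(P : Subgroup G)) : Set ↥(P : Subgroup G)) ≤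
        Subgroup.centralizer {y}) := by
  have : Fact (Nat.Prime 2) := ⟨Nat.prime_two⟩
  constructor
  · intro h y n hn
    have h1 : (n : G) ∈ normalizer ((zpowers (y : G) : Subgroup G) : Set G) := by
      refine mem_normalizer_fintype ?_
      rintro _ ⟨k, rfl⟩
      obtain ⟨j, hj⟩ := H1.conj_mem_of_mem_normalizer hn (zpow_mem_zpowers y k)
      exact ⟨j, by simpa using congrArg Subtype.val hj⟩
    have h2 := h y (fun r hr hd => by
      obtain ⟨k, hk⟩ := H8.exists_orderOf_eq_of_mem P.2 y.2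
      rw [hk] at hd
      exact (Nat.prime_dvd_prime_iff_eq hr Nat.prime_two).1 (hr.dvd_of_dvd_pow hd)) h1
    rw [mem_centralizer_singleton_iff] at h2 ⊢
    exact Subtype.ext h2
  · intro h x hx g hg
    obtain ⟨k, hk⟩ : ∃ k, orderOf x = 2 ^ k :=
      ⟨_, Nat.eq_prime_pow_of_unique_prime_dvd (orderOf_pos x).ne' fun hr hd => hx _ hr hd⟩
    have hxp := H8.isPGroup_zpowers_of_orderOf hk
    obtain ⟨a, b, ⟨j, hj⟩, hb, hab⟩ := H3.exists_pPart_mul_pPrimePart (p := 2) g (orderOf_pos g).ne'
    rw [← hab]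
    refine mul_mem ?_ ?_
    · have h1 : IsPGroup 2 (zpowers x ⊔ zpowers (g ^ a) : Subgroup G) :=
        hxp.to_sup_of_normal_left' (H8.isPGroup_zpowers_of_orderOf hj) (zpowers_le.2 (pow_mem hg _))
      obtain ⟨c, hc⟩ := H3.exists_conj_le_sylow P h1
      have h2 := hc x (mem_sup_left (mem_zpowers x))
      have h3 := hc _ (mem_sup_right (mem_zpowers (g ^ a)))
      have h4 := h ⟨_, h2⟩ (x := ⟨_, h3⟩) (by
        refine mem_normalizer_fintype ?_
        rintro _ ⟨i, rfl⟩
        obtain ⟨m, hm⟩ := H1.conj_mem_of_mem_normalizer (pow_mem hg a) (zpow_mem_zpowers x i)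
        refine ⟨m, Subtype.ext ?_⟩
        simp only [SubgroupClass.coe_zpow, MulMemClass.coe_mul, InvMemClass.coe_inv] at hm ⊢
        have e : ∀ m : ℤ, (c⁻¹ * x * c) ^ m = c⁻¹ * x ^ m * c := fun m => by
          simpa using conj_zpow (a := c⁻¹) (b := x) (i := m)
        rw [e, e, hm]; group)
      rw [mem_centralizer_singleton_iff] at h4 ⊢
      have h5 : c⁻¹ * g ^ a * c * (c⁻¹ * x * c) = c⁻¹ * x * c * (c⁻¹ * g ^ a * c) :=
        congrArg Subtype.val h4
      calc g ^ a * x = c * (c⁻¹ * g ^ a * c * (c⁻¹ * x * c)) * c⁻¹ := by group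
        _ = x * g ^ a := by rw [h5]; group
    · have h1 := H1.le_centralizer_of_prime_order (A := zpowers (g ^ b)) (V := zpowers x)
        (zpowers_le.2 (pow_mem hg _)) (by
          rw [Nat.card_zpowers, Nat.card_zpowers, hk]; exact hb.pow_right _) (by
          intro v hv hvp a ha
          have h2 : orderOf v = 2 := hx _ hvp (orderOf_dvd_of_mem_zpowers hv)
          have h3 := H1.conj_mem_of_mem_normalizer (zpowers_le.2 (pow_mem hg b) ha) hv
          have h4 : orderOf (a * v * a⁻¹) = 2 := h2 ▸ (MulAut.conj a).orderOf_eq v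
          obtain ⟨m, hm⟩ := H8.mem_zpowers_of_isCyclic inferInstance hv h3 (by rw [h2, h4])
          simp only at hm
          rw [← zpow_mod_orderOf, h2] at hm
          rcases Int.emod_two_eq_zero_or_one m with h0 | h0
          · simp only [Nat.cast_ofNat, h0, zpow_zero] at hm
            rw [← hm] at h4; simp at h4
          · simp only [Nat.cast_ofNat, h0, zpow_one] at hm
            conv_rhs => rw [hm]
            group)
      exact centralizer_le (by simp) (h1 (mem_zpowers _))

end Cfsg.Agent.S4028
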