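import Cfsg.Statements.S4029
import Cfsg.Agent.H7.Extra1

set_option autoImplicit false
open Cfsg

namespace Cfsg.Agent.S4029

open Finset

open Classical in
theorem sum_cent_class {G : Type*} [Group G] [Fintype G] (K : ConjClasses G) :
    ∑ g with ConjClasses.mk g = K, Nat.card (Subgroup.centralizer {g}) = Nat.card G := by
  obtain ⟨a, rfl⟩ := K.mk_surjective
  rw [Nat.card_eq_fintype_card (α := G), ← card_univ, card_eq_sum_card_fiberwise
    (f := fun x => x * a * x⁻¹) (t := {g | ConjClasses.mk g = ConjClasses.mk a})
    fun x _ => by simpa [ConjClasses.mk_eq_mk_iff_isConj] using (isConj_iff.2 ⟨x, rfl⟩).symm]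
  refine sum_congr rfl fun g hg => ?_
  obtain ⟨y, rfl⟩ := isConj_iff.1 (ConjClasses.mk_eq_mk_iff_isConj.1 (mem_filter.1 hg).2).symm
  rw [← Fintype.card_subtype, ← Nat.card_eq_fintype_card]
  refine Nat.card_congr ((Equiv.mulRight y).subtypeEquiv fun x => ?_)
  rw [Subgroup.mem_centralizer_singleton_iff, Equiv.coe_mulRight, ← mul_inv_eq_iff_eq_mul]
  simp only [mul_assoc, mul_inv_rev]

open Classical in
theorem sum_cent_filter {G : Type*} [Group G] [Fintype G] (P : ConjClasses G → Prop) :
    ∑ g with P (ConjClasses.mk g), Nat.card (Subgroup.centralizer {g}) =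
      Nat.card {K // P K} * Nat.card G := by
  rw [← sum_fiberwise_of_maps_to (g := ConjClasses.mk) (t := {K | P K}) (by simp),
    Nat.card_eq_fintype_card (α := {K // P K}), Fintype.card_subtype, ← smul_eq_mul, ← sum_const]
  refine sum_congr rfl fun K hK => (sum_congr ?_ fun _ _ => rfl).trans (sum_cent_class K)
  ext g
  simpa using fun h => h ▸ (mem_filter.1 hK).2

/-- Let P be a finite 2-group in which N_P(⟨y⟩) = C_P(y) for every y ∈ P. If s is the number of conjugacy classes of involutions of P, then #(P/Φ(P)) ≤ s + 1; in particular the subgroup generated by the involutions of P has order at least #(P/Φ(P)). -/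
theorem result {P : Type*} [Group P] [Finite P] (hP : IsPGroup 2 P)
    (hirr : ∀ y : P, Subgroup.normalizer ((Subgroup.zpowers y : Subgroup P) : Set P) ≤ Subgroup.centralizer {y}) :
    Nat.card (P ⧸ frattini P) ≤ Nat.card {c : ConjClasses P // ∃ y : P, ConjClasses.mk y = c ∧ orderOf y = 2} + 1 ∧
    Nat.card (P ⧸ frattini P) ≤ Nat.card (Subgroup.closure {y : P | orderOf y = 2}) := by
  classical
  haveI := Fintype.ofFinite P
  set s := Nat.card {c : ConjClasses P // ∃ y : P, ConjClasses.mk y = c ∧ orderOf y = 2} with hs
  haveI : Fact (Nat.Prime 2) := ⟨Nat.prime_two⟩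
  have key : Nat.card (P ⧸ frattini P) ≤ s + 1 := by
    -- pairs with equal squares
    let r : P → ℕ := fun g => #{x : P | x ^ 2 = g}
    have h1 : ∑ g ∈ univ.filter (· ∈ frattini P), r g = Nat.card P := by
      rw [Nat.card_eq_fintype_card, ← card_univ]
      exact (card_eq_sum_card_fiberwise (f := fun x : P => x ^ 2)
        (fun x _ => by simpa using H7.pow_mem_frattini hP x)).symm
    have h2 : ∑ g, r g ^ 2 = #{q : P × P | q.1 ^ 2 = q.2 ^ 2} := by
      rw [card_eq_sum_card_fiberwise (f := fun q : P × P => q.1 ^ 2) (t := univ) (by simp)]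
      refine sum_congr rfl fun g _ => ?_
      rw [sq, ← card_product]
      congr 1
      ext q
      simp only [mem_product, mem_filter, mem_univ, true_and]
      constructor
      · rintro ⟨a, b⟩; exact ⟨a.trans b.symm, a⟩
      · rintro ⟨a, b⟩; exact ⟨b, a.symm.trans b⟩
    have h3 : #{q : P × P | q.1 ^ 2 = q.2 ^ 2} ≤
        ∑ g : P with g ^ 2 = 1, Nat.card (Subgroup.centralizer ({g} : Set P)) := by
      have hk : ∀ x y : P, x ^ 2 = y ^ 2 → (x⁻¹ * y) ^ 2 = 1 ∧
          x ∈ Subgroup.centralizer ({x⁻¹ * y} : Set P) := by
        intro x y h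
        set g := x⁻¹ * y with hg
        have hy : y = x * g := by rw [hg]; group
        have e : x * g * x⁻¹ = g⁻¹ := by
          have : x * x = x * g * (x * g) := by rw [← sq, h, hy, sq]
          have h5 : x = g * x * g := by
            apply mul_left_cancel (a := x); rw [this]; group
          calc x * g * x⁻¹ = g⁻¹ * (g * x * g) * x⁻¹ := by group
            _ = g⁻¹ := by rw [← h5]; group
        have hn : x ∈ Subgroup.normalizer ((Subgroup.zpowers g : Subgroup P) : Set P) := by
          apply Subgroup.mem_normalizer_fintype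
          rintro _ ⟨k, rfl⟩
          refine ⟨-k, ?_⟩
          show g ^ (-k) = x * g ^ k * x⁻¹
          rw [← conj_zpow, e]; simp
        have hc := hirr g hn
        refine ⟨?_, hc⟩
        have := Subgroup.mem_centralizer_singleton_iff.1 hc
        rw [this, mul_inv_cancel_right] at e
        rw [sq]; nth_rw 1 [e]; simp
      rw [card_eq_sum_card_fiberwise (f := fun q : P × P => q.1⁻¹ * q.2)
        (t := univ.filter fun g : P => g ^ 2 = 1)
        (fun q hq => by simpa using (hk q.1 q.2 (by simpa using hq)).1)]
      refine sum_le_sum fun g _ => ?_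
      rw [Nat.card_eq_fintype_card, Fintype.card_subtype]
      refine card_le_card_of_injOn (fun q => q.1) (fun q hq => ?_) (fun q hq q' hq' e => ?_)
      · simp only [coe_filter, mem_filter, mem_univ, true_and, Set.mem_setOf_eq] at hq ⊢
        rw [← hq.2]; exact (hk _ _ hq.1).2
      · simp only [coe_filter, mem_filter, mem_univ, true_and, Set.mem_setOf_eq] at hq hq' e
        refine Prod.ext e ?_
        have := hq.2.trans hq'.2.symm
        rw [e] at this
        exact mul_left_cancel this
    have h4 : ∑ g : P with g ^ 2 = 1, Nat.card (Subgroup.centralizer ({g} : Set P)) ≤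
        (s + 1) * Nat.card P := by
      have e := sum_cent_filter (G := P) (fun c => ∃ y : P, ConjClasses.mk y = c ∧ orderOf y = 2)
      rw [add_mul, one_mul, hs, ← e]
      have hsub : (univ.filter fun g : P => g ^ 2 = 1) ⊆ insert 1
          (univ.filter fun g : P => ∃ y : P, ConjClasses.mk y = ConjClasses.mk g ∧ orderOf y = 2) := by
        intro g hg
        rw [mem_insert]
        by_cases h : g = 1
        · exact Or.inl h
        · exact Or.inr (mem_filter.2 ⟨mem_univ _, g, rfl,
            orderOf_eq_prime (mem_filter.1 hg).2 h⟩)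
      refine (sum_le_sum_of_subset hsub).trans ?_
      rw [sum_insert (by
        simp only [mem_filter, mem_univ, true_and, not_exists, not_and]
        intro y hy h2
        rw [isConj_one_right.1 (ConjClasses.mk_eq_mk_iff_isConj.1 hy).symm, orderOf_one] at h2
        omega), add_comm]
      have := Subgroup.card_le_card_group (Subgroup.centralizer ({1} : Set P))
      refine Nat.add_le_add (le_of_eq ?_) this
      congr
    have h5 := sq_sum_le_card_mul_sum_sq (s := univ.filter (· ∈ frattini P)) (f := r)
    have h6 : ∑ g ∈ univ.filter (· ∈ frattini P), r g ^ 2 ≤ ∑ g, r g ^ 2 :=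
      sum_le_sum_of_subset (filter_subset _ _)
    have h7 : #(univ.filter (· ∈ frattini P)) = Nat.card (frattini P) := by
      rw [Nat.card_eq_fintype_card, Fintype.card_subtype]
    rw [h1, h7] at h5
    have h8 := Subgroup.card_eq_card_quotient_mul_card_subgroup (frattini P)
    have h9 : Nat.card P ^ 2 ≤ Nat.card (frattini P) * ((s + 1) * Nat.card P) :=
      h5.trans (Nat.mul_le_mul_left _ (h6.trans (h2.le.trans (h3.trans h4))))
    have hp1 : 0 < Nat.card P := Nat.card_pos
    have hp2 : 0 < Nat.card (frattini P) := Nat.card_pos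
    have h10 : Nat.card P ≤ Nat.card (frattini P) * (s + 1) := by
      refine Nat.le_of_mul_le_mul_right ?_ hp1
      rw [← sq, mul_assoc]; exact h9
    rw [h8, mul_comm] at h10
    exact Nat.le_of_mul_le_mul_left h10 hp2
  refine ⟨key, key.trans ?_⟩
  set K := Subgroup.closure {y : P | orderOf y = 2}
  choose f hf using fun c : {c : ConjClasses P // ∃ y : P, ConjClasses.mk y = c ∧ orderOf y = 2} => c.2
  have : Nat.card (Option {c : ConjClasses P // ∃ y : P, ConjClasses.mk y = c ∧ orderOf y = 2}) ≤
      Nat.card K := by
    refine Nat.card_le_card_of_injective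
      (fun o => match o with
        | none => 1
        | some c => ⟨f c, Subgroup.subset_closure (hf c).2⟩) ?_
    have hne : ∀ c, f c ≠ 1 := fun c h => by
      have := (hf c).2; rw [h, orderOf_one] at this; omega
    rintro (_ | a) (_ | b) h
    · rfl
    · exact absurd (congrArg Subtype.val h).symm (hne b)
    · exact absurd (congrArg Subtype.val h) (hne a)
    · have h' : f a = f b := congrArg Subtype.val h
      congr 1
      apply Subtype.ext
      rw [← (hf a).1, ← (hf b).1, h']
  rwa [Finite.card_option] at this

end Cfsg.Agent.S4029
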