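import Mathlib
import Cfsg.Statements.S4032
import Cfsg.Agent.H8.Elt

set_option autoImplicit false
open Cfsg

namespace Cfsg.Agent.S4032

open Subgroup in

theorem result {G : Type*} [Group G] [Finite G] (π : Set ℕ)
    (hirr : ∀ x : G, (∀ r : ℕ, r.Prime → r ∣ orderOf x → r ∈ π) →
      Subgroup.normalizer ((Subgroup.zpowers x : Subgroup G) : Set G) ≤ Subgroup.centralizer {x})
    (N : Subgroup G) [N.Normal] (hN : ∀ r : ℕ, r.Prime → r ∣ Nat.card N → r ∉ π) :
    ∀ y : G ⧸ N, (∀ r : ℕ, r.Prime → r ∣ orderOf y → r ∈ π) →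
      Subgroup.normalizer ((Subgroup.zpowers y : Subgroup (G ⧸ N)) : Set (G ⧸ N)) ≤ Subgroup.centralizer {y} := by
  intro y hy
  obtain ⟨g, rfl⟩ := QuotientGroup.mk_surjective y
  -- lift to a π-element
  have hcop : (orderOf (g : G ⧸ N)).Coprime (Nat.card N) :=
    Nat.coprime_of_dvd fun r hr h1 h2 => hN r hr h2 (hy r hr h1)
  have hf := QuotientGroup.mk'_surjective N
  obtain ⟨x, hx, hxg⟩ : ∃ x : G, (∀ r : ℕ, r.Prime → r ∣ orderOf x → r ∈ π) ∧
      zpowers (x : G ⧸ N) = zpowers (g : G ⧸ N) := by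
    refine ⟨g ^ Nat.card N, fun r hr hd => hy r hr (hd.trans ?_), ?_⟩
    · rw [orderOf_dvd_iff_pow_eq_one, ← pow_mul, mul_comm, pow_mul]
      have h1 : g ^ orderOf (g : G ⧸ N) ∈ N := by
        rw [← QuotientGroup.eq_one_iff, QuotientGroup.mk_pow, pow_orderOf_eq_one]
      exact orderOf_dvd_iff_pow_eq_one.1 (orderOf_dvd_natCard _ h1)
    · refine le_antisymm (zpowers_le.2 ?_) (zpowers_le.2 ?_)
      · rw [QuotientGroup.mk_pow]; exact pow_mem (mem_zpowers _) _
      · refine H9.mem_of_pow_mem_of_coprime ?_ ?_ hcop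
        · rw [pow_orderOf_eq_one]; exact one_mem _
        · rw [QuotientGroup.mk_pow]; exact mem_zpowers _
  have h1 := H1.map_normalizer_mk' N (A := zpowers x) (by
    rw [Nat.card_zpowers]
    exact Nat.coprime_of_dvd fun r hr h1 h2 => hN r hr h2 (hx r hr h1)) (Or.inl inferInstance)
  rw [MonoidHom.map_zpowers, QuotientGroup.mk'_apply, hxg] at h1
  rw [← h1]
  rintro _ ⟨n, hn, rfl⟩
  have h2 := mem_centralizer_singleton_iff.1 (hirr x hx hn)
  obtain ⟨k, hk⟩ : (g : G ⧸ N) ∈ zpowers (x : G ⧸ N) := hxg ▸ mem_zpowers _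
  rw [mem_centralizer_singleton_iff, ← hk]
  exact (Commute.zpow_right ((show Commute n x from h2).map (QuotientGroup.mk' N)) k).eq

end Cfsg.Agent.S4032
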