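import Cfsg.Statements.S4033
import Cfsg.Agent.H3.Cs

set_option autoImplicit false
open Cfsg

namespace Cfsg.Agent.S4033

/-- Let G be a finite group and p a prime, and suppose the conjugacy classes of p-regular elements of G (elements of order prime to p) have exactly two distinct sizes. Then either G has an abelian p-complement (an abelian subgroup of order prime to p and p-power index), or there are a prime q ≠ p, a Sylow p-subgroup P, a Sylow q-subgroup Q and a central subgroup A such that PQ is a normal subgroup of order #P·#Q and G is the internal direct product PQ × A. -/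
theorem result {G : Type*} [Group G] [Finite G] {p : ℕ} (hp : p.Prime)
    (h2 : Set.ncard (Set.range fun x : {x : G // (orderOf x).Coprime p} => (ConjClasses.mk (x : G)).carrier.ncard) = 2) :
    (∃ H : Subgroup G, IsMulCommutative H ∧ ¬ p ∣ Nat.card H ∧ ∃ k : ℕ, H.index = p ^ k) ∨
    (∃ (q : ℕ) (_ : Fact q.Prime) (P : Sylow p G) (Q : Sylow q G) (A : Subgroup G), q ≠ p ∧
        A ≤ Subgroup.center G ∧ Nat.card ↥((P : Subgroup G) ⊔ (Q : Subgroup G)) = Nat.card P * Nat.card Q ∧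
        ((P : Subgroup G) ⊔ (Q : Subgroup G)).Normal ∧
        ((P : Subgroup G) ⊔ (Q : Subgroup G)) ⊓ A = ⊥ ∧ ((P : Subgroup G) ⊔ (Q : Subgroup G)) ⊔ A = ⊤) := by
  have := Fact.mk hp
  simp only [H8.ncard_carrier_mk] at h2
  obtain ⟨a, b, hab, e⟩ := Set.ncard_eq_two.1 h2
  have h1 : ∀ x : G, (orderOf x).Coprime p → (Subgroup.centralizer ({x} : Set G)).index = a ∨
      (Subgroup.centralizer ({x} : Set G)).index = b := fun x c => e.le ⟨⟨x, c⟩, rfl⟩
  obtain ⟨m, hm⟩ : ∃ m, ∀ x : G, (orderOf x).Coprime p → (Subgroup.centralizer ({x} : Set G)).index = 1 ∨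
      (Subgroup.centralizer ({x} : Set G)).index = m := by
    have h0 := h1 1 (by simp)
    rw [H8.index_centralizer_eq_one_iff.2 (one_mem _)] at h0
    rcases h0 with rfl | rfl
    exacts [⟨_, h1⟩, ⟨_, fun x c => (h1 x c).symm⟩]
  by_cases h3 : ∀ q : ℕ, ∃ r : ℕ, r.Prime ∧ r ≠ q ∧ r ≠ p ∧ r ∣ (Subgroup.center G).index
  · refine Or.inl ((S4034.result hp).1 fun x c => ?_)
    rw [H8.ncard_carrier_mk]
    exact (H3.Pt.ch_of_two hp hm h3).index_pow c
  push Not at h3
  obtain ⟨q₀, h3⟩ := h3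
  obtain ⟨q, hq, qp, h4⟩ : ∃ q : ℕ, q.Prime ∧ q ≠ p ∧
      ∀ r : ℕ, r.Prime → r ∣ (Subgroup.center G).index → r = p ∨ r = q := by
    by_cases h5 : q₀.Prime ∧ q₀ ≠ p
    · exact ⟨q₀, h5.1, h5.2, fun r hr hd => by_contra fun e => h3 r hr (not_or.1 e).2 (not_or.1 e).1 hd⟩
    · obtain ⟨q, hl, hq⟩ := Nat.exists_infinite_primes (p + 1)
      refine ⟨q, hq, by omega, fun r hr hd => Or.inl (by_contra fun e => h3 r hr ?_ e hd)⟩
      rintro rfl
      exact h5 ⟨hr, e⟩
  have := Fact.mk hq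
  obtain ⟨A, K, hA, _, hK, c, h5⟩ := H3.Pt.exists_compl (G := G) (n := p * q) fun r hr hd =>
    (h4 r hr hd).elim (fun e => e ▸ dvd_mul_right _ _) fun e => e ▸ dvd_mul_left _ _
  obtain ⟨P⟩ : Nonempty (Sylow p G) := inferInstance
  obtain ⟨Q⟩ : Nonempty (Sylow q G) := inferInstance
  have i1 : ¬ p ∣ K.index := fun e => hp.one_lt.ne'
    (Nat.eq_one_of_dvd_coprimes c (hK.index_eq_card ▸ e) (dvd_mul_right _ _))
  have i2 : ¬ q ∣ K.index := fun e => hq.one_lt.ne'
    (Nat.eq_one_of_dvd_coprimes c (hK.index_eq_card ▸ e) (dvd_mul_left _ _))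
  have l1 := H3.Pt.sylow_le P i1
  have l2 := H3.Pt.sylow_le Q i2
  have s1 := H10.isSylowIn_of_sylow_le P l1
  have s2 := H10.isSylowIn_of_sylow_le Q l2
  have h6 : ∀ r : ℕ, r.Prime → r ∣ Nat.card K → r = p ∨ r = q := fun r hr hd =>
    (hr.dvd_mul.1 (h5 r hr hd)).imp (Nat.prime_dvd_prime_iff_eq hr hp).1 (Nat.prime_dvd_prime_iff_eq hr hq).1
  have e1 : (P : Subgroup G) ⊔ Q = K := by
    refine le_antisymm (sup_le l1 l2) (Subgroup.relIndex_eq_one.1 (by_contra fun e => ?_))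
    obtain ⟨r, hr, hd⟩ := Nat.exists_prime_and_dvd e
    rcases h6 r hr (hd.trans (Subgroup.index_dvd_card _)) with rfl | rfl
    · exact s1.not_dvd_relIndex (hd.trans (Subgroup.relIndex_dvd_of_le_left _ le_sup_left))
    · exact s2.not_dvd_relIndex (hd.trans (Subgroup.relIndex_dvd_of_le_left _ le_sup_right))
  refine Or.inr ⟨q, this, P, Q, A, qp, hA, ?_, e1 ▸ ‹K.Normal›, ?_, ?_⟩ <;> rw [e1]
  · rw [← H10.card_mul_relIndex l1]
    congr 1
    obtain ⟨k, hk⟩ := IsPGroup.iff_card.1 P.isPGroup'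
    have d1 : Nat.card Q ∣ (P : Subgroup G).relIndex K := by
      obtain ⟨l, hl⟩ := IsPGroup.iff_card.1 Q.isPGroup'
      refine Nat.Coprime.dvd_of_dvd_mul_left (m := Nat.card P)
        (by rw [hk, hl]; exact H3.Pt.cop_primes hq hp qp _ _) ?_
      rw [H10.card_mul_relIndex l1]
      exact Subgroup.card_dvd_of_le l2
    obtain ⟨t, ht⟩ := d1
    have t1 : t = 1 := by_contra fun e => by
      obtain ⟨r, hr, hd⟩ := Nat.exists_prime_and_dvd e
      have hd' : r ∣ (P : Subgroup G).relIndex K := ht ▸ hd.mul_left _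
      rcases h6 r hr (hd'.trans (Subgroup.index_dvd_card _)) with rfl | rfl
      · exact s1.not_dvd_relIndex hd'
      · refine s2.not_dvd_relIndex (hd.trans ⟨Nat.card P, Nat.eq_of_mul_eq_mul_left
          (Nat.card_pos (α := Q)) ?_⟩)
        rw [H10.card_mul_relIndex l2, ← H10.card_mul_relIndex l1, ht]; ring
    rw [ht, t1, mul_one]
  · exact hK.symm.disjoint.eq_bot
  · exact hK.symm.sup_eq_top

end Cfsg.Agent.S4033
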