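import Mathlib
import Cfsg.Statements.S4036
import Cfsg.Agent.H8.Elt

set_option autoImplicit false
open Cfsg

namespace Cfsg.Agent.S4036

open Subgroup in

theorem result {P : Type*} [CommGroup P] [Finite P] {p : ℕ}
    [Fact p.Prime] (hP : IsPGroup p P) (K : Subgroup (MulAut P)) (hK : p ∣ Nat.card K)
    (hfix : ∀ x y : MulAut P, x ∈ K → y ∈ K → x ≠ 1 → y ≠ 1 → ∀ v : P, x v = v ↔ y v = v) :
    ∀ N : Subgroup ↥K, N.Normal → ¬ p ∣ Nat.card N → N = ⊥ := by
  classical
  have hp : p.Prime := Fact.out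
  intro N hN hpN
  by_contra hne
  have := Fintype.ofFinite N
  obtain ⟨⟨n, hn⟩, hn1⟩ := ne_bot_iff_exists_ne_one.1 hne
  have hn2 : (n : MulAut P) ≠ 1 := fun h => hn1 (Subtype.ext (Subtype.ext h))
  obtain ⟨k, hk⟩ := exists_prime_orderOf_dvd_card' p hK
  have hk1 : (k : MulAut P) ≠ 1 := fun h => by
    rw [show k = 1 from Subtype.ext h, orderOf_one] at hk
    exact hp.one_lt.ne hk
  let ν : P →* P := ∏ m : N, ((m : K) : MulAut P).toMonoidHom
  have hν : ∀ v, ν v = ∏ m : N, ((m : K) : MulAut P) v := fun v => by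
    simp [ν, MonoidHom.finsetProd_apply]
  have h1 : ∀ (c : K) (v : P), ν ((c : MulAut P) v) = (c : MulAut P) (ν v) := by
    intro c v
    rw [hν, hν, map_prod]
    refine Fintype.prod_equiv (MulAut.conjNormal (H := N) c⁻¹).toEquiv _ _ fun m => ?_
    simp
  have h2 : ∀ v : P, ν ((n : MulAut P) v) = ν v := by
    intro v
    rw [hν, hν]
    refine Fintype.prod_equiv (Equiv.mulRight (⟨n, hn⟩ : N)) _ _ fun m => ?_
    simp
  obtain ⟨v, hv⟩ : ∃ v, (n : MulAut P) v ≠ v := by
    by_contra h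
    push Not at h
    exact hn2 (MulEquiv.ext h)
  let B : SubMulAction (zpowers k) P :=
    { carrier := ν.ker
      smul_mem' := fun c x hx => by
        change ν (((c : K) : MulAut P) x) = 1
        rw [h1, show ν x = 1 from hx, map_one] }
  have h3 : p ∣ Nat.card B := by
    have h4 : ν.ker ≠ ⊥ := by
      intro h
      have h5 : v⁻¹ * (n : MulAut P) v ∈ ν.ker := by
        rw [MonoidHom.mem_ker, map_mul, h2, map_inv, inv_mul_cancel]
      rw [h, mem_bot, inv_mul_eq_one] at h5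
      exact hv h5.symm
    exact ((hP.to_subgroup ν.ker).card_eq_or_dvd).resolve_left
      ((one_lt_card_iff_ne_bot _).2 h4).ne'
  have hkp : IsPGroup p (zpowers k) := H8.isPGroup_zpowers_of_orderOf (k := 1) (by simpa using hk)
  obtain ⟨b, hb, hb1⟩ := hkp.exists_fixed_point_of_prime_dvd_card_of_fixed_point B h3
    (a := ⟨1, one_mem ν.ker⟩) (fun c => Subtype.ext (map_one ((c : K) : MulAut P)))
  have h4 : (k : MulAut P) b = b := congrArg Subtype.val (hb ⟨k, mem_zpowers k⟩)
  have h5 : ∀ m : N, ((m : K) : MulAut P) b = b := by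
    intro m
    by_cases hm : ((m : K) : MulAut P) = 1
    · rw [hm]; rfl
    · exact (hfix _ _ k.2 (m : K).2 hk1 hm b).1 h4
  have h6 : ν b = 1 := b.2
  rw [hν] at h6
  simp only [h5, Finset.prod_const, Finset.card_univ, ← Nat.card_eq_fintype_card] at h6
  exact hb1 (Subtype.ext (H9.eq_one_of_pow_eq_one_of_coprime hP hpN h6).symm)

end Cfsg.Agent.S4036
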