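import Mathlib
import Cfsg.Statements.S4037
import Cfsg.Agent.H8.Kaz

set_option autoImplicit false
open Cfsg

namespace Cfsg.Agent.S4037

theorem result {G : Type*} [Group G] [Finite G]
    (x : G) {p : ℕ} (hp : p.Prime) (k : ℕ) (hx : (ConjClasses.mk x).carrier.ncard = p ^ k) :
    Group.IsSolvable ↥(Subgroup.normalClosure ({x} : Set G)) := by
  have := Fact.mk hp
  exact H8.kazarin ((H8.ncard_carrier_mk x).symm.trans hx)

end Cfsg.Agent.S4037
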