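import Mathlib
import Cfsg.Statements.S4043
import Cfsg.Agent.H8.Cls
import Cfsg.Agent.H1.SchurZ

set_option autoImplicit false
open Cfsg

namespace Cfsg.Agent.S4043

open Subgroup in
open scoped Pointwise in
theorem aux {G : Type*} [Group G] [Finite G] {p : ℕ}
    [Fact p.Prime] (N : Subgroup G) [N.Normal] (hN : IsPGroup p N) (A : Subgroup G)
    (hA : A.IsComplement' N) (hAp : Cfsg.HasNormalPComplement p A)
    (hC : ∀ n : G, n ∈ N → (∀ a : G, a ∈ A → a * n * a⁻¹ = n) → n = 1) :
    ∃ K : Subgroup G, (Nat.card K).Coprime p ∧ N ⊔ K = N ⊔ pResidual p G ∧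
      normalizer (K : Set G) = A := by
  obtain ⟨S, K, hK, hc⟩ := hAp
  have h1 : A ≤ normalizer (K.map A.subtype : Set G) := by
    have := le_normalizer_map (H := K) A.subtype
    rwa [normalizer_eq_top, ← MonoidHom.range_eq_map, range_subtype] at this
  have hKc : (Nat.card (K.map A.subtype)).Coprime p := by
    rw [card_subtype]; exact H3.coprime_card_of_isComplement' S hc
  have hsup : N ⊔ A = ⊤ := by rw [sup_comm]; exact hA.sup_eq_top
  have hKS : K.map A.subtype ⊔ (S : Subgroup A).map A.subtype = A := by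
    rw [← Subgroup.map_sup, hc.sup_eq_top, ← MonoidHom.range_eq_map, range_subtype]
  refine ⟨K.map A.subtype, hKc, le_antisymm (sup_le_sup_left (H3.le_pResidual_of_coprime hKc) _)
    (sup_le le_sup_left ?_), le_antisymm ?_ h1⟩
  · have : (N ⊔ K.map A.subtype).Normal := by
      rw [← normalizer_eq_top_iff, eq_top_iff, ← hsup]
      exact sup_le (le_sup_left.trans le_normalizer)
        ((le_inf le_normalizer_of_normal h1).trans (normalizer_inf_normalizer_le_normalizer_sup _ _))
    refine H3.pResidual_le_of_isPGroup_quotient ?_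
    have h2 := H3.map_mk'_eq_top_of_sup_eq_top (N := N ⊔ K.map A.subtype)
      (H := (S : Subgroup A).map A.subtype) (by rw [sup_assoc, hKS, hsup])
    have h3 := (S.2.map A.subtype).map (QuotientGroup.mk' (N ⊔ K.map A.subtype))
    rw [h2] at h3
    exact h3.of_equiv topEquiv
  · have h2 : N ⊓ centralizer (K.map A.subtype : Set G) = ⊥ := by
      by_contra hne
      refine H1.inf_centralizer_ne_bot_of_isPGroup (hN.to_inf_left) (S.2.map A.subtype) ?_ hne ?_
      · exact (le_inf le_normalizer_of_normal ((map_subtype_le _).trans (h1.trans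
          (H7.normalizer_le_normalizer_centralizer _)))).trans inf_normalizer_le_normalizer_inf
      · rw [eq_bot_iff]
        rintro n ⟨⟨hn1, hn2⟩, hn3⟩
        refine hC n hn1 fun a ha => ?_
        have h3 : A ≤ centralizer {n} := by
          rw [← hKS]
          exact sup_le (fun x hx => mem_centralizer_singleton_iff.2 (hn2 x hx))
            (fun x hx => mem_centralizer_singleton_iff.2 (hn3 x hx))
        exact H8.mem_centralizer_singleton_iff'.1 (h3 ha)
    intro g hg
    obtain ⟨n, hn, a, ha, rfl⟩ := H3.exists_mul_of_sup_eq_top hsup g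
    have h3 : n ∈ N ⊓ normalizer (K.map A.subtype : Set G) :=
      ⟨hn, (mul_mem_cancel_right (h1 ha)).1 hg⟩
    rw [H1.inf_normalizer_eq_inf_centralizer le_normalizer_of_normal
      (H1.inf_eq_bot_of_isPGroup_of_coprime hN hKc), h2, mem_bot] at h3
    rwa [h3, one_mul]

open Subgroup in
open scoped Pointwise in

theorem result {G : Type*} [Group G] [Finite G] {p : ℕ}
    [Fact p.Prime] (N : Subgroup G) [N.Normal] (hN : IsPGroup p N) (A A₁ : Subgroup G)
    (hA : A.IsComplement' N) (hA₁ : A₁.IsComplement' N)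
    (hAp : Cfsg.HasNormalPComplement p A) (hA₁p : Cfsg.HasNormalPComplement p A₁)
    (hC : ∀ n : G, n ∈ N → (∀ a : G, a ∈ A → a * n * a⁻¹ = n) → n = 1)
    (hC₁ : ∀ n : G, n ∈ N → (∀ a : G, a ∈ A₁ → a * n * a⁻¹ = n) → n = 1) :
    ∃ n : G, n ∈ N ∧ A₁ = A.map (MulAut.conj n).toMonoidHom := by
  obtain ⟨K, h1, h2, rfl⟩ := aux N hN A hA hAp hC
  obtain ⟨K₁, h3, h4, rfl⟩ := aux N hN A₁ hA₁ hA₁p hC₁
  obtain ⟨n, hn, rfl⟩ := H1.schurZassenhaus_conj_of_sup_eq (N := N) (A := K) (B := K₁)
    le_normalizer_of_normal (H1.IsPGroup.coprime_card hN h1) (H1.IsPGroup.coprime_card hN h3)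
    (Or.inl (by have := hN.isNilpotent; infer_instance)) (h2.trans h4.symm)
  exact ⟨n, hn, H1.normalizer_conj_smul n K⟩

end Cfsg.Agent.S4043
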