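import Cfsg.Statements.S4049
import Cfsg.Agent.H3.Misc
import Cfsg.Agent.H4.Comm

set_option autoImplicit false
open Cfsg

namespace Cfsg.Agent.S4049

/-- Let G be a finite group such that N_G(H)/C_G(H) has odd order for every nontrivial subgroup H of odd order. Then the Sylow 2-subgroups of G are normal. -/
theorem result {G : Type*} [Group G] [Finite G]
    (hhom : ∀ H : Subgroup G, H ≠ ⊥ → ¬ 2 ∣ Nat.card ↥H →
        ¬ 2 ∣ (Subgroup.centralizer (H : Set G)).relIndex (Subgroup.normalizer (H : Set G))) (P : Sylow 2 G) :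
    (P : Subgroup G).Normal := by
  open Subgroup in
  refine H3.normal_sylow_two_of_no_real (fun x hx ho hc => hx ?_) P
  obtain ⟨g, hg⟩ := isConj_iff.mp hc
  have hn : g ∈ normalizer (zpowers x : Set G) := H3.mem_normalizer_of_conj_mem (g := g) (by
    rintro _ ⟨i, rfl⟩
    rw [← conj_zpow, hg]
    exact zpow_mem (inv_mem (Subgroup.mem_zpowers x)) i)
  have h1 := hhom (zpowers x) (by rwa [Ne, zpowers_eq_bot])
    (by rw [Nat.card_zpowers]; exact ho.not_two_dvd_nat)
  have h2 : Commute (g * g) x := by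
    rw [← H6.conj_eq_iff_commute]
    calc _ = g * (g * x * g⁻¹) * g⁻¹ := by group
      _ = g * x⁻¹ * g⁻¹ := by rw [hg]
      _ = (g * x * g⁻¹)⁻¹ := by group
      _ = _ := by rw [hg, inv_inv]
  have h3 : ((⟨g, hn⟩ : normalizer (zpowers x : Set G)) : normalizer (zpowers x : Set G) ⧸
      (centralizer (zpowers x : Set G)).subgroupOf (normalizer (zpowers x : Set G))) = 1 := by
    refine H6.eq_one_of_odd_of_sq (Odd.of_dvd_nat (Nat.not_even_iff_odd.mp fun h => h1
      (even_iff_two_dvd.mp h)) (orderOf_dvd_natCard _)) ?_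
    rw [← QuotientGroup.mk_mul, QuotientGroup.eq_one_iff]
    rintro _ ⟨i, rfl⟩
    exact (h2.symm.zpow_left i).eq
  have h4 : Commute x g := (QuotientGroup.eq_one_iff _).mp h3 x (mem_zpowers x)
  rw [H6.conj_eq_iff_commute.mpr h4.symm, eq_inv_iff_mul_eq_one] at hg
  exact H6.eq_one_of_odd_of_sq ho hg

end Cfsg.Agent.S4049
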