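import Mathlib
import Cfsg.Statements.S4056
import Cfsg.Agent.H8.Elt
import Cfsg.Agent.S0013

set_option autoImplicit false
open Cfsg

namespace Cfsg.Agent.S4056

open Subgroup in
open scoped commutatorElement in

theorem result {P : Type*} [Group P] [Finite P] (hP : IsPGroup 2 P)
    (hcl : Group.nilpotencyClass P ≤ 2) (hexp : Monoid.exponent P ∣ 4) :
    frattini P ≤ Subgroup.center P ∧ Cfsg.IsElementaryAbelian 2 (frattini P) := by
  have : Fact (Nat.Prime 2) := ⟨Nat.prime_two⟩
  have hn := hP.isNilpotent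
  have h4 : ∀ x : P, x ^ 4 = 1 := fun x => Monoid.exponent_dvd_iff_forall_pow_eq_one.1 hexp x
  have hc : ∀ a b : P, ⁅a, b⁆ ∈ center P := by
    intro a b
    have h1 : Subgroup.upperCentralSeries P 2 = ⊤ := Subgroup.upperCentralSeries_eq_top_iff_nilpotencyClass_le.2 hcl
    have h2 : a ∈ Subgroup.upperCentralSeries P (1 + 1) := h1 ▸ mem_top a
    rw [Subgroup.mem_upperCentralSeries_succ_iff, Subgroup.upperCentralSeries_one] at h2
    exact h2 b
  have hc2 : ∀ a b : P, ⁅a, b⁆ ^ 2 = 1 := by
    intro a b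
    have h1 := H9.mul_pow_class_two (H9.commute_of_mem_center (hc a b) b)
      (H9.commute_of_mem_center (hc a b) a) 4
    rw [h4, h4, h4, one_mul, one_mul, show Nat.choose 4 2 = 4 + 2 by decide, pow_add, h4,
      one_mul] at h1
    exact h1.symm
  have hsq : ∀ a : P, a ^ 2 ∈ center P := by
    intro a
    rw [mem_center_iff]
    intro b
    have h1 := H9.commutator_pow_left (H9.commute_of_mem_center (hc a b) a) 2
    rw [hc2, commutatorElement_eq_one_iff_mul_comm] at h1
    exact h1.symm
  have hN : (H1.powKer (center P) 2).Normal := ⟨fun x hx g => by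
    rwa [mem_center_iff.1 hx.1 g, mul_inv_cancel_right]⟩
  have h1 : frattini P ≤ H1.powKer (center P) 2 := by
    refine S0013.result 2 hP _ ?_ ?_
    · rw [commutator_def, commutator_le]
      exact fun a _ b _ => ⟨hc a b, hc2 a b⟩
    · exact fun a => ⟨hsq a, by rw [← pow_mul]; exact h4 a⟩
  refine ⟨h1.trans (H1.powKer_le _ _), ⟨⟨fun a b => Subtype.ext ?_⟩⟩, fun a ha => (h1 ha).2⟩
  exact mem_center_iff.1 (h1 b.2).1 a

end Cfsg.Agent.S4056
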