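import Cfsg.Statements.S4057
import Cfsg.Agent.H26.Pat2

set_option autoImplicit false
open Cfsg

namespace Cfsg.Agent.S4057


open scoped commutatorElement in
/-- Let p be an odd prime and P a finite p-group in which every normal abelian subgroup can be generated by k elements. Then every subgroup of P can be generated by at most ⌊k(k+4)/4⌋ elements. -/
theorem result {P : Type*} [Group P] [Finite P] {p : ℕ} [Fact p.Prime]
    (hp : p ≠ 2) (hP : IsPGroup p P) (k : ℕ)
    (hab : ∀ A : Subgroup P, A.Normal → IsMulCommutative A → ∃ S : Finset P, S.card ≤ k ∧ Subgroup.closure (S : Set P) = A) :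
    ∀ H : Subgroup P, ∃ S : Finset P, S.card ≤ k * (k + 4) / 4 ∧ Subgroup.closure (S : Set P) = H := by
  classical
  intro H
  obtain ⟨A, ⟨hAn, hAc, hAe⟩, hmax⟩ := Set.exists_max_image
    {B : Subgroup P | B.Normal ∧ IsMulCommutative B ∧ ∀ b ∈ B, b ^ p = 1} (fun B => Nat.card B)
    (Set.toFinite _) ⟨⊥, inferInstance, inferInstance, by simp⟩
  have halp : ∀ x ∈ Subgroup.centralizer (A : Set P), x ^ p = 1 → x ∈ A := fun x hx hxp =>
    H9.alperin_mem hP (n := 1) (by simpa using hp) A hAc (by simpa using hAe)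
      (fun B h1 h2 h3 h4 => (Subgroup.eq_of_le_of_card_ge h4
        (hmax B ⟨h1, h2, by simpa using h3⟩)).symm) hx (by simpa using hxp)
  obtain ⟨m, hm⟩ := (hP.to_subgroup A).exists_card_eq
  have hmk : m ≤ k := by
    obtain ⟨S, hS, hSA⟩ := hab A hAn hAc
    have h1 : Group.rank A ≤ k := by
      subst hSA
      exact (Subgroup.rank_closure_finset_le_card S).trans hS
    have h2 : Nat.card A ∣ p ^ Group.rank A := by
      letI : CommGroup A := { (inferInstance : Group A) with mul_comm := hAc.is_comm.comm }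
      exact card_dvd_exponent_pow_rank' A (fun g => Subtype.ext (by simpa using hAe g g.2))
    rw [hm] at h2
    exact ((Nat.pow_dvd_pow_iff_le_right (Fact.out : p.Prime).one_lt).1 h2).trans h1
  have hc : ∀ v ∈ A, ∀ w ∈ A, v * w = w * v := fun v hv w hw =>
    congrArg Subtype.val (hAc.is_comm.comm (⟨v, hv⟩ : A) ⟨w, hw⟩)
  set Φ : Subgroup P := (frattini H).map H.subtype with hΦ
  set C : Subgroup P := H ⊓ Subgroup.centralizer (A : Set P) with hC
  have hΦH : Φ ≤ H := Subgroup.map_subtype_le _
  haveI := (hP.to_subgroup H).isNilpotent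
  have hcomm : ∀ a ∈ H, ∀ b ∈ H, ⁅a, b⁆ ∈ Φ ⊔ C := fun a ha b hb =>
    Subgroup.mem_sup_left ⟨⁅(⟨a, ha⟩ : H), ⟨b, hb⟩⁆, H3.commutator_le_frattini
      (Subgroup.commutator_mem_commutator (Subgroup.mem_top _) (Subgroup.mem_top _)), by
        simp [commutatorElement_def]⟩
  have h1 := H26.Pat.patterson hP A hc hm (sup_le hΦH inf_le_left) hcomm le_sup_right
  obtain ⟨S1, a1, a2, a3⟩ := H26.Pat.exists_gen hP _ _ _ (sup_le hΦH inf_le_left) h1
  have hPC : H26.Pat.PC p C := by
    intro x hx g
    have hxA : (x : P) ∈ A := halp x x.2.2 (by simpa using congrArg Subtype.val hx)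
    exact Subtype.ext (g.2.2 _ hxA).symm
  have h2 := H26.Pat.laffey hp _ C rfl (hP.to_subgroup C) hPC (Φ.subgroupOf C) (by
    intro x
    exact ⟨(⟨x, x.2.1⟩ : H) ^ p, H3.pow_mem_frattini (hP.to_subgroup H) _, by simp⟩)
  have h3 : Nat.card (H26.Pat.Om hPC) ≤ p ^ m := by
    rw [← hm]
    refine Nat.card_le_card_of_injective (fun x => ⟨x.1.1, halp _ x.1.2.2
      (by simpa using congrArg Subtype.val ((H26.Pat.mem_Om hPC).1 x.2))⟩) ?_
    intro x y e
    have e' : x.1.1 = y.1.1 := congrArg (fun z : A => (z : P)) e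
    exact Subtype.ext (Subtype.ext e')
  have h4 : Nat.card (Φ.subgroupOf C) ≤ Nat.card (Φ ⊓ C : Subgroup P) := by
    refine Nat.card_le_card_of_injective (fun x => ⟨x.1.1, x.2, x.1.2⟩) ?_
    intro x y e
    have e' : x.1.1 = y.1.1 := congrArg (fun z : (Φ ⊓ C : Subgroup P) => (z : P)) e
    exact Subtype.ext (Subtype.ext e')
  obtain ⟨S2, b1, b2, b3⟩ := H26.Pat.exists_gen hP m (Φ ⊓ C) C inf_le_right
    (h2.trans (by rw [mul_comm]; exact Nat.mul_le_mul h3 h4))
  refine ⟨S1 ∪ S2, (Finset.card_union_le _ _).trans ?_, ?_⟩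
  · have : m * m / 4 + m ≤ k * (k + 4) / 4 := by
      rw [← Nat.add_mul_div_right _ _ (by norm_num : 0 < 4)]
      apply Nat.div_le_div_right
      nlinarith
    omega
  · set K := Subgroup.closure ((S1 ∪ S2 : Finset P) : Set P) with hK
    have hKH : K ≤ H := by
      rw [hK, Subgroup.closure_le]
      intro s hs
      rcases Finset.mem_union.1 (Finset.mem_coe.1 hs) with h | h
      · exact a2 s h
      · exact (b2 s h).1
    have k1 : Subgroup.closure (S1 : Set P) ≤ K := Subgroup.closure_mono (by simp)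
    have k2 : Subgroup.closure (S2 : Set P) ≤ K := Subgroup.closure_mono (by simp)
    have hgen : H ≤ K ⊔ Φ := by
      refine a3.trans (sup_le (sup_le le_sup_right (b3.trans (sup_le ?_ ?_))) ?_)
      · exact inf_le_left.trans le_sup_right
      · exact k2.trans le_sup_left
      · exact k1.trans le_sup_left
    have htop : K.subgroupOf H ⊔ frattini H = ⊤ := by
      apply Subgroup.map_injective H.subtype_injective
      rw [Subgroup.map_sup, Subgroup.subgroupOf_map_subtype, inf_eq_left.2 hKH,
        ← MonoidHom.range_eq_map, Subgroup.range_subtype]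
      exact le_antisymm (sup_le hKH hΦH) hgen
    exact le_antisymm hKH (Subgroup.subgroupOf_eq_top.1 (frattini_nongenerating htop))

end Cfsg.Agent.S4057
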