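import Mathlib
import Cfsg.Statements.S4058
import Cfsg.Agent.H8.Count
import Cfsg.Agent.H17.Square
import Cfsg.Agent.H17.Central
import Cfsg.Agent.H7.Extra1

set_option autoImplicit false
open Cfsg

namespace Cfsg.Agent.S4058

open H17 in
open scoped ComplexConjugate in
theorem card_stab_le {G : Type*} [Group G] [Finite G] {χ : G → ℂ} (hχ : IsIrrCharacter G χ) {n : ℕ}
    (hn : χ 1 = n) {L : Type*} [Finite L] (f : L → (G →* ℂˣ)) (hf : Function.Injective f)
    (hS : ∀ l, (fun g => χ g * f l g) = χ) : Nat.card L ≤ n ^ 2 := by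
  classical
  have := Fintype.ofFinite G
  have := Fintype.ofFinite L
  have hθ := hχ.isCharacter.conj.mul hχ.isCharacter
  obtain ⟨m, hm1, hm2⟩ := hθ.exists_coeff
  let ψ : L → IrrCharacter G := fun l => ⟨_, isIrr_linear (f l)⁻¹⟩
  have hψ : Function.Injective ψ := fun a b h => by
    have h1 : (f a)⁻¹ = (f b)⁻¹ := MonoidHom.ext fun g => Units.ext (congrFun (congrArg Subtype.val h) g)
    exact hf (inv_injective h1)
  have h1 : ∀ l, m (ψ l) = 1 := fun l => by
    have h2 := hm1 (ψ l)
    rw [classInner_def] at h2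
    have h3 := hχ.inner_self
    rw [classInner_def] at h3
    have h4 : ((m (ψ l) : ℕ) : ℂ) = 1 := by
      rw [← h2, ← h3]
      congr 1
      refine Finset.sum_congr rfl fun g _ => ?_
      have h5 : conj ((ψ l : G → ℂ) g) = f l g := by
        change conj (((f l)⁻¹ g : ℂˣ) : ℂ) = _
        rw [linear_conj]; simp
      rw [h5, Pi.mul_apply, mul_assoc, congrFun (hS l) g, mul_comm]
    exact_mod_cast h4
  choose d hd using fun ψ : IrrCharacter G => ψ.2.exists_pos_one
  have h2 := congrFun hm2 1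
  simp only [Pi.mul_apply, hn, map_natCast, Finset.sum_apply, Pi.smul_apply, smul_eq_mul,
    fun ψ => (hd ψ).2] at h2
  have h3 : n * n = ∑ ψ, m ψ * d ψ := by exact_mod_cast h2
  rw [pow_two, h3, Nat.card_eq_fintype_card, ← Finset.card_univ,
    ← Finset.card_image_of_injective _ hψ, Finset.card_eq_sum_ones]
  refine le_trans (Finset.sum_le_sum fun x hx => ?_)
    (Finset.sum_le_sum_of_subset (Finset.subset_univ _))
  obtain ⟨l, -, rfl⟩ := Finset.mem_image.1 hx
  rw [h1, one_mul]
  exact (hd _).1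

open H17 in

theorem result {G : Type*} [Group G] [Finite G] (hG : IsPGroup 2 G) (k : ℕ)
    (hgen : 2 ^ (2 * k + 1) ≤ Nat.card (G ⧸ frattini G)) :
    2 ^ (k + 1) ∣ Nat.card {x : G // x ^ 2 = 1} := by
  classical
  have := Fintype.ofFinite G
  have := hG.isNilpotent
  set Q := G ⧸ frattini G
  let f : (Q →* ℂˣ) → (G →* ℂˣ) := fun l => l.comp (QuotientGroup.mk' _)
  have hf : Function.Injective f := fun a b h =>
    (MonoidHom.cancel_right (QuotientGroup.mk'_surjective _)).1 h
  letI : MulAction (Q →* ℂˣ) (IrrCharacter G) :=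
    { smul := fun l χ => ⟨_, χ.2.mul_linear (f l)⟩
      one_smul := fun χ => Subtype.ext (funext fun g => mul_one _)
      mul_smul := fun a b χ => Subtype.ext (funext fun g => by
        change χ.1 g * ((a g * b g : ℂˣ) : ℂ) = χ.1 g * b g * a g
        push_cast; ring) }
  have hsm : ∀ (l : Q →* ℂˣ) (χ : IrrCharacter G) (g : G), (l • χ).1 g = χ.1 g * l g :=
    fun _ _ _ => rfl
  have hind : ∀ χ : IrrCharacter G, ∃ z : ℤ,
      (Nat.card G : ℂ)⁻¹ * ∑ s : G, (χ : G → ℂ) (s * s) = z := fun χ => by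
    by_cases h : ∀ g, ((χ : G → ℂ) g).im = 0
    · rcases χ.2.indicator.1 h with h | h
      · exact ⟨1, by simpa using h⟩
      · exact ⟨-1, by simpa using h⟩
    · exact ⟨0, by simpa using χ.2.indicator.2 h⟩
  choose ν hν using hind
  choose d hd using fun ψ : IrrCharacter G => ψ.2.exists_pos_one
  have h1 := card_sq_eq_sum (1 : G)
  simp only [hν, fun ψ => (hd ψ).2] at h1
  simp only [← pow_two] at h1
  have h2 : (Nat.card {x : G // x ^ 2 = 1} : ℤ) = ∑ χ, ν χ * d χ := by exact_mod_cast h1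
  rw [← Int.natCast_dvd_natCast, h2]
  have hQ : Nat.card (Q →* ℂˣ) = Nat.card Q := by
    rw [card_monoidHom_units, ← Subgroup.index_bot]
    congr 1
    rw [eq_bot_iff, commutator_def, Subgroup.commutator_le]
    intro a _ b _
    obtain ⟨a, rfl⟩ := QuotientGroup.mk_surjective a
    obtain ⟨b, rfl⟩ := QuotientGroup.mk_surjective b
    exact (QuotientGroup.eq_one_iff _).2 (H7.commutator_le_frattini
      (Subgroup.commutator_mem_commutator (Subgroup.mem_top a) (Subgroup.mem_top b)))
  have : Finite (Q →* ℂˣ) := finite_monoidHom_units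
  refine H8.dvd_sum_of_action (L := Q →* ℂˣ) _ (fun l χ => ?_) _ fun χ => ?_
  · have h3 : ν (l • χ) = ν χ := by
      have h4 : ((ν (l • χ) : ℤ) : ℂ) = ν χ := by
        rw [← hν, ← hν]
        congr 1
        refine Finset.sum_congr rfl fun s _ => ?_
        rw [hsm, ← pow_two, (QuotientGroup.eq_one_iff _).2 (H7.pow_mem_frattini hG s)]
        simp
      exact_mod_cast h4
    have h4 : d (l • χ) = d χ := by
      have h4 : ((d (l • χ) : ℕ) : ℂ) = d χ := by
        rw [← (hd _).2, ← (hd _).2, hsm]; simp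
      exact_mod_cast h4
    rw [h3, h4]
  · have h3 := card_stab_le χ.2 (hd χ).2 (L := MulAction.stabilizer (Q →* ℂˣ) χ)
      (fun l => f l) (hf.comp Subtype.val_injective) fun l => congrArg Subtype.val l.2
    obtain ⟨n, hn⟩ := IsPGroup.iff_card.1 hG
    obtain ⟨e, he⟩ := H8.pow_of_dvd_pow Nat.prime_two (χ.2.degree_dvd_card (hd χ).2) hn
    obtain ⟨r, hr⟩ := IsPGroup.iff_card.1 (hG.to_quotient (frattini G))
    have h4 := (MulAction.stabilizer (Q →* ℂˣ) χ).index_mul_card
    rw [hQ, hr] at h4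
    obtain ⟨i, hi⟩ := H8.pow_of_dvd_pow Nat.prime_two (Dvd.intro _ h4) rfl
    obtain ⟨j, hj⟩ := H8.pow_of_dvd_pow Nat.prime_two (Dvd.intro_left _ h4) rfl
    rw [hi, hj, ← pow_add] at h4
    rw [hj, he, ← pow_mul] at h3
    rw [hr] at hgen
    have h5 := Nat.pow_right_injective le_rfl h4
    have h6 := (Nat.pow_le_pow_iff_right one_lt_two).1 h3
    have h7 := (Nat.pow_le_pow_iff_right one_lt_two).1 hgen
    rw [hi, he, mul_left_comm]
    refine Dvd.dvd.mul_left ?_ _
    norm_cast
    rw [← pow_add]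
    exact pow_dvd_pow _ (by omega)

end Cfsg.Agent.S4058
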