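import Mathlib
import Cfsg.Statements.S4064
import Cfsg.Agent.H8.CTI

set_option autoImplicit false
open Cfsg

namespace Cfsg.Agent.S4064

theorem result {G : Type*} [Group G] [Finite G] (hTI : ∀ x : G, Cfsg.IsTISubset (Subgroup.centralizer ({x} : Set G) : Set G)) :
    Group.IsNilpotent G ∨
    (∃ H : Subgroup G, Cfsg.IsFrobeniusComplement H ∧
      (IsCyclic H ∨ ∃ m : ℕ, Odd m ∧ Nonempty (H ≃* Multiplicative (ZMod m) × QuaternionGroup 2))) ∨
    (∃ n : ℕ, 2 ≤ n ∧ Nonempty (G ≃* Matrix.ProjectiveSpecialLinearGroup (Fin 2) (GaloisField 2 n))) := by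
  rcases subsingleton_or_nontrivial G with hs | hs
  · exact Or.inl inferInstance
  rcases H8.CTI.normal_or_cch hTI with ⟨A, hA, h1, h2, h3⟩ | ⟨A, hA⟩
  · by_cases ht : A = ⊤
    · subst ht
      exact Or.inl (Group.nilpotent_of_mulEquiv Subgroup.topEquiv)
    · exact Or.inr (Or.inl (H8.CTI.frob hTI h1 ht h3))
  · obtain ⟨n, hn, -, e⟩ := hA.iso_gf (H8.CTI.comm_of_cch hTI hA)
    exact Or.inr (Or.inr ⟨n, hn, e⟩)

end Cfsg.Agent.S4064
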