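import Mathlib
import Cfsg.Statements.S4065
import Cfsg.Agent.H8.CT

set_option autoImplicit false
open Cfsg

namespace Cfsg.Agent.S4065

theorem result (n : ℕ) (hn : 2 ≤ n)
    (x : Matrix.ProjectiveSpecialLinearGroup (Fin 2) (GaloisField 2 n)) :
    Cfsg.IsTISubset (Subgroup.centralizer ({x} : Set (Matrix.ProjectiveSpecialLinearGroup (Fin 2) (GaloisField 2 n))) :
      Set (Matrix.ProjectiveSpecialLinearGroup (Fin 2) (GaloisField 2 n))) := by
  have h := H8.ct_psl (F := GaloisField 2 n) (CharP.cast_eq_zero _ 2)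
  intro g hg y hy hy'
  by_contra h1
  apply hg
  by_cases hx : x = 1
  · subst hx
    rw [Subgroup.centralizer_eq_top_iff_subset.2 (by simp), Subgroup.normalizer_eq_top]
    trivial
  have hy1 : Commute y x := Subgroup.mem_centralizer_singleton_iff.1 hy
  have hy2 : Commute (g * y * g⁻¹) x := Subgroup.mem_centralizer_singleton_iff.1 hy'
  refine GW.mem_NS_of fun a ha => Subgroup.mem_centralizer_singleton_iff.2 ?_
  have ha1 : Commute a x := Subgroup.mem_centralizer_singleton_iff.1 ha
  refine h _ (g * y * g⁻¹) x (by simpa using h1) ?_ hy2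
  simpa using (h a x y hx ha1 hy1.symm).map (MulAut.conj g)

end Cfsg.Agent.S4065
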