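import Mathlib
import Cfsg.Statements.S4066
import Cfsg.Agent.H8.Elt
import Cfsg.Agent.H7.Basic

set_option autoImplicit false
open Cfsg

namespace Cfsg.Agent.S4066

open Subgroup in
open scoped Pointwise in

theorem result {G : Type*} [Group G] [Finite G] (hTI : ∀ x : G, Cfsg.IsTISubset (Subgroup.centralizer ({x} : Set G) : Set G))
    {p : ℕ} [Fact p.Prime] (P Q : Sylow p G) (hPQ : P ≠ Q) : (P : Subgroup G) ⊓ (Q : Subgroup G) = ⊥ := by
  rw [eq_bot_iff]
  intro x hx
  by_contra hx1
  apply hPQ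
  have hP1 : (P : Subgroup G) ≠ ⊥ := fun h => hx1 (h ▸ hx.1)
  obtain ⟨⟨z, hz⟩, hz1⟩ := ne_bot_iff_exists_ne_one.1
    (H1.inf_centralizer_ne_bot_of_isPGroup P.2 P.2 le_normalizer hP1)
  have hz2 : z ≠ 1 := fun h => hz1 (Subtype.ext h)
  have hPz : (P : Subgroup G) ≤ centralizer {z} :=
    fun s hs => mem_centralizer_singleton_iff.2 (hz.2 s hs)
  obtain ⟨g, rfl⟩ := MulAction.exists_smul_eq G P Q
  have h1 : g⁻¹ ∈ normalizer ((centralizer ({z} : Set G) : Subgroup G) : Set G) := by
    by_contra h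
    exact hx1 (hTI z _ h x (hPz hx.1) (hPz (by simpa using H3.mem_coe_smul_sylow.1 hx.2)))
  have hQz : ((g • P : Sylow p G) : Subgroup G) ≤ centralizer {z} := by
    intro s hs
    have := H1.conj_mem_of_mem_normalizer' h1 (hPz (H3.mem_coe_smul_sylow.1 hs))
    simpa [mul_assoc] using this
  have h2 : (P : Subgroup G) ≤ (g • P : Sylow p G) := by
    intro y hy
    set C := centralizer ({y} : Set G) with hC
    have h3 : centralizer {z} ≤ normalizer (C : Set G) := by
      intro h hh
      by_contra hn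
      have h4 : z ∈ C := mem_centralizer_singleton_iff.2 (hz.2 y hy).symm
      exact hz2 (hTI y h hn z h4 (by rwa [H8.mem_centralizer_singleton_iff'.1 hh]))
    have hyC : y ∈ C := mem_centralizer_singleton_iff.2 rfl
    have : IsMulCommutative (C ⊓ centralizer (C : Set G) : Subgroup G) :=
      ⟨⟨fun a b => Subtype.ext (b.2.2 a a.2.1)⟩⟩
    obtain ⟨k, hk⟩ := H8.exists_pow_eq_one_of_mem P.2 hy
    refine H8.le_sylow_of_normalizes (g • P) (Q := H1.powKer (C ⊓ centralizer (C : Set G)) (p ^ k))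
      (hQz.trans (h3.trans (le_trans ?_ (H1.normalizer_le_normalizer_powKer _ _))))
      (H8.isPGroup_of_forall_pow fun a ha => ⟨k, ha.2⟩)
      ⟨⟨hyC, fun c hc => mem_centralizer_singleton_iff.1 hc⟩, hk⟩
    exact (le_inf le_rfl (H7.normalizer_le_normalizer_centralizer C)).trans
      inf_normalizer_le_normalizer_inf
  exact Sylow.ext (P.3 (g • P).2 h2).symm

end Cfsg.Agent.S4066
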