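import Mathlib
import Cfsg.Statements.S4068
import Cfsg.Agent.H8.Orb4
import Cfsg.Agent.S0205

set_option autoImplicit false
open Cfsg

namespace Cfsg.Agent.S4068

theorem result {G : Type*} [Group G] [Finite G] (hns : ¬ Group.IsSolvable G)
    (h4 : Nat.card (MulAction.orbitRel.Quotient (MulAut G) G) = 4) : Nonempty (G ≃* alternatingGroup (Fin 5)) := by
  have hFT : H8.FTH := fun _ _ _ h => Cfsg.Agent.S0205.result h
  obtain ⟨r, s, hr, hs, h1, h2, h3, h5, h6, h7⟩ := H8.exists_three_primes hFT hns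
  exact H8.alt_five_of_prime_orders hFT hns hr hs
    (H8.orders_of_four_orbits hr hs h1 h2 h3 h5 h6 h7 h4)

end Cfsg.Agent.S4068
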