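import Mathlib
import Cfsg.Statements.S4071
import Cfsg.Agent.H8.SNA2

set_option autoImplicit false
open Cfsg

namespace Cfsg.Agent.S4071

open Subgroup H8 in
theorem fpf_of_gen {G : Type*} [Group G] [Finite G] {g : G}
    (hc : IsMulCommutative (commutator G)) (htop : commutator G ⊔ zpowers g = ⊤) :
    ∀ a ∈ commutator G, Commute a g → a = 1 := by
  set A := commutator G with hA
  have hc' := comm_iff.1 hc
  have hn : ∀ (u : G), ∀ b ∈ A, u * b * u⁻¹ ∈ A := fun u b hb =>
    (inferInstance : A.Normal).conj_mem b hb u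
  have hm : ∀ b ∈ A, b * g * b⁻¹ * g⁻¹ ∈ A := fun b hb => by
    simpa [mul_assoc] using A.mul_mem hb (hn g _ (A.inv_mem hb))
  have hdec : ∀ y : G, ∃ c ∈ A, ∃ i : ℤ, y = c * g ^ i := fun y =>
    (H9.mem_sup_zpowers ((normalizer_eq_top _).ge (mem_top g))).1 (htop.ge (mem_top y))
  have hmul : ∀ b ∈ A, ∀ c ∈ A, b * g * b⁻¹ * g⁻¹ * (c * g * c⁻¹ * g⁻¹) =
      (b * c) * g * (b * c)⁻¹ * g⁻¹ := fun b hb c hc1 => by
    have e1 := hc' _ (hn g _ (A.inv_mem hb)) _ (hm c hc1)
    calc _ = b * (g * b⁻¹ * g⁻¹ * (c * g * c⁻¹ * g⁻¹)) := by group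
      _ = _ := by rw [e1]; group
  let K : Subgroup G :=
    { carrier := {y | ∃ b ∈ A, b * g * b⁻¹ * g⁻¹ = y}
      one_mem' := ⟨1, A.one_mem, by group⟩
      mul_mem' := by
        rintro _ _ ⟨b, hb, rfl⟩ ⟨c, hc1, rfl⟩
        exact ⟨b * c, A.mul_mem hb hc1, (hmul b hb c hc1).symm⟩
      inv_mem' := by
        rintro _ ⟨b, hb, rfl⟩
        refine ⟨b⁻¹, A.inv_mem hb, eq_inv_of_mul_eq_one_left ?_⟩
        rw [hmul _ (A.inv_mem hb) b hb]; group }
  haveI hKn : K.Normal := ⟨by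
    rintro _ ⟨b, hb, rfl⟩ y
    obtain ⟨c, hc1, i, rfl⟩ := hdec y
    refine ⟨g ^ i * b * (g ^ i)⁻¹, hn _ b hb, ?_⟩
    have e1 := hc' c hc1 _ (hn (g ^ i) _ (hm b hb))
    calc _ = c * (g ^ i * (b * g * b⁻¹ * g⁻¹) * (g ^ i)⁻¹) * c⁻¹ := by rw [e1]; group
      _ = _ := by group⟩
  have hAK : A ≤ K := by
    refine Subgroup.Normal.quotient_commutative_iff_commutator_le.1 ⟨⟨fun u v => ?_⟩⟩
    obtain ⟨u, rfl⟩ := QuotientGroup.mk'_surjective K u
    obtain ⟨v, rfl⟩ := QuotientGroup.mk'_surjective K v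
    obtain ⟨b, hb, i, rfl⟩ := hdec u
    obtain ⟨c, hc1, j, rfl⟩ := hdec v
    have h1 : ∀ b ∈ A, Commute (QuotientGroup.mk' K b) (QuotientGroup.mk' K g) := fun b hb => by
      have : QuotientGroup.mk' K (b * g * b⁻¹ * g⁻¹) = 1 :=
        (QuotientGroup.eq_one_iff _).2 ⟨b, hb, rfl⟩
      rw [map_mul, map_mul, map_mul, map_inv, map_inv, mul_inv_eq_one, mul_inv_eq_iff_eq_mul] at this
      exact this
    have h2 : Commute (QuotientGroup.mk' K b) (QuotientGroup.mk' K c) :=
      Commute.map (hc' b hb c hc1) _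
    rw [map_mul, map_mul, map_zpow, map_zpow]
    exact ((h2.mul_right ((h1 b hb).zpow_right j)).mul_left
      (((h1 c hc1).symm.zpow_left i).mul_right (Commute.zpow_zpow_self _ i j))).eq
  have hs : Function.Surjective fun b : A => (⟨_, hm b b.2⟩ : A) := fun y => by
    obtain ⟨b, hb, e⟩ := hAK y.2
    exact ⟨⟨b, hb⟩, Subtype.ext e⟩
  intro a ha hag
  have := Finite.injective_iff_surjective.2 hs (a₁ := ⟨a, ha⟩) (a₂ := 1)
    (Subtype.ext (by simp [hag.eq]))
  exact congrArg Subtype.val this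

theorem result {G : Type*} [Group G] [Finite G]
    [Group.IsSolvable G] (hnn : ¬ Group.IsNilpotent G) :
    (∀ H : Subgroup G, ¬ IsMulCommutative H → Subgroup.normalizer (H : Set G) = H) ↔
    ∃ (x : G) (A : Subgroup G) (p : ℕ), p.Prime ∧ A.Normal ∧ IsMulCommutative A ∧ (∃ k : ℕ, orderOf x = p ^ k) ∧
      ¬ p ∣ Nat.card A ∧ (Subgroup.zpowers x).IsComplement' A ∧ x ^ p ∈ Subgroup.center G ∧
      ∀ a : G, a ∈ A → a ≠ 1 → x * a * x⁻¹ ≠ a := by
  open Subgroup H8 in
  constructor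
  · intro h
    haveI : Nontrivial G := by
      by_contra hn
      haveI := not_nontrivial_iff_subsingleton.1 hn
      exact hnn inferInstance
    have hz : ¬ commutator G ≤ center G := fun e => hnn (by
      haveI : IsMulCommutative (G ⧸ center G) :=
        Subgroup.Normal.quotient_commutative_iff_commutator_le.2 e
      exact Group.of_quotient_center_nilpotent
        (by open scoped IsMulCommutative in exact CommGroup.isNilpotent))
    obtain ⟨hc, p, g, k, hp, hk, htop⟩ := SNA.exists_gen h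
      (Group.IsSolvable.commutator_lt_top_of_nontrivial G).ne hz
    haveI := Fact.mk hp
    have hf := fpf_of_gen hc htop
    have hdec : ∀ y : G, ∃ c ∈ commutator G, ∃ i : ℤ, y = c * g ^ i := fun y =>
      (H9.mem_sup_zpowers ((normalizer_eq_top _).ge (mem_top g))).1 (htop.ge (mem_top y))
    have hZ : IsPGroup p (zpowers g) := IsPGroup.of_card (n := k) (by simp [hk])
    have hnd : ¬ p ∣ Nat.card (commutator G) := by
      have h1 := H3.card_modEq_card_inf_centralizer (Q := commutator G) hZ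
        ((normalizer_eq_top _).ge.trans' le_top)
      have h2 : commutator G ⊓ centralizer (zpowers g : Set G) = ⊥ := eq_bot_iff.2 fun a ha =>
        hf a ha.1 (ha.2 g (mem_zpowers g)).symm
      rw [h2, card_bot] at h1
      intro hd
      exact hp.one_lt.ne' (Nat.dvd_one.1 ((h1.dvd_iff dvd_rfl).1 hd))
    have key : ∀ y : G, y ∈ centralizer (commutator G : Set G) → Commute g y → y ∈ center G := by
      intro y h1 h2
      refine mem_center_iff.2 fun u => ?_
      obtain ⟨c, hc1, i, rfl⟩ := hdec u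
      exact (Commute.mul_left (h1 c hc1) (h2.zpow_left i)).eq
    refine ⟨g, commutator G, p, hp, inferInstance, hc, ⟨k, hk⟩, hnd, ?_, ?_, fun a ha h1 h2 =>
      h1 (hf a ha (mul_inv_eq_iff_eq_mul.1 h2).symm)⟩
    · refine (H3.isComplement'_of_normal (H3.disjoint_of_coprime_card ?_) htop).symm
      rw [Nat.card_zpowers, hk]
      exact ((hp.coprime_iff_not_dvd.2 hnd).symm).pow_right k
    · refine key _ ?_ (Commute.self_pow g p)
      set C := centralizer (commutator G : Set G) with hC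
      by_cases hCt : C = ⊤
      · exact hCt ▸ mem_top _
      have hr := SNA.index_prime h _ hc hCt
      by_cases hg : g ∈ C
      · exact pow_mem hg p
      have h1 : orderOf (g : G ⧸ C) ∣ C.index := orderOf_dvd_natCard _
      have h2 : orderOf (g : G ⧸ C) ≠ 1 := fun e =>
        hg ((QuotientGroup.eq_one_iff g).1 (orderOf_eq_one_iff.1 e))
      have h3 : orderOf (g : G ⧸ C) = C.index := ((Nat.dvd_prime hr).1 h1).resolve_left h2
      have h4 : orderOf (g : G ⧸ C) ∣ p ^ k := orderOf_dvd_of_pow_eq_one (by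
        rw [← QuotientGroup.mk_pow, ← hk, pow_orderOf_eq_one, QuotientGroup.mk_one])
      have h5 := (Nat.prime_dvd_prime_iff_eq hr hp).1 (hr.dvd_of_dvd_pow (h3 ▸ h4))
      exact h5 ▸ C.pow_index_mem g
  · rintro ⟨x, A, p, hp, hA, hc, ⟨k, hk⟩, -, hcomp, hz, hf⟩ H hH
    have hdec : ∀ y : G, ∃ c ∈ A, ∃ i : ℤ, y = c * x ^ i := fun y =>
      (H9.mem_sup_zpowers ((normalizer_eq_top _).ge (mem_top x))).1
        (hcomp.symm.sup_eq_top.ge (mem_top y))
    obtain ⟨h, hh, a, ha, i, hi, hpi⟩ : ∃ h ∈ H, ∃ a ∈ A, ∃ i : ℤ, h = a * x ^ i ∧ ¬ (p : ℤ) ∣ i := by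
      by_contra hn
      push Not at hn
      refine hH (comm_iff.2 fun u hu v hv => ?_)
      obtain ⟨b, hb, i, hi⟩ := hdec u
      obtain ⟨c, hc1, j, hj⟩ := hdec v
      obtain ⟨i, rfl⟩ := hn u hu b hb i hi
      obtain ⟨j, rfl⟩ := hn v hv c hc1 j hj
      have h1 : ∀ (y : G) (l : ℤ), Commute y (x ^ ((p : ℤ) * l)) := fun y l => by
        rw [zpow_mul, zpow_natCast]; exact Commute.zpow_right (mem_center_iff.1 hz y) l
      rw [hi, hj]
      exact (Commute.mul_right (Commute.mul_left (comm_iff.1 hc b hb c hc1) (h1 c i).symm)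
        (h1 _ j)).eq
    obtain ⟨u, v, huv⟩ : IsCoprime i ((p : ℤ) ^ k) :=
      (((Nat.prime_iff_prime_int.1 hp).irreducible.coprime_iff_not_dvd.2 hpi).symm).pow_right
    have hx : x = (x ^ i) ^ u := by
      have : x ^ ((p : ℤ) ^ k) = 1 := by
        rw [← Nat.cast_pow, zpow_natCast, ← hk, pow_orderOf_eq_one]
      calc x = x ^ (u * i + v * (p : ℤ) ^ k) := by rw [huv, zpow_one]
        _ = _ := by rw [zpow_add, mul_comm v, zpow_mul x _ v, this, one_zpow, mul_one, mul_comm,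
          zpow_mul]
    refine le_antisymm (fun m hm => ?_) le_normalizer
    obtain ⟨b, hb, j, hj⟩ := hdec m
    have h1 : (h ^ (u * j))⁻¹ * m ∈ A := by
      rw [← QuotientGroup.eq, hj, hi]
      have e1 : ((a : G) : G ⧸ A) = 1 := (QuotientGroup.eq_one_iff a).2 ha
      have e2 : ((b : G) : G ⧸ A) = 1 := (QuotientGroup.eq_one_iff b).2 hb
      rw [QuotientGroup.mk_zpow, QuotientGroup.mk_mul, QuotientGroup.mk_mul, e1, e2, one_mul,
        one_mul, ← QuotientGroup.mk_zpow, zpow_mul, ← hx]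
    set N := normalizer (H : Set G) with hN
    have hhN : h ∈ N := le_normalizer hh
    obtain ⟨s, hs, e1⟩ := exists_comm_eq (K := N ⊓ A) (h := h)
      (mem_normalizer_of_conj fun y hy => ⟨N.mul_mem (N.mul_mem hhN hy.1) (N.inv_mem hhN),
        hA.conj_mem y hy.2 h⟩)
      (fun c hc1 hch => by
        by_contra hc2
        refine hf c hc1.2 hc2 (mul_inv_eq_iff_eq_mul.2 ?_)
        have e2 : Commute c a := comm_iff.1 hc c hc1.2 a ha
        have e3 : Commute c (x ^ i) := by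
          have := e2.inv_right.mul_right hch
          rwa [hi, inv_mul_cancel_left] at this
        exact (hx ▸ e3.zpow_right u : Commute c x).symm.eq)
      (k := (h ^ (u * j))⁻¹ * m) ⟨N.mul_mem (N.inv_mem (N.zpow_mem hhN _)) hm, h1⟩
    have h2 : (h ^ (u * j))⁻¹ * m ∈ H :=
      e1 ▸ mul_mem ((mem_normalizer_iff.1 hs.1 h).1 hh) (inv_mem hh)
    simpa using mul_mem (zpow_mem hh (u * j)) h2

end Cfsg.Agent.S4071
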