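import Mathlib
import Cfsg.Statements.S4073
import Cfsg.Agent.H8.SNA2

set_option autoImplicit false
open Cfsg

namespace Cfsg.Agent.S4073

theorem result {G : Type*} [Group G] [Finite G] [IsSimpleGroup G]
    (hna : ¬ IsMulCommutative G) :
    (∀ H : Subgroup G, ¬ IsMulCommutative H → Subgroup.normalizer (H : Set G) = H) ↔
    ∃ n : ℕ, 2 ≤ n ∧ (2 ^ n - 1).Prime ∧ Nonempty (G ≃* Matrix.ProjectiveSpecialLinearGroup (Fin 2) (GaloisField 2 n)) := by
  have h2 : ∀ n, (2 : GaloisField 2 n) = 0 := fun n => CharP.cast_eq_zero (GaloisField 2 n) 2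
  constructor
  · intro h
    obtain ⟨A, hA, hc⟩ := (H8.SNA.ct h hna).simple hna
    obtain ⟨n, hn, -, ⟨e⟩⟩ := hA.iso_gf hc
    refine ⟨n, hn, ?_, ⟨e⟩⟩
    obtain ⟨f⟩ := H8.psl_equiv_sl (h2 n)
    letI := Fintype.ofFinite (GaloisField 2 n)
    have hc : Fintype.card (GaloisField 2 n) = 2 ^ n := by
      rw [← Nat.card_eq_fintype_card, GaloisField.card 2 n (by omega)]
    rw [← hc]
    refine H8.prime_of_sna_sl (h2 n) ?_
      (H8.SNA.of_injective h (e.trans f).symm.toMonoidHom (e.trans f).symm.injective)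
    rw [hc]
    exact lt_of_lt_of_le (by norm_num) (Nat.pow_le_pow_right (by norm_num) hn)
  · rintro ⟨n, hn, hp, ⟨e⟩⟩
    obtain ⟨f⟩ := H8.psl_equiv_sl (h2 n)
    letI := Fintype.ofFinite (GaloisField 2 n)
    have hc : Fintype.card (GaloisField 2 n) = 2 ^ n := by
      rw [← Nat.card_eq_fintype_card, GaloisField.card 2 n (by omega)]
    exact (H8.sna_sl (h2 n) hn hc hp).of_injective (e.trans f).toMonoidHom (e.trans f).injective

end Cfsg.Agent.S4073
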