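import Mathlib
import Cfsg.Statements.S4074
import Cfsg.Agent.H8.Elt

set_option autoImplicit false
open Cfsg

namespace Cfsg.Agent.S4074

open DihedralGroup in

theorem result (n : ℕ) (hn : 2 < n) :
    (∀ H : Subgroup (DihedralGroup n), ¬ IsMulCommutative H → Subgroup.normalizer (H : Set (DihedralGroup n)) = H) ↔
    (n = 4 ∨ Odd n) := by
  have : NeZero n := ⟨by omega⟩
  constructor
  · intro h
    by_contra hc
    push Not at hc
    obtain ⟨h4, hev⟩ := hc
    rw [Nat.not_odd_iff_even, even_iff_two_dvd] at hev
    let φ : ZMod n →+* ZMod 2 := ZMod.castHom hev (ZMod 2)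
    let f : DihedralGroup n →* Multiplicative (ZMod 2) :=
      { toFun := fun g => match g with
          | r i => Multiplicative.ofAdd (φ i)
          | sr i => Multiplicative.ofAdd (φ i)
        map_one' := by
          change Multiplicative.ofAdd (φ 0) = 1
          rw [map_zero]; rfl
        map_mul' := by
          have e : ∀ a b : ZMod 2, a - b = a + b := by decide
          rintro (i | i) (j | j) <;> simp [← ofAdd_add, e, add_comm] }
    have h1 := h f.ker (by
      intro hcomm
      have h2 : r (2 : ZMod n) ∈ f.ker := by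
        change Multiplicative.ofAdd (φ 2) = 1
        rw [map_ofNat]; rfl
      have h3 : sr (0 : ZMod n) ∈ f.ker := by
        change Multiplicative.ofAdd (φ 0) = 1
        rw [map_zero]; rfl
      have h5 : r (2 : ZMod n) * sr 0 = sr 0 * r 2 :=
        congrArg Subtype.val (hcomm.1.1 ⟨_, h2⟩ ⟨_, h3⟩)
      simp only [r_mul_sr, sr_mul_r, sr.injEq] at h5
      have h6 : ((4 : ℕ) : ZMod n) = 0 := by push_cast; linear_combination -h5
      rw [ZMod.natCast_eq_zero_iff] at h6
      have := Nat.le_of_dvd (by norm_num) h6
      interval_cases n <;> simp_all)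
    rw [Subgroup.normalizer_eq_top] at h1
    have h2 : r (1 : ZMod n) ∈ f.ker := h1 ▸ Subgroup.mem_top _
    change Multiplicative.ofAdd (φ 1) = 1 at h2
    rw [map_one] at h2
    exact absurd h2 (by decide)
  · intro h H hH
    obtain ⟨i, d, hi, hd, hd2⟩ : ∃ i d : ZMod n, sr i ∈ H ∧ r d ∈ H ∧ 2 * d ≠ 0 := by
      by_contra hc
      push Not at hc
      apply hH
      refine ⟨⟨?_⟩⟩
      rintro ⟨(a | a), ha⟩ ⟨(b | b), hb⟩ <;> apply Subtype.ext
      · simp [add_comm]
      · have := hc b a hb ha
        simp only [MulMemClass.mk_mul_mk, r_mul_sr, sr_mul_r, sr.injEq]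
        linear_combination -this
      · have := hc a b ha hb
        simp only [MulMemClass.mk_mul_mk, r_mul_sr, sr_mul_r, sr.injEq]
        linear_combination this
      · have := hc a (b - a) ha (by simpa using H.mul_mem ha hb)
        simp only [MulMemClass.mk_mul_mk, sr_mul_sr, r.injEq]
        linear_combination this
    have key : ∀ k : ZMod n, r k ∈ Subgroup.normalizer (H : Set (DihedralGroup n)) → r k ∈ H := by
      intro k hk
      rcases h with rfl | ⟨m, hm⟩
      · have h1 : ∀ d k : ZMod 4, 2 * d ≠ 0 → r k = r d ^ (k * d).val := by decide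
        rw [h1 d k hd2]; exact H.pow_mem hd _
      · have h1 := H.mul_mem hi (H1.conj_mem_of_mem_normalizer' hk hi)
        have h2 := H.pow_mem h1 (m + 1)
        simp only [inv_r, r_mul_sr, sr_mul_r, sr_mul_sr, r_pow] at h2
        convert h2 using 2
        have h3 : ((2 * m + 1 : ℕ) : ZMod n) = 0 := by rw [← hm]; simp
        push_cast at h3 ⊢
        linear_combination (-k) * h3
    refine le_antisymm ?_ Subgroup.le_normalizer
    rintro (k | k) hk
    · exact key k hk
    · have h1 := key (k - i) (by simpa using mul_mem (Subgroup.le_normalizer hi) hk)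
      simpa using H.mul_mem hi h1

end Cfsg.Agent.S4074
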