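import Mathlib
import Cfsg.Statements.S4075
import Cfsg.Agent.H8.Elt
import Cfsg.Agent.H1.Fitting
import Cfsg.Agent.H7.PGrp

set_option autoImplicit false
open Cfsg

namespace Cfsg.Agent.S4075

open Subgroup in

theorem result {G : Type*} [Group G] [Finite G]
    [Group.IsNilpotent G] :
    (∀ H : Subgroup G, ¬ IsMulCommutative H → Subgroup.normalizer (H : Set G) = H) ↔
    (IsMulCommutative G ∨ (IsPrimePow (Nat.card G) ∧ ¬ IsMulCommutative G ∧ ∀ H : Subgroup G, H ≠ ⊤ → IsMulCommutative H)) := by
  constructor
  · intro h
    by_cases hG : IsMulCommutative G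
    · exact Or.inl hG
    have h1 : ∀ H : Subgroup G, H ≠ ⊤ → IsMulCommutative H := by
      intro H hH
      by_contra hc
      exact (normalizerCondition_of_isNilpotent H (lt_top_iff_ne_top.2 hH)).ne' (h H hc)
    refine Or.inr ⟨?_, hG, h1⟩
    by_contra hpp
    apply hG
    have h2 : ∀ (p k : ℕ) (x : G), p.Prime → orderOf x = p ^ k → x ∈ center G := by
      intro p k x hp hk
      have : Fact p.Prime := ⟨hp⟩
      obtain ⟨P, hP⟩ := (H8.isPGroup_zpowers_of_orderOf hk).exists_le_sylow
      have h3 : IsMulCommutative (P : Subgroup G) := by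
        refine h1 _ fun ht => ?_
        obtain ⟨m, hm⟩ := P.2.exists_card_eq
        rw [ht, card_top] at hm
        rcases Nat.eq_zero_or_pos m with rfl | hm0
        · have := (Nat.card_eq_one_iff_unique.1 hm).1
          exact hG inferInstance
        · exact hpp (hm ▸ (hp.isPrimePow.pow hm0.ne'))
      have h4 : centralizer ({x} : Set G) = ⊤ := by
        refine H8.eq_top_of_forall_primePow fun q j g hq hj => ?_
        rw [mem_centralizer_singleton_iff]
        by_cases hqp : q = p
        · subst hqp
          have h5 := H8.mem_sylow_of_mem_normalizer P (x := g) (by rw [normalizer_eq_top]; trivial)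
            (H8.isPGroup_zpowers_of_orderOf hj)
          exact congrArg Subtype.val (h3.1.1 ⟨g, h5⟩ ⟨x, hP (mem_zpowers x)⟩)
        · exact H1.commute_of_coprime_orderOf (by
            rw [hj, hk]; exact Nat.coprime_pow_primes _ _ hq hp hqp)
      rw [mem_center_iff]
      intro g
      exact mem_centralizer_singleton_iff.1 (h4 ▸ mem_top g)
    have h3 := H8.eq_top_of_forall_primePow h2
    exact ⟨⟨fun a b => mem_center_iff.1 (h3 ▸ mem_top b) a⟩⟩
  · rintro (h | ⟨-, -, h⟩) H hH
    · exact absurd (inferInstance : IsMulCommutative H) hH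
    · by_cases ht : H = ⊤
      · subst ht; exact normalizer_eq_top _
      · exact absurd (h H ht) hH

end Cfsg.Agent.S4075
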