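import Cfsg.Statements.S4079
import Cfsg.Agent.H3.Mca

set_option autoImplicit false
open Cfsg

namespace Cfsg.Agent.S4079

/-- Let p be an odd prime and L a finite metacyclic p-group with no cyclic subgroup of index p, and let a be an automorphism of L of order p. Then a moves some element of order p of L if and only if p = 3 and the semidirect product L ⋊ ⟨a⟩ (of order 3·#L) has maximal class, i.e. nilpotency class m where #L = 3^m. -/
theorem result {L : Type*} [Group L] [Finite L] {p : ℕ} [Fact p.Prime]
    (hp : p ≠ 2) (hL : IsPGroup p L) (hmc : Cfsg.IsMetacyclic L) (hnc : ∀ C : Subgroup L, IsCyclic C → C.index ≠ p)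
    (a : MulAut L) (ha : orderOf a = p) (m : ℕ) (hm : Nat.card L = p ^ m) :
    (∃ x : L, orderOf x = p ∧ a x ≠ x) ↔
    (p = 3 ∧ Group.nilpotencyClass (SemidirectProduct L ↥(Subgroup.zpowers a) (Subgroup.zpowers a).subtype) = m) := by
  have hP : p.Prime := Fact.out
  have h : H7.MC p L := ⟨hp, hL, hmc⟩
  have hnt : ¬ IsCyclic L := by
    intro hc
    obtain ⟨g, hg⟩ := isCyclic_iff_exists_zpowers_eq_top.1 hc
    have hog : orderOf g = p ^ m := by rw [← Nat.card_zpowers, hg, Subgroup.card_top, hm]
    rcases m with _ | m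
    · haveI : Subsingleton L := (Nat.card_eq_one_iff_unique.1 (by simpa using hm)).1
      have : a = 1 := by ext x; exact Subsingleton.elim _ _
      rw [this, orderOf_one] at ha
      exact hP.one_lt.ne ha
    · refine hnc (Subgroup.zpowers (g ^ p)) inferInstance ?_
      have h1 := (Subgroup.zpowers (g ^ p)).card_mul_index
      rw [Nat.card_zpowers, orderOf_pow_of_dvd hP.pos.ne' (by rw [hog]; exact dvd_pow_self _ (by omega)), hog, hm,
        pow_succ, Nat.mul_div_cancel _ hP.pos] at h1
      exact Nat.eq_of_mul_eq_mul_left (pow_pos hP.pos _) h1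
  obtain ⟨-, -, i, j, -, -, -, hij⟩ := Cfsg.Agent.H3.Mca.fac h hnc hnt
  obtain rfl : m = (i + j) + 4 := Nat.pow_right_injective hP.two_le (hm.symm.trans hij)
  generalize i + j = m at hm
  set G := SemidirectProduct L ↥(Subgroup.zpowers a) (Subgroup.zpowers a).subtype with hGd
  haveI : Finite G := Finite.of_equiv _ SemidirectProduct.equivProd.symm
  have hcA : Nat.card (Subgroup.zpowers a) = p := by rw [Nat.card_zpowers, ha]
  have hcG : Nat.card G = p ^ (m + 4 + 1) := by
    rw [hGd, SemidirectProduct.card, hm, hcA, ← pow_succ]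
  have hG : IsPGroup p G := IsPGroup.of_card hcG
  haveI := hG.isNilpotent
  let f : L →* G := SemidirectProduct.inl
  have hf : Function.Injective f := SemidirectProduct.inl_injective
  have hr : f.range = (SemidirectProduct.rightHom : G →* Subgroup.zpowers a).ker :=
    SemidirectProduct.range_inl_eq_ker_rightHom
  haveI hN : f.range.Normal := by rw [hr]; infer_instance
  have hi : f.range.index = p := by
    rw [hr, Subgroup.index_ker, MonoidHom.range_eq_top.2 SemidirectProduct.rightHom_surjective, Subgroup.card_top, hcA]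
  let t : G := SemidirectProduct.inr ⟨a, Subgroup.mem_zpowers a⟩
  have ht : ∀ x, t * f x * t⁻¹ = f (a x) := fun x => by
    have := SemidirectProduct.inl_aut (φ := (Subgroup.zpowers a).subtype) ⟨a, Subgroup.mem_zpowers a⟩ x
    rw [map_inv] at this
    exact this.symm
  have hap : a ^ p = 1 := by rw [← ha, pow_orderOf_eq_one]
  have htp : t ^ p = 1 := by
    rw [← map_pow, show (⟨a, Subgroup.mem_zpowers a⟩ : Subgroup.zpowers a) ^ p = 1 from Subtype.ext hap, map_one]
  have htN : t ∉ f.range := by
    rw [hr, MonoidHom.mem_ker, SemidirectProduct.rightHom_inr]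
    intro e
    have : a = 1 := congrArg Subtype.val e
    rw [this, orderOf_one] at ha
    exact hP.one_lt.ne ha
  have key : Group.nilpotencyClass G = m + 4 → H13.MC p G ∧ ∀ i, 1 ≤ i → Nat.card (H13.lc G i) = p ^ (m + 4 - i) := by
    intro hcl
    exact H13.MC.of_class hcG (by omega) fun e => by
      have := Subgroup.lowerCentralSeries_eq_bot_iff_nilpotencyClass_le.1 e
      omega
  constructor
  · rintro ⟨x, hx, hax⟩
    have h1 := Cfsg.Agent.H3.Mca.card_cent h hnc hnt hG hf hi a hap ht (by rw [← hx, pow_orderOf_eq_one]) hax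
    have h2 : Group.nilpotencyClass G = m + 4 := H6.class_of_card_cent (m + 3) G t hcG h1
    obtain ⟨h3, h4⟩ := key h2
    exact ⟨Cfsg.Agent.H3.Mca.eq_three h hnt hm hf h3 h4, h2⟩
  · rintro ⟨rfl, h2⟩
    obtain ⟨h3, h4⟩ := key h2
    obtain ⟨x, hx, hax⟩ := Cfsg.Agent.H3.Mca.moves hi a ht hf htp htN h3 h4
    refine ⟨x, orderOf_eq_prime hx ?_, hax⟩
    rintro rfl
    exact hax (map_one a)

end Cfsg.Agent.S4079
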