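import Mathlib
import Cfsg.Statements.S4080

set_option autoImplicit false
open Cfsg

namespace Cfsg.Agent.S4080

theorem sq_eq_zero {F : Type*} [Field F] (M : Matrix (Fin 2) (Fin 2) F) (h : IsNilpotent M) :
    M * M = 0 := by
  have h1 : M.trace = 0 := (Matrix.isNilpotent_trace_of_isNilpotent h).eq_zero
  have h2 : M.det = 0 := by
    obtain ⟨k, hk⟩ := h
    have := congrArg Matrix.det hk
    rw [Matrix.det_pow, Matrix.det_zero] at this
    exact pow_eq_zero_iff (n := k) (by rintro rfl; simp at this) |>.1 this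
  rw [Matrix.trace_fin_two] at h1
  rw [Matrix.det_fin_two] at h2
  ext i j
  fin_cases i <;> fin_cases j <;> simp [Matrix.mul_apply, Fin.sum_univ_two]
  · linear_combination M 0 0 * h1 - h2
  · linear_combination M 0 1 * h1
  · linear_combination M 1 0 * h1
  · linear_combination M 1 1 * h1 - h2

theorem exists_mul_of_cast {p : ℕ} [hp : Fact p.Prime] (c : ZMod (p ^ 2))
    (h : ZMod.castHom (dvd_pow_self p two_ne_zero) (ZMod p) c = 0) : ∃ d : ZMod (p ^ 2), c = (p : ZMod (p ^ 2)) * d := by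
  have : NeZero (p ^ 2) := ⟨pow_ne_zero _ hp.out.ne_zero⟩
  rw [← ZMod.natCast_zmod_val c, map_natCast, ZMod.natCast_eq_zero_iff] at h
  obtain ⟨d, hd⟩ := h
  exact ⟨d, by rw [← ZMod.natCast_zmod_val c, hd]; simp⟩

theorem exists_mul_of_mul_eq_zero {p : ℕ} [hp : Fact p.Prime] (c : ZMod (p ^ 2))
    (h : p • c = 0) : ∃ d : ZMod (p ^ 2), c = (p : ZMod (p ^ 2)) * d := by
  have : NeZero (p ^ 2) := ⟨pow_ne_zero _ hp.out.ne_zero⟩
  rw [← ZMod.natCast_zmod_val c, nsmul_eq_mul, ← Nat.cast_mul, ZMod.natCast_eq_zero_iff] at h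
  obtain ⟨d, hd⟩ := (Nat.mul_dvd_mul_iff_left hp.out.pos).1 ((pow_two p).symm.dvd.trans h)
  exact ⟨d, by rw [← ZMod.natCast_zmod_val c, hd]; simp⟩

theorem result {p : ℕ} [Fact p.Prime] (hp : 3 < p)
    (a : MulAut (Multiplicative (ZMod (p ^ 2) × ZMod (p ^ 2)))) (ha : orderOf a = p)
    (x : Multiplicative (ZMod (p ^ 2) × ZMod (p ^ 2))) (hx : orderOf x = p) : a x = x := by
  have hpp : p.Prime := Fact.out
  let R := ZMod (p ^ 2)
  have ha1 : a ^ p = 1 := orderOf_dvd_iff_pow_eq_one.1 ha.dvd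
  have hx1 : x ^ p = 1 := orderOf_dvd_iff_pow_eq_one.1 hx.dvd
  let ψ : MulAut (Multiplicative (R × R)) →* Module.End R (R × R) :=
    { toFun := fun b => (AddMonoidHom.toMultiplicative.symm b.toMonoidHom : R × R →+ R × R).toZModLinearMap (p ^ 2)
      map_one' := rfl
      map_mul' := fun _ _ => rfl }
  let e := LinearMap.toMatrixAlgEquiv (Module.Basis.finTwoProd R)
  set A := e (ψ a) with hA
  have h1 : A ^ p = 1 := by
    rw [hA, ← map_pow, ← map_pow, ha1, map_one, map_one]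
  let φ := (ZMod.castHom (dvd_pow_self p two_ne_zero) (ZMod p)).mapMatrix (m := Fin 2)
  have h2 : φ (A - 1) * φ (A - 1) = 0 := by
    refine sq_eq_zero _ ⟨p, ?_⟩
    rw [map_sub, map_one, sub_pow_char_of_commute _ (Commute.one_right _), ← map_pow, h1]
    simp
  rw [← map_mul] at h2
  set N := A - 1 with hN
  obtain ⟨B, hB⟩ : ∃ B : Matrix (Fin 2) (Fin 2) R, N * N = (p : R) • B := by
    choose d hd using fun i j => exists_mul_of_cast ((N * N) i j) (congrFun (congrFun h2 i) j)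
    exact ⟨Matrix.of d, by ext i j; simp [hd]⟩
  have hp2 : (p : R) * p = 0 := by rw [← Nat.cast_mul, ← pow_two]; exact ZMod.natCast_self _
  have h3 : (p : R) • (N * N) = 0 := by rw [hB, smul_smul, hp2, zero_smul]
  have h4 : N ^ 4 = 0 := by
    rw [show N ^ 4 = (N * N) * (N * N) by noncomm_ring]
    conv_lhs => enter [1]; rw [hB]
    rw [smul_mul_assoc, ← mul_smul_comm, h3, mul_zero]
  have h5 : (p : R) • N = 0 := by
    have h6 : A = N + 1 := by rw [hN]; simp
    rw [h6, (Commute.one_right N).add_pow] at h1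
    obtain ⟨m, rfl⟩ : ∃ m, p = m + 1 := ⟨p - 1, by omega⟩
    rw [Finset.sum_range_succ', Finset.sum_range_succ', Finset.sum_eq_zero] at h1
    · simp only [zero_add, pow_one, one_pow, mul_one, Nat.choose_one_right, pow_zero,
        Nat.choose_zero_right, Nat.cast_one, add_eq_right] at h1
      rw [← h1, Nat.cast_smul_eq_nsmul, nsmul_eq_mul, Nat.cast_comm]
    · intro k hk
      rw [Finset.mem_range] at hk
      rcases lt_or_ge k 2 with hk2 | hk2
      · obtain ⟨c, hc⟩ := hpp.dvd_choose_self (k := k + 1 + 1) (by omega) (by omega)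
        rw [hc, one_pow, mul_one, ← Nat.cast_comm, ← nsmul_eq_mul, mul_comm, mul_smul,
          ← Nat.cast_smul_eq_nsmul R (m + 1), pow_succ N, pow_succ N, mul_assoc, ← mul_smul_comm, h3]
        simp
      · rw [show k + 1 + 1 = 4 + (k - 2) by omega, pow_add, h4]; simp
  have h6 : (p : R) • (ψ a - 1) = 0 := by
    apply e.injective
    rw [map_smul, map_sub, map_one, map_zero]; exact h5
  have h7 : p • x.toAdd = 0 := by
    rw [← toAdd_pow, hx1]; rfl
  obtain ⟨d1, hd1⟩ := exists_mul_of_mul_eq_zero x.toAdd.1 (congrArg Prod.fst h7)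
  obtain ⟨d2, hd2⟩ := exists_mul_of_mul_eq_zero x.toAdd.2 (congrArg Prod.snd h7)
  have h8 : x.toAdd = (p : R) • (d1, d2) := Prod.ext hd1 hd2
  have h9 : (ψ a - 1) x.toAdd = 0 := by
    rw [h8, map_smul, ← LinearMap.smul_apply, h6]; rfl
  rw [LinearMap.sub_apply, sub_eq_zero] at h9
  exact h9

end Cfsg.Agent.S4080
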