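import Mathlib
import Cfsg.Statements.S4081
import Cfsg.Agent.H8.Orb3b

set_option autoImplicit false
open Cfsg

namespace Cfsg.Agent.S4081

theorem result {G : Type*} [Group G] [Finite G] (hnpp : ¬ IsPrimePow (Nat.card G)) (hnt : Nat.card G ≠ 1) :
    Nat.card (MulAction.orbitRel.Quotient (MulAut G) G) = 3 ↔
    ∃ (p q n : ℕ) (_ : Fact p.Prime) (_ : Fact q.Prime), p ≠ q ∧ 1 ≤ n ∧ Nat.card G = p ^ n * q ∧
      (∀ P : Sylow p G, (P : Subgroup G).Normal ∧ Cfsg.IsElementaryAbelian p (P : Subgroup G)) ∧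
      orderOf (p : ZMod q) = q - 1 ∧
      ∀ x y : G, orderOf x = q → orderOf y = p → x * y * x⁻¹ ≠ y := by
  constructor
  · intro h3
    obtain ⟨p, hp, hpd⟩ := Nat.exists_prime_and_dvd hnt
    obtain ⟨q, hq, hqd, hpq⟩ : ∃ q : ℕ, q.Prime ∧ q ∣ Nat.card G ∧ p ≠ q := by
      by_contra h
      push Not at h
      apply hnpp
      have h1 := Nat.eq_prime_pow_of_unique_prime_dvd (p := p) (Nat.card_pos (α := G)).ne'
        (fun {r} hr hd => (h r hr hd).symm)
      rw [isPrimePow_nat_iff]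
      refine ⟨p, _, hp, Nat.pos_of_ne_zero fun h0 => ?_, h1.symm⟩
      rw [h0, pow_zero] at h1
      exact hnt h1
    haveI := Fact.mk hp
    haveI := Fact.mk hq
    obtain ⟨a, ha⟩ := exists_prime_orderOf_dvd_card' (G := G) p hpd
    obtain ⟨b, hb⟩ := exists_prime_orderOf_dvd_card' (G := G) q hqd
    obtain ⟨hord, htr⟩ := H8.of_card_orbits_eq_three hp hq hpq h3 ha hb
    have hs : Group.IsSolvable G := H17.isSolvable_of_two_primes hp hq fun r hr hd => by
      haveI := Fact.mk hr
      obtain ⟨x, hx⟩ := exists_prime_orderOf_dvd_card' (G := G) r hd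
      rcases hord x with h | h | h
      · rw [h, orderOf_one] at hx; exact absurd hx.symm hr.ne_one
      · exact Or.inl (hx.symm.trans h)
      · exact Or.inr (hx.symm.trans h)
    haveI : Nontrivial G := Finite.one_lt_card_iff_nontrivial.1
      (lt_of_le_of_ne Nat.card_pos hnt.symm)
    obtain ⟨A, hA, hA0, hAc⟩ := H8.exists_char_comm hs
    obtain ⟨⟨c, hc⟩, hc1⟩ := Subgroup.ne_bot_iff_exists_ne_one.1 hA0
    rcases hord c with h | h | h
    · exact absurd (Subtype.ext h) hc1
    · obtain ⟨n, h1, h2, h4, h5, h6⟩ := H8.structure_of_three_orbits hpq hord htr A hc h hb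
      refine ⟨p, q, n, inferInstance, inferInstance, hpq, h1, h2, fun P => ?_, h6, fun x y hx hy =>
        H8.not_commute_of_orders hp hq hpq hord hx hy⟩
      rw [h4 P]
      exact ⟨inferInstance, hAc, h5⟩
    · have hord' : ∀ g : G, g = 1 ∨ orderOf g = q ∨ orderOf g = p := fun g =>
        (hord g).imp id Or.symm
      obtain ⟨n, h1, h2, h4, h5, h6⟩ := H8.structure_of_three_orbits hpq.symm hord' htr A hc h ha
      refine ⟨q, p, n, inferInstance, inferInstance, hpq.symm, h1, h2, fun P => ?_, h6,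
        fun x y hx hy => H8.not_commute_of_orders hq hp hpq.symm hord' hx hy⟩
      rw [h4 P]
      exact ⟨inferInstance, hAc, h5⟩
  · rintro ⟨p, q, n, hp, hq, hpq, hn, hG, hP, ho, hf⟩
    obtain ⟨P⟩ : Nonempty (Sylow p G) := inferInstance
    obtain ⟨h1, h2, h3⟩ := hP P
    exact H8.three_orbits_of_structure hpq hn hG P h3 ho hf

end Cfsg.Agent.S4081
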