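import Cfsg.Statements.S4083
import Cfsg.Agent.H8.GWQ1
import Cfsg.Agent.S0228

set_option autoImplicit false
open Cfsg

namespace Cfsg.Agent.S4083

open Subgroup in
theorem core {H : Type*} [Group H] [Finite H] (hd : GW.Dih (⊤ : Subgroup H))
    (hK : ∀ K : Subgroup H, IsKleinFour K → centralizer (K : Set H) ≤ K) (S : Sylow 2 H)
    [hn : (S : Subgroup H).Normal] (hc : IsCyclic (H ⧸ (S : Subgroup H))) :
    IsCyclic H ∨ (∃ n : ℕ, Nonempty (H ≃* DihedralGroup (2 ^ n))) ∨
      Nonempty (H ≃* alternatingGroup (Fin 4)) := by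
  have hodd : Odd (Nat.card (H ⧸ (S : Subgroup H))) := H6.odd_index_sylow S
  obtain ⟨x, hx, hgen⟩ : ∃ x : H, Odd (orderOf x) ∧ ∀ g : H, ∃ s ∈ (S : Subgroup H), ∃ n : ℤ, g = x ^ n * s := by
    obtain ⟨q, hq⟩ := hc.exists_generator
    obtain ⟨y, rfl⟩ := QuotientGroup.mk_surjective q
    obtain ⟨k, hk⟩ := H6.exists_odd_part y
    refine ⟨y ^ 2 ^ k, hk, fun g => ?_⟩
    have h1 : (y : H ⧸ (S : Subgroup H)) ∈ zpowers ((y : H ⧸ (S : Subgroup H)) ^ 2 ^ k) :=
      mem_zpowers_pow_iff.mpr (Nat.Coprime.pow_left _ (Nat.coprime_two_left.mpr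
        (hodd.of_dvd_nat (orderOf_dvd_natCard _))))
    obtain ⟨n, e⟩ := (zpowers_le.mpr h1) (hq g)
    refine ⟨((y ^ 2 ^ k) ^ n)⁻¹ * g, QuotientGroup.eq.mp ?_, n, by group⟩
    simpa using e
  have hN : x ∈ normalizer ((S : Subgroup H) : Set H) := by rw [normalizer_eq_top]; exact mem_top x
  by_cases hxc : x ∈ centralizer ((S : Subgroup H) : Set H)
  · rcases hd S le_top S.2 with h | ⟨k, a, b, h⟩
    · left
      obtain ⟨a, ha, e⟩ := GW.Q8.exists_le_zpowers h
      have hca : Commute x a := (hxc a ha).symm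
      obtain ⟨m, hm⟩ := H6.IsPGroup_pow_eq_one S.2 ha
      have h1 : x ∈ zpowers (x * a) := by
        have : x ∈ zpowers (x ^ 2 ^ m) :=
          mem_zpowers_pow_iff.mpr (Nat.Coprime.pow_left _ (Nat.coprime_two_left.mpr hx))
        refine (zpowers_le.mpr ?_) this
        exact ⟨(2 ^ m : ℕ), by simp only [zpow_natCast]; rw [hca.mul_pow, hm, mul_one]⟩
      have h2 : a ∈ zpowers (x * a) := by simpa using mul_mem (inv_mem h1) (mem_zpowers (x * a))
      refine ⟨x * a, fun g => ?_⟩
      obtain ⟨s, hs, n, rfl⟩ := hgen g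
      exact mul_mem (zpow_mem h1 n) ((zpowers_le.mpr h2) (e ▸ hs))
    · right; left
      have h1 := hK _ (h.T_four 0) (centralizer_le (h.T_le 0) hxc)
      have h2 : x = 1 := H6.eq_one_of_odd_of_sq hx (H6.kleinFour_mul_self (h.T_four 0) h1)
      have h3 : (S : Subgroup H) = ⊤ := eq_top_iff.mpr fun g _ => by
        obtain ⟨s, hs, n, rfl⟩ := hgen g
        simpa [h2] using hs
      obtain ⟨e⟩ := GW.Q8.dh_equiv h
      exact ⟨k + 1, ⟨(topEquiv.symm.trans (MulEquiv.subgroupCongr h3).symm).trans e⟩⟩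
  right; right
  have h4 : IsKleinFour (S : Subgroup H) := (hd.k_noOdd_or le_top S.2).resolve_left fun k => hxc (k x hN hx)
  have hC : centralizer ((S : Subgroup H) : Set H) = S :=
    le_antisymm (hK _ h4) fun a ha b hb => H6.kleinFour_commute h4 hb ha
  have h6 := H6.four_relIndex_dvd h4 (L := ⊤) (by rw [normalizer_eq_top])
  rw [relIndex_top_right, hC] at h6
  have h5 := (S : Subgroup H).card_mul_index
  have h1 : (S : Subgroup H).index ≠ 1 := fun e => hxc (by rw [hC, index_eq_one.mp e]; exact mem_top x)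
  have h3 : (S : Subgroup H).index = 3 := by
    have h7 : Odd (S : Subgroup H).index := hodd
    have := Nat.le_of_dvd (by norm_num) h6
    generalize (S : Subgroup H).index = n at *
    interval_cases n <;> simp_all (decide := true)
  refine Cfsg.Agent.S0228.result (by rw [← h5, h3, h4.card_four]) fun z hz hzc => hxc fun w hw => ?_
  have hzS : z ∈ (S : Subgroup H) := by
    obtain ⟨g, hg⟩ := H6.exists_conj_mem_sylow_ord2 S hz
    simpa [mul_assoc] using hn.conj_mem _ hg g⁻¹
  have hzx : x * z * x⁻¹ = z := by rw [mem_center_iff.mp hzc x]; group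
  by_cases hw1 : w = 1
  · simp [hw1]
  by_cases hwz : w = z
  · rw [hwz, mem_center_iff.mp hzc x]
  rcases (H6.kleinFour_mem_iff h4 hzS hw (H6.ord2_ne_one hz) hw1 (Ne.symm hwz) _).mp (hn.conj_mem w hw x)
    with e | e | e | e
  · exact absurd (by calc w = x⁻¹ * (x * w * x⁻¹) * x := by group
      _ = 1 := by rw [e]; group) hw1
  · exact absurd (by calc w = x⁻¹ * (x * w * x⁻¹) * x := by group
      _ = x⁻¹ * (x * z * x⁻¹) * x := by rw [e, hzx]
      _ = z := by group) hwz
  · exact (H6.conj_eq_iff_commute.mp e).symm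
  · have e2 : x * (z * w) * x⁻¹ = w := by
      calc x * (z * w) * x⁻¹ = (x * z * x⁻¹) * (x * w * x⁻¹) := by group
        _ = w := by rw [hzx, e, ← mul_assoc, H6.ord2_mul_self hz, one_mul]
    have e3 := H6.commute_sq_of_swap e e2
    obtain ⟨m, hm⟩ := H6.exists_sq_pow_of_odd hx
    have : Commute x w := by
      rw [← hm, ← Commute.mul_pow (Commute.refl x)]
      exact e3.pow_left m
    exact this.symm

/-- Let G be a finite group with Sylow 2-subgroup P. Every subgroup H of G whose Sylow 2-subgroup is normal in H with cyclic quotient is cyclic, dihedral of 2-power order, or isomorphic to the alternating group of degree 4, if and only if either P is cyclic, or P is dihedral (of order at least 4) and every elementary abelian subgroup K of order 4 of P satisfies C_G(K) = K. -/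
theorem result {G : Type*} [Group G] [Finite G] (P : Sylow 2 G) :
    (∀ H : Subgroup G, (∀ S : Sylow 2 ↥H, (S : Subgroup ↥H).Normal) →
        (∀ (S : Sylow 2 ↥H) [(S : Subgroup ↥H).Normal], IsCyclic (↥H ⧸ (S : Subgroup ↥H))) →
        IsCyclic H ∨ (∃ n : ℕ, Nonempty (H ≃* DihedralGroup (2 ^ n))) ∨ Nonempty (H ≃* alternatingGroup (Fin 4))) ↔
    (IsCyclic P ∨
      ((∃ n : ℕ, 1 ≤ n ∧ Nonempty ((P : Subgroup G) ≃* DihedralGroup (2 ^ n))) ∧
        ∀ K : Subgroup G, K ≤ P → Nat.card K = 4 → (∀ k ∈ K, k ^ 2 = 1) → Subgroup.centralizer (K : Set G) = K)) := by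
  constructor
  · intro h
    have h2 : ∀ H : Subgroup G, IsPGroup 2 H → IsCyclic H ∨ ∃ n : ℕ, Nonempty (H ≃* DihedralGroup (2 ^ n)) := by
      intro H hH
      have ht : ∀ S : Sylow 2 H, (S : Subgroup H) = ⊤ := fun S => (S.3 (hH.to_subgroup ⊤) le_top).symm
      rcases h H (fun S => by rw [ht]; infer_instance) (fun S _ => by
        haveI := QuotientGroup.subsingleton_iff.mpr (ht S); infer_instance) with k | k | ⟨⟨e⟩⟩
      exacts [Or.inl k, Or.inr k, by
        obtain ⟨n, hn⟩ := hH.exists_card_eq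
        rw [Nat.card_congr e.toEquiv, H4.card_a4] at hn
        exact absurd ((Nat.prime_three.dvd_of_dvd_pow (hn ▸ (by norm_num : 3 ∣ 12)))) (by norm_num)]
    by_cases hc : IsCyclic P
    · exact Or.inl hc
    obtain ⟨n, ⟨e⟩⟩ := (h2 P P.2).resolve_left hc
    refine Or.inr ⟨⟨n, Nat.pos_of_ne_zero fun k => hc ?_, ⟨e⟩⟩, fun K hK h4 hsq => ?_⟩
    · subst k
      exact isCyclic_of_prime_card (p := 2) (by rw [Nat.card_congr e.toEquiv, DihedralGroup.nat_card]; rfl)
    have hK4 : IsKleinFour K := H6.isKleinFour_of_card h4 fun x hx => by rw [← pow_two]; exact hsq x hx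
    refine le_antisymm (fun x hx => ?_) fun a ha b hb => H6.kleinFour_commute hK4 hb ha
    have hcomm : IsMulCommutative (K ⊔ Subgroup.zpowers x : Subgroup G) :=
      H15.comm_sup (H15.comm_of_le_cent fun a ha b hb => H6.kleinFour_commute hK4 hb ha) inferInstance
        (H15.cent_comm (Subgroup.zpowers_le.mpr hx))
    have hnc : ¬ IsCyclic (K ⊔ Subgroup.zpowers x : Subgroup G) := fun k =>
      hK4.not_isCyclic (Subgroup.isCyclic_of_le (H' := K ⊔ Subgroup.zpowers x) le_sup_left)
    rcases h (K ⊔ Subgroup.zpowers x) (fun S => inferInstance) (fun S _ => by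
      have hKS : K.subgroupOf (K ⊔ Subgroup.zpowers x) ≤ S := by
        haveI := S.unique_of_normal inferInstance
        obtain ⟨Q, hQ⟩ := ((H6.kleinFour_isPGroup hK4).comap_subtype (K := K ⊔ Subgroup.zpowers x)).exists_le_sylow
        rwa [Subsingleton.elim Q S] at hQ
      refine ⟨((⟨x, Subgroup.mem_sup_right (Subgroup.mem_zpowers x)⟩ : (K ⊔ Subgroup.zpowers x : Subgroup G)) :
        _ ⧸ (S : Subgroup (K ⊔ Subgroup.zpowers x : Subgroup G))), fun q => ?_⟩
      obtain ⟨⟨g, hg⟩, rfl⟩ := QuotientGroup.mk_surjective q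
      have hg' : g ∈ ((K ⊔ Subgroup.zpowers x : Subgroup G) : Set G) := hg
      rw [Subgroup.coe_mul_of_right_le_normalizer_left K _
        ((Subgroup.zpowers_le.mpr hx).trans (H15.cent_le_norm K))] at hg'
      obtain ⟨a, ha, _, ⟨n, rfl⟩, rfl⟩ := hg'
      refine ⟨n, ?_⟩
      show _ ^ n = _
      rw [← QuotientGroup.mk_zpow, QuotientGroup.eq]
      refine hKS ?_
      show (x ^ n)⁻¹ * (a * x ^ n) ∈ K
      rw [((show Commute a x from hx a ha).zpow_right n).eq, inv_mul_cancel_left]
      exact ha) with k | ⟨n, ⟨e⟩⟩ | ⟨⟨e⟩⟩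
    · exact absurd k hnc
    · obtain ⟨k, a, b, hd, -⟩ := H6.dh_sub (IsPGroup.of_card (n := n + 1) (by
        rw [Nat.card_congr e.toEquiv, DihedralGroup.nat_card]; ring)) (m := 2 ^ n) (by
        rcases n with _ | n
        · exact absurd (isCyclic_of_prime_card (p := 2) (by
            rw [Nat.card_congr e.toEquiv, DihedralGroup.nat_card]; rfl)) hnc
        · exact Nat.le_self_pow (by omega) 2) e
      exact hd.four_cent hK4 le_sup_left (Subgroup.mem_sup_right (Subgroup.mem_zpowers x)) hx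
    · exfalso
      have := (alternatingGroup (Fin 4))
      have k : ∀ a b : alternatingGroup (Fin 4), a * b = b * a := fun a b => by
        obtain ⟨a, rfl⟩ := e.surjective a
        obtain ⟨b, rfl⟩ := e.surjective b
        rw [← map_mul, ← map_mul, hcomm.is_comm.comm]
      revert k
      decide +kernel
  · intro h H hn hc
    obtain ⟨S⟩ : Nonempty (Sylow 2 H) := inferInstance
    haveI := hn S
    have hP : H10.IsSylowIn 2 (P : Subgroup G) ⊤ := ⟨le_top, P.2, fun Q hQ h1 _ => P.3 hQ h1⟩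
    have hd : GW.Dih (⊤ : Subgroup G) := GW.Q8.dih_of_sylow hP (by
      rcases h with h | ⟨⟨n, h1, ⟨e⟩⟩, -⟩
      · exact GW.Q8.cd_of_cyclic h
      · obtain ⟨k, a, b, hd, -⟩ := H6.dh_sub P.2 (m := 2 ^ n) (Nat.le_self_pow (by omega) 2) e
        exact GW.Q8.cd_of_dh hd)
    refine core (GW.Q8.dih_top (hd.mono le_top)) (fun K hK x hx => ?_) S (hc S)
    have hK' : IsKleinFour (K.map H.subtype) :=
      H6.isKleinFour_of_card (by rw [Subgroup.card_subtype, hK.card_four]) (by
        rintro _ ⟨y, hy, rfl⟩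
        exact congrArg Subtype.val (H6.kleinFour_mul_self hK hy))
    obtain ⟨g, hg⟩ := H6.exists_conj_le_sylow P (H6.kleinFour_isPGroup hK')
    have hK'' := H6.isKleinFour_map_conj hK' g
    have hle : (K.map H.subtype).map (MulAut.conj g).toMonoidHom ≤ P := by
      rintro _ ⟨y, hy, rfl⟩
      exact hg y hy
    rcases h with h | ⟨-, h⟩
    · exact absurd (Subgroup.isCyclic_of_le hle) hK''.not_isCyclic
    have h1 := h _ hle hK''.card_four fun k hk => by rw [pow_two]; exact H6.kleinFour_mul_self hK'' hk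
    have h2 : g * x * g⁻¹ ∈ (K.map H.subtype).map (MulAut.conj g).toMonoidHom := by
      rw [← h1]
      rintro _ ⟨_, ⟨y, hy, rfl⟩, rfl⟩
      have : (y : G) * x = x * y := congrArg Subtype.val (hx y hy)
      simp [mul_assoc, ← mul_assoc (y : G), this]
    rw [H6.conj_mem_map_conj] at h2
    obtain ⟨y, hy, e⟩ := h2
    exact (Subtype.ext e : y = x) ▸ hy

end Cfsg.Agent.S4083
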