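import Cfsg.Statements.S4085
import Cfsg.Agent.H8.Cyc

set_option autoImplicit false
open Cfsg

namespace Cfsg.Agent.S4085
open Subgroup

def A {G : Type*} [Group G] (x y : G) : Prop := x ∈ zpowers y ∨ y ∈ zpowers x

variable {G H : Type*} [Group G] [Finite G] [Group H] [Finite H]

omit [Finite G] in
theorem A_dvd {x y : G} (h : A x y) : orderOf x ∣ orderOf y ∨ orderOf y ∣ orderOf x :=
  h.imp orderOf_dvd_of_mem_zpowers orderOf_dvd_of_mem_zpowers

omit [Finite G] in
theorem A_gen {x x' : G} (h : zpowers x = zpowers x') (y : G) : A x y ↔ A x' y := by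
  unfold A; rw [← zpowers_le, h, zpowers_le]

theorem card_gen (g : G) : (orderOf g).totient ≤ Nat.card {x // zpowers x = zpowers g} := by
  rw [Nat.totient_eq_card_lt_and_coprime]
  refine Nat.card_le_card_of_injective (fun k => ⟨g ^ k.1, le_antisymm
    (zpowers_le.2 (npow_mem_zpowers _ _)) (zpowers_le.2 (mem_zpowers_pow_iff.2 k.2.2.symm))⟩) ?_
  intro a b h
  exact Subtype.ext (pow_injOn_Iio_orderOf a.2.1 b.2.1 (congrArg Subtype.val h))

theorem ex_ord (g : G) {d : ℕ} (hd : d ∣ orderOf g) : ∃ x ∈ zpowers g, orderOf x = d :=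
  ⟨_, npow_mem_zpowers _ _, orderOf_pow_orderOf_div (orderOf_pos g).ne' hd⟩

theorem eq_of_mem {x y : G} (h : x ∈ zpowers y) (h2 : orderOf y ≤ orderOf x) :
    zpowers x = zpowers y :=
  eq_of_le_of_card_ge (zpowers_le.2 h) (by rwa [Nat.card_zpowers, Nat.card_zpowers])

theorem colour {g : G} {p q : ℕ} (hp : p.Prime) (hq : q.Prime) (hpq : p ≠ q) (h1 : p ∣ orderOf g)
    (h2 : q ∣ orderOf g) (c : G → Prop)
    (hc : ∀ a ∈ zpowers g, ∀ b ∈ zpowers g, ¬ A a b → (c a ↔ c b)) {w : G} (hw : w ∈ zpowers g)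
    (ow : orderOf w = p) {a : G} (ha : a ∈ zpowers g) (ha1 : a ≠ 1) (hag : zpowers a ≠ zpowers g) :
    c a ↔ c w := by
  have nd : ∀ {a b : G}, (orderOf b).Prime → a ≠ 1 → ¬ orderOf b ∣ orderOf a → ¬ A a b :=
    fun hb h1 h hA => (A_dvd hA).elim (fun e => ((Nat.dvd_prime hb).1 e).elim
      (fun e => h1 (orderOf_eq_one_iff.1 e)) fun e => h (e ▸ dvd_rfl)) h
  have s0 : ∀ a ∈ zpowers g, a ≠ 1 → ¬ p ∣ orderOf a → (c a ↔ c w) := fun a ha h1 h =>
    hc a ha w hw (nd (ow ▸ hp) h1 (ow ▸ h))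
  have n1 : ∀ {a : G}, (orderOf a).Prime → a ≠ 1 := fun h e => by simp [e, Nat.not_prime_one] at h
  have s1 : ∀ a ∈ zpowers g, (orderOf a).Prime → (c a ↔ c w) := fun a ha h => by
    by_cases e : p ∣ orderOf a
    · obtain ⟨v, hv, ov⟩ := ex_ord g h2
      have e1 := (Nat.prime_dvd_prime_iff_eq hp h).1 e
      refine (hc a ha v hv (nd (ov ▸ hq) (n1 h) ?_)).trans (s0 v hv (n1 (ov ▸ hq)) ?_)
      · rw [ov, ← e1, Nat.prime_dvd_prime_iff_eq hq hp]; exact hpq.symm
      · rw [ov, Nat.prime_dvd_prime_iff_eq hp hq]; exact hpq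
    · exact s0 a ha (n1 h) e
  have s2 : ∀ a ∈ zpowers g, a ≠ 1 → ∀ r : ℕ, r.Prime → r ∣ orderOf g → ¬ r ∣ orderOf a →
      (c a ↔ c w) := fun a ha h1 r hr hrg h => by
    obtain ⟨v, hv, ov⟩ := ex_ord g hrg
    exact (hc a ha v hv (nd (ov ▸ hr) h1 (ov ▸ h))).trans (s1 v hv (ov ▸ hr))
  by_cases e1 : p ∣ orderOf a
  swap; · exact s0 a ha ha1 e1
  by_cases e2 : q ∣ orderOf a
  swap; · exact s2 a ha ha1 q hq h2 e2
  have h3 : ¬ orderOf g ∣ orderOf a := fun h => hag (eq_of_mem ha (Nat.le_of_dvd (orderOf_pos a) h))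
  rw [Nat.dvd_iff_prime_pow_dvd_dvd] at h3
  push Not at h3
  obtain ⟨r, k, hr, hk, hk'⟩ := h3
  obtain ⟨u, hu, ou⟩ := ex_ord g hk
  have h4 : ∀ s : ℕ, s.Prime → s ∣ orderOf u → s = r := fun s hs h =>
    (Nat.prime_dvd_prime_iff_eq hs hr).1 (hs.dvd_of_dvd_pow (ou ▸ h))
  have h5 : u ≠ 1 := fun e => hk' (by rw [← ou, e, orderOf_one]; exact one_dvd _)
  refine (hc a ha u hu fun hA => (A_dvd hA).elim (fun e => hpq ?_) fun e => hk' (ou ▸ e)).trans ?_
  · rw [h4 p hp (e1.trans e), h4 q hq (e2.trans e)]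
  · by_cases e : p ∣ orderOf u
    · exact s2 u hu h5 q hq h2 fun e' => hpq (by rw [h4 p hp e, h4 q hq e'])
    · exact s0 u hu h5 e

theorem twin {g w x : G} {p q : ℕ} (hp : p.Prime) (hq : q.Prime) (hpq : p ≠ q)
    (h : p * q ∣ orderOf g) (hw : w ∈ zpowers g) (ow : orderOf w = p) (hx : ∀ y, A x y ↔ A w y) :
    x ∈ zpowers w ∧ x ≠ 1 := by
  obtain ⟨v, hv, ov⟩ := ex_ord g h
  obtain ⟨u, hu, ou⟩ := ex_ord g ((Dvd.intro_left _ rfl).trans h)
  have pr : ∀ u : G, (orderOf u).Prime → A x u → orderOf u = p := fun u hu h =>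
    (A_dvd ((hx u).1 h)).elim (fun e => ((Nat.prime_dvd_prime_iff_eq hp hu).1 (ow ▸ e)).symm)
      fun e => (Nat.prime_dvd_prime_iff_eq hu hp).1 (ow ▸ e)
  refine ⟨?_, fun e => hpq ?_⟩
  · rcases (hx w).2 (Or.inl (mem_zpowers w)) with h1 | h1
    · exact h1
    have h2 : ¬ q ∣ orderOf x := fun e => by
      obtain ⟨t, ht, ot⟩ := ex_ord x e
      exact hpq (by rw [← pr t (ot ▸ hq) (Or.inr ht), ot])
    have h3 : A w v := Or.inl (H8.mem_zpowers_of_isCyclic inferInstance hv hw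
      (by rw [ow, ov]; exact Dvd.intro _ rfl))
    rcases A_dvd ((hx v).2 h3) with h4 | h4
    · rw [ov] at h4
      have h5 : orderOf x ∣ p := Nat.Coprime.dvd_of_dvd_mul_right
        ((Nat.Prime.coprime_iff_not_dvd hq).2 h2).symm h4
      rw [eq_of_mem h1 (ow ▸ Nat.le_of_dvd hp.pos h5)]; exact mem_zpowers x
    · exact (h2 ((Dvd.intro_left _ ov.symm).trans h4)).elim
  · rw [← pr u (ou ▸ hq) (Or.inl (e ▸ one_mem _)), ou]

omit [Finite G] in
theorem ni {x : G} (h : 2 < orderOf x) : x ≠ x⁻¹ := fun e => by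
  have := Nat.le_of_dvd two_pos (orderOf_dvd_of_pow_eq_one (x := x) (n := 2)
    (by rw [sq, ← eq_inv_iff_mul_eq_one]; exact e))
  omega

theorem main (e : G ≃ H) (he : ∀ x y : G, A x y ↔ A (e x) (e y)) {p q : ℕ} (hp : p.Prime)
    (hq : q.Prime) (hpq : p < q) {g0 : G} (h0 : orderOf g0 = p * q) :
    ∃ h : H, orderOf h = p * q := by
  have : Nonempty {g : G // p * q ∣ orderOf g} := ⟨⟨g0, h0 ▸ dvd_rfl⟩⟩
  obtain ⟨⟨g, hg⟩, hmax⟩ := Finite.exists_max fun x : {g : G // p * q ∣ orderOf g} => orderOf x.1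
  have hN : ∀ x, A g x ↔ x ∈ zpowers g := fun x => ⟨fun h => h.elim (fun h => by
    rw [eq_of_mem h (hmax ⟨x, hg.trans (orderOf_dvd_of_mem_zpowers h)⟩)]; exact mem_zpowers x) id,
    Or.inr⟩
  have : Nonempty {x : G // zpowers x = zpowers g} := ⟨⟨g, rfl⟩⟩
  obtain ⟨⟨y0, hy0⟩, ymax⟩ := Finite.exists_max
    fun x : {x : G // zpowers x = zpowers g} => orderOf (e x.1)
  obtain ⟨y, hy⟩ : ∃ y, y = e y0 := ⟨_, rfl⟩
  simp only [← hy] at ymax
  have hY : ∀ a, A y (e a) ↔ a ∈ zpowers g := fun a => by rw [hy, ← he, A_gen hy0, hN]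
  by_cases hU : ∀ z, y ∈ zpowers z → z ∈ zpowers y
  · have : orderOf y = orderOf g := by
      rw [← Nat.card_zpowers, ← Nat.card_zpowers]
      refine (Nat.card_congr (e.subtypeEquiv fun a => ?_)).symm
      rw [← hY]; exact ⟨fun h => h.elim (hU _) id, Or.inr⟩
    obtain ⟨x, -, hx⟩ := ex_ord y (this ▸ hg)
    exact ⟨x, hx⟩
  exfalso
  push Not at hU
  obtain ⟨z, hz1, hz2⟩ := hU
  have h2 := hp.two_le
  have hn : 2 < orderOf g := lt_of_lt_of_le (by nlinarith) (Nat.le_of_dvd (orderOf_pos g) hg)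
  have hy1 : 1 < orderOf y := by
    by_contra h
    have o1 : ∀ a, zpowers a = zpowers g → e a = 1 := fun a ha => orderOf_eq_one_iff.1 (by
      have := ymax ⟨a, ha⟩; have := orderOf_pos (e a); dsimp only at *; omega)
    exact ni hn (e.injective ((o1 g rfl).trans (o1 g⁻¹ (zpowers_inv)).symm))
  have lt : ∀ z, y ∈ zpowers z → z ∉ zpowers y → orderOf y < orderOf z := fun z h1 h2 =>
    lt_of_not_ge fun h => h2 (by rw [eq_of_mem h1 h]; exact mem_zpowers z)
  obtain ⟨w, hw, ow⟩ := ex_ord g ((Dvd.intro _ rfl).trans hg)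
  have col := fun a => colour (g := g) hp hq hpq.ne ((Dvd.intro _ rfl).trans hg)
    ((Dvd.intro_left _ rfl).trans hg) (fun a => e a ∈ zpowers y) (fun a ha b hb hA => by
      have k : ∀ a b, b ∈ zpowers g → e a ∈ zpowers y → e b ∈ zpowers y ∨ A a b := fun a b hb h =>
        ((hY b).2 hb).symm.imp id fun h' => (he a b).2 (Or.inl (zpowers_le.2 h' h))
      exact ⟨fun h => (k a b hb h).resolve_right hA,
        fun h => (k b a ha h).resolve_right fun h => hA h.symm⟩) hw ow (a := a)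
  by_cases cw : e w ∈ zpowers y
  · have k : ∀ z, y ∈ zpowers z → z ∉ zpowers y → z = e 1 := fun z h1 h2 => by
      obtain ⟨a, rfl⟩ := e.surjective z
      by_contra h
      by_cases h3 : zpowers a = zpowers g
      · exact absurd (lt _ h1 h2) (not_lt.2 (ymax ⟨a, h3⟩))
      · exact h2 ((col a ((hY a).1 (Or.inl h1)) (fun e' => h (by rw [e'])) h3).2 cw)
    have := lt z hz1 hz2
    exact ni (by omega) ((k z hz1 hz2).trans (k z⁻¹ (by rwa [zpowers_inv]) (by rwa [inv_mem_iff])).symm)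
  have hw1 : y ∈ zpowers (e w) := ((hY w).2 hw).resolve_right cw
  have cl : ∀ s ∈ zpowers y, ∀ t ∈ zpowers y, A s t := fun s hs t ht => by
    obtain ⟨a, rfl⟩ := e.surjective s
    obtain ⟨b, rfl⟩ := e.surjective t
    rw [← he]
    by_cases h1 : a = 1
    · exact Or.inl (h1 ▸ one_mem _)
    by_cases h3 : zpowers a = zpowers g
    · exact Or.inr (h3 ▸ (hY b).1 (Or.inr ht))
    · exact (cw ((col a ((hY a).1 (Or.inr hs)) h1 h3).1 hs)).elim
  obtain ⟨r, hr, hry⟩ := Nat.exists_prime_and_dvd hy1.ne'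
  have pw : orderOf y = r ^ _ := Nat.eq_prime_pow_of_unique_prime_dvd (orderOf_pos y).ne'
    fun {d} hd hdy => by
      obtain ⟨s, hs, os⟩ := ex_ord y hdy
      obtain ⟨t, ht, ot⟩ := ex_ord y hry
      have := A_dvd (cl s hs t ht)
      rw [os, ot, Nat.prime_dvd_prime_iff_eq hd hr, Nat.prime_dvd_prime_iff_eq hr hd] at this
      exact this.elim id Eq.symm
  have i1 : orderOf y ≤ 2 * (orderOf y).totient := by
    generalize (orderOf y).primeFactorsList.length = k at pw
    obtain _ | k := k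
    · rw [pow_zero] at pw; omega
    have := hr.two_le
    rw [pw, Nat.totient_prime_pow_succ hr, pow_succ, mul_left_comm]
    exact Nat.mul_le_mul_left _ (by omega)
  have i2 : (orderOf y).totient ≤ (orderOf (e w)).totient := Nat.le_of_dvd
    (Nat.totient_pos.2 (orderOf_pos _)) (Nat.totient_dvd_of_dvd (orderOf_dvd_of_mem_zpowers hw1))
  have i3 : (orderOf g).totient ≤ orderOf y := by
    refine (card_gen g).trans ?_
    rw [← Nat.card_zpowers]
    refine Nat.card_le_card_of_injective (fun a => ⟨e a.1, by_contra fun h => ?_⟩) fun a b h =>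
      Subtype.ext (e.injective (congrArg Subtype.val h))
    exact absurd (lt _ (((hY a.1).2 (a.2.le (mem_zpowers a.1))).resolve_right h) h) (not_lt.2 (ymax a))
  have i4 : (p - 1) * (q - 1) ≤ (orderOf g).totient := by
    rw [← Nat.totient_prime hp, ← Nat.totient_prime hq, ← Nat.totient_mul
      ((Nat.coprime_primes hp hq).2 hpq.ne)]
    exact Nat.le_of_dvd (Nat.totient_pos.2 (orderOf_pos _)) (Nat.totient_dvd_of_dvd hg)
  have i5 : (orderOf (e w)).totient ≤ p - 1 := by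
    classical
    refine (card_gen _).trans ?_
    have k : ∀ t : {x // zpowers x = zpowers (e w)}, e.symm t.1 ∈ zpowers w ∧ e.symm t.1 ≠ 1 :=
      fun t => twin hp hq hpq.ne hg hw ow fun b => by rw [he, he, e.apply_symm_apply, A_gen t.2]
    have : Nat.card {x : zpowers w // ¬ x = 1} = p - 1 := by
      have := Fintype.ofFinite (zpowers w)
      rw [Nat.card_eq_fintype_card, Fintype.card_subtype_compl, Fintype.card_subtype_eq,
        ← Nat.card_eq_fintype_card, Nat.card_zpowers, ow]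
    rw [← this]
    exact Nat.card_le_card_of_injective (fun t => ⟨⟨_, (k t).1⟩, fun h => (k t).2 (congrArg Subtype.val h)⟩)
      fun a b h => Subtype.ext (e.symm.injective (congrArg (fun x => x.1.1) h))
  have i6 : q - 1 ≤ 2 := Nat.le_of_mul_le_mul_left (show (p - 1) * (q - 1) ≤ (p - 1) * 2 by omega) (by omega)
  have i7 := lt _ hw1 cw
  have i8 := Nat.totient_even (n := orderOf (e w)) (by omega)
  have i9 := Nat.totient_pos.2 (orderOf_pos (e w))
  obtain ⟨j, hj⟩ := i8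
  omega

/-- Let G and H be finite groups whose power graphs are isomorphic: there is a bijection e : G → H such that, for all x, y, one of x, y is a power of the other exactly when one of e(x), e(y) is a power of the other. Then G and H have the same prime graph: for distinct primes p, q, G has an element of order pq if and only if H does. -/
theorem result {G H : Type*} [Group G] [Finite G] [Group H] [Finite H] (e : G ≃ H)
    (he : ∀ x y : G, (x ∈ Subgroup.zpowers y ∨ y ∈ Subgroup.zpowers x) ↔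
      (e x ∈ Subgroup.zpowers (e y) ∨ e y ∈ Subgroup.zpowers (e x)))
    {p q : ℕ} (hp : p.Prime) (hq : q.Prime) (hpq : p ≠ q) :
    (∃ g : G, orderOf g = p * q) ↔ (∃ h : H, orderOf h = p * q) := by
  have s : ∀ x y : H, A x y ↔ A (e.symm x) (e.symm y) := fun x y => by
    have := he (e.symm x) (e.symm y)
    rw [e.apply_symm_apply, e.apply_symm_apply] at this
    exact this.symm
  rcases lt_or_gt_of_ne hpq with h | h
  · exact ⟨fun ⟨_, h0⟩ => main e he hp hq h h0, fun ⟨_, h0⟩ => main e.symm s hp hq h h0⟩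
  · rw [mul_comm]
    exact ⟨fun ⟨_, h0⟩ => main e he hq hp h h0, fun ⟨_, h0⟩ => main e.symm s hq hp h h0⟩

end Cfsg.Agent.S4085
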