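import Mathlib
import Cfsg.Statements.S4086
import Cfsg.Agent.H8.Elt
import Cfsg.Agent.H8.Cyc

set_option autoImplicit false
open Cfsg

namespace Cfsg.Agent.S4086

open Subgroup in

theorem result {G : Type*} [Group G] [Finite G] :
    (∀ g : G, g ≠ 1 → IsPrimePow (orderOf g)) ↔
    (∀ x y : G, IsCyclic ↥(Subgroup.closure ({x, y} : Set G)) → (x ∈ Subgroup.zpowers y ∨ y ∈ Subgroup.zpowers x)) := by
  constructor
  · intro h x y hc
    have hx : x ∈ closure ({x, y} : Set G) := subset_closure (by simp)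
    have hy : y ∈ closure ({x, y} : Set G) := subset_closure (by simp)
    obtain ⟨z, hz⟩ := H8.exists_zpowers_eq_of_isCyclic hc
    by_cases hz1 : z = 1
    · left
      rw [← hz, hz1, zpowers_one_eq_bot, mem_bot] at hx
      rw [hx]; exact one_mem _
    obtain ⟨p, k, hp, -, hk⟩ := (isPrimePow_nat_iff _).1 (h z hz1)
    obtain ⟨i, -, hi⟩ := (Nat.dvd_prime_pow hp).1 (hk ▸ orderOf_dvd_of_mem_zpowers (hz ▸ hx))
    obtain ⟨j, -, hj⟩ := (Nat.dvd_prime_pow hp).1 (hk ▸ orderOf_dvd_of_mem_zpowers (hz ▸ hy))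
    rcases le_total i j with hij | hij
    · exact Or.inl (H8.mem_zpowers_of_isCyclic hc hy hx (hi ▸ hj ▸ pow_dvd_pow _ hij))
    · exact Or.inr (H8.mem_zpowers_of_isCyclic hc hx hy (hi ▸ hj ▸ pow_dvd_pow _ hij))
  · intro h g hg
    have h1 : orderOf g ≠ 1 := by rwa [Ne, orderOf_eq_one_iff]
    rw [isPrimePow_iff_unique_prime_dvd]
    obtain ⟨p, hp, hd⟩ := Nat.exists_prime_and_dvd h1
    refine ⟨p, ⟨hp, hd⟩, fun q ⟨hq, hd'⟩ => ?_⟩
    have e1 := orderOf_pow_orderOf_div (orderOf_pos g).ne' hd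
    have e2 := orderOf_pow_orderOf_div (orderOf_pos g).ne' hd'
    have hc : IsCyclic (closure ({g ^ (orderOf g / p), g ^ (orderOf g / q)} : Set G)) :=
      isCyclic_of_le (H' := zpowers g) (by
        rw [closure_le]
        rintro _ (rfl | rfl) <;> exact pow_mem (mem_zpowers g) _)
    rcases h _ _ hc with h2 | h2
    · have := orderOf_dvd_of_mem_zpowers h2
      rw [e1, e2] at this
      exact ((Nat.prime_dvd_prime_iff_eq hp hq).1 this).symm
    · have := orderOf_dvd_of_mem_zpowers h2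
      rw [e1, e2] at this
      exact (Nat.prime_dvd_prime_iff_eq hq hp).1 this

end Cfsg.Agent.S4086
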