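import Cfsg.Statements.S4089
import Cfsg.Agent.H1.Cas1

set_option autoImplicit false
open Cfsg

namespace Cfsg.Agent.S4089

open H1.Cas H10

/-- Let G be a finite group, p a prime and H a p-subgroup of G. Then the set of elements g of G such that H is subnormal in the subgroup generated by H and g is the union of the normalizers N_G(R) over the subgroups R of G containing H with R = O_p(N_G(R)); and this set does not change when H is replaced by the intersection of all Sylow p-subgroups of G containing H. -/
theorem result {G : Type*} [Group G] [Finite G] (p : ℕ) [Fact p.Prime]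
    (H : Subgroup G) (hH : IsPGroup p H) :
    {g : G | ((H).subgroupOf (H ⊔ Subgroup.zpowers g)).IsSubnormal} =
      {g : G | ∃ R : Subgroup G, H ≤ R ∧ (Cfsg.pCore p (Subgroup.normalizer (R : Set G))).map (Subgroup.normalizer (R : Set G)).subtype = R ∧ g ∈ Subgroup.normalizer (R : Set G)} ∧
    ∀ g : G, (((H).subgroupOf (H ⊔ Subgroup.zpowers g)).IsSubnormal ↔
      (((sInf {K : Subgroup G | ∃ Q : Sylow p G, H ≤ (Q : Subgroup G) ∧ K = (Q : Subgroup G)})).subgroupOf ((sInf {K : Subgroup G | ∃ Q : Sylow p G, H ≤ (Q : Subgroup G) ∧ K = (Q : Subgroup G)}) ⊔ Subgroup.zpowers g)).IsSubnormal) := by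
  refine ⟨Set.ext fun g => ?_, fun g => ?_⟩
  · simp only [Set.mem_setOf_eq, sn_iff hH]
    exact ⟨fun h => h.rad, fun ⟨R, h1, h2, h3⟩ => ⟨R, h1, le_top, h2 ▸ isPGroup_pCoreOf _, h3⟩⟩
  · exact (sn_iff hH g).trans ((sn_star g).trans (sn_iff (pg_star hH) g).symm)

end Cfsg.Agent.S4089
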