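import Cfsg.Statements.S4090
import Cfsg.Agent.H1.Cas2

set_option autoImplicit false
open scoped BigOperators
open Cfsg

namespace Cfsg.Agent.S4090

open H1.Cas H10

/-- Let G be a finite p-solvable group, H a p-subgroup of G and P a Sylow p-subgroup, and fix a chain of normal subgroups 1 = M₀ ≤ M₁ ≤ ⋯ ≤ Mₙ = G of G each of whose factors is a p-group or a p'-group. Then the number of elements g of G such that H is subnormal in the subgroup generated by H and g equals the order of P times the product, over the factors Mᵢ₊₁/Mᵢ of order prime to p, of the order of the centralizer of H in Mᵢ₊₁/Mᵢ (counted as the number of u ∈ Mᵢ₊₁ with [h, u] ∈ Mᵢ for all h ∈ H, divided by the order of Mᵢ). -/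
theorem result {G : Type*} [Group G] [Finite G] (p : ℕ) [Fact p.Prime]
    (hG : Cfsg.IsPSolvable p G) (H : Subgroup G) (hH : IsPGroup p H) (P : Sylow p G)
    (n : ℕ) (M : Fin (n + 1) → Subgroup G) (h0 : M 0 = ⊥) (hn : M (Fin.last n) = ⊤) (hmono : Monotone M)
    (hnormal : ∀ i, (M i).Normal)
    (hfac : ∀ i : Fin n, (∃ m : ℕ, (M i.castSucc).relIndex (M i.succ) = p ^ m) ∨ ((M i.castSucc).relIndex (M i.succ)).Coprime p) :
    Nat.card {g : G // ((H).subgroupOf (H ⊔ Subgroup.zpowers g)).IsSubnormal} =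
      Nat.card (P : Subgroup G) *
        ∏ i : Fin n, (if ((M i.castSucc).relIndex (M i.succ)).Coprime p then
          Nat.card {u : G // u ∈ M i.succ ∧ ∀ h ∈ H, h * u * h⁻¹ * u⁻¹ ∈ M i.castSucc} / Nat.card (M i.castSucc)
          else 1) := by
  have hP := isSylowIn_top P
  rw [card_sn hH P, card_le_cj]
  have key := telescope n
    (fun j => (bb (P ⊔ M j) H : ℚ) / Nat.card ((P : Subgroup G) ⊔ M j : Subgroup G))
    (fun i => ((if ((M i.castSucc).relIndex (M i.succ)).Coprime p then
          Nat.card {u : G // u ∈ M i.succ ∧ ∀ h ∈ H, h * u * h⁻¹ * u⁻¹ ∈ M i.castSucc} / Nat.card (M i.castSucc)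
          else 1 : ℕ) : ℚ)) (fun j => by
      have hle : M j.castSucc ≤ M j.succ := hmono (Fin.castSucc_le_succ j)
      haveI := hnormal j.castSucc
      haveI := hnormal j.succ
      split_ifs with hc
      · have h1 := bb_step hP hle hc hH
        have h2 := card_sup_step P.isPGroup' hle hc
        obtain ⟨c, hc'⟩ := Subgroup.card_dvd_of_le (le_cm hle H)
        have e : Nat.card {u : G // u ∈ M j.succ ∧ ∀ h ∈ H, h * u * h⁻¹ * u⁻¹ ∈ M j.castSucc} =
          Nat.card (M j.castSucc) * c := hc'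
        rw [e, Nat.mul_div_cancel_left _ Nat.card_pos]
        rw [hc'] at h1
        have p1 : (Nat.card ((P : Subgroup G) ⊔ M j.succ : Subgroup G) : ℚ) ≠ 0 :=
          Nat.cast_ne_zero.2 Nat.card_pos.ne'
        have p2 : (Nat.card ((P : Subgroup G) ⊔ M j.castSucc : Subgroup G) : ℚ) ≠ 0 :=
          Nat.cast_ne_zero.2 Nat.card_pos.ne'
        have p3 : (Nat.card (M j.succ) : ℚ) ≠ 0 := Nat.cast_ne_zero.2 Nat.card_pos.ne'
        have h1' := congrArg (Nat.cast : ℕ → ℚ) h1
        have h2' := congrArg (Nat.cast : ℕ → ℚ) h2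
        push_cast at h1' h2'
        field_simp
        apply mul_right_cancel₀ p3
        linear_combination (Nat.card ((P : Subgroup G) ⊔ M j.succ : Subgroup G) : ℚ) * h1' +
          (bb (P ⊔ M j.succ) H : ℚ) * c * h2'
      · obtain ⟨m, hm⟩ := (hfac j).resolve_right hc
        simp only [sup_eq_of_pow hP hle hm, Nat.cast_one, mul_one])
  simp only [h0, hn, sup_bot_eq, sup_top_eq, bb_top, Subgroup.card_top] at key
  have p1 : (Nat.card G : ℚ) ≠ 0 := Nat.cast_ne_zero.2 Nat.card_pos.ne'
  have p2 : (Nat.card (P : Subgroup G) : ℚ) ≠ 0 := Nat.cast_ne_zero.2 Nat.card_pos.ne'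
  rw [div_self p1, one_mul, div_eq_iff p2, mul_comm, ← Nat.cast_prod, ← Nat.cast_mul] at key
  exact_mod_cast key

end Cfsg.Agent.S4090
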