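import Cfsg.Statements.S4091
import Cfsg.Agent.H1.Cas3

set_option autoImplicit false
open Cfsg

namespace Cfsg.Agent.S4091

open H1.Cas H10 Finset Subgroup

theorem num {ι : Type*} [Fintype ι] (b : ι → ℕ) (hb0 : ∀ x, 0 < b x) {m n N u p : ℕ} (hp : p ≠ 0)
    (hc : Nat.card ι = m) (hm : 0 < m) (hn : 0 < n) (hN : 0 < N)
    (h1 : (∏ x, b x) ^ p ≤ (n * N) ^ m * N ^ ((p - 1) * m))
    (h2 : ((n * N : ℕ) : ℝ) * ∑ x, (b x : ℝ)⁻¹ ≤ u) : m ^ p * n ^ (p - 1) ≤ u ^ p := by
  have hm' : (0 : ℝ) < m := by exact_mod_cast hm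
  have h3 := Real.geom_mean_le_arith_mean_weighted univ (fun _ : ι => (m : ℝ)⁻¹)
    (fun x => (b x : ℝ)⁻¹) (fun _ _ => by positivity)
    (by rw [sum_const, card_univ, ← Nat.card_eq_fintype_card, nsmul_eq_mul, hc]; field_simp)
    (fun _ _ => by positivity)
  rw [Real.finset_prod_rpow _ _ (fun _ _ => by positivity), ← mul_sum, prod_inv_distrib,
    ← Nat.cast_prod] at h3
  have hB : (0 : ℝ) < (∏ x, b x : ℕ) := by exact_mod_cast prod_pos fun x _ => hb0 x
  have hS : 0 ≤ ∑ x, (b x : ℝ)⁻¹ := sum_nonneg fun _ _ => by positivity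
  generalize ∏ x, b x = B at *
  generalize ∑ x, (b x : ℝ)⁻¹ = S at *
  have h4 : (m : ℝ) ^ m ≤ B * S ^ m := by
    have := pow_le_pow_left₀ (by positivity) h3 m
    rw [← Real.rpow_natCast, ← Real.rpow_mul (by positivity), inv_mul_cancel₀ hm'.ne',
      Real.rpow_one, mul_pow, inv_pow, inv_le_iff_one_le_mul₀ hB] at this
    have h5 := mul_le_mul_of_nonneg_left this (pow_pos hm' m).le
    rw [mul_one] at h5
    refine h5.trans (le_of_eq ?_)
    field_simp
  have hN : (0 : ℝ) < N := by exact_mod_cast hN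
  have hn : (0 : ℝ) < n := by exact_mod_cast hn
  have h1' : (B : ℝ) ^ p ≤ (n * N) ^ m * N ^ ((p - 1) * m) := by exact_mod_cast h1
  push_cast at h2
  obtain ⟨q, rfl⟩ := Nat.exists_eq_succ_of_ne_zero hp
  simp only [Nat.succ_sub_one, Nat.succ_eq_add_one] at *
  refine (Nat.pow_le_pow_iff_left hm.ne').1 ?_
  have h6 : ((m : ℝ) ^ (q + 1) * n ^ q) ^ m ≤ ((u : ℝ) ^ (q + 1)) ^ m := by
    have a1 := pow_le_pow_left₀ (by positivity) h4 (q + 1)
    have a2 := pow_le_pow_left₀ (by positivity) h2 ((q + 1) * m)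
    rw [mul_pow (B : ℝ)] at a1
    have a3 := a1.trans (mul_le_mul_of_nonneg_right h1' (by positivity))
    calc ((m : ℝ) ^ (q + 1) * n ^ q) ^ m = ((m : ℝ) ^ m) ^ (q + 1) * n ^ (q * m) := by ring
      _ ≤ (n * N) ^ m * N ^ (q * m) * (S ^ m) ^ (q + 1) * n ^ (q * m) :=
        mul_le_mul_of_nonneg_right a3 (by positivity)
      _ = (n * N * S) ^ ((q + 1) * m) := by ring
      _ ≤ _ := by rw [← pow_mul]; exact a2
  exact_mod_cast h6

/-- Let G be a finite p-solvable group, P a Sylow p-subgroup of G, u the number of p-elements of G (elements of p-power order, the identity included) and n the number of Sylow p-subgroups of G. Then u/#P ≥ n^((p−1)/p), stated as u^p ≥ #P^p · n^(p−1). -/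
theorem result {G : Type*} [Group G] [Finite G] (p : ℕ) [Fact p.Prime]
    (hG : Cfsg.IsPSolvable p G) (P : Sylow p G) :
    Nat.card (P : Subgroup G) ^ p * Nat.card (Sylow p G) ^ (p - 1) ≤ Nat.card {g : G // ∃ k : ℕ, orderOf g = p ^ k} ^ p := by
  classical
  haveI := Fintype.ofFinite G
  have hP := isSylowIn_top P
  have h1 := bb_ineq hG hP
  set u := Nat.card {g : G // ∃ k : ℕ, orderOf g = p ^ k}
  set N := Nat.card NN((P : Subgroup G))
  set n := Nat.card (Sylow p G)
  set m := Nat.card (P : Subgroup G)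
  have hG' : Nat.card G = n * N := by
    rw [show n = _ from P.card_eq_index_normalizer]; exact (index_mul_card _).symm
  let b : G → ℕ := fun x => #{g : G | g * x * g⁻¹ ∈ (P : Subgroup G)}
  have hb : ∀ x, bb P (zpowers x) = b x := fun x => by
    rw [bb, Nat.card_eq_fintype_card, Fintype.card_subtype]
    simp only [cj_zpowers, zpowers_le, b]
  have hb2 : ∀ g x, b (g⁻¹ * x * g) = b x := fun g x => by
    refine card_bij (fun y _ => y * g⁻¹) ?_ ?_ ?_
    · intro y hy
      simp only [mem_filter, mem_univ, true_and] at hy ⊢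
      convert hy using 1; group
    · intro a _ c _ e; exact mul_right_cancel e
    · intro y hy
      simp only [mem_filter, mem_univ, true_and] at hy ⊢
      exact ⟨y * g, by convert hy using 1; group, by group⟩
  have hb0 : ∀ x : (P : Subgroup G), 0 < b x := fun x =>
    card_pos.2 ⟨1, by simp only [mem_filter, mem_univ, true_and]; simp⟩
  have h2 : (Nat.card G : ℝ) * ∑ x : (P : Subgroup G), (b x : ℝ)⁻¹ ≤ u := by
    have e1 : ∀ g : G, ∑ x : (P : Subgroup G), (b x : ℝ)⁻¹ =
        ∑ y : G with g * y * g⁻¹ ∈ (P : Subgroup G), (b y : ℝ)⁻¹ := fun g => by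
      refine sum_bij (fun x _ => g⁻¹ * x * g) ?_ ?_ ?_ ?_
      · intro x _
        simp only [mem_filter, mem_univ, true_and]
        convert x.2 using 1; group
      · intro a _ c _ e; exact Subtype.ext (by simpa using e)
      · intro y hy
        exact ⟨⟨_, (mem_filter.1 hy).2⟩, mem_univ _, by group⟩
      · intro x _; rw [hb2]
    rw [Nat.card_eq_fintype_card, ← card_univ, ← nsmul_eq_mul, ← sum_const,
      sum_congr rfl fun g _ => e1 g,
      sum_comm' (t' := univ) (s' := fun y => univ.filter fun g : G => g * y * g⁻¹ ∈ (P : Subgroup G))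
        (by simp)]
    simp only [sum_const, nsmul_eq_mul]
    rw [show u = _ from Nat.card_eq_fintype_card, Fintype.card_subtype, card_eq_sum_ones,
      Nat.cast_sum, sum_filter]
    refine sum_le_sum fun y _ => ?_
    split_ifs with h
    · rw [Nat.cast_one]; exact mul_inv_le_one
    · have : b y = 0 := by
        rw [card_eq_zero, filter_eq_empty_iff]
        intro g _ hg
        obtain ⟨k, hk⟩ := orderOf_eq_pow_of_mem P.isPGroup' hg
        exact h ⟨k, by rw [← hk]; exact (MulAut.conj g).orderOf_eq y |>.symm⟩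
      show (b y : ℝ) * _ ≤ 0
      rw [this]; simp
  simp only [hb] at h1
  rw [hG'] at h1 h2
  exact num (fun x : (P : Subgroup G) => b x) hb0 (Fact.out : p.Prime).ne_zero rfl Nat.card_pos
    Nat.card_pos Nat.card_pos h1 h2

end Cfsg.Agent.S4091
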