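import Mathlib
import Cfsg.Statements.S4092
import Cfsg.Agent.H8.Elt
import Cfsg.Agent.H7.Basic
import Cfsg.Agent.H1.Coprime2

set_option autoImplicit false
open Cfsg

namespace Cfsg.Agent.S4092

theorem bonf {ι α : Type*} [DecidableEq ι] [DecidableEq α] (S : ι → Finset α) (n d : ℕ)
    (s : Finset ι) (h1 : ∀ i ∈ s, (S i).card = n)
    (h2 : ∀ i ∈ s, ∀ j ∈ s, i ≠ j → (S i ∩ S j).card ≤ d) :
    2 * s.card * n + d * s.card ≤ 2 * (s.biUnion S).card + d * s.card * s.card := by
  induction s using Finset.induction_on with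
  | empty => simp
  | insert a s ha ih =>
    have ih := ih (fun i hi => h1 i (by simp [hi])) (fun i hi j hj => h2 i (by simp [hi]) j (by simp [hj]))
    rw [Finset.biUnion_insert, Finset.card_insert_of_notMem ha]
    have h3 := Finset.card_union_add_card_inter (S a) (s.biUnion S)
    have h4 : (S a ∩ s.biUnion S).card ≤ s.card * d := by
      rw [Finset.inter_biUnion]
      exact Finset.card_biUnion_le_card_mul _ _ _ fun i hi =>
        h2 a (by simp) i (by simp [hi]) (fun h => ha (h ▸ hi))
    rw [h1 a (by simp)] at h3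
    nlinarith

open Subgroup in
open scoped Pointwise in

theorem result {G : Type*} [Group G] [Finite G] (p : ℕ) [Fact p.Prime]
    (P : Sylow p G) (hP : ¬ (P : Subgroup G).Normal) :
    p * Nat.card (P : Subgroup G) ≤ Nat.card {g : G // ∃ k : ℕ, orderOf g = p ^ k} := by
  classical
  have hp : p.Prime := Fact.out
  have := Fintype.ofFinite G
  have hcard : ∀ Q : Sylow p G, Nat.card (Q : Subgroup G) = Nat.card (P : Subgroup G) := fun Q => by
    rw [Q.card_eq_multiplicity, P.card_eq_multiplicity]
  -- a pair with maximal intersection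
  have hne : ∃ Q : Sylow p G, Q ≠ P := by
    by_contra h
    push Not at h
    apply hP
    rw [← normalizer_eq_top_iff, eq_top_iff]
    exact fun g _ => (H8.smul_sylow_eq_iff P).1 (h _)
  obtain ⟨⟨A, B⟩, hAB, hmax⟩ := Set.exists_max_image {x : Sylow p G × Sylow p G | x.1 ≠ x.2}
    (fun x => Nat.card ((x.1 : Subgroup G) ⊓ x.2 : Subgroup G)) (Set.toFinite _)
    (by obtain ⟨Q, hQ⟩ := hne; exact ⟨(Q, P), hQ⟩)
  simp only [Set.mem_setOf_eq] at hAB hmax
  set D := (A : Subgroup G) ⊓ B with hD
  set d := Nat.card D with hd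
  set m := D.relIndex A with hm
  have hn : d * m = Nat.card (P : Subgroup G) := by
    rw [← hcard A]; exact H7.card_mul_relIndex inf_le_left
  let T : Finset (Sylow p G) := insert A (MulAction.orbit (A : Subgroup G) B).toFinset
  have hA : A ∉ (MulAction.orbit (A : Subgroup G) B).toFinset := by
    rw [Set.mem_toFinset]
    rintro ⟨x, hx⟩
    have h1 : (x : G) • B = A := hx
    rw [smul_eq_iff_eq_inv_smul, (H8.smul_sylow_eq_iff A).2 (le_normalizer (inv_mem x.2))] at h1
    exact hAB h1.symm
  have hT : T.card = m + 1 := by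
    rw [Finset.card_insert_of_notMem hA, ← Set.ncard_eq_toFinset_card', ← MulAction.index_stabilizer,
      hm, hD, ← A.2.inf_normalizer_sylow B, inf_relIndex_left]
    congr 2
    ext x
    exact H8.smul_sylow_eq_iff B
  let S : Sylow p G → Finset G := fun Q => Finset.univ.filter (· ∈ (Q : Subgroup G))
  have hS : ∀ K : Subgroup G, (Finset.univ.filter (· ∈ K)).card = Nat.card K := fun K => by
    rw [Nat.card_eq_fintype_card, Fintype.card_subtype]
  have hX : Nat.card {g : G // ∃ k : ℕ, orderOf g = p ^ k} =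
      (Finset.univ.filter fun g : G => ∃ k : ℕ, orderOf g = p ^ k).card := by
    rw [Nat.card_eq_fintype_card, Fintype.card_subtype]
  have hsub : T.biUnion S ⊆ Finset.univ.filter fun g : G => ∃ k : ℕ, orderOf g = p ^ k := by
    intro g hg
    simp only [Finset.mem_biUnion, S, Finset.mem_filter, Finset.mem_univ, true_and] at hg ⊢
    obtain ⟨Q, -, hQ⟩ := hg
    exact H8.exists_orderOf_eq_of_mem Q.2 hQ
  have hle := Finset.card_le_card hsub
  have hinter : ∀ i j : Sylow p G, i ≠ j → (S i ∩ S j).card ≤ d := by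
    intro i j hij
    refine le_trans (le_of_eq ?_) (hmax (i, j) hij)
    rw [← hS]
    congr 1; ext x; simp [S]
  rw [hX, ← hn]
  obtain ⟨k, hk⟩ := A.2.index (D.subgroupOf A)
  change m = _ at hk
  have hk0 : k ≠ 0 := by
    rintro rfl
    rw [pow_zero, hm, relIndex_eq_one] at hk
    exact hAB (Sylow.ext (A.3 B.2 (hk.trans inf_le_right)).symm)
  have hd0 : 0 < d := Nat.card_pos
  by_cases hk1 : k = 1
  · rw [hk1, pow_one] at hk
    have h1 : (A : Subgroup G) ≤ normalizer (D : Set G) :=
      H1.le_normalizer_of_relIndex_prime A.2.isNilpotent inf_le_left (hm ▸ hk ▸ hp)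
    have h2 : ∀ Q ∈ T, D ≤ Q := by
      intro Q hQ
      rcases Finset.mem_insert.1 hQ with rfl | hQ
      · exact inf_le_left
      · rw [Set.mem_toFinset] at hQ
        obtain ⟨x, rfl⟩ := hQ
        intro y hy
        exact H3.mem_coe_smul_sylow.2 (H1.conj_mem_of_mem_normalizer' (h1 x.2) hy).2
    let E := Finset.univ.filter (· ∈ D)
    have hE : ∀ Q ∈ T, E ⊆ S Q := fun Q hQ x hx => by
      simp only [S, E, Finset.mem_filter, Finset.mem_univ, true_and] at hx ⊢
      exact h2 Q hQ hx
    have h3 := bonf (fun Q => S Q \ E) (d * m - d) 0 T (fun Q hQ => by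
      rw [Finset.card_sdiff_of_subset (hE Q hQ), hS, hS, hcard, hn]) (fun i hi j hj hij => by
      have e : E = S i ∩ S j := Finset.eq_of_subset_of_card_le
        (Finset.subset_inter (hE i hi) (hE j hj)) (by rw [hS]; exact hinter i j hij)
      rw [Nat.le_zero, Finset.card_eq_zero, Finset.eq_empty_iff_forall_notMem]
      intro x hx
      simp only [Finset.mem_inter, Finset.mem_sdiff] at hx
      exact hx.1.2 (e ▸ Finset.mem_inter.2 ⟨hx.1.1, hx.2.1⟩))
    have h4 : (T.biUnion fun Q => S Q \ E).card + d ≤ (T.biUnion S).card := by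
      rw [hd, ← hS D, ← Finset.card_union_of_disjoint]
      · refine Finset.card_le_card (Finset.union_subset ?_ ?_)
        · exact Finset.biUnion_mono fun Q _ => Finset.sdiff_subset
        · exact (hE A (by simp [T])).trans (Finset.subset_biUnion_of_mem S (by simp [T]))
      · rw [Finset.disjoint_biUnion_left]
        exact fun Q _ => Finset.sdiff_disjoint
    rw [hT, hk] at h3
    rw [hk]
    obtain ⟨q, rfl⟩ : ∃ q, p = q + 1 := ⟨p - 1, by have := hp.pos; omega⟩
    rw [mul_add d, mul_one, Nat.add_sub_cancel] at h3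
    nlinarith
  · have h3 := bonf S (d * m) d T (fun Q _ => by rw [hS, hcard, hn])
      (fun i _ j _ hij => hinter i j hij)
    have h4 : p * p ≤ m := by
      rw [hk, ← pow_two]; exact Nat.pow_le_pow_right hp.pos (by omega)
    rw [hT] at h3
    have h5 : 2 * p ≤ m + 1 := by nlinarith [sq_nonneg ((p : ℤ) - 1)]
    nlinarith [Nat.mul_le_mul_left (d * m) h5]

end Cfsg.Agent.S4092
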