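import Mathlib
import Cfsg.Statements.S4093
import Cfsg.Agent.H8.Elt
import Cfsg.Agent.H7.Basic

set_option autoImplicit false
open scoped BigOperators
open Cfsg

namespace Cfsg.Agent.S4093

open Subgroup in

theorem result {G : Type*} [Group G] [Finite G] (p : ℕ) [Fact p.Prime]
    (P : Sylow p G) (N : Subgroup G) [N.Normal] (hNP : N.IsComplement' (P : Subgroup G)) :
    Nat.card {g : G // ∃ k : ℕ, orderOf g = p ^ k} =
      ∑ᶠ x : (P : Subgroup G), Nat.card N / Nat.card ↥(N ⊓ Subgroup.centralizer ({(x : G)} : Set G)) := by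
  classical
  have := Fintype.ofFinite (P : Subgroup G)
  rw [finsum_eq_sum_of_fintype]
  let f : (Σ x : (P : Subgroup G), N ⧸ (centralizer ({(x : G)} : Set G)).subgroupOf N) →
      {g : G // ∃ k : ℕ, orderOf g = p ^ k} := fun q => Quotient.liftOn' q.2
    (fun n : N => ⟨n * q.1 * (n : G)⁻¹, by
      obtain ⟨k, hk⟩ := H8.exists_orderOf_eq_of_mem P.2 q.1.2
      exact ⟨k, hk ▸ (MulAut.conj (n : G)).orderOf_eq _⟩⟩) (by
      intro a b hab
      rw [QuotientGroup.leftRel_apply, mem_subgroupOf, H8.mem_centralizer_singleton_iff'] at hab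
      apply Subtype.ext
      simp only [Subgroup.coe_mul, Subgroup.coe_inv] at hab ⊢
      conv_lhs => enter [1, 2]; rw [← hab]
      group)
  have hf : Function.Bijective f := by
    constructor
    · rintro ⟨x, a⟩ ⟨y, b⟩
      induction a using QuotientGroup.induction_on with | H a => ?_
      induction b using QuotientGroup.induction_on with | H b => ?_
      intro h
      have h1 : (a : G) * x * (a : G)⁻¹ = b * y * (b : G)⁻¹ := congrArg Subtype.val h
      have h2 : x = y := by
        have h3 : (x : G) * (y : G)⁻¹ ∈ N ⊓ P := by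
          refine mem_inf.2 ⟨?_, mul_mem x.2 (inv_mem y.2)⟩
          have : (x : G) * (y : G)⁻¹ = (a : G)⁻¹ * b * (y * ((b : G)⁻¹ * a) * (y : G)⁻¹) := by
            calc (x : G) * (y : G)⁻¹ = (a : G)⁻¹ * (a * x * (a : G)⁻¹) * a * (y : G)⁻¹ := by group
              _ = _ := by rw [h1]; group
          rw [this]
          exact mul_mem (mul_mem (inv_mem a.2) b.2)
            (Normal.conj_mem inferInstance _ (mul_mem (inv_mem b.2) a.2) _)
        rw [hNP.disjoint.eq_bot, mem_bot, mul_inv_eq_one] at h3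
        exact Subtype.ext h3
      subst h2
      congr 1
      rw [QuotientGroup.eq, mem_subgroupOf, H8.mem_centralizer_singleton_iff']
      simp only [Subgroup.coe_mul, Subgroup.coe_inv]
      calc (a : G)⁻¹ * b * x * ((a : G)⁻¹ * b)⁻¹ = (a : G)⁻¹ * (b * x * (b : G)⁻¹) * a := by group
        _ = x := by rw [← h1]; group
    · rintro ⟨g, k, hk⟩
      obtain ⟨c, hc⟩ := H3.exists_conj_le_sylow P (H8.isPGroup_zpowers_of_orderOf hk)
      obtain ⟨n, hn, u, hu, rfl⟩ := H3.exists_mul_of_sup_eq_top hNP.sup_eq_top c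
      refine ⟨⟨⟨_, mul_mem (mul_mem hu (hc g (mem_zpowers g))) (inv_mem hu)⟩,
        QuotientGroup.mk ⟨n, hn⟩⟩, Subtype.ext ?_⟩
      change n * (u * ((n * u)⁻¹ * g * (n * u)) * u⁻¹) * n⁻¹ = g
      group
  rw [← Nat.card_congr (Equiv.ofBijective f hf), Nat.card_sigma]
  refine Finset.sum_congr rfl fun x _ => ?_
  rw [← H7.card_inf_mul_relIndex (centralizer ({(x : G)} : Set G)) N, inf_comm,
    Nat.mul_div_cancel_left _ Nat.card_pos]
  rfl

end Cfsg.Agent.S4093
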