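import Mathlib
import Cfsg.Statements.S4106
import Cfsg.Agent.H8.PiCl

set_option autoImplicit false
open Cfsg

namespace Cfsg.Agent.S4106

theorem result {G : Type*} [Group G] [Finite G]
    (π : Set ℕ) (hπ : ∀ q ∈ π, q.Prime)
    (m : ℕ) (hm : m ∣ Nat.card G) (hmπ : ∀ q : ℕ, q.Prime → q ∣ m → q ∈ π)
    (hm' : ∀ q ∈ π, ¬ q ∣ Nat.card G / m) :
    Nat.card {C : ConjClasses G // ∀ q : ℕ, q.Prime → (∃ g : G, ConjClasses.mk g = C ∧ q ∣ orderOf g) → q ∈ π} ≤ m := by
  classical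
  have h0 : Nat.card G ≠ 0 := Nat.card_pos.ne'
  let s := (Nat.card G).primeFactors.filter (· ∈ π)
  have h1 := H8.kpi_le_prod (G := G) s fun p hp =>
    Nat.prime_of_mem_primeFactors (Finset.mem_filter.1 hp).1
  have h2 : H8.kpi π G = H8.kpi s G := by
    refine Nat.card_congr (Equiv.subtypeEquivRight fun C => ?_)
    refine forall_congr' fun q => forall_congr' fun hq => forall_congr' fun ⟨g, _, hd⟩ => ?_
    simp only [s, Finset.coe_filter, Set.mem_setOf_eq, Nat.mem_primeFactors]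
    exact ⟨fun h => ⟨⟨hq, hd.trans (orderOf_dvd_natCard g), h0⟩, h⟩, fun h => h.2⟩
  refine (h2.le.trans h1).trans (Nat.le_of_dvd (Nat.pos_of_dvd_of_pos hm Nat.card_pos) ?_)
  refine Finset.prod_dvd_of_isRelPrime (fun p hp q hq hne => ?_) fun p hp => ?_
  · exact Nat.coprime_iff_isRelPrime.1 (Nat.coprime_pow_primes _ _
      (Nat.prime_of_mem_primeFactors (Finset.mem_filter.1 hp).1)
      (Nat.prime_of_mem_primeFactors (Finset.mem_filter.1 hq).1) hne)
  · have h3 := Finset.mem_filter.1 hp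
    have h4 : p ^ (Nat.card G).factorization p ∣ m * (Nat.card G / m) := by
      rw [Nat.mul_div_cancel' hm]; exact Nat.ordProj_dvd _ _
    exact Nat.Coprime.dvd_of_dvd_mul_right (Nat.Coprime.pow_left _
      (((hπ p h3.2).coprime_iff_not_dvd).2 (hm' p h3.2))) h4

end Cfsg.Agent.S4106
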