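import Mathlib
import Cfsg.Statements.S4107
import Cfsg.Agent.H8.Cls
import Cfsg.Agent.H1.Fitting

set_option autoImplicit false
open Cfsg

namespace Cfsg.Agent.S4107

open Subgroup in

theorem result {G : Type*} [Group G] [Finite G] (N : Subgroup G) [N.Normal] (hN1 : N ≠ ⊥) (hN2 : N ≠ ⊤)
    (heq : ∀ x : G, x ∉ N → ∀ n ∈ N, orderOf (x * n) = orderOf x) :
    (N ≤ Cfsg.fittingSubgroup G ∨ Cfsg.fittingSubgroup G ≤ N) ∧
    (N < Cfsg.fittingSubgroup G → IsPrimePow (Nat.card (Cfsg.fittingSubgroup G))) := by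
  have key : ∀ p : ℕ, p.Prime → ¬ pCore p G ≤ N → IsPGroup p N := by
    intro p hp h
    have : Fact p.Prime := ⟨hp⟩
    obtain ⟨x, hx, hxN⟩ := SetLike.not_le_iff_exists.1 h
    obtain ⟨k, hk⟩ := H8.exists_orderOf_eq_of_mem (H1.isPGroup_pCore p) hx
    refine H8.isPGroup_of_forall_pow fun n hn => ?_
    have h1 := H8.isPGroup_zpowers_of_orderOf ((heq x hxN n hn).trans hk)
    have h2 := (H1.isPGroup_pCore (G := G) p).to_sup_of_normal_left h1
    refine H8.exists_pow_eq_one_of_mem h2 ?_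
    simpa using mul_mem (mem_sup_left (inv_mem hx)) (mem_sup_right (S := pCore p G) (mem_zpowers (x * n)))
  have key2 : ¬ fittingSubgroup G ≤ N → ∃ p : ℕ, p.Prime ∧ IsPGroup p N := by
    intro h
    rw [H1.fitting_eq_iSup_pCore, iSup_le_iff] at h
    push Not at h
    obtain ⟨p, hp⟩ := h
    exact ⟨p, p.2, key p p.2 hp⟩
  refine ⟨?_, fun h => ?_⟩
  · by_cases h : fittingSubgroup G ≤ N
    · exact Or.inr h
    · obtain ⟨p, hp, h1⟩ := key2 h
      have : Fact p.Prime := ⟨hp⟩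
      exact Or.inl (H1.le_fitting h1.isNilpotent)
  · obtain ⟨p, hp, h1⟩ := key2 h.not_ge
    have : Fact p.Prime := ⟨hp⟩
    have h2 : fittingSubgroup G ≤ pCore p G := by
      rw [H1.fitting_eq_iSup_pCore, iSup_le_iff]
      rintro ⟨q, hq⟩
      by_cases hqp : q = p
      · subst hqp; exact le_rfl
      have : Fact q.Prime := ⟨hq⟩
      by_cases h3 : pCore q G ≤ N
      · exact h3.trans (H1.le_pCore h1)
      · exact absurd (disjoint_self.1 (IsPGroup.disjoint_of_ne q p hqp N N (key q hq h3) h1)) hN1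
    obtain ⟨k, hk⟩ := ((H1.isPGroup_pCore p).to_le h2).exists_card_eq
    rw [hk]
    refine hp.isPrimePow.pow fun h0 => ?_
    rw [h0, pow_zero, card_eq_one] at hk
    exact not_lt_bot (hk ▸ h)

end Cfsg.Agent.S4107
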