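import Mathlib
import Cfsg.Statements.S4108
import Cfsg.Agent.H8.Elt
import Cfsg.Agent.H2.Frob
import Cfsg.Agent.S0039

set_option autoImplicit false
open Cfsg

namespace Cfsg.Agent.S4108

open Subgroup in

theorem result {G : Type*} [Group G] [Finite G] (N : Subgroup G) [N.Normal] (hN1 : N ≠ ⊥) (hN2 : N ≠ ⊤)
    (heq : ∀ x : G, x ∉ N → ∀ n ∈ N, orderOf (x * n) = orderOf x)
    (p : ℕ) [Fact p.Prime] (hNp : IsPGroup p N) :
    ∀ H : Subgroup G, H ≠ ⊥ → (Nat.card H).Coprime p →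
      Cfsg.IsFrobeniusComplement (H.subgroupOf (N ⊔ H)) ∧ Cfsg.frobeniusKernel (H.subgroupOf (N ⊔ H)) = (N.subgroupOf (N ⊔ H) : Set ↥(N ⊔ H)) := by
  intro H hH hc
  have hd : N ⊓ H = ⊥ := H1.inf_eq_bot_of_isPGroup_of_coprime hNp hc
  have hcomp : IsComplement' (N.subgroupOf (N ⊔ H)) (H.subgroupOf (N ⊔ H)) := by
    refine H3.isComplement'_of_normal ?_ ?_
    · rw [disjoint_iff, subgroupOf, subgroupOf, ← comap_inf, hd]; exact bot_subgroupOf _
    · rw [← subgroupOf_sup le_sup_left le_sup_right, subgroupOf_self]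
  have hF : IsFrobeniusComplement (H.subgroupOf (N ⊔ H)) := by
    rw [S0039.result _ _ hcomp (by rwa [Ne, subgroupOf_eq_bot, disjoint_iff, inf_sup_self])
      (by rwa [Ne, subgroupOf_eq_bot, disjoint_iff, inf_of_le_left le_sup_right])]
    intro h hh hh1
    rw [eq_bot_iff]
    intro n hn
    have h1 : (h : G) ∉ N := fun h' => hh1 (Subtype.ext (by
      have : (h : G) ∈ N ⊓ H := ⟨h', hh⟩
      rwa [hd] at this))
    have h2 := heq _ h1 n hn.1
    have h3 : Commute (h : G) n :=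
      (congrArg Subtype.val (mem_centralizer_singleton_iff.1 hn.2)).symm
    obtain ⟨k, hk⟩ := H8.exists_orderOf_eq_of_mem hNp (x := (n : G)) hn.1
    rw [h3.orderOf_mul_eq_mul_orderOf_of_coprime (by
      rw [hk]; exact (hc.coprime_dvd_left (orderOf_dvd_natCard H hh)).pow_right _)] at h2
    have h4 := Nat.eq_of_mul_eq_mul_left (orderOf_pos (h : G)) (h2.trans (mul_one _).symm)
    exact Subtype.ext (orderOf_eq_one_iff.1 h4)
  refine ⟨hF, (Set.eq_of_subset_of_ncard_le ?_ ?_).symm⟩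
  · intro n hn
    rw [H2.mem_frobKernel_iff]
    by_cases h1 : n = 1
    · exact Or.inl h1
    refine Or.inr fun g hg => h1 ?_
    have h2 : g⁻¹ * n * g ∈ N.subgroupOf (N ⊔ H) ⊓ H.subgroupOf (N ⊔ H) :=
      ⟨Normal.conj_mem' inferInstance _ hn _, hg⟩
    rw [hcomp.disjoint.eq_bot, mem_bot] at h2
    have : n = g * (g⁻¹ * n * g) * g⁻¹ := by group
    rw [this, h2]; simp
  · rw [← Nat.card_coe_set_eq, ← Nat.card_coe_set_eq, H2.card_frobKernel hF, hcomp.index_eq_card]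
    rfl

end Cfsg.Agent.S4108
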