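import Cfsg.Statements.S4115
import Cfsg.Agent.H3.FrobW
import Cfsg.Agent.H1.FrobCons
import Cfsg.Agent.H7.Maschke
import Cfsg.Agent.H17.FT
import Cfsg.Agent.H3.Critical
import Cfsg.Agent.H10.Conj
import Cfsg.Agent.H2.Frob

set_option autoImplicit false
universe u
open Cfsg

namespace Cfsg.Agent.S4115

/-- Let G be a finite group and H a subgroup that meets each of its conjugates by elements outside N_G(H) trivially and whose order is coprime to its index in N_G(H). Then H has a normal complement in N_G(H) if and only if H has a normal complement in G. Moreover, if H is not normal in G and has a normal complement in N_G(H), then H is isomorphic to a Frobenius complement of some finite Frobenius group. -/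
theorem result {G : Type u} [Group G] [Finite G] (H : Subgroup G)
    (hTI : Cfsg.IsTISubset (H : Set G)) (hHall : (Nat.card H).Coprime (H.subgroupOf (Subgroup.normalizer (H : Set G))).index) :
    ((∃ K : Subgroup (Subgroup.normalizer (H : Set G)), K.Normal ∧ K.IsComplement' (H.subgroupOf (Subgroup.normalizer (H : Set G)))) ↔
      (∃ N : Subgroup G, N.Normal ∧ N.IsComplement' H)) ∧
    (¬ H.Normal → (∃ K : Subgroup (Subgroup.normalizer (H : Set G)), K.Normal ∧ K.IsComplement' (H.subgroupOf (Subgroup.normalizer (H : Set G)))) →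
      ∃ (F : Type u) (_ : Group F) (_ : Finite F) (C : Subgroup F), Cfsg.IsFrobeniusComplement C ∧ Nonempty (H ≃* C)) := by
  set N := Subgroup.normalizer (H : Set G) with hN
  have hHN : H ≤ N := Subgroup.le_normalizer
  have key : (∃ K : Subgroup N, K.Normal ∧ K.IsComplement' (H.subgroupOf N)) →
      ∃ M : Subgroup G, M.Normal ∧ M.IsComplement' H := by
    rintro ⟨K, hK, hc⟩
    have hcK : Nat.card (N ⧸ K) = Nat.card H := by
      rw [← Subgroup.index, hc.symm.index_eq_card, H1.card_subgroupOf_of_le hHN]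
    obtain ⟨M, hM, h1, h2⟩ := H3.frobenius_wielandt (QuotientGroup.mk'_surjective K)
      fun x hx h hh hm => by
        have h3 : h ^ H.relIndex N ∈ H := (H.subgroupOf N).pow_index_mem ⟨h, hh⟩
        have h4 : (x * h * x⁻¹) ^ H.relIndex N ∈ H := (H.subgroupOf N).pow_index_mem ⟨_, hm⟩
        rw [conj_pow] at h4
        have h5 := hTI x hx _ h3 h4
        refine orderOf_eq_one_iff.mp (Nat.eq_one_of_dvd_coprimes hHall
          (hcK ▸ orderOf_dvd_natCard _) (orderOf_dvd_of_pow_eq_one ?_))
        rw [← map_pow, ← map_one (QuotientGroup.mk' K)]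
        congr 1
        exact Subtype.ext (by rw [Subgroup.coe_pow, conj_pow, ← Subgroup.relIndex, h5]; simp)
    refine ⟨M, hM, Subgroup.isComplement'_of_card_mul_and_disjoint (hcK ▸ h2)
      (Subgroup.disjoint_def.mpr fun {x} hx hx' => ?_)⟩
    have := (QuotientGroup.eq_one_iff _).mp ((h1 ⟨x, hHN hx'⟩).mp hx)
    exact congrArg Subtype.val (Subgroup.disjoint_def.mp hc.disjoint this hx')
  refine ⟨⟨key, ?_⟩, fun hn hK => ?_⟩
  · rintro ⟨M, hM, hc⟩
    refine ⟨M.subgroupOf N, inferInstance, H1.isComplement'_of_inf_sup ?_ ?_⟩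
    · exact eq_bot_iff.mpr fun x hx => Subtype.ext
        (Subgroup.disjoint_def.mp hc.disjoint hx.1 hx.2)
    · refine eq_top_iff.mpr fun x _ => ?_
      obtain ⟨⟨m, h⟩, e⟩ := hc.2 (x : G)
      have hm : (m : G) ∈ N := by
        have := N.mul_mem x.2 (N.inv_mem (hHN h.2))
        rwa [← e, mul_inv_cancel_right] at this
      have : x = ⟨m, hm⟩ * ⟨h, hHN h.2⟩ := Subtype.ext e.symm
      rw [this]
      exact Subgroup.mul_mem _ (Subgroup.mem_sup_left m.2) (Subgroup.mem_sup_right h.2)
  obtain ⟨M, hM, hc⟩ := key hK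
  have hco : (Nat.card H).Coprime (Nat.card M) :=
    hc.index_eq_card ▸ H3.coprime_index_of_ti hTI hHall
  have hs : Group.IsSolvable H ∨ Group.IsSolvable M := by
    rcases Nat.even_or_odd (Nat.card H) with h | h
    · exact Or.inr (H17.odd_solvable (Nat.coprime_two_left.mp
        (hco.coprime_dvd_left (even_iff_two_dvd.mp h))))
    · exact Or.inl (H17.odd_solvable h)
  obtain ⟨q, _, Q, hQ, hHQ, hQN⟩ : ∃ (q : ℕ) (_ : Fact q.Prime) (Q : Subgroup G),
      Cfsg.IsPiHallOf {q} Q M ∧ H ≤ Subgroup.normalizer (Q : Set G) ∧ ¬ Q ≤ N := by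
    by_contra! c
    refine hn (Subgroup.normalizer_eq_top_iff.mp (eq_top_iff.mpr (hc.sup_eq_top.ge.trans
      (sup_le (H1.le_of_forall_sylowOf_le fun p _ _ => ?_) hHN))))
    obtain ⟨P, h1, h2⟩ := H1.exists_invariant_sylowOf p Subgroup.le_normalizer_of_normal hco hs
    exact ⟨P, h1, c p inferInstance P h1 h2⟩
  have hQp := H1.IsPiHallOf.isPGroup hQ
  set R := (Q ⊓ N) ⊔ (frattini Q).map Q.subtype with hR
  have hRQ : R ≤ Q := sup_le inf_le_left (Subgroup.map_subtype_le _)
  have hQR : Q ≤ Subgroup.normalizer (R : Set G) := H10.le_NN_of_comm_le_left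
    ((Subgroup.commutator_mono hRQ le_rfl).trans
      ((H3.commutator_le_map_frattini hQp).trans le_sup_right))
  have hHR : H ≤ Subgroup.normalizer (R : Set G) :=
    H1.le_normalizer_sup (H1.le_normalizer_inf hHQ (hHN.trans Subgroup.le_normalizer))
      (hHQ.trans (H1.normalizer_le_normalizer_map_char _ _))
  have hRn : (R.subgroupOf Q).Normal := H10.normal_subgroupOf hQR
  have hne : R ≠ Q := fun e => hQN (inf_eq_left.mp (H1.eq_of_sup_frattiniOf inf_le_left le_rfl e))
  let φ : H →* MulAut Q := Q.normalizerMonoidHom.comp (Subgroup.inclusion hHQ)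
  have hF := H1.FPF.intro (H7.quotAut φ (R.subgroupOf Q) fun x v hv =>
    H1.conj_mem_of_mem_normalizer (hHR x.2) hv) fun h hh v hv => by
      obtain ⟨v, rfl⟩ := QuotientGroup.mk_surjective v
      have h1 : (v : G)⁻¹ * (h * v * (h : G)⁻¹) ∈ R :=
        (QuotientGroup.eq (s := R.subgroupOf Q)).mp hv.symm
      obtain ⟨n, hn, h2⟩ := H1.exists_mul_mem_centralizer (A := Subgroup.zpowers (h : G)) (N := R)
        (Subgroup.zpowers_le.mpr (hHR h.2)) ((hco.coprime_dvd_left (Subgroup.card_dvd_of_le
          (Subgroup.zpowers_le.mpr h.2))).coprime_dvd_right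
            (Subgroup.card_dvd_of_le (hRQ.trans hQ.1))) (Or.inl inferInstance) (k := v)
        fun a ha => by
          obtain ⟨m, rfl⟩ := (mem_powers_iff_mem_zpowers.mpr ha : a ∈ Submonoid.powers (h : G))
          clear ha
          induction m with
          | zero => simp
          | succ m ih =>
            have := R.mul_mem h1 (H1.conj_mem_of_mem_normalizer (hHR h.2) ih)
            simpa [pow_succ', mul_assoc] using this
      have h3 : (v : G) * n ∈ N := by
        by_contra c
        refine hh (Subtype.ext (hTI _ c h h.2 ?_))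
        rw [← Subgroup.mem_centralizer_iff.mp h2 h (Subgroup.mem_zpowers _), mul_inv_cancel_right]
        exact h.2
      exact (QuotientGroup.eq_one_iff _).mpr ((R.mul_mem_cancel_right hn).mp
        (Subgroup.mem_sup_left ⟨Q.mul_mem v.2 (hRQ hn), h3⟩))
  have : Nontrivial H := (Subgroup.nontrivial_iff_ne_bot H).mpr fun h => hn (h ▸ inferInstance)
  obtain ⟨L, _, _, C, hC, ⟨e⟩, -⟩ := hF.exists_frob (Subgroup.one_lt_index_of_ne_top
    fun h => hne (le_antisymm hRQ (Subgroup.subgroupOf_eq_top.mp h)))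
  let f : ULift.{u} L ≃* L := MulEquiv.ulift
  refine ⟨ULift.{u} L, inferInstance, inferInstance, C.comap f.toMonoidHom, ?_,
    ⟨e.trans ((f.symm.subgroupMap C).trans (MulEquiv.subgroupCongr
      (Subgroup.map_equiv_eq_comap_symm' f.symm C)))⟩⟩
  rw [H2.isFrob_iff] at hC ⊢
  refine ⟨fun h => hC.1 ?_, fun h => hC.2.1 ?_, fun x hx hx1 g hg => hC.2.2 _ hx
    (fun h => hx1 (f.injective (h.trans (map_one f).symm))) _ hg⟩
  · exact Subgroup.comap_injective f.surjective (h.trans (by
      rw [MonoidHom.comap_bot]; exact ((MonoidHom.ker_eq_bot_iff _).mpr f.injective).symm))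
  · exact Subgroup.comap_injective f.surjective h

end Cfsg.Agent.S4115
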