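import Cfsg.Statements.S4116
import Cfsg.Agent.H2.Frob
import Cfsg.Agent.H1.HallTop

set_option autoImplicit false
open Cfsg
open scoped Pointwise

namespace Cfsg.Agent.S4116

/-- Let G be a finite group with a subgroup H whose order is coprime to its index (a Hall subgroup) and which meets each of its conjugates by elements outside N_G(H) trivially. Then every subgroup of G whose order is divisible only by primes dividing the order of H lies in a conjugate of H. -/
theorem result {G : Type*} [Group G] [Finite G] (H : Subgroup G)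
    (hHall : (Nat.card H).Coprime H.index) (hTI : Cfsg.IsTISubset (H : Set G))
    (K : Subgroup G) (hK : ∀ q : ℕ, q.Prime → q ∣ Nat.card K → q ∣ Nat.card H) :
    ∃ g : G, K ≤ H.map (MulAut.conj g).toMonoidHom := by
  have hmem : ∀ g x : G, x ∈ K → x ∈ Subgroup.normalizer ((MulAut.conj g • H : Subgroup G) : Set G) →
      x ∈ MulAut.conj g • H := fun g x hx hn => by
    have h1 : Cfsg.IsPiHallOf {q | q ∣ Nat.card H} H ⊤ :=
      H1.isPiHallOf_of_coprime le_top (by rwa [Subgroup.relIndex_top_right])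
    refine H1.IsPiHallOf.le_of_le_normalizer (H1.IsPiHallOf.conj_of_mem h1 (g := g)
      (Subgroup.le_normalizer (Subgroup.mem_top g)))
      le_top (Subgroup.zpowers_le.mpr hn) (fun q hq hd => hK q hq (hd.trans ?_))
      (Subgroup.mem_zpowers x)
    exact Subgroup.card_dvd_of_le (Subgroup.zpowers_le.mpr hx)
  have hti : ∀ a b x : G, x ≠ 1 → x ∈ MulAut.conj a • H → x ∈ MulAut.conj b • H →
      MulAut.conj a • H = MulAut.conj b • H := fun a b x hx ha hb => by
    rw [H1.mem_conj_smul_iff] at ha hb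
    have : b⁻¹ * a ∈ Subgroup.normalizer (H : Set G) := by
      by_contra c
      refine hx ?_
      have := hTI _ c _ ha (by simpa [mul_assoc] using hb)
      calc x = a * (a⁻¹ * x * a) * a⁻¹ := by group
        _ = 1 := by rw [this]; group
    rw [H1.mem_normalizer_iff_smul, map_mul, mul_smul, map_inv, inv_smul_eq_iff] at this
    exact this
  by_contra! hc
  have hF : ∀ g : G, ∀ x ∈ K, x ≠ 1 → x ∈ MulAut.conj g • H →
      Cfsg.IsFrobeniusComplement ((MulAut.conj g • H).subgroupOf K) := fun g x hx hx1 hg => by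
    rw [H2.isFrob_iff]
    refine ⟨fun h => hx1 (congrArg Subtype.val (Subgroup.mem_bot.mp (h.le
      (show (⟨x, hx⟩ : K) ∈ (MulAut.conj g • H).subgroupOf K from hg)))),
      fun h => hc g (Subgroup.subgroupOf_eq_top.mp h), fun y hy hy1 k hk => hmem g k k.2 ?_⟩
    rw [H1.mem_normalizer_iff_smul, ← mul_smul, ← map_mul]
    refine hti _ _ y (fun h => hy1 (Subtype.ext h)) ?_ hy
    rw [map_mul, mul_smul, H1.mem_conj_smul_iff]
    exact hk
  have hex : ∀ x ∈ K, x ≠ 1 → ∃ n : ℕ, ∃ g : G, x ^ n ≠ 1 ∧ x ^ n ∈ MulAut.conj g • H := by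
    intro x hx hx1
    obtain ⟨p, hp, hd⟩ := Nat.exists_prime_and_dvd (mt orderOf_eq_one_iff.mp hx1)
    have := Fact.mk hp
    have ho := orderOf_pow_orderOf_div (orderOf_pos x).ne' hd
    have hpH : p ∣ Nat.card H := hK p hp (hd.trans (K.orderOf_dvd_natCard hx))
    obtain ⟨P, hP⟩ := H1.exists_sylowOf p H
    have hP' : Cfsg.IsPiHallOf {p} P ⊤ := H1.IsPiHallOf.trans_of_relIndex hP le_top
      fun q hq hd e => hq.one_lt.ne' (Nat.eq_one_of_dvd_coprimes hHall
        ((show q = p from e) ▸ hpH) (by rwa [Subgroup.relIndex_top_right] at hd))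
    obtain ⟨k, -, hk⟩ := H1.exists_conj_le_sylowOf (U := Subgroup.zpowers (x ^ (orderOf x / p)))
      le_top (IsPGroup.of_card (n := 1) (by rw [Nat.card_zpowers, ho, pow_one])) hP'
    refine ⟨orderOf x / p, k⁻¹, fun h => hp.one_lt.ne (by rw [← ho, h, orderOf_one]), ?_⟩
    rw [H1.mem_conj_smul_iff, inv_inv]
    exact hP.1 (hk (H1.conj_mem_conj_smul (Subgroup.mem_zpowers _)))
  obtain ⟨x, hx, hx1⟩ : ∃ x ∈ K, x ≠ 1 := by
    by_contra! c
    exact hc 1 fun x hx => by rw [c x hx]; exact Subgroup.one_mem _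
  obtain ⟨n, g, h1, h2⟩ := hex x hx hx1
  have hF1 := hF g _ (K.pow_mem hx n) h1 h2
  obtain ⟨y, hy, hy1⟩ := H2.exists_ne_one_mem_frobKernel hF1
  obtain ⟨m, g', h3, h4⟩ := hex y y.2 fun h => hy1 (Subtype.ext h)
  obtain ⟨z, hz, hz1, k, hk⟩ := H2.exists_conj_mem_of_two_frob hF1 (hF g' _ (K.pow_mem y.2 m) h3 h4)
  have h5 := hti g' (k * g) z (fun h => hz1 (Subtype.ext h)) hz (by
    rw [map_mul, mul_smul, H1.mem_conj_smul_iff]; exact hk)
  rw [h5, map_mul, mul_smul, H1.mem_conj_smul_iff] at h4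
  exact h3 (congrArg Subtype.val (H2.eq_one_of_mem_frobKernel (H2.frobKernel_pow_mem hF1 hy m) k h4))

end Cfsg.Agent.S4116
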