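import Mathlib
import Cfsg.Statements.S4117
import Cfsg.Agent.H8.Sdp

set_option autoImplicit false
open Cfsg

namespace Cfsg.Agent.S4117

open Subgroup H8 in

theorem result {G A : Type*} [Group G] [Finite G] [Group A] [Finite A]
    [MulDistribMulAction A G] (hcop : (Nat.card A).Coprime (Nat.card G))
    (hcyc : ∀ (p : ℕ) [Fact p.Prime] (P : Sylow p G), IsCyclic (P : Subgroup G)) :
    (Nat.card (MulAction.fixedPoints A G : Set G)).Coprime (Nat.card G / Nat.card (MulAction.fixedPoints A G : Set G)) ∧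
    IsCyclic (Subgroup.closure {y : G | ∃ (a : A) (g : G), y = g⁻¹ * a • g}) ∧
    (Subgroup.closure {y : G | ∃ (a : A) (g : G), y = g⁻¹ * a • g}).Normal ∧
    (Subgroup.closure {y : G | ∃ (a : A) (g : G), y = g⁻¹ * a • g} : Set G) ∩ MulAction.fixedPoints A G = {1} ∧
    Subgroup.closure {y : G | ∃ (a : A) (g : G), y = g⁻¹ * a • g} ⊔ Subgroup.closure (MulAction.fixedPoints A G) = ⊤ := by
  have hZ : IsZGroup G := ⟨fun p hp P => haveI := Fact.mk hp; hcyc p P⟩
  set φ := MulDistribMulAction.toMulAut A G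
  have hK : IsZGroup (sdL φ ⊤) := IsZGroup.of_surjective
    (f := (sdLEquiv φ ⊤).toMonoidHom) (sdLEquiv φ ⊤).surjective
  have hAK : sdR φ ⊤ ≤ normalizer (sdL φ ⊤ : Set (G ⋊[φ] A)) := by
    rw [normalizer_eq_top]; exact le_top
  have hc : (Nat.card (sdR φ ⊤)).Coprime (Nat.card (sdL φ ⊤)) := by
    rwa [card_sdL, card_sdR, card_top, card_top]
  set V := closure {y : G | ∃ (a : A) (g : G), y = g⁻¹ * a • g} with hV
  have h1 : ⁅sdL φ ⊤, sdR φ ⊤⁆ = sdL φ V := by
    rw [commutator_sdL_sdR]; simp [hV, φ]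
  have h2 : sdL φ ⊤ ⊓ centralizer (sdR φ ⊤ : Set (G ⋊[φ] A)) = sdL φ (FixedPoints.subgroup A G) := by
    refine le_antisymm ?_ ?_
    · rintro _ ⟨⟨g, -, rfl⟩, h⟩
      exact ⟨g, fun a => (inl_mem_centralizer_sdR φ).1 h a trivial, rfl⟩
    · rintro _ ⟨g, h, rfl⟩
      exact ⟨⟨g, trivial, rfl⟩, (inl_mem_centralizer_sdR φ).2 fun a _ => h a⟩
  have h3 := zgroup_card_eq hK hAK hc
  have h4 := zgroup_commutator_cyclic hK hAK
  have h5 := zgroup_commutator_inf hK hAK hc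
  have h6 := H1.commutator_sup_centralizer hAK hc (Or.inr inferInstance)
  have h7 := le_normalizer_commutator_left (sdL φ ⊤) (sdR φ ⊤)
  rw [h1, h2] at h3 h6
  rw [h1] at h4 h5 h7
  simp only [card_sdL, card_top] at h3
  refine ⟨?_, (sdLEquiv φ V).isCyclic.2 h4, ⟨fun n hn g => ?_⟩, ?_, ?_⟩
  · change (Nat.card (FixedPoints.subgroup A G)).Coprime (_ / Nat.card (FixedPoints.subgroup A G))
    rw [h3.1, Nat.mul_div_cancel_left _ Nat.card_pos]
    exact h3.2
  · rw [← inl_mem_sdL φ, map_mul, map_mul, map_inv]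
    exact H1.conj_mem_of_mem_normalizer (h7 ⟨g, trivial, rfl⟩) ⟨n, hn, rfl⟩
  · refine Set.eq_singleton_iff_unique_mem.2 ⟨⟨one_mem _, fun a => smul_one a⟩, fun x hx => ?_⟩
    have : (SemidirectProduct.inl x : G ⋊[φ] A) ∈ (⊥ : Subgroup _) :=
      h5 ▸ ⟨⟨x, hx.1, rfl⟩, (inl_mem_centralizer_sdR φ).2 fun a _ => hx.2 a⟩
    exact SemidirectProduct.inl_injective (φ := φ) ((mem_bot.1 this).trans (map_one _).symm)
  · rw [← Subgroup.map_sup] at h6
    rw [← sdL_injective φ h6]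
    congr 1
    exact closure_eq (FixedPoints.subgroup A G)

end Cfsg.Agent.S4117
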