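import Mathlib
import Cfsg.Statements.S4125
import Cfsg.Agent.H8.Baer

set_option autoImplicit false
open Cfsg

namespace Cfsg.Agent.S4125

theorem result {G : Type*} [Group G] [Finite G] (q : ℕ) [Fact q.Prime] (hq : q ∣ Nat.card G)
    (hBaer : ∀ x : G, (∃ k : ℕ, orderOf x = q ^ k) → ∃ (r : ℕ) (a : ℕ), r.Prime ∧ (Subgroup.centralizer ({x} : Set G)).index = r ^ a) (Q : Sylow q G) :
    (∃ K L : Subgroup G, K.Normal ∧ L.Normal ∧ K ≤ L ∧ (Nat.card K).Coprime q ∧ (∃ m : ℕ, K.relIndex L = q ^ m) ∧ L.index.Coprime q) ∧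
    ∃ p : ℕ, p.Prime ∧ (∀ x : G, (∃ k : ℕ, orderOf x = q ^ k) → ∃ a : ℕ, (Subgroup.centralizer ({x} : Set G)).index = p ^ a) ∧
      (p = q → (Q : Subgroup G).Normal ∧ ∃ N : Subgroup G, N.Normal ∧ N.IsComplement' (Q : Subgroup G)) ∧
      (p ≠ q → IsMulCommutative (Q : Subgroup G) ∧ (Cfsg.pCore p G ⊔ (Q : Subgroup G)).Normal ∧
        ∀ _h : (Cfsg.pPrimeCore q G).Normal, Group.IsSolvable (G ⧸ Cfsg.pPrimeCore q G)) := by
  have hq' : q.Prime := Fact.out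
  have hQi : (Q : Subgroup G).index.Coprime q :=
    ((Nat.Prime.coprime_iff_not_dvd hq').2 Q.not_dvd_index).symm
  by_cases h : ∀ x : G, (∃ k : ℕ, orderOf x = q ^ k) →
      ∃ a : ℕ, (Subgroup.centralizer ({x} : Set G)).index = q ^ a
  · have h1 := H8.baer_same_prime h Q
    refine ⟨⟨⊥, Q, inferInstance, h1.1, bot_le, by simp, ?_, hQi⟩, q, hq', h, fun _ => h1,
      fun h2 => absurd rfl h2⟩
    rw [Subgroup.relIndex_bot_left]
    exact IsPGroup.iff_card.1 Q.isPGroup'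
  · push Not at h
    obtain ⟨y, ⟨k, hk⟩, hy⟩ := h
    obtain ⟨p, b, hp, hb⟩ := hBaer y ⟨k, hk⟩
    have hpq : p ≠ q := by rintro rfl; exact hy b hb
    have hb0 : b ≠ 0 := by rintro rfl; exact hy 0 (by simpa using hb)
    have h1 : ∀ x : G, (∃ k : ℕ, orderOf x = q ^ k) →
        ∃ a : ℕ, (Subgroup.centralizer ({x} : Set G)).index = p ^ a := fun x ⟨_, hx⟩ =>
      H8.baer_single_prime hBaer hp hpq hk hb hb0 hx
    haveI := Fact.mk hp
    obtain ⟨h2, h3, h4⟩ := H8.baer_other_prime hpq h1 Q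
    refine ⟨⟨Cfsg.pCore p G, Cfsg.pCore p G ⊔ Q, inferInstance, h3, le_sup_left, ?_, ?_, ?_⟩,
      p, hp, h1, fun h5 => absurd h5 hpq, fun _ => ⟨h2, h3, fun _ => h4⟩⟩
    · obtain ⟨n, hn⟩ := IsPGroup.iff_card.1 (H1.isPGroup_pCore (G := G) p)
      rw [hn]
      exact ((Nat.coprime_primes hp hq').2 hpq).pow_left n
    · rw [Subgroup.relIndex_sup_left]
      exact Q.isPGroup'.index _
    · exact hQi.coprime_dvd_left (Subgroup.index_dvd_of_le le_sup_right)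

end Cfsg.Agent.S4125
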