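import Mathlib
import Cfsg.Statements.S4126
import Cfsg.Agent.H3.Misc3
import Cfsg.Agent.H3.Critical
import Cfsg.Agent.H3.Transfer2
import Cfsg.Agent.H8.Idx
import Cfsg.Agent.H8.Cls
import Cfsg.Agent.H8.Count
import Cfsg.Agent.H10.SylowIn

set_option autoImplicit false
open Cfsg

namespace Cfsg.Agent.S4126

open Subgroup in
open scoped commutatorElement in
theorem aux.{u} {p : ℕ} [hp : Fact p.Prime] (n : ℕ) : ∀ (G : Type u) [Group G] [Finite G]
    (D : Subgroup G) [D.Normal], Nat.card D = n → IsPGroup p D →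
    (∀ d ∈ D, ∃ a, (centralizer ({d} : Set G)).index = p ^ a) →
    ∀ g : G, (orderOf g).Coprime p → ∀ d ∈ D, Commute d g := by
  induction n using Nat.strong_induction_on with
  | _ n ih =>
  intro G _ _ D hD hn hP h g hg d hd
  classical
  by_cases hb : D = ⊥
  · rw [hb, mem_bot] at hd; rw [hd]; exact Commute.one_left g
  haveI := Fintype.ofFinite G
  set Z := D ⊓ center G with hZ
  have hZ1 : Z ≠ ⊥ := by
    have h1 := H8.dvd_sum_of_conj (R := ℕ) (fun x : G => if x ∈ D ∧ x ∉ center G then 1 else 0)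
      (fun g x => by
        have e1 : g * x * g⁻¹ ∈ D ↔ x ∈ D := ⟨fun h => by simpa [mul_assoc] using hD.conj_mem _ h g⁻¹,
          fun h => hD.conj_mem _ h g⟩
        have e2 : g * x * g⁻¹ ∈ center G ↔ x ∈ center G := ⟨fun h => by
          simpa [mul_assoc] using (inferInstance : (center G).Normal).conj_mem _ h g⁻¹,
          fun h => (inferInstance : (center G).Normal).conj_mem _ h g⟩
        simp only [e1, e2]) p (fun x => by
        split_ifs with hx
        · obtain ⟨a, ha⟩ := h x hx.1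
          rcases a with _ | a
          · exact absurd (H8.index_centralizer_eq_one_iff.1 (by simpa using ha)) hx.2
          · simp [ha, pow_succ]
        · simp)
    rw [← Finset.card_filter] at h1
    have h2 := H10.dvd_card_of_isPGroup_ne_bot hP hb
    rw [Nat.subtype_card (Finset.univ.filter (· ∈ D)) (by simp),
      ← Finset.card_filter_add_card_filter_not (· ∈ center G), Finset.filter_filter,
      Finset.filter_filter] at h2
    have h3 := (Nat.dvd_add_left h1).1 h2
    rw [← Nat.subtype_card (p := (· ∈ Z)) _ (by simp [hZ])] at h3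
    intro e
    rw [e] at h3
    exact hp.out.one_lt.ne' (Nat.dvd_one.1 (by simpa using h3))
  have hlt : Nat.card (D.map (QuotientGroup.mk' Z)) < n := by
    have h1 := relIndex_ker D (QuotientGroup.mk' Z)
    rw [QuotientGroup.ker_mk'] at h1
    rw [← h1, ← hn, ← H10.card_mul_relIndex (inf_le_left : Z ≤ D)]
    exact lt_mul_of_one_lt_left (Nat.pos_of_ne_zero index_ne_zero_of_finite)
      (one_lt_card_iff_ne_bot _ |>.2 hZ1)
  have h2 := ih _ hlt (G ⧸ Z) (D.map (QuotientGroup.mk' Z)) rfl (hP.map _) (by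
    rintro _ ⟨x, hx, rfl⟩
    obtain ⟨a, ha⟩ := h x hx
    exact H8.pow_of_dvd_pow hp.out (H8.index_centralizer_mk_dvd Z x) ha) (QuotientGroup.mk' Z g)
    (hg.coprime_dvd_left (orderOf_map_dvd _ _)) _ (mem_map_of_mem _ hd)
  have h3 : ⁅d, g⁆ ∈ Z := by
    rw [← QuotientGroup.eq_one_iff]
    exact (map_commutatorElement (QuotientGroup.mk' Z) d g).trans
      (commutatorElement_eq_one_iff_commute.2 h2)
  obtain ⟨k, hk⟩ := H10.orderOf_eq_pow_of_mem hP h3.1
  exact H1.commute_of_commutator_commute (mem_center_iff.1 h3.2 g).symm (hk ▸ hg.pow_right k)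

theorem result {G : Type*} [Group G] [Finite G] (p : ℕ) [Fact p.Prime]
    (h : ∀ x : G, (orderOf x = p ∨ (p = 2 ∧ orderOf x = 4)) → ∃ a : ℕ, (Subgroup.centralizer ({x} : Set G)).index = p ^ a) :
    Cfsg.HasNormalPComplement p G := by
  open Subgroup in
  have hp : p.Prime := Fact.out
  have h1 : ∀ x : G, x ^ p = 1 ∨ (p = 2 ∧ x ^ 4 = 1) →
      ∃ a : ℕ, (centralizer ({x} : Set G)).index = p ^ a := by
    intro x hx
    by_cases hx1 : x = 1
    · exact ⟨0, H8.index_centralizer_eq_one_iff.2 (hx1 ▸ one_mem _)⟩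
    by_cases hxp : x ^ p = 1
    · exact h x (Or.inl (orderOf_eq_prime hxp hx1))
    obtain ⟨rfl, h4⟩ := hx.resolve_left hxp
    exact h x (Or.inr ⟨rfl, orderOf_eq_prime_pow (p := 2) (n := 1) (by simpa using hxp) h4⟩)
  obtain ⟨D, hD, hD1, -, hD2⟩ := H3.exists_small_char_comm (H1.isPGroup_pCore (G := G) p)
  haveI : (D.map (pCore p G).subtype).Normal := ConjAct.normal_of_characteristic_of_normal
  by_contra hn
  obtain ⟨P⟩ : Nonempty (Sylow p G) := inferInstance
  obtain ⟨Q, hQ, q, hq, hqp, -, g, k, hk, hg, hc⟩ := H3.exists_primePow_not_centralizing P hn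
  have hcop : (orderOf g).Coprime p := hk ▸ ((Nat.coprime_primes hq hp).2 hqp).pow_left k
  have h2 := aux _ G (D.map (pCore p G).subtype) rfl
    ((H1.isPGroup_pCore p).to_le (map_subtype_le _)) (by
      rintro _ ⟨d, hd, rfl⟩
      exact h1 _ ((hD1 d hd).imp (congrArg Subtype.val) fun e => ⟨e.1, congrArg Subtype.val e.2⟩))
    g hcop
  have h3 := hD2 (MulAut.conjNormal g) (hcop.coprime_dvd_left (orderOf_map_dvd _ _))
    fun x hx => Subtype.ext (by
      rw [MulAut.conjNormal_apply, ← (h2 x (mem_map_of_mem _ hx)).eq, mul_inv_cancel_right])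
  refine hc (H3.mem_centralizer_of_centralizes_omega (P.isPGroup'.to_le hQ) hg hcop fun x hx h4 => ?_)
  obtain ⟨a, ha⟩ := h1 x h4
  have h5 := H8.mem_pCore_of_index_pow ((P.isPGroup'.to_le hQ).to_le (zpowers_le.2 hx)) ha
  have h6 := congrArg Subtype.val (DFunLike.congr_fun h3 ⟨x, h5⟩)
  rw [MulAut.conjNormal_apply] at h6
  exact (mul_inv_eq_iff_eq_mul.1 h6).symm

end Cfsg.Agent.S4126
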