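import Mathlib
import Cfsg.Statements.S4130
import Cfsg.Agent.H8.Sqf2
import Cfsg.Agent.H8.FTc
import Cfsg.Agent.S0205

set_option autoImplicit false
open Cfsg

namespace Cfsg.Agent.S4130

theorem result {G : Type*} [Group G] [Finite G]
    (h : ∀ x : G, Squarefree (Subgroup.centralizer ({x} : Set G)).index) :
    Cfsg.IsSupersolvable G ∧ (Cfsg.fittingSubgroup G).Normal ∧
    (∀ _h : (Cfsg.fittingSubgroup G).Normal, IsCyclic (G ⧸ Cfsg.fittingSubgroup G) ∧ Squarefree (Cfsg.fittingSubgroup G).index) ∧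
    IsCyclic (commutator G) ∧ Squarefree (Nat.card (commutator G)) ∧
    Subgroup.upperCentralSeries ↥(Cfsg.fittingSubgroup G) 2 = ⊤ ∧ commutator ↥(commutator G) = ⊥ := by
  have hFT : H8.FTH := fun _ _ _ h => Cfsg.Agent.S0205.result h
  haveI : Group.IsSolvable G := H8.isSolvable_of_not_four_dvd hFT fun x h1 =>
    Nat.squarefree_iff_prime_squarefree.1 (h x) 2 Nat.prime_two h1
  obtain ⟨h1, h2, h3⟩ := H8.squarefree_classes h
  exact ⟨h1, inferInstance, fun _ => h2, h3⟩

end Cfsg.Agent.S4130
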