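import Mathlib
import Cfsg.Statements.S4139
import Cfsg.Agent.H8.Cls

set_option autoImplicit false
open Cfsg

namespace Cfsg.Agent.S4139

open Subgroup in
theorem card_eq {G : Type*} [Group G] [Finite G] (Q : ℕ → Prop) [DecidablePred Q] (n : ℕ)
    (hn : Nat.card G < n) :
    Nat.card {x : G // Q (centralizer ({x} : Set G)).index} =
      ∑ k ∈ (Finset.range n).filter Q, k * Nat.card {C : ConjClasses G // Nat.card C.carrier = k} := by
  classical
  have := Fintype.ofFinite G
  have := Fintype.ofFinite (ConjClasses G)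
  rw [Nat.card_eq_fintype_card, Fintype.card_subtype,
    Finset.card_eq_sum_card_fiberwise (f := fun x : G => (centralizer ({x} : Set G)).index)
      (t := (Finset.range n).filter Q)]
  · refine Finset.sum_congr rfl fun k hk => ?_
    rw [Finset.filter_filter, Nat.card_eq_fintype_card, Fintype.card_subtype,
      Finset.card_eq_sum_card_fiberwise (f := fun x : G => ConjClasses.mk x)
        (t := Finset.univ.filter fun C : ConjClasses G => Nat.card C.carrier = k),
      mul_comm, ← smul_eq_mul, ← Finset.sum_const]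
    · refine Finset.sum_congr rfl fun C hC => ?_
      have h1 := (Finset.mem_filter.1 hC).2
      conv_rhs => rw [← h1]
      rw [Nat.card_eq_fintype_card, Fintype.card_subtype]
      congr 1
      ext x
      simp only [Finset.mem_filter, Finset.mem_univ, true_and, ConjClasses.mem_carrier_iff_mk_eq,
        and_iff_right_iff_imp]
      rintro rfl
      rw [H8.card_carrier_mk] at h1
      rw [h1]
      exact ⟨(Finset.mem_filter.1 hk).2, rfl⟩
    · intro x hx
      simp only [Finset.coe_filter, Finset.mem_univ, true_and, Set.mem_setOf_eq] at hx ⊢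
      rw [H8.card_carrier_mk]; exact hx.2
  · intro x hx
    simp only [Finset.coe_filter, Finset.mem_univ, true_and, Set.mem_setOf_eq, Finset.mem_range] at hx ⊢
    exact ⟨lt_of_le_of_lt (Nat.le_of_dvd Nat.card_pos (index_dvd_card _)) hn, hx⟩

open Subgroup in
theorem card_S {G : Type*} [Group G] [Finite G] (p : ℕ) [hp : Fact p.Prime] :
    ∃ t, ¬ p ∣ t ∧ Nat.card {x : G // ∃ a, (centralizer ({x} : Set G)).index = p ^ a} =
      Nat.card (centralizer (pResidual p G : Set G)) * t := by
  classical
  set R := pResidual p G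
  set C := centralizer (R : Set G) with hC
  obtain ⟨r, hr⟩ := H3.index_pResidual (p := p) (G := G)
  have h1 : ∀ x : G, (∃ a, (centralizer ({x} : Set G)).index = p ^ a) ↔
      ∃ a, (centralizer ({x} : Set G)).relIndex R ∣ p ^ a := by
    intro x
    have h3 := relIndex_mul_index (inf_le_left : R ⊓ centralizer ({x} : Set G) ≤ R)
    have h4 := relIndex_mul_index (inf_le_right : R ⊓ centralizer ({x} : Set G) ≤ _)
    rw [inf_relIndex_left] at h3
    rw [inf_relIndex_right, ← h3] at h4
    constructor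
    · rintro ⟨a, ha⟩
      obtain ⟨t, ht⟩ := relIndex_dvd_index_of_normal R (centralizer ({x} : Set G))
      rw [ht, mul_left_comm] at h4
      exact ⟨a, t, ha ▸ Nat.eq_of_mul_eq_mul_left
        (Nat.pos_of_ne_zero FiniteIndex.index_ne_zero) h4⟩
    · rintro ⟨a, ha⟩
      have h5 : (centralizer ({x} : Set G)).index ∣ p ^ (a + r) := by
        rw [pow_add, ← hr]
        exact (Dvd.intro_left _ h4).trans (Nat.mul_dvd_mul_right ha _)
      obtain ⟨b, -, hb⟩ := (Nat.dvd_prime_pow hp.out).1 h5
      exact ⟨b, hb⟩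
  set S : Set G := {x | ∃ a, (centralizer ({x} : Set G)).index = p ^ a} with hS
  have h2 : QuotientGroup.mk ⁻¹' ((QuotientGroup.mk : G → G ⧸ C) '' S) = S := by
    refine Set.Subset.antisymm ?_ (Set.subset_preimage_image _ _)
    rintro x ⟨y, hy, hxy⟩
    rw [QuotientGroup.eq] at hxy
    obtain ⟨a, ha⟩ := (h1 y).1 hy
    refine (h1 x).2 ⟨a, dvd_trans (index_dvd_of_le fun z hz => ?_) ha⟩
    rw [mem_subgroupOf, mem_centralizer_singleton_iff] at hz ⊢
    have := Commute.mul_right hz (hxy z z.2)
    rwa [mul_inv_cancel_left] at this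
  have h3 := QuotientGroup.card_preimage_mk C ((QuotientGroup.mk : G → G ⧸ C) '' S)
  rw [h2] at h3
  refine ⟨_, ?_, h3⟩
  let P : Sylow p G := default
  letI : MulAction (P : Subgroup G) (G ⧸ C) := MulAction.compHom (G ⧸ C)
    ((MulAut.conj : G ⧸ C →* _).comp ((QuotientGroup.mk' C).comp (P : Subgroup G).subtype))
  let X : SubMulAction (P : Subgroup G) (G ⧸ C) :=
    { carrier := QuotientGroup.mk '' S
      smul_mem' := by
        rintro u _ ⟨x, ⟨a, ha⟩, rfl⟩
        exact ⟨u * x * (u : G)⁻¹, ⟨a, by rw [H8.index_centralizer_conj, ha]⟩, rfl⟩ }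
  have h4 := P.2.card_modEq_card_fixedPoints X
  have h5 : Nat.card (MulAction.fixedPoints (P : Subgroup G) X) = 1 := by
    have one_mem : (1 : G ⧸ C) ∈ X := ⟨1, ⟨0, by simp⟩, rfl⟩
    rw [Nat.card_eq_one_iff_exists]
    refine ⟨⟨⟨1, one_mem⟩, fun u => Subtype.ext (by
      change (u : G ⧸ C) * 1 * (u : G ⧸ C)⁻¹ = 1
      simp)⟩, ?_⟩
    rintro ⟨⟨_, x, ⟨a, ha⟩, rfl⟩, hx⟩
    refine Subtype.ext (Subtype.ext ((QuotientGroup.eq_one_iff x).2 ?_))
    have h6 : ∀ g : G, g * x * g⁻¹ * x⁻¹ ∈ C := by
      intro g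
      have hc : ((P : Subgroup G).relIndex ⊤).Coprime ((centralizer ({x} : Set G)).relIndex ⊤) := by
        rw [relIndex_top_right, relIndex_top_right, ha]
        exact (H3.sylow_index_coprime P).pow_right a
      obtain ⟨u, hu, c, hc', rfl⟩ := H1.exists_mul_of_coprime_relIndex hc (mem_top g)
      have e : u * c * x * (u * c)⁻¹ = u * (c * x * c⁻¹) * u⁻¹ := by group
      rw [e, H8.mem_centralizer_singleton_iff'.1 hc'.1, ← QuotientGroup.eq_one_iff,
        QuotientGroup.mk_mul, QuotientGroup.mk_inv, mul_inv_eq_one]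
      exact congrArg Subtype.val (hx ⟨u, hu.1⟩)
    have h7 : ∀ g ∈ R, g * x * g⁻¹ * x⁻¹ ∈ R := fun g hg => by
      rw [mul_assoc, mul_assoc]
      exact mul_mem hg (by rw [← mul_assoc]; exact Normal.conj_mem inferInstance _ (inv_mem hg) _)
    let φ : R →* G := MonoidHom.mk' (fun g => g * x * (g : G)⁻¹ * x⁻¹) (fun g k => by
      simp only [Subgroup.coe_mul]
      rw [h6 k _ (h7 g g.2)]
      calc _ = g * (k * x * (k : G)⁻¹ * x⁻¹) * (x * (g : G)⁻¹ * x⁻¹) := by group
        _ = _ := by rw [h6 k g g.2]; group)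
    have h8 : φ.ker = (centralizer ({x} : Set G)).subgroupOf R := by
      ext g
      rw [mem_subgroupOf, H8.mem_centralizer_singleton_iff', MonoidHom.mem_ker]
      exact mul_inv_eq_one
    obtain ⟨b, hb⟩ := (h1 x).1 ⟨a, ha⟩
    suffices h9 : R ≤ centralizer {x} from fun g hg => mem_centralizer_singleton_iff.1 (h9 hg)
    refine H3.pResidual_le_iff.2 fun g hg => ?_
    have h9 : orderOf (φ ⟨g, H3.mem_pResidual_of_coprime hg⟩) = 1 := by
      refine Nat.eq_one_of_dvd_coprimes (hg.pow_right b) ?_ (dvd_trans ?_ hb)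
      · exact (orderOf_map_dvd φ _).trans (by rw [← orderOf_coe])
      · rw [relIndex, ← h8, index_ker]
        exact orderOf_dvd_natCard φ.range ⟨_, rfl⟩
    rw [orderOf_eq_one_iff] at h9
    exact H8.mem_centralizer_singleton_iff'.2 (mul_inv_eq_one.1 h9)
  rw [h5] at h4
  intro hd
  exact hp.out.one_lt.ne' (Nat.dvd_one.1 ((h4.dvd_iff dvd_rfl).1 hd))

open Subgroup in
theorem result {G H : Type*} [Group G] [Finite G] [Group H] [Finite H]
    (hH : Group.IsNilpotent H)
    (h : ∀ k : ℕ, Nat.card {C : ConjClasses G // Nat.card C.carrier = k} = Nat.card {C : ConjClasses H // Nat.card C.carrier = k}) :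
    Group.IsNilpotent G := by
  classical
  have key : ∀ Q : ℕ → Prop, Nat.card {x : G // Q (centralizer ({x} : Set G)).index} =
      Nat.card {x : H // Q (centralizer ({x} : Set H)).index} := by
    intro Q
    rw [card_eq Q (Nat.card G + Nat.card H + 1) (by omega),
      card_eq Q (Nat.card G + Nat.card H + 1) (by omega)]
    simp only [h]
  have hc : Nat.card G = Nat.card H := by simpa using key fun _ => True
  refine H1.isNilpotent_of_sylow_normal fun p hp P => ?_
  obtain ⟨t, ht, h1⟩ := card_S (G := G) p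
  obtain ⟨s, -, h2⟩ := card_S (G := H) p
  rw [key fun k => ∃ a, k = p ^ a, h2] at h1
  let Q : Sylow p H := default
  have h3 : (Q : Subgroup H) ≤ centralizer (pResidual p H : Set H) := by
    rw [le_centralizer_iff]
    refine H3.pResidual_le_iff.2 fun g hg x hx => ?_
    obtain ⟨k, hk⟩ := H8.exists_orderOf_eq_of_mem Q.2 hx
    exact H1.commute_of_coprime_orderOf (by rw [hk]; exact hg.symm.pow_left _)
  have h4 : Nat.card (P : Subgroup G) ∣ Nat.card (centralizer (pResidual p G : Set G)) := by
    refine (H3.sylow_card_coprime_of_coprime P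
      ((hp.out.coprime_iff_not_dvd.2 ht).symm)).symm.dvd_of_dvd_mul_right ?_
    rw [← h1, P.card_eq_multiplicity, hc, ← Q.card_eq_multiplicity]
    exact (card_dvd_of_le h3).mul_right _
  have h5 : (P : Subgroup G) ≤ centralizer (pResidual p G : Set G) := by
    refine H1.le_of_coprime_index ?_
    refine Nat.Coprime.coprime_dvd_right ?_ P.card_coprime_index
    obtain ⟨u, hu⟩ := h4
    have h6 := (centralizer (pResidual p G : Set G)).card_mul_index
    rw [← (P : Subgroup G).card_mul_index, hu, mul_assoc] at h6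
    exact Dvd.intro_left _ (Nat.eq_of_mul_eq_mul_left Nat.card_pos h6)
  rw [← normalizer_eq_top_iff, eq_top_iff, ← H3.pResidual_sup_sylow P]
  exact sup_le ((le_centralizer_iff.1 h5).trans (centralizer_le_normalizer _)) le_normalizer

end Cfsg.Agent.S4139
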