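import Cfsg.Statements.S4143
import Cfsg.Agent.H13.MaxCl2

set_option autoImplicit false
open Cfsg

namespace Cfsg.Agent.S4143

open H13 Equiv Cfsg.FusionSystem
open scoped commutatorElement

/-- Let X be a finite p-group of order p^n containing a non-abelian subgroup B of order p³ with C_X(B) ≤ B. Then X has nilpotency class n − 1 (maximal class). -/
theorem result {X : Type*} [Group X] [Finite X] {p : ℕ} [Fact p.Prime] (n : ℕ) (hX : Nat.card X = p ^ n)
    (B : Subgroup X) (hB : Nat.card B = p ^ 3) (hBna : ¬ IsMulCommutative B) (hC : Subgroup.centralizer (B : Set X) ≤ B) :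
    Group.nilpotencyClass X = n - 1 := by
  have hP := IsPGroup.of_card hX
  haveI := hP.isNilpotent
  have h0 : 0 < p := (Fact.out : p.Prime).pos
  have hp1 := (Fact.out : p.Prime).one_lt
  obtain ⟨h1, h2⟩ := H9.center_of_card_cube hB hBna
  have hT : (⊤ : Subgroup X) ≠ ⊥ := fun e => hBna (by rw [show B = ⊥ from eq_bot_iff.2 (le_top.trans e.le)]; infer_instance)
  have h3 : B ⊓ Subgroup.centralizer (B : Set X) = Subgroup.center X :=
    (eq_of_ne_bot_of_le h1 (le_inf ((Subgroup.center_le_centralizer _).trans hC) (Subgroup.center_le_centralizer _))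
      (by simpa using H9.inf_center_ne_bot hT)).symm
  rw [h3] at h1 h2
  have h4 : ∀ g, (∀ x ∈ B, ⁅g, x⁆ ∈ Subgroup.center X) → g ∈ B := fun g hg => by
    have h5 : B ≤ H9.centMod (Subgroup.center X) B := H9.commutator_le_iff_le_centMod.1 h2.le
    have := H9.sup_inf_centralizer_eq_of_center h5 (h3 ▸ isCyclic_of_prime_card h1)
      ((H9.commutator_le_iff_le_centMod.2 le_rfl).trans h3.ge)
      fun g _ y hy => (Subgroup.mem_center_iff.1 (h3.le hy) g).symm
    exact (sup_le le_rfl (inf_le_right.trans hC)) (this.ge hg)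
  have h5 : p ^ 3 ≤ p ^ n := by rw [← hB, ← hX]; exact Nat.le_of_dvd Nat.card_pos B.card_subgroup_dvd_card
  obtain ⟨m, rfl⟩ := Nat.exists_eq_add_of_le' ((Nat.pow_le_pow_iff_right hp1).1 h5)
  have h6 : ∀ a ∈ B, a ∉ Subgroup.center X → Nat.card (B ⊓ Subgroup.centralizer {a} : Subgroup X) ≤ p ^ 2 :=
    fun a ha ha' => by
      have := mul_card_le_of_lt (hP.to_subgroup B) (lt_of_le_not_ge (inf_le_left (b := Subgroup.centralizer {a}))
        fun e => ha' (h3.le ⟨ha, fun x hx => Subgroup.mem_centralizer_singleton_iff.1 (e hx).2⟩))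
      rw [hB, pow_succ'] at this
      exact Nat.le_of_mul_le_mul_left this h0
  have hZB : Subgroup.center X ≤ B := h3.ge.trans inf_le_left
  obtain ⟨y, -, hy, -, hy'⟩ := H9.exists_central_step hP (M := ⊤) (N := Subgroup.center X)
    fun e => hBna ⟨⟨fun a b => Subtype.ext (Subgroup.mem_center_iff.1 (e (Subgroup.mem_top b.1)) a.1)⟩⟩
  have hyB := h4 y fun x _ => hy' x
  obtain ⟨a, ha, ha'⟩ : ∃ a ∈ B, a ∉ Subgroup.centralizer {y} := by
    by_contra! e
    exact hy (h3.le ⟨hyB, fun x hx => Subgroup.mem_centralizer_singleton_iff.1 (e x hx)⟩)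
  have haZ : a ∉ Subgroup.center X := fun e => ha' (Subgroup.center_le_centralizer _ e)
  refine H6.class_of_card_cent (m + 1) X a hX (le_trans (Subgroup.card_le_of_le (le_inf (fun g hg => h4 g fun x hx =>
    comm_swap ?_) le_rfl)) (h6 a ha haZ))
  have h7 : Subgroup.center X ⊔ Subgroup.zpowers y ≤ B ⊓ H9.centMod (Subgroup.center X) {g} :=
    sup_le (le_inf hZB (H9.le_centMod _ _)) (Subgroup.zpowers_le.2 ⟨hyB, fun _ _ => hy' _⟩)
  rcases eq_or_eq_of_card_le hP h7 inf_le_left (by
    rw [hB, pow_succ', pow_two, ← h1]; exact Nat.mul_le_mul_left _ (h1 ▸ mul_card_le_sup hP hy)) with e | e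
  · refine absurd ((sup_le (Subgroup.center_le_centralizer _) (Subgroup.zpowers_le.2
      (Subgroup.mem_centralizer_singleton_iff.2 rfl)) : _ ≤ Subgroup.centralizer {y}) (e.le ⟨ha, ?_⟩)) ha'
    rintro _ rfl
    rw [commutatorElement_eq_one_iff_mul_comm.2 (Subgroup.mem_centralizer_singleton_iff.1 hg).symm]
    exact Subgroup.one_mem _
  · exact (e.ge hx).2 g rfl

end Cfsg.Agent.S4143
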