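import Cfsg.Statements.S4144
import Cfsg.Agent.H3.Engel

set_option autoImplicit false
open Cfsg

namespace Cfsg.Agent.S4144

/-- Let X be a finite p-group of order p^n, n ≥ 2, of nilpotency class n − 1 (maximal class), and H any subgroup of X. Then the index in H of the subgroup generated by the p-th powers of elements of H is at most p^p. -/
theorem result {X : Type*} [Group X] [Finite X] {p : ℕ} [Fact p.Prime] (n : ℕ) (hn : 2 ≤ n) (hX : Nat.card X = p ^ n)
    (hmax : Group.nilpotencyClass X = n - 1) (H : Subgroup X) :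
    (Subgroup.closure {y : X | ∃ h ∈ H, y = h ^ p}).relIndex H ≤ p ^ p := by
  have hp : p.Prime := Fact.out
  have hP := IsPGroup.of_card hX
  have := hP.isNilpotent
  set K := Subgroup.closure {y : X | ∃ h ∈ H, y = h ^ p}
  have hK : ∀ x ∈ H, x ^ p ∈ K := fun x hx => Subgroup.subset_closure ⟨x, hx, rfl⟩
  have hKH : K ≤ H := (Subgroup.closure_le _).2 (by rintro _ ⟨x, hx, rfl⟩; exact H.pow_mem hx p)
  refine Nat.le_of_mul_le_mul_left (c := Nat.card K) ?_ Nat.card_pos
  rw [H1.card_mul_relIndex hKH, mul_comm]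
  obtain ⟨h, hc⟩ := H13.MC.of_class hX hn fun e => by
    have := Subgroup.lowerCentralSeries_eq_bot_iff_nilpotencyClass_le.1 e
    omega
  by_cases hH : H = ⊤
  swap
  · exact h.card_le_of_ne_top hK hH
  subst hH
  rw [Subgroup.card_top, hX]
  by_cases hn' : n ≤ p
  · exact (Nat.pow_le_pow_right hp.pos hn').trans (Nat.le_mul_of_pos_right _ Nat.card_pos)
  have p2 := hp.two_le
  have h0 : H13.lc X (p - 1) ≠ ⊥ := fun e => by
    have := Subgroup.lowerCentralSeries_eq_bot_iff_nilpotencyClass_le.1 e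
    omega
  have : K.Normal := ⟨fun x hx g => Subgroup.closure_induction (p := fun x _ => g * x * g⁻¹ ∈ K)
    (by rintro _ ⟨y, -, rfl⟩; rw [← conj_pow]; exact hK _ trivial) (by simp)
    (fun a b _ _ c d => by simpa [mul_assoc] using K.mul_mem c d)
    (fun a _ c => by simpa [mul_assoc] using K.inv_mem c) hx⟩
  have h1 : H13.lc X (p - 1) ≤ K := h.lc_le_of_not_le (by omega) fun e => by
    rw [Nat.sub_add_cancel hp.pos] at e
    obtain ⟨s, hs⟩ := h.exists_unif
    obtain ⟨y, hy⟩ : ∃ y, H13.ad s y ∉ H13.lc X 2 := by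
      by_contra! f
      exact hs.inv 0 (H13.lc_ne_bot_of_le h0 (by omega)) fun y _ => H13.comm_swap (by simpa [H13.ad] using f y⁻¹)
    have h2 := h.ad_iter_not_mem hs le_rfl (y := H13.ad s y) (H13.comm_mem_lc' _ trivial) hy (p - 2)
      (by rwa [show 1 + (p - 2) = p - 1 by omega])
    rw [← Function.iterate_succ_apply, show (p - 2).succ = p - 1 by omega,
      show 1 + (p - 2) + 1 = p by omega] at h2
    have hs := QuotientGroup.mk'_surjective (H13.lc X p)
    refine h2 ((QuotientGroup.eq_one_iff _).1 ((H3.map_ad_iter (QuotientGroup.mk' _) ..).trans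
      (H3.engel (fun g => ?_) ?_ _ _)))
    · obtain ⟨g, rfl⟩ := hs g
      exact (QuotientGroup.eq_one_iff _).2 (e (hK g trivial))
    · rw [← H13.lc_map hs, QuotientGroup.map_mk'_self]
  refine .trans ?_ (Nat.mul_le_mul_left _ (Subgroup.card_le_of_le h1))
  rw [hc _ (by omega), ← pow_add]
  exact Nat.pow_le_pow_right hp.pos (by omega)

end Cfsg.Agent.S4144
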