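import Cfsg.Statements.S4145
import Cfsg.Agent.H1.CycSyl
import Cfsg.Agent.H1.PSolv
import Cfsg.Agent.H3.Transfer

set_option autoImplicit false
open Cfsg

namespace Cfsg.Agent.S4145

/-- Let G be a finite group with a cyclic Sylow p-subgroup and H a normal subgroup such that p divides both the order of H and the index of H. Then H has a normal p-complement and G is p-solvable. -/
theorem result {G : Type*} [Group G] [Finite G] (p : ℕ) [Fact p.Prime]
    (P : Sylow p G) (hP : IsCyclic (P : Subgroup G)) (H : Subgroup G) [H.Normal] (h1 : p ∣ Nat.card H) (h2 : p ∣ H.index) :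
    Cfsg.HasNormalPComplement p H ∧ Cfsg.IsPSolvable p G := by
  have hp : p.Prime := Fact.out
  have hH : Cfsg.HasNormalPComplement p H := by
    rcases H1.hasNormalPComplement_or_le_of_cyclic P hP H with h | h
    · exact h
    · exact absurd (h2.trans (Subgroup.index_dvd_of_le h)) P.not_dvd_index
  refine ⟨hH, ?_⟩
  set O := Cfsg.pPrimeCore p G with hO
  have hOc : (Nat.card O).Coprime p := H1.coprime_card_pPrimeCore p
  refine H1.IsPSolvable.of_normal_quotient O (H1.isPSolvable_of_coprime hOc) ?_
  set f := QuotientGroup.mk' O with hf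
  have hfs : Function.Surjective f := QuotientGroup.mk'_surjective O
  have hO' : Cfsg.pPrimeCore p (G ⧸ O) = ⊥ := H1.pPrimeCore_quotient_pPrimeCore p
  let P' : Sylow p (G ⧸ O) := P.mapSurjective hfs
  have hP' : IsCyclic (P' : Subgroup (G ⧸ O)) :=
    isCyclic_of_surjective _ (f.subgroupMap_surjective (P : Subgroup G))
  have hn : (H.map f).Normal := Subgroup.Normal.map inferInstance f hfs
  have hHp : IsPGroup p (H.map f) :=
    H1.isPGroup_of_hasNormalPComplement hO' _ (H3.hasNormalPComplement_map f hH)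
  have hne : Cfsg.pCore p (G ⧸ O) ≠ ⊥ := fun h0 => by
    have h3 : H.map f = ⊥ := le_bot_iff.mp (h0 ▸ H1.le_pCore hHp)
    rw [Subgroup.map_eq_bot_iff, hf, QuotientGroup.ker_mk'] at h3
    have := h1.trans (Subgroup.card_dvd_of_le h3)
    exact hp.one_lt.ne' (Nat.eq_one_of_dvd_coprimes hOc this dvd_rfl)
  obtain ⟨Z, hZ, -, hC, -⟩ := H1.cyclic_sylow_normal hO' P' hP' hne
  have hPn : (P' : Subgroup (G ⧸ O)).Normal := hC ▸ inferInstance
  refine H1.IsPSolvable.of_normal_quotient (P' : Subgroup (G ⧸ O))
    (H1.isPSolvable_of_isPGroup P'.isPGroup') (H1.isPSolvable_of_not_dvd P'.not_dvd_index)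

end Cfsg.Agent.S4145
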