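import Cfsg.Statements.S4150
import Cfsg.Agent.H19.AP1
import Cfsg.Agent.H19.AP2

set_option autoImplicit false
open Cfsg

namespace Cfsg.Agent.S4150
open H17 H19
open Equiv Equiv.Perm Subgroup

theorem red {m p q : ℕ} (hp : p.Prime) (hq : q.Prime) (hpq : p < q) (h5 : 5 ≤ q) (hm : m ≤ 2 * p)
    (h1 : p + 3 ≤ q ∨ (p = 3 ∧ q = 5) ∨ (p = 5 ∧ q = 7) ∨ (p = 11 ∧ q = 13))
    (h2 : m < 2 * p ∨ q + 3 ≤ 2 * p ∨ (p = 3 ∧ q = 5))
    (x y : alternatingGroup (Fin m)) (hx : orderOf x = p) (hy : orderOf y = q) :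
    ∃ d : ℕ, 5 ≤ d ∧ Nonempty (Subgroup.closure ({x, y} : Set (alternatingGroup (Fin m))) ≃*
      alternatingGroup (Fin d)) := by
  let Ω : Finset (Fin m) := x.1.support ∪ y.1.support
  have inv : ∀ g : Perm (Fin m), g.support ⊆ Ω → ∀ t, g t ∈ Ω ↔ t ∈ Ω := fun g hg t => by
    by_cases h : g t = t
    · rw [h]
    · have h' := mem_support.2 h
      exact iff_of_true (hg (apply_mem_support.2 h')) (hg h')
  have ix := inv x.1 Finset.subset_union_left
  have iy := inv y.1 Finset.subset_union_right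
  let x' : Perm {t // t ∈ Ω} := x.1.subtypePerm ix
  let y' : Perm {t // t ∈ Ω} := y.1.subtypePerm iy
  have ex : ofSubtype x' = x.1 :=
    ofSubtype_subtypePerm ix fun t ht => Finset.mem_union_left _ (mem_support.2 ht)
  have ey : ofSubtype y' = y.1 :=
    ofSubtype_subtypePerm iy fun t ht => Finset.mem_union_right _ (mem_support.2 ht)
  have hc : Fintype.card {t // t ∈ Ω} ≤ m := by
    rw [Fintype.card_coe]; simpa using Ω.card_le_univ
  obtain ⟨d, hd, ⟨e⟩⟩ := AP.core (x := x') (y := y') hp hq hpq h5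
    (by rw [← orderOf_injective ofSubtype ofSubtype_injective x', ex, orderOf_coe, hx])
    (by rw [← orderOf_injective ofSubtype ofSubtype_injective y', ey, orderOf_coe, hy])
    (by rw [mem_alternatingGroup, ← sign_ofSubtype, ex]; exact x.2)
    (by rw [mem_alternatingGroup, ← sign_ofSubtype, ey]; exact y.2)
    (Finset.eq_univ_of_forall fun t => by
      rcases Finset.mem_union.1 t.2 with h | h
      · exact Finset.mem_union_left _ (mem_support.2 fun k => mem_support.1 h (congrArg Subtype.val k))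
      · exact Finset.mem_union_right _ (mem_support.2 fun k => mem_support.1 h (congrArg Subtype.val k)))
    (by omega) h1 (by omega)
  refine ⟨d, hd, ⟨((equivMapOfInjective _ (alternatingGroup (Fin m)).subtype
    Subtype.val_injective).trans ((MulEquiv.subgroupCongr ?_).trans
      (equivMapOfInjective _ ofSubtype ofSubtype_injective).symm)).trans e⟩⟩
  rw [MonoidHom.map_closure, MonoidHom.map_closure, Set.image_pair, Set.image_pair, ex, ey]
  rfl

/-- Let m ≥ 5. Then there are primes p < q with m/2 ≤ p and q ≤ m such that any two elements x, y of the alternating group of degree m with x of order p and y of order q generate a subgroup isomorphic to an alternating group of some degree d ≥ 5. -/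
theorem result (m : ℕ) (hm : 5 ≤ m) :
    ∃ p q : ℕ, p.Prime ∧ q.Prime ∧ m ≤ 2 * p ∧ p < q ∧ q ≤ m ∧
      ∀ x y : alternatingGroup (Fin m), orderOf x = p → orderOf y = q →
        ∃ d : ℕ, 5 ≤ d ∧ Nonempty (Subgroup.closure ({x, y} : Set (alternatingGroup (Fin m))) ≃* alternatingGroup (Fin d)) := by
  have k : ∃ p q : ℕ, p.Prime ∧ q.Prime ∧ m ≤ 2 * p ∧ p < q ∧ q ≤ m ∧ 5 ≤ q ∧
      (p + 3 ≤ q ∨ (p = 3 ∧ q = 5) ∨ (p = 5 ∧ q = 7) ∨ (p = 11 ∧ q = 13)) ∧
      (m < 2 * p ∨ q + 3 ≤ 2 * p ∨ (p = 3 ∧ q = 5)) := by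
    by_cases h : 17 ≤ m
    · obtain ⟨p, q, h1, h2, h3, h4, h5⟩ := AP.exists_far_primes m h
      have := h1.two_le
      exact ⟨p, q, h1, h2, by omega, by omega, h5, by omega, by omega, by omega⟩
    by_cases h : 15 ≤ m
    · exact ⟨11, 13, by decide, by decide, by omega, by omega, by omega, by omega, by omega, by omega⟩
    by_cases h : 11 ≤ m
    · exact ⟨7, 11, by decide, by decide, by omega, by omega, by omega, by omega, by omega, by omega⟩
    by_cases h : 7 ≤ m
    · exact ⟨5, 7, by decide, by decide, by omega, by omega, by omega, by omega, by omega, by omega⟩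
    exact ⟨3, 5, by decide, by decide, by omega, by omega, by omega, by omega, by omega, by omega⟩
  obtain ⟨p, q, h1, h2, h3, h4, h5, h6, h7, h8⟩ := k
  exact ⟨p, q, h1, h2, h3, h4, h5, red h1 h2 h4 h6 h3 h7 h8⟩

end Cfsg.Agent.S4150
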