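import Mathlib
import Cfsg.Statements.S4151
import Cfsg.Agent.H8.Sdp
import Cfsg.Agent.H8.Idx
import Cfsg.Agent.H1.PSolv
import Cfsg.Agent.H2.FrobCompl
import Cfsg.Agent.S0016

set_option autoImplicit false
open Cfsg

namespace Cfsg.Agent.S4151

open Subgroup H8 in

theorem result {G : Type*} [Group G] [Finite G] (H : Subgroup G)
    (hTI : Cfsg.IsTISubset (H : Set G)) (hnn : ¬ H.Normal)
    (hHall : (Nat.card H).Coprime (H.subgroupOf (Subgroup.normalizer (H : Set G))).index)
    (hsep : ∃ (n : ℕ) (M : Fin (n + 1) → Subgroup G), M 0 = ⊥ ∧ M (Fin.last n) = ⊤ ∧ Monotone M ∧ (∀ i, (M i).Normal) ∧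
      ∀ i : Fin n, (∀ q : ℕ, q.Prime → q ∣ (M i.castSucc).relIndex (M i.succ) → q ∣ Nat.card H) ∨
        ((M i.castSucc).relIndex (M i.succ)).Coprime (Nat.card H))
    (h2 : ∀ P : Sylow 2 H, IsMulCommutative (P : Subgroup H))
    (Q : Subgroup G) (hQ : Q ≤ Subgroup.normalizer (H : Set G)) (hQH : Q ⊓ H = ⊥) (hQH' : Q ⊔ H = Subgroup.normalizer (H : Set G)) :
    (Nat.card ↥(H ⊓ Subgroup.centralizer (Q : Set G))).Coprime (H ⊓ Subgroup.centralizer (Q : Set G)).index ∧
    ∃ N : Subgroup G, N.Normal ∧ N.IsComplement' (H ⊓ Subgroup.centralizer (Q : Set G)) := by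
  set N := normalizer (H : Set G) with hN
  set π := {q : ℕ | q ∣ Nat.card H} with hπ
  have hti : ∀ g x : G, x ∈ H → x ≠ 1 → g * x * g⁻¹ ∈ H → g ∈ N := fun g x h1 h2 h3 => by
    by_contra h; exact h2 (hTI g h x h1 h3)
  have hnorm : ∀ U : Subgroup G, U ≤ H → U ≠ ⊥ → normalizer (U : Set G) ≤ N := by
    intro U h1 h2 g hg
    obtain ⟨⟨x, hx⟩, hx1⟩ := ne_bot_iff_exists_ne_one.1 h2
    exact hti g x (h1 hx) (fun h => hx1 (Subtype.ext h)) (h1 (H1.conj_mem_of_mem_normalizer hg hx))
  have hH0 : H ≠ ⊥ := by rintro rfl; exact hnn inferInstance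
  have hps : H1.PiSep π G := by
    obtain ⟨n, M, h0, hn, -, h3, h4⟩ := hsep
    refine H1.piSep_of_chain M h0 hn h3 fun i => (h4 i).imp id fun h q hq h1 h2 => ?_
    exact hq.one_lt.ne' (Nat.eq_one_of_dvd_coprimes h h1 h2)
  have hHN : IsPiHallOf π H N := H1.isPiHallOf_of_coprime le_normalizer hHall
  have hsyl : ∀ (p : ℕ) [Fact p.Prime] (P : Subgroup G), P ≠ ⊥ → IsPiHallOf {p} P H →
      IsPiHallOf {p} P ⊤ := by
    intro p hp P h0 hP
    have h1 : p ∈ π := by
      obtain ⟨q, hq, h⟩ := H1.exists_prime_dvd_card h0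
      rw [← show q = p from hP.2.1 q hq h]
      exact h.trans (card_dvd_of_le hP.1)
    have h2 : IsPiHallOf {p} P N := H1.IsPiHallOf.trans_of_relIndex hP le_normalizer
      ((H1.IsPiHallOf.isPiNat_relIndex hHN).mono (by simpa using h1))
    refine H1.sylowOf_of_sylowOf_normalizer le_top ?_
    rw [top_inf_eq]
    exact H1.IsPiHallOf.of_le h2 le_normalizer (hnorm P hP.1 h0)
  have hHG : IsPiHallOf π H ⊤ := by
    refine ⟨le_top, hHN.2.1, fun p hp h1 h2 => ?_⟩
    have := Fact.mk hp
    obtain ⟨P, hP⟩ := H1.exists_sylowOf p H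
    have h0 : P ≠ ⊥ := by
      rintro rfl
      exact hP.2.2 p hp rfl (by rwa [relIndex_bot_left])
    exact (hsyl p P h0 hP).2.2 p hp rfl (h2.trans (relIndex_dvd_of_le_left _ hP.1))
  set O := piCore πᶜ G with hO
  have hOH : (Nat.card H).Coprime (Nat.card O) :=
    (H1.IsPiHallOf.isPiNat hHG).coprime (H1.isPiNat_card_piCore _)
  have hGO : O ⊔ N = ⊤ := by
    set L := (piCore π (G ⧸ O)).comap (QuotientGroup.mk' O) with hL
    have h1 : piCore π (G ⧸ O) ≠ ⊥ := by
      have : Nontrivial (G ⧸ O) := QuotientGroup.nontrivial_iff.2 fun h => hH0 (by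
        have := H1.inf_eq_bot_of_coprime' hOH
        rwa [h, inf_top_eq] at this)
      exact (hps.quotient O).piCore_ne_bot.resolve_right (not_not.2 (H1.piCore_quotient_piCore _))
    have h2 : L ≤ H ⊔ O := by
      have h3 := H1.IsPiHallOf.map hHG (QuotientGroup.mk' O)
      rw [map_top_of_surjective _ (QuotientGroup.mk'_surjective O), H1.isPiHallOf_top] at h3
      refine (comap_mono (H1.piCore_le_of_isPiHall h3)).trans ?_
      rw [comap_map_eq, QuotientGroup.ker_mk']
    have h3 : IsPiHallOf π (H ⊓ L) L :=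
      H1.IsPiHallOf.inf hHG le_top (by rw [normalizer_eq_top]; exact le_top)
    obtain ⟨p, hp, h4⟩ := H1.exists_prime_dvd_card h1
    have := Fact.mk hp
    have h5 : p ∈ π := H1.isPiNat_card_piCore π p hp h4
    obtain ⟨P, hP⟩ := H1.exists_sylowOf p (H ⊓ L)
    have h6 : IsPiHallOf {p} P L := H1.IsPiHallOf.trans_of_relIndex hP inf_le_right
      ((H1.IsPiHallOf.isPiNat_relIndex h3).mono (by simpa using h5))
    have h0 : P ≠ ⊥ := by
      rintro rfl
      refine h6.2.2 p hp rfl ?_
      rw [relIndex_bot_left, H1.card_comap_mk']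
      exact h4.mul_right _
    have h7 := H1.sylowOf_frattini_sup h6 (le_top : L ≤ ⊤) (by rw [normalizer_eq_top])
    rw [eq_top_iff, ← h7]
    refine sup_le (h2.trans (sup_le (le_normalizer.trans le_sup_right) le_sup_left)) ?_
    exact inf_le_right.trans ((hnorm P (hP.1.trans inf_le_left) h0).trans le_sup_right)
  have hab : ∀ A : Subgroup G, A ≤ H → IsMulCommutative A → IsCyclic A := by
    intro A h1 h3
    by_contra h4
    have h5 := H1.le_of_forall_centralizer_le (K := O) (H := N) h4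
      (by rw [normalizer_eq_top]; exact le_top) (hOH.coprime_dvd_left (card_dvd_of_le h1))
      fun a ha ha1 g hg => hti g a (h1 ha) ha1 (by
        rw [mem_centralizer_singleton_iff'.1 hg.2]; exact h1 ha)
    rw [sup_eq_right.2 h5] at hGO
    exact hnn (normalizer_eq_top_iff.1 hGO)
  have hZ : IsZGroup H := by
    refine ⟨fun p hp P => ?_⟩
    have := Fact.mk hp
    have h1 : ∀ A : Subgroup P, IsMulCommutative A → IsCyclic A := fun A hA => by
      set f := H.subtype.comp (P : Subgroup H).subtype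
      have hf : Function.Injective f := Subtype.val_injective.comp Subtype.val_injective
      exact (A.equivMapOfInjective f hf).isCyclic.2
        (hab _ (by rintro _ ⟨x, -, rfl⟩; exact x.1.2) inferInstance)
    by_cases h : p = 2
    · subst h
      have := h2 P
      exact topEquiv.isCyclic.1 (h1 ⊤ inferInstance)
    exact (Cfsg.Agent.S0016.result p P.2 (H2.unique_order_p_of_abelian_cyclic P.2 h1)).resolve_right
      fun h' => h h'.1
  have hHQ : H ≤ normalizer (H : Set G) := le_normalizer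
  have hQc : (Nat.card Q).Coprime (Nat.card H) := by
    have h1 := H1.card_sup_of_disjoint hQ hQH
    rw [hQH', ← H1.card_mul_relIndex hHQ, mul_comm] at h1
    rw [← Nat.eq_of_mul_eq_mul_right Nat.card_pos h1]
    exact hHall.symm
  obtain ⟨h3, h4⟩ := zgroup_card_eq hZ hQ hQc
  set C := H ⊓ centralizer (Q : Set G) with hC
  have hCH : Nat.card C ∣ Nat.card H := card_dvd_of_le inf_le_left
  have h5 := H1.commutator_sup_centralizer hQ hQc (Or.inr inferInstance)
  constructor
  · have h6 : C.index = Nat.card (⁅H, Q⁆ : Subgroup G) * H.index := by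
      refine Nat.eq_of_mul_eq_mul_left (Nat.card_pos (α := C)) ?_
      rw [card_mul_index, ← mul_assoc, ← h3, card_mul_index]
    rw [h6]
    refine h4.mul_right (Nat.Coprime.coprime_dvd_left hCH ?_)
    simpa using H1.IsPiHallOf.coprime hHG
  have hQV : Q ≤ normalizer ((⁅H, Q⁆ : Subgroup G) : Set G) :=
    H1.le_normalizer_commutator hQ le_normalizer
  have h6 : N ≤ normalizer ((Q ⊔ ⁅H, Q⁆ : Subgroup G) : Set G) := by
    rw [← hQH']
    refine sup_le (le_sup_left.trans le_normalizer) ?_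
    conv_lhs => rw [← h5]
    refine sup_le (le_sup_right.trans le_normalizer) (H1.le_normalizer_sup ?_ ?_)
    · exact inf_le_right.trans (centralizer_le_normalizer _)
    · exact inf_le_left.trans (le_normalizer_commutator_left H Q)
  have hM : ((Q ⊔ ⁅H, Q⁆) ⊔ O).Normal := by
    rw [← normalizer_eq_top_iff, eq_top_iff, ← hGO]
    exact sup_le (le_sup_right.trans le_normalizer)
      (H1.le_normalizer_sup h6 (by rw [normalizer_eq_top]; exact le_top))
  refine ⟨_, hM, H1.isComplement'_of_inf_sup (H1.inf_eq_bot_of_coprime' ?_) ?_⟩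
  · refine Nat.Coprime.coprime_dvd_left ((H1.card_sup_dvd_normal _ _).trans
      (mul_dvd_mul_right (H1.card_sup_dvd hQV) _)) ?_
    exact ((hQc.coprime_dvd_right hCH).mul_left h4.symm).mul_left
      (hOH.symm.coprime_dvd_right hCH)
  · rw [sup_right_comm, sup_assoc Q, h5, hQH', sup_comm, hGO]

end Cfsg.Agent.S4151
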