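import Mathlib
import Cfsg.Statements.S4153
import Cfsg.Agent.H8.Elt
import Cfsg.Agent.H7.Basic

set_option autoImplicit false
open Cfsg

namespace Cfsg.Agent.S4153

open Subgroup in

theorem result {G : Type*} [Group G] [Finite G] (p : ℕ) [Fact p.Prime] (N : Subgroup G) [N.Normal]
    (P : Sylow p G) (Pbar : Sylow p (G ⧸ N)) :
    Nat.card {g : (G ⧸ N) // ∃ k : ℕ, orderOf g = p ^ k} * Nat.card (P : Subgroup G) ≤ Nat.card {g : G // ∃ k : ℕ, orderOf g = p ^ k} * Nat.card (Pbar : Subgroup (G ⧸ N)) ∧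
    (N ≤ Subgroup.center G → Nat.card {g : (G ⧸ N) // ∃ k : ℕ, orderOf g = p ^ k} * Nat.card (P : Subgroup G) = Nat.card {g : G // ∃ k : ℕ, orderOf g = p ^ k} * Nat.card (Pbar : Subgroup (G ⧸ N))) := by
  classical
  have hp : p.Prime := Fact.out
  have hf := QuotientGroup.mk'_surjective N
  set m := p ^ (Nat.card N).factorization p with hm
  have hS : ∀ S : Sylow p G, Nat.card (N ⊓ S : Subgroup G) = m := by
    intro S
    rw [hm, ← (H3.sylowInfNormal S N).card_eq_multiplicity, H3.coe_sylowInfNormal,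
      H1.card_subgroupOf, inf_comm]
  have h1 : Nat.card (P : Subgroup G) = m * Nat.card (Pbar : Subgroup (G ⧸ N)) := by
    rw [← H7.card_map_mk_mul N P, hS, mul_comm, Pbar.card_eq_multiplicity,
      ← (P.mapSurjective hf).card_eq_multiplicity]
    rfl
  let π : {g : G // ∃ k : ℕ, orderOf g = p ^ k} → {g : G ⧸ N // ∃ k : ℕ, orderOf g = p ^ k} :=
    fun g => ⟨g.1, by
      obtain ⟨k, hk⟩ := g.2
      apply H8.exists_orderOf_eq_of_pow (k := k)
      rw [← QuotientGroup.mk_pow, ← hk, pow_orderOf_eq_one]; rfl⟩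
  have := Fintype.ofFinite {g : G ⧸ N // ∃ k : ℕ, orderOf g = p ^ k}
  have h2 : Nat.card {g : G // ∃ k : ℕ, orderOf g = p ^ k} = ∑ y, Nat.card {g // π g = y} := by
    rw [← Nat.card_congr (Equiv.sigmaFiberEquiv π), Nat.card_sigma]
  have h3 : ∀ y, m ≤ Nat.card {g // π g = y} ∧ (N ≤ center G → Nat.card {g // π g = y} ≤ m) := by
    rintro ⟨y, j, hj⟩
    obtain ⟨g, rfl⟩ := QuotientGroup.mk_surjective y
    obtain ⟨a, b, ⟨k, hk⟩, hb, hab⟩ := H3.exists_pPart_mul_pPrimePart (p := p) g (orderOf_pos g).ne'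
    have hb1 : ((g ^ b : G) : G ⧸ N) = 1 := by
      rw [← orderOf_eq_one_iff]
      refine Nat.eq_one_of_dvd_coprimes (hb.pow_right j) (orderOf_map_dvd (QuotientGroup.mk' N) _) ?_
      rw [← hj, QuotientGroup.mk_pow]; exact orderOf_pow_dvd _
    have hg : ((g ^ a : G) : G ⧸ N) = g := by
      conv_rhs => rw [← hab]
      rw [QuotientGroup.mk_mul, hb1, mul_one]
    obtain ⟨S, hS'⟩ := (H8.isPGroup_zpowers_of_orderOf hk).exists_le_sylow
    have hgS := hS' (mem_zpowers _)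
    let φ : (N ⊓ S : Subgroup G) → {x // π x = ⟨g, j, hj⟩} := fun n =>
      ⟨⟨g ^ a * n, H8.exists_orderOf_eq_of_mem S.2 (mul_mem hgS n.2.2)⟩, Subtype.ext (by
        change ((g ^ a * n : G) : G ⧸ N) = g
        rw [QuotientGroup.mk_mul, hg, (QuotientGroup.eq_one_iff _).2 n.2.1, mul_one])⟩
    rw [← hS S]
    refine ⟨Nat.card_le_card_of_injective φ fun x y h => ?_,
      fun hN => Nat.card_le_card_of_surjective φ ?_⟩
    · exact Subtype.ext (mul_left_cancel (congrArg (fun z => z.1.1) h))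
    · rintro ⟨⟨x, i, hi⟩, hx⟩
      have h4 : (x : G ⧸ N) = g := congrArg Subtype.val hx
      rw [← hg, eq_comm, QuotientGroup.eq] at h4
      refine ⟨⟨(g ^ a)⁻¹ * x, h4, ?_⟩, Subtype.ext (Subtype.ext (mul_inv_cancel_left _ _))⟩
      refine H8.mem_sylow_of_mem_normalizer S (center_le_normalizer _ (hN h4))
        (H8.isPGroup_zpowers_of_pow (k := k + i) ?_)
      have h5 : Commute (g ^ a)⁻¹ x := by
        have h6 : Commute (g ^ a) ((g ^ a)⁻¹ * x) := mem_center_iff.1 (hN h4) _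
        have := (Commute.refl (g ^ a)).mul_right h6
        rw [mul_inv_cancel_left] at this
        exact this.inv_left
      rw [h5.mul_pow, pow_add, pow_mul, inv_pow, ← hk, pow_orderOf_eq_one, mul_comm, pow_mul, ← hi,
        pow_orderOf_eq_one]
      simp
  rw [h1, ← mul_assoc, h2, Nat.card_eq_fintype_card, ← Finset.card_univ, ← smul_eq_mul _ m,
    ← Finset.sum_const]
  refine ⟨Nat.mul_le_mul_right _ (Finset.sum_le_sum fun y _ => (h3 y).1), fun hN => ?_⟩
  rw [Finset.sum_congr rfl fun y _ => le_antisymm (h3 y).1 ((h3 y).2 hN)]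

end Cfsg.Agent.S4153
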