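import Mathlib
import Cfsg.Statements.S4154
import Cfsg.Agent.H8.Elt

set_option autoImplicit false
open Cfsg

namespace Cfsg.Agent.S4154

open Subgroup in

theorem result {G : Type*} [Group G] [Finite G] (α : MulAut G)
    (hccp : ∀ x : G, ∃ c g : G, α c = c ∧ x = c * (g⁻¹ * α g))
    (N : Subgroup G) [N.Normal] (hN : ∀ n ∈ N, α n ∈ N) :
    (∀ x : G, ∃ c g : G, c⁻¹ * α c ∈ N ∧ x⁻¹ * (c * (g⁻¹ * α g)) ∈ N) ∧
    (∀ x : G, x⁻¹ * α x ∈ N → ∃ c : G, α c = c ∧ c⁻¹ * x ∈ N) := by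
  refine ⟨fun x => ?_, ?_⟩
  · obtain ⟨c, g, h1, h2⟩ := hccp x
    exact ⟨c, g, by rw [h1]; simp, by rw [← h2]; simp⟩
  let β : G ⧸ N →* G ⧸ N := QuotientGroup.map N N α.toMonoidHom hN
  have hβ : ∀ x : G, β x = (α x : G) := fun x => rfl
  let D : Subgroup (G ⧸ N) := β.eqLocus (MonoidHom.id _)
  let C : Subgroup (G ⧸ N) := (α.toMonoidHom.eqLocus (MonoidHom.id _)).map (QuotientGroup.mk' N)
  have hCD : C ≤ D := by
    rintro _ ⟨c, hc, rfl⟩
    change β c = c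
    rw [hβ, show α c = c from hc]
  let f : C × ((G ⧸ N) ⧸ D) → G ⧸ N := fun x => x.1 * Quotient.liftOn' x.2
    (fun y => y * β y⁻¹) (by
      intro a b hab
      rw [QuotientGroup.leftRel_apply] at hab
      have h1 : β (a⁻¹ * b) = a⁻¹ * b := hab
      simp only [map_mul, map_inv] at h1 ⊢
      calc a * (β a)⁻¹ = a * ((β a)⁻¹ * β b) * (β b)⁻¹ := by group
        _ = b * (β b)⁻¹ := by rw [h1]; group)
  have hf : Function.Surjective f := by
    intro y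
    obtain ⟨x, rfl⟩ := QuotientGroup.mk_surjective y
    obtain ⟨c, g, h1, h2⟩ := hccp x
    refine ⟨(⟨c, c, h1, rfl⟩, QuotientGroup.mk ((g : G ⧸ N)⁻¹)), ?_⟩
    change (c : G ⧸ N) * ((g : G ⧸ N)⁻¹ * β (g : G ⧸ N)⁻¹⁻¹) = x
    rw [inv_inv, hβ, h2]; rfl
  have h1 := Nat.card_le_card_of_surjective f hf
  rw [Nat.card_prod, card_eq_card_quotient_mul_card_subgroup D, mul_comm] at h1
  have h2 := eq_of_le_of_card_ge hCD (Nat.le_of_mul_le_mul_right h1 Nat.card_pos)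
  intro x hx
  have h3 : (x : G ⧸ N) ∈ D := by
    change β x = x
    rw [hβ, eq_comm, QuotientGroup.eq]; exact hx
  rw [← h2] at h3
  obtain ⟨c, hc, h4⟩ := h3
  exact ⟨c, hc, QuotientGroup.eq.1 h4⟩

end Cfsg.Agent.S4154
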