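import Mathlib
import Cfsg.Statements.S4155
import Cfsg.Agent.S4107
import Cfsg.Agent.H2.FrobCompl
import Cfsg.Agent.H7.PGrp

set_option autoImplicit false
open Cfsg

namespace Cfsg.Agent.S4155

open Subgroup in

theorem result {G : Type*} [Group G] [Finite G] (N : Subgroup G) [N.Normal] (hN1 : N ≠ ⊥) (hN2 : N ≠ ⊤)
    (heq : ∀ x : G, x ∉ N → ∀ n ∈ N, orderOf (x * n) = orderOf x)
    (hnil : Group.IsNilpotent N) (hnpp : ¬ IsPrimePow (Nat.card N)) :
    N = Cfsg.fittingSubgroup G ∧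
    ∀ (q : ℕ) [Fact q.Prime] (Q : Sylow q (G ⧸ N)), IsCyclic (Q : Subgroup (G ⧸ N)) ∨ ∃ n : ℕ, Nonempty ((Q : Subgroup (G ⧸ N)) ≃* QuaternionGroup (2 ^ n)) := by
  obtain ⟨h1, h2⟩ := S4107.result N hN1 hN2 heq
  have h3 : N ≤ fittingSubgroup G := H1.le_fitting hnil
  refine ⟨?_, fun q _ Q => ?_⟩
  · by_contra hne
    obtain ⟨p, k, hp, hk, e⟩ := (isPrimePow_nat_iff _).1 (h2 (lt_of_le_of_ne h3 hne))
    obtain ⟨j, -, hj⟩ := (Nat.dvd_prime_pow hp).1 (e ▸ card_dvd_of_le h3)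
    refine hnpp (hj ▸ hp.isPrimePow.pow fun h0 => hN1 ?_)
    rwa [h0, pow_zero, card_eq_one] at hj
  -- a prime p ≠ q dividing |N|
  obtain ⟨p, hp, hpN, hpq⟩ : ∃ p : ℕ, p.Prime ∧ p ∣ Nat.card N ∧ p ≠ q := by
    by_contra hc
    push Not at hc
    have h4 := Nat.eq_prime_pow_of_unique_prime_dvd (Nat.card_pos (α := N)).ne'
      fun hr hd => hc _ hr hd
    refine hnpp (h4 ▸ (Fact.out : q.Prime).isPrimePow.pow fun h0 => hN1 ?_)
    rwa [h0, pow_zero, card_eq_one] at h4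
  have : Fact p.Prime := ⟨hp⟩
  set M := pCore q G ⊓ N with hM
  set K := pCore p G ⊓ N with hK
  have hKne : K ≠ ⊥ := by
    rw [hK, ← H1.sylow_map_eq_pCore_inf N hnil default, Ne,
      map_eq_bot_iff_of_injective _ N.subtype_injective]
    exact Sylow.ne_bot_of_dvd_card _ hpN
  have hf := QuotientGroup.mk'_surjective N
  obtain ⟨S, rfl⟩ := Sylow.mapSurjective_surjective hf q Q
  have hSN : (S : Subgroup G) ⊓ N = M := by
    rw [hM, ← H1.sylow_map_eq_pCore_inf N hnil (H3.sylowInfNormal S N), H3.coe_sylowInfNormal,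
      subgroupOf_map_subtype]
  have hKM : K ⊓ M = ⊥ := disjoint_iff.1 (IsPGroup.disjoint_of_ne p q hpq _ _
    (H1.isPGroup_pCore p).to_inf_left (H1.isPGroup_pCore q).to_inf_left)
  have key := H2.sylow_cyclic_or_quaternion_of_fpf
    (P := (S : Subgroup G).map (QuotientGroup.mk' M)) (K := K.map (QuotientGroup.mk' M))
    (by rw [Ne, Subgroup.map_eq_bot_iff, QuotientGroup.ker_mk']
        exact fun h => hKne (by rw [← hKM, inf_of_le_left h]))
    (by have := Normal.map (inferInstance : K.Normal) _ (QuotientGroup.mk'_surjective M)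
        exact le_normalizer_of_normal)
    (by
      rintro _ ⟨s, hs, rfl⟩ hs1
      rw [eq_bot_iff]
      rintro _ ⟨⟨k, hk, rfl⟩, hc⟩
      have h4 : s ∉ N := fun h => hs1 ((QuotientGroup.eq_one_iff s).2 (hSN ▸ ⟨hs, h⟩))
      have h5 : (k * s)⁻¹ * (s * k) ∈ K ⊓ M := by
        refine mem_inf.2 ⟨?_, QuotientGroup.eq.1 (mem_centralizer_singleton_iff.1 hc)⟩
        rw [show (k * s)⁻¹ * (s * k) = s⁻¹ * k⁻¹ * s * k by group]
        exact mul_mem (Normal.conj_mem' inferInstance _ (inv_mem hk) _) hk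
      rw [hKM, mem_bot, inv_mul_eq_one] at h5
      have h6 := heq s h4 k hk.2
      obtain ⟨a, ha⟩ := H8.exists_orderOf_eq_of_mem S.2 hs
      obtain ⟨b, hb⟩ := H8.exists_orderOf_eq_of_mem (H1.isPGroup_pCore p) hk.1
      rw [(show Commute s k from h5.symm).orderOf_mul_eq_mul_orderOf_of_coprime (by
        rw [ha, hb]; exact Nat.coprime_pow_primes _ _ Fact.out hp hpq.symm)] at h6
      have h7 := Nat.eq_of_mul_eq_mul_left (orderOf_pos s) (h6.trans (mul_one _).symm)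
      rw [orderOf_eq_one_iff.1 h7]; exact one_mem _)
    (S.2.map _)
  have e : (S : Subgroup G).map (QuotientGroup.mk' M) ≃*
      (S.mapSurjective hf : Subgroup (G ⧸ N)) := by
    refine MulEquiv.ofBijective (((QuotientGroup.map M N (MonoidHom.id G) inf_le_right).comp
      ((S : Subgroup G).map (QuotientGroup.mk' M)).subtype).codRestrict
      (S.mapSurjective hf : Subgroup (G ⧸ N)) (by rintro ⟨_, s, hs, rfl⟩; exact ⟨s, hs, rfl⟩))
      ⟨?_, ?_⟩
    · rw [injective_iff_map_eq_one]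
      rintro ⟨_, s, hs, rfl⟩ h
      have h4 : s ∈ N := (QuotientGroup.eq_one_iff s).1 (congrArg Subtype.val h)
      exact Subtype.ext ((QuotientGroup.eq_one_iff s).2 (hSN ▸ ⟨hs, h4⟩))
    · rintro ⟨_, s, hs, rfl⟩; exact ⟨⟨_, s, hs, rfl⟩, rfl⟩
  rcases key with h | ⟨-, n, ⟨h⟩⟩
  · exact Or.inl (isCyclic_of_surjective e e.surjective)
  · exact Or.inr ⟨n, ⟨e.symm.trans h⟩⟩

end Cfsg.Agent.S4155
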