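import Mathlib
import Cfsg.Statements.S4156

set_option autoImplicit false
open Cfsg

namespace Cfsg.Agent.S4156

def M (n : ℕ) (F : Type*) [Field F] : Equiv.Perm (Fin (n + 1)) →* Matrix (Fin n) (Fin n) F where
  toFun σ := Matrix.of fun i j =>
    (if σ j.castSucc = i.castSucc then 1 else 0) - (if σ (Fin.last n) = i.castSucc then 1 else 0)
  map_one' := by
    ext i j
    simp [Matrix.one_apply, eq_comm, (Fin.castSucc_lt_last i).ne]
  map_mul' σ τ := by
    ext i j
    have h := Fin.sum_univ_castSucc (fun k : Fin (n + 1) =>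
      (((if σ k = i.castSucc then 1 else 0) - (if σ (Fin.last n) = i.castSucc then 1 else 0) : F) *
      ((if τ j.castSucc = k then 1 else 0) - (if τ (Fin.last n) = k then 1 else 0))))
    simp only [sub_self, zero_mul, add_zero] at h
    simp only [Matrix.mul_apply, Matrix.of_apply, Equiv.Perm.mul_apply]
    rw [← h]
    simp only [mul_sub,
      Finset.sum_sub_distrib, mul_ite, mul_one, mul_zero, Finset.sum_ite_eq, Finset.mem_univ,
      if_true, sub_sub_sub_cancel_right]
    congr

theorem result (n : ℕ) (hn : 5 ≤ n) (F : Type*) [Field F] [Finite F] :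
    ∃ f : alternatingGroup (Fin (n + 1)) →* Matrix.ProjectiveSpecialLinearGroup (Fin n) F, Function.Injective f := by
  have hs : IsSimpleGroup (alternatingGroup (Fin (n + 1))) :=
    alternatingGroup.isSimpleGroup (by simp; omega)
  let g : alternatingGroup (Fin (n + 1)) →* Matrix (Fin n) (Fin n) F :=
    (M n F).comp (alternatingGroup _).subtype
  have hdet : ∀ x, (g x).det = 1 := by
    have hp : commutator (alternatingGroup (Fin (n + 1))) = ⊤ :=
      commutator_alternatingGroup_eq_top (by simp; omega)
    let d : alternatingGroup (Fin (n + 1)) →* Fˣ := (Matrix.detMonoidHom.comp g).toHomUnits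
    intro x
    have h1 : d x = 1 := Abelianization.commutator_subset_ker d (hp ▸ Subgroup.mem_top x)
    exact congrArg Units.val h1
  let f : alternatingGroup (Fin (n + 1)) →* Matrix.SpecialLinearGroup (Fin n) F :=
    { toFun := fun x => ⟨g x, hdet x⟩
      map_one' := Subtype.ext (map_one g)
      map_mul' := fun x y => Subtype.ext (map_mul g x y) }
  refine ⟨(QuotientGroup.mk' _).comp f, ?_⟩
  rw [← MonoidHom.ker_eq_bot_iff]
  refine (hs.eq_bot_or_eq_top_of_normal _ inferInstance).resolve_right fun h => ?_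
  let a : Fin n := ⟨0, by omega⟩
  let b : Fin n := ⟨1, by omega⟩
  let c : Fin n := ⟨2, by omega⟩
  have hab : a.castSucc ≠ b.castSucc := by simp [a, b]
  have hac : a.castSucc ≠ c.castSucc := by simp [a, c]
  have hbc : b.castSucc ≠ c.castSucc := by simp [b, c]
  let σ : alternatingGroup (Fin (n + 1)) :=
    ⟨Equiv.swap a.castSucc b.castSucc * Equiv.swap a.castSucc c.castSucc, by
      simp [Equiv.Perm.mem_alternatingGroup, Equiv.Perm.sign_swap hab, Equiv.Perm.sign_swap hac]⟩
  have h1 : σ ∈ ((QuotientGroup.mk' (Subgroup.center _)).comp f).ker := h ▸ Subgroup.mem_top _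
  rw [MonoidHom.mem_ker, MonoidHom.comp_apply, QuotientGroup.mk'_apply, QuotientGroup.eq_one_iff,
    Matrix.SpecialLinearGroup.mem_center_iff] at h1
  obtain ⟨r, -, hr⟩ := h1
  have h2 := congrFun (congrFun hr c) a
  have h3 : c ≠ a := by simp [a, c]
  have h4 : ∀ i : Fin n, Fin.last n ≠ i.castSucc := fun i => (Fin.castSucc_lt_last i).ne'
  change _ = (if σ.1 a.castSucc = c.castSucc then 1 else 0) -
    (if σ.1 (Fin.last n) = c.castSucc then 1 else 0 : F) at h2
  simp [σ, h3, Equiv.swap_apply_of_ne_of_ne hac.symm hbc.symm,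
    Equiv.swap_apply_of_ne_of_ne (h4 a) (h4 b), Equiv.swap_apply_of_ne_of_ne (h4 a) (h4 c), h4] at h2

end Cfsg.Agent.S4156
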