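import Mathlib
import Cfsg.Statements.S4160
import Cfsg.Agent.H8.Cls

set_option autoImplicit false
open Cfsg

namespace Cfsg.Agent.S4160

open Subgroup in
theorem aux {G : Type*} [Group G] [Finite G] (p : ℕ) [Fact p.Prime]
    (h : ¬ HasNormalPComplement p G) (P : Sylow p G) :
    2 * {x : G | x ≠ 1 ∧ ∃ g : G, g⁻¹ * x * g ∈ centralizer ((P : Subgroup G) : Set G)}.ncard + 2
      ≤ Nat.card G := by
  have h1 := H8.ncard_conj_union_le (H7.normalizer_le_normalizer_centralizer (P : Subgroup G))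
  have h2 : centralizer ((P : Subgroup G) : Set G) < normalizer ((P : Subgroup G) : Set G) := by
    refine lt_of_le_of_ne (centralizer_le_normalizer _) fun he => h ?_
    exact ⟨P, _, inferInstance, MonoidHom.ker_transferSylow_isComplement' P he.ge⟩
  have h3 := H7.card_mul_relIndex h2.le
  have h4 : 2 ≤ (centralizer ((P : Subgroup G) : Set G)).relIndex
      (normalizer ((P : Subgroup G) : Set G)) := by
    have h5 : (centralizer ((P : Subgroup G) : Set G)).relIndex
      (normalizer ((P : Subgroup G) : Set G)) ≠ 1 := fun h => h2.not_ge (relIndex_eq_one.1 h)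
    have h6 : (centralizer ((P : Subgroup G) : Set G)).relIndex
      (normalizer ((P : Subgroup G) : Set G)) ≠ 0 := FiniteIndex.index_ne_zero
    omega
  have h5 := (normalizer ((P : Subgroup G) : Set G)).index_mul_card
  have h6 : 0 < (normalizer ((P : Subgroup G) : Set G)).index :=
    Nat.pos_of_ne_zero FiniteIndex.index_ne_zero
  obtain ⟨c, hc⟩ : ∃ c, Nat.card (centralizer ((P : Subgroup G) : Set G)) = c + 1 :=
    ⟨_, (Nat.succ_pred_eq_of_pos Nat.card_pos).symm⟩
  rw [hc] at h1 h3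
  rw [← h5, ← h3]
  simp only [Nat.add_sub_cancel] at h1
  nlinarith [Nat.mul_le_mul_left ((normalizer ((P : Subgroup G) : Set G)).index * (c + 1)) h4]

open Subgroup in
theorem aux2 {G : Type*} [Group G] [Finite G] (p : ℕ) [Fact p.Prime] (P : Sylow p G) {x : G}
    (h : ¬ p ∣ (centralizer ({x} : Set G)).index) :
    ∃ g : G, g⁻¹ * x * g ∈ centralizer ((P : Subgroup G) : Set G) := by
  obtain ⟨R, hR⟩ := H8.exists_sylow_le_centralizer h
  obtain ⟨g, rfl⟩ := MulAction.exists_smul_eq G P R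
  refine ⟨g, fun y hy => ?_⟩
  have h9 := mem_centralizer_singleton_iff.1 (hR (H3.mem_coe_smul_sylow.2
    (show g⁻¹ * (g * y * g⁻¹) * g ∈ (P : Subgroup G) by simpa [mul_assoc] using hy)))
  calc y * (g⁻¹ * x * g) = g⁻¹ * (g * y * g⁻¹ * x) * g := by group
    _ = _ := by rw [h9]; group

open Subgroup in

theorem result {G : Type*} [Group G] [Finite G] (p q : ℕ) (hp : p.Prime) (hq : q.Prime) (hpq : p ≠ q)
    (hp' : ∃ x : G, p ∣ (Subgroup.centralizer ({x} : Set G)).index) (hq' : ∃ x : G, q ∣ (Subgroup.centralizer ({x} : Set G)).index) (h : ∀ x : G, ¬ p * q ∣ (Subgroup.centralizer ({x} : Set G)).index) :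
    Cfsg.HasNormalPComplement p G ∨ Cfsg.HasNormalPComplement q G := by
  have : Fact p.Prime := ⟨hp⟩
  have : Fact q.Prime := ⟨hq⟩
  by_contra hc
  push Not at hc
  have h1 := aux p hc.1 default
  have h2 := aux q hc.2 default
  have h3 : {x : G | x ≠ 1} ⊆
      {x : G | x ≠ 1 ∧ ∃ g : G, g⁻¹ * x * g ∈ centralizer (((default : Sylow p G) : Subgroup G) : Set G)} ∪
      {x : G | x ≠ 1 ∧ ∃ g : G, g⁻¹ * x * g ∈ centralizer (((default : Sylow q G) : Subgroup G) : Set G)} := by
    intro x hx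
    by_cases h4 : p ∣ (centralizer ({x} : Set G)).index
    · exact Or.inr ⟨hx, aux2 q _ fun h5 =>
        h x (((Nat.coprime_primes hp hq).2 hpq).mul_dvd_of_dvd_of_dvd h4 h5)⟩
    · exact Or.inl ⟨hx, aux2 p _ h4⟩
  have h4 := (Set.ncard_le_ncard h3).trans (Set.ncard_union_le _ _)
  rw [H8.ncard_ne_one] at h4
  omega

end Cfsg.Agent.S4160
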