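import Mathlib
import Cfsg.Statements.S4163
import Cfsg.Agent.H8.Cls

set_option autoImplicit false
open Cfsg

namespace Cfsg.Agent.S4163

open Subgroup in
open scoped commutatorElement in
theorem aux {G : Type*} [Group G] [Finite G] (A : Subgroup G) [A.Normal] (hA : IsMulCommutative A)
    {x a : G} (ha : a ∈ A) (hne : ⁅a, x⁆ ≠ 1) :
    (centralizer ({⁅a, x⁆} : Set G)).index < (centralizer ({x} : Set G)).index := by
  set C := centralizer ({x} : Set G) with hC
  set H := A ⊔ C with hH
  have hcomm : ∀ a ∈ A, ∀ b ∈ A, a * b = b * a := fun a ha b hb =>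
    congrArg Subtype.val (hA.1.1 ⟨a, ha⟩ ⟨b, hb⟩)
  have hm : ∀ h ∈ H, ∃ b ∈ A, ∃ c ∈ C, b * c = h := fun h hh => mem_sup_of_normal_left.1 hh
  have h1 : (centralizer ({⁅a, x⁆} : Set G)).relIndex H < C.relIndex H := by
    rw [← H8.card_conj_orbit, hC, ← H8.card_conj_orbit]
    let f : {y : G // ∃ h ∈ H, h * ⁅a, x⁆ * h⁻¹ = y} → {y : G // ∃ h ∈ H, h * x * h⁻¹ = y} :=
      fun y => ⟨y * x, by
        obtain ⟨y, h, hh, rfl⟩ := y
        obtain ⟨b, hb, c, hc, rfl⟩ := hm h hh
        have e := H8.mem_centralizer_singleton_iff'.1 hc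
        refine ⟨c * a * c⁻¹, mem_sup_left (Normal.conj_mem inferInstance _ ha _), ?_⟩
        have h2 : c * ⁅a, x⁆ * c⁻¹ ∈ A := by
          refine Normal.conj_mem inferInstance _ ?_ _
          rw [commutatorElement_def, mul_assoc, mul_assoc]
          exact mul_mem ha (by rw [← mul_assoc]; exact Normal.conj_mem inferInstance _ (inv_mem ha) _)
        have h3 : b * c * ⁅a, x⁆ * (b * c)⁻¹ = c * ⁅a, x⁆ * c⁻¹ := by
          rw [show b * c * ⁅a, x⁆ * (b * c)⁻¹ = b * (c * ⁅a, x⁆ * c⁻¹) * b⁻¹ by group,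
            hcomm b hb _ h2, mul_inv_cancel_right]
        simp only [h3]
        calc c * a * c⁻¹ * x * (c * a * c⁻¹)⁻¹
            = c * a * c⁻¹ * (c * x * c⁻¹) * (c * a * c⁻¹)⁻¹ * (c * x * c⁻¹)⁻¹ * x := by
              rw [e]; group
          _ = _ := by rw [commutatorElement_def]; group⟩
    have hf : Function.Injective f := fun y z h =>
      Subtype.ext (mul_right_cancel (congrArg Subtype.val h))
    refine lt_of_le_of_ne (Nat.card_le_card_of_injective f hf) fun he => ?_
    · have h := ((Nat.bijective_iff_injective_and_card f).2 ⟨hf, he⟩).2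
      obtain ⟨⟨y, h, hh, rfl⟩, hy⟩ := h ⟨x, 1, one_mem _, by simp⟩
      have h2 : h * ⁅a, x⁆ * h⁻¹ * x = x := congrArg Subtype.val hy
      rw [mul_eq_right, mul_inv_eq_one, mul_eq_left] at h2
      exact hne h2
  rw [← relIndex_mul_index (le_sup_right : C ≤ H)]
  calc _ ≤ (centralizer ({⁅a, x⁆} : Set G) ⊓ H).index :=
        Nat.le_of_dvd (Nat.pos_of_ne_zero FiniteIndex.index_ne_zero) (index_dvd_of_le inf_le_left)
    _ = (centralizer ({⁅a, x⁆} : Set G)).relIndex H * H.index := by
        rw [← relIndex_mul_index (inf_le_right : _ ⊓ H ≤ H), inf_relIndex_right]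
    _ < _ := Nat.mul_lt_mul_of_pos_right h1 (Nat.pos_of_ne_zero FiniteIndex.index_ne_zero)

open Subgroup in
open scoped commutatorElement in

theorem result {G : Type*} [Group G] [Finite G]
    (A : Subgroup G) [A.Normal] (hA : IsMulCommutative A) (hCA : Subgroup.centralizer (A : Set G) = A)
    (m : ℕ) (hm1 : 1 < m) (hm : ∃ x : G, (Subgroup.centralizer ({x} : Set G)).index = m) (hmin : ∀ x : G, 1 < (Subgroup.centralizer ({x} : Set G)).index → m ≤ (Subgroup.centralizer ({x} : Set G)).index) :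
    Subgroup.upperCentralSeries ↥(Subgroup.closure {x : G | (Subgroup.centralizer ({x} : Set G)).index = 1 ∨ (Subgroup.centralizer ({x} : Set G)).index = m}) 3 = ⊤ := by
  set M := closure {x : G | (centralizer ({x} : Set G)).index = 1 ∨
    (centralizer ({x} : Set G)).index = m} with hM
  have h1 : ⁅A, M⁆ ≤ center G := by
    rw [← closure_eq A]
    refine H9.commutator_closure_le fun a ha x hx => ?_
    by_cases hne : ⁅a, x⁆ = 1
    · rw [hne]; exact one_mem _
    have h2 := aux A hA ha hne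
    rw [← H8.index_centralizer_eq_one_iff]
    have h3 := H8.index_centralizer_pos ⁅a, x⁆
    have h4 := hmin ⁅a, x⁆
    rcases hx with hx | hx <;> omega
  have h2 : ⁅⁅A, M⁆, M⁆ = ⊥ :=
    commutator_eq_bot_iff_le_centralizer.2 (h1.trans (center_le_centralizer _))
  have h3 : ⁅M, M⁆ ≤ A := by
    rw [← hCA, ← commutator_eq_bot_iff_le_centralizer]
    exact commutator_commutator_eq_bot_of_rotate (by rwa [commutator_comm M A]) h2
  rw [eq_top_iff]
  intro x _
  rw [Subgroup.mem_upperCentralSeries_succ_iff]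
  intro y
  rw [Subgroup.mem_upperCentralSeries_succ_iff]
  intro z
  rw [Subgroup.upperCentralSeries_one, mem_center_iff]
  intro w
  exact Subtype.ext (mem_center_iff.1 (h1 (commutator_mem_commutator
    (h3 (commutator_mem_commutator x.2 y.2)) z.2)) w)

end Cfsg.Agent.S4163
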