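import Mathlib
import Cfsg.Statements.S4167
import Cfsg.Agent.H8.FTc
import Cfsg.Agent.S0205

set_option autoImplicit false
open Cfsg

namespace Cfsg.Agent.S4167

theorem result {G : Type*} [Group G] [Finite G]
    (h : ∀ x : G, ¬ 4 ∣ (Subgroup.centralizer ({x} : Set G)).index) : Group.IsSolvable G := by
  exact H8.isSolvable_of_not_four_dvd (fun _ _ _ h => Cfsg.Agent.S0205.result h) h

end Cfsg.Agent.S4167
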