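import Mathlib
import Cfsg.Statements.S4168
import Cfsg.Agent.H8.Elt
import Cfsg.Agent.H1.Frattini

set_option autoImplicit false
open Cfsg

namespace Cfsg.Agent.S4168

open Subgroup in

theorem result {L : Type*} [Group L] [Finite L] (hL : Cfsg.IsQuasisimple L)
    (p : ℕ) (hp : p.Prime) (hdiv : p ∣ Nat.card (Subgroup.center L)) : p ∣ (Subgroup.center L).index := by
  have h1 : center L ≤ frattini L := by
    refine H3.le_frattini_iff.2 fun M hM => ?_
    by_contra hn
    have h2 : M ⊔ center L = ⊤ := hM.2 _ (left_lt_sup.2 hn)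
    apply hM.1
    rw [eq_top_iff, ← hL.1.commutator_eq_top, commutator_def, commutator_le]
    intro a _ b _
    obtain ⟨x, hx, y, hy, rfl⟩ := mem_sup_of_normal_right.1 (h2 ▸ mem_top a)
    obtain ⟨z, hz, w, hw, rfl⟩ := mem_sup_of_normal_right.1 (h2 ▸ mem_top b)
    have : x * y * (z * w) * (x * y)⁻¹ * (z * w)⁻¹ = x * z * x⁻¹ * z⁻¹ := by
      calc x * y * (z * w) * (x * y)⁻¹ * (z * w)⁻¹
          = x * (y * (z * w) * y⁻¹) * (x⁻¹ * w⁻¹) * z⁻¹ := by group
        _ = x * z * x⁻¹ * z⁻¹ := by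
          rw [← mem_center_iff.1 hy, mem_center_iff.1 (inv_mem hw)]; group
    rw [commutatorElement_def, this]
    exact mul_mem (mul_mem (mul_mem hx hz) (inv_mem hx)) (inv_mem hz)
  exact (H1.prime_dvd_index_frattini hp (hdiv.trans (card_subgroup_dvd_card _))).trans
    (index_dvd_of_le h1)

end Cfsg.Agent.S4168
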