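import Mathlib
import Cfsg.Statements.S4169
import Cfsg.Agent.S4163

set_option autoImplicit false
open Cfsg

namespace Cfsg.Agent.S4169


theorem result {P : Type*} [Group P] [Finite P] {p : ℕ} [Fact p.Prime] (hP : IsPGroup p P)
    (m : ℕ) (hm : 1 < m) (h : ∀ x : P, (Subgroup.centralizer ({x} : Set P)).index = 1 ∨ (Subgroup.centralizer ({x} : Set P)).index = m) :
    upperCentralSeries P 3 = ⊤ := by
  obtain ⟨A, hA, hA2, -, hA3, -⟩ := H9.exists_maximal_abelian_normal hP ⊥ inferInstance
  by_cases hex : ∃ x : P, (Subgroup.centralizer ({x} : Set P)).index = m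
  · have h1 := S4163.result A hA2 hA3 m hm hex (fun x hx => by rcases h x with h1 | h1 <;> omega)
    have h2 : Subgroup.closure {x : P | (Subgroup.centralizer ({x} : Set P)).index = 1 ∨
        (Subgroup.centralizer ({x} : Set P)).index = m} = ⊤ := by
      rw [eq_top_iff]; exact fun x _ => Subgroup.subset_closure (h x)
    have h3 := Subgroup.upperCentralSeries.map (f := Subgroup.subtype _) (fun x => ⟨⟨x, h2 ▸ Subgroup.mem_top x⟩, rfl⟩) 3
    rw [h1, ← MonoidHom.range_eq_map, Subgroup.range_subtype, h2] at h3
    exact top_le_iff.1 h3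
  · push Not at hex
    rw [eq_top_iff]
    refine le_trans (fun x _ => ?_) (Subgroup.upperCentralSeries_mono P (show 1 ≤ 3 by norm_num))
    rw [Subgroup.upperCentralSeries_one, ← H8.index_centralizer_eq_one_iff]
    exact (h x).resolve_right (hex x)

end Cfsg.Agent.S4169
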