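import Cfsg.Statements.S4172
import Cfsg.Agent.H10.TwoGen

set_option autoImplicit false
open Cfsg H10

namespace Cfsg.Agent.S4172

/-- Let p be a prime and G a finite group with a non-commutative Sylow p-subgroup P whose Frattini subgroup has index p² in P (P is generated by two elements). Suppose G has no nontrivial normal subgroup of order prime to p and the Frattini subgroup of P contains no nontrivial normal subgroup of G. Then the generalized Fitting subgroup F*(G) is the unique minimal normal subgroup of G, the image of P in G/F*(G) is cyclic, and if F*(G) is not commutative then P permutes the components of G transitively by conjugation. -/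
theorem result {G : Type*} [Group G] [Finite G] (p : ℕ) [Fact p.Prime] (P : Sylow p G) (hna : ¬ IsMulCommutative (P : Subgroup G)) (hgen : (frattini ↥(P : Subgroup G)).index = p ^ 2) (hcore : Cfsg.pPrimeCore p G = ⊥) (hfrat : ((frattini ↥(P : Subgroup G)).map (P : Subgroup G).subtype).normalCore = ⊥) [hFn : (Cfsg.generalizedFittingSubgroup G).Normal] :
    (Cfsg.generalizedFittingSubgroup G ≠ ⊥ ∧ ∀ K : Subgroup G, K.Normal → K ≠ ⊥ → Cfsg.generalizedFittingSubgroup G ≤ K) ∧
      IsCyclic ↥((P : Subgroup G).map (QuotientGroup.mk' (Cfsg.generalizedFittingSubgroup G))) ∧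
      (¬ IsMulCommutative (Cfsg.generalizedFittingSubgroup G) → ∀ K L : Subgroup G, Cfsg.IsComponent K → Cfsg.IsComponent L → ∃ x ∈ (P : Subgroup G), L = K.map (MulAut.conj x).toMonoidHom) := by
  have h : TGC p (P : Subgroup G) := by
    refine ⟨isSylowIn_top P, fun e => hna (isMulCommutative_iff_le_CC.2 e), ?_, ?_, ?_⟩
    · rw [Subgroup.relIndex, frOf_subgroupOf, hgen]
    · rw [H5.oppOf_top, hcore]
    · intro N hN hle
      rw [eq_bot_iff, ← hfrat]
      exact Subgroup.normal_le_normalCore.2 hle
  refine ⟨⟨h.fstar_ne, fun K hK h0 => h.fstar_le.trans (h.ncl_le' h0)⟩, ?_, ?_⟩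
  · obtain ⟨x, -, e⟩ := h.gen (h.not_le h.fstar_ne)
    have h1 : (P : Subgroup G).map (QuotientGroup.mk' (generalizedFittingSubgroup G)) =
        Subgroup.zpowers (QuotientGroup.mk' (generalizedFittingSubgroup G) x) := by
      conv_lhs => rw [e]
      rw [Subgroup.map_sup, MonoidHom.map_zpowers, (Subgroup.map_eq_bot_iff _).2
        (by rw [QuotientGroup.ker_mk']; exact inf_le_left), sup_bot_eq]
    rw [h1]
    infer_instance
  · intro hc K L hK hL
    refine h.transitive (fun ha => hc ?_) (H5.compOf_top_iff.2 hK) (H5.compOf_top_iff.2 hL)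
    exact isMulCommutative_iff_le_CC.2 (h.fstar_abelian ha)

end Cfsg.Agent.S4172
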