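import Cfsg.Statements.S4176
import Cfsg.Agent.H1.PSolv
import Cfsg.Agent.S0007

set_option autoImplicit false
open Cfsg

namespace Cfsg.Agent.S4176

open Subgroup MulAction

/-- Let k be a field of prime characteristic p, H a finite p-soluble group and ρ a k-linear representation of H on V. Let a be a vector that is fixed by some Sylow p-subgroup of H and whose H-orbit spans V. Then the space of H-fixed vectors has dimension at most 1, and every vector b whose H-orbit has size coprime to the size of the orbit of a is fixed by H. -/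
theorem result {k V H : Type*} [Field k] (p : ℕ) [Fact p.Prime] [CharP k p] [AddCommGroup V] [Module k V]
    [Group H] [Finite H] (hsol : Cfsg.IsPSolvable p H) (ρ : Representation k H V) (a : V)
    (hfix : ∃ P : Sylow p H, ∀ x : H, x ∈ (P : Subgroup H) → ρ x a = a)
    (hspan : Submodule.span k {u : V | ∃ h : H, ρ h a = u} = ⊤) :
    Module.finrank k ρ.invariants ≤ 1 ∧
    ∀ b : V, (Nat.card {u : V | ∃ h : H, ρ h a = u}).Coprime (Nat.card {u : V | ∃ h : H, ρ h b = u}) → ∀ h : H, ρ h b = b := by
  classical
  obtain ⟨P, hP⟩ := hfix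
  letI : MulAction H V := MulAction.compHom V ρ
  have sm : ∀ (h : H) (v : V), h • v = ρ h v := fun _ _ => rfl
  have ci : ∀ v : V, Nat.card {u : V | ∃ h : H, ρ h v = u} = (stabilizer H v).index := fun v =>
    (index_stabilizer H v).symm
  have := Fintype.ofFinite H
  have : Finite (orbit H a) := Set.finite_range _
  have := Fintype.ofFinite (orbit H a)
  have pa : ¬ p ∣ (stabilizer H a).index := fun e => P.not_dvd_index (e.trans (index_dvd_of_le hP))
  let t : V := ∑ u : orbit H a, (u : V)
  have ht : ∀ h : H, ρ h t = t := fun h => by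
    rw [map_sum]; exact Equiv.sum_comp (toPerm h) fun u : orbit H a => (u : V)
  have key : ∀ b : V, (stabilizer H a).index.Coprime (stabilizer H b).index → b ∈ Submodule.span k {t} := by
    intro b hb
    obtain ⟨K, hK⟩ := (H1.hallOK_compl_of_isPSolvable (H1.isPSolvable_iff_piSep.2
      ((H1.isPSolvable_iff_piSep.1 hsol).subgroup (stabilizer H b)))).exists
    have h1 := H1.isPiHallOf_iff.1 hK
    rw [compl_compl] at h1
    obtain ⟨n, hn⟩ := (H1.isPiNat_singleton_iff Fact.out index_ne_zero_of_finite).1 h1.2.2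
    have h2 : K.index.Coprime (stabilizer H a).index := by
      rw [← relIndex_mul_index h1.1, relIndex, hn]
      exact (((Nat.Prime.coprime_iff_not_dvd Fact.out).2 pa).pow_left n).mul_left hb.symm
    have h3 := (Cfsg.Agent.S0007.result _ _ h2).2
    have nz : ∀ m : ℕ, ¬ p ∣ m → (m : k) ≠ 0 := fun m hm e => hm ((CharP.cast_eq_zero_iff k p m).1 e)
    let A : V →ₗ[k] V := ∑ x : K, ρ x
    have hA : ∀ v, A v = ∑ x : K, ρ x v := fun v => LinearMap.sum_apply ..
    have h4 : ∀ u ∈ orbit H a, A u = A a := by
      rintro _ ⟨h, rfl⟩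
      obtain ⟨x, hx, y, hy, rfl⟩ := h3 h
      rw [hA, hA, ← Equiv.sum_comp (Equiv.mulRight (⟨x, hx⟩ : K)) fun z : K => ρ z a]
      refine Finset.sum_congr rfl fun z _ => ?_
      simp only [mul_smul, mem_stabilizer_iff.1 hy]
      simp [sm]
    have h5 : ∀ v, (∀ x ∈ K, ρ x v = v) → A v = (Nat.card K : k) • v := fun v hv => by
      rw [hA, Finset.sum_congr rfl fun (x : K) _ => hv x x.2, Finset.sum_const, Nat.cast_smul_eq_nsmul, Nat.card_eq_fintype_card,
        Finset.card_univ]
    have h6 : A a ∈ Submodule.span k {t} := by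
      rw [← Submodule.smul_mem_iff _ (nz _ pa), index_stabilizer, Nat.cast_smul_eq_nsmul, ← Nat.card_coe_set_eq,
        Nat.card_eq_fintype_card, ← Finset.card_univ, ← Finset.sum_const,
        ← Finset.sum_congr rfl fun (u : orbit H a) _ => h4 u u.2, ← map_sum, h5 t fun x _ => ht x]
      exact Submodule.smul_mem _ _ (Submodule.mem_span_singleton_self t)
    have h7 : ⊤ ≤ (Submodule.span k {t}).comap A := hspan ▸ Submodule.span_le.2 fun u hu =>
      Submodule.mem_comap.2 (h4 u hu ▸ h6)
    rw [← Submodule.smul_mem_iff _ (nz _ ((Nat.Prime.coprime_iff_not_dvd Fact.out).1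
      ((H1.isPiNat_compl_singleton_iff Fact.out).1 h1.2.1).symm)), ← h5 b fun x hx => h1.1 hx]
    exact h7 trivial
  refine ⟨(Submodule.finrank_mono (t := Submodule.span k {t}) fun v hv => key v ?_).trans
    (finrank_span_le_card ({t} : Set V) |>.trans (by simp)), fun b hb h => ?_⟩
  · rw [show stabilizer H v = ⊤ from eq_top_iff.2 fun h _ => hv h]; simp
  · rw [ci, ci] at hb
    obtain ⟨c, rfl⟩ := Submodule.mem_span_singleton.1 (key b hb)
    rw [map_smul, ht]

end Cfsg.Agent.S4176
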