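import Mathlib
import Cfsg.Statements.S4177
import Cfsg.Agent.H8.Elt
import Cfsg.Agent.H1.Coprime2

set_option autoImplicit false
open Cfsg

namespace Cfsg.Agent.S4177

open Subgroup in

theorem result {k V H : Type*} [Field k] [AddCommGroup V] [Module k V] [Group H] [Finite H]
    (hchar : ¬ ringChar k ∣ Nat.card H) (ρ : Representation k H V) (a : V)
    (hspan : Submodule.span k {u : V | ∃ h : H, ρ h a = u} = ⊤) :
    Module.finrank k ρ.invariants ≤ 1 ∧
    ∀ b : V, (Nat.card {u : V | ∃ h : H, ρ h a = u}).Coprime (Nat.card {u : V | ∃ h : H, ρ h b = u}) → ∀ h : H, ρ h b = b := by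
  classical
  have hc : ∀ K : Subgroup H, (Nat.card K : k) ≠ 0 := fun K h =>
    hchar (((ringChar.spec k _).1 h).trans (card_subgroup_dvd_card K))
  have := Fintype.ofFinite H
  let π : Subgroup H → V →ₗ[k] V := fun K => (Nat.card K : k)⁻¹ • ∑ x : K, ρ x
  have hπ : ∀ K v, π K v = (Nat.card K : k)⁻¹ • ∑ x : K, ρ x v := fun K v => by
    simp [π, LinearMap.sum_apply]
  have h1 : ∀ (K : Subgroup H) (x : H), x ∈ K → ∀ v, π K (ρ x v) = π K v := by
    intro K x hx v
    rw [hπ, hπ]
    congr 1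
    exact Fintype.sum_equiv (Equiv.mulRight (⟨x, hx⟩ : K)) _ _ fun y => by simp
  have h2 : ∀ (K : Subgroup H) (x : H), x ∈ K → ∀ v, ρ x (π K v) = π K v := by
    intro K x hx v
    rw [hπ, map_smul, map_sum]
    congr 1
    exact Fintype.sum_equiv (Equiv.mulLeft (⟨x, hx⟩ : K)) _ _ fun y => by simp
  have h3 : ∀ (K : Subgroup H) (v : V), (∀ x ∈ K, ρ x v = v) → π K v = v := by
    intro K v hv
    rw [hπ, Finset.sum_congr rfl fun (x : K) _ => hv x x.2, Finset.sum_const, Finset.card_univ,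
      ← Nat.card_eq_fintype_card, ← Nat.cast_smul_eq_nsmul k, smul_smul, inv_mul_cancel₀ (hc K),
      one_smul]
  have key : ∀ K : Subgroup H, (∀ h : H, ∃ x ∈ K, ρ h a = ρ x a) → ∀ v,
      π K v ∈ Submodule.span k {π ⊤ a} := by
    intro K hK
    have h4 : ∀ h : H, π K (ρ h a) = π K a := fun h => by
      obtain ⟨x, hx, e⟩ := hK h
      rw [e, h1 K x hx]
    have h5 : π K a = π ⊤ a := by
      rw [← h3 K (π ⊤ a) fun x _ => h2 ⊤ x (mem_top x) a, hπ ⊤, map_smul, map_sum,
        Finset.sum_congr rfl fun (x : (⊤ : Subgroup H)) _ => h4 x, Finset.sum_const,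
        Finset.card_univ, ← Nat.card_eq_fintype_card, ← Nat.cast_smul_eq_nsmul k, smul_smul,
        inv_mul_cancel₀ (hc ⊤), one_smul]
    intro v
    have h6 : v ∈ Submodule.span k {u : V | ∃ h : H, ρ h a = u} := hspan ▸ Submodule.mem_top
    have h7 := Submodule.mem_map_of_mem (f := π K) h6
    rw [Submodule.map_span] at h7
    refine Submodule.span_mono ?_ h7
    rintro _ ⟨_, ⟨h, rfl⟩, rfl⟩
    exact (h4 h).trans h5
  constructor
  · have h4 : ρ.invariants ≤ Submodule.span k {π ⊤ a} := fun v hv => by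
      rw [← h3 ⊤ v fun x _ => hv x]
      exact key ⊤ (fun h => ⟨h, mem_top h, rfl⟩) v
    exact (Submodule.finrank_mono h4).trans (by simpa using finrank_span_le_card ({π ⊤ a} : Set V))
  · intro b hb h
    letI : MulAction H V := MulAction.compHom V ρ
    have e : ∀ c : V, Nat.card {u : V | ∃ h : H, ρ h c = u} = (MulAction.stabilizer H c).index := by
      intro c
      rw [MulAction.index_stabilizer, ← Nat.card_coe_set_eq]; rfl
    rw [e, e] at hb
    have h4 := key (MulAction.stabilizer H b) (fun g => by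
      obtain ⟨x, hx, y, hy, rfl⟩ := (S0007.result _ _ hb.symm).2 g
      refine ⟨x, hx, ?_⟩
      rw [map_mul, Module.End.mul_apply, show ρ y a = a from hy]) b
    rw [h3 _ b fun x hx => hx] at h4
    obtain ⟨c, rfl⟩ := Submodule.mem_span_singleton.1 h4
    rw [map_smul, h2 ⊤ h (mem_top h)]

end Cfsg.Agent.S4177
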