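import Mathlib
import Cfsg.Statements.S4178
import Cfsg.Agent.H8.Cls

set_option autoImplicit false
open Cfsg

namespace Cfsg.Agent.S4178

open Subgroup in
theorem aux {F V : Type*} [Field F] [AddCommGroup V] [Module F V] [Finite V]
    (H : Subgroup (V ≃ₗ[F] V)) {X : Type*} [Finite X] (φ : V → X) (v : V)
    (h1 : ∀ h : H, φ ((h : V ≃ₗ[F] V) v) ≠ φ 0)
    (h2 : ∀ h k : H, φ ((h : V ≃ₗ[F] V) v) = φ ((k : V ≃ₗ[F] V) v) →
      ∃ w : V, w ≠ 0 ∧ ((h⁻¹ * k : H) : V ≃ₗ[F] V) w = w) :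
    (closure {h : ↥H | ∃ v : V, v ≠ 0 ∧ (h : V ≃ₗ[F] V) v = v}).index ≤ Nat.card X - 1 := by
  set R := closure {h : ↥H | ∃ v : V, v ≠ 0 ∧ (h : V ≃ₗ[F] V) v = v}
  let f : H ⧸ R → {x : X // x ≠ φ 0} := fun q => ⟨φ ((q.out : V ≃ₗ[F] V) v), h1 _⟩
  have hf : Function.Injective f := by
    intro a b hab
    rw [← a.out_eq, ← b.out_eq]
    exact QuotientGroup.eq.2 (subset_closure (h2 _ _ (congrArg Subtype.val hab)))
  refine (Nat.card_le_card_of_injective f hf).trans (le_of_eq ?_)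
  classical
  have := Fintype.ofFinite X
  rw [Nat.card_eq_fintype_card, Nat.card_eq_fintype_card, Fintype.card_subtype_compl,
    Fintype.card_subtype_eq]

open Subgroup in

theorem result {F V : Type*} [Field F] [Fintype F] [AddCommGroup V] [Module F V] [FiniteDimensional F V] [Nontrivial V]
    (H : Subgroup (V ≃ₗ[F] V)) :
    (Subgroup.closure {h : ↥H | ∃ v : V, v ≠ 0 ∧ (h : V ≃ₗ[F] V) v = v}).index ≤ Fintype.card F ^ Module.finrank F V - 1 ∧
    ((∃ W : Submodule F V, W ≠ ⊥ ∧ W ≠ ⊤ ∧ ∀ h ∈ H, ∀ w ∈ W, h w ∈ W) →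
      ((Subgroup.closure {h : ↥H | ∃ v : V, v ≠ 0 ∧ (h : V ≃ₗ[F] V) v = v}).index : ℝ) ≤ Real.sqrt ((Fintype.card F : ℝ) ^ Module.finrank F V) - 1) := by
  have : Finite V := Module.finite_of_finite F
  have hV : Nat.card V = Fintype.card F ^ Module.finrank F V := by
    rw [Module.natCard_eq_pow_finrank (K := F), Nat.card_eq_fintype_card]
  have hfix : ∀ (v : V) (h k : H), (h : V ≃ₗ[F] V) v = (k : V ≃ₗ[F] V) v →
      ((h⁻¹ * k : H) : V ≃ₗ[F] V) v = v := by
    intro v h k e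
    change (h : V ≃ₗ[F] V).symm ((k : V ≃ₗ[F] V) v) = v
    rw [← e, LinearEquiv.symm_apply_apply]
  constructor
  · obtain ⟨v, hv⟩ := exists_ne (0 : V)
    rw [← hV]
    exact aux H id v (fun h => by simpa using hv) fun h k e => ⟨v, hv, hfix v h k e⟩
  · rintro ⟨W, hW1, hW2, hW⟩
    have : Finite (V ⧸ W) := Finite.of_surjective _ W.mkQ_surjective
    obtain ⟨v, hvW, hv⟩ := (Submodule.ne_bot_iff W).1 hW1
    obtain ⟨u, -, hu⟩ := SetLike.exists_of_lt (lt_top_iff_ne_top.2 hW2)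
    have h1 : (closure {h : ↥H | ∃ v : V, v ≠ 0 ∧ (h : V ≃ₗ[F] V) v = v}).index ≤
        Nat.card W - 1 := by
      classical
      refine aux H (fun x => if h : x ∈ W then (⟨x, h⟩ : W) else 0) v (fun h => ?_) fun h k e => ?_
      · simp [hW h h.2 v hvW, hv]
      · simp only [hW h h.2 v hvW, hW k k.2 v hvW, dite_true, Subtype.mk.injEq] at e
        exact ⟨v, hv, hfix v h k e⟩
    have h2 : (closure {h : ↥H | ∃ v : V, v ≠ 0 ∧ (h : V ≃ₗ[F] V) v = v}).index ≤
        Nat.card (V ⧸ W) - 1 := by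
      refine aux H W.mkQ u (fun h e => hu ?_) fun h k e => ?_
      · rw [map_zero, Submodule.mkQ_apply, Submodule.Quotient.mk_eq_zero] at e
        simpa using hW _ (inv_mem h.2) _ e
      · by_contra hc
        push Not at hc
        set g : V ≃ₗ[F] V := ((h⁻¹ * k : H) : V ≃ₗ[F] V) with hg
        have hgH : g ∈ H := (h⁻¹ * k).2
        have h3 : g u - u ∈ W := by
          rw [Submodule.mkQ_apply, Submodule.mkQ_apply, eq_comm, Submodule.Quotient.eq] at e
          have := hW _ (inv_mem h.2) _ e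
          rw [map_sub] at this
          have e1 : ((h : V ≃ₗ[F] V)⁻¹) ((h : V ≃ₗ[F] V) u) = u := (h : V ≃ₗ[F] V).symm_apply_apply u
          rw [e1] at this
          exact this
        let ψ : W → W := fun w => ⟨g w - w, W.sub_mem (hW g hgH w w.2) w.2⟩
        have hψ : Function.Injective ψ := by
          intro a b hab
          have h4 : g a - a = g b - b := congrArg Subtype.val hab
          by_contra hne
          refine hc ((a : V) - b) (sub_ne_zero.2 fun h => hne (Subtype.ext h)) ?_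
          rw [map_sub, sub_eq_sub_iff_sub_eq_sub]; exact h4
        obtain ⟨w, hw⟩ := Finite.injective_iff_surjective.1 hψ ⟨_, h3⟩
        have h4 : g w - w = g u - u := congrArg Subtype.val hw
        refine hc (u - w) (sub_ne_zero.2 fun h => hu (h ▸ w.2)) ?_
        rw [map_sub, sub_eq_sub_iff_sub_eq_sub]; exact h4.symm
    have h3 : Nat.card V = Nat.card W * Nat.card (V ⧸ W) := Submodule.card_eq_card_quotient_mul_card W
    have h4 : 0 < Nat.card W := Nat.card_pos
    have h5 : 0 < Nat.card (V ⧸ W) := Nat.card_pos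
    rw [le_sub_iff_add_le]
    refine Real.le_sqrt_of_sq_le ?_
    rw [hV] at h3
    have h6 : ((closure {h : ↥H | ∃ v : V, v ≠ 0 ∧ (h : V ≃ₗ[F] V) v = v}).index + 1) ^ 2 ≤
        Fintype.card F ^ Module.finrank F V := by
      rw [h3, pow_two]; exact Nat.mul_le_mul (by omega) (by omega)
    exact_mod_cast h6

end Cfsg.Agent.S4178
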