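import Mathlib
import Cfsg.Statements.S4182
import Cfsg.Agent.H8.Cls
import Cfsg.Agent.H7.PGrp2

set_option autoImplicit false
open Cfsg

namespace Cfsg.Agent.S4182

open Subgroup in
theorem card_sylow_le {G : Type*} [Group G] [Finite G] {p : ℕ} [Fact p.Prime] (P : Sylow p G)
    {L : Subgroup G} (h : (P : Subgroup G) ≤ L) :
    {Q : Sylow p G | (Q : Subgroup G) ≤ L}.ncard =
      (normalizer ((P : Subgroup G) : Set G)).relIndex L ∧
    {Q : Sylow p G | (Q : Subgroup G) ≤ L}.ncard ≡ 1 [MOD p] := by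
  have h1 : {Q : Sylow p G | (Q : Subgroup G) ≤ L}.ncard = Nat.card (Sylow p L) := by
    rw [← Nat.card_coe_set_eq]
    refine Nat.card_congr (Equiv.ofBijective (fun Q => Q.1.subtype Q.2) ⟨fun Q R e => ?_, fun R => ?_⟩)
    · exact Subtype.ext (Sylow.subtype_injective e)
    · obtain ⟨l, rfl⟩ := MulAction.exists_smul_eq L (P.subtype h) R
      exact ⟨⟨(l : G) • P, fun x hx => by
        have := mul_mem (mul_mem l.2 (h (H3.mem_coe_smul_sylow.1 hx))) (inv_mem l.2)
        simpa [mul_assoc] using this⟩, (Sylow.smul_subtype _ _).symm⟩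
  refine ⟨?_, h1 ▸ card_sylow_modEq_one p L⟩
  rw [h1, (P.subtype h).card_eq_index_normalizer, relIndex, subgroupOf_normalizer_eq h]
  rfl

open Subgroup in
theorem pgroup_cover {G : Type*} [Group G] [Finite G] {p : ℕ} [hp : Fact p.Prime] {P : Subgroup G}
    (hP : IsPGroup p P) {ι : Type*} [Fintype ι] (K : ι → Subgroup G)
    (hcov : ∀ g ∈ P, ∃ i, g ∈ K i) (hι : Fintype.card ι ≤ p) : ∃ i, P ≤ K i := by
  classical
  by_contra hc
  push Not at hc
  have := Fintype.ofFinite G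
  have hS : ∀ K : Subgroup G, (Finset.univ.filter (· ∈ K)).card = Nat.card K := fun K => by
    rw [Nat.card_eq_fintype_card, Fintype.card_subtype]
  have h1 : (Finset.univ.filter (· ∈ P)).erase 1 ⊆
      Finset.univ.biUnion fun i => (Finset.univ.filter (· ∈ K i ⊓ P)).erase 1 := by
    intro g hg
    simp only [Finset.mem_erase, Finset.mem_filter, Finset.mem_univ, true_and, Finset.mem_biUnion,
      mem_inf] at hg ⊢
    obtain ⟨i, hi⟩ := hcov g hg.2
    exact ⟨i, hg.1, hi, hg.2⟩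
  obtain ⟨i0, -⟩ := hcov 1 (one_mem _)
  have h2 : ∀ i, p * Nat.card (K i ⊓ P : Subgroup G) ≤ Nat.card P := fun i =>
    H7.mul_card_le_of_lt hP (lt_of_le_of_ne inf_le_right fun h => hc i (inf_eq_right.1 h))
  have h3 := (Finset.card_le_card h1).trans (Finset.card_biUnion_le_card_mul _ _
    (Nat.card P / p - 1) fun i _ => by
      rw [Finset.card_erase_of_mem (by simp), hS]
      exact Nat.sub_le_sub_right ((Nat.le_div_iff_mul_le hp.out.pos).2 (mul_comm p _ ▸ h2 i)) 1)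
  rw [Finset.card_erase_of_mem (by simp), hS, Finset.card_univ] at h3
  have h4 := h3.trans (Nat.mul_le_mul_right _ hι)
  rw [Nat.mul_sub_one] at h4
  have h5 := Nat.mul_div_le (Nat.card P) p
  have h6 : p * 1 ≤ Nat.card P := (Nat.mul_le_mul_left _ Nat.card_pos).trans (h2 i0)
  have := hp.out.two_le
  omega

open Subgroup in
open scoped Pointwise in

theorem result {G : Type*} [Group G] [Finite G] (p : ℕ) [Fact p.Prime] (hgen : Subgroup.closure {g : G | ∃ k : ℕ, orderOf g = p ^ k} = ⊤)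
    {ι : Type*} [Fintype ι] (K : ι → Subgroup G) (hK : ∀ i, K i ≠ ⊤)
    (hcov : ∀ g : G, (∃ k : ℕ, orderOf g = p ^ k) → ∃ i, g ∈ K i) :
    p + 1 ≤ Fintype.card ι := by
  classical
  have hp : p.Prime := Fact.out
  by_contra hlt
  have hι : Fintype.card ι ≤ p := by omega
  have h1 : ∀ Q : Sylow p G, ∃ i, (Q : Subgroup G) ≤ K i := fun Q =>
    pgroup_cover Q.2 K (fun g hg => hcov g (H8.exists_orderOf_eq_of_mem Q.2 hg)) hι
  obtain ⟨P, -, hmin⟩ := Set.exists_min_image (Set.univ : Set (Sylow p G))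
    (fun Q => (Finset.univ.filter fun i => (Q : Subgroup G) ≤ K i).card) (Set.toFinite _)
    Set.univ_nonempty
  obtain ⟨i, hi⟩ := h1 P
  obtain ⟨U, ⟨hPU, Q0, hQ0U, hQ0⟩, -, hU⟩ := H1.exists_minimal_le
    (fun U : Subgroup G => (P : Subgroup G) ≤ U ∧
      ∃ Q : Sylow p G, (Q : Subgroup G) ≤ U ∧ ¬ (Q : Subgroup G) ≤ K i) (N := ⊤) ⟨le_top, by
    by_contra hc
    push Not at hc
    apply hK i
    rw [eq_top_iff, ← hgen, closure_le]
    rintro g ⟨k, hk⟩
    obtain ⟨Q, hQ⟩ := (H8.isPGroup_zpowers_of_orderOf hk).exists_le_sylow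
    exact hc Q le_top (hQ (mem_zpowers g))⟩
  have hU' : ∀ L : Subgroup G, (P : Subgroup G) ≤ L → L < U → ∀ Q : Sylow p G,
      (Q : Subgroup G) ≤ L → (Q : Subgroup G) ≤ K i := by
    intro L h2 h3 Q h4
    by_contra h5
    exact h3.ne (hU L ⟨h2, Q, h4, h5⟩ h3.le)
  set S0 := {Q : Sylow p G | (Q : Subgroup G) ≤ U ⊓ K i} with hS0
  -- conjugates of subgroups
  have hconj : ∀ (u : G) (L : Subgroup G) (Q : Sylow p G),
      ((u • Q : Sylow p G) : Subgroup G) ≤ MulAut.conj u • L ↔ (Q : Subgroup G) ≤ L :=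
    fun u L Q => pointwise_smul_le_pointwise_smul_iff
  have hUu : ∀ u ∈ U, MulAut.conj u • U = U := fun u hu =>
    H1.mem_normalizer_iff_smul.1 (le_normalizer hu)
  have hkey : ∀ L : Subgroup G, L < U → ∀ u ∈ U, ((u⁻¹ • P : Sylow p G) : Subgroup G) ≤ L →
      ∀ Q : Sylow p G, (Q : Subgroup G) ≤ L → u • Q ∈ S0 := by
    intro L hL u hu h2 Q hQ
    have h3 : MulAut.conj u • L < U := by
      rw [← hUu u hu]
      exact lt_of_le_of_ne (pointwise_smul_le_pointwise_smul_iff.2 hL.le)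
        fun h => hL.ne (MulAction.injective _ h)
    have h4 := (hconj u L Q).2 hQ
    refine le_inf (h4.trans h3.le) (hU' _ ?_ h3 _ h4)
    have := (hconj u L _).2 h2
    rwa [smul_inv_smul] at this
  have hUK : U ⊓ K i < U := lt_of_le_of_ne inf_le_left fun h => hQ0 (hQ0U.trans (inf_eq_left.1 h))
  -- the stabilizer of the block
  set M := U ⊓ MulAction.stabilizer G S0 with hM
  have hPS : P ∈ S0 := le_inf hPU hi
  have hNM : ∀ u ∈ U, u⁻¹ • P ∈ S0 → u ∈ M := by
    intro u hu h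
    refine ⟨hu, ?_⟩
    refine Set.eq_of_subset_of_ncard_le ?_ (by rw [Set.ncard_smul_set])
    rintro _ ⟨Q, hQ, rfl⟩
    exact hkey _ hUK u hu h Q hQ
  have hPM : (P : Subgroup G) ≤ M := fun u hu => hNM u (hPU hu) (by
    rwa [(H8.smul_sylow_eq_iff P).2 (le_normalizer (inv_mem hu))])
  have hMU : M < U := by
    refine lt_of_le_of_ne inf_le_left fun h => hQ0 ?_
    obtain ⟨u, hu, rfl⟩ := H3.exists_smul_eq_of_le P Q0 hPU hQ0U
    have h2 : u • S0 = S0 := (inf_eq_left.1 h) hu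
    have h3 : u • P ∈ S0 := h2 ▸ Set.smul_mem_smul_set hPS
    exact le_trans h3 inf_le_right
  have hS0M : S0 = {Q : Sylow p G | (Q : Subgroup G) ≤ M} := by
    ext Q
    constructor
    · intro hQ
      obtain ⟨u, hu, rfl⟩ := H3.exists_smul_eq_of_le P Q hPS hQ
      have h2 : u ∈ M := (inv_mem_iff).1 (hNM u⁻¹ (inv_mem hu.1) (by rwa [inv_inv]))
      have h3 := (hconj u M P).2 hPM
      rwa [H1.mem_normalizer_iff_smul.1 (le_normalizer h2)] at h3
    · exact fun hQ => le_inf (le_trans hQ hMU.le) (hU' M hPM hMU Q hQ)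
  obtain ⟨e1, m1⟩ := card_sylow_le P hPM
  obtain ⟨e2, m2⟩ := card_sylow_le P hPU
  rw [← hS0M] at e1 m1
  have e3 : {Q : Sylow p G | (Q : Subgroup G) ≤ U}.ncard = S0.ncard * M.relIndex U := by
    have h2 : normalizer ((P : Subgroup G) : Set G) ⊓ U ≤ M := fun u hu => hNM u hu.2 (by
      rwa [(H8.smul_sylow_eq_iff P).2 (inv_mem hu.1)])
    rw [e2, e1, ← inf_relIndex_right, ← relIndex_mul_relIndex _ M U h2 hMU.le,
      ← inf_relIndex_right _ M, ← inf_relIndex_right (normalizer _) M, inf_assoc,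
      inf_of_le_right hMU.le]
  have h3 : p + 1 ≤ M.relIndex U := by
    rw [e3] at m2
    have h4 : M.relIndex U ≡ 1 [MOD p] := by
      have := (m1.mul_right (M.relIndex U)).symm.trans m2
      rwa [one_mul] at this
    have h5 : M.relIndex U ≠ 1 := fun h => hMU.not_ge (relIndex_eq_one.1 h)
    have h6 : M.relIndex U ≠ 0 := FiniteIndex.index_ne_zero
    have h7 := Nat.le_of_dvd (by omega) ((Nat.modEq_iff_dvd' (by omega)).1 h4.symm)
    omega
  -- counting
  have h4 : ∃ Q : Sylow p G, (Q : Subgroup G) ≤ U ∧ ∀ j, (Q : Subgroup G) ≤ K j → U ≤ K j := by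
    by_contra hc
    push Not at hc
    have := Fintype.ofFinite (Sylow p G)
    have h5 : {Q : Sylow p G | (Q : Subgroup G) ≤ U}.toFinset ⊆ Finset.univ.biUnion fun j =>
        {Q : Sylow p G | (Q : Subgroup G) ≤ U ⊓ K j ∧ ¬ U ≤ K j}.toFinset := by
      intro Q hQ
      simp only [Set.mem_toFinset, Set.mem_setOf_eq, Finset.mem_biUnion, Finset.mem_univ,
        true_and] at hQ ⊢
      obtain ⟨j, h6, h7⟩ := hc Q hQ
      exact ⟨j, le_inf hQ h6, h7⟩
    have h6 := (Finset.card_le_card h5).trans (Finset.card_biUnion_le_card_mul _ _ S0.ncard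
      fun j _ => by
        rw [← Set.ncard_eq_toFinset_card']
        rcases Set.eq_empty_or_nonempty
          {Q : Sylow p G | (Q : Subgroup G) ≤ U ⊓ K j ∧ ¬ U ≤ K j} with h | ⟨R, hR, hUj⟩
        · rw [h]; simp
        obtain ⟨u, hu, rfl⟩ := H3.exists_smul_eq_of_le P R hPU (le_trans hR inf_le_left)
        refine Set.ncard_le_ncard_of_injOn (fun Q => u⁻¹ • Q) (fun Q hQ => ?_)
          (fun _ _ _ _ h => MulAction.injective _ h)
        exact hkey _ (lt_of_le_of_ne inf_le_left fun h => hUj (inf_eq_left.1 h)) u⁻¹ (inv_mem hu)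
          (by rwa [inv_inv]) Q hQ.1)
    rw [← Set.ncard_eq_toFinset_card', e3, Finset.card_univ, mul_comm] at h6
    have h7 : 0 < S0.ncard := (Set.ncard_pos (Set.toFinite _)).2 ⟨P, hPS⟩
    have := Nat.le_of_mul_le_mul_right h6 h7
    omega
  obtain ⟨Q, hQU, hQ⟩ := h4
  refine (hmin Q trivial).not_gt (Finset.card_lt_card ⟨fun j hj => ?_, fun h => ?_⟩)
  · simp only [Finset.mem_filter, Finset.mem_univ, true_and] at hj ⊢
    exact hPU.trans (hQ j hj)
  · have h5 := h (Finset.mem_filter.2 ⟨Finset.mem_univ i, hi⟩)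
    exact hQ0 (hQ0U.trans (hQ i (Finset.mem_filter.1 h5).2))

end Cfsg.Agent.S4182
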