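import Mathlib
import Cfsg.Statements.S4186
import Cfsg.Agent.H8.Elt

set_option autoImplicit false
open Cfsg

namespace Cfsg.Agent.S4186

open Subgroup in

theorem result {G : Type*} [Group G] (T X : Subgroup G) [Finite ↥T] (hT : IsPGroup 2 ↥T) (hTN : T ≤ Subgroup.normalizer (X : Set G)) (hTC : ¬ T ≤ Subgroup.centralizer (X : Set G)) : ∃ t ∈ T, ∃ x ∈ X, x ≠ 1 ∧ t * x * t⁻¹ = x⁻¹ := by
  obtain ⟨s, hs, hsC⟩ := SetLike.not_le_iff_exists.1 hTC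
  obtain ⟨k, hk⟩ := H8.exists_pow_eq_one_of_mem hT hs
  obtain ⟨j, h1, h2⟩ := H8.exists_pow_not_mem_pow_mem' (p := 2) (k := k) hsC (hk ▸ one_mem _)
  set t := s ^ 2 ^ j
  have ht : t ∈ T := pow_mem hs _
  rw [mem_centralizer_iff] at h1 h2
  push Not at h1
  obtain ⟨y, hy, hyt⟩ := h1
  refine ⟨t, ht, t * y * t⁻¹ * y⁻¹,
    mul_mem (H1.conj_mem_of_mem_normalizer (hTN ht) hy) (inv_mem hy), fun h => hyt ?_, ?_⟩
  · rw [mul_inv_eq_one, mul_inv_eq_iff_eq_mul] at h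
    exact h.symm
  · calc t * (t * y * t⁻¹ * y⁻¹) * t⁻¹ = (t ^ 2 * y) * t⁻¹ * y⁻¹ * t⁻¹ := by rw [pow_two]; group
      _ = (t * y * t⁻¹ * y⁻¹)⁻¹ := by rw [← h2 y hy, pow_two]; group

end Cfsg.Agent.S4186
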