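import Cfsg.Statements.S4188
import Cfsg.Agent.H3.Misc
import Cfsg.Agent.H16.Misc
import Cfsg.Agent.H4.Comm
import Cfsg.Agent.H9.NormalCyc

set_option autoImplicit false
open Cfsg

namespace Cfsg.Agent.S4188

open Subgroup
open scoped commutatorElement

section
variable {G : Type*} [Group G] [Finite G]

def W (V : Subgroup G) [IsMulCommutative V] (a : G) (i : ℤ) : Subgroup G where
  carrier := {v | v ∈ V ∧ a * v * a⁻¹ = v ^ i}
  mul_mem' {x y} a b := ⟨V.mul_mem a.1 b.1, by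
    rw [(Commute.mul_zpow (setLike_mul_comm a.1 b.1) i), ← a.2, ← b.2]; group⟩
  one_mem' := ⟨V.one_mem, by simp⟩
  inv_mem' {x} a := ⟨V.inv_mem a.1, by rw [inv_zpow, ← a.2]; group⟩

variable {V : Subgroup G} [IsMulCommutative V]

theorem W_conj {a b g : G} {i : ℤ} (hg : g ∈ normalizer (V : Set G))
    (h : b⁻¹ * (g * a * g⁻¹) ∈ centralizer (V : Set G)) {v : G} (hv : v ∈ W V a i) :
    g * v * g⁻¹ ∈ W V b i := by
  have h1 := H1.conj_mem_of_mem_normalizer hg hv.1
  refine ⟨h1, ?_⟩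
  rw [conj_zpow, ← hv.2, mul_inv_eq_iff_eq_mul, ← mul_inv_cancel_right (b * _) (b⁻¹ * (g * a * g⁻¹)),
    mul_assoc b, h _ h1]
  group

theorem W_sup (ho : Odd (Nat.card V)) {a : G} (ha : a ∈ normalizer (V : Set G))
    (h2 : a * a ∈ centralizer (V : Set G)) : W V a 1 ⊔ W V a (-1) = V ∧
      Nat.card V = Nat.card (W V a 1) * Nat.card (W V a (-1)) := by
  have h1 : W V a 1 ⊔ W V a (-1) = V := le_antisymm (sup_le (fun _ h => h.1) fun _ h => h.1) fun v hv => by
    obtain ⟨k, hk⟩ := ho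
    have hw := V.pow_mem hv (k + 1)
    have e : v ^ (k + 1) * v ^ (k + 1) = v := by
      rw [← pow_add, show k + 1 + (k + 1) = Nat.card V + 1 by omega, pow_succ,
        show v ^ _ = 1 from congrArg Subtype.val (pow_card_eq_one' (x := (⟨v, hv⟩ : V))), one_mul]
    generalize v ^ (k + 1) = w at *
    have h3 := H1.conj_mem_of_mem_normalizer ha hw
    have h4 : a * (a * w * a⁻¹) * a⁻¹ = w := by
      rw [← mul_assoc, ← mul_assoc, ← h2 w hw]; group
    have h5 := setLike_mul_comm hw h3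
    rw [← e, show w * w = w * (a * w * a⁻¹) * ((a * w * a⁻¹)⁻¹ * w) by group]
    refine mul_mem_sup ⟨V.mul_mem hw h3, ?_⟩ ⟨V.mul_mem (V.inv_mem h3) hw, ?_⟩
    · rw [zpow_one, h5]; nth_rw 4 [← h4]; rw [← h5]; group
    · calc _ = (a * (a * w * a⁻¹) * a⁻¹)⁻¹ * (a * w * a⁻¹) := by simp [mul_assoc]
        _ = _ := by rw [h4]; simp [mul_assoc]
  refine ⟨h1, (congrArg (fun U : Subgroup G => Nat.card U) h1.symm).trans (H1.card_sup_of_disjoint
    (H := W V a 1) (N := W V a (-1)) (fun x hx => centralizer_le_normalizer _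
    fun y hy => setLike_mul_comm hy.1 hx.1) (eq_bot_iff.2 fun v hv => ?_))⟩
  have h3 : v ^ 2 = 1 := by simpa [pow_two, ← eq_inv_iff_mul_eq_one] using hv.1.2.symm.trans hv.2.2
  exact orderOf_eq_one_iff.1 ((Nat.coprime_two_right.2 (ho.of_dvd_nat
    (V.orderOf_dvd_natCard hv.1.1))).eq_one_of_dvd (orderOf_dvd_of_pow_eq_one h3))

theorem three {U : Subgroup G} (hU : Nat.card U = 3) {x : G} (hx : x ∈ normalizer (U : Set G)) :
    (∀ u ∈ U, x * u * x⁻¹ = u ^ (1 : ℤ)) ∨ ∀ u ∈ U, x * u * x⁻¹ = u ^ (-1 : ℤ) := by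
  classical
  simp only [zpow_one, zpow_neg_one]
  have : Fact (Nat.Prime 3) := ⟨Nat.prime_three⟩
  obtain ⟨a, rfl⟩ := (Subgroup.isCyclic_iff_exists_zpowers_eq_top U).1 (isCyclic_of_prime_card hU)
  rw [Nat.card_zpowers] at hU
  have := mem_zpowers_iff_mem_range_orderOf.1 (H1.conj_mem_of_mem_normalizer hx (mem_zpowers a))
  simp only [hU, Finset.range_add_one, Finset.range_zero, Finset.image_insert, Finset.mem_insert,
    Finset.image_empty, Finset.notMem_empty, or_false] at this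
  rcases this with h | h | h
  · refine .inr ?_
    rintro _ ⟨i, rfl⟩
    rw [← conj_zpow, h, ← inv_zpow, inv_eq_of_mul_eq_one_left
      ((pow_succ a 2).symm.trans (orderOf_dvd_iff_pow_eq_one.1 hU.dvd))]
  · refine .inl ?_
    rintro _ ⟨i, rfl⟩
    rw [← conj_zpow, h, pow_one]
  · rw [pow_zero, conj_eq_one_iff] at h
    simp [h] at hU

def Gen (P V : Subgroup G) (k : ℕ) : Prop :=
  ∃ T : Finset G, T.card ≤ k ∧ (T : Set G) ⊆ P ∧ P ≤ closure (T : Set G) ⊔ P ⊓ centralizer V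

theorem Gen.split {P U U' : Subgroup G} {a b : ℕ} (h : Gen P U a)
    (h' : Gen (P ⊓ centralizer U) U' b) : Gen P (U ⊔ U') (a + b) := by
  classical
  obtain ⟨T, h1, h2, h3⟩ := h
  obtain ⟨T', h4, h5, h6⟩ := h'
  refine ⟨T ∪ T', (T.card_union_le T').trans (add_le_add h1 h4), by
    simpa using ⟨h2, fun x hx => (h5 hx).1⟩, h3.trans (sup_le ?_ (h6.trans (sup_le_sup ?_ ?_)))⟩
  · exact le_sup_of_le_left (Subgroup.closure_mono (by simp))
  · exact Subgroup.closure_mono (by simp)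
  · rw [H4.centralizer_sup, inf_assoc]

theorem Gen.ext {P Q U : Subgroup G} {a : ℕ} (h : Gen Q U a) (hQ : Q ≤ P) {g : G} (hg : g ∈ P)
    (h0 : ∀ x ∈ P, x ∈ Q ∨ x * g ∈ Q) : Gen P U (a + 1) := by
  classical
  obtain ⟨T, h1, h2, h3⟩ := h
  have h4 : Q ≤ closure ((insert g T : Finset G) : Set G) ⊔ P ⊓ centralizer U :=
    h3.trans (sup_le_sup (Subgroup.closure_mono (by simp)) (inf_le_inf_right _ hQ))
  exact ⟨insert g T, (T.card_insert_le g).trans (by omega), by
    simpa [Set.insert_subset_iff] using ⟨hg, h2.trans hQ⟩, fun x hx => (h0 x hx).elim (h4 ·) fun c =>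
      (Subgroup.mul_mem_cancel_right _ (mem_sup_left (Subgroup.subset_closure (by simp)))).1 (h4 c)⟩

theorem main (n : ℕ) : ∀ (V P : Subgroup G) [IsMulCommutative V], Nat.card V = n → Odd n → V ≠ ⊥ →
    IsPGroup 2 P → P ≤ normalizer (V : Set G) →
    ∃ k, Gen P V k ∧ (2 * 2 ^ k ≤ n ∨ n = 3 ∧ k ≤ 1) := by
  classical
  induction n using Nat.strong_induction_on with
  | _ n ih =>
  intro V P _ hn ho h0 hP hN
  have n3 : ∀ U : Subgroup G, U ≠ ⊥ → Nat.card U ∣ n → 3 ≤ Nat.card U := fun U a b => by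
    have := (one_lt_card_iff_ne_bot _).2 a
    obtain ⟨k, hk⟩ := ho.of_dvd_nat b
    omega
  have sp : ∀ Q ≤ P, ∀ U U' : Subgroup G, U ≠ ⊥ → U' ≠ ⊥ → U ⊔ U' = V →
      n = Nat.card U * Nat.card U' → Q ≤ normalizer (U : Set G) → Q ≤ normalizer (U' : Set G) →
      ∃ a b, Gen Q V (a + b) ∧ (2 * 2 ^ a ≤ Nat.card U ∨ Nat.card U = 3 ∧ a ≤ 1) ∧
        (2 * 2 ^ b ≤ Nat.card U' ∨ Nat.card U' = 3 ∧ b ≤ 1) := fun Q hQ U U' a b c d e f => by
    have := n3 U a ⟨_, d⟩
    have := n3 U' b (Dvd.intro_left _ d.symm)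
    have := H1.isMulCommutative_of_le (show U ≤ V from c ▸ le_sup_left)
    have := H1.isMulCommutative_of_le (show U' ≤ V from c ▸ le_sup_right)
    obtain ⟨i, h1, h2⟩ := ih _ (by nlinarith) U Q rfl (ho.of_dvd_nat ⟨_, d⟩) a (hP.to_le hQ) e
    obtain ⟨j, h3, h4⟩ := ih _ (by nlinarith) U' (Q ⊓ centralizer U) rfl (ho.of_dvd_nat
      (Dvd.intro_left _ d.symm)) b (hP.to_le (inf_le_left.trans hQ)) (inf_le_left.trans f)
    exact ⟨i, j, c ▸ h1.split h3, h2, h4⟩
  set C := centralizer (V : Set G)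
  have hC : (C.subgroupOf P).Normal := ⟨fun x hx g => fun v hv => by
    have := hx _ (H1.conj_mem_of_mem_normalizer (inv_mem (hN g.2)) hv)
    simp only [coe_mul, coe_inv, inv_inv] at this ⊢
    rw [← mul_left_inj (g : G), ← mul_right_inj (g : G)⁻¹]
    simpa [mul_assoc] using this⟩
  let π := QuotientGroup.mk' (C.subgroupOf P)
  have hs := QuotientGroup.mk'_surjective (C.subgroupOf P)
  have gen : ∀ T : Finset P, closure (π '' T) = ⊤ → Gen P V T.card := fun T h => by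
    refine ⟨T.image (↑), Finset.card_image_le, by simpa using! fun x _ => x.2, fun x hx => ?_⟩
    replace h := congrArg (comap π) h
    rw [← MonoidHom.map_closure, comap_map_eq, QuotientGroup.ker_mk', comap_top] at h
    have := mem_map_of_mem P.subtype (h ▸ mem_top (⟨x, hx⟩ : P))
    rwa [Subgroup.map_sup, subgroupOf_map_subtype, MonoidHom.map_closure, inf_comm,
      ← Finset.coe_image] at this
  have hQ := hP.to_quotient (C.subgroupOf P)
  have n3' := hn ▸ n3 V h0 hn.dvd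
  by_cases hE : ∀ E : Subgroup (P ⧸ C.subgroupOf P), E.Normal → IsMulCommutative E →
      (∀ v ∈ E, v ^ 2 = 1) → Nat.card E ≠ 4
  · rcases H9.cyclic_or_dqs hQ hE with h | ⟨m, a, b, h1, h2, h3, h4, h5⟩
    · obtain ⟨a, ha⟩ := isCyclic_iff_exists_zpowers_eq_top.1 h
      obtain ⟨a, rfl⟩ := hs a
      exact ⟨1, gen {a} (by simpa [← zpowers_eq_closure] using! ha), by omega⟩
    obtain ⟨a, rfl⟩ := hs a
    obtain ⟨b, rfl⟩ := hs b
    obtain ⟨T, a1, a2⟩ := gen {a, b} (by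
      rw [Finset.coe_pair, Set.image_pair, H9.closure_pair_eq]
      exact (eq_top_iff' _).2 fun x => (em _).elim mem_sup_left fun c => (Subgroup.mul_mem_cancel_right _
        (mem_sup_right (mem_zpowers _))).1 (mem_sup_left ((mul_mem_iff_of_index_two h3).2
          (iff_of_false c h4))))
    refine ⟨2, ⟨T, a1.trans Finset.card_le_two, a2⟩, .inl ?_⟩
    by_contra h
    have : Fact n.Prime := ⟨by obtain ⟨k, rfl⟩ := ho; have : k < 4 := by omega
                               interval_cases k <;> simp_all <;> norm_num⟩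
    have h6 : π b * π a * (π b)⁻¹ = π a := mul_inv_eq_iff_eq_mul.2 (commutatorElement_eq_one_iff_mul_comm.1
      ((QuotientGroup.eq_one_iff ⁅b, a⁆).2 (H16.der_cent_cyclic (isCyclic_of_prime_card hn) hN
        (commutator_mem_commutator b.2 a.2))))
    rw [h6] at h5
    obtain ⟨m, rfl⟩ : ∃ k, m = k + 2 := ⟨m - 2, by omega⟩
    have := Nat.one_le_two_pow (n := m)
    replace h2 : orderOf (π a) = 2 ^ m * 4 := h2.trans (pow_add ..)
    rcases h5 with ⟨-, h⟩ | ⟨-, h⟩ | ⟨h7, -, h⟩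
    iterate 2
      have := Nat.le_of_dvd two_pos (orderOf_dvd_of_pow_eq_one
        ((pow_two _).trans (eq_inv_iff_mul_eq_one.1 h)))
      omega
    have := Nat.one_lt_two_pow (n := m) (by omega)
    have e : 2 ^ (m + 2 - 1) = 2 ^ m * 2 := pow_succ ..
    have := pow_injOn_Iio_orderOf (x := π a) (show 1 < orderOf (π a) by omega)
      (show 2 ^ (m + 2 - 1) - 1 < orderOf (π a) by omega) ((pow_one _).trans h)
    omega
  push Not at hE
  obtain ⟨E, _, -, e2, hE⟩ := hE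
  obtain ⟨z, hz, z1, -, zc⟩ := H9.exists_central_step hQ (M := E) (N := ⊥) fun h => by
    simp [le_bot_iff.1 h] at hE
  simp only [mem_bot, commutatorElement_eq_one_iff_commute] at z1 zc
  have oz := orderOf_eq_prime (e2 z hz) z1
  have nz : (zpowers z).Normal := ⟨fun y ⟨i, hy⟩ g => by
    rw [← hy, ((zc g).symm.zpow_right i).eq, mul_inv_cancel_right]; exact ⟨i, rfl⟩⟩
  obtain ⟨e, he, e1, -, ec⟩ := H9.exists_central_step hQ (M := E) (N := zpowers z) fun h => by
    have := card_le_of_le h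
    rw [Nat.card_zpowers] at this; omega
  have mz : ∀ y ∈ zpowers z, y = 1 ∨ y = z := fun y hy => by
    simpa [oz, Finset.range_add_one, or_comm] using mem_zpowers_iff_mem_range_orderOf.1 hy
  obtain ⟨z, rfl⟩ := hs z
  obtain ⟨e, rfl⟩ := hs e
  have mC : ∀ x : P, π x = 1 → (x : G) ∈ C := fun x => (QuotientGroup.eq_one_iff x).1
  have Cm : ∀ x : P, (x : G) ∈ C → π x = 1 := fun x h => (QuotientGroup.eq_one_iff x).2 h
  have nm : ∀ (a g : P) (i), Commute (π a) (π g) → (g : G) ∈ normalizer (W V a i : Set G) :=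
    fun a g i h => H6.mem_normalizer_of_conj_le fun _ => W_conj (hN g.2) (mC (a⁻¹ * (g * a * g⁻¹)) (by
      simp [← h.eq]))
  have ws : ∀ a : P, π a ∈ E → _ := fun a h => W_sup (hn ▸ ho) (hN a.2) (mC (a * a)
    ((pow_two _).symm.trans (e2 _ h)))
  have nb : ∀ a : P, π a ∈ E → π a ≠ 1 → W V a (-1) ≠ ⊥ := fun a h h' c => h' (Cm a fun v hv => by
    have := (ws a h).1
    rw [c, sup_bot_eq] at this
    exact (mul_inv_eq_iff_eq_mul.1 ((this.ge hv).2.trans (zpow_one v))).symm)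
  have cm : ∀ U U' : Subgroup G, U ≠ ⊥ → U' ≠ ⊥ → U ⊔ U' = V → n = Nat.card U * Nat.card U' →
      P ≤ normalizer (U : Set G) → P ≤ normalizer (U' : Set G) →
      ∃ k, Gen P V k ∧ (2 * 2 ^ k ≤ n ∨ n = 3 ∧ k ≤ 1) := fun U U' a b c d e f => by
    obtain ⟨i, j, h1, h2, h3⟩ := sp P le_rfl U U' a b c d e f
    refine ⟨_, h1, .inl ?_⟩
    rw [d, pow_add]
    rcases h2 with h2 | ⟨h2, h4⟩ <;> rcases h3 with h3 | ⟨h3, h5⟩
    · nlinarith [Nat.mul_le_mul h2 h3]
    · interval_cases j <;> nlinarith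
    · interval_cases i <;> nlinarith
    · interval_cases i <;> interval_cases j <;> simp [h2, h3]
  by_cases hz0 : W V z 1 = ⊥
  swap
  · exact cm _ _ hz0 (nb z hz z1) (ws z hz).1 (hn ▸ (ws z hz).2) (fun g hg => nm z ⟨g, hg⟩ _ (zc _))
      fun g hg => nm z ⟨g, hg⟩ _ (zc _)
  have zi : ∀ v ∈ V, z * v * (z : G)⁻¹ = v⁻¹ := fun v hv => by
    have := (ws z hz).1
    rw [hz0, bot_sup_eq] at this
    exact (this.ge hv).2.trans (zpow_neg_one v)
  have ez : ∀ i, W V (e * z) i = W V e (-i) := fun i => Subgroup.ext fun v => and_congr_right fun hv => by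
    rw [show e * z * v * (e * z : G)⁻¹ = (e * (z * v * (z : G)⁻¹)⁻¹ * (e : G)⁻¹)⁻¹ by group, zi v hv,
      inv_inv, inv_eq_iff_eq_inv, zpow_neg]
  have b1 : W V e 1 ≠ ⊥ := (ez (-1)).symm.trans_ne (nb (e * z) (E.mul_mem he hz) fun h =>
    e1 (eq_inv_of_mul_eq_one_left ((map_mul π e z).symm.trans h) ▸ inv_mem (mem_zpowers _)))
  have b2 := nb e he fun h => e1 (h ▸ one_mem _)
  by_cases hg : ∀ g, Commute (π e) (π g)
  · exact cm _ _ b1 b2 (ws e he).1 (hn ▸ (ws e he).2) (fun g h => nm e ⟨g, h⟩ _ (hg _))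
      fun g h => nm e ⟨g, h⟩ _ (hg _)
  push Not at hg
  obtain ⟨g, hg⟩ := hg
  have sw : ∀ g : P, ¬ Commute (π e) (π g) → π g * π e * (π g)⁻¹ = π e * π z := fun g h => by
    have := (mz _ (ec (π g))).resolve_left (mt commutatorElement_eq_one_iff_commute.1 h)
    rw [← this, commutatorElement_def, ← mul_assoc, ← mul_assoc, ← mul_assoc, ← pow_two, e2 _ he,
      one_mul, inv_eq_of_mul_eq_one_left ((pow_two _).symm.trans (e2 _ he))]
  let Q := ((centralizer {π e}).comap π).map P.subtype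
  have mQ : ∀ x : P, Commute (π e) (π x) → (x : G) ∈ Q := fun x h =>
    ⟨x, mem_centralizer_singleton_iff.2 h.symm, rfl⟩
  have h0 : ∀ x ∈ P, x ∈ Q ∨ x * g ∈ Q := fun x hx => (em _).imp (mQ ⟨x, hx⟩) fun c =>
    mQ (⟨x, hx⟩ * g) (by
      refine (mul_inv_eq_iff_eq_mul.1 ?_).symm
      rw [map_mul, mul_inv_rev, show ∀ a b c : P ⧸ C.subgroupOf P, a * b * c * (b⁻¹ * a⁻¹) =
        a * (b * c * b⁻¹) * a⁻¹ from fun _ _ _ => by group, sw g hg, ← mul_assoc, mul_assoc _ (π z),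
        (zc _).inv_right.eq, ← mul_assoc, sw _ c, mul_assoc, ← pow_two, e2 _ hz, mul_one])
  have nQ : ∀ i, Q ≤ normalizer (W V e i : Set G) := by
    rintro i _ ⟨x, hx, rfl⟩
    exact nm e x i (mem_centralizer_singleton_iff.1 hx).symm
  have eq : ∀ i, Nat.card (W V e i) ≤ Nat.card (W V e (-i)) := fun i =>
    Nat.card_le_card_of_injective (fun v => ⟨_, ez i ▸ W_conj (hN g.2) (mC ((e * z)⁻¹ * (g * e * g⁻¹))
      (by simp [sw g hg])) v.2⟩) fun v w h => Subtype.ext (by simpa using h)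
  have eq' := le_antisymm (eq 1) (eq (-1))
  by_cases h3 : Nat.card (W V e 1) = 3
  · refine ⟨2, ⟨{(e : G), (g : G)}, Finset.card_le_two, by simp [Set.insert_subset_iff], ?_⟩,
      .inl (by rw [← hn, (ws e he).2, ← eq', h3]; simp)⟩
    set R := closure (({(e : G), (g : G)} : Finset G) : Set G) ⊔ P ⊓ C
    have eR : (e : G) ∈ R := mem_sup_left (Subgroup.subset_closure (by simp))
    have gR : (g : G) ∈ R := mem_sup_left (Subgroup.subset_closure (by simp))
    have ezR : (e : G) * z ∈ R := (R.mul_mem_cancel_left (R.inv_mem (R.mul_mem (R.mul_mem gR eR)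
      (R.inv_mem gR)))).1 (mem_sup_right ⟨((g * e * g⁻¹)⁻¹ * (e * z)).2,
        mC ((g * e * g⁻¹)⁻¹ * (e * z)) (by
          rw [map_mul, map_inv, map_mul, map_mul, map_inv, sw g hg, map_mul, inv_mul_cancel])⟩)
    have cp : ∀ (U : Subgroup G) (x y : G) (i j : ℤ), (∀ u ∈ U, x * u * x⁻¹ = u ^ i) →
        (∀ u ∈ U, y * u * y⁻¹ = u ^ j) → i * j = 1 → x * y ∈ centralizer (U : Set G) :=
      fun U x y i j a b c u hu => (mul_inv_eq_iff_eq_mul.1 (by
        rw [show x * y * u * (x * y)⁻¹ = x * (y * u * y⁻¹) * x⁻¹ by group, b u hu, ← conj_zpow,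
          a u hu, ← zpow_mul, c, zpow_one])).symm
    have fin : ∀ x ∈ Q, ∀ y ∈ R, y ∈ P → x * y ∈ centralizer (W V e 1 : Set G) →
        x * y ∈ centralizer (W V e (-1) : Set G) → x ∈ R := fun x a y b c d f =>
      (R.mul_mem_cancel_right b).1 (mem_sup_right ⟨P.mul_mem (map_subtype_le _ a) c, by
        change _ ∈ centralizer (V : Set G)
        rw [← (ws e he).1, H4.centralizer_sup]; exact ⟨d, f⟩⟩)
    have hQR : Q ≤ R := fun x hx => by
      rcases three h3 (nQ _ hx) with a | a <;> rcases three (eq'.symm.trans h3) (nQ _ hx) with b | b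
      · exact fin x hx 1 R.one_mem P.one_mem (cp _ _ _ _ 1 a (by simp) rfl) (cp _ _ _ _ 1 b (by simp) rfl)
      · exact fin x hx e eR e.2 (cp _ _ _ _ _ a (fun _ h => h.2) rfl) (cp _ _ _ _ _ b (fun _ h => h.2) rfl)
      · exact fin x hx _ ezR (e * z).2 (cp _ _ _ _ _ a (fun _ h => ((ez (-1)).ge h).2) rfl)
          (cp _ _ _ _ _ b (fun _ h => ((ez 1).ge h).2) rfl)
      · exact fin x hx z ((R.mul_mem_cancel_left eR).1 ezR) z.2 (cp _ _ _ _ (-1) a
          (fun _ h => by simpa using zi _ h.1) rfl) (cp _ _ _ _ (-1) b (fun _ h => by simpa using zi _ h.1) rfl)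
    exact fun x hx => (h0 x hx).elim (hQR ·) fun c => (R.mul_mem_cancel_right gR).1 (hQR c)
  obtain ⟨i, j, h1, h2, h4⟩ := sp Q (map_subtype_le _) _ _ b1 b2 (ws e he).1 (hn ▸ (ws e he).2)
    (nQ _) (nQ _)
  refine ⟨_, h1.ext (map_subtype_le _) g.2 h0, .inl ?_⟩
  rw [← hn, (ws e he).2, pow_succ, pow_add]
  nlinarith [Nat.mul_le_mul (h2.resolve_right fun a => h3 a.1)
    (h4.resolve_right fun a => h3 (eq'.trans a.1))]

end


/-- Let G be a finite group that is the semidirect product of a normal abelian subgroup N of odd order by a 2-subgroup P, and suppose N is the unique minimal normal subgroup of G. Then the index of the Frattini subgroup of P in P is at most #N − 1. -/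
theorem result {G : Type*} [Group G] [Finite G] (N P : Subgroup G) (hN : N.Normal) (hNab : IsMulCommutative ↥N) (hNodd : Odd (Nat.card ↥N)) (hP : IsPGroup 2 ↥P) (hdisj : N ⊓ P = ⊥) (hprod : N ⊔ P = ⊤) (hmin : N ≠ ⊥ ∧ ∀ M : Subgroup G, M.Normal → M ≠ ⊥ → N ≤ M) : (frattini ↥P).index ≤ Nat.card ↥N - 1 := by
  obtain ⟨k, ⟨T, h1, h2, h3⟩, h4⟩ := main _ N P rfl hNodd hmin.1 hP le_normalizer_of_normal
  have h5 : P ⊓ centralizer (N : Set G) = ⊥ := by
    by_contra h
    refine hmin.1 (eq_bot_iff.2 (hdisj ▸ le_inf le_rfl ((hmin.2 _ (normalizer_eq_top_iff.1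
      (eq_top_iff.2 (hprod ▸ sup_le (fun x hx => centralizer_le_normalizer _ fun y hy =>
        (hy.2 x hx).symm) fun x hx => H6.mem_normalizer_of_conj_le fun y hy => ⟨P.mul_mem (P.mul_mem hx
          hy.1) (P.inv_mem hx), (inferInstance : (centralizer (N : Set G)).Normal).conj_mem _ hy.2 x⟩)))
      h).trans inf_le_left)))
  rw [h5, sup_bot_eq] at h3
  obtain rfl := le_antisymm h3 ((closure_le _).2 h2)
  have := (Nat.le_of_dvd (by positivity) (H3.index_frattini_dvd_pow_rank hP)).trans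
    (Nat.pow_le_pow_right two_pos ((rank_closure_finset_le_card T).trans h1))
  have := Nat.two_pow_pos k
  rcases h4 with h | ⟨h, h'⟩
  · omega
  · interval_cases k <;> omega

end Cfsg.Agent.S4188
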