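import Mathlib
import Cfsg.Statements.S4193
import Cfsg.Agent.H8.RealC
import Cfsg.Agent.H8.FTc
import Cfsg.Agent.H3.Misc
import Cfsg.Agent.H3.Misc2
import Cfsg.Agent.S0205

set_option autoImplicit false
open Cfsg

namespace Cfsg.Agent.S4193

open Subgroup

theorem result {G : Type*} [Group G] [Finite G] (a : ℕ) (h : ∀ x : G, IsConj x x⁻¹ → x ∉ Subgroup.center G → ((Subgroup.centralizer ({x} : Set G)).index).factorization 2 = a) (S : Sylow 2 G) (hS : ∀ s : ↥(S : Subgroup G), IsConj s s⁻¹ → s ∈ Subgroup.center ↥(S : Subgroup G)) : Group.IsSolvable G ∧ Cfsg.HasNormalPComplement 2 ↥(Subgroup.closure {g : G | ∃ k : ℕ, orderOf g = 2 ^ k}) := by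
  have hFT : H8.FTH := fun _ _ _ h => Cfsg.Agent.S0205.result h
  by_cases hc : ∀ t : G, orderOf t = 2 → t ∈ center G
  · have hn : HasNormalPComplement 2 G := by
      refine H8.npc_of_real_central fun x ⟨j, hj⟩ hx => ?_
      obtain ⟨g, hg⟩ := isConj_iff.1 hx
      obtain ⟨t, ⟨k, hk⟩, -, ht⟩ := H8.exists_two_elt_inverting hg
      have h1 : zpowers t ≤ normalizer (zpowers x : Set G) := by
        rw [zpowers_le]
        refine mem_normalizer_fintype ?_
        rintro _ ⟨i, rfl⟩
        change t * x ^ i * t⁻¹ ∈ zpowers x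
        rw [H6.conj_zpow_of_inverts ht]
        exact inv_mem (zpow_mem (mem_zpowers x) i)
      obtain ⟨u, hu⟩ := H6.exists_conj_le_sylow S (H12.isPGroup_sup
        (H8.isPGroup_zpowers_of_orderOf hk) (H8.isPGroup_zpowers_of_orderOf hj) h1)
      have hx' := hu x (mem_sup_right (mem_zpowers x))
      have ht' := hu t (mem_sup_left (mem_zpowers t))
      have e : u * t * u⁻¹ * (u * x * u⁻¹) * (u * t * u⁻¹)⁻¹ = (u * x * u⁻¹)⁻¹ := by
        calc _ = u * (t * x * t⁻¹) * u⁻¹ := by group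
          _ = _ := by rw [ht]; group
      have h2 := congrArg Subtype.val (mem_center_iff.1 (hS ⟨_, hx'⟩
        (isConj_iff.2 ⟨⟨_, ht'⟩, Subtype.ext e⟩)) ⟨_, ht'⟩)
      change u * t * u⁻¹ * (u * x * u⁻¹) = u * x * u⁻¹ * (u * t * u⁻¹) at h2
      rw [h2, mul_inv_cancel_right] at e
      have h3 : x * x = 1 := by
        calc x * x = u⁻¹ * (u * x * u⁻¹ * (u * x * u⁻¹)) * u := by group
          _ = 1 := by nth_rewrite 2 [e]; group
      by_cases h4 : x = 1
      · rw [h4]; exact one_mem _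
      · exact hc x (H6.ord2_of h3 h4)
    exact ⟨H3.isSolvable_of_npc hn fun N hN => hFT N (Nat.coprime_two_right.1 hN),
      H3.hasNormalPComplement_subgroup _ hn⟩
  · push Not at hc
    obtain ⟨t, ht, htc⟩ := hc
    obtain ⟨g, hg⟩ := H6.exists_conj_mem_sylow_ord2 S ht
    have h1 := H6.ord2_inv (H6.ord2_conj ht g)
    have h2 := mem_center_iff.1 (hS ⟨_, hg⟩ (by
      rw [show (⟨_, hg⟩ : (S : Subgroup G))⁻¹ = ⟨_, hg⟩ from Subtype.ext h1]))
    have h3 : ¬ 2 ∣ (centralizer ({t} : Set G)).index := by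
      rw [← H8.index_centralizer_conj t g]
      exact H8.not_dvd_index_of_sylow_le S fun y hy =>
        mem_centralizer_singleton_iff.2 (congrArg Subtype.val (h2 ⟨y, hy⟩))
    have ha : a = 0 := by
      rw [← h t (by rw [H6.ord2_inv ht]) htc, Nat.factorization_eq_zero_of_not_dvd h3]
    haveI : (S : Subgroup G).Normal := by
      refine H3.normal_sylow_two_of_no_real (fun x hx ho hr => hx ?_) S
      refine H6.eq_one_of_odd_of_sq ho (mul_eq_one_iff_eq_inv.2 ?_)
      by_cases h4 : x ∈ center G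
      · obtain ⟨c, hc⟩ := isConj_iff.1 hr
        rw [← hc, mem_center_iff.1 h4 c, mul_inv_cancel_right]
      · refine (H8.inv_eq_of_isConj_of_odd hr fun h5 => ?_).symm
        have h6 := h x hr h4
        rw [ha] at h6
        exact (Nat.prime_two.factorization_pos_of_dvd index_ne_zero_of_finite h5).ne' h6
    refine ⟨H8.isSolvable_of_sylow_two_normal hFT S,
      H3.hasNormalPComplement_of_isPGroup (S.isPGroup'.to_le ((closure_le _).2 ?_))⟩
    rintro x ⟨k, hk⟩
    exact H8.mem_sylow_of_mem_normalizer S (by rw [normalizer_eq_top]; exact mem_top x)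
      (H8.isPGroup_zpowers_of_orderOf hk)

end Cfsg.Agent.S4193
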