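import Cfsg.Statements.S4195
import Cfsg.Agent.H8.Elt

set_option autoImplicit false
open Cfsg

namespace Cfsg.Agent.S4195

/-- Let x be a non-identity element of a finite group G whose centralizer contains a Sylow 2-subgroup of G. If x is conjugate to its inverse, then x has order 2. -/
theorem result {G : Type*} [Group G] [Finite G] (x : G) (hx : x ≠ 1) (P : Sylow 2 G) (hP : (P : Subgroup G) ≤ Subgroup.centralizer ({x} : Set G)) (hreal : IsConj x x⁻¹) : orderOf x = 2 := by
  have h := H8.inv_eq_of_isConj_of_odd hreal (H8.not_dvd_index_of_sylow_le P hP)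
  exact orderOf_eq_prime (by rw [sq]; exact inv_eq_iff_mul_eq_one.1 h) hx

end Cfsg.Agent.S4195
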