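import Cfsg.Statements.S4196
import Cfsg.Agent.H8.Elt
import Cfsg.Agent.H1.Prim

set_option autoImplicit false
open Cfsg

namespace Cfsg.Agent.S4196

/-- A finite group G has elementary abelian Sylow 2-subgroups (commutative with every element squaring to the identity) if and only if every 2-element of G has a Sylow 2-subgroup in its centralizer and is conjugate to its inverse. -/
theorem result {G : Type*} [Group G] [Finite G] (P : Sylow 2 G) :
    (IsMulCommutative (P : Subgroup G) ∧ ∀ x ∈ (P : Subgroup G), x ^ 2 = 1) ↔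
      ∀ x : G, (∃ k : ℕ, orderOf x = 2 ^ k) → (∃ Q : Sylow 2 G, (Q : Subgroup G) ≤ Subgroup.centralizer ({x} : Set G)) ∧ IsConj x x⁻¹ := by
  constructor
  · rintro ⟨h1, h2⟩ x ⟨k, hk⟩
    obtain ⟨Q, hQ⟩ := (H8.isPGroup_zpowers_of_orderOf hk).exists_le_sylow
    obtain ⟨g, rfl⟩ := MulAction.exists_smul_eq G P Q
    have hx := hQ (Subgroup.mem_zpowers x)
    rw [Sylow.coe_subgroup_smul, H1.mem_conj_smul_iff] at hx
    refine ⟨⟨g • P, fun y hy => ?_⟩, ?_⟩
    · rw [Sylow.coe_subgroup_smul, H1.mem_conj_smul_iff] at hy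
      have := H1.isMulCommutative_iff'.1 h1 _ hy _ hx
      rw [Subgroup.mem_centralizer_singleton_iff]
      calc y * x = g * (g⁻¹ * y * g * (g⁻¹ * x * g)) * g⁻¹ := by group
        _ = x * y := by rw [this]; group
    · have := h2 _ hx
      have h3 : x * x = 1 := by
        calc x * x = g * (g⁻¹ * x * g) ^ 2 * g⁻¹ := by rw [sq]; group
          _ = 1 := by rw [this]; group
      rw [inv_eq_iff_mul_eq_one.2 h3]
  · intro h
    have h2 : ∀ x ∈ (P : Subgroup G), x * x = 1 := fun x hx => by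
      obtain ⟨⟨Q, hQ⟩, h3⟩ := h x (H8.exists_orderOf_eq_of_mem P.isPGroup' hx)
      exact inv_eq_iff_mul_eq_one.1
        (H8.inv_eq_of_isConj_of_odd h3 (H8.not_dvd_index_of_sylow_le Q hQ))
    refine ⟨H1.isMulCommutative_iff'.2 fun a ha b hb => ?_, fun x hx => by rw [sq, h2 x hx]⟩
    have h3 := inv_eq_iff_mul_eq_one.2 (h2 _ (Subgroup.mul_mem _ ha hb))
    rw [← h3, mul_inv_rev, inv_eq_iff_mul_eq_one.2 (h2 a ha), inv_eq_iff_mul_eq_one.2 (h2 b hb)]

end Cfsg.Agent.S4196
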