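import Cfsg.Statements.S4230

set_option autoImplicit false
open Cfsg

namespace Cfsg.Agent.S4230

/-- Let p be an odd prime, q a natural number not divisible by p, and e the multiplicative order of q modulo p. For a natural number f, p divides the value at q of the f-th cyclotomic polynomial if and only if f = e·p^j for some j ≥ 0. -/
theorem result (p q f : ℕ) (hp : p.Prime) (hp2 : p ≠ 2) (hpq : ¬ p ∣ q) :
    ((p : ℤ) ∣ (Polynomial.cyclotomic f ℤ).eval (q : ℤ)) ↔ ∃ j : ℕ, f = orderOf (q : ZMod p) * p ^ j := by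
  have := Fact.mk hp
  have hq : (q : ZMod p) ≠ 0 := by rwa [Ne, ZMod.natCast_eq_zero_iff]
  have he : orderOf (q : ZMod p) ∣ p - 1 := ZMod.orderOf_dvd_card_sub_one hq
  have hp1 : 0 < p - 1 := Nat.sub_pos_of_lt hp.one_lt
  have he0 : 0 < orderOf (q : ZMod p) := Nat.pos_of_dvd_of_pos he hp1
  have hpe : ¬ p ∣ orderOf (q : ZMod p) := fun h => by
    have := Nat.le_of_dvd hp1 (h.trans he)
    omega
  rw [← ZMod.intCast_zmod_eq_zero_iff_dvd]
  have h1 : (((Polynomial.cyclotomic f ℤ).eval (q : ℤ) : ℤ) : ZMod p) =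
      (Polynomial.cyclotomic f (ZMod p)).eval (q : ZMod p) := by
    rw [← Polynomial.map_cyclotomic_int f (ZMod p), ← Int.cast_natCast (R := ZMod p) q,
      Polynomial.eval_intCast_map]
    rfl
  rw [h1]
  rcases Nat.eq_zero_or_pos f with rfl | hf
  · simp only [Polynomial.cyclotomic_zero, Polynomial.eval_one, one_ne_zero, false_iff, not_exists]
    exact fun j h => (Nat.mul_pos he0 (pow_pos hp.pos j)).ne h
  obtain ⟨k, m, hm, rfl⟩ := Nat.exists_eq_pow_mul_and_not_dvd hf.ne' p hp.one_lt.ne'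
  have : NeZero (m : ZMod p) := ⟨by rwa [Ne, ZMod.natCast_eq_zero_iff]⟩
  refine (Polynomial.isRoot_cyclotomic_prime_pow_mul_iff_of_charP (p := p)).trans ⟨fun h => ?_, ?_⟩
  · exact ⟨k, by rw [← h.eq_orderOf, mul_comm]⟩
  · rintro ⟨j, h⟩
    have h2 : m = orderOf (q : ZMod p) := by
      refine Nat.dvd_antisymm (Nat.Coprime.dvd_of_dvd_mul_right
        (Nat.Coprime.pow_right j ((hp.coprime_iff_not_dvd.2 hm).symm)) (h ▸ dvd_mul_left _ _))
        (Nat.Coprime.dvd_of_dvd_mul_left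
        (Nat.Coprime.pow_right k ((hp.coprime_iff_not_dvd.2 hpe).symm)) (h ▸ dvd_mul_right _ _))
    rw [h2]
    exact IsPrimitiveRoot.orderOf _

end Cfsg.Agent.S4230
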