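import Mathlib
import Cfsg.Statements.S4231
import Cfsg.Agent.H8.SymP
import Cfsg.Agent.H8.AutA

set_option autoImplicit false
open Cfsg

namespace Cfsg.Agent.S4231

open Subgroup Equiv Equiv.Perm

theorem ab {n : ℕ} (hn : 5 ≤ n) (G : Subgroup (MulAut (alternatingGroup (Fin n)))) {q : ℕ}
    [hq : Fact q.Prime] (q2 : q ≠ 2) (h1 : n < 3 * q) (Q : Sylow q G) :
    IsMulCommutative (Q : Subgroup G) := by
  obtain ⟨k, hk⟩ := IsPGroup.iff_card.1 Q.isPGroup'
  have q3 : 3 ≤ q := by have := hq.out.two_le; omega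
  have l : (Q : Subgroup G).map G.subtype ≤
      (MulAut.conjNormal : Perm (Fin n) →* MulAut (alternatingGroup (Fin n))).range := by
    rintro _ ⟨g, hg, rfl⟩
    refine H8.Sy.mem_range_of_odd (by simpa using hn) ?_
    obtain ⟨j, hj⟩ := IsPGroup.iff_orderOf.1 Q.isPGroup' ⟨g, hg⟩
    rw [orderOf_mk] at hj
    rw [coe_subtype, orderOf_coe, hj]
    exact (hq.out.odd_of_ne_two q2).pow
  have d := (card_dvd_of_le l).trans (card_range_dvd _)
  rw [card_subtype, hk, Nat.card_perm, Nat.card_eq_fintype_card, Fintype.card_fin] at d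
  have := H8.Sy.le_of_pow_dvd_factorial hq.out (by nlinarith) d
  have k2 : k < 3 := by nlinarith
  interval_cases k
  · have := isCyclic_of_card_dvd_prime (p := q) (by rw [hk]; exact one_dvd q : Nat.card (Q : Subgroup G) ∣ q); infer_instance
  · have := isCyclic_of_prime_card (p := q) (hk.trans (pow_one q)); infer_instance
  · exact IsPGroup.isMulCommutative_of_card_eq_prime_sq hk

theorem result (n : ℕ) (hn : 5 ≤ n) (G : Subgroup (MulAut (alternatingGroup (Fin n))))
    (hG : (MulAut.conj : alternatingGroup (Fin n) →* MulAut (alternatingGroup (Fin n))).range ≤ G)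
    (p q : ℕ) [Fact p.Prime] [Fact q.Prime] (hpq : p ≠ q) (h : ∀ g : G, orderOf g ≠ p * q) :
    (∀ P : Sylow p G, IsMulCommutative (P : Subgroup G)) ∨ (∀ Q : Sylow q G, IsMulCommutative (Q : Subgroup G)) := by
  have hp : p.Prime := Fact.out
  have hq : q.Prime := Fact.out
  have k : ∀ g : alternatingGroup (Fin n), orderOf g ≠ p * q := fun g e => h ⟨_, hG ⟨g, rfl⟩⟩ (by
    rw [orderOf_mk, orderOf_injective _ _ g, e]
    rw [← MonoidHom.ker_eq_bot_iff, eq_bot_iff, ← alternatingGroup.center_eq_bot (α := Fin n) (by simp; omega)]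
    intro x hx
    refine mem_center_iff.2 fun y => ?_
    have := DFunLike.congr_fun (MonoidHom.mem_ker.1 hx) y
    simp only [MulAut.conj_apply, MulAut.one_apply] at this
    exact (mul_inv_eq_iff_eq_mul.1 this).symm)
  have p2 := hp.two_le
  have q2 := hq.two_le
  by_cases e1 : p = 2
  · subst e1
    refine Or.inr (ab hn G hpq.symm ?_)
    by_contra c
    obtain ⟨g, hg⟩ := H8.Sy.exists_alt_two (α := Fin n) hq hpq.symm (by simp; omega)
    exact k g hg
  by_cases e2 : q = 2
  · subst e2
    refine Or.inl (ab hn G hpq ?_)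
    by_contra c
    obtain ⟨g, hg⟩ := H8.Sy.exists_alt_two (α := Fin n) hp hpq (by simp; omega)
    exact k g (hg.trans (mul_comm _ _))
  have : n < p + q := by
    by_contra c
    obtain ⟨g, hg⟩ := H8.Sy.exists_alt_odd (α := Fin n) hp hq hpq e1 e2 (by simp; omega)
    exact k g hg
  rcases lt_or_gt_of_ne hpq with c | c
  · exact Or.inr (ab hn G e2 (by omega))
  · exact Or.inl (ab hn G e1 (by omega))

end Cfsg.Agent.S4231
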