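import Cfsg.Statements.S4238
import Cfsg.Agent.H3.Misc3
import Cfsg.Agent.H1.Frattini
import Cfsg.Agent.H6.Klein
import Cfsg.Agent.H1.Coprime2

set_option autoImplicit false
open Cfsg

namespace Cfsg.Agent.S4238

universe u

theorem aux {p : ℕ} [hp : Fact p.Prime] (n : ℕ) : ∀ (G : Type u) [Group G] [Finite G],
    Nat.card G = n → (∀ (K : Type u) [Group K], H4.IsSec K (⊤ : Subgroup G) →
      Cfsg.pPrimeCore p K = ⊥ → ∃ k : K, orderOf k = Monoid.exponent K) →
    Cfsg.HasNormalPComplement p G := by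
  induction n using Nat.strong_induction_on with
  | _ n ih =>
  intro G _ _ hn h
  by_contra hG
  have hsub : ∀ H : Subgroup G, H ≠ ⊤ → Cfsg.HasNormalPComplement p H := fun H hH =>
    ih _ (hn ▸ H1.card_lt_card_of_ne_top hH) H rfl fun K _ hK =>
      h K (hK.of_subgroup.mono le_top)
  have hquo : ∀ (N : Subgroup G) [N.Normal], N ≠ ⊥ → Cfsg.HasNormalPComplement p (G ⧸ N) :=
    fun N _ hN => ih _ (hn ▸ H1.card_quotient_lt hN) _ rfl fun K _ hK =>
      h K (hK.of_surjective (QuotientGroup.mk'_surjective N))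
  obtain ⟨P⟩ : Nonempty (Sylow p G) := inferInstance
  obtain ⟨hPn, q, hq, hqp, -, g, k, hk, hsup, hc⟩ := H3.ito_structure hG hsub P
  have hO : Cfsg.pPrimeCore p G = ⊥ := by
    by_contra h0
    exact hG (H3.hasNormalPComplement_of_quotient_coprime _ (H1.coprime_card_pPrimeCore p)
      (hquo _ h0))
  have hZ : Subgroup.center G = ⊥ := by
    by_contra h0
    exact hG (H3.hasNormalPComplement_of_quotient_central _ le_rfl (hquo _ h0))
  have hgc : (orderOf g).Coprime p := hk ▸ ((Nat.coprime_primes hq hp.out).mpr hqp).pow_left k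
  have hF : frattini (P : Subgroup G) = ⊥ := by
    by_contra h0
    set F := (frattini (P : Subgroup G)).map (P : Subgroup G).subtype with hF
    have : F.Normal := H1.normal_map_char _ _
    have h1 : F ≠ ⊥ := fun h1 => h0 ((Subgroup.map_eq_bot_iff_of_injective _
      (Subgroup.subtype_injective _)).mp h1)
    have h2 := H3.mem_centralizer_of_hasNormalPComplement (hquo F h1)
      (P.isPGroup'.map (QuotientGroup.mk' F)) (g := QuotientGroup.mk' F g)
      (Subgroup.le_normalizer_map _ ⟨g, Subgroup.le_normalizer_of_normal (Subgroup.mem_top g), rfl⟩)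
      (hgc.coprime_dvd_left (orderOf_map_dvd _ _))
    refine hc (H1.le_centralizer_of_commutator_le_frattini (A := Subgroup.zpowers g)
      Subgroup.le_normalizer_of_normal ?_ ?_ (Subgroup.mem_zpowers g))
    · rw [Nat.card_zpowers]
      exact (H1.IsPGroup.coprime_card (P.isPGroup'.to_subgroup _) hgc).symm
    · have h3 : ⁅(P : Subgroup G), Subgroup.zpowers g⁆.map (QuotientGroup.mk' F) = ⊥ := by
        rw [Subgroup.map_commutator, Subgroup.commutator_comm,
          Subgroup.commutator_eq_bot_iff_le_centralizer, MonoidHom.map_zpowers,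
          Subgroup.zpowers_le]
        exact h2
      rwa [Subgroup.map_eq_bot_iff, QuotientGroup.ker_mk'] at h3
  obtain ⟨hab, -⟩ := (H1.frattini_eq_bot_iff P.isPGroup').mp hF
  obtain ⟨x, hx⟩ := h G ⟨⊤, (⊤ : Subgroup G).subtype, le_rfl, fun y => ⟨⟨y, trivial⟩, rfl⟩⟩ hO
  have hP0 : (P : Subgroup G) ≠ ⊥ := fun h0 => hc (Subgroup.mem_centralizer_iff.mpr fun w hw => by
    rw [Subgroup.mem_bot.mp (h0.le hw)]; simp)
  obtain ⟨y, hy⟩ := exists_prime_orderOf_dvd_card' p
    (P.isPGroup'.card_eq_or_dvd.resolve_left fun h0 => hP0 (Subgroup.card_eq_one.mp h0))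
  have hpx : p ∣ orderOf x := by
    rw [hx, ← hy, ← Subgroup.orderOf_coe]; exact Monoid.order_dvd_exponent _
  have hsup' : (P : Subgroup G) ⊔ Subgroup.zpowers x = ⊤ := by
    set f := QuotientGroup.mk' (P : Subgroup G)
    have h1 : Subgroup.zpowers (f g) = ⊤ := by
      rw [← MonoidHom.map_zpowers]; exact H3.map_mk'_eq_top_of_sup_eq_top hsup
    have h2 : orderOf (f g) ∣ orderOf (f x) := by
      obtain ⟨j, hj⟩ := P.isPGroup' ⟨x ^ orderOf (f x), by
        rw [← QuotientGroup.eq_one_iff]; exact (map_pow f _ _).trans (pow_orderOf_eq_one _)⟩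
      have h3 : orderOf x ∣ orderOf (f x) * p ^ j := by
        rw [orderOf_dvd_iff_pow_eq_one, pow_mul]; exact congrArg Subtype.val hj
      refine ((hgc.coprime_dvd_left (orderOf_map_dvd f g)).pow_right j).dvd_of_dvd_mul_right ?_
      exact (orderOf_map_dvd f g).trans ((hx ▸ Monoid.order_dvd_exponent g).trans h3)
    have h3 : Subgroup.zpowers (f x) = ⊤ := by
      refine Subgroup.eq_top_of_card_eq _ (Nat.dvd_antisymm (Subgroup.card_subgroup_dvd_card _) ?_)
      rwa [← Subgroup.card_top, ← h1, Nat.card_zpowers, Nat.card_zpowers]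
    have := congrArg (Subgroup.comap f) h3
    rwa [← MonoidHom.map_zpowers, Subgroup.comap_map_eq, QuotientGroup.ker_mk', sup_comm,
      Subgroup.comap_top] at this
  set z := x ^ (orderOf x / p) with hz
  have hzo : orderOf z = p := orderOf_pow_orderOf_div (orderOf_pos x).ne' hpx
  have hzP : z ∈ (P : Subgroup G) :=
    H6.mem_sylow_of_normalizer P (k := 1) (by rw [pow_one, ← hzo, pow_orderOf_eq_one])
      (Subgroup.le_normalizer_of_normal (Subgroup.mem_top z))
  have hzc : z ∈ Subgroup.center G := by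
    have : (⊤ : Subgroup G) ≤ Subgroup.centralizer {z} := by
      rw [← hsup', sup_le_iff, Subgroup.zpowers_le]
      refine ⟨fun w hw => ?_, ?_⟩
      · rw [Subgroup.mem_centralizer_singleton_iff]
        exact H1.isMulCommutative_iff'.mp hab w hw z hzP
      · rw [Subgroup.mem_centralizer_singleton_iff]
        exact (Commute.self_pow x _).eq
    exact Subgroup.mem_center_iff.mpr fun w =>
      Subgroup.mem_centralizer_singleton_iff.mp (this (Subgroup.mem_top w))
  rw [hZ, Subgroup.mem_bot] at hzc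
  rw [hzc, orderOf_one] at hzo
  exact hp.out.one_lt.ne hzo

/-- Let G be a finite group and p a prime. Then G has a normal p-complement if and only if every section K = H/N of G (N a normal subgroup of a subgroup H) whose largest normal subgroup of order prime to p is trivial contains an element whose order equals the exponent of K. -/
theorem result {G : Type*} [Group G] [Finite G] (p : ℕ) [Fact p.Prime] :
    Cfsg.HasNormalPComplement p G ↔
      ∀ (H : Subgroup G) (N : Subgroup H) [N.Normal], Cfsg.pPrimeCore p (H ⧸ N) = ⊥ →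
        ∃ k : H ⧸ N, orderOf k = Monoid.exponent (H ⧸ N) := by
  constructor
  · intro h H N _ h0
    have h1 := H3.hasNormalPComplement_quotient N (H3.hasNormalPComplement_subgroup H h)
    have h2 : Cfsg.pResidual p (H ⧸ N) ≤ Cfsg.pPrimeCore p (H ⧸ N) :=
      H1.le_pPrimeCore (H3.hasNormalPComplement_iff_coprime.mp h1)
    rw [h0, le_bot_iff, H3.pResidual_eq_bot_iff] at h2
    obtain ⟨x, hx⟩ := Finite.exists_max (fun x : H ⧸ N => orderOf x)
    refine ⟨x, Nat.dvd_antisymm (Monoid.order_dvd_exponent x) (Monoid.exponent_dvd.mpr fun y => ?_)⟩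
    obtain ⟨a, ha⟩ := IsPGroup.iff_orderOf.mp h2 x
    obtain ⟨b, hb⟩ := IsPGroup.iff_orderOf.mp h2 y
    have := hx y
    simp only [ha, hb] at this ⊢
    exact pow_dvd_pow _ ((Nat.pow_le_pow_iff_right (Fact.out : p.Prime).one_lt).mp this)
  · intro h
    refine aux _ G rfl fun K _ ⟨H, φ, _, hφ⟩ h0 => ?_
    let e := QuotientGroup.quotientKerEquivOfSurjective φ hφ
    obtain ⟨k, hk⟩ := h H φ.ker (by
      rw [← H1.map_pPrimeCore_equiv p e.symm, h0, Subgroup.map_bot])
    exact ⟨e k, by rw [MulEquiv.orderOf_eq, hk, Monoid.exponent_eq_of_mulEquiv e]⟩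

end Cfsg.Agent.S4238
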