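import Cfsg.Statements.S4240
import Cfsg.Agent.H6.CoAct
import Cfsg.Agent.S0205

set_option autoImplicit false
open Cfsg

namespace Cfsg.Agent.S4240

open Subgroup H6 in
theorem solv.{u} {A : Type*} [Group A] [Finite A] (hA : Group.IsSolvable A) (n : ℕ) :
    ∀ (G : Type u) [Group G] [Finite G] (φ : A →* MulAut G), Nat.card G = n →
      (Nat.card A).Coprime (Nat.card G) → (∀ H, H ≠ ⊤ → AInv φ H → Group.IsNilpotent H) →
      Group.IsSolvable G := by
  induction n using Nat.strong_induction_on with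
  | _ n ih =>
  intro G _ _ φ hn hcop h
  subst hn
  by_cases hN : ∃ N : Subgroup G, N.Normal ∧ AInv φ N ∧ N ≠ ⊥ ∧ N ≠ ⊤
  · obtain ⟨N, hN, h1, h2, h3⟩ := hN
    haveI := h N h3 h1
    refine H1.isSolvable_of_normal_quotient N inferInstance
      (ih _ (H1.card_quotient_lt h2) _ (H7.quotAut φ N h1) rfl
        (hcop.coprime_dvd_right (H1.card_quotient_dvd N)) fun H hH hi => ?_)
    have hs := QuotientGroup.mk'_surjective N
    rw [← map_comap_eq_self_of_surjective hs H]
    refine H1.isNilpotent_map (h _ (fun h4 => hH ?_) (h1.comap_mk hi)) _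
    rw [← map_comap_eq_self_of_surjective hs H, h4, map_top_of_surjective _ hs]
  push Not at hN
  have hp : ∀ p : ℕ, p.Prime → IsPGroup p G → Group.IsSolvable G := fun p hp h => by
    haveI := Fact.mk hp
    haveI := h.isNilpotent
    infer_instance
  by_cases h2 : IsPGroup 2 G
  · exact hp 2 Nat.prime_two h2
  obtain ⟨p, hpp, hpG, hp2⟩ : ∃ p : ℕ, p.Prime ∧ p ∣ Nat.card G ∧ p ≠ 2 := by
    by_contra hc
    push Not at hc
    exact h2 (H1.isPiNat_card_singleton_iff.1 fun q hq hq' => hc q hq hq')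
  haveI := Fact.mk hpp
  obtain ⟨P, hP⟩ := exists_ainv_sylow φ hcop (Or.inl hA) p
  have hZ := H4.centerThompsonOf_ne_bot P.isPGroup' (P.ne_bot_of_dvd_card hpG)
  by_cases hZN : normalizer (centerThompsonOf p (P : Subgroup G) : Set G) = ⊤
  · have h3 := hN _ (normalizer_eq_top_iff.1 hZN) (hP.zj p) hZ
    refine hp p hpp ((P.isPGroup'.to_le (H4.centerThompsonOf_le _)).of_equiv
      ((MulEquiv.subgroupCongr h3).trans topEquiv))
  haveI := h _ hZN (hP.zj p).normalizer
  have h3 := H3.hasNormalPComplement_iff_coprime.1 (H3.glauberman_thompson hp2 (Or.inr rfl) P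
    (H3.hasNormalPComplement_of_isNilpotent _))
  by_cases h4 : pResidual p G = ⊥
  · exact hp p hpp (H3.pResidual_eq_bot_iff.1 h4)
  rw [hN _ inferInstance (ainv_of_char _) h4, card_top] at h3
  exact absurd hpG ((Nat.Prime.coprime_iff_not_dvd hpp).1 h3.symm)

/-- Let a finite group A act by automorphisms on a finite group G of order coprime to that of A. Suppose every maximal A-invariant proper subgroup of G is nilpotent while G is not. Then G is solvable, the order of G has the form p^a·q^b for two distinct primes p and q, and G has a normal A-invariant Sylow subgroup for some prime dividing its order. -/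
theorem result {A G : Type*} [Group A] [Group G] [Finite A] [Finite G] [MulDistribMulAction A G]
    (hcop : (Nat.card A).Coprime (Nat.card G))
    (hmax : ∀ H : Subgroup G, H ≠ ⊤ → (∀ a : A, ∀ x ∈ H, a • x ∈ H) →
      (∀ K : Subgroup G, H < K → (∀ a : A, ∀ x ∈ K, a • x ∈ K) → K = ⊤) → Group.IsNilpotent H)
    (hG : ¬ Group.IsNilpotent G) :
    Group.IsSolvable G ∧
      (∃ p q a b : ℕ, p.Prime ∧ q.Prime ∧ p ≠ q ∧ Nat.card G = p ^ a * q ^ b) ∧
      ∃ (p : ℕ) (P : Sylow p G), p.Prime ∧ p ∣ Nat.card G ∧ (P : Subgroup G).Normal ∧ (∀ a : A, ∀ x ∈ (P : Subgroup G), a • x ∈ (P : Subgroup G)) := by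
  let φ := MulDistribMulAction.toMulAut A G
  have h : ∀ H, H ≠ ⊤ → H6.AInv φ H → Group.IsNilpotent H := by
    intro H hH hi
    obtain ⟨M, ⟨h1, h2⟩, h3, h4⟩ := H1.exists_maximal_ge (fun M => M ≠ ⊤ ∧ H6.AInv φ M) ⟨hH, hi⟩
    refine H1.isNilpotent_of_le (hmax M h1 h2 fun K hK hK' => ?_) h3
    by_contra h5
    exact hK.ne' (h4 K ⟨h5, hK'⟩ hK.le)
  have hs : Group.IsSolvable G := by
    rcases Nat.even_or_odd (Nat.card G) with h1 | h1
    · refine solv (Cfsg.Agent.S0205.result ?_) _ G φ rfl hcop h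
      exact H6.coprime_two_iff.1 (hcop.coprime_dvd_right (even_iff_two_dvd.1 h1))
    · exact Cfsg.Agent.S0205.result h1
  refine ⟨hs, ?_⟩
  have hnt : (⊤ : Subgroup G) ≠ ⊥ := fun h1 => hG (by
    haveI := Subgroup.subsingleton_iff.1 (subsingleton_of_bot_eq_top h1.symm)
    infer_instance)
  have h1 : commutator G ≠ ⊤ := (H1.commutator_self_lt inferInstance hnt).ne
  obtain ⟨p, hp, hpd⟩ := Nat.exists_prime_and_dvd (n := Nat.card (G ⧸ commutator G))
    (fun h2 => h1 (Subgroup.index_eq_one.1 h2))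
  haveI := Fact.mk hp
  have h2 : pResidual p G ≠ ⊤ := by
    intro h2
    haveI : Group.IsNilpotent (G ⧸ commutator G) :=
      H1.isNilpotent_of_comm (Subgroup.Normal.quotient_commutative_iff_commutator_le.2 le_rfl)
    have h3 := H3.hasNormalPComplement_iff_coprime.1
      (H3.hasNormalPComplement_of_isNilpotent (p := p) (G ⧸ commutator G))
    rw [← H3.map_pResidual_of_surjective _ (QuotientGroup.mk'_surjective _), h2,
      Subgroup.map_top_of_surjective _ (QuotientGroup.mk'_surjective _), Subgroup.card_top] at h3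
    exact absurd hpd ((Nat.Prime.coprime_iff_not_dvd hp).1 h3.symm)
  have h3 := h _ h2 (H6.ainv_of_char _)
  obtain ⟨P, hP⟩ := H6.exists_ainv_sylow φ hcop (Or.inr hs) p
  have hQ : ∀ (q : ℕ) [Fact q.Prime], q ≠ p → ∀ Q : Sylow q G, (Q : Subgroup G) = pCore q G := by
    intro q _ hq Q
    refine le_antisymm (H1.le_pCore_of_le_fitting Q.isPGroup' ?_) (H1.pCore_le_sylow Q)
    refine le_trans (H3.le_pResidual_of_coprime ?_) (H1.le_fitting h3)
    exact (H3.sylow_card_coprime_of_coprime Q ((Nat.coprime_primes hp Fact.out).2 hq.symm)).symm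
  by_cases h4 : ∃ q : ℕ, q.Prime ∧ q ≠ p ∧ (P : Subgroup G) ⊔ pCore q G = ⊤
  · obtain ⟨q, hq, hqp, h4⟩ := h4
    haveI := Fact.mk hq
    obtain ⟨Q⟩ : Nonempty (Sylow q G) := inferInstance
    have h5 := hQ q hqp Q
    obtain ⟨a, ha⟩ := IsPGroup.iff_card.1 P.isPGroup'
    obtain ⟨b, hb⟩ := IsPGroup.iff_card.1 (H1.isPGroup_pCore (G := G) q)
    have h6 := H1.card_sup_of_disjoint (H := (P : Subgroup G)) (N := pCore q G)
      (by rw [Subgroup.normalizer_eq_top_iff.2 inferInstance]; exact le_top)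
      (H1.inf_eq_bot_of_coprime' (by
        rw [ha, hb]; exact Nat.Coprime.pow _ _ ((Nat.coprime_primes hp hq).2 hqp.symm)))
    rw [h4, Subgroup.card_top, ha, hb] at h6
    refine ⟨⟨p, q, a, b, hp, hq, hqp.symm, h6⟩, q, Q, hq, ?_, h5 ▸ inferInstance, ?_⟩
    · rcases b with _ | b
      · exact absurd (IsPGroup.iff_card.2 ⟨a, by simpa using h6⟩ : IsPGroup p G).isNilpotent hG
      · exact h6 ▸ Dvd.dvd.mul_left (dvd_pow_self q b.succ_ne_zero) _
    · rw [h5]
      exact H6.ainv_of_char (φ := φ) _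
  · push Not at h4
    have h5 : (P : Subgroup G).Normal := by
      rw [← Subgroup.normalizer_eq_top_iff, ← Subgroup.index_eq_one]
      by_contra h5
      obtain ⟨q, hq, hqd⟩ := Nat.exists_prime_and_dvd h5
      haveI := Fact.mk hq
      by_cases hqp : q = p
      · subst hqp
        exact P.not_dvd_index (hqd.trans (Subgroup.index_dvd_of_le Subgroup.le_normalizer))
      obtain ⟨Q⟩ : Nonempty (Sylow q G) := inferInstance
      refine Q.not_dvd_index (hqd.trans (Subgroup.index_dvd_of_le ?_))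
      refine le_trans ?_ (H6.centralizer_le_normalizer' _)
      refine H1.le_centralizer_of_coprime_of_isNilpotent (h _ (h4 q hq hqp) (hP.sup (H6.ainv_of_char _)))
        ((hQ q hqp Q).le.trans le_sup_right) le_sup_left ?_
      exact H3.sylow_card_coprime_of_coprime P
        (H3.sylow_card_coprime_of_coprime Q ((Nat.coprime_primes hp hq).2 (Ne.symm hqp))).symm
    refine absurd (H1.isNilpotent_of_sylow_normal fun q _ Q => ?_) hG
    by_cases hqp : q = p
    · subst hqp
      haveI := Sylow.unique_of_normal P h5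
      rwa [Subsingleton.elim Q P]
    · rw [hQ q hqp Q]; infer_instance

end Cfsg.Agent.S4240
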