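import Cfsg.Statements.S4242
import Cfsg.Agent.H3.Alperin
import Cfsg.Agent.H3.PComp
import Cfsg.Agent.H1.HallTop
import Cfsg.Agent.H1.Fitting

set_option autoImplicit false
open Cfsg

namespace Cfsg.Agent.S4242

open Subgroup

theorem fwd {G : Type*} [Group G] [Finite G] (p : ℕ) [hp : Fact p.Prime] (hpG : p ∣ Nat.card G)
    (h : ∀ L : Subgroup G, L ≠ ⊤ → p ∣ Nat.card L → Group.IsNilpotent L)
    {M : Subgroup G} (hM : IsCoatom M) (hMn : ¬ Group.IsNilpotent M) :
    ∃ Z K : Subgroup G, Z.Normal ∧ K.Normal ∧ Z ⊓ K = ⊥ ∧ Z ⊔ K = ⊤ ∧ Nat.card Z = p ∧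
      Cfsg.IsMinimalNonNilpotent K ∧ ¬ p ∣ Nat.card K := by
  have hpM : ¬ p ∣ Nat.card M := fun h' => hMn (h M hM.1 h')
  have cop : ∀ {Q S : Subgroup G}, IsPGroup p Q → ¬ p ∣ Nat.card S →
      (Nat.card Q).Coprime (Nat.card S) := by
    intro Q S hQ hS
    obtain ⟨k, hk⟩ := IsPGroup.iff_card.1 hQ
    rw [hk]
    exact Nat.Coprime.pow_left k ((Nat.Prime.coprime_iff_not_dvd hp.out).2 hS)
  have pdvd : ∀ {Q : Subgroup G}, IsPGroup p Q → Q ≠ ⊥ → p ∣ Nat.card Q := by
    intro Q hQ hne
    obtain ⟨k, hk⟩ := IsPGroup.iff_card.1 hQ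
    rw [hk]
    refine dvd_pow_self p ?_
    rintro rfl
    exact hne (Subgroup.card_eq_one.1 (by simpa using hk))
  -- a `p`-group joined with an `r`-group is proper
  have proper : ∀ {Q S : Subgroup G} {r : ℕ} [Fact r.Prime], IsPGroup p Q → IsPGroup r S →
      Nat.card (Q ⊔ S : Subgroup G) ∣ Nat.card Q * Nat.card S → Q ⊔ S ≠ ⊤ := by
    intro Q S r _ hQ hS hd htop
    rw [htop, Subgroup.card_top] at hd
    have h1 : Nat.card M ∣ Nat.card Q * Nat.card S := (card_subgroup_dvd_card M).trans hd
    have h2 : Nat.card M ∣ Nat.card S := (cop hQ hpM).symm.dvd_of_dvd_mul_left h1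
    obtain ⟨k, hk⟩ := IsPGroup.iff_card.1 hS
    rw [hk] at h2
    obtain ⟨j, -, hj⟩ := (Nat.dvd_prime_pow (Fact.out : r.Prime)).1 h2
    exact hMn (IsPGroup.of_card hj).isNilpotent
  by_cases hex : ∃ Q : Subgroup G, Q.Normal ∧ IsPGroup p Q ∧ Q ≠ ⊥
  · obtain ⟨Q, hQn, hQ, hQne⟩ := hex
    have hMC : M ≤ centralizer (Q : Set G) := by
      refine H1.le_of_forall_sylowOf_le fun r _ _ => ?_
      obtain ⟨S, hS, -⟩ := H1.exists_invariant_sylowOf (A := ⊥) (K := M) r bot_le (by simp)
        (Or.inl inferInstance)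
      refine ⟨S, hS, ?_⟩
      have hS' := H1.isPiHallOf_singleton_iff.1 hS
      have hne : Q ⊔ S ≠ ⊤ := proper hQ hS'.2.1 (by
        rw [sup_comm, mul_comm]; exact H1.card_sup_dvd_normal S Q)
      have hnil := h _ hne ((pdvd hQ hQne).trans (card_dvd_of_le le_sup_left))
      exact H1.le_centralizer_of_coprime_of_isNilpotent hnil le_sup_right le_sup_left
        (cop hQ fun h' => hpM (h'.trans (card_dvd_of_le hS'.1))).symm
    obtain ⟨z, hz⟩ := exists_prime_orderOf_dvd_card' p (pdvd hQ hQne)
    set Z : Subgroup G := zpowers (z : G) with hZ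
    have hZc : Nat.card Z = p := by rw [hZ, Nat.card_zpowers, Subgroup.orderOf_coe, hz]
    have hZQ : Z ≤ Q := by rw [hZ, zpowers_le]; exact z.2
    have hZp : IsPGroup p Z := hQ.to_le hZQ
    have hMZ : M ≤ centralizer (Z : Set G) := hMC.trans (centralizer_le hZQ)
    have hZM : Z ⊓ M = ⊥ := H1.inf_eq_bot_of_coprime' (cop hZp hpM)
    have htop : Z ⊔ M = ⊤ := by
      refine hM.2 _ (lt_of_le_of_ne le_sup_right fun he => ?_)
      have : Z ≤ M := he ▸ le_sup_left
      exact hpM (hZc ▸ card_dvd_of_le this)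
    have hZn : Z.Normal := by
      rw [← normalizer_eq_top_iff, eq_top_iff, ← htop]
      exact sup_le le_normalizer (hMZ.trans (centralizer_le_normalizer _))
    have hMn' : M.Normal := by
      rw [← normalizer_eq_top_iff, eq_top_iff, ← htop]
      exact sup_le ((le_centralizer_iff.1 hMZ).trans (centralizer_le_normalizer _)) le_normalizer
    refine ⟨Z, M, hZn, hMn', hZM, htop, hZc, ⟨hMn, fun L hL => ?_⟩, hpM⟩
    have hlt : Nat.card L < Nat.card M := H1.card_lt_card_of_ne_top hL
    have hne : L.map M.subtype ⊔ Z ≠ ⊤ := by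
      intro ht
      have h1 := H1.card_sup_dvd_normal (L.map M.subtype) Z
      have h2 := H1.card_sup_of_disjoint (H := M) (N := Z) (by
        rw [normalizer_eq_top]; exact le_top) (by rw [inf_comm]; exact hZM)
      rw [sup_comm, htop] at h2
      rw [ht, h2, card_subtype] at h1
      have := Nat.le_of_dvd Nat.card_pos (Nat.dvd_of_mul_dvd_mul_right Nat.card_pos h1)
      omega
    have hnil := h _ hne (hZc ▸ card_dvd_of_le le_sup_right)
    have h3 := H1.isNilpotent_of_le hnil (le_sup_left : L.map M.subtype ≤ _)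
    exact Group.nilpotent_of_mulEquiv (equivMapOfInjective L M.subtype M.subtype_injective).symm
  · exfalso
    push Not at hex
    obtain ⟨P, K, hKn, hc⟩ : HasNormalPComplement p G := by
      refine H3.frobenius_local fun Q hQ hQne => ?_
      have hne : normalizer (Q : Set G) ≠ ⊤ := fun ht =>
        hQne (hex Q (normalizer_eq_top_iff.1 ht) hQ)
      have := h _ hne ((pdvd hQ hQne).trans (card_dvd_of_le le_normalizer))
      exact H3.hasNormalPComplement_of_isNilpotent _
    have hPne : (P : Subgroup G) ≠ ⊥ := by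
      intro hb
      have := P.dvd_card_of_dvd_card hpG
      rw [hb] at this
      simp [hp.out.ne_one] at this
    have hpK : ¬ p ∣ Nat.card K := by
      rw [← hc.index_eq_card]
      exact P.not_dvd_index
    have hKC : K ≤ centralizer ((P : Subgroup G) : Set G) := by
      refine H1.le_of_forall_sylowOf_le fun r _ _ => ?_
      obtain ⟨S, hS, hPS⟩ := H1.exists_invariant_sylowOf (A := (P : Subgroup G)) (K := K) r
        (by rw [normalizer_eq_top]; exact le_top) (cop P.isPGroup' hpK)
        (Or.inl (by have := P.isPGroup'.isNilpotent; infer_instance))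
      refine ⟨S, hS, ?_⟩
      have hS' := H1.isPiHallOf_singleton_iff.1 hS
      have hne : (P : Subgroup G) ⊔ S ≠ ⊤ := proper P.isPGroup' hS'.2.1 (H1.card_sup_dvd hPS)
      have hnil := h _ hne ((pdvd P.isPGroup' hPne).trans (card_dvd_of_le le_sup_left))
      exact H1.le_centralizer_of_coprime_of_isNilpotent hnil le_sup_right le_sup_left
        (cop P.isPGroup' fun h' => hpK (h'.trans (card_dvd_of_le hS'.1))).symm
    refine hPne (hex _ ?_ P.isPGroup')
    rw [← normalizer_eq_top_iff, eq_top_iff, ← hc.sup_eq_top]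
    exact sup_le (hKC.trans (centralizer_le_normalizer _)) le_normalizer

/-- Let G be a finite group and p a prime dividing its order. Every maximal subgroup of G of order divisible by p is nilpotent if and only if G is nilpotent, or G is a minimal non-nilpotent group, or G is the internal direct product of a normal subgroup of order p and a normal minimal non-nilpotent subgroup of order prime to p. -/
theorem result {G : Type*} [Group G] [Finite G] (p : ℕ) (hp : p.Prime) (hpG : p ∣ Nat.card G) :
    (∀ M : Subgroup G, IsCoatom M → p ∣ Nat.card M → Group.IsNilpotent M) ↔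
      (Group.IsNilpotent G ∨ Cfsg.IsMinimalNonNilpotent G ∨
        ∃ Z K : Subgroup G, Z.Normal ∧ K.Normal ∧ Z ⊓ K = ⊥ ∧ Z ⊔ K = ⊤ ∧ Nat.card Z = p ∧
          Cfsg.IsMinimalNonNilpotent K ∧ ¬ p ∣ Nat.card K) := by
  have := Fact.mk hp
  constructor
  · intro h
    by_cases h1 : Group.IsNilpotent G
    · exact Or.inl h1
    by_cases h2 : ∀ H : Subgroup G, H ≠ ⊤ → Group.IsNilpotent H
    · exact Or.inr (Or.inl ⟨h1, h2⟩)
    push Not at h2
    obtain ⟨H, hH, hHn⟩ := h2
    obtain ⟨M, hM, hHM⟩ := H1.exists_coatom_ge hH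
    refine Or.inr (Or.inr (fwd p hpG (fun L hL hpL => ?_) hM
      fun h' => hHn (H1.isNilpotent_of_le h' hHM)))
    obtain ⟨N, hN, hLN⟩ := H1.exists_coatom_ge hL
    exact H1.isNilpotent_of_le (h N hN (hpL.trans (card_dvd_of_le hLN))) hLN
  · rintro (h | h | ⟨Z, K, hZ, hK, hi, hs, hc, hmin, hpK⟩) M hM hpM
    · infer_instance
    · exact h.2 M hM.1
    · have hcardG : Nat.card G = p * Nat.card K := by
        have := H1.card_sup_of_disjoint (H := Z) (N := K)
          (by rw [normalizer_eq_top]; exact le_top) hi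
        rwa [hs, Subgroup.card_top, hc] at this
      have hZM : Z ≤ M := by
        obtain ⟨x, hx⟩ := exists_prime_orderOf_dvd_card' p hpM
        have hxo : Nat.card (zpowers (x : G)) = p := by
          rw [Nat.card_zpowers, Subgroup.orderOf_coe, hx]
        have hidx : Z.index = Nat.card K := by
          have := Z.card_mul_index
          rw [hc, hcardG] at this
          exact Nat.eq_of_mul_eq_mul_left hp.pos this
        have h1 : zpowers (x : G) ≤ Z := H1.le_of_coprime_index (by
          rw [hxo, hidx]; exact (Nat.Prime.coprime_iff_not_dvd hp).2 hpK)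
        have h2 : zpowers (x : G) = Z := eq_of_le_of_card_ge h1 (by rw [hxo, hc])
        rw [← h2, zpowers_le]; exact x.2
      have hMeq : Z ⊔ (K ⊓ M) = M := by
        rw [← H1.sup_inf_assoc_of_le_normalizer hZM
          (Or.inl (by rw [normalizer_eq_top]; exact le_top)), hs, top_inf_eq]
      have hne : M.subgroupOf K ≠ ⊤ := by
        intro ht
        have := subgroupOf_eq_top.1 ht
        exact hM.1 (eq_top_iff.2 (hs ▸ sup_le hZM this))
      have h1 := H1.isNilpotent_map (hmin.2 _ hne) K.subtype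
      rw [subgroupOf_map_subtype, inf_comm] at h1
      have hZC : Z ≤ centralizer (K : Set G) := by
        rw [← commutator_eq_bot_iff_le_centralizer, eq_bot_iff, ← hi]
        exact commutator_le_inf Z K
      rw [← hMeq]
      refine H1.isNilpotent_sup ((hZC.trans (centralizer_le inf_le_left)).trans
        (centralizer_le_normalizer _)) (by rw [normalizer_eq_top]; exact le_top) ?_ h1
      exact (IsPGroup.of_card (n := 1) (by rw [hc, pow_one])).isNilpotent

end Cfsg.Agent.S4242
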