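import Cfsg.Statements.S4244
import Cfsg.Agent.H5.Wielandt

set_option autoImplicit false
open Cfsg

namespace Cfsg.Agent.S4244

/-- Let H be a subnormal subgroup of a finite group G. Then for every subgroup K of G the index of H ∩ K in H divides the index of K in G. -/
theorem result {G : Type*} [Group G] [Finite G] (H : Subgroup G) (hH : H.IsSubnormal) (K : Subgroup G) :
    (H ⊓ K).relIndex H ∣ K.index := by
  rw [Subgroup.inf_relIndex_left]
  refine H5.SN.induction (P := fun A => K.relIndex A ∣ K.index) (by simp) ?_ (H5.sn_top_iff.2 hH)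
  intro A B hAB hn _ ih
  refine dvd_trans ?_ ih
  -- `|A : A ∩ K|` divides `|B : B ∩ K|`
  have h1 := H5.card_sup_mul_card_inf (H := K ⊓ B) (N := A) (inf_le_right.trans hn)
  have h2 := H5.card_mul_relIndex (inf_le_right : K ⊓ A ≤ A)
  have h3 := H5.card_mul_relIndex (le_sup_left : K ⊓ B ≤ (K ⊓ B) ⊔ A)
  rw [inf_assoc, inf_eq_right.2 hAB] at h1
  rw [Subgroup.inf_relIndex_right] at h2
  have h4 : (K ⊓ B).relIndex ((K ⊓ B) ⊔ A) = K.relIndex A := by
    rw [← h3, ← h2] at h1
    have h5 : 0 < Nat.card (K ⊓ B : Subgroup G) * Nat.card (K ⊓ A : Subgroup G) :=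
      Nat.mul_pos Nat.card_pos Nat.card_pos
    apply Nat.eq_of_mul_eq_mul_left h5
    linarith
  rw [← h4, ← Subgroup.inf_relIndex_right K B,
    ← Subgroup.relIndex_mul_relIndex (K ⊓ B) ((K ⊓ B) ⊔ A) B le_sup_left (sup_le inf_le_right hAB)]
  exact dvd_mul_right _ _

end Cfsg.Agent.S4244
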