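import Mathlib
import Cfsg.Statements.S4245
import Cfsg.Agent.H8.Orb4
import Cfsg.Agent.H8.Cyc
import Cfsg.Agent.H8.FTc
import Cfsg.Agent.S0143
import Cfsg.Agent.S0205

set_option autoImplicit false
open Cfsg

namespace Cfsg.Agent.S4245

open Subgroup

def MC (Y : Type*) [Group Y] : Prop :=
  ∃ B : Subgroup Y, ∃ _ : B.Normal, IsCyclic B ∧ IsCyclic (Y ⧸ B) ∧ IsPGroup 2 (Y ⧸ B)

theorem MC.inj {Y Z : Type*} [Group Y] [Group Z] (h : MC Y) (f : Z →* Y)
    (hf : Function.Injective f) : MC Z := by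
  obtain ⟨N, hN, h1, h2, h3⟩ := h
  have hi : Function.Injective (QuotientGroup.map (N.comap f) N f le_rfl) := by
    rw [injective_iff_map_eq_one]
    intro x hx
    obtain ⟨x, rfl⟩ := QuotientGroup.mk_surjective x
    exact (QuotientGroup.eq_one_iff _).mpr ((QuotientGroup.eq_one_iff (f x)).mp hx)
  exact ⟨N.comap f, inferInstance, isCyclic_of_injective (f.subgroupComap N)
    (fun a b h => Subtype.ext (hf (congrArg (fun x : N => (x : Y)) h))),
    isCyclic_of_injective _ hi, h3.of_injective _ hi⟩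

theorem MC.surj {Y Z : Type*} [Group Y] [Group Z] (h : MC Y) (f : Y →* Z)
    (hf : Function.Surjective f) : MC Z := by
  obtain ⟨N, hN, h1, h2, h3⟩ := h
  haveI := hN.map f hf
  have hs : Function.Surjective (QuotientGroup.map N (N.map f) f (le_comap_map f N)) := by
    intro y
    obtain ⟨y, rfl⟩ := QuotientGroup.mk_surjective y
    obtain ⟨x, rfl⟩ := hf y
    exact ⟨x, rfl⟩
  exact ⟨N.map f, inferInstance, isCyclic_of_surjective _ (f.subgroupMap_surjective N),
    isCyclic_of_surjective _ hs, h3.of_surjective _ hs⟩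

universe u in
theorem simple_case {X : Type u} [Group X] [Finite X] [IsSimpleGroup X] {p s : ℕ} (hp : p.Prime)
    (A : Subgroup X) (hA : A.index = p ^ s) (h : MC A) : Group.IsSolvable X := by
  classical
  have hFT : H8.FTH.{u} := fun _ _ _ h => Cfsg.Agent.S0205.result h
  obtain ⟨B, hB, h1, h2, h3⟩ := h
  have key : ∀ x : X, x ≠ 1 → ∀ k, (centralizer ({x} : Set X)).index = p ^ k →
      Group.IsSolvable X := fun x hx k hk => by
    haveI := Fact.mk (Cfsg.Agent.S0143.result p k hp x hx hk)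
    haveI : IsCyclic X := isCyclic_of_prime_card rfl
    exact H1.isSolvable_of_comm' inferInstance
  have hcomm : ∀ a b : B, a * b = b * a := fun a b => h1.isMulCommutative.is_comm.comm a b
  rcases Nat.even_or_odd (Nat.card B) with he | ho
  · obtain ⟨t, ht⟩ := H6.exists_ord2_of_even he
    have hz : (zpowers (t : A)).Normal := H8.normal_of_le_isCyclic h1 (zpowers_le.2 t.2)
    have ht' : orderOf (t : A) = 2 := by rw [orderOf_coe, ht]
    have hc : A ≤ centralizer {((t : A) : X)} := fun a ha => by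
      have h4 := hz.conj_mem _ (mem_zpowers (t : A)) ⟨a, ha⟩
      rw [mem_zpowers_iff_mem_range_orderOf, ht'] at h4
      simp only [Finset.mem_image, Finset.mem_range] at h4
      obtain ⟨i, hi, e⟩ := h4
      interval_cases i
      · exfalso
        rw [pow_zero, eq_comm, conj_eq_one_iff] at e
        exact H6.ord2_ne_one ht' e
      · rw [pow_one] at e
        rw [H8.mem_centralizer_singleton_iff']
        exact (congrArg Subtype.val e).symm
    obtain ⟨j, hj⟩ := H8.pow_of_dvd_pow hp (index_dvd_of_le hc) hA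
    exact key _ (fun h4 => H6.ord2_ne_one ht' (Subtype.ext h4)) j hj
  obtain ⟨r, hr⟩ := h3.exists_card_eq
  by_cases hp2 : p = 2
  · subst hp2
    have hi : (B.map A.subtype).index = 2 ^ (r + s) := by
      rw [index_map_subtype, hA, pow_add, ← hr]; rfl
    by_cases hb : B = ⊥
    · rw [hb, Subgroup.map_bot, index_bot] at hi
      haveI := (IsPGroup.of_card hi).isNilpotent
      infer_instance
    · obtain ⟨t, ht⟩ := ne_bot_iff_exists_ne_one.1 hb
      have hc : B.map A.subtype ≤ centralizer {((t : A) : X)} := by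
        rintro _ ⟨b, hb, rfl⟩
        rw [mem_centralizer_singleton_iff]
        exact congrArg (fun x : B => ((x : A) : X)) (hcomm ⟨b, hb⟩ t)
      obtain ⟨j, hj⟩ := H8.pow_of_dvd_pow hp (index_dvd_of_le hc) hi
      exact key _ (fun h4 => ht (Subtype.ext (Subtype.ext h4))) j hj
  · obtain ⟨T, hT⟩ := H3.exists_sylow_le_of_not_dvd_index (p := 2) (H := A) (by
      rw [hA]
      exact fun h4 => hp2 ((Nat.prime_dvd_prime_iff_eq Nat.prime_two hp).1
        (Nat.prime_two.dvd_of_dvd_pow h4)).symm)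
    refine H8.isSolvable_of_sylow_two_cyclic hFT T (isCyclic_of_injective
      ((QuotientGroup.mk' B).comp (inclusion hT)) ?_)
    rw [injective_iff_map_eq_one]
    intro x hx
    have h4 : inclusion hT x ∈ B := (QuotientGroup.eq_one_iff _).1 hx
    obtain ⟨k, hk⟩ := T.isPGroup' x
    have h5 := H6.eq_one_of_odd_of_two_pow (H6.odd_orderOf_of_odd_card ho h4) (k := k)
      (by rw [← map_pow, hk, map_one])
    exact inclusion_injective hT (by rw [h5, map_one])

theorem result {G : Type*} [Group G] [Finite G] (A : Subgroup G) (p s : ℕ) (hp : p.Prime) (hA : A.index = p ^ s)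
    (B : Subgroup A) [B.Normal] (hB : IsCyclic B) (hAB : IsCyclic (A ⧸ B)) (r : ℕ) (hr : Nat.card (A ⧸ B) = 2 ^ r) :
    Group.IsSolvable G := by
  refine H8.isSolvable_of_simple_cases
    (fun X _ _ => ∃ A : Subgroup X, (∃ s, A.index = p ^ s) ∧ MC A) ?_ ?_ ?_ _ G rfl
    ⟨A, ⟨s, hA⟩, B, inferInstance, hB, hAB, IsPGroup.of_card hr⟩
  · rintro X _ _ N _ ⟨A, ⟨s, hs⟩, h⟩
    exact ⟨A.subgroupOf N, H8.pow_of_dvd_pow hp (H8.relIndex_dvd_index_of_normal' A N) hs,
      h.inj (N.subtype.subgroupComap A)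
        fun a b e => Subtype.ext (Subtype.ext (congrArg (fun x : A => (x : X)) e))⟩
  · rintro X _ _ N _ ⟨A, ⟨s, hs⟩, h⟩
    exact ⟨A.map (QuotientGroup.mk' N), H8.pow_of_dvd_pow hp
      (index_map_dvd A (QuotientGroup.mk'_surjective N)) hs,
      h.surj _ ((QuotientGroup.mk' N).subgroupMap_surjective A)⟩
  · rintro X _ _ _ ⟨A, ⟨s, hs⟩, h⟩
    exact simple_case hp A hs h

end Cfsg.Agent.S4245
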