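import Cfsg.Statements.S4250
import Cfsg.Agent.H3.Misc
import Cfsg.Agent.H10.Cores

set_option autoImplicit false
open Cfsg
open scoped commutatorElement

namespace Cfsg.Agent.S4250

/-- Let P be a Sylow p-subgroup of a finite group G. Call an intersection H = P ∩ Q with a Sylow p-subgroup Q tame when N_P(H) and N_Q(H) are Sylow p-subgroups of N_G(H). Then P ∩ G′ is generated by [P, N_G(P)] together with the commutator subgroups [P ∩ Q, ⟨x⟩] for all tame intersections P ∩ Q and all p-elements x of N_G(P ∩ Q). -/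
theorem result {G : Type*} [Group G] [Finite G] (p : ℕ) [Fact p.Prime] (P : Sylow p G) :
    (P : Subgroup G) ⊓ commutator G =
      ⁅(P : Subgroup G), Subgroup.normalizer ((P : Subgroup G) : Set G)⁆ ⊔
        ⨆ (Q : Sylow p G) (_ : (¬ p ∣ ((P : Subgroup G) ⊓ Subgroup.normalizer (((P : Subgroup G) ⊓ (Q : Subgroup G) : Subgroup G) : Set G)).relIndex (Subgroup.normalizer (((P : Subgroup G) ⊓ (Q : Subgroup G) : Subgroup G) : Set G)) ∧ ¬ p ∣ ((Q : Subgroup G) ⊓ Subgroup.normalizer (((P : Subgroup G) ⊓ (Q : Subgroup G) : Subgroup G) : Set G)).relIndex (Subgroup.normalizer (((P : Subgroup G) ⊓ (Q : Subgroup G) : Subgroup G) : Set G))))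
          (x : G) (_ : x ∈ Subgroup.normalizer (((P : Subgroup G) ⊓ (Q : Subgroup G) : Subgroup G) : Set G) ∧ ∃ k : ℕ, orderOf x = p ^ k),
          ⁅(P : Subgroup G) ⊓ (Q : Subgroup G), Subgroup.zpowers x⁆ := by
  refine le_antisymm ?_ (sup_le (le_inf (H10.comm_le_left le_rfl)
    (Subgroup.commutator_mono le_top le_top)) (iSup_le fun Q => iSup_le fun _ => iSup_le fun x =>
      iSup_le fun hx => le_inf ((H10.comm_le_left (Subgroup.zpowers_le.mpr hx.1)).trans
        inf_le_left) (Subgroup.commutator_mono le_top le_top)))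
  generalize hR : (_ ⊔ _ : Subgroup G) = R
  have key : ∀ j : ℕ, ∀ (A : Set G) (g : G), A ⊆ P → (∀ a ∈ A, g⁻¹ * a * g ∈ P) →
      Nat.card G ≤ A.ncard + j → ∀ a ∈ A, a⁻¹ * (g⁻¹ * a * g) ∈ R := by
    intro j
    induction j using Nat.strong_induction_on with
    | _ j ih =>
    refine H3.alperin_induction P
      (fun A g => Nat.card G ≤ A.ncard + j → ∀ a ∈ A, a⁻¹ * (g⁻¹ * a * g) ∈ R)
      (fun A B g hAB h hc a ha => h (hc.trans (Nat.add_le_add_right
        (Set.ncard_le_ncard hAB) _)) a (hAB ha)) (fun A B g h h1 h2 hAB hc a ha => ?_)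
      fun E n hn hE hi hc => ?_
    · have h3 : A.ncard ≤ B.ncard := Set.ncard_le_ncard_of_injOn (fun a => g⁻¹ * a * g) hAB
        fun a _ b _ e => by simpa using e
      have := R.mul_mem (h1 hc a ha) (h2 (hc.trans (Nat.add_le_add_right h3 _)) _ (hAB a ha))
      rwa [show a⁻¹ * (g⁻¹ * a * g) * ((g⁻¹ * a * g)⁻¹ * (h⁻¹ * (g⁻¹ * a * g) * h))
        = a⁻¹ * ((g * h)⁻¹ * a * (g * h)) by group] at this
    have hEP : E ≤ P := hE ▸ inf_le_left
    have hcm : ∀ a g : G, a⁻¹ * (g⁻¹ * a * g) = ⁅a⁻¹, g⁻¹⁆ := fun a g => by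
      rw [commutatorElement_def]; group
    rcases hEP.eq_or_lt with h0 | hlt
    · intro a ha
      rw [hcm, ← hR]
      exact Subgroup.mem_sup_left (Subgroup.commutator_mem_commutator
        (Subgroup.inv_mem _ (hEP ha)) (Subgroup.inv_mem _ (h0 ▸ hn)))
    set N := Subgroup.normalizer (E : Set G) with hN
    have hi2 : ¬ p ∣ (((n • P : Sylow p G) : Subgroup G) ⊓ N).relIndex N := by
      have h1 : N.map (MulAut.conj n).toMonoidHom = N :=
        H3.map_conj_eq_iff.mpr (Subgroup.le_normalizer hn)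
      rw [H3.coe_smul_sylow_eq_map, ← h1, ← H3.map_conj_inf, H3.relIndex_map_conj]
      exact hi
    let K : Subgroup G :=
      { carrier := {g | g ∈ N ∧ ∀ a ∈ E, a⁻¹ * (g⁻¹ * a * g) ∈ R}
        one_mem' := ⟨N.one_mem, fun a _ => by simp⟩
        mul_mem' := fun {g h} hg hh => ⟨N.mul_mem hg.1 hh.1, fun a ha => by
          have := R.mul_mem (hg.2 a ha) (hh.2 _ (H3.conj_mem_of_mem_normalizer' hg.1 ha))
          rwa [show a⁻¹ * (g⁻¹ * a * g) * ((g⁻¹ * a * g)⁻¹ * (h⁻¹ * (g⁻¹ * a * g) * h))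
            = a⁻¹ * ((g * h)⁻¹ * a * (g * h)) by group] at this⟩
        inv_mem' := fun {g} hg => ⟨N.inv_mem hg.1, fun a ha => by
          have := R.inv_mem (hg.2 _ (H3.conj_mem_of_mem_normalizer hg.1 ha))
          rwa [show ((g * a * g⁻¹)⁻¹ * (g⁻¹ * (g * a * g⁻¹) * g))⁻¹
            = a⁻¹ * (g⁻¹⁻¹ * a * g⁻¹) by group] at this⟩ }
    have hT : H10.IsSylowIn p ((P : Subgroup G) ⊓ N) N :=
      H10.isSylowIn_of_not_dvd inf_le_right P.isPGroup'.to_inf_left hi
    have hK : Cfsg.pElementClosure p N ≤ K := H10.pElementClosure_le_iff.mpr fun x hx hx' =>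
      ⟨hx, fun a ha => by
        rw [hcm, ← hR]
        refine Subgroup.mem_sup_right (Subgroup.mem_iSup_of_mem (n • P) (Subgroup.mem_iSup_of_mem
          (by rw [← hE]; exact ⟨hi, hi2⟩) (Subgroup.mem_iSup_of_mem x (Subgroup.mem_iSup_of_mem
          (by rw [← hE]; exact ⟨hx, hx'⟩) ?_))))
        rw [← hE]
        exact Subgroup.commutator_mem_commutator (E.inv_mem ha)
          (Subgroup.inv_mem _ (Subgroup.mem_zpowers x))⟩
    have hTK : (P : Subgroup G) ⊓ N ≤ Cfsg.pElementClosure p N := fun x hx => by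
      obtain ⟨k, hk⟩ := H10.orderOf_eq_pow_of_mem P.isPGroup' hx.1
      exact H10.mem_pElementClosure hx.2 hk
    obtain ⟨a, ha, b, hb, rfl⟩ := (hT.of_le hTK (H10.pElementClosure_le N)).frattini'
      (H10.pElementClosure_le N) (H10.le_NN_pElementClosure N) hn
    refine (K.mul_mem (hK ha) ⟨hb.1, fun x hx => ?_⟩).2
    have h1 := H3.card_lt_of_lt (H3.lt_inf_normalizer_of_isPGroup P.isPGroup' hlt)
    rw [← hN] at h1
    have h2 := Subgroup.card_le_card_group ((P : Subgroup G) ⊓ N)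
    have h3 : ∀ X : Subgroup G, (X : Set G).ncard = Nat.card X := fun X => rfl
    rw [h3] at hc
    refine ih (j - 1) (by omega) (((P : Subgroup G) ⊓ N : Subgroup G) : Set G) b
      (fun y hy => hy.1) (fun y hy => (H3.conj_mem_of_mem_normalizer' hb.2 hy).1)
      (by rw [h3]; omega) x ⟨hEP hx, Subgroup.le_normalizer hx⟩
  refine (H12.sylIn_top P).inf_commutator_le fun a ha g _ hg => ?_
  simpa using key (Nat.card G) {a} g⁻¹ (by simpa using ha) (by simpa using hg) (by omega) a rfl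

end Cfsg.Agent.S4250
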