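import Cfsg.Statements.S4251
import Cfsg.Agent.H3.Alperin
import Cfsg.Agent.H3.Transfer

set_option autoImplicit false
open Cfsg

namespace Cfsg.Agent.S4251

/-- Let P be a Sylow p-subgroup of a finite group G. Call an intersection H = P ∩ Q with a Sylow p-subgroup Q tame when N_P(H) and N_Q(H) are Sylow p-subgroups of N_G(H). If N_G(H)/C_G(H) is a p-group for every nontrivial tame intersection H = P ∩ Q, then G has a normal p-complement. -/
theorem result {G : Type*} [Group G] [Finite G] (p : ℕ) [Fact p.Prime] (P : Sylow p G)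
    (h : ∀ Q : Sylow p G, (P : Subgroup G) ⊓ (Q : Subgroup G) ≠ ⊥ → (¬ p ∣ ((P : Subgroup G) ⊓ Subgroup.normalizer (((P : Subgroup G) ⊓ (Q : Subgroup G) : Subgroup G) : Set G)).relIndex (Subgroup.normalizer (((P : Subgroup G) ⊓ (Q : Subgroup G) : Subgroup G) : Set G)) ∧ ¬ p ∣ ((Q : Subgroup G) ⊓ Subgroup.normalizer (((P : Subgroup G) ⊓ (Q : Subgroup G) : Subgroup G) : Set G)).relIndex (Subgroup.normalizer (((P : Subgroup G) ⊓ (Q : Subgroup G) : Subgroup G) : Set G))) →
      IsPGroup p (Subgroup.normalizer (((P : Subgroup G) ⊓ (Q : Subgroup G) : Subgroup G) : Set G) ⧸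
        (Subgroup.centralizer (((P : Subgroup G) ⊓ (Q : Subgroup G) : Subgroup G) : Set G)).subgroupOf
          (Subgroup.normalizer (((P : Subgroup G) ⊓ (Q : Subgroup G) : Subgroup G) : Set G)))) :
    Cfsg.HasNormalPComplement p G := by
  refine H3.hasNormalPComplement_of_fusion P fun x hx g hg => ?_
  suffices key : ∀ (E : Subgroup G) (n : G), n ∈ Subgroup.normalizer (E : Set G) →
      E = (P : Subgroup G) ⊓ (n • P : Sylow p G) →
      ¬ p ∣ ((P : Subgroup G) ⊓ Subgroup.normalizer (E : Set G)).relIndex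
        (Subgroup.normalizer (E : Set G)) →
      ∃ u ∈ (P : Subgroup G), ∀ a ∈ E, n⁻¹ * a * n = u⁻¹ * a * u by
    obtain ⟨u, hu, hu'⟩ := H3.strong_fusion_of_local P (P : Subgroup G) key
      {x} g⁻¹ (by simpa using hx) (by simpa using hg)
    exact ⟨u⁻¹, Subgroup.inv_mem _ hu, by simpa using hu' x rfl⟩
  intro E n hn hE hi
  by_cases h0 : E = ⊥
  · refine ⟨1, Subgroup.one_mem _, fun a ha => ?_⟩
    rw [h0, Subgroup.mem_bot] at ha
    simp [ha]
  have hi2 : ¬ p ∣ (((n • P : Sylow p G) : Subgroup G) ⊓ Subgroup.normalizer (E : Set G)).relIndex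
      (Subgroup.normalizer (E : Set G)) := by
    have h1 : (Subgroup.normalizer (E : Set G)).map (MulAut.conj n).toMonoidHom
        = Subgroup.normalizer (E : Set G) :=
      H3.map_conj_eq_iff.mpr (Subgroup.le_normalizer hn)
    rw [H3.coe_smul_sylow_eq_map, ← h1, ← H3.map_conj_inf, H3.relIndex_map_conj]
    exact hi
  have hq := h (n • P) (hE ▸ h0) (by rw [← hE]; exact ⟨hi, hi2⟩)
  rw [← hE] at hq
  have hC : ∀ g ∈ Subgroup.normalizer (E : Set G), (orderOf g).Coprime p →
      g ∈ Subgroup.centralizer (E : Set G) := fun g hg hco => by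
    have := H3.map_eq_one_of_coprime hq (QuotientGroup.mk' _) (g := ⟨g, hg⟩)
      (by rwa [Subgroup.orderOf_mk])
    rw [QuotientGroup.mk'_apply, QuotientGroup.eq_one_iff] at this
    exact this
  obtain ⟨c, hc, s, hs, -, -, rfl⟩ := H3.exists_mul_of_pPrime_le (p := p) hi hC hn
  refine ⟨s, hs.1, fun a ha => ?_⟩
  have := (Subgroup.mem_centralizer_iff.mp hc) a ha
  calc (c * s)⁻¹ * a * (c * s) = s⁻¹ * (c⁻¹ * (a * c)) * s := by group
    _ = s⁻¹ * a * s := by rw [this]; group

end Cfsg.Agent.S4251
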