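import Cfsg.Statements.S4261
import Cfsg.Agent.H3.Misc
import Cfsg.Agent.H4.Comm
import Cfsg.Agent.S0048

set_option autoImplicit false
open Cfsg

namespace Cfsg.Agent.S4261

/-- Let M be a maximal subgroup of a finite solvable group G such that x^[G : M] lies in M for every x in G. Then M is normal in G. -/
theorem result {G : Type*} [Group G] [Finite G] (hG : Group.IsSolvable G) (M : Subgroup G) (hM : IsCoatom M)
    (hexp : ∀ x : G, x ^ M.index ∈ M) : M.Normal := by
  obtain ⟨p, k, hp, -, hk⟩ := (isPrimePow_nat_iff _).mp (Cfsg.Agent.S0048.result M hM)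
  have := Fact.mk hp
  have h1 : Cfsg.pResidual p G ≤ M := H3.pResidual_le_iff.mpr fun g hg =>
    H4.mem_of_pow_mem_of_coprime_orderOf (hexp g) (hk ▸ hg.pow_right k)
  have hs := QuotientGroup.mk'_surjective (Cfsg.pResidual p G)
  have := (H3.isPGroup_quotient_pResidual (p := p) (G := G)).isNilpotent
  have h2 := (H1.coatom_normal_of_isNilpotent (H1.isCoatom_map_of_surjective hs hM
    (by rwa [QuotientGroup.ker_mk']))).comap (QuotientGroup.mk' _)
  rwa [Subgroup.comap_map_eq, QuotientGroup.ker_mk', sup_eq_left.mpr h1] at h2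

end Cfsg.Agent.S4261
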