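import Cfsg.Statements.S4262
import Cfsg.Agent.H6.DJT
import Cfsg.Agent.H8.Cls

set_option autoImplicit false
open Cfsg

namespace Cfsg.Agent.S4262

/-- Let G be a finite group in which the centralizer of every non-central element is a maximal subgroup of G. Then G is solvable. -/
theorem result {G : Type*} [Group G] [Finite G]
    (h : ∀ g : G, g ∉ Subgroup.center G → IsCoatom (Subgroup.centralizer ({g} : Set G))) :
    Group.IsSolvable G := by
  by_cases h2 : IsPGroup 2 (G ⧸ Subgroup.center G)
  · haveI := Group.of_quotient_center_nilpotent h2.isNilpotent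
    infer_instance
  obtain ⟨p, hp, hpG, hp2⟩ : ∃ p : ℕ, p.Prime ∧ p ∣ Nat.card (G ⧸ Subgroup.center G) ∧ p ≠ 2 := by
    by_contra hc
    push Not at hc
    exact h2 (H1.isPiNat_card_singleton_iff.1 fun q hq hq' => hc q hq hq')
  haveI := Fact.mk hp
  obtain ⟨y, hy⟩ := exists_prime_orderOf_dvd_card' p hpG
  obtain ⟨x, rfl, k, hk⟩ := H8.exists_lift_pElt _ (QuotientGroup.mk'_surjective _) (k := 1) (hy.trans (pow_one p).symm)
  have hx : x ∉ Subgroup.center G := fun hx => by
    rw [QuotientGroup.mk'_apply, (QuotientGroup.eq_one_iff x).2 hx, orderOf_one] at hy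
    exact hp.one_lt.ne hy
  have key : ∀ y : Subgroup.centralizer ({x} : Set G), (orderOf y).Coprime p → y ∈ Subgroup.center _ := by
    intro y hy
    have h1 := H8.centralizer_mul_of_coprime (H6.mem_cent_iff_commute.1 y.2).symm
      (by rw [hk, Subgroup.orderOf_coe]; exact Nat.Coprime.pow_left _ hy.symm)
    have h3 : x * y ∉ Subgroup.center G := fun h3 => hx (by
      rw [Subgroup.mem_center_iff]
      intro g
      have : g ∈ Subgroup.centralizer ({x * y} : Set G) :=
        H6.mem_cent_iff_commute.2 (Subgroup.mem_center_iff.1 h3 g)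
      rw [h1] at this
      exact (H6.mem_cent_iff_commute.1 this.1).eq)
    have h4 := ((h _ h3).le_iff.1 (h1.le.trans inf_le_left)).resolve_left (h x hx).1
    rw [Subgroup.mem_center_iff]
    intro g
    have : (g : G) ∈ Subgroup.centralizer ({x * y} : Set G) := h4 ▸ g.2
    rw [h1] at this
    exact Subtype.ext (H6.mem_cent_iff_commute.1 this.2).eq
  refine H6.isSolvable_of_nilpotent_coatom_central (h x hx) (H6.isNilpotent_of_coprime_central key)
    fun y ⟨j, hj⟩ => key y ?_
  rw [hj]
  exact Nat.Coprime.pow_left _ ((Nat.coprime_primes Nat.prime_two hp).2 hp2.symm)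

end Cfsg.Agent.S4262
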