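import Cfsg.Statements.S4263
import Cfsg.Agent.H1.Fitting
import Cfsg.Agent.H8.Elt
import Cfsg.Agent.H7.Basic

set_option autoImplicit false
open Cfsg

namespace Cfsg.Agent.S4263

open Subgroup in
theorem pow_index_mem_of_nilp {F : Type*} [Group F] [Finite F] [hF : Group.IsNilpotent F] (K : Subgroup F) (x : F) :
    x ^ K.index ∈ K := by
  induction hn : K.index using Nat.strong_induction_on generalizing K with
  | _ n ih =>
  by_cases hK : K = ⊤
  · rw [hK]; trivial
  have h1 : K < normalizer (K : Set F) := Group.normalizerCondition_of_isNilpotent K (lt_top_iff_ne_top.2 hK)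
  have h2 := ih _ (hn ▸ index_strictAnti h1) (normalizer (K : Set F)) rfl
  rw [← hn, ← relIndex_mul_index h1.le, mul_comm, pow_mul]
  exact pow_index_mem (K.subgroupOf (normalizer (K : Set F))) ⟨_, h2⟩

/-- Let G be a finite group. An element x lies in the Fitting subgroup F(G) if and only if, for every subgroup H of G, the power x^[G : H] lies in H. -/
theorem result {G : Type*} [Group G] [Finite G] (x : G) :
    x ∈ Cfsg.fittingSubgroup G ↔ ∀ H : Subgroup G, x ^ H.index ∈ H := by
  open Subgroup in
  constructor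
  · intro hx H
    have h1 : H.relIndex (Cfsg.fittingSubgroup G) = H.relIndex (H ⊔ Cfsg.fittingSubgroup G) := by
      have h2 := H7.card_sup_mul_card_inf H (Cfsg.fittingSubgroup G)
      rw [← H7.card_inf_mul_relIndex H (Cfsg.fittingSubgroup G),
        ← H7.card_mul_relIndex (le_sup_left : H ≤ H ⊔ Cfsg.fittingSubgroup G), mul_assoc,
        mul_comm (H.relIndex _)] at h2
      exact (Nat.eq_of_mul_eq_mul_left Nat.card_pos (Nat.eq_of_mul_eq_mul_left Nat.card_pos h2)).symm
    obtain ⟨k, hk⟩ := h1 ▸ relIndex_dvd_index_of_le (le_sup_left : H ≤ H ⊔ Cfsg.fittingSubgroup G)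
    rw [hk, pow_mul]
    exact pow_mem (pow_index_mem_of_nilp (H.subgroupOf (Cfsg.fittingSubgroup G)) ⟨x, hx⟩) k
  · intro h
    have h1 : (Cfsg.fittingSubgroup G).subgroupOf (zpowers x) = ⊤ := by
      refine H8.eq_top_of_forall_primePow fun q k g hq hg => ?_
      haveI := Fact.mk hq
      obtain ⟨P⟩ : Nonempty (Sylow q G) := inferInstance
      refine H1.pCore_le_fitting q ?_
      rw [H1.pCore_eq_normalCore_sylow P]
      intro b
      have h2 : ∀ Q : Sylow q G, (g : G) ∈ (Q : Subgroup G) := by
        intro Q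
        obtain ⟨j, hj⟩ := mem_zpowers_iff.1 g.2
        have h3 : (g : G) ^ (Q : Subgroup G).index ∈ (Q : Subgroup G) := by
          rw [← hj, ← zpow_natCast, ← zpow_mul, mul_comm, zpow_mul, zpow_natCast]
          exact zpow_mem (h Q) j
        refine zpowers_le.2 h3 (mem_zpowers_pow_iff.2 ?_)
        rw [Subgroup.orderOf_coe, hg]
        exact Nat.Coprime.pow_right k ((hq.coprime_iff_not_dvd.2 Q.not_dvd_index).symm)
      have h3 := h2 (b⁻¹ • P)
      rw [H7.sylow_coe_smul, H7.mem_cj, inv_inv] at h3
      exact h3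
    exact subgroupOf_eq_top.1 h1 (mem_zpowers x)

end Cfsg.Agent.S4263
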