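import Cfsg.Statements.S4269
import Cfsg.Agent.H1.Pron

set_option autoImplicit false
open Cfsg

namespace Cfsg.Agent.S4269

open scoped commutatorElement

/-- Let G be a finite group, V an abelian normal subgroup and H a subgroup with HV = G. Then H is pronormal in G (H and gHg⁻¹ are conjugate inside the subgroup they generate, for every g) if and only if every H-invariant subgroup U of V satisfies U = N_U(H)·[H, U], that is, U is the join of U ∩ N_G(H) and the commutator subgroup [H, U]. -/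
theorem result {G : Type*} [Group G] [Finite G]
    (V : Subgroup G) [V.Normal] (hV : IsMulCommutative ↥V) (H : Subgroup G) (hHV : H ⊔ V = ⊤) :
    Cfsg.IsPronormal H ↔
      ∀ U : Subgroup G, U ≤ V → (∀ h ∈ H, U.map (MulAut.conj h).toMonoidHom = U) →
        U = (U ⊓ Subgroup.normalizer (H : Set G)) ⊔ ⁅H, U⁆ := by
  have hc : ∀ a ∈ V, ∀ b ∈ V, a * b = b * a := fun a ha b hb =>
    congrArg Subtype.val (hV.is_comm.comm ⟨a, ha⟩ ⟨b, hb⟩)
  rw [H1.isPronormal_iff]
  constructor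
  · intro h U hUV hU
    have hHU : H ≤ Subgroup.normalizer (U : Set G) := fun x hx => H10.mem_NN.2 (hU x hx)
    refine le_antisymm (fun u hu => ?_) (sup_le inf_le_left (H10.comm_le_right hHU))
    obtain ⟨x, hx, e⟩ := h u (⁅H, U⁆ ⊔ H) le_sup_right (H10.cj_le_of fun y hy => by
      have h1 : u * y * u⁻¹ = ⁅y, u⁆⁻¹ * y := by simp [commutatorElement_def, mul_assoc]
      rw [h1]
      exact mul_mem (Subgroup.mem_sup_left (inv_mem (Subgroup.commutator_mem_commutator hy hu)))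
        (Subgroup.mem_sup_right hy))
    obtain ⟨c, hc, y, hy, rfl⟩ := (H10.mem_sup_of_NN' (H10.left_le_NN_comm H U)).1 hx
    rw [H10.cj_mul, H10.cj_eq_of_mem hy] at e
    have h2 : c⁻¹ * u ∈ U ⊓ Subgroup.normalizer (H : Set G) :=
      Subgroup.mem_inf.2 ⟨mul_mem (inv_mem (H10.comm_le_right hHU hc)) hu, by
        rw [H10.mem_NN, H10.cj_mul, e, H10.cj_inv_cj]⟩
    have := mul_mem (Subgroup.mem_sup_right hc : c ∈ U ⊓ Subgroup.normalizer (H : Set G) ⊔ ⁅H, U⁆)
      (Subgroup.mem_sup_left h2)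
    simpa using this
  · intro h g K hK1 hK2
    have hg : g ∈ V ⊔ H := by rw [sup_comm, hHV]; trivial
    obtain ⟨v, hv, y, hy, rfl⟩ := Subgroup.mem_sup_of_normal_left.1 hg
    rw [H10.cj_mul, H10.cj_eq_of_mem hy] at hK2 ⊢
    have hn : ∀ a : G, ∀ b ∈ V, a * b * a⁻¹ ∈ V := fun a b hb => Subgroup.Normal.conj_mem ‹_› b hb a
    let U : Subgroup G :=
      { carrier := {u | u ∈ V ∧ ∀ x ∈ H, ⁅x, u⁆ ∈ K}
        one_mem' := ⟨one_mem _, fun x _ => by simp⟩
        mul_mem' := by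
          rintro a b ⟨ha, ha'⟩ ⟨hb, hb'⟩
          refine ⟨mul_mem ha hb, fun x hx => ?_⟩
          have h1 : ⁅x, a * b⁆ = ⁅x, a⁆ * ⁅x, b⁆ := by
            have := hc a ha _ (mul_mem (hn x b hb) (inv_mem hb))
            calc ⁅x, a * b⁆ = x * a * x⁻¹ * a⁻¹ * (a * (x * b * x⁻¹ * b⁻¹)) * a⁻¹ := by
                  simp [commutatorElement_def, mul_assoc]
              _ = _ := by rw [this]; simp [commutatorElement_def, mul_assoc]
          rw [h1]; exact mul_mem (ha' x hx) (hb' x hx)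
        inv_mem' := by
          rintro a ⟨ha, ha'⟩
          refine ⟨inv_mem ha, fun x hx => ?_⟩
          have h1 : ⁅x, a⁻¹⁆ = ⁅x, a⁆⁻¹ := by
            have := hc a ha _ (hn x a⁻¹ (inv_mem ha))
            calc ⁅x, a⁻¹⁆ = x * a⁻¹ * x⁻¹ * a := by simp [commutatorElement_def]
              _ = _ := by rw [← this]; simp [commutatorElement_def, mul_assoc]
          rw [h1]; exact inv_mem (ha' x hx) }
    have hHU : H ≤ Subgroup.normalizer (U : Set G) := H10.le_NN_iff.2 fun k hk u hu =>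
      ⟨hn k u hu.1, fun x hx => by
        have h1 : ⁅x, k * u * k⁻¹⁆ = k * ⁅k⁻¹ * x * k, u⁆ * k⁻¹ := by
          simp [commutatorElement_def, mul_assoc]
        rw [h1]
        exact mul_mem (mul_mem (hK1 hk) (hu.2 _ (mul_mem (mul_mem (inv_mem hk) hx) hk)))
          (inv_mem (hK1 hk))⟩
    have h1 := h U (fun u hu => hu.1) fun x hx => H10.mem_NN.1 (hHU hx)
    have hvU : v ∈ U := ⟨hv, fun x hx => by
      have h2 : ⁅x, v⁆ = x * (v * x⁻¹ * v⁻¹) := by simp [commutatorElement_def, mul_assoc]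
      rw [h2]
      exact mul_mem (hK1 hx) (hK2 (H10.conj_mem_cj (inv_mem hx)))⟩
    rw [h1, sup_comm] at hvU
    obtain ⟨c, hc, n, hn, rfl⟩ := (H10.mem_sup_of_NN'
      (inf_le_left.trans (H10.right_le_NN_comm H U))).1 hvU
    have h3 : ⁅H, U⁆ ≤ K := Subgroup.commutator_le.2 (fun x hx u hu => hu.2 x hx)
    refine ⟨c, h3 hc, ?_⟩
    rw [H10.cj_mul, H10.cj_eq_of_mem_NN hn.2]

end Cfsg.Agent.S4269
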