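import Cfsg.Statements.S4330
import Cfsg.Agent.H19.Cov1
import Cfsg.Agent.H1.Cores
import Cfsg.Agent.S0043

set_option autoImplicit false
open Pointwise
open Cfsg

namespace Cfsg.Agent.S4330
open Subgroup MulAction H25 H25.B2
open scoped IsMulCommutative

universe u

theorem cent {G : Type u} [Group G] [Finite G] {p q : ℕ} [hp : Fact p.Prime] [hq : Fact q.Prime]
    (hp2 : p ≠ 2) (hpq : p ≠ q) (V N : Subgroup G) [V.Normal] [hN : N.Normal] [IsMulCommutative V]
    (hmin : ∀ L : Subgroup G, L.Normal → L ≤ V → L = ⊥ ∨ L = V) (hV : ∀ x ∈ V, x ^ q = 1)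
    (hNV : ∀ x ∈ N, ∃ k, x ^ p ^ k ∈ V) {a : G} (ha : a ∈ N)
    (h : ∀ c : G, ∃ g : G, IsConj c g ∧ ∃ Q : Subgroup G, IsPGroup p Q ∧ a ∈ Q ∧ g * a * g⁻¹ ∈ Q) :
    a ∈ centralizer (V : Set G) := by
  by_contra hc
  let := conjAct V
  obtain ⟨v, hv⟩ := H19.Cov.main (p := p) (q := q) hp2 _ (toPermHom G (Additive V)).range
    (Additive V) rfl (fun v => by
      apply Additive.toMul.injective
      rw [toMul_nsmul]
      exact Subtype.ext (hV _ v.toMul.2)) (fun X hX => by
      rcases hmin ((AddSubgroup.toSubgroup' X).map V.subtype) ⟨by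
        rintro _ ⟨x, hx, rfl⟩ g
        exact ⟨_, hX ⟨_, g, rfl⟩ (Additive.ofMul x) hx, rfl⟩⟩ (map_subtype_le _) with e | e
      · left
        apply AddSubgroup.toSubgroup'.injective
        apply map_injective V.subtype_injective
        rw [e, OrderIso.map_bot, Subgroup.map_bot]
      · right
        apply AddSubgroup.toSubgroup'.injective
        apply map_injective V.subtype_injective
        rw [e, OrderIso.map_top, ← MonoidHom.range_eq_map, range_subtype])
    (N.map (toPermHom G (Additive V)).rangeRestrict)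
    (hN.map _ (toPermHom G (Additive V)).rangeRestrict_surjective) (by
      rintro ⟨_, x, hx, rfl⟩
      obtain ⟨k, hk⟩ := hNV x hx
      refine ⟨k, Subtype.ext (Subtype.ext ?_)⟩
      change toPermHom G (Additive V) x ^ p ^ k = 1
      rw [← map_pow]
      ext v
      refine congrArg (fun z : Additive V => (z.toMul : G)) ((conj_fix_iff V _ v).2 ?_)
      rw [mul_inv_eq_iff_eq_mul]
      exact congrArg Subtype.val (mul_comm (⟨_, hk⟩ : V) v.toMul)) _ (mem_map_of_mem _ ha) (by
      by_contra h'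
      push Not at h'
      refine hc fun v hv => ?_
      have := (conj_fix_iff V a (Additive.ofMul ⟨v, hv⟩)).1 (h' _)
      exact (mul_inv_eq_iff_eq_mul.1 this).symm)
  obtain ⟨w, hw, Q, hQ, h1, h2⟩ := h v.toMul
  obtain ⟨g, rfl⟩ := isConj_iff.1 hw
  refine hv ⟨_, g, rfl⟩ ((conj_fix_iff V a (g • v)).2 ?_)
  change a * (g * v.toMul * g⁻¹) * a⁻¹ = g * v.toMul * g⁻¹
  set w : G := g * v.toMul * g⁻¹
  have hwV : w ∈ V := (inferInstance : V.Normal).conj_mem _ v.toMul.2 g
  have m1 : w * a * w⁻¹ * a⁻¹ ∈ Q := mul_mem h2 (inv_mem h1)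
  have m2 : w * a * w⁻¹ * a⁻¹ ∈ V := by
    have := mul_mem hwV ((inferInstance : V.Normal).conj_mem _ (inv_mem hwV) a)
    simpa only [mul_assoc] using this
  obtain ⟨k, hk⟩ := hQ ⟨_, m1⟩
  have e1 := orderOf_dvd_of_pow_eq_one (congrArg Subtype.val hk : (w * a * w⁻¹ * a⁻¹) ^ p ^ k = 1)
  have e2 := orderOf_dvd_of_pow_eq_one (hV _ m2)
  have := Nat.eq_one_of_dvd_coprimes
    (Nat.Coprime.pow_left k ((Nat.coprime_primes hp.out hq.out).2 hpq)) e1 e2
  rw [orderOf_eq_one_iff, mul_inv_eq_one, mul_inv_eq_iff_eq_mul] at this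
  rw [← this, mul_inv_cancel_right]

theorem aux {p : ℕ} [hp : Fact p.Prime] (hp2 : p ≠ 2) (n : ℕ) : ∀ (G : Type u) [Group G] [Finite G]
    [Group.IsSolvable G], Nat.card G = n → ∀ A : Subgroup G, IsPGroup p A →
    (∀ c : G, ∃ g : G, IsConj c g ∧ ∃ Q : Subgroup G, IsPGroup p Q ∧ A ≤ Q ∧
      ∀ a ∈ A, g * a * g⁻¹ ∈ Q) → A ≤ pCore p G := by
  induction n using Nat.strong_induction_on with
  | _ n ih =>
  intro G _ _ _ hn A hA h
  rcases subsingleton_or_nontrivial G with h0 | h0
  · exact (Subsingleton.elim _ _).le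
  obtain ⟨V, hVn, hV0, -, hmin⟩ := exists_minimal_normal_le (⊤ : Subgroup G) top_ne_bot
  obtain ⟨hVc, q, hq, hV⟩ := Cfsg.Agent.S0043.result V hV0 hmin
  have := Fact.mk hq
  let π := QuotientGroup.mk' V
  have hq' := ih (Nat.card (G ⧸ V)) (by
    have := V.card_mul_index
    have h1 : 1 < Nat.card V := (V.one_lt_card_iff_ne_bot).2 hV0
    have h2 : 0 < V.index := Nat.pos_of_ne_zero index_ne_zero_of_finite
    change V.index < n
    nlinarith) (G ⧸ V) rfl (A.map π) (hA.map π) fun c => by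
      obtain ⟨c, rfl⟩ := QuotientGroup.mk'_surjective V c
      obtain ⟨g, hg, Q, hQ, h1, h2⟩ := h c
      refine ⟨π g, π.map_isConj hg, Q.map π, hQ.map π, map_mono h1, ?_⟩
      rintro _ ⟨a, ha, rfl⟩
      exact ⟨_, h2 a ha, by simp⟩
  set N := (pCore p (G ⧸ V)).comap π with hN
  have hAN : A ≤ N := map_le_iff_le_comap.1 hq'
  by_cases hpq : p = q
  · subst hpq
    refine hAN.trans (H1.le_pCore ((H1.isPGroup_pCore p).comap_of_ker_isPGroup π ?_))
    rw [QuotientGroup.ker_mk']
    exact fun x => ⟨1, Subtype.ext (by rw [pow_one]; exact hV _ x.2)⟩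
  have hAC : A ≤ centralizer (V : Set G) := fun a ha =>
    cent hp2 hpq V N hmin hV (fun x hx => by
      obtain ⟨k, hk⟩ := H1.isPGroup_pCore p ⟨_, hx⟩
      exact ⟨k, (QuotientGroup.eq_one_iff _).1 (congrArg Subtype.val hk)⟩) (hAN ha) fun c => by
      obtain ⟨g, hg, Q, hQ, h1, h2⟩ := h c
      exact ⟨g, hg, Q, hQ, h1 ha, h2 a ha⟩
  set M := N ⊓ centralizer (V : Set G) with hM
  have := (H1.isPGroup_pCore (G := G ⧸ V) p).isNilpotent
  have : Group.IsNilpotent M := Subgroup.isNilpotent_of_ker_le_center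
    ((π.comp M.subtype).codRestrict (pCore p (G ⧸ V)) fun x => x.2.1) fun x hx => by
      have hx' : x.1 ∈ V := (QuotientGroup.eq_one_iff _).1 (congrArg Subtype.val hx)
      exact mem_center_iff.2 fun y => Subtype.ext (y.2.2 _ hx').symm
  obtain ⟨S, hS⟩ := (hA.comap_subtype (K := M)).exists_le_sylow
  have hSn := Sylow.normal_of_normalizerCondition Group.normalizerCondition_of_isNilpotent S
  have := S.characteristic_of_normal hSn
  refine le_trans ?_ (H1.le_pCore (N := (S : Subgroup M).map M.subtype) (S.isPGroup'.map _))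
  exact fun a ha => ⟨⟨a, hAN ha, hAC ha⟩, hS ha, rfl⟩

/-- Let G be a finite solvable group, p an odd prime and A a p-subgroup of G such that every conjugacy class of G contains an element g for which A is subnormal in the subgroup generated by A and its conjugate by g. Then A is contained in O_p(G). (The hypothesis that p is odd is needed.) -/
theorem result {G : Type*} [Group G] [Finite G]
    (hG : Group.IsSolvable G) (p : ℕ) [Fact p.Prime] (hp : p ≠ 2) (A : Subgroup G) (hA : IsPGroup p A)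
    (h : ∀ c : G, ∃ g : G, IsConj c g ∧ (A.subgroupOf (A ⊔ MulAut.conj g • A)).IsSubnormal) :
    A ≤ Cfsg.pCore p G := by
  refine aux hp _ G rfl A hA fun c => ?_
  obtain ⟨g, hg, hs⟩ := h c
  refine ⟨g, hg, A ⊔ MulAut.conj g • A, ?_, le_sup_left, fun a ha =>
    mem_sup_right (smul_mem_pointwise_smul a (MulAut.conj g) A ha)⟩
  set L := A ⊔ MulAut.conj g • A
  have h1 := H1.subnormal_le_pCore hs hA.comap_subtype
  have h2 : IsPGroup p ((MulAut.conj g • A).subgroupOf L) :=
    (hA.map (MulAut.conj g).toMonoidHom).comap_subtype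
  have h3 := (H1.isPGroup_pCore (G := L) p).to_sup_of_normal_left h2
  have h4 : pCore p L ⊔ (MulAut.conj g • A).subgroupOf L = ⊤ := by
    rw [eq_top_iff, ← subgroupOf_self, subgroupOf_sup le_sup_left le_sup_right]
    exact sup_le_sup_right h1 _
  rw [h4] at h3
  exact h3.of_equiv topEquiv

end Cfsg.Agent.S4330
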