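import Cfsg.Statements.S4331
import Cfsg.Agent.S0064
import Cfsg.Agent.S0144
import Cfsg.Agent.H1.Cores

set_option autoImplicit false
open Cfsg

namespace Cfsg.Agent.S4331

abbrev K := ZMod 3 × ZMod 3

/-- The semilinear affine maps of the field with nine elements. -/
def F (t : K × K × Bool) (x : K) : K :=
  (t.1.1 * x.1 - t.1.2 * cond t.2.2 (-x.2) x.2 + t.2.1.1, t.1.2 * x.1 + t.1.1 * cond t.2.2 (-x.2) x.2 + t.2.1.2)

theorem F_comp (t s : K × K × Bool) : ∃ u, ∀ x, F t (F s x) = F u x := by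
  obtain ⟨a, b, e⟩ := t
  obtain ⟨c, d, f⟩ := s
  refine ⟨(F (a, 0, e) c, F (a, b, e) d, xor e f), fun x => ?_⟩
  cases e <;> cases f <;> ext <;> simp [F] <;> ring

def M : Submonoid (Equiv.Perm K) where
  carrier := {σ | ∃ t, ∀ x, σ x = F t x}
  one_mem' := ⟨((1, 0), 0, false), fun x => by simp [F]⟩
  mul_mem' := by
    rintro σ τ ⟨t, ht⟩ ⟨s, hs⟩
    obtain ⟨u, hu⟩ := F_comp t s
    exact ⟨u, fun x => by rw [Equiv.Perm.mul_apply, ht, hs, hu]⟩

def G : Subgroup (Equiv.Perm K) where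
  toSubmonoid := M
  inv_mem' {σ} h := Submonoid.powers_le.2 h (mem_powers_iff_mem_zpowers.2 (inv_mem (Subgroup.mem_zpowers σ)))

noncomputable def mkG (t : K × K × Bool) (h : Function.Injective (F t)) : G :=
  ⟨Equiv.ofBijective _ (Finite.injective_iff_bijective.1 h), t, fun _ => rfl⟩

theorem ext' {g h : G} (e : ∀ x, g.1 x = h.1 x) : g = h := Subtype.ext (Equiv.ext e)

theorem pow_app (g : G) {t : K × K × Bool} (ht : ∀ x, g.1 x = F t x) (n : ℕ) (x : K) : (g ^ n).1 x = (F t)^[n] x := by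
  rw [← funext ht]; simp [Equiv.Perm.coe_pow]

theorem inj (g : G) {t : K × K × Bool} (ht : ∀ x, g.1 x = F t x) : Function.Injective (F t) :=
  funext ht ▸ g.1.injective

noncomputable def a : G := mkG ((1, 0), 0, true) (by decide +kernel)

theorem k1 : ∀ t, Function.Injective (F t) → (∃ b, F t b = b) ∨ ∃ u, Function.Injective (F u) ∧
    ∀ x y, F t (F u x) = F u y →
      F t (F u (F ((1, 0), 0, true) x)) = F u (F ((1, 0), 0, true) y) := by decide +kernel

theorem k2 : ∀ t, Function.Injective (F t) → (F t 0 = 0 → ∀ x, (F t)^[8] x = x) ∧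
    ∀ x, (F t)^[24] x = x := by decide +kernel

/-- There is a finite solvable group G with a subgroup A of order 2 such that every conjugacy class of G contains an element g for which A is subnormal in the subgroup generated by A and g, and yet A is not contained in O_2(G). (So the corresponding criteria for odd primes fail at the prime 2, even for solvable groups.) -/
theorem result :
    ∃ (G : Type) (_ : Group G) (_ : Finite G) (A : Subgroup G), Group.IsSolvable G ∧ Nat.card A = 2 ∧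
      (∀ c : G, ∃ g : G, IsConj c g ∧ (A.subgroupOf (A ⊔ Subgroup.zpowers g)).IsSubnormal) ∧
      ¬ A ≤ Cfsg.pCore 2 G := by
  have : Fact (Nat.Prime 2) := ⟨Nat.prime_two⟩
  have ha : orderOf a = 2 := orderOf_eq_prime (ext' fun x => (pow_app a (fun _ => rfl) 2 x).trans (by revert x; decide))
    fun h => absurd (congrArg (fun g : G => g.1 (0, 1)) h) (by decide)
  refine ⟨G, inferInstance, inferInstance, Subgroup.zpowers a, ?_, by rw [Nat.card_zpowers, ha], fun c => ?_, fun h => ?_⟩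
  · have hpos : 0 < Nat.card G := Nat.card_pos
    have h6 : Nat.card G ∣ 2 ^ Nat.card G * 3 ^ Nat.card G := by
      refine (Nat.dvd_iff_prime_pow_dvd_dvd _ _).2 fun p k hp hk => ?_
      rcases k.eq_zero_or_pos with rfl | hk0
      · simp
      have := Fact.mk hp
      obtain ⟨g, hg⟩ := exists_prime_orderOf_dvd_card' (G := G) p ((dvd_pow_self p hk0.ne').trans hk)
      obtain ⟨s, hs⟩ := g.2
      have h24 : p ∣ 6 ^ 3 := (hg ▸ orderOf_dvd_of_pow_eq_one
        (ext' fun x => (pow_app g hs 24 x).trans ((k2 s (inj _ hs)).2 x))).trans (by norm_num)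
      rw [← mul_pow]
      exact (pow_dvd_pow_of_dvd (hp.dvd_of_dvd_pow h24) k).trans
        (pow_dvd_pow _ ((Nat.lt_pow_self hp.one_lt).le.trans (Nat.le_of_dvd hpos hk)))
    obtain ⟨y, z, hy, hz, h⟩ := (Nat.dvd_mul).1 h6
    obtain ⟨i, -, rfl⟩ := (Nat.dvd_prime_pow Nat.prime_two).1 hy
    obtain ⟨j, -, rfl⟩ := (Nat.dvd_prime_pow Nat.prime_three).1 hz
    exact Cfsg.Agent.S0144.result 2 3 i j Nat.prime_two Nat.prime_three h.symm
  · obtain ⟨t, ht⟩ := c.2
    rcases k1 t (inj c ht) with ⟨b, hb⟩ | ⟨u, hu, h⟩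
    · let k := mkG ((1, 0), b, false) (by clear hb; revert b; decide)
      have hk : k.1 0 = b := by show F _ _ = b; simp [F]
      refine ⟨k⁻¹ * c * k, isConj_iff.2 ⟨k⁻¹, by rw [inv_inv]⟩, (Cfsg.Agent.S0064.result.1 (IsPGroup.isNilpotent (p := 2) ?_)) _⟩
      have hle : Subgroup.zpowers a ⊔ Subgroup.zpowers (k⁻¹ * c * k) ≤ MulAction.stabilizer G (0 : K) := by
        refine sup_le (Subgroup.zpowers_le.2 (show F _ _ = _ by decide)) (Subgroup.zpowers_le.2 ?_)
        show k.1⁻¹ (c.1 (k.1 0)) = 0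
        rw [hk, ht, hb, ← hk]; simp
      intro g
      obtain ⟨s, hs⟩ := g.1.2
      exact ⟨3, Subtype.ext (ext' fun x => (pow_app g.1 hs 8 x).trans ((k2 s (inj _ hs)).1 ((hs 0).symm.trans (hle g.2)) x))⟩
    · let k := mkG _ hu
      have hc : Commute a (k⁻¹ * c * k) := by
        refine (ext' fun x => ?_).symm
        show k.1⁻¹ (c.1 (k.1 (a.1 x))) = a.1 (k.1⁻¹ (c.1 (k.1 x)))
        rw [Equiv.Perm.inv_eq_iff_eq, ht]
        exact h x _ ((ht _).symm.trans (k.1.apply_symm_apply _).symm)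
      refine ⟨k⁻¹ * c * k, isConj_iff.2 ⟨k⁻¹, by rw [inv_inv]⟩, Subgroup.Normal.isSubnormal ?_⟩
      rw [Subgroup.normal_subgroupOf_iff_le_normalizer le_sup_left]
      refine sup_le Subgroup.le_normalizer (Subgroup.zpowers_le.2 (Subgroup.centralizer_le_normalizer _ ?_))
      rintro _ ⟨n, rfl⟩
      exact (hc.zpow_left n).eq
  · let k := mkG ((1, 0), (0, 1), false) (by decide)
    have h1 : a ∈ Cfsg.pCore 2 G := h (Subgroup.mem_zpowers a)
    obtain ⟨n, hn⟩ := H1.isPGroup_pCore (G := G) 2 ⟨_, mul_mem h1 (Subgroup.Normal.conj_mem inferInstance a h1 k)⟩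
    have h2 : ∀ x, (a * (k * a * k⁻¹)).1 x = F ((1, 0), (0, 1), false) x := fun x => by
      show a.1 (k.1 (a.1 (k.1⁻¹ x))) = _
      obtain ⟨x, rfl⟩ := k.1.surjective x
      rw [show k.1⁻¹ (k.1 x) = x from k.1.symm_apply_apply x]
      revert x
      decide
    have : Fact (Nat.Prime 3) := ⟨Nat.prime_three⟩
    have h3 : orderOf (a * (k * a * k⁻¹)) = 3 := orderOf_eq_prime
      (ext' fun x => (pow_app _ h2 3 x).trans (by revert x; decide))
      fun h => absurd ((h2 0).symm.trans (congrArg (fun g : G => g.1 0) h) : _ = (0 : K)) (by decide +revert)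
    have h4 := orderOf_dvd_of_pow_eq_one (congrArg Subtype.val hn : (a * (k * a * k⁻¹)) ^ 2 ^ n = 1)
    rw [h3] at h4
    exact absurd (Nat.prime_three.dvd_of_dvd_pow h4) (by norm_num)

end Cfsg.Agent.S4331
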