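import Mathlib
import Cfsg.Statements.S4332

set_option autoImplicit false
open Pointwise
open Cfsg

namespace Cfsg.Agent.S4332

open Equiv Equiv.Perm in
theorem tri (c : Perm (Fin 8)) : ∃ a b d : Fin 8, a ≠ b ∧ a ≠ d ∧ b ≠ d ∧
    ((c a = a ∧ c b = b ∧ c d = d) ∨ (c a = b ∧ c b = d ∧ c d = a) ∨
      [a, b, d, c a, c b, c d].Nodup) := by
  by_cases h : 2 < c.supportᶜ.card
  · obtain ⟨a, b, d, ha, hb, hd, x, y, z⟩ := Finset.two_lt_card_iff.1 h
    simp only [Finset.mem_compl, notMem_support] at ha hb hd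
    exact ⟨a, b, d, x, y, z, Or.inl ⟨ha, hb, hd⟩⟩
  rw [Finset.card_compl, Fintype.card_fin] at h
  have h6 : 6 ≤ c.support.card := by omega
  obtain ⟨a, ha⟩ := Finset.card_pos.1 (show 0 < c.support.card by omega)
  obtain ⟨b, hb, nb⟩ := Finset.exists_mem_notMem_of_card_lt_card (s := {a, c a, c⁻¹ a}) (t := c.support)
    (Finset.card_le_three.trans_lt (by omega))
  have inv : ∀ x y, x = c⁻¹ y ↔ c x = y := fun x y => by rw [eq_inv_iff_eq]
  have ha' := mem_support.1 ha
  have hb' := mem_support.1 hb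
  simp only [Finset.mem_insert, Finset.mem_singleton, not_or, inv] at nb
  by_cases e : ∃ d ∈ c.support, d ∉ [a, c a, c⁻¹ a, b, c b, c⁻¹ b].toFinset
  · obtain ⟨d, hd, nd⟩ := e
    have hd' := mem_support.1 hd
    simp only [List.mem_toFinset, List.mem_cons, List.not_mem_nil, not_or, inv] at nd
    refine ⟨a, b, d, Ne.symm nb.1, Ne.symm nd.1, Ne.symm nd.2.2.2.1, Or.inr (Or.inr ?_)⟩
    simp only [List.nodup_cons, List.mem_cons, List.not_mem_nil, not_or, EmbeddingLike.apply_eq_iff_eq]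
    grind
  push Not at e
  have c6 := h6.trans (Finset.card_le_card e)
  have nd : [a, c a, c⁻¹ a, b, c b, c⁻¹ b].Nodup := by
    rw [← Multiset.coe_nodup, ← Multiset.toFinset_card_eq_card_iff_nodup]
    exact le_antisymm (List.toFinset_card_le _) c6
  have m := e _ (apply_mem_support.2 (apply_mem_support.2 ha))
  obtain ⟨a, rfl⟩ := c.surjective a
  obtain ⟨b, rfl⟩ := c.surjective b
  simp only [List.mem_toFinset, List.mem_cons, List.not_mem_nil, coe_inv, symm_apply_apply, List.nodup_cons, not_or,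
    EmbeddingLike.apply_eq_iff_eq] at m nd
  by_cases e3 : c (c (c a)) = a
  · exact ⟨a, c a, c (c a), by grind, by grind, by grind, Or.inr (Or.inl ⟨rfl, rfl, e3⟩)⟩
  refine ⟨c a, b, c (c b), by grind, by grind, by grind, Or.inr (Or.inr ?_)⟩
  simp only [List.nodup_cons, List.mem_cons, List.not_mem_nil, not_or, EmbeddingLike.apply_eq_iff_eq]
  have i := c.injective
  grind

open Equiv Equiv.Perm in
theorem com (c : Perm (Fin 8)) : ∃ τ : Perm (Fin 8), τ.IsThreeCycle ∧ Commute τ (c * τ * c⁻¹) := by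
  obtain ⟨a, b, d, x, y, z, h⟩ := tri c
  refine ⟨swap a b * swap a d, isThreeCycle_swap_mul_swap_same x y z, ?_⟩
  rw [← conj_mul, ← swap_apply_apply, ← swap_apply_apply]
  rcases h with ⟨h1, h2, h3⟩ | ⟨h1, h2, h3⟩ | h
  · rw [h1, h2, h3]
  · rw [h1, h2, h3, show swap b d * swap b a = swap a b * swap a d by
      ext t; simp only [Perm.mul_apply, swap_apply_def]; grind]
  · simp only [List.nodup_cons, List.mem_cons, List.not_mem_nil, not_or] at h
    refine Commute.mul_left (Commute.mul_right ?_ ?_) (Commute.mul_right ?_ ?_) <;>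
    refine (disjoint_swap_swap ?_).commute <;>
    simp only [List.nodup_cons, List.mem_cons, List.not_mem_nil, not_or] <;> grind

theorem result
    (σ : Equiv.Perm (Fin 8)) (hσ : σ.IsThreeCycle) :
    (∀ c : Equiv.Perm (Fin 8), ∃ g : Equiv.Perm (Fin 8), IsConj c g ∧
      ((Subgroup.zpowers σ).subgroupOf (Subgroup.zpowers σ ⊔ MulAut.conj g • Subgroup.zpowers σ)).IsSubnormal) ∧
    Cfsg.pCore 3 (Equiv.Perm (Fin 8)) = ⊥ := by
  refine ⟨fun c => ?_, ?_⟩
  · obtain ⟨τ, h1, h2⟩ := com c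
    obtain ⟨h, rfl⟩ := isConj_iff.1 (Equiv.Perm.isConj_iff_cycleType_eq.2 (hσ.cycleType.trans h1.cycleType.symm))
    refine ⟨h⁻¹ * c * h, isConj_iff.2 ⟨h⁻¹, by rw [inv_inv]⟩, Subgroup.Normal.isSubnormal ?_⟩
    have c1 : Commute σ (MulAut.conj (h⁻¹ * c * h) σ) := by
      have := h2.map (MulAut.conj h⁻¹)
      simpa [mul_assoc] using this
    rw [Subgroup.normal_subgroupOf_iff_le_normalizer le_sup_left]
    refine sup_le Subgroup.le_normalizer (le_trans ?_ (Subgroup.centralizer_le_normalizer _))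
    rintro _ ⟨_, ⟨j, rfl⟩, rfl⟩ _ ⟨k, rfl⟩
    change σ ^ k * MulAut.conj (h⁻¹ * c * h) (σ ^ j) = MulAut.conj (h⁻¹ * c * h) (σ ^ j) * σ ^ k
    rw [map_zpow]
    exact c1.zpow_zpow k j
  · refine sSup_eq_bot.2 fun N ⟨h1, h2⟩ => by_contra fun c => ?_
    have := (Subgroup.nontrivial_iff_ne_bot N).2 c
    have h3 := h2.to_le (Equiv.Perm.alternatingGroup_le_of_normal (by simp) (N := N) this)
    have : Fact (Nat.Prime 3) := ⟨by norm_num⟩
    obtain ⟨k, hk⟩ := h3.exists_card_eq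
    rw [nat_card_alternatingGroup, Nat.card_eq_fintype_card, Fintype.card_fin] at hk
    have := (Nat.prime_two.dvd_of_dvd_pow (n := k) (by rw [← hk]; decide) : 2 ∣ 3)
    omega

end Cfsg.Agent.S4332
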