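import Cfsg.Statements.S4333
import Cfsg.Agent.H5.Wielandt

set_option autoImplicit false
open Pointwise
open Cfsg

namespace Cfsg.Agent.S4333

open Subgroup H5 in
theorem aux {G : Type*} [Group G] [Finite G] {A K : Subgroup G} (hA : A ≤ K)
    (h : ∀ a ∈ A, ∀ g ∈ K, SN A (A ⊔ cj (g⁻¹ * a * g) A)) : SN A K := by
  induction K using subgroup_lt_induction with
  | h K ih =>
    by_contra hn
    have h0 : ∀ H : Subgroup G, A ≤ H → H < K → SN A H :=
      fun H h1 h2 => ih H h2 h1 fun a ha g hg => h a ha g (h2.le hg)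
    have hlt : A < K := lt_of_le_of_ne hA fun e => hn (e ▸ SN.refl _)
    obtain ⟨M, hM, hAM⟩ := exists_maxIn hlt
    have hcj : ∀ x ∈ K, MaxIn (cj x M) K := fun x hx => by
      have e : cj x K = K := cj_eq_of_mem hx
      refine ⟨lt_of_le_of_ne (cj_le_of_le hM.1.le (le_normalizer hx)) fun e' =>
        hM.1.ne (cj_injective x (e'.trans e.symm)), fun H h1 h2 => ?_⟩
      have h3 : cj x⁻¹ H < K := lt_of_le_of_ne (cj_le_of_le h2.le (le_normalizer (inv_mem hx)))
        fun e' => h2.ne (by rw [← cj_cj_inv x H, e', e])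
      have h4 := hM.2 _ (by rw [← cj_inv_cj x M]; exact cj_mono h1) h3
      rw [← h4, cj_cj_inv]
    have h1 : ∀ a ∈ A, ∀ g ∈ K, g⁻¹ * a * g ∈ normalizer (M : Set G) := fun a ha g hg => by
      have hx : g⁻¹ * a * g ∈ K := mul_mem (mul_mem (inv_mem hg) (hA ha)) hg
      have h2 : A ⊔ cj (g⁻¹ * a * g) A < K :=
        lt_of_le_of_ne (sup_le hA (cj_le_of_le hA (le_normalizer hx))) fun e => hn (e ▸ h a ha g hg)
      obtain ⟨N, hN, h3⟩ := exists_maxIn h2
      have e := zipper hA h0 hn hM hN hAM (le_sup_left.trans h3)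
      subst e
      have h4 : A ≤ cj (g⁻¹ * a * g)⁻¹ M := by
        rw [← cj_inv_cj (g⁻¹ * a * g) A]; exact cj_mono (le_sup_right.trans h3)
      have e := zipper hA h0 hn (hcj _ (inv_mem hx)) hM h4 hAM
      exact (inv_mem_iff (H := normalizer (M : Set G))).1 (cj_eq_self_iff.1 e)
    have h2 : ncl A K ≤ K ⊓ normalizer (M : Set G) := by
      refine le_inf (ncl_le_of_le hA le_rfl) (ncl_le_iff.2 fun g hg x hx => ?_)
      have := h1 _ (mem_cj.1 hx) g⁻¹ (inv_mem hg)
      simpa [mul_assoc] using this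
    by_cases h3 : K ⊓ normalizer (M : Set G) = K
    · exact hn ((h0 M hAM hM.1).trans (SN.of_normal hM.1.le (h3.ge.trans inf_le_right)))
    · exact hn ((h0 _ (le_ncl _ _) (lt_of_le_of_lt h2 (lt_of_le_of_ne inf_le_left h3))).trans
        (SN.of_normal (h2.trans inf_le_left) (right_le_normalizer_ncl _ _)))

/-- Let A be a subgroup of a finite group G. If A is subnormal in the subgroup generated by A and its conjugate by g⁻¹ a g, for every a ∈ A and every g ∈ G, then A is subnormal in G. (A sharpening of Wielandt's subnormality criterion: only conjugates of A by conjugates of elements of A are needed.) -/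
theorem result {G : Type*} [Group G] [Finite G]
    (A : Subgroup G)
    (h : ∀ a ∈ A, ∀ g : G, (A.subgroupOf (A ⊔ MulAut.conj (g⁻¹ * a * g) • A)).IsSubnormal) :
    A.IsSubnormal := by
  exact H5.sn_top_iff.1 (aux le_top fun a ha g _ => ⟨le_sup_left, h a ha g⟩)

end Cfsg.Agent.S4333
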