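import Cfsg.Statements.S4334
import Cfsg.Agent.H1.Fitting
import Cfsg.Agent.H1.Hall
import Cfsg.Agent.H10.SylowIn
import Cfsg.Agent.H3.Transfer2

set_option autoImplicit false
open Cfsg

namespace Cfsg.Agent.S4334

open Subgroup H10

variable {G : Type*} [Group G] [Finite G]

def Dom (H : Subgroup G) : Prop :=
  ∀ K : Subgroup G, (∀ q : ℕ, q.Prime → q ∣ Nat.card K → q ∣ Nat.card H) → ∃ g, cj g K ≤ H

omit [Finite G] in
theorem relIndex_sup_dvd {L N : Subgroup G} (h : L ≤ normalizer (N : Set G)) :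
    N.relIndex (L ⊔ N) ∣ Nat.card L := by
  rw [relIndex_sup_of_NN h]; exact relIndex_dvd_card N L

omit [Finite G] in
theorem card_sup_dvd {L N : Subgroup G} (h : L ≤ normalizer (N : Set G)) :
    Nat.card (L ⊔ N : Subgroup G) ∣ Nat.card L * Nat.card N :=
  Dvd.intro _ (card_sup_mul_card_inf h)

theorem step {p : ℕ} [hp : Fact p.Prime] {P T : Subgroup G} (hP : IsSylowIn p P ⊤)
    (hPT : P ≤ centralizer (T : Set G))
    (hT : ∀ q : ℕ, q.Prime → q ∣ Nat.card T → ¬ q ∣ T.index) (hD : Dom T) : Dom (P ⊔ T) := by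
  intro K hK
  have hq : ∀ q : ℕ, q.Prime → q ≠ p → q ∣ Nat.card K → q ∣ Nat.card T := by
    intro q hq hqp hd
    rcases (Nat.Prime.dvd_mul hq).1 ((hK q hq hd).trans (card_sup_dvd (hPT.trans (CC_le_NN T))))
      with h | h
    · rw [hP.card_eq_pow] at h
      exact absurd ((Nat.prime_dvd_prime_iff_eq hq hp.out).1 (hq.dvd_of_dvd_pow h)) hqp
    · exact h
  have hN : HasNormalPComplement p K := by
    by_contra hn
    obtain ⟨S⟩ : Nonempty (Sylow p K) := inferInstance
    obtain ⟨Q, hQ, q, hqq, hqp, hqd, y, k, hy, h1, h2⟩ := H3.exists_primePow_not_centralizing S hn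
    have : Fact q.Prime := ⟨hqq⟩
    obtain ⟨g, -, hg⟩ := hP.exists_cj_le ((S.isPGroup'.to_le hQ).map K.subtype) le_top
    obtain ⟨R, hR⟩ := exists_isSylowIn q T
    have hTC : T ≤ centralizer (cj g (Q.map K.subtype) : Set G) :=
      (le_CC_symm hPT).trans (CC_anti hg)
    have hR' : IsSylowIn q R ⊤ := by
      refine isSylowIn_of_not_dvd le_top hR.isPGroup ?_
      rw [relIndex_top_right, ← relIndex_mul_index hR.le]
      intro h
      rcases (Nat.Prime.dvd_mul hqq).1 h with h | h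
      · exact hR.not_dvd_relIndex h
      · exact hT q hqq (hq q hqq hqp hqd) h
    have hy1 : (y : G) ∈ normalizer ((Q.map K.subtype : Subgroup G) : Set G) :=
      map_NN_le K.subtype Q ⟨y, h1, rfl⟩
    obtain ⟨n, hn1, hn2⟩ := (hR'.of_le (hR.le.trans (hTC.trans (CC_le_NN _))) le_top).exists_cj_le
      (P := cj g (zpowers (y : G)))
      (isPGroup_cj g (isPGroup_zpowers_of_orderOf (k := k) (by rw [orderOf_coe, hy])))
      (by rw [← cj_normalizer, cj_le_cj, zpowers_le]; exact hy1)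
    have h3 := hn2.trans (hR.le.trans hTC)
    rw [cj_le_iff, cj_eq_of_mem_NN (NN_le_NN_CC _ (inv_mem hn1)), ← cj_centralizer, cj_le_cj,
      zpowers_le] at h3
    apply h2
    intro z hz
    exact Subtype.ext (h3 z ⟨z, hz, rfl⟩)
  have hL := H3.hasNormalPComplement_iff_coprime.1 hN
  obtain ⟨g, hg⟩ := hD ((pResidual p K).map K.subtype) fun q hqq hd => by
    rw [card_map_subtype] at hd
    refine hq q hqq ?_ (hd.trans (card_subgroup_dvd_card _))
    rintro rfl
    exact (Nat.Prime.coprime_iff_not_dvd hqq).1 hL.symm hd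
  obtain ⟨S⟩ : Nonempty (Sylow p K) := inferInstance
  have h1 : (pResidual p K).map K.subtype ⊔ (S : Subgroup K).map K.subtype = K := by
    rw [← Subgroup.map_sup, H3.pResidual_sup_sylow, ← MonoidHom.range_eq_map, range_subtype]
  obtain ⟨n, hn1, hn2⟩ := (hP.of_le (hPT.trans ((CC_anti hg).trans (CC_le_NN _))) le_top).exists_cj_le
    (isPGroup_cj g (S.isPGroup'.map K.subtype))
    (by rw [← cj_normalizer, cj_le_cj]; exact (map_subtype_le _).trans (le_NN_map_subtype _))
  refine ⟨n * g, ?_⟩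
  rw [← h1, cj_mul, cj_sup, cj_sup, cj_eq_of_mem_NN hn1]
  exact sup_le (hg.trans le_sup_right) (hn2.trans le_sup_left)

theorem main {T : Subgroup G} (hD : Dom T) (n : ℕ) : ∀ S : Subgroup G, Nat.card S = n →
    Group.IsNilpotent S → (Nat.card S).Coprime (Nat.card T) → S ≤ centralizer (T : Set G) →
    (∀ q : ℕ, q.Prime → q ∣ Nat.card (S ⊔ T : Subgroup G) → ¬ q ∣ (S ⊔ T).index) → Dom (S ⊔ T) := by
  induction n using Nat.strong_induction_on with
  | _ n ih =>
  intro S hn hS hc hST hH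
  by_cases h0 : S = ⊥
  · rw [h0, bot_sup_eq]; exact hD
  obtain ⟨p, hp, hpd⟩ := Nat.exists_prime_and_dvd ((S.one_lt_card_iff_ne_bot).2 h0).ne'
  have : Fact p.Prime := ⟨hp⟩
  have h1 : (pCore p S).map S.subtype ⊔ (pPrimeCore p S).map S.subtype = S := by
    rw [← Subgroup.map_sup, H1.pCore_sup_pPrimeCore_eq_top, ← MonoidHom.range_eq_map, range_subtype]
  have hP : IsPGroup p ((pCore p S).map S.subtype) := (H1.isPGroup_pCore p).map _
  have hR : (Nat.card ((pPrimeCore p S).map S.subtype)).Coprime p := by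
    rw [card_map_subtype]; exact H1.coprime_card_pPrimeCore p
  have hPS : (pCore p S).map S.subtype ≤ S := map_subtype_le _
  have hRS : (pPrimeCore p S).map S.subtype ≤ S := map_subtype_le _
  generalize (pCore p S).map S.subtype = P at *
  generalize (pPrimeCore p S).map S.subtype = R at *
  obtain ⟨k, hk⟩ := hP.exists_card_eq
  have hPR : P ≤ centralizer (R : Set G) :=
    H1.le_centralizer_of_coprime_of_isNilpotent hS hPS hRS (by rw [hk]; exact hR.symm.pow_left k)
  have hPT : P ≤ centralizer ((R ⊔ T : Subgroup G) : Set G) := by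
    rw [CC_sup]; exact le_inf hPR (hPS.trans hST)
  have hpT : ¬ p ∣ Nat.card (R ⊔ T : Subgroup G) := by
    intro h
    rcases (Nat.Prime.dvd_mul hp).1 (h.trans (card_sup_dvd ((hRS.trans hST).trans (CC_le_NN T))))
      with h | h
    · exact (Nat.Prime.coprime_iff_not_dvd hp).1 hR.symm h
    · exact hp.one_lt.ne' (Nat.eq_one_of_dvd_coprimes hc hpd h)
  have h2 : S ⊔ T = P ⊔ (R ⊔ T) := by rw [← sup_assoc, h1]
  have hH2 : ∀ q : ℕ, q.Prime → q ∣ Nat.card (R ⊔ T : Subgroup G) → ¬ q ∣ (R ⊔ T).index := by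
    intro q hq hd h
    rw [← relIndex_mul_index (le_sup_right : R ⊔ T ≤ P ⊔ (R ⊔ T))] at h
    rcases (Nat.Prime.dvd_mul hq).1 h with h | h
    · have h3 := h.trans (relIndex_sup_dvd (hPT.trans (CC_le_NN _)))
      rw [hk] at h3
      rw [(Nat.prime_dvd_prime_iff_eq hq hp).1 (hq.dvd_of_dvd_pow h3)] at hd
      exact hpT hd
    · rw [h2] at hH
      exact hH q hq (hd.trans (card_dvd_of_le le_sup_right)) h
  have hlt : Nat.card R < n := by
    rw [← hn]
    refine card_lt_of_lt (lt_of_le_of_ne hRS ?_)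
    rintro rfl
    exact (Nat.Prime.coprime_iff_not_dvd hp).1 hR.symm hpd
  rw [h2]
  refine step (p := p) ?_ hPT hH2 (ih _ hlt R rfl (H1.isNilpotent_of_le hS hRS)
    (hc.coprime_dvd_left (card_dvd_of_le hRS)) (hRS.trans hST) hH2)
  refine isSylowIn_of_not_dvd le_top hP ?_
  rw [relIndex_top_right, ← relIndex_mul_index (le_sup_right : P ≤ (R ⊔ T) ⊔ P)]
  intro h
  rcases (Nat.Prime.dvd_mul hp).1 h with h | h
  · exact hpT (h.trans (relIndex_sup_dvd ((le_CC_symm hPT).trans (CC_le_NN _))))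
  · rw [sup_comm, ← h2] at h
    exact hH p hp (hpd.trans (card_dvd_of_le le_sup_left)) h

/-- Let σ and τ be disjoint sets of primes with union π. Suppose a finite group G has a Hall π-subgroup H which is the direct product of a nilpotent σ-subgroup and a τ-subgroup (two elementwise-commuting subgroups generating H), and that the maximal τ-subgroups of G are pairwise conjugate. Then the maximal π-subgroups of G are pairwise conjugate. -/
theorem result {G : Type*} [Group G] [Finite G]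
    (σ τ π : Set ℕ) (hπ : π = σ ∪ τ) (hd : Disjoint σ τ) (H Hs Ht : Subgroup G) (hH : Cfsg.IsPiHall π H)
    (hs : Cfsg.IsPiSubgroup σ Hs) (ht : Cfsg.IsPiSubgroup τ Ht) (hsn : Group.IsNilpotent Hs)
    (hjoin : Hs ⊔ Ht = H) (hcomm : ∀ a ∈ Hs, ∀ b ∈ Ht, a * b = b * a) (hD : Cfsg.IsDPiGroup τ G) :
    Cfsg.IsDPiGroup π G := by
  subst hπ hjoin
  have hc : (Nat.card Hs).Coprime (Nat.card Ht) := Nat.coprime_of_dvd fun q hq h1 h2 =>
    Set.disjoint_left.1 hd (hs q hq h1) (ht q hq h2)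
  have hC : Hs ≤ centralizer (Ht : Set G) := le_CC_iff.2 fun a ha b hb => (hcomm a ha b hb).symm
  have hT : IsPiHallOf τ Ht ⊤ := by
    refine ⟨le_top, ht, fun q hq hqτ h => ?_⟩
    rw [relIndex_top_right, ← relIndex_mul_index (le_sup_right : Ht ≤ Hs ⊔ Ht)] at h
    rcases (Nat.Prime.dvd_mul hq).1 h with h | h
    · exact Set.disjoint_left.1 hd (hs q hq (h.trans (relIndex_sup_dvd (hC.trans (CC_le_NN _))))) hqτ
    · exact hH.2 q hq (Or.inr hqτ) h
  have hD1 : Dom Ht := by
    intro K hK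
    obtain ⟨M, hKM, hM⟩ := Finite.exists_le_maximal (p := IsPiSubgroup τ) (a := K)
      (fun q hq h => ht q hq (hK q hq h))
    obtain ⟨g, hg⟩ := hD M Ht hM ⟨ht, fun U hU hle => (H1.IsPiHallOf.eq_of_le hT le_top hU hle).le⟩
    exact ⟨g, by rw [hg]; exact cj_mono g hKM⟩
  have hD2 := main hD1 _ Hs rfl hsn hc hC fun q hq h => hH.2 q hq (hH.1 q hq h)
  have key : ∀ M : Subgroup G, Maximal (IsPiSubgroup (σ ∪ τ)) M → ∃ g, cj g M = Hs ⊔ Ht := by
    intro M hM
    obtain ⟨g, hg⟩ := hD2 M fun q _ h =>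
      h.trans (H1.IsPiHallOf.card_dvd (H1.isPiHallOf_top.2 hH) le_top hM.1)
    refine ⟨g, le_antisymm hg ?_⟩
    rw [le_cj_iff]
    exact hM.2 (fun q hq h => hH.1 q hq (by rwa [card_cj] at h)) (cj_le_iff.1 hg)
  intro M N hM hN
  obtain ⟨g, hg⟩ := key M hM
  obtain ⟨h, hh⟩ := key N hN
  refine ⟨h⁻¹ * g, ?_⟩
  rw [cj_def, cj_mul, hg, ← hh, cj_inv_cj]

end Cfsg.Agent.S4334
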