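import Cfsg.Statements.S4337
import Cfsg.Agent.H1.Swaps
import Cfsg.Agent.H1.Factor

set_option autoImplicit false
open Cfsg

namespace Cfsg.Agent.S4337

/-- In a finite symmetric group, any three transpositions generate a solvable subgroup. -/
theorem result (n : ℕ) (a b c : Equiv.Perm (Fin n))
    (ha : a.IsSwap) (hb : b.IsSwap) (hc : c.IsSwap) :
    Group.IsSolvable (Subgroup.closure ({a, b, c} : Set (Equiv.Perm (Fin n)))) := by
  refine H17.isSolvable_of_two_primes Nat.prime_two Nat.prime_three fun q hq hd => ?_
  have := H1.prime_le_of_dvd_card_closure_swaps [a, b, c] (by simp [ha, hb, hc]) hq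
    (by convert hd; ext; simp)
  have h2 := hq.two_le
  simp only [List.length_cons, List.length_nil] at this
  interval_cases q <;> first | exact absurd hq (by decide) | simp

end Cfsg.Agent.S4337
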