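import Cfsg.Statements.S4342
import Cfsg.Agent.H1.SylNum

set_option autoImplicit false
open Cfsg

namespace Cfsg.Agent.S4342

/-- Let H be a normal subgroup of a finite group G and p a prime not dividing the index of H. Then the number of Sylow p-subgroups of H/Z(H) equals the number of Sylow p-subgroups of G. -/
theorem result {G : Type*} [Group G] [Finite G]
    (p : ℕ) [Fact p.Prime] (H : Subgroup G) [H.Normal] (hp : ¬ p ∣ H.index) :
    Nat.card (Sylow p (H ⧸ Subgroup.center H)) = Nat.card (Sylow p G) := by
  obtain ⟨P⟩ : Nonempty (Sylow p G) := inferInstance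
  have hPH : (P : Subgroup G) ≤ H := H1.le_of_coprime_index (H1.IsPGroup.coprime_card P.isPGroup'
    ((Nat.Prime.coprime_iff_not_dvd Fact.out).2 hp).symm)
  have hP := H1.IsPiHallOf.of_le (H1.isPiHallOf_sylow_top P) hPH le_top
  obtain ⟨Q⟩ : Nonempty (Sylow p H) := inferInstance
  rw [H7.card_sylow_quotient _ Q, sup_eq_left.2 (Subgroup.center_le_normalizer _),
    ← H1.card_sylow_eq_index, H1.card_sylow_eq_relIndex hP, H1.card_sylow_eq_index P,
    H1.index_eq_index_sup_mul _ H,
    show Subgroup.normalizer ((P : Subgroup G) : Set G) ⊔ H = ⊤ from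
      Sylow.normalizer_sup_eq_top' P hPH, Subgroup.index_top, one_mul]

end Cfsg.Agent.S4342
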