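import Cfsg.Statements.S4343
import Cfsg.Agent.H1.Coprime2
import Cfsg.Agent.H10.SylowIn
import Cfsg.Agent.H8.Elt

set_option autoImplicit false
open Cfsg

namespace Cfsg.Agent.S4343

open Subgroup H10

theorem le_sylow_of_minimal_inter {G : Type*} [Group G] [Finite G] {p : ℕ} [Fact p.Prime]
    {S T K : Subgroup G} (hS : IsSylowIn p S ⊤) (hT : IsSylowIn p T ⊤)
    (hmin : ∀ A B : Subgroup G, IsSylowIn p A ⊤ → IsSylowIn p B ⊤ → A ⊓ B ≤ S ⊓ T → A ⊓ B = S ⊓ T)
    (hK : K ≤ S ⊓ T) (h1 : S ≤ normalizer (K : Set G)) (h2 : T ≤ normalizer (K : Set G))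
    {P : Subgroup G} (hP : IsSylowIn p P ⊤) : K ≤ P := by
  obtain ⟨x, hx, h3⟩ := (hS.of_le h1 le_top).exists_cj_le (P := P ⊓ normalizer (K : Set G))
    hP.isPGroup.to_inf_left inf_le_right
  rw [cj_inf, cj_eq_of_mem hx] at h3
  have h4 := hmin _ _ (hP.cj_top x) hT (le_inf ((inf_le_inf_left _ h2).trans h3) inf_le_right)
  have h5 : K ≤ cj x P := hK.trans (h4.ge.trans inf_le_left)
  rwa [le_cj_iff, cj_eq_of_mem_NN (inv_mem hx)] at h5

theorem relIndex_le_card_sylow {G : Type*} [Group G] [Finite G] {p : ℕ} [Fact p.Prime]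
    (P Q : Sylow p G) : (P : Subgroup G).relIndex Q ≤ Nat.card (Sylow p G) := by
  have h1 : MulAction.stabilizer (Q : Subgroup G) P = (P : Subgroup G).subgroupOf Q := by
    ext x
    rw [MulAction.mem_stabilizer_iff, mem_subgroupOf]
    change (x : G) • P = P ↔ _
    rw [H8.smul_sylow_eq_iff]
    exact ⟨fun h => H8.mem_sylow_of_mem_normalizer P h (H8.isPGroup_zpowers_of_mem Q.isPGroup' x.2),
      fun h => le_normalizer h⟩
  rw [relIndex, ← h1, MulAction.index_stabilizer, ← Set.ncard_univ]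
  exact Set.ncard_le_ncard (Set.subset_univ _)

/-- Let S be a finite non-abelian simple group and p a prime dividing its order. If S has fewer than p² Sylow p-subgroups, then its Sylow p-subgroups have order p. -/
theorem result {S : Type*} [Group S] [Finite S]
    [IsSimpleGroup S] (hS : ¬ IsMulCommutative S) (p : ℕ) [Fact p.Prime] (hp : p ∣ Nat.card S)
    (hn : Nat.card (Sylow p S) < p ^ 2) (P : Sylow p S) : Nat.card P = p := by
  have hp' := (Fact.out : p.Prime)
  obtain ⟨D, ⟨A, B, hA, hB, rfl⟩, -, hmin⟩ := H1.exists_minimal_le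
    (fun D : Subgroup S => ∃ A B, IsSylowIn p A ⊤ ∧ IsSylowIn p B ⊤ ∧ D = A ⊓ B)
    ⟨P, P, isSylowIn_top P, isSylowIn_top P, rfl⟩
  have key : ∀ A B : Subgroup S, IsSylowIn p A ⊤ → IsSylowIn p B ⊤ →
      (A ⊓ B).relIndex B = 1 ∨ (A ⊓ B).relIndex B = p := by
    intro A B hA hB
    rw [inf_relIndex_right]
    have h1 := (relIndex_le_card_sylow hA.toSylowTop hB.toSylowTop).trans_lt hn
    have h2 := relIndex_dvd_card A B
    rw [hB.card_eq_pow] at h2
    obtain ⟨k, -, hk⟩ := (Nat.dvd_prime_pow hp').1 h2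
    change A.relIndex B < _ at h1
    rw [hk] at h1 ⊢
    have := (Nat.pow_lt_pow_iff_right hp'.one_lt).1 h1
    interval_cases k <;> simp
  have hN : ∀ A B : Subgroup S, IsSylowIn p A ⊤ → IsSylowIn p B ⊤ →
      B ≤ normalizer ((A ⊓ B : Subgroup S) : Set S) := by
    intro A B hA hB
    rcases key A B hA hB with h | h
    · exact (relIndex_eq_one.1 h).trans le_normalizer
    · exact H1.le_normalizer_of_relIndex_prime hB.isPGroup.isNilpotent inf_le_right (h ▸ hp')
  have h1 : A ⊓ B ≤ pCore p S := by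
    rw [H1.pCore_eq_normalCore_sylow P]
    intro x hx g
    have := le_sylow_of_minimal_inter hA hB (fun A' B' h1 h2 h => hmin _ ⟨A', B', h1, h2, rfl⟩ h)
      le_rfl (by rw [inf_comm]; exact hN B A hB hA) (hN A B hA hB) ((isSylowIn_top P).cj_top g⁻¹) hx
    simpa [mem_cj] using this
  have h2 : pCore p S = ⊥ := by
    refine (IsSimpleGroup.eq_bot_or_eq_top_of_normal _ inferInstance).resolve_right fun h => hS ?_
    have := (H1.pCore_eq_top_iff.1 h).isNilpotent
    exact ⟨⟨IsSimpleGroup.comm_iff_isSolvable.2 inferInstance⟩⟩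
  rw [h2, le_bot_iff] at h1
  have h3 := key A B hA hB
  rw [h1, relIndex_bot_left, hB.card_eq (isSylowIn_top P)] at h3
  exact h3.resolve_left fun h => P.ne_bot_of_dvd_card hp (card_eq_one.1 h)

end Cfsg.Agent.S4343
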