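import Cfsg.Statements.S4345
import Cfsg.Agent.H1.SylNum

set_option autoImplicit false
open Cfsg

namespace Cfsg.Agent.S4345

/-- Let G be a finite solvable group and p, ℓ primes. Then the largest power of ℓ dividing the number of Sylow p-subgroups of G is congruent to 1 modulo p. -/
theorem result {G : Type*} [Group G] [Finite G]
    (hG : Group.IsSolvable G) (p ℓ : ℕ) [Fact p.Prime] (hℓ : ℓ.Prime) :
    ℓ ^ (Nat.card (Sylow p G)).factorization ℓ ≡ 1 [MOD p] := by
  obtain ⟨P⟩ : Nonempty (Sylow p G) := inferInstance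
  obtain ⟨l, h1, h2⟩ := H1.index_normalizer_hall_factor _ _ G rfl hG _ (H1.isPiHallOf_sylow_top P)
  have h3 : ∀ f ∈ l, f ≠ 0 ∧ ℓ ^ f.factorization ℓ ≡ 1 [MOD p] := fun f hf => by
    obtain ⟨⟨q, e, hq, rfl⟩, -, r, hr, h4, h5⟩ := h2 f hf
    obtain rfl : r = p := H1.isPiNat_card_singleton_iff.2 P.isPGroup' r hr h4
    refine ⟨pow_ne_zero _ hq.ne_zero, ?_⟩
    rw [hq.factorization_pow]
    by_cases h : q = ℓ
    · subst h; simpa using h5
    · rw [Finsupp.single_eq_of_ne' h, pow_zero]
  rw [H1.card_sylow_eq_index P, ← h1]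
  clear h1 h2
  induction l with
  | nil => simp [Nat.ModEq.refl]
  | cons a l ih =>
    rw [List.prod_cons, Nat.factorization_mul (h3 a List.mem_cons_self).1
      (List.prod_ne_zero fun h => (h3 0 (List.mem_cons_of_mem _ h)).1 rfl), Finsupp.add_apply,
      pow_add]
    simpa using (h3 a List.mem_cons_self).2.mul (ih fun f hf => h3 f (List.mem_cons_of_mem _ hf))

end Cfsg.Agent.S4345
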