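import Cfsg.Statements.S4346
import Cfsg.Agent.H6.Syl22

set_option autoImplicit false
open Cfsg

namespace Cfsg.Agent.S4346

open Subgroup MulAction H6

instance fact5 : Fact (Nat.Prime 5) := ⟨by norm_num⟩
instance fact7 : Fact (Nat.Prime 7) := ⟨by norm_num⟩
instance fact11 : Fact (Nat.Prime 11) := ⟨by norm_num⟩
instance fact13 : Fact (Nat.Prime 13) := ⟨by norm_num⟩

theorem case_nine {G : Type*} [Group G] [Finite G] [IsSimpleGroup G]
    (h : Nat.card (Sylow 3 G) = 22) (P₀ : Sylow 3 G) (h9 : Nat.card (P₀ : Subgroup G) = 9) :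
    False := by
  have hn : Nat.card (Sylow 3 G) ≠ 1 := by omega
  obtain ⟨-, t, -, ht2, -, -, hfix, -⟩ := s22_eleven h
  obtain ⟨P, hP⟩ : (fixedBy (Sylow 3 G) t).Nonempty :=
    (Set.ncard_pos (Set.toFinite _)).1 (by omega)
  rw [syl_card_eq P₀ P] at h9
  have hΔ : (sadj P 9).ncard = 9 := by
    rcases s22_card h P with h1 | h1
    · omega
    · exact h1.2
  have hΓ : (sadj P 3).ncard = 12 := by have := (s22_count h P).1; omega
  have hprime : ∀ q : ℕ, q = 5 ∨ q = 7 ∨ q = 13 → ¬ q ∣ Nat.card G := by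
    intro q hq hd
    have hqp : q.Prime := by rcases hq with rfl | rfl | rfl <;> norm_num
    have := Fact.mk hqp
    rw [← H2.sm_sylow_mul P, h] at hd
    have hd' : q ∣ Nat.card (normalizer ((P : Subgroup G) : Set G)) :=
      (Nat.Coprime.dvd_of_dvd_mul_left (by rcases hq with rfl | rfl | rfl <;> norm_num) hd)
    obtain ⟨y, hy, hy1, hy2⟩ := exists_orderOf_mem hqp hd'
    have hyc := s22_cent h hqp (by omega) hy hy2
    have h1 := cent_fixedBy_mod hyc
    have h2 := card_modEq_fixedBy (Ω := Sylow 3 G) hy2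
    have h3 := sn_fix_lt hn hy1
    have h4 := ncard_modEq_fixedBy hy2 (sadj P 9) (Set.toFinite _)
      (fun b hb => sadj_inv (syl_smul_norm.2 hy) hb)
    have h5 := dvd_ncard_sadj P 9 (B := sadj P 9 ∩ fixedBy (Sylow 3 G) y) Set.inter_subset_left
      (fun x hx b hb => ⟨sadj_inv (syl_self_smul hx) hb.1, smul_mem_fixedBy (hyc x hx) hb.2⟩)
    have h6 : (sadj P 9 ∩ fixedBy (Sylow 3 G) y).ncard ≤ (fixedBy (Sylow 3 G) y).ncard :=
      Set.ncard_le_ncard Set.inter_subset_right
    rw [h] at h2 h3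
    rw [hΔ] at h4
    unfold Nat.ModEq at h2 h4
    rcases hq with rfl | rfl | rfl <;> omega
  obtain ⟨Q, hQ, hQt⟩ : (sadj P 9 ∩ fixedBy (Sylow 3 G) t).Nonempty := by
    have h4 := ncard_modEq_fixedBy (p := 2) (k := 1) ht2 (sadj P 9) (Set.toFinite _)
      (fun b hb => sadj_inv hP hb)
    rw [hΔ] at h4
    unfold Nat.ModEq at h4
    exact (Set.ncard_pos (Set.toFinite _)).1 (by omega)
  have hQ9 : (Q : Subgroup G).relIndex P = 9 := hQ
  have hQP : Q ≠ P := by rintro rfl; rw [relIndex_self] at hQ9; omega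
  have hpair : fixedBy (Sylow 3 G) t = {P, Q} := by
    symm
    refine Set.eq_of_subset_of_ncard_le ?_ (by rw [Set.ncard_pair hQP.symm, hfix])
    rintro _ (rfl | rfl) <;> assumption
  have hbot : (Q : Subgroup G) ⊓ P = ⊥ := by
    have := H1.card_inf_mul_relIndex (Q : Subgroup G) P
    rw [hQ9, h9] at this
    exact card_eq_one.1 (by omega)
  have htn : ∀ x ∈ (P : Subgroup G), t * x * t⁻¹ ∈ (P : Subgroup G) :=
    fun x hx => (mem_normalizer_iff.1 (syl_smul_norm.1 hP) x).1 hx
  have hinv := inverts_of_free (s22_comm h P) ht2 htn (fun x hx hc => by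
    have h1 : x • Q ∈ fixedBy (Sylow 3 G) t :=
      smul_mem_fixedBy (mul_inv_eq_iff_eq_mul.1 hc).symm hQt
    rw [hpair] at h1
    rcases h1 with h1 | h1
    · exact absurd (smul_left_cancel x (h1.trans (syl_self_smul hx).symm)) hQP
    · have : x ∈ (Q : Subgroup G) ⊓ P := ⟨(syl_smul_iff P.2 hx Q).1 h1, hx⟩
      rwa [hbot] at this)
  obtain ⟨R, hR⟩ : (sadj P 3).Nonempty := (Set.ncard_pos (Set.toFinite _)).1 (by omega)
  have htH : t ∈ normalizer (((P : Subgroup G) ⊓ R : Subgroup G) : Set G) :=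
    mem_normalizer_fintype fun d hd => by
      rw [hinv d hd.1]; exact ((P : Subgroup G) ⊓ R : Subgroup G).inv_mem hd
  obtain ⟨h1, h2, h3⟩ := sline hR
  have h4 := (Set.ncard_le_ncard h1 (Set.toFinite _)).trans (Set.ncard_insert_le P (sadj P 3))
  have h5 : (sorb (normalizer (((P : Subgroup G) ⊓ R : Subgroup G) : Set G)) P).ncard ∣
      Nat.card G := by
    rw [ncard_sorb]
    exact (relIndex_dvd_card _ _).trans (card_subgroup_dvd_card _)
  have h6 := ncard_modEq_fixedBy (p := 2) (k := 1) ht2 _ (Set.toFinite _)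
    (sorb_inv (normalizer (((P : Subgroup G) ⊓ R : Subgroup G) : Set G)) P t htH)
  have h7 : sorb (normalizer (((P : Subgroup G) ⊓ R : Subgroup G) : Set G)) P ∩
      fixedBy (Sylow 3 G) t = {P} := by
    ext X
    constructor
    · rintro ⟨hX, hX'⟩
      rw [hpair] at hX'
      rcases hX' with rfl | rfl
      · rfl
      · rcases h1 hX with h8 | h8
        · exact h8
        · have : (X : Subgroup G).relIndex P = 3 := h8
          omega
    · rintro rfl; exact ⟨mem_sorb_self _ _, hP⟩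
  rw [h7, Set.ncard_singleton] at h6
  generalize (sorb (normalizer (((P : Subgroup G) ⊓ R : Subgroup G) : Set G)) P).ncard = m
    at h2 h3 h4 h5 h6
  unfold Nat.ModEq at h6
  have : m = 7 ∨ m = 13 := by omega
  rcases this with rfl | rfl
  · exact hprime 7 (by simp) h5
  · exact hprime 13 (by simp) h5

theorem arith1 {k n : ℕ} (hk : 3 * k ∣ 1 * 3 ^ 7 * Nat.factorial 7) (h3 : ¬ 3 ∣ k)
    (hn : n = 6 * k) (hmod : n ≡ 1 [MOD 11]) : k = 2 ∨ k = 35 ∨ k = 112 := by
  have h1 : k ∣ 3 ^ 8 * 560 :=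
    Nat.dvd_of_mul_dvd_mul_left (by norm_num : 0 < 3) (hk.trans (by decide))
  have h2 : k ∣ 560 := Nat.Coprime.dvd_of_dvd_mul_left
    (((Nat.Prime.coprime_iff_not_dvd Nat.prime_three).2 h3).symm.pow_right 8) h1
  have : k ∈ Nat.divisors 560 := Nat.mem_divisors.2 ⟨h2, by norm_num⟩
  have h4 : ∀ k ∈ Nat.divisors 560, 6 * k % 11 = 1 → k = 2 ∨ k = 35 ∨ k = 112 := by
    decide +kernel
  exact h4 k this (by rw [← hn]; exact hmod)

theorem arith2 {g n f c : ℕ} (hg : g = 132 * 35 ∨ g = 132 * 112) (hf : f ∣ 7 - 1) (hf1 : f ≠ 1)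
    (hc : g = n * f * c) (h1 : c ∣ 1 * 7 ^ 3 * Nat.factorial 3) (h2 : ¬ 2 ∣ c) (h3 : 3 ∣ c)
    (h7 : 7 ∣ c) (hmod : n ≡ 1 [MOD 7]) : False := by
  have h49 : ¬ 49 ∣ c := fun hh => by
    have : 49 ∣ g := hc ▸ Dvd.dvd.mul_left hh _
    omega
  have : c ∈ Nat.divisors 2058 := Nat.mem_divisors.2 ⟨h1, by norm_num⟩
  have h4 : ∀ c ∈ Nat.divisors 2058, ¬ 2 ∣ c → 3 ∣ c → 7 ∣ c → ¬ 49 ∣ c → c = 21 := by
    decide +kernel
  have hc21 := h4 c this h2 h3 h7 h49
  subst hc21
  have := Nat.le_of_dvd (by norm_num) hf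
  unfold Nat.ModEq at hmod
  interval_cases f <;> omega

theorem case_three {G : Type*} [Group G] [Finite G] [IsSimpleGroup G]
    (h : Nat.card (Sylow 3 G) = 22) (P : Sylow 3 G) (hP : Nat.card (P : Subgroup G) = 3) :
    False := by
  have hn : Nat.card (Sylow 3 G) ≠ 1 := by omega
  have hG := sn_noncomm hn
  obtain ⟨R, t, hR, ht2, htn, htc, -, hG11⟩ := s22_eleven h
  have he := H2.sm_e_dvd P hP
  have he1 := H2.sm_e_ne_one hG P (sn_dvd hn)
  have hcard := H2.sm_card_eq P
  have he2 := ((Nat.dvd_prime Nat.prime_two).1 he).resolve_left he1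
  rw [he2, h] at hcard
  have hcd : Nat.card (centralizer ((P : Subgroup G) : Set G)) ∣ 1 * 3 ^ 7 * Nat.factorial 7 := by
    obtain ⟨x, hx, h1⟩ := H2.sm_exists_ne_one hP
    have := card_centralizer_dvd (sn_inj hn) (p := 3) (r := 7) (x := x)
      (by rw [← H2.sm_orderOf_eq hP hx h1, pow_orderOf_eq_one])
      (by rw [po_fixedBy hP hx h1, Set.ncard_singleton, h])
    rw [po_fixedBy hP hx h1, Set.ncard_singleton, ← H2.sm_cent_eq hP hx h1] at this
    exact this
  obtain ⟨k, hk⟩ : 3 ∣ Nat.card (centralizer ((P : Subgroup G) : Set G)) := by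
    have := card_dvd_of_le (H2.sm_le_cent hP)
    rwa [hP] at this
  obtain ⟨m, hm, hm3⟩ := syl_card_mul P
  rw [hP] at hm
  rw [hk] at hcd hcard
  have hcases := arith1 (n := Nat.card (Sylow 11 G)) hcd (by omega) (by omega)
    (card_sylow_modEq_one 11 G)
  have hk7 : k = 35 ∨ k = 112 := by
    refine hcases.resolve_left fun hk2 => ?_
    have h12 : Nat.card (Sylow 11 G) = 12 := by omega
    have hB : ({R}ᶜ : Set (Sylow 11 G)).ncard = 11 := by
      have := Set.ncard_add_ncard_compl ({R} : Set (Sylow 11 G))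
      rw [Set.ncard_singleton, h12] at this
      omega
    have h1 := po_fix_le hR htn htc (B := ({R}ᶜ : Set (Sylow 11 G))) (Set.toFinite _)
      (fun x hx b hb hxb => hb (smul_left_cancel x (hxb.trans (syl_self_smul hx).symm)))
      (fun x hx b hb hxb => by
        by_contra h1
        exact hb (po_syl_eq hR hx h1 hxb))
    have h3 := sn_four_dvd hn (Ω := Sylow 11 G) ht2
    have h4 : fixedBy (Sylow 11 G) t = insert R ({R}ᶜ ∩ fixedBy (Sylow 11 G) t) := by
      ext X
      constructor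
      · intro hX
        by_cases hXR : X = R
        · exact Or.inl hXR
        · exact Or.inr ⟨hXR, hX⟩
      · rintro (rfl | hX)
        · exact syl_smul_norm.2 htn
        · exact hX.2
    rw [h4, Set.ncard_insert_of_notMem (fun hh => hh.1 rfl), h12] at h3
    omega
  obtain ⟨y, hy, hy1, hy2⟩ := exists_orderOf_mem (H := centralizer ((P : Subgroup G) : Set G))
    (q := 7) (by norm_num) (by omega)
  have hyo : orderOf y = 7 := orderOf_eq_prime (by simpa using hy2) hy1
  obtain ⟨Y, hY⟩ := (IsPGroup.of_card (p := 7) (n := 1) (G := zpowers y)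
    (by rw [Nat.card_zpowers, hyo, pow_one])).exists_le_sylow
  have hyY : y ∈ (Y : Subgroup G) := hY (mem_zpowers y)
  have hY7 : Nat.card (Y : Subgroup G) = 7 := by
    rcases hk7 with rfl | rfl
    · exact H2.sm_card_sylow_eq Y (k := 1) (m := 660) (by omega) (by norm_num)
    · exact H2.sm_card_sylow_eq Y (k := 1) (m := 2112) (by omega) (by norm_num)
  have hfy : fixedBy (Sylow 3 G) y = {P} := by
    have h1 := cent_fixedBy_mod hy
    have h2 := card_modEq_fixedBy (Ω := Sylow 3 G) hy2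
    have h3 := sn_fix_lt hn hy1
    rw [h] at h2 h3
    unfold Nat.ModEq at h2
    symm
    refine Set.eq_of_subset_of_ncard_le ?_ (by rw [Set.ncard_singleton]; omega)
    rintro _ rfl
    exact cent_smul_syl hy
  have hCY := H2.sm_cent_eq hY7 hyY hy1
  refine arith2 (g := Nat.card G) (by omega) (H2.sm_e_dvd Y hY7) (H2.sm_e_ne_one hG Y (by omega))
    (H2.sm_card_eq Y) ?_ ?_ ?_ ?_ (card_sylow_modEq_one 7 G)
  · have := card_centralizer_dvd (sn_inj hn) (p := 7) (r := 3) (x := y)
      (by simpa using hy2) (by rw [hfy, Set.ncard_singleton, h])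
    rw [hfy, Set.ncard_singleton, ← hCY] at this
    exact this
  · intro h2
    obtain ⟨u, hu, hu1, hu2⟩ := exists_orderOf_mem Nat.prime_two h2
    have hc : Commute y u := hu y hyY
    have h3 := ncard_modEq_fixedBy hy2 (fixedBy (Sylow 3 G) u) (Set.toFinite _)
      (fun b hb => smul_mem_fixedBy hc hb)
    have h4 : u • P ∈ fixedBy (Sylow 3 G) y :=
      smul_mem_fixedBy hc.symm (by rw [hfy]; rfl)
    rw [hfy] at h4
    rw [hfy, Set.inter_eq_right.2 (by rintro _ rfl; exact h4), Set.ncard_singleton] at h3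
    have h5 := sn_four_dvd hn (Ω := Sylow 3 G) hu2
    have h6 := sn_fix_lt hn hu1
    rw [h] at h5 h6
    unfold Nat.ModEq at h3
    omega
  · have : (P : Subgroup G) ≤ centralizer ((Y : Subgroup G) : Set G) := by
      rw [hCY]
      intro x hx
      exact mem_centralizer_singleton_iff.2 (hy x hx)
    have := card_dvd_of_le this
    rwa [hP] at this
  · have := card_dvd_of_le (H2.sm_le_cent hY7)
    rwa [hY7] at this

/-- No finite group has exactly 22 Sylow 3-subgroups. -/
theorem result {G : Type*} [Group G] [Finite G] : Nat.card (Sylow 3 G) ≠ 22 := by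
  intro h
  obtain ⟨S, _, _, _, hS⟩ := H6.exists_simple_of_card_sylow h (by norm_num)
    (by decide +kernel) (fun d hd h1 => by
      have := Nat.le_of_dvd (by norm_num) hd
      interval_cases d <;> omega)
  obtain ⟨P⟩ : Nonempty (Sylow 3 S) := Sylow.nonempty
  rcases H6.s22_card hS P with h1 | ⟨h1, -⟩
  · exact case_three hS P h1
  · exact case_nine hS P h1

end Cfsg.Agent.S4346
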