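import Cfsg.Statements.S4359
import Cfsg.Agent.H10.Sims

set_option autoImplicit false
open Pointwise
open Cfsg H10

namespace Cfsg.Agent.S4359

/-- Let P be a subgroup of a finite group G and g an element such that P ∩ g⁻¹Pg is a normal subgroup of prime index p in g⁻¹Pg. Let n ≥ 1 and let K be the subgroup generated by P and its conjugates g⁻ⁱPgⁱ for i ≤ n. Suppose that g normalizes no non-identity normal subgroup of P and that P meets the center of K trivially. Then the order of P is pᵗ for some t with 1 ≤ t ≤ 3n and t ≠ 3n - 1. -/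
theorem result {G : Type*} [Group G] [Finite G]
    (P : Subgroup G) (g : G) (p : ℕ) (hp : p.Prime)
    (hN : ((P ⊓ MulAut.conj g⁻¹ • P).subgroupOf (MulAut.conj g⁻¹ • P)).Normal)
    (hidx : (P ⊓ MulAut.conj g⁻¹ • P).relIndex (MulAut.conj g⁻¹ • P) = p)
    (n : ℕ) (hn : 1 ≤ n) (K : Subgroup G) (hK : K = ⨆ i ∈ Finset.range (n + 1), MulAut.conj (g ^ i)⁻¹ • P)
    (h1 : ∀ Q : Subgroup G, Q ≤ P → (Q.subgroupOf P).Normal → MulAut.conj g • Q = Q → Q = ⊥)
    (h2 : P ⊓ (Subgroup.center K).map K.subtype = ⊥) :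
    ∃ t : ℕ, Nat.card P = p ^ t ∧ 1 ≤ t ∧ t ≤ 3 * n ∧ t ≠ 3 * n - 1 := by
  haveI : Fact p.Prime := ⟨hp⟩
  simp only [cj_smul] at hN hidx hK h1
  have hN' := le_NN_of_normal_subgroupOf inf_le_right hN
  have inv : ∀ Q ≤ P, P ≤ NN(Q) → cj g⁻¹ Q = Q → Q = ⊥ := fun Q h2 h3 h4 =>
    h1 Q h2 (normal_subgroupOf h3) (by rw [cj_eq_iff]; exact h4.symm)
  have hP : IsPGroup p P := by
    refine isPGroup_of_resOf_eq_bot (inv _ (resOf_le P) (le_NN_resOf P) ?_)
    refine Subgroup.eq_of_le_of_card_ge ?_ (card_cj _ _).ge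
    rw [cj_resOf]
    refine resOf_le_resOf (resOf_le_of_pow fun x hx => ⟨1, ?_⟩)
    haveI := normal_subgroupOf hN'
    have := Subgroup.pow_index_mem ((P ⊓ cj g⁻¹ P).subgroupOf (cj g⁻¹ P)) ⟨x, hx⟩
    rw [← Subgroup.relIndex, hidx] at this
    rw [pow_one]
    exact this.1
  have H : SM p P g⁻¹ := ⟨hP, hidx, inv⟩
  obtain ⟨t, ht⟩ := IsPGroup.iff_card.1 hP
  rw [map_center_subtype] at h2
  obtain ⟨u, -, -, h⟩ := H.cases ht (n := n) (K := K) (fun L hL => hK ▸ iSup₂_le fun i hi => by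
    rw [← inv_pow]; exact hL i (by simpa [Nat.lt_succ_iff] using hi)) (by
    rw [eq_bot_iff, ← h2]
    refine le_inf inf_le_left (inf_le_inf_right _ (hK ▸ ?_))
    simpa [cj_one] using le_iSup₂ (f := fun i (_ : i ∈ Finset.range (n + 1)) => cj (g ^ i)⁻¹ P)
      0 (by simp))
  exact ⟨t, ht, H.one_le ht, by omega, by omega⟩

end Cfsg.Agent.S4359
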