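import Mathlib
import Cfsg.Statements.S4364
import Cfsg.Agent.H8.Kaz

set_option autoImplicit false
open Cfsg

namespace Cfsg.Agent.S4364

theorem result {G : Type*} [Group G] [Finite G] (p : ℕ) [Fact p.Prime]
    (x : G) (hx : ∃ a : ℕ, (Subgroup.centralizer ({x} : Set G)).index = p ^ a) (g h : G) :
    (g * x * g⁻¹) * (h * x * h⁻¹) * (g * x * g⁻¹)⁻¹ * (h * x * h⁻¹)⁻¹ ∈ Cfsg.pCore p G := by
  obtain ⟨a, ha⟩ := hx
  have h1 : x ∈ Subgroup.normalClosure ({x} : Set G) := Subgroup.subset_normalClosure rfl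
  exact H8.commutator_mem_pCore_of_index_pow ha (Subgroup.normalClosure_normal.conj_mem _ h1 g)
    (Subgroup.normalClosure_normal.conj_mem _ h1 h)

end Cfsg.Agent.S4364
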