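import Cfsg.Statements.S4370
import Cfsg.Agent.H1.Fitting
import Cfsg.Agent.H2.FrobCompl
import Cfsg.Agent.H13.Ess3

set_option autoImplicit false
open Cfsg

namespace Cfsg.Agent.S4370

open QuaternionGroup in
theorem quat_cent {n : ℕ} [NeZero n] {q : QuaternionGroup n} (hq : q ∉ Subgroup.center _) :
    ∃ g, ∀ x, Commute q x → x ∈ Subgroup.zpowers g := by
  have half : ∀ j : ZMod (2 * n), -j = j → j = 0 ∨ j = n := fun j h =>
    ((ZMod.neg_eq_self_iff j).1 h).imp id fun h => by
      rw [← ZMod.natCast_zmod_val j, Nat.eq_of_mul_eq_mul_left two_pos h]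
  rcases q with i | i
  · refine ⟨a 1, ?_⟩
    rintro (j | j) h
    · rw [← ZMod.natCast_zmod_val j, ← a_one_pow]; exact pow_mem (Subgroup.mem_zpowers _) _
    · refine (hq (Subgroup.mem_center_iff.2 ?_)).elim
      have h1 : j - i = j + i := by simpa using h.eq
      rintro (l | l)
      · simp [add_comm]
      · simp only [xa_mul_a, a_mul_xa, xa.injEq]; linear_combination -h1
  · refine ⟨xa i, ?_⟩
    have h2 : a n ∈ Subgroup.zpowers (xa i) := xa_sq i ▸ pow_mem (Subgroup.mem_zpowers _) _
    have h3 : ∀ j : ZMod (2 * n), -j = j → a j ∈ Subgroup.zpowers (xa i) := fun j h =>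
      (half j h).elim (fun e => e ▸ one_mem _) fun e => e ▸ h2
    rintro (j | j) h
    · have h1 : i + j = i - j := by simpa using h.eq
      exact h3 j (by linear_combination -h1)
    · have h1 : (n : ZMod (2 * n)) + j - i = n + i - j := by simpa using h.eq
      have := mul_mem (Subgroup.mem_zpowers _) (h3 (j - i) (by linear_combination -h1))
      simpa using this

/-- Let G be a finite non-abelian nilpotent group. Then the centralizer of every non-central element of G is cyclic if and only if G is isomorphic to the direct product of a generalized quaternion group and a cyclic group of odd order. -/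
theorem result {G : Type*} [Group G] [Finite G] (hG : Group.IsNilpotent G)
    (hna : ¬ IsMulCommutative G) :
    (∀ x : G, x ∉ Subgroup.center G → IsCyclic (Subgroup.centralizer ({x} : Set G))) ↔
      ∃ (k m : ℕ), 1 ≤ k ∧ Odd m ∧ Nonempty (G ≃* QuaternionGroup (2 ^ k) × Multiplicative (ZMod m)) := by
  open Subgroup in
  constructor
  · intro h
    have hab : ∀ A : Subgroup G, IsMulCommutative A → IsCyclic A := fun A hA => by
      obtain ⟨x, hx, h1⟩ : ∃ x, x ∉ center G ∧ A ≤ centralizer {x} := by
        by_cases h1 : A ≤ center G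
        · obtain ⟨x, -, hx⟩ := SetLike.exists_of_lt (lt_top_iff_ne_top.2 fun e : center G = ⊤ =>
            hna ⟨⟨fun a b => mem_center_iff.1 (e ▸ mem_top b) a⟩⟩)
          exact ⟨x, hx, h1.trans (center_le_centralizer _)⟩
        · obtain ⟨x, hxA, hx⟩ := SetLike.not_le_iff_exists.1 h1
          exact ⟨x, hx, fun a ha => mem_centralizer_singleton_iff.2
            (H1.isMulCommutative_iff'.1 hA a ha x hxA)⟩
      have := h x hx
      exact isCyclic_of_injective _ (inclusion_injective h1)
    have key : ∀ (p : ℕ) [Fact p.Prime] {P : Type _} [Group P] (f : P →* G), Function.Injective f →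
        IsPGroup p P → IsCyclic P ∨ (p = 2 ∧ ∃ n : ℕ, Nonempty (P ≃* QuaternionGroup (2 ^ n))) :=
      fun p _ P _ f hf hP => by
        haveI := Finite.of_injective f hf
        refine Cfsg.Agent.S0016.result p hP (H2.unique_order_p_of_abelian_cyclic hP fun A hA => ?_)
        have := hab (A.map f) inferInstance
        exact isCyclic_of_surjective _ (A.equivMapOfInjective _ hf).symm.surjective
    have hO := H1.coprime_card_pPrimeCore (G := G) 2
    haveI : IsZGroup (pPrimeCore 2 G) := ⟨fun p hp P => by
      haveI := Fact.mk hp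
      refine (key p ((pPrimeCore 2 G).subtype.comp (P : Subgroup _).subtype)
        ((subtype_injective _).comp (subtype_injective _)) P.isPGroup').resolve_right ?_
      rintro ⟨rfl, n, ⟨e⟩⟩
      have := hO.coprime_dvd_left (card_subgroup_dvd_card (P : Subgroup (pPrimeCore 2 G)))
      rw [Nat.card_congr e.toEquiv, Nat.card_eq_fintype_card, QuaternionGroup.card] at this
      exact absurd (this.coprime_dvd_left (Dvd.intro _ rfl)) (by decide)⟩
    have hOc : IsCyclic (pPrimeCore 2 G) := inferInstance
    have hd : Disjoint (pCore 2 G) (pPrimeCore 2 G) := by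
      obtain ⟨k, hk⟩ := IsPGroup.iff_card.1 (H1.isPGroup_pCore (G := G) 2)
      exact disjoint_of_coprime_natCard (hk ▸ (hO.pow_right k).symm)
    obtain ⟨e⟩ := H13.equiv_prod (fun x hx y hy => commute_of_normal_of_disjoint _ _
      inferInstance inferInstance hd x y hx hy) hd (by
        rw [← H1.card_sup_of_disjoint le_normalizer_of_normal (disjoint_iff.1 hd),
          H1.pCore_sup_pPrimeCore_eq_top, card_top])
    have hT : ¬ IsCyclic (pCore 2 G) := fun hT => hna ⟨⟨fun a b => e.injective (by
      rw [map_mul, map_mul]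
      exact Prod.ext (hT.isMulCommutative.is_comm.comm _ _) (hOc.isMulCommutative.is_comm.comm _ _))⟩⟩
    obtain ⟨-, n, ⟨e'⟩⟩ := (key 2 _ (subtype_injective _) (H1.isPGroup_pCore 2)).resolve_left hT
    refine ⟨n, _, Nat.one_le_iff_ne_zero.2 ?_, Nat.coprime_two_right.1 hO,
      ⟨e.trans (e'.prodCongr (zmodCyclicMulEquiv hOc).symm)⟩⟩
    rintro rfl
    have := QuaternionGroup.quaternionGroup_one_isCyclic
    exact hT (isCyclic_of_surjective _ e'.symm.surjective)
  · rintro ⟨k, m, -, hm, ⟨e⟩⟩ x hx
    obtain ⟨g, hg⟩ := quat_cent (q := (e x).1) fun h => hx (mem_center_iff.2 fun y => e.injective (by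
      rw [map_mul, map_mul]
      exact Prod.ext (mem_center_iff.1 h _) (mul_comm _ _)))
    have : IsCyclic (zpowers g × Multiplicative (ZMod m)) := by
      refine Group.isCyclic_prod_iff.2 ⟨inferInstance, inferInstance, ?_⟩
      refine Nat.Coprime.coprime_dvd_left (card_subgroup_dvd_card _) ?_
      rw [Nat.card_eq_fintype_card, QuaternionGroup.card, Nat.card_congr Multiplicative.toAdd,
        Nat.card_zmod, show 4 * 2 ^ k = 2 ^ (k + 2) by ring]
      exact (Nat.coprime_two_left.2 hm).pow_left _
    let f : centralizer {x} →* zpowers g × Multiplicative (ZMod m) :=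
      (((MonoidHom.fst _ _).comp (e.toMonoidHom.comp (Subgroup.subtype _))).codRestrict _ fun y =>
        hg _ (((show Commute x y from (mem_centralizer_singleton_iff.1 y.2).symm).map e).map
          (MonoidHom.fst _ _))).prod ((MonoidHom.snd _ _).comp (e.toMonoidHom.comp (Subgroup.subtype _)))
    exact isCyclic_of_injective f fun a b h => Subtype.ext (e.injective
      (Prod.ext (congrArg (fun z => z.1.1) h) (congrArg (fun z => z.2) h)))

end Cfsg.Agent.S4370
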