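import Cfsg.Statements.S4376
import Cfsg.Agent.H1.OType3

set_option autoImplicit false
open Cfsg

namespace Cfsg.Agent.S4376



/-- There are finite groups G and H having the same number of elements of each order (the same order type) with G solvable and H not solvable. -/
theorem result :
    ∃ (G : Type) (_ : Group G) (_ : Finite G) (H : Type) (_ : Group H) (_ : Finite H),
      Group.IsSolvable G ∧ ¬ Group.IsSolvable H ∧ ∀ n : ℕ, Nat.card {g : G // orderOf g = n} = Nat.card {h : H // orderOf h = n} := by
  open H1.OT in
  exact ⟨GA × GB × GC, inferInstance, inferInstance, HA × HB × HC × HD, inferInstance, inferInstance,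
    inferInstance, muller_not_solvable, card_orderOf_eq fun n _ => ex_eq_muller n⟩

end Cfsg.Agent.S4376
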