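import Cfsg.Statements.S4377

set_option autoImplicit false
open Cfsg

namespace Cfsg.Agent.S4377

theorem cnt (G : Type*) [Group G] [Finite G] {n : ℕ} (hn : n ≠ 0) :
    Nat.card {g : G // g ^ n = 1} = ∑ m ∈ n.divisors, Nat.card {g : G // orderOf g = m} := by
  classical
  have := Fintype.ofFinite G
  simp only [Nat.card_eq_fintype_card, Fintype.card_subtype]
  convert (sum_card_orderOf_eq_card_pow_eq_one (G := G) hn).symm

theorem cnt0 (G : Type*) [Group G] [Finite G] :
    Nat.card {g : G // orderOf g = 0} = 0 := by
  have : IsEmpty {g : G // orderOf g = 0} := ⟨fun g => (orderOf_pos g.1).ne' g.2⟩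
  exact Nat.card_of_isEmpty

/-- Two finite groups have the same number of elements of each order if and only if, for every n, they have the same number of elements g with gⁿ = 1. -/
theorem result {G H : Type*} [Group G] [Finite G] [Group H] [Finite H] :
    (∀ n : ℕ, Nat.card {g : G // orderOf g = n} = Nat.card {h : H // orderOf h = n}) ↔
      ∀ n : ℕ, Nat.card {g : G // g ^ n = 1} = Nat.card {h : H // h ^ n = 1} := by
  constructor
  · intro h n
    rcases Nat.eq_zero_or_pos n with rfl | hn
    · have h0 : Nat.card G * Nat.card H ≠ 0 := Nat.mul_ne_zero Nat.card_pos.ne' Nat.card_pos.ne'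
      have h1 : Nat.card {g : G // g ^ (Nat.card G * Nat.card H) = 1} =
          Nat.card {g : H // g ^ (Nat.card G * Nat.card H) = 1} := by
        rw [cnt G h0, cnt H h0]
        exact Finset.sum_congr rfl fun m _ => h m
      simpa [pow_mul, pow_mul'] using h1
    · rw [cnt G hn.ne', cnt H hn.ne']
      exact Finset.sum_congr rfl fun m _ => h m
  · intro h n
    induction n using Nat.strong_induction_on with
    | _ n ih =>
    rcases Nat.eq_zero_or_pos n with rfl | hn
    · rw [cnt0, cnt0]
    have h1 := h n
    rw [cnt G hn.ne', cnt H hn.ne', ← Nat.insert_self_properDivisors hn.ne',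
      Finset.sum_insert Nat.self_notMem_properDivisors,
      Finset.sum_insert Nat.self_notMem_properDivisors,
      Finset.sum_congr rfl fun m hm => ih m (Nat.mem_properDivisors.1 hm).2] at h1
    exact Nat.add_right_cancel h1

end Cfsg.Agent.S4377
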