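import Cfsg.Statements.S4378
import Cfsg.Agent.H1.PLength3

set_option autoImplicit false
open Cfsg

namespace Cfsg.Agent.S4378

/-- Let G be a finite solvable group in which every maximal subgroup either has a normal 2-complement or has prime index. Then G has a chain of normal subgroups 1 ≤ A ≤ B ≤ C ≤ G in which A and C/B have odd order and B/A and G/C are 2-groups (so the 2-length of G is at most 2). -/
theorem result {G : Type*} [Group G] [Finite G]
    (hG : Group.IsSolvable G)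
    (hmax : ∀ M : Subgroup G, IsCoatom M → (∃ K : Subgroup ↥M, K.Normal ∧ ¬ 2 ∣ Nat.card K ∧ ∃ k : ℕ, K.index = 2 ^ k) ∨ (M.index).Prime) :
    ∃ A B C : Subgroup G, A.Normal ∧ B.Normal ∧ C.Normal ∧ A ≤ B ∧ B ≤ C ∧ Odd (Nat.card A) ∧
      (∃ k : ℕ, A.relIndex B = 2 ^ k) ∧ Odd (B.relIndex C) ∧ ∃ k : ℕ, C.index = 2 ^ k := by
  have : Fact (Nat.Prime 2) := ⟨Nat.prime_two⟩
  have h := H1.ups_eq_top_of_coatoms (p := 2) _ G rfl (H1.isPSolvable_of_isSolvable 2 hG)
    fun M hM => (hmax M hM).imp_left fun ⟨K, _, h1, k, h2⟩ =>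
      H3.hasNormalPComplement_of_normal ((Nat.Prime.coprime_iff_not_dvd Nat.prime_two).2 h1).symm
        (IsPGroup.of_card h2)
  have h1 := H1.ups_relIndex_even (p := 2) (G := G) 0
  have h2 := H1.ups_relIndex_odd (p := 2) (G := G) 1
  rw [h, Subgroup.relIndex_top_right] at h2
  rw [mul_zero, H1.ups_zero, Subgroup.relIndex_bot_left] at h1
  exact ⟨(upperPSeries 2 G 1).1, (upperPSeries 2 G 2).1, (upperPSeries 2 G 3).1, inferInstance,
    inferInstance, inferInstance, H1.ups_le_succ 1, H1.ups_le_succ 2,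
    Nat.two_dvd_ne_zero.1 h1 |> Nat.odd_iff.2, H1.ups_relIndex_odd 0,
    Nat.two_dvd_ne_zero.1 (H1.ups_relIndex_even 1) |> Nat.odd_iff.2, h2⟩

end Cfsg.Agent.S4378
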