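import Cfsg.Statements.S4381
import Cfsg.Agent.H1.ActAut
import Cfsg.Agent.H1.Frattini
import Cfsg.Agent.H7.Maschke
import Cfsg.Agent.H3.Critical
import Cfsg.Agent.H8.Elt

set_option autoImplicit false
open Pointwise
open Cfsg

namespace Cfsg.Agent.S4381

open Subgroup
open scoped Pointwise commutatorElement

theorem exists_max {A G : Type*} [Group A] [Group G] [Finite G] [MulDistribMulAction A G]
    {L : Subgroup G} (h1 : L ≠ ⊤) (h2 : ∀ a : A, ∀ x ∈ L, a • x ∈ L) :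
    ∃ M : Subgroup G, L ≤ M ∧ M ≠ ⊤ ∧ (∀ a : A, ∀ x ∈ M, a • x ∈ M) ∧
      ∀ K : Subgroup G, M < K → (∀ a : A, ∀ x ∈ K, a • x ∈ K) → K = ⊤ := by
  obtain ⟨M, hLM, hM⟩ := Finite.exists_le_maximal
    (p := fun M : Subgroup G => M ≠ ⊤ ∧ ∀ a : A, ∀ x ∈ M, a • x ∈ M) ⟨h1, h2⟩
  refine ⟨M, hLM, hM.1.1, hM.1.2, fun K hK hK2 => ?_⟩
  by_contra h
  exact hK.not_ge (hM.2 ⟨h, hK2⟩ hK.le)

theorem frattini_inv {A G : Type*} [Group A] [Group G] [MulDistribMulAction A G] (a : A) :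
    ∀ x ∈ frattini G, a • x ∈ frattini G := fun _ hx =>
  (characteristic_iff_le_comap.1 inferInstance (MulDistribMulAction.toMulAut A G a)) hx

theorem frattini_le {A G : Type*} [Group A] [Group G] [Finite G] [MulDistribMulAction A G]
    {M : Subgroup G} (h1 : M ≠ ⊤) (h2 : ∀ a : A, ∀ x ∈ M, a • x ∈ M)
    (h3 : ∀ K : Subgroup G, M < K → (∀ a : A, ∀ x ∈ K, a • x ∈ K) → K = ⊤) : frattini G ≤ M := by
  by_contra h
  refine h1 (H1.eq_top_of_sup_le_frattini le_rfl (h3 _ (left_lt_sup.2 h) fun a x hx => ?_))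
  obtain ⟨y, hy, z, hz, rfl⟩ := mem_sup_of_normal_right.1 hx
  rw [smul_mul']
  exact mul_mem (mem_sup_left (h2 a y hy)) (mem_sup_right (frattini_inv a z hz))

/-- Let the finite group A act by automorphisms on the finite group G with the orders of A and G coprime, and assume that A or G is solvable. Call a proper A-invariant subgroup of G maximal A-invariant when no A-invariant subgroup lies strictly between it and G. Then all maximal A-invariant subgroups of G are conjugate under elements of the fixed-point subgroup C_G(A) if and only if G is a p-group for some prime p and A leaves invariant no subgroup strictly between the Frattini subgroup of G and G. In that case, if G is nontrivial, the Frattini subgroup is the only maximal A-invariant subgroup (a trivial G has none). -/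
theorem result {A G : Type*} [Group A] [Finite A]
    [Group G] [Finite G] [MulDistribMulAction A G] (hcop : (Nat.card A).Coprime (Nat.card G)) (hsol : Group.IsSolvable A ∨ Group.IsSolvable G) :
    ((∀ M N : Subgroup G, (M ≠ ⊤ ∧ (∀ a : A, ∀ x ∈ M, a • x ∈ M) ∧ ∀ L : Subgroup G, M < L → (∀ a : A, ∀ x ∈ L, a • x ∈ L) → L = ⊤) → (N ≠ ⊤ ∧ (∀ a : A, ∀ x ∈ N, a • x ∈ N) ∧ ∀ L : Subgroup G, N < L → (∀ a : A, ∀ x ∈ L, a • x ∈ L) → L = ⊤) →
        ∃ c : G, (∀ a : A, a • c = c) ∧ N = MulAut.conj c • M) ↔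
      ((∃ p : ℕ, p.Prime ∧ IsPGroup p G) ∧ ∀ L : Subgroup G, frattini G < L → (∀ a : A, ∀ x ∈ L, a • x ∈ L) → L = ⊤)) ∧
    (((∃ p : ℕ, p.Prime ∧ IsPGroup p G) ∧ ∀ L : Subgroup G, frattini G < L → (∀ a : A, ∀ x ∈ L, a • x ∈ L) → L = ⊤) →
      ∀ M : Subgroup G, (M ≠ ⊤ ∧ (∀ a : A, ∀ x ∈ M, a • x ∈ M) ∧ ∀ L : Subgroup G, M < L → (∀ a : A, ∀ x ∈ L, a • x ∈ L) → L = ⊤) ↔ (M = frattini G ∧ M ≠ ⊤)) := by
  have key : (∀ L : Subgroup G, frattini G < L → (∀ a : A, ∀ x ∈ L, a • x ∈ L) → L = ⊤) →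
      ∀ M : Subgroup G, (M ≠ ⊤ ∧ (∀ a : A, ∀ x ∈ M, a • x ∈ M) ∧ ∀ L : Subgroup G, M < L →
        (∀ a : A, ∀ x ∈ L, a • x ∈ L) → L = ⊤) ↔ (M = frattini G ∧ M ≠ ⊤) := by
    intro h M
    constructor
    · rintro ⟨h1, h2, h3⟩
      refine ⟨((frattini_le h1 h2 h3).eq_or_lt.resolve_right fun h4 => h1 (h M h4 h2)).symm, h1⟩
    · rintro ⟨rfl, h1⟩
      exact ⟨h1, frattini_inv, h⟩
  refine ⟨⟨fun h => ?_, fun h M N hM hN => ⟨1, fun a => smul_one a, ?_⟩⟩, fun h => key h.2⟩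
  swap
  · rw [((key h.2 M).1 hM).1, ((key h.2 N).1 hN).1, map_one, one_smul]
  have hp : ∃ p : ℕ, p.Prime ∧ IsPGroup p G := by
    by_contra hn
    push Not at hn
    have h1 : ∀ p : ℕ, p.Prime → ∃ M : Subgroup G, (M ≠ ⊤ ∧ (∀ a : A, ∀ x ∈ M, a • x ∈ M) ∧
        ∀ K : Subgroup G, M < K → (∀ a : A, ∀ x ∈ K, a • x ∈ K) → K = ⊤) ∧
        ∃ P : Sylow p G, (P : Subgroup G) ≤ M := by
      intro p hp
      have : Fact p.Prime := ⟨hp⟩
      obtain ⟨P, hP⟩ := H1.exists_invariant_sylow_aut (MulDistribMulAction.toMulAut A G) hcop hsol p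
      obtain ⟨M, h1, h2⟩ := exists_max (A := A) (L := (P : Subgroup G)) (fun h0 => hn p hp (by
        have := P.isPGroup'
        rw [h0] at this
        exact this.of_equiv topEquiv)) hP
      exact ⟨M, h2, P, h1⟩
    obtain ⟨M, hM, -⟩ := h1 2 Nat.prime_two
    refine hM.1 (H8.eq_top_of_forall_sylow fun q hq => ?_)
    obtain ⟨N, hN, P, hP⟩ := h1 q hq
    obtain ⟨c, -, rfl⟩ := h N M hN hM
    exact ⟨c • P, pointwise_smul_le_pointwise_smul_iff.2 hP⟩
  refine ⟨hp, fun L hL hLA => ?_⟩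
  obtain ⟨p, hp, hG⟩ := hp
  have : Fact p.Prime := ⟨hp⟩
  have := hG.isNilpotent
  by_contra hLt
  obtain ⟨M, hLM, hM⟩ := exists_max hLt hLA
  have hMn : M.Normal := ⟨fun x hx g => by
    have : g * x * g⁻¹ = ⁅g, x⁆ * x := by simp [commutatorElement_def]
    rw [this]
    exact mul_mem (frattini_le hM.1 hM.2.1 hM.2.2 (H3.commutator_le_frattini
      (commutator_mem_commutator (mem_top g) (mem_top x)))) hx⟩
  have hAp : (Nat.card A).Coprime p := by
    have : Nontrivial G := by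
      by_contra h0
      rw [not_nontrivial_iff_subsingleton] at h0
      exact hLt (Subsingleton.elim _ _)
    obtain ⟨k, hk, e⟩ := hG.nontrivial_iff_card.1 this
    rw [e] at hcop
    exact hcop.coprime_dvd_right (dvd_pow_self p hk.ne')
  obtain ⟨W, h1, h2, h3, h4⟩ := H7.maschke_section (MulDistribMulAction.toMulAut A G) hp hAp
    hL.le (le_top : L ≤ ⊤) frattini_inv hLA (fun _ _ _ => mem_top _) H3.commutator_le_frattini
    fun v _ => H3.pow_mem_frattini hG v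
  have hW : W ≠ ⊤ := by rintro rfl; rw [inf_top_eq] at h3; exact hL.ne' h3
  obtain ⟨N, hWN, hN⟩ := exists_max (A := A) hW h1
  obtain ⟨c, -, rfl⟩ := h M N hM hN
  rw [Normal.conj_smul_eq_self] at hWN
  exact hM.1 (eq_top_iff.2 (h4.ge.trans (sup_le hLM hWN)))

end Cfsg.Agent.S4381
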