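import Cfsg.Statements.S4385
import Cfsg.Agent.H10.Sims2
import Cfsg.Agent.H11.Bar

set_option autoImplicit false
open Pointwise
open Cfsg H10

namespace Cfsg.Agent.S4385

section
variable {G : Type*} [Group G] [Finite G] {H P : Subgroup G}

/-- the odd core in the ambient group -/
def OO (H : Subgroup G) : Subgroup G := (oddCore H).map H.subtype

theorem eO : (OO H).subgroupOf H = oddCore H := subgroupOf_map_subtype' _

instance : ((OO H).subgroupOf H).Normal := eO (H := H) ▸ inferInstance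

theorem hOH : OO H ≤ H := Subgroup.map_subtype_le _

theorem hOn : H ≤ NN(OO H) := le_NN_map_subtype _

theorem hOc : (Nat.card (OO H)).Coprime 2 := by
  rw [OO, card_map_subtype]; exact H1.coprime_card_pPrimeCore 2

theorem hle {R : Subgroup G} (h1 : R ≤ H) (h2 : H ≤ NN(R)) (h3 : (Nat.card R).Coprime 2) :
    R ≤ OO H := by
  haveI := normal_subgroupOf h2
  exact le_map_subtype_iff.2 ⟨h1, H1.le_pPrimeCore (by rwa [card_subgroupOf_of_le h1])⟩

theorem hOP {A : Subgroup G} (hA : IsPGroup 2 A) : OO H ⊓ A = ⊥ :=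
  eq_bot_of_isPGroup_of_not_dvd (hA.to_le inf_le_right) inf_le_left
    ((Nat.prime_two.coprime_iff_not_dvd).1 hOc.symm)

theorem hcard {A : Subgroup G} (hA : IsPGroup 2 A) (h : A ≤ H) :
    Nat.card (bar H (OO H) A) = Nat.card A := H16.H11.card_bar_of_inf h (hOP hA)

theorem hel {A : Subgroup G} (hA : IsElementaryAbelian 2 A) :
    IsElementaryAbelian 2 (bar H (OO H) A) := elab_map _ (elab_subgroupOf hA H)

theorem hrel {A B : Subgroup G} (h1 : A ≤ B) (h2 : IsPGroup 2 B) (h3 : B ≤ H) :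
    (bar H (OO H) A).relIndex (bar H (OO H) B) = A.relIndex B := by
  have a := card_mul_relIndex (bar_mono (M := H) (W := OO H) h1)
  rw [hcard (h2.to_le h1) (h1.trans h3), hcard h2 h3, ← card_mul_relIndex h1] at a
  exact Nat.eq_of_mul_eq_mul_left Nat.card_pos a

theorem eqv {X : Type*} [Group X] (e : (⊤ : Subgroup (H ⧸ (OO H).subgroupOf H)) ≃* X) :
    Nonempty (H ⧸ oddCore H ≃* X) := by
  exact ⟨(QuotientGroup.quotientMulEquivOfEq eO.symm).trans (Subgroup.topEquiv.symm.trans e)⟩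

theorem two {M : Subgroup G} (hS : IsSylowIn 2 P H) (hMH : M ≤ H) (hMn : H ≤ NN(M))
    (hEM : resOf 2 H ≤ M) (hPM : P ⊓ M = pCoreOf 2 H) (h2 : Nat.card (pCoreOf 2 H) = 2)
    (he : IsElementaryAbelian 2 P) (h4 : Nat.card P = 4) :
    Nonempty (H ⧸ oddCore H ≃* Multiplicative (ZMod 2) × Multiplicative (ZMod 2)) := by
  have hQc : H ≤ CC(pCoreOf 2 H) := le_CC_of_card_two h2 (le_NN_pCoreOf H)
  have h1 : resOf 2 H ≤ OO H := by
    rw [← resOf_eq_of_le hEM hMH]
    exact hle ((resOf_le M).trans hMH) (le_NN_resOf' hMn)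
      (coprime_resOf_of_central (hPM ▸ hS.inf_normal hMH hMn) (hMH.trans hQc))
  have h2 : bar H (OO H) P = ⊤ := (bar_eq_top hS.le).2 (le_antisymm (sup_le hS.le inf_le_left)
    (hS.le_of_resOf_le ((le_inf (resOf_le H) h1).trans le_sup_right) le_sup_left))
  have h3 := klein_of_elab (hel (H := H) he) (by rw [hcard hS.isPGroup hS.le, h4])
  rw [h2] at h3
  obtain ⟨f⟩ := IsKleinFour.nonempty_mulEquiv (G₁ := (⊤ : Subgroup (H ⧸ (OO H).subgroupOf H)))
    (G₂ := Multiplicative (ZMod 2 × ZMod 2))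
  exact eqv (f.trans (MulEquiv.prodMultiplicative _ _))

theorem big {Q D : Subgroup G} (hS : IsSylowIn 2 P H) (hQ : pCoreOf 2 H = Q)
    (hi : Q.relIndex P = 2) (hQel : IsElementaryAbelian 2 Q) (hD : D ≤ Q) (hDc : H ≤ CC(D))
    (hc : Nat.card Q = 4 * Nat.card D) (h1 : ¬ P ≤ CC(Q)) (h2 : ¬ H ≤ P ⊔ CC(Q))
    (hgen : ∃ h₀ ∈ H, P ⊔ cj h₀ P = H) {a : G}
    (ha : a ∈ P) (haQ : a ∉ Q) (ha2 : a * a = 1) :
    (Nat.card D = 1 → Nonempty (H ⧸ oddCore H ≃* Equiv.Perm (Fin 4))) ∧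
      (Nat.card D = 2 →
        Nonempty (H ⧸ oddCore H ≃* Equiv.Perm (Fin 4) × Multiplicative (ZMod 2))) := by
  have hQP : Q ≤ P := hQ ▸ hS.pCoreOf_le
  have hQn : H ≤ NN(Q) := hQ ▸ le_NN_pCoreOf H
  have hQH := hQP.trans hS.le
  have hQ2 := elab_isPGroup hQel
  have hOQ : OO H ≤ CC(Q) := by
    rw [← comm_eq_bot, eq_bot_iff, ← hOP (H := H) hQ2]
    exact le_inf (comm_le_left (hQH.trans hOn)) (comm_le_right (hOH.trans hQn))
  have hC : H ⊓ CC(Q) ≤ Q ⊔ OO H := by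
    have h3 : P ⊓ (H ⊓ CC(Q)) = Q := by
      have h4 : Q ≤ P ⊓ (H ⊓ CC(Q)) := le_inf hQP (le_inf hQH (elab_le_CC hQel))
      refine le_antisymm ?_ h4
      by_contra hc
      exact h1 ((eq_of_relIndex_prime Nat.prime_two hi h4 inf_le_left hc).ge.trans
        (inf_le_right.trans inf_le_right))
    have hn' : H ≤ NN(H ⊓ CC(Q)) := le_NN_inf (le_NN_self _) (le_NN_CC hQn)
    have h4 : IsSylowIn 2 Q (H ⊓ CC(Q)) := by
      have := hS.inf_normal inf_le_left hn'
      rwa [h3] at this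
    exact h4.le_of_resOf_le ((hle ((resOf_le _).trans inf_le_left) (le_NN_resOf' hn')
      (coprime_resOf_of_central h4 inf_le_right)).trans le_sup_right) le_sup_left
  haveI : (bar H (OO H) Q).Normal := bar_normal hQH hQn
  have hT := hS.bar (W := OO H) le_rfl
  rw [bar_self] at hT
  obtain ⟨s, c, eq, h4⟩ := s3_of_central (D := bar H (OO H) D) hT (hel hQel)
    (by rw [hrel hQP hS.isPGroup hS.le, hi])
    (by
      have h1 := H1.map_centralizer_mk' ((OO H).subgroupOf H) (A := Q.subgroupOf H)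
        (by rw [card_subgroupOf_of_le hQH, card_subgroupOf_of_le hOH]
            exact coprime_card_of_isPGroup hQ2 hOc)
        (Or.inl (H1.isSolvable_of_comm' (elab_subgroupOf hQel H).1))
      rw [CC_subgroupOf hQH, bar_def, bar_def] at h1
      rw [← h1, ← bar_inf, bar_le_bar inf_le_right hQH, inf_eq_right.2 hOH, inf_comm]
      exact hC)
    (bar_mono hD) (by
      rw [← bar_self (M := H) (W := OO H), bar_le_CC_iff le_rfl (hD.trans hQH), comm_eq_bot.2 hDc]
      exact bot_le)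
    (by
      rw [hrel hD hQ2 hQH]
      have a := card_mul_relIndex hD
      rw [hc, mul_comm] at a
      exact Nat.eq_of_mul_eq_mul_right Nat.card_pos a)
    (fun hn => by
      haveI := normal_of_top_le_NN hn
      have h3 := le_NN_unbar_of_normal (M := H) (W := OO H) (bar H (OO H) P)
      rw [unbar_bar hS.le, inf_eq_right.2 hOH] at h3
      obtain ⟨h₀, hh₀, hgen⟩ := hgen
      refine h2 (hgen.ge.trans (sup_le le_sup_left ?_))
      exact ((cj_mono h₀ le_sup_left).trans (cj_eq_of_mem_NN (h3 hh₀)).le).trans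
        (sup_le_sup_left hOQ _))
  rw [← eq] at h4
  have he := hel (H := H) hQel
  rw [← eq] at he
  have hq := s.card_Q c he h4
  rw [eq, hcard hQ2 hQH, hc, ← eq] at hq
  refine ⟨fun h => ?_, fun h => ?_⟩
  · obtain ⟨f⟩ := s.equiv_s4 c he h4 (Subgroup.card_eq_one.1 (by omega))
    exact eqv f
  · have h1 : (Q ⊔ OO H) ⊓ P = Q := by
      rw [dedekind_left hQP (hQH.trans hOn), hOP hS.isPGroup, sup_bot_eq]
    obtain ⟨f⟩ := s.equiv_c2s4 c he h4 (by omega) (mem_bar (hS.le ha) ha) (fun h => haQ (by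
        rw [eq, ← mem_unbar, unbar_bar hQH, inf_eq_right.2 hOH] at h
        exact h1.le ⟨h, ha⟩)) (by
        rw [← QuotientGroup.mk_mul, ← QuotientGroup.mk_one]
        congr 1
        exact Subtype.ext ha2)
    exact eqv (f.trans MulEquiv.prodComm)

end

theorem facts {G : Type*} [Group G] [Finite G] {H P : Subgroup G} {n : ℕ} (hn : 2 ≤ n)
    (e : H ⧸ pCore 2 H ≃* DihedralGroup n) (hS : IsSylowIn 2 P H) :
    (pCoreOf 2 H).relIndex P = 2 ∧ ¬ H ≤ P ∧ (∃ h ∈ H, P ⊔ cj h P = H) ∧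
      ∃ M ≤ H, H ≤ NN(M) ∧ resOf 2 H ≤ M ∧ P ⊓ M = pCoreOf 2 H := by
  obtain ⟨h1, h2, ⟨h, h3⟩, M, hM, h4, h5⟩ := dihedral_facts hn
    (e.toMonoidHom.comp (QuotientGroup.mk' _)) (e.surjective.comp (QuotientGroup.mk'_surjective _))
    (by rw [MonoidHom.ker_comp_of_injective _ _ e.injective, QuotientGroup.ker_mk'])
    (isSylowIn_subgroupOf_top hS)
  refine ⟨?_, fun hle => h2 (Subgroup.subgroupOf_eq_top.2 hle), ⟨h, h.2, ?_⟩, M.map H.subtype,
    Subgroup.map_subtype_le _, le_NN_map_subtype M, ?_, ?_⟩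
  · rwa [← pCoreOf_subgroupOf, Subgroup.relIndex_subgroupOf hS.le] at h1
  · have := congrArg (Subgroup.map H.subtype) h3
    rwa [Subgroup.map_sup, map_cj, map_subgroupOf_of_le hS.le, map_top_subtype] at this
  · have := Subgroup.map_mono (f := H.subtype) h4
    rwa [map_resOf, map_top_subtype] at this
  · have := congrArg (Subgroup.map H.subtype) h5
    rwa [Subgroup.map_inf _ _ _ H.subtype_injective, map_subgroupOf_of_le hS.le] at this

/-- Let H be a subgroup of a finite group G whose largest normal 2-subgroup O_2(H) is nontrivial and such that H/O_2(H) is a dihedral group of order at least 4. Let P be a Sylow 2-subgroup of H and S a Sylow 2-subgroup of G containing P. Suppose y ∈ S lies outside P, normalizes P, has y² in the product of P with the centralizer of P in G, and normalizes no non-identity normal subgroup of H contained in P. Then P has order 4, 8 or 16, and H modulo its largest normal subgroup of odd order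 is isomorphic to the four-group, to the symmetric group of degree 4, or to the direct product of the symmetric group of degree 4 with a group of order 2. -/
theorem result {G : Type*} [Group G] [Finite G]
    (H : Subgroup G) (hO : Cfsg.pCore 2 ↥H ≠ ⊥) (n : ℕ) (hn : 2 ≤ n) (hdih : Nonempty (↥H ⧸ Cfsg.pCore 2 ↥H ≃* DihedralGroup n))
    (P : Subgroup G) (hPH : P ≤ H) (hP : IsPGroup 2 P) (hPsyl : ¬ 2 ∣ P.relIndex H)
    (S : Sylow 2 G) (hPS : P ≤ (S : Subgroup G)) (y : G) (hyS : y ∈ (S : Subgroup G)) (hyP : y ∉ P)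
    (hy2 : y ^ 2 ∈ P ⊔ Subgroup.centralizer (P : Set G)) (hyN : MulAut.conj y • P = P)
    (hyQ : ∀ Q : Subgroup G, Q ≤ P → (Q.subgroupOf H).Normal → MulAut.conj y • Q = Q → Q = ⊥) :
    (Nat.card P = 4 ∨ Nat.card P = 8 ∨ Nat.card P = 16) ∧
    (Nonempty (↥H ⧸ Cfsg.oddCore ↥H ≃* Multiplicative (ZMod 2) × Multiplicative (ZMod 2)) ∨
     Nonempty (↥H ⧸ Cfsg.oddCore ↥H ≃* Equiv.Perm (Fin 4)) ∨
     Nonempty (↥H ⧸ Cfsg.oddCore ↥H ≃* Equiv.Perm (Fin 4) × Multiplicative (ZMod 2))) := by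
  simp only [cj_smul] at hyN hyQ
  have hS : IsSylowIn 2 P H := isSylowIn_of_not_dvd hPH hP hPsyl
  obtain ⟨e⟩ := hdih
  obtain ⟨hi, hHP, ⟨h₀, hh₀, hgen⟩, M, hMH, hMn, hEM, hPM⟩ := facts hn e hS
  have hQ1 : pCoreOf 2 H ≠ ⊥ := fun e => hO (pCoreOf_eq_bot_iff.1 e)
  have hQP : pCoreOf 2 H ≤ P := hS.pCoreOf_le
  have hQn : H ≤ NN(pCoreOf 2 H) := le_NN_pCoreOf H
  have hQ2 := isPGroup_pCoreOf (p := 2) H
  obtain ⟨Q, hQd⟩ : ∃ Q, Q = pCoreOf 2 H := ⟨_, rfl⟩
  rw [← hQd] at hi hPM hQ1 hQP hQn hQ2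
  have hk : cj (h₀ * y) P = cj h₀ P := by rw [cj_mul, hyN]
  have hQe : P ⊓ cj h₀ P = Q := by
    refine le_antisymm ?_ (le_inf hQP (cj_eq_of_mem_NN (hQn hh₀) ▸ cj_mono h₀ hQP))
    by_contra hc
    have h1 := eq_of_relIndex_prime Nat.prime_two hi
      (le_inf hQP (cj_eq_of_mem_NN (hQn hh₀) ▸ cj_mono h₀ hQP)) inf_le_left hc
    have h2 : P = cj h₀ P := Subgroup.eq_of_le_of_card_ge (h1.ge.trans inf_le_right) (card_cj _ _).le
    exact hHP (by rw [← hgen, ← h2, sup_idem])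
  have hinv : ∀ N ≤ P, H ≤ NN(N) → cj y N = N → N = ⊥ := fun N h1 h2 h3 =>
    hyQ N h1 (normal_subgroupOf h2) h3
  have hSM : SM 2 P (h₀ * y) := by
    refine ⟨hP, ?_, fun N h1 h2 h3 => ?_⟩
    · rw [hk, hQe, ← cj_eq_of_mem_NN (hQn hh₀), relIndex_cj, hi]
    · have h4 : H ≤ NN(N) := by
        rw [← hgen, ← hk]
        exact sup_le h2 (by rw [← h3, ← cj_normalizer]; exact cj_mono _ h2)
      refine hinv N h1 h4 ?_
      rw [cj_mul, cj_eq_iff, cj_eq_of_mem_NN (inv_mem (h4 hh₀))] at h3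
      exact h3
  have hy : ∀ N ≤ P, P ≤ NN(N) → cj y (cj y N) = N := fun N h1 h2 => by
    rw [← cj_mul, ← pow_two]
    exact cj_eq_of_mem_NN ((sup_le h2 ((CC_anti h1).trans (CC_le_NN _))) hy2)
  obtain ⟨t, ht⟩ := IsPGroup.iff_card.1 hP
  obtain ⟨u, hnu, hu, hc⟩ := hSM.cases ht (n := 2) (K := H ⊔ cj (h₀ * y) H) (fun L hL => by
    have h0 := hL 0 (by omega)
    have h1 := hL 1 (by omega)
    have h2 := hL 2 le_rfl
    rw [pow_zero, cj_one] at h0
    rw [pow_one] at h1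
    rw [pow_two, cj_mul] at h2
    rw [← hgen, ← hk, cj_sup]
    exact sup_le (sup_le h0 h1) (sup_le h1 h2)) (by
    have h1 : P ⊓ CC(H) ≤ P := inf_le_left
    have h2 : H ≤ NN(P ⊓ CC(H)) := (le_CC_symm inf_le_right).trans (CC_le_NN _)
    have h3 := hinv (P ⊓ CC(H) ⊓ cj y (P ⊓ CC(H))) (inf_le_left.trans h1)
      ((le_CC_symm (inf_le_left.trans inf_le_right)).trans (CC_le_NN _))
      (by rw [cj_inf, hy _ h1 (hPH.trans h2), inf_comm])
    rw [eq_bot_iff, ← h3, CC_sup]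
    intro x hx
    refine ⟨⟨hx.1, hx.2.1⟩, ?_⟩
    rw [cj_inf, hyN, cj_centralizer]
    refine ⟨hx.1, ?_⟩
    have h4 : x ∈ CC(cj (h₀ * y) H) := hx.2.2
    rw [cj_mul, ← cj_centralizer, mem_cj, mul_assoc, ← mem_CC.1 hx.2.1 h₀ hh₀,
      inv_mul_cancel_left] at h4
    exact h4)
  have t1 := hSM.one_le ht
  have eP : SX P (h₀ * y) t (1 - t) 0 = P := by rw [SX_eq (by omega), zpow_zero, cj_one]
  have eP' : SX P (h₀ * y) t (2 - t) 1 = cj h₀ P := by rw [SX_eq (by omega), zpow_one, hk]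
  have eQ : SX P (h₀ * y) t (2 - t) 0 = Q := by
    rw [← hQe, ← eP']
    conv_rhs => enter [1]; rw [← eP]
    exact le_antisymm (le_inf (SX_mono (by omega) le_rfl) (SX_mono le_rfl (by omega)))
      (by rw [inf_comm]; exact SX_inf (by omega))
  have t2 : 2 ≤ t := not_lt.1 fun e => hQ1 (eQ ▸ hSM.X_bot ht (by omega))
  have hgen' : ∀ L, SX P (h₀ * y) t (1 - t) 0 ≤ L → SX P (h₀ * y) t (2 - t) 1 ≤ L → H ≤ L :=
    fun L h1 h2 => hgen ▸ sup_le (eP ▸ h1) (eP' ▸ h2)
  have hXH : ∀ i j : ℤ, 2 - t ≤ i → j ≤ 1 → SX P (h₀ * y) t i j ≤ H := fun i j h1 h2 =>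
    (SX_mono h1 h2).trans (eP'.le.trans (le_sup_right.trans hgen.le))
  have t6 : t ≠ 6 := fun e => by
    obtain rfl : u = 4 := by omega
    have hA : H ≤ NN(SX P (h₀ * y) t (-4) (-1)) := hgen' _ (le_NN_of_comm_le_of_le
      ((hSM.comm_X ht (by omega) (by omega)).trans (SX_mono (by omega) (by omega)))
      (SX_mono (by omega) (by omega))) ((SX_mono (by omega) le_rfl).trans (hSM.six ht e hnu hu))
    have h1 : cj y Q = SX P (h₀ * y) t (-5) (-1) := by
      rw [← cj_SX (i := 2 - t) (j := 0) (-1) (by omega) (by omega), eQ, zpow_neg, zpow_one,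
        ← cj_eq_iff, cj_mul, hy Q hQP (hPH.trans hQn), cj_eq_of_mem_NN (hQn hh₀)]
    have h2 : cj h₀ (SX P (h₀ * y) t (-5) (-1)) = SX P (h₀ * y) t (-3) 1 := by
      rw [← h1, ← cj_mul, ← cj_SX (i := 2 - t) (j := 0) 1 (by omega) (by omega), eQ, zpow_one]
    have h3 : SX P (h₀ * y) t (-4) (-1) ≤ SX P (h₀ * y) t (-3) 1 := by
      rw [← cj_eq_of_mem_NN (hA hh₀), ← h2]; exact cj_mono _ (SX_mono (by omega) le_rfl)
    refine hSM.X_ne ht (-4) (le_bot_iff.1 (le_trans (le_inf ((SX_mono le_rfl (by omega)).trans h3)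
      le_rfl) ((SX_inf (by omega)).trans (hSM.X_bot ht (by omega)).le)))
  by_cases e2 : t = 2
  · obtain rfl : u = 2 := by omega
    have h4 : Nat.card P = 4 := by rw [ht, e2]; rfl
    refine ⟨Or.inl h4, Or.inl (two hS hMH hMn hEM (hPM.trans hQd) ?_ ?_ h4)⟩
    · rw [← hQd, ← eQ]; exact hSM.card_X ht 1 (by omega) t1
    · rw [← eP]; exact hSM.elab_X ht hu (by omega) (by omega)
  have hu' : (u : ℤ) = t - 1 := by omega
  have t34 : t = 3 ∨ t = 4 := by omega
  have hYP : SX P (h₀ * y) t (1 - t) (1 - t) ≤ P := (SX_mono le_rfl (by omega)).trans eP.le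
  obtain ⟨⟨a, ha⟩, ha1⟩ := (Subgroup.ne_bot_iff_exists_ne_one).1 (hSM.X_ne ht (1 - t))
  have := big (D := SX P (h₀ * y) t (3 - t) (-1)) hS hQd.symm hi
    (by rw [← eQ]; exact hSM.elab_X ht hu (by omega) (by omega))
    ((SX_mono (by omega) (by omega)).trans eQ.le)
    (hgen' _ (hSM.X_CC ht hu (by omega) (by omega) (by omega) (by omega))
      (hSM.X_CC ht hu (by omega) (by omega) (by omega) (by omega)))
    (by
      rw [← eQ, hSM.card_X ht (t - 1) (by omega) (by omega),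
        hSM.card_X ht (t - 3) (by omega) (by omega)]
      rcases t34 with rfl | rfl <;> rfl)
    (fun h => hnu ((SC_iff (i := 1 - t) (j := 0) (by omega)).1 (hYP.trans (h.trans
      (CC_anti ((SX_mono (by omega) le_rfl).trans eQ.le))))))
    (fun h => hnu ((SC_iff (i := 2 - t) (j := 1) (by omega)).1 (le_CC_symm
      ((hXH _ _ (by omega) le_rfl).trans (h.trans (sup_le (eP.ge.trans
        (hSM.X_CC ht hu (by omega) (by omega) (by omega) (by omega)))
        (CC_anti ((SX_mono le_rfl (by omega)).trans eQ.le))))))))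
    ⟨h₀, hh₀, hgen⟩ (hYP ha) (fun h => ha1 (Subtype.ext (((SX_inf (i := 2 - t) (j := 0) (by omega)).trans
      (hSM.X_bot ht (by omega)).le) ⟨eQ.ge h, ha⟩))) (by simpa [pow_two] using hSM.sq_Y ht ha)
  rw [hSM.card_X ht (t - 3) (by omega) (by omega)] at this
  rcases t34 with rfl | rfl
  · exact ⟨Or.inr (Or.inl ht), Or.inr (Or.inl (this.1 rfl))⟩
  · exact ⟨Or.inr (Or.inr ht), Or.inr (Or.inr (this.2 rfl))⟩

end Cfsg.Agent.S4385
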