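import Cfsg.Statements.S4387
import Cfsg.Agent.H3.Misc
import Cfsg.Agent.H7.PGrp

set_option autoImplicit false
open Pointwise
open Cfsg

namespace Cfsg.Agent.S4387

/-- Let G be a non-trivial finite group in which any two maximal subgroups are conjugate. Then G is cyclic of prime-power order. -/
theorem result {G : Type*} [Group G] [Finite G] [Nontrivial G]
    (h : ∀ M N : Subgroup G, IsCoatom M → IsCoatom N → ∃ g : G, N = MulAut.conj g • M) :
    IsCyclic G ∧ IsPrimePow (Nat.card G) := by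
  open Subgroup in
  obtain ⟨M, hM, -⟩ := H1.exists_coatom_ge (bot_ne_top : (⊥ : Subgroup G) ≠ ⊤)
  obtain ⟨x, hx⟩ := H3.exists_forall_conj_not_mem hM.1
  have h1 : zpowers x = ⊤ := by
    by_contra hne
    obtain ⟨N, hN, hxN⟩ := H1.exists_coatom_ge hne
    obtain ⟨g, rfl⟩ := h M N hM hN
    exact hx g (H1.mem_conj_smul_iff.mp (hxN (mem_zpowers x)))
  have hc : IsCyclic G := isCyclic_iff_exists_zpowers_eq_top.mpr ⟨x, h1⟩
  refine ⟨hc, isPrimePow_iff_unique_prime_dvd.mpr ?_⟩
  have key : ∀ p : ℕ, p.Prime → p ∣ Nat.card G → M.index = p := by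
    intro p hp hd
    have := Fact.mk hp
    have h2 : (zpowers (x ^ p)).index = p := by
      have h3 := (zpowers (x ^ p)).card_mul_index
      have h4 : orderOf x = Nat.card G := by rw [← Nat.card_zpowers, h1, card_top]
      rw [Nat.card_zpowers, orderOf_pow_of_dvd hp.ne_zero (h4 ▸ hd), h4] at h3
      obtain ⟨c, hc⟩ := hd
      rw [hc, Nat.mul_div_cancel_left _ hp.pos, mul_comm p] at h3
      have hc0 : 0 < c := Nat.pos_of_ne_zero (by
        rintro rfl; exact Nat.card_pos.ne' (hc.trans (mul_zero p)))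
      exact Nat.eq_of_mul_eq_mul_left hc0 h3
    obtain ⟨g, hg⟩ := h M _ hM (H7.isCoatom_of_index_prime h2)
    rw [hg, H1.conj_smul_eq_map, H7.index_cj] at h2
    exact h2
  obtain ⟨p, hp, hd⟩ := Nat.exists_prime_and_dvd (Finite.one_lt_card (α := G)).ne'
  exact ⟨p, ⟨hp, hd⟩, fun q hq => (key q hq.1 hq.2).symm.trans (key p hp hd)⟩

end Cfsg.Agent.S4387
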