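import Cfsg.Statements.S4396
import Cfsg.Agent.H19.Fr1
import Cfsg.Agent.H15.Syl
import Cfsg.Agent.H2.Frob

set_option autoImplicit false
open Cfsg

namespace Cfsg.Agent.S4396
open H19.Fr Module Subgroup

theorem coprime_part {k V A : Type*} [Field k] [AddCommGroup V] [Module k V] [Group A] [Finite A]
    (ρ : Representation k A V) {F : Subgroup A} [F.Normal] (hF : Group.IsNilpotent F)
    (h0 : Fx ρ F = ⊥) : ∃ N : Subgroup A, N.Normal ∧ N ≤ F ∧ (Nat.card N : k) ≠ 0 ∧ Fx ρ N = ⊥ := by
  classical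
  obtain ⟨h1, h2, h3⟩ := H15.hall_piCoreOf_of_nilpotent hF {r | (r : k) ≠ 0}
  have hN : (piCoreOf {r | (r : k) ≠ 0} F).Normal := normalizer_eq_top_iff.1
    (top_le_iff.1 ((normalizer_eq_top (H := F)).ge.trans (H15.norm_le_norm_piCoreOf _ _)))
  generalize piCoreOf {r | (r : k) ≠ 0} F = N at *
  refine ⟨N, hN, h1, fun e => ?_, by_contra fun hne => ?_⟩
  · rw [CharP.cast_eq_zero_iff k (ringChar k)] at e
    rcases CharP.char_is_prime_or_zero k (ringChar k) with h | h
    · exact h2 _ h e (CharP.cast_eq_zero k _)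
    · exact Nat.card_pos.ne' (Nat.eq_zero_of_zero_dvd (h ▸ e))
  obtain ⟨Q, ⟨q1, q2, q3⟩, hm⟩ := (wellFounded_gt (α := Subgroup A)).has_min
    {Q | N ≤ Q ∧ Q ≤ F ∧ Fx ρ Q ≠ ⊥} ⟨N, le_rfl, h1, hne⟩
  obtain ⟨x, ⟨x1, x2⟩, x3⟩ := SetLike.exists_of_lt
    (H15.lt_inf_norm hF (lt_of_le_of_ne q2 fun e => q3 (e ▸ h0)))
  obtain ⟨v, hv, hv0⟩ := Submodule.exists_mem_ne_zero_of_ne_bot q3
  have : Nontrivial V := ⟨⟨v, 0, hv0⟩⟩
  obtain ⟨p, hp⟩ := ExpChar.exists k
  have : ExpChar (End k V) p := expChar_of_injective_algebraMap (FaithfulSMul.algebraMap_injective k _) p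
  have hr : N.relIndex F ≠ 0 := index_ne_zero_of_finite
  obtain ⟨j, hj⟩ : ∃ j, N.relIndex F = p ^ j := by
    have k1 : ∀ r, r.Prime → r ∣ N.relIndex F → (r : k) = 0 := fun r hr h =>
      by_contra fun e => h3 r hr e h
    cases hp with
    | zero => exact ⟨0, Nat.eq_one_iff_not_exists_prime_dvd.2 fun r hr h =>
        hr.ne_zero (by exact_mod_cast k1 r hr h)⟩
    | prime hp => exact ⟨_, Nat.eq_prime_pow_of_unique_prime_dvd hr fun {r} hr h =>
        ((Nat.prime_dvd_prime_iff_eq hp hr).1 ((CharP.cast_eq_zero_iff k p r).1 (k1 r hr h))).symm⟩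
  have ex : ∃ i : ℕ, ((ρ x - 1) ^ i) v = 0 := ⟨p ^ j, by
    rw [sub_pow_expChar_pow_of_commute p j (Commute.one_right _), one_pow, ← map_pow, ← hj,
      LinearMap.sub_apply, mem_Fx.1 hv _ (show x ^ N.relIndex F ∈ Q from q1 ((N.subgroupOf F).pow_index_mem ⟨x, x1⟩)), End.one_apply, sub_self]⟩
  have iv : ∀ i : ℕ, ((ρ x - 1) ^ i) v ∈ Fx ρ Q := fun i => by
    induction i with
    | zero => exact hv
    | succ i ih =>
      rw [pow_succ', End.mul_apply, LinearMap.sub_apply]
      refine sub_mem (mem_Fx.2 fun s hs => ?_) ih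
      rw [rho_mul, show s * x = x * (x⁻¹ * s * x) by group, ← rho_mul,
        mem_Fx.1 ih _ (by simpa using (mem_normalizer_iff.1 (inv_mem x2) s).1 hs)]
  obtain ⟨i, hi⟩ := Nat.exists_eq_succ_of_ne_zero (n := Nat.find ex) fun e =>
    hv0 (by simpa [e] using Nat.find_spec ex)
  have w1 := Nat.find_spec ex
  have w2 := Nat.find_min ex (show i < Nat.find ex by omega)
  rw [hi, pow_succ', End.mul_apply, LinearMap.sub_apply, sub_eq_zero] at w1
  let T : Subgroup A :=
    { carrier := {a | ρ a (((ρ x - 1) ^ i) v) = ((ρ x - 1) ^ i) v}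
      one_mem' := by simp
      mul_mem' := fun {a b} ha hb => by
        rw [Set.mem_setOf, ← rho_mul, hb, ha]
      inv_mem' := fun {a} ha => by
        rw [Set.mem_setOf] at ha ⊢
        conv_lhs => rw [← ha, rho_mul, inv_mul_cancel, map_one, End.one_apply] }
  refine hm (Q ⊔ zpowers x) ⟨q1.trans le_sup_left, sup_le q2 (zpowers_le.2 x1), fun e => w2 ?_⟩
    (lt_of_le_of_ne le_sup_left fun e => x3 (e.ge (mem_sup_right (mem_zpowers x))))
  exact (Submodule.mem_bot k).1 (e.le (mem_Fx.2 (show Q ⊔ zpowers x ≤ T from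
    sup_le (mem_Fx.1 (iv i)) (zpowers_le.2 w1))))


theorem hom_le {k V A : Type*} [Field k] [AddCommGroup V] [Module k V] [FiniteDimensional k V]
    [Group A] [Finite A] (ρ : Representation k A V) {F N H : Subgroup A} [F.Normal] [N.Normal]
    (hnil : Group.IsNilpotent F) (hNF : N ≤ F) (hc : (Nat.card N : k) ≠ 0)
    (hs : ∀ a : A, ∃ f ∈ F, ∃ h ∈ H, a = f * h)
    (hf : ∀ h ∈ H, h ≠ 1 → ∀ n ∈ N, h * n = n * h → n = 1) (h0 : Fx ρ N = ⊥) (π : A →* H)
    (p1 : ∀ h : H, π h = h) (p2 : ∀ f ∈ N, π f = 1) (S : Type*) [AddCommGroup S] [Module k S]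
    [Module (MonoidAlgebra k H) S] [IsScalarTower k (MonoidAlgebra k H) S] [FiniteDimensional k S] :
    finrank k (Representation.asModule (ρ.comp H.subtype) →ₗ[MonoidAlgebra k H] S) ≤
      finrank k (Fx ρ H) * finrank k S := by
  let σ : Representation k H V := ρ.comp H.subtype
  have hV := count hnil hNF hc hs hf ρ h0
  let τ : Representation k A (V →ₗ[k] S) := ρ.linHom ((Representation.ofModule' S).comp π)
  have h1 := count hnil hNF hc hs hf τ (eq_bot_iff.2 fun f hf => LinearMap.ext fun v => by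
    have := Fintype.ofFinite N
    have e1 : ∑ n : N, ρ n v = 0 := (Submodule.mem_bot k).1 (h0.le fun g => by
      rw [map_sum]
      exact Fintype.sum_equiv (Equiv.mulLeft g) _ _ fun n => rho_mul ρ _ _ _)
    have e2 : ∀ n : N, f (ρ n v) = f v := fun n => by
      simpa [τ, p2 _ (inv_mem n.2)] using LinearMap.congr_fun (hf n⁻¹) v
    have := congrArg f e1
    rw [map_sum, map_zero, Finset.sum_congr rfl fun n _ => e2 n, Finset.sum_const,
      Finset.card_univ, ← Nat.card_eq_fintype_card, ← Nat.cast_smul_eq_nsmul k] at this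
    exact (smul_eq_zero.1 this).resolve_left hc)
  rw [finrank_linearMap, ← hV, mul_assoc] at h1
  rw [← Nat.eq_of_mul_eq_mul_left Nat.card_pos h1]
  refine LinearMap.finrank_le_finrank_of_injective (f := LinearMap.codRestrict (Fx τ H)
    (LinearMap.lcomp k S σ.asModuleEquiv.symm.toLinearMap ∘ₗ
      LinearMap.restrictScalarsₗ k (MonoidAlgebra k H) σ.asModule S k) fun f g => ?_) ?_
  · ext v : 1
    have := f.map_smul (MonoidAlgebra.of k H g) (σ.asModuleEquiv.symm (σ g⁻¹ v))
    rw [← σ.asModuleEquiv_symm_map_rho, rho_mul, mul_inv_cancel, map_one] at this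
    simpa [τ, p1, Representation.ofModule', σ] using this.symm
  · intro f g e
    exact LinearMap.ext fun v => LinearMap.congr_fun (congrArg Subtype.val e) v

/-- Let the finite group A act faithfully and linearly on a finite-dimensional vector space V over a field k, and suppose A is a Frobenius group with nilpotent kernel F (every Frobenius kernel is nilpotent) and complement H such that F fixes no nonzero vector. Then V is free as a module for H: there is a subspace W with V the direct sum of the translates hW, h ∈ H. (No assumption on the characteristic of k.) -/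
theorem result {k V A : Type*} [Field k] [AddCommGroup V] [Module k V] [FiniteDimensional k V] [Group A] [Finite A] [DecidableEq A]
    (ρ : Representation k A V) (hρ : Function.Injective ρ)
    (Fk Hc : Subgroup A) [Fk.Normal] (hHc : Cfsg.IsFrobeniusComplement Hc) (hker : Cfsg.frobeniusKernel Hc = (Fk : Set A)) (hnil : Group.IsNilpotent ↥Fk)
    (hCF : ∀ v : V, (∀ f ∈ Fk, ρ f v = v) → v = 0) :
    ∃ W : Submodule k V, DirectSum.IsInternal (fun h : ↥Hc => W.map (ρ (h : A))) := by
  classical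
  have := Fintype.ofFinite Hc
  obtain ⟨N, hN, hNF, hc, h0⟩ := coprime_part ρ hnil (eq_bot_iff.2 fun v hv => hCF v (mem_Fx.1 hv))
  have hd : ∀ x ∈ Hc, x ∈ Fk → x = 1 := fun x hx hx' =>
    H2.eq_one_of_mem_frobKernel (show x ∈ frobeniusKernel Hc from hker ▸ hx') 1 (by simpa using hx)
  have hC : IsComplement' Hc Fk := isComplement'_of_card_mul_and_disjoint (by
    have := H2.card_frobKernel hHc
    rw [hker] at this
    rw [← Hc.card_mul_index, ← this]; rfl) (disjoint_def.2 fun hx hx' => hd _ hx hx')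
  have hs : ∀ a : A, ∃ f ∈ Fk, ∃ h ∈ Hc, a = f * h := fun a => by
    obtain ⟨⟨f, h⟩, rfl⟩ := hC.symm.2 a
    exact ⟨f, f.2, h, h.2, rfl⟩
  have hf : ∀ h ∈ Hc, h ≠ 1 → ∀ n ∈ N, h * n = n * h → n = 1 := fun h hh h1 n hn e =>
    by_contra fun n1 => h1 (hd h hh (show h ∈ (Fk : Set A) from hker ▸ H2.mem_frobKernel_of_commute
      hHc (show n ∈ frobeniusKernel Hc from hker ▸ hNF hn) n1 e.symm))
  have hV := count hnil hNF hc hs hf ρ h0
  let π : A →* Hc := hC.QuotientMulEquiv.toMonoidHom.comp (QuotientGroup.mk' Fk)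
  have p1 : ∀ h : Hc, π h = h := fun h => hC.QuotientMulEquiv.apply_symm_apply h
  have p2 : ∀ f ∈ N, π f = 1 := fun f hf =>
    (congrArg hC.QuotientMulEquiv ((QuotientGroup.eq_one_iff f).2 (hNF hf))).trans (map_one _)
  let σ : Representation k Hc V := ρ.comp Hc.subtype
  obtain ⟨φ, hφ⟩ := gen (k := k) (R := MonoidAlgebra k Hc) (V := σ.asModule)
    (finrank k (Fx ρ Hc)) fun S => by
    have : FiniteDimensional k S :=
      Module.Finite.of_injective (S.subtype.restrictScalars k) Subtype.val_injective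
    exact hom_le ρ hnil hNF hc hs hf h0 π p1 p2 S
  let W := Submodule.span k (Set.range fun i => σ.asModuleEquiv (φ (Pi.single i 1)))
  have h1 : ⨆ h : Hc, W.map (ρ h) = ⊤ := eq_top_iff.2 fun v _ => by
    obtain ⟨x, hx⟩ := hφ (σ.asModuleEquiv.symm v)
    rw [← σ.asModuleEquiv.apply_symm_apply v, ← hx, ← Finset.univ_sum_single x, map_sum, map_sum]
    refine Submodule.sum_mem _ fun i _ => ?_
    rw [← mul_one (x i), ← smul_eq_mul, Pi.single_smul', map_smul, σ.asModuleEquiv_map_smul]
    induction x i using MonoidAlgebra.induction_on with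
    | of g => exact Submodule.mem_iSup_of_mem g ⟨_, Submodule.subset_span ⟨i, rfl⟩, by simp [σ]⟩
    | add f g hf hg => rw [map_add]; exact add_mem hf hg
    | smul r f hf => rw [map_smul]; exact Submodule.smul_mem _ _ hf
  have h2 : Function.Surjective (DirectSum.coeLinearMap fun h : Hc => W.map (ρ h)) := by
    rw [← LinearMap.range_eq_top, DirectSum.range_coeLinearMap, h1]
  refine ⟨W, (LinearMap.injective_iff_surjective_of_finrank_eq_finrank (le_antisymm ?_
    (LinearMap.finrank_le_finrank_of_surjective h2))).2 h2, h2⟩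
  rw [finrank_directSum, ← hV, Nat.card_eq_fintype_card, ← Finset.card_univ, ← smul_eq_mul]
  exact Finset.sum_le_card_nsmul _ _ _ fun h _ => (Submodule.finrank_map_le _ _).trans
    ((finrank_range_le_card _).trans (Fintype.card_fin _).le)

end Cfsg.Agent.S4396
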