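import Cfsg.Statements.S4398
import Cfsg.Agent.H1.Meta2
import Cfsg.Agent.H6.Count

set_option autoImplicit false
open Cfsg

namespace Cfsg.Agent.S4398



/-- Let S be a finite 2-group of sectional 2-rank at most 2 that contains a subgroup isomorphic to the dihedral group of order 8 or to the quaternion group of order 8. Then S is dihedral of order at least 8, semidihedral of order at least 16 (order 2^(k+4) with an element a of order 2^(k+3) and an involution b with b a b⁻¹ = a^(2^(k+2)−1)), or generalized quaternion of order at least 8. -/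
theorem result {S : Type*} [Group S] [Finite S] (h2 : IsPGroup 2 S) (hr : Cfsg.SectionalPRankLE 2 2 S)
    (hsub : ∃ H : Subgroup S, Nonempty (↥H ≃* DihedralGroup 4) ∨ Nonempty (↥H ≃* QuaternionGroup 2)) :
    ((∃ k : ℕ, Nonempty (S ≃* DihedralGroup (2 ^ (k + 2)))) ∨
      (∃ k : ℕ, Nat.card S = 2 ^ (k + 4) ∧ ∃ a b : S, orderOf a = 2 ^ (k + 3) ∧ orderOf b = 2 ∧ b * a * b⁻¹ = a ^ (2 ^ (k + 2) - 1)) ∨
      (∃ k : ℕ, Nonempty (S ≃* QuaternionGroup (2 ^ (k + 1))))) := by
  open Subgroup in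
  obtain ⟨a, b, hN, hab⟩ := H9.isMetacyclic_iff.1 ((H1.secTwo_of hr).isMetacyclic h2)
  obtain ⟨H, hH8, hna⟩ : ∃ H : Subgroup S, Nat.card H = 8 ∧ ¬ IsMulCommutative H := by
    obtain ⟨H, ⟨⟨e⟩⟩ | ⟨⟨e⟩⟩⟩ := hsub
    · refine ⟨H, by rw [Nat.card_congr e.toEquiv, DihedralGroup.nat_card], fun h => ?_⟩
      have := congrArg e (h.is_comm.comm (e.symm (.r 1)) (e.symm (.sr 0)))
      simp only [map_mul, MulEquiv.apply_symm_apply] at this
      exact absurd this (by decide)
    · refine ⟨H, by rw [Nat.card_congr e.toEquiv, Nat.card_eq_fintype_card, QuaternionGroup.card],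
        fun h => ?_⟩
      have := congrArg e (h.is_comm.comm (e.symm (.a 1)) (e.symm (.xa 0)))
      simp only [map_mul, MulEquiv.apply_symm_apply] at this
      exact absurd this (by decide)
  have hq : IsCyclic (S ⧸ zpowers a) := H9.isCyclic_quotient_of_sup hab
  have h1 : ¬ (zpowers a).subgroupOf H ≤ center H := fun h =>
    hna ⟨⟨commutative_of_cyclic_center_quotient ((QuotientGroup.mk' (zpowers a)).comp H.subtype)
      (by rwa [← MonoidHom.comap_ker, QuotientGroup.ker_mk'])⟩⟩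
  obtain ⟨u, hu, huZ⟩ := SetLike.not_le_iff_exists.1 h1
  obtain ⟨h, hh⟩ := not_forall.1 (mt mem_center_iff.2 huZ)
  have huh : ¬ Commute (h : S) u := fun e => hh (Subtype.ext e)
  have hu' : (u : S) ∈ zpowers a := hu
  have hcomm : ∀ x ∈ zpowers a, ∀ y ∈ zpowers a, Commute x y := by
    rintro _ ⟨i, rfl⟩ _ ⟨j, rfl⟩; exact (Commute.refl a).zpow_zpow i j
  have hhN : (h : S) ∉ zpowers a := fun e => huh (hcomm _ e _ hu')
  have hu2 : (u : S) ^ 2 ≠ 1 := fun e => huh (by
    have e1 : (h : S) * u * (h : S)⁻¹ ∈ zpowers a := hN.conj_mem _ hu' _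
    have hu1 : (u : S) ≠ 1 := fun e => huh (e ▸ Commute.one_right _)
    have ho := orderOf_eq_prime e hu1
    exact mul_inv_eq_iff_eq_mul.1 (H6.ord2_unique_zpowers e1 hu'
      (((MulAut.conj (h : S)).orderOf_eq u).trans ho) ho))
  have hK := H1.card_mul_relIndex (inf_le_right : zpowers a ⊓ H ≤ H)
  have hr1 : (zpowers a ⊓ H).relIndex H ≠ 1 := fun e => hhN (relIndex_eq_one.1 e h.2).1
  have hdv := orderOf_dvd_natCard (⟨u, hu', u.2⟩ : (zpowers a ⊓ H : Subgroup S))
  rw [← Subgroup.orderOf_coe] at hdv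
  obtain ⟨i, hi, e1⟩ := (Nat.dvd_prime_pow Nat.prime_two (m := 3)).1
    (Dvd.intro _ (hK.trans hH8))
  obtain ⟨j, hj, e2⟩ := (Nat.dvd_prime_pow Nat.prime_two).1 (e1 ▸ hdv)
  have hj2 : 2 ≤ j := by
    by_contra h3
    exact hu2 (orderOf_dvd_iff_pow_eq_one.1 (e2 ▸ (pow_dvd_pow 2 (by omega : j ≤ 1))))
  rw [e1, hH8] at hK
  have hi2 : i = 2 := by
    by_contra h3
    obtain rfl : i = 3 := by omega
    omega
  subst hi2
  obtain rfl : j = 2 := by omega
  have h3 : (h : S) ^ 2 ∈ zpowers a :=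
    (sq_mem_of_index_two (H := (zpowers a ⊓ H).subgroupOf H) (by change (zpowers a ⊓ H).relIndex H = 2; omega) h).1
  have e2 : orderOf (u : S) = 4 := e2
  obtain ⟨m, hm⟩ := IsPGroup.iff_orderOf.1 h2 a
  have hm2 : 2 ≤ m := (Nat.pow_dvd_pow_iff_le_right one_lt_two).1
    (hm ▸ (show 2 ^ 2 = orderOf (u : S) from e2.symm) ▸ orderOf_dvd_of_mem_zpowers hu')
  obtain ⟨m, rfl⟩ := Nat.exists_eq_add_of_le' hm2
  have h4 := H9.zpow_mem_zpowers_of_pow_eq_one hm hu' (orderOf_dvd_iff_pow_eq_one.1 e2.dvd)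
  have hun : ∀ g, g ∈ normalizer (zpowers (u : S) : Set S) := fun g => by
    have : zpowers (u : S) = zpowers (a ^ 2 ^ m) := eq_of_le_of_card_ge (zpowers_le.2 h4) (by
      rw [Nat.card_zpowers, Nat.card_zpowers, H9.orderOf_pow_prime_pow hm, e2]; rfl)
    rw [this]
    haveI := H9.normal_zpowers_pow (a := a) (2 ^ m)
    exact le_normalizer_of_normal (mem_top g)
  obtain ⟨g, hg⟩ := hq.exists_generator
  obtain ⟨k, hk⟩ := hg (h : S)
  obtain ⟨g, rfl⟩ := QuotientGroup.mk_surjective g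
  have h5 : ¬ (2 : ℤ) ∣ k := by
    rintro ⟨k, rfl⟩
    have e3 : (g ^ (2 * k))⁻¹ * h ∈ zpowers a := QuotientGroup.eq.1 hk
    have e4 : Commute (g ^ 2) u := by
      rw [← commutatorElement_eq_one_iff_commute, commutatorElement_def, mul_inv_eq_one]
      calc g ^ 2 * u * (g ^ 2)⁻¹ = g * (g * u * g⁻¹) * g⁻¹ := by simp only [sq]; group
        _ = u := by
          rcases H9.conj_order_four e2 (hun g) with e | e
          · rw [e, e]
          · rw [e, ← conj_inv, e, inv_inv]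
    have := (e4.zpow_left k).mul_left (hcomm _ e3 _ hu')
    rw [← zpow_ofNat, ← zpow_mul, mul_inv_cancel_left] at this
    exact huh this
  have h6 : (zpowers a).index = 2 := by
    have e3 : (g : S ⧸ zpowers a) ∈ zpowers ((h : S) : S ⧸ zpowers a) :=
      H9.mem_of_zpow_mem_of_isPGroup (h2.to_quotient _) h5 (by simp only at hk; rw [hk]; exact mem_zpowers _)
    have e4 : zpowers ((h : S) : S ⧸ zpowers a) = ⊤ :=
      eq_top_iff.2 fun x _ => zpowers_le.2 e3 (hg x)
    rw [index, ← card_top, ← e4, Nat.card_zpowers]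
    exact orderOf_eq_prime ((QuotientGroup.eq_one_iff _).2 h3) (mt (QuotientGroup.eq_one_iff _).1 hhN)
  obtain ⟨i, hi⟩ := h4
  rcases H9.dqs_or_modular hm h6 (b := (h : S)) fun e : Commute a h => huh (by
    rw [← hi]; exact ((e.pow_left _).zpow_left i).symm) with h7 | ⟨h7, h8⟩
  · exact h7.iso
  · refine (huh ?_).elim
    obtain ⟨m, rfl⟩ := Nat.exists_eq_add_of_le' (show 1 ≤ m by omega)
    rw [← hi]
    refine Commute.zpow_right (mul_inv_eq_iff_eq_mul.1 ?_) _
    rw [← conj_pow, h8, ← pow_mul, add_mul, one_mul, pow_add a, ← pow_add 2,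
      show m + 1 + 2 - 1 + (m + 1) = (m + 1 + 2) + m by omega, pow_add 2 _ m, pow_mul, ← hm,
      pow_orderOf_eq_one, one_pow, mul_one]

end Cfsg.Agent.S4398
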