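import Cfsg.Statements.S4401
import Cfsg.Agent.H12.SR

set_option autoImplicit false
open Cfsg

namespace Cfsg.Agent.S4401

open H12.SR H16 Subgroup

/-- Let S be a finite 2-group of sectional 2-rank at most 4 and P a proper non-abelian subgroup whose centre has order 2. Let S₀ be the centralizer in S of Z(P) and suppose P is normal in S₀. Then either S₀ = S, or P has sectional 2-rank at most 2 and S₀ has index 2 in S. -/
theorem result {S : Type*} [Group S] [Finite S] (h2 : IsPGroup 2 S) (hr : Cfsg.SectionalPRankLE 2 4 S)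
    (P : Subgroup S) (hPlt : P ≠ ⊤) (hP : ¬ IsMulCommutative ↥P) (hZP : Nat.card ↥(Subgroup.center ↥P) = 2)
    (S₀ : Subgroup S) (hS₀ : S₀ = Subgroup.centralizer (((Subgroup.center ↥P).map P.subtype : Subgroup S) : Set S))
    (hPn : ∀ s ∈ S₀, ∀ x ∈ P, s * x * s⁻¹ ∈ P) :
    S₀ = ⊤ ∨ (Cfsg.SectionalPRankLE 2 2 ↥P ∧ S₀.index = 2) := by
  have := Fact.mk Nat.prime_two
  rw [center_map] at hS₀
  rw [card_center] at hZP
  have hN : S₀ ≤ N[P] := le_norm_iff.2 hPn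
  have hPS : P ≤ S₀ := hS₀ ▸ cent_symm inf_le_right
  have zc : ∀ x, (P :^ x) ⊓ C[P :^ x] = (P ⊓ C[P]) :^ x := fun x => by rw [cj_inf, cent_cj]
  have nZ : ∀ x, x ∈ N[P ⊓ C[P]] → x ∈ S₀ := fun x hx => by
    obtain ⟨z, hz, z1⟩ := exists_ne_one (ne_bot_of_card Nat.prime_two hZP)
    rw [hS₀, ← cent1_eq_of_prime (hZP ▸ Nat.prime_two) hz z1, mem_cent1, ← mul_inv_eq_iff_eq_mul]
    obtain ⟨y, -, hy⟩ := (Nat.card_eq_two_iff' (1 : ↥(P ⊓ C[P]))).1 hZP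
    exact congrArg Subtype.val ((hy ⟨_, conj_mem hx hz⟩ fun e => z1 (H16.conj_eq_one_iff.1 (congrArg Subtype.val e))).trans
      (hy ⟨z, hz⟩ fun e => z1 (congrArg Subtype.val e)).symm)
  have key : ∀ x ∈ N[S₀], ∀ y ∈ N[S₀], y⁻¹ * x ∉ S₀ →
      P :^ x ≤ C[P :^ y] ∧ P :^ x ⊓ P :^ y = ⊥ ∧ S₀ ⊓ C[P :^ x ⊔ P :^ y] ≤ P :^ x ⊔ P :^ y := fun x hx y hy e =>
    two_normal h2 hr (cj_le_of_norm hx hPS) (cj_le_of_norm hy hPS) (cj_norm hx ▸ norm_cj_le hN x)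
      (cj_norm hy ▸ norm_cj_le hN y) (mt (comm_cj x).1 hP) (mt (comm_cj y).1 hP) (by rw [zc, card_cj, hZP])
      (by rw [zc, card_cj, hZP]) (by rw [zc, zc]; exact fun e' => e (nZ _ (cj_eq_cj_iff.1 e')))
  have key1 : ∀ x ∈ N[S₀], x ∉ S₀ → P ≤ C[P :^ x] ∧ P ⊓ P :^ x = ⊥ ∧ S₀ ⊓ C[P ⊔ P :^ x] ≤ P ⊔ P :^ x := fun x hx e => by
    simpa only [cj_one] using key 1 (one_mem _) x hx (by simpa using e)
  have i2 : ∀ x ∈ N[S₀], x ∉ S₀ → ∀ y ∈ N[S₀], y ∉ S₀ → x⁻¹ * y ∈ S₀ := fun x hx x1 y hy y1 => by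
    by_contra e
    have h3 := le_cent_sup (cent_symm (key1 y hy y1).1) (key y hy x hx e).1
    exact hP ((comm_cj y).1 (comm_iff.2 (h3.trans (cent_anti
      ((le_inf (cj_le_of_norm hy hPS) h3).trans (key1 x hx x1).2.2)))))
  refine or_iff_not_imp_left.2 fun hne => ?_
  obtain ⟨x, -, hx, x1⟩ := H11.exists_mem_normalizer_of_lt (h2.to_subgroup ⊤) (lt_top_iff_ne_top.2 hne)
  refine ⟨sec_of fun H N h3 h4 h5 => ?_, ?_⟩
  · obtain ⟨k1, k2, -⟩ := key1 x hx x1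
    have := sec_le hr _ _ (sq_prod (h3.trans (k1.trans (cent_anti (cj_mono x h3)))) h5 (B := N :^ x) fun y hy => by
      rw [mem_cj] at hy ⊢
      simpa [sq, mul_assoc] using h5 _ hy)
    rw [relIndex_prod h4 (cj_mono x h4) (h3.trans (k1.trans (cent_anti (cj_mono x h3))))
      (eq_bot_of_le k2 (inf_le_inf h3 (cj_mono x h3))), relIndex_cj] at this
    nlinarith
  have h3 : N[S₀] = ⊤ := by
    by_contra e
    obtain ⟨y, -, hy, y1⟩ := H11.exists_mem_normalizer_of_lt (h2.to_subgroup ⊤) (lt_top_iff_ne_top.2 e)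
    obtain ⟨z, hz, z1⟩ := exists_ne_one (ne_bot_of_card Nat.prime_two hZP)
    have e1 : S₀ :^ y = C1[y * z * y⁻¹] := by rw [cent1_cj, cent1_eq_of_prime (hZP ▸ Nat.prime_two) hz z1, hS₀]
    have e2 : S₀ :^ y ≤ N[S₀] := cj_le_of_norm hy (le_norm _)
    have e3 : ∀ a ∈ N[S₀], a ∉ C1[y * z * y⁻¹] → ∀ b ∈ N[S₀], b ∉ C1[y * z * y⁻¹] → a⁻¹ * b ∈ C1[y * z * y⁻¹] := by
      simp only [← e1, mem_cj]
      intro a ha a1 b hb b1
      simpa [mul_assoc] using i2 _ (conj_mem' hy ha) a1 _ (conj_mem' hy hb) b1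
    have e4 : ¬ S₀ ≤ S₀ :^ y := fun e => y1 (cj_eq_self_iff.1 (eq_of_le_of_card e (card_cj _ _).le).symm)
    obtain ⟨x, x2, x1⟩ : ∃ x ∈ S₀ :^ y, x ∉ S₀ := SetLike.not_le_iff_exists.1 fun e => y1 (mem_norm_of_cj_le e)
    have hx := e2 x2
    obtain ⟨k1, k2, k3⟩ := key1 x hx x1
    rw [e1] at x2 e2 e4
    generalize y * z * y⁻¹ = w at *
    have hw := e2 (cent1_self w)
    have PN : ∀ a ∈ P, a ∈ N[S₀] := fun a ha => le_norm _ (hPS ha)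
    by_cases w1 : w ∈ S₀
    · by_cases w2 : P ≤ C1[w]
      · have h4 := le_cent1.1 (sup_le w2 (cj_le_of_mem x2 w2))
        refine e4 (le_cent1.2 (sup_le (cent_symm hS₀.le) ?_ (center_prod k1 ⟨k3 ⟨w1, h4⟩, h4⟩)))
        rw [zc, ← cj_norm hx]
        exact cent_cj_le (cent_symm hS₀.le) x
      obtain ⟨a, ha, a1⟩ := SetLike.not_le_iff_exists.1 w2
      have h4 := mem_cent1.1 (e3 a (PN a ha) a1 (x * a * x⁻¹) (mul_mem (mul_mem hx (PN a ha)) (inv_mem hx))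
        fun e => a1 ((mul_mem_cancel_left x2).1 ((mul_mem_cancel_right (inv_mem x2)).1 e)))
      have h5 : x * a * x⁻¹ ∈ P :^ x := cj_mem ha
      generalize x * a * x⁻¹ = b at *
      have h6 : a * (w * a⁻¹ * w⁻¹) = b * (w * b⁻¹ * w⁻¹) := by
        rw [show b * (w * b⁻¹ * w⁻¹) = a * (a⁻¹ * b * w) * b⁻¹ * w⁻¹ by group, h4]; group
      have h7 := eq_one_of_mem_bot k2 (mem_inf.2 ⟨mul_mem ha (conj_mem (hN w1) (inv_mem ha)),
        h6 ▸ mul_mem h5 (conj_mem ((cj_norm hx ▸ norm_cj_le hN x) w1) (inv_mem h5))⟩)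
      exact a1 (mem_cent1.2 (by rw [show a * w = a * (w * a⁻¹ * w⁻¹) * (w * a) by group, h7, one_mul]))
    · have h4 : ∀ a ∈ P, a ∈ C1[w] → a = 1 := fun a ha a1 => eq_one_of_mem_bot (key1 w hw w1).2.1
        (mem_inf.2 ⟨ha, mem_cj.2 (by rwa [mul_assoc, mem_cent1.1 a1, inv_mul_cancel_left])⟩)
      refine hP (comm_iff.2 fun a ha => mem_cent.2 fun b hb => ?_)
      by_cases a1 : a ∈ C1[w]
      · simp [h4 a ha a1]
      by_cases b1 : b ∈ C1[w]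
      · simp [h4 b hb b1]
      rw [inv_mul_eq_one.1 (h4 _ (mul_mem (inv_mem ha) hb) (e3 a (PN a ha) a1 b (PN b hb) b1))]
  refine index_eq_two_iff.2 ⟨x, fun b => ?_⟩
  by_cases hb : b ∈ S₀
  · exact Or.inr ⟨hb, fun e => x1 ((mul_mem_cancel_left hb).1 e)⟩
  · exact Or.inl ⟨by simpa using i2 b⁻¹ (h3 ▸ mem_top _) (by simpa using hb) x hx x1, hb⟩

end Cfsg.Agent.S4401
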