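import Cfsg.Statements.S4402
import Cfsg.Agent.H10.Wr3

set_option autoImplicit false
open Cfsg H10

namespace Cfsg.Agent.S4402

open Subgroup H10.Wr

/-- Let S be a finite 2-group of sectional 2-rank at most 4 and P a proper subgroup isomorphic to the wreath product of the dihedral group of order 8 by a group of order 2 (equivalently, to a Sylow 2-subgroup of the symmetric group of degree 8; order 128). Then Z(S) = Z(P) has order 2, P has index 2 in its normalizer N_S(P), N_S(P)/Z(S) is again isomorphic to that wreath product, and every elementary abelian subgroup V of order 16 that is normal in P satisfies N_S(V) = P. -/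
theorem result {S : Type*} [Group S] [Finite S] (h2 : IsPGroup 2 S) (hr : Cfsg.SectionalPRankLE 2 4 S)
    (P : Subgroup S) (hPlt : P ≠ ⊤) (hP : ∃ T : Sylow 2 (Equiv.Perm (Fin 8)), Nonempty (↥P ≃* ↥(T : Subgroup (Equiv.Perm (Fin 8))))) :
    Subgroup.center S = (Subgroup.center ↥P).map P.subtype ∧ Nat.card ↥(Subgroup.center S) = 2 ∧
    P.relIndex (Subgroup.normalizer (P : Set S)) = 2 ∧
    (∃ (_ : ((Subgroup.center S).subgroupOf (Subgroup.normalizer (P : Set S))).Normal) (T : Sylow 2 (Equiv.Perm (Fin 8))),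
      Nonempty (↥(Subgroup.normalizer (P : Set S)) ⧸ (Subgroup.center S).subgroupOf (Subgroup.normalizer (P : Set S)) ≃*
        ↥(T : Subgroup (Equiv.Perm (Fin 8))))) ∧
    ∀ V : Subgroup S, V ≤ P → (∀ g ∈ P, ∀ v ∈ V, g * v * g⁻¹ ∈ V) → Cfsg.IsElementaryAbelian 2 V → Nat.card ↥V = 16 →
      Subgroup.normalizer (V : Set S) = P := by
  obtain ⟨T, ⟨e0⟩⟩ := hP
  obtain ⟨e1⟩ := iso_M T
  let e : M ≃* P := e1.trans e0.symm
  let N := normalizer (P : Set S)
  have hle : P ≤ N := le_normalizer
  let φ : M →* N := (inclusion hle).comp e.toMonoidHom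
  have hφ : Function.Injective φ := (inclusion_injective hle).comp e.injective
  let ρ : N →* MulAut M := (MulAut.congr e.symm).toMonoidHom.comp P.normalizerMonoidHom
  have hρ : ∀ x m, φ (ρ x m) = x * φ m * x⁻¹ := fun x m => Subtype.ext (by
    change ((e (e.symm (P.normalizerMonoidHom x (e.symm.symm m))) : P) : S) = _
    rw [MulEquiv.apply_symm_apply]
    rfl)
  have h2' : IsPGroup 2 N := h2.to_subgroup N
  have hr' : SectionalPRankLE 2 4 N := H12.SR.sec_of fun H K _ _ h => H12.SR.sec_le hr H K h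
  have hR : ∀ x : N, x ∈ φ.range ↔ (x : S) ∈ P := fun x =>
    ⟨by rintro ⟨m, rfl⟩; exact (e m).2, fun h => ⟨e.symm ⟨x, h⟩, Subtype.ext (by
      change ((e (e.symm _) : P) : S) = _
      rw [MulEquiv.apply_symm_apply])⟩⟩
  have hR' : φ.range = P.subgroupOf N := Subgroup.ext hR
  have hne : φ.range ≠ ⊤ := fun h => by
    obtain ⟨x, -, hx, hx'⟩ := H11.exists_mem_normalizer_of_lt (h2.to_subgroup ⊤) (lt_top_iff_ne_top.2 hPlt)
    exact hx' ((hR ⟨x, hx⟩).1 (h ▸ mem_top _))
  have hi := idx h2' hr' hφ hρ hne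
  let z : S := φ ZZ
  have hz1 : z ≠ 1 := fun h => ZZ_ne (hφ (Subtype.ext (h.trans (by simp))))
  have hC : ∀ x ∈ center S, x = 1 ∨ x = z := fun x hx => by
    have hxN : x ∈ N := center_le_normalizer P hx
    have : (⟨x, hxN⟩ : N) ∈ (psi ρ).ker := MonoidHom.mem_ker.2 (Equiv.ext fun w => Subtype.ext (hφ (by
      change φ (ρ _ w) = φ w
      rw [hρ]
      exact Subtype.ext (by simp [← mem_center_iff.1 hx]))))
    exact ((ker_psi h2' hr' hφ hρ _).1 this).imp (congrArg Subtype.val) (congrArg Subtype.val)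
  have hzC : z ∈ center S := by
    have : Nontrivial S := ⟨z, 1, hz1⟩
    have := Fact.mk Nat.prime_two
    obtain ⟨⟨x, hx⟩, hx1⟩ := @exists_ne _ h2.center_nontrivial 1
    rcases hC x hx with rfl | rfl
    · exact (hx1 rfl).elim
    · exact hx
  have hC' : ∀ x, x ∈ center S ↔ x = 1 ∨ x = z := fun x =>
    ⟨hC x, by rintro (rfl | rfl); exacts [one_mem _, hzC]⟩
  have c2 : Nat.card (center S) = 2 := by
    have : (center S : Set S) = {1, z} := Set.ext hC'
    change Nat.card (center S : Set S) = 2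
    rw [this, Nat.card_coe_set_eq, Set.ncard_pair hz1.symm]
  have hCN : center S ≤ N := fun x hx => center_le_normalizer P hx
  have hk : (center S).subgroupOf N = (psi ρ).ker := Subgroup.ext fun x => by
    rw [mem_subgroupOf, hC', ker_psi h2' hr' hφ hρ, Subtype.ext_iff, Subtype.ext_iff]
    rfl
  refine ⟨le_antisymm (fun x hx => ?_) ?_, c2, by rwa [hR'] at hi, ?_, fun V hV hn hE h16 => ?_⟩
  · have hxP : x ∈ P := by
      rcases hC x hx with rfl | rfl
      exacts [one_mem _, (e ZZ).2]
    exact ⟨⟨x, hxP⟩, mem_center_iff.2 fun g => Subtype.ext (mem_center_iff.1 hx g), rfl⟩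
  · rintro _ ⟨x, hx, rfl⟩
    obtain ⟨m, rfl⟩ := e.surjective x
    have k : ∀ g, g * m = m * g := fun g => e.injective (by
      rw [map_mul, map_mul]; exact mem_center_iff.1 hx _)
    rcases cen_of m (k _) (k _) (k _) with rfl | rfl
    · simp
    · exact hzC
  · have c3 : Nat.card N = 256 := by
      rw [← card_mul_index φ.range, hi, ← Nat.card_congr (MonoidHom.ofInjective hφ).toEquiv, M.card]
    have c4 : Nat.card (psi ρ).ker = 2 := by
      rw [← hk, ← c2]; exact Nat.card_congr (subgroupOfEquivOfLe hCN).toEquiv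
    have c5 := card_mul_index (psi ρ).ker
    rw [c3, c4, index_ker] at c5
    obtain ⟨T', ⟨f⟩⟩ := syl card_O (psi ρ) (by omega)
    exact ⟨hk ▸ inferInstance, T', ⟨(QuotientGroup.quotientMulEquivOfEq hk).trans
      ((QuotientGroup.quotientKerEquivRange _).trans f)⟩⟩
  · let ψ : M →* S := P.subtype.comp e.toMonoidHom
    have hψ : Function.Injective ψ := P.subtype_injective.comp e.injective
    have hVr : V ≤ ψ.range := fun v hv => ⟨e.symm ⟨v, hV hv⟩, by simp [ψ]⟩
    have hW := e16 (V.comap ψ) (fun g v hv => by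
        rw [mem_comap, map_mul, map_mul, map_inv]; exact hn _ (e g).2 _ hv)
      (fun u hu v hv => hψ (by
        rw [map_mul, map_mul]
        exact congrArg Subtype.val (hE.1.is_comm.comm (⟨_, hu⟩ : V) ⟨_, hv⟩)))
      (fun v hv => hψ (by rw [map_mul, map_one, ← sq]; exact hE.2 _ hv))
      (by rw [← card_map_of_injective hψ, map_comap_eq_self hVr, h16])
    have hPV : P ≤ normalizer (V : Set S) := fun g hg => mem_normalizer_fintype fun v hv => hn g hg v hv
    by_contra hne'
    obtain ⟨x, hxV, hx, hx'⟩ := H11.exists_mem_normalizer_of_lt (h2.to_subgroup _)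
      (lt_of_le_of_ne hPV (Ne.symm hne'))
    have h3 := p3_not (p3 h2' hr' hφ hρ (x := ⟨x, hx⟩) fun h => hx' ((hR _).1 h))
    have h4 : ∀ m ∈ V.comap ψ, ρ ⟨x, hx⟩ m ∈ V.comap ψ := fun m hm => by
      have := congrArg Subtype.val (hρ ⟨x, hx⟩ m)
      change ψ _ = x * ψ m * x⁻¹ at this
      rw [mem_comap, this]
      exact (mem_normalizer_iff.1 hxV _).1 hm
    rcases hW with h | h <;> rw [h] at h4
    exacts [h3.1 h4, h3.2 h4]

end Cfsg.Agent.S4402
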