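import Cfsg.Statements.S4403
import Cfsg.Agent.H1.CycSyl

set_option autoImplicit false
open Cfsg

namespace Cfsg.Agent.S4403

/-- Let K be a finite group, p a prime dividing its order with O_{p'}(K) = 1 (no nontrivial normal subgroup of order prime to p), and P a cyclic Sylow p-subgroup of K. Then either P is normal and self-centralizing in K with K/P cyclic of order dividing p − 1 (so K is the semidirect product of P by a group of automorphisms of P of order dividing p − 1), or the generalized Fitting subgroup F*(K) is a non-abelian simple group and p does not divide the index of F*(K) in K. -/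
theorem result {K : Type*} [Group K] [Finite K] (p : ℕ) [Fact p.Prime] (hp : p ∣ Nat.card K) (hO : Cfsg.pPrimeCore p K = ⊥)
    (P : Sylow p K) (hP : IsCyclic ↥(P : Subgroup K)) :
    ((P : Subgroup K).Normal ∧ Subgroup.centralizer ((P : Subgroup K) : Set K) = (P : Subgroup K) ∧
      (∀ (_ : (P : Subgroup K).Normal), IsCyclic (K ⧸ (P : Subgroup K))) ∧ (P : Subgroup K).index ∣ p - 1) ∨
    (IsSimpleGroup ↥(Cfsg.generalizedFittingSubgroup K) ∧ ¬ IsMulCommutative ↥(Cfsg.generalizedFittingSubgroup K) ∧
      ¬ p ∣ (Cfsg.generalizedFittingSubgroup K).index) := by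
  by_cases h : pCore p K = ⊥
  · obtain ⟨h1, h2, h3⟩ := H1.cyclic_sylow_simple hO hp P hP h
    exact Or.inr ⟨h1, h2, fun h4 => P.not_dvd_index (h4.trans (Subgroup.index_dvd_of_le h3))⟩
  · obtain ⟨Z, _, h1, h2, h3⟩ := H1.cyclic_sylow_normal hO P hP h
    obtain ⟨h4, h5⟩ := H1.quotient_centralizer_prime Fact.out h1
    refine Or.inl ⟨h2 ▸ inferInstance, le_antisymm ((Subgroup.centralizer_le h3).trans h2.le)
      (P : Subgroup K).le_centralizer, fun _ => ?_, h2 ▸ h5⟩
    have e := QuotientGroup.quotientMulEquivOfEq h2
    exact isCyclic_of_surjective e e.surjective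

end Cfsg.Agent.S4403
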