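import Cfsg.Statements.S4405
import Cfsg.Agent.H6.Baer
import Cfsg.Agent.H6.Act
import Cfsg.Agent.H1.Solvable
import Cfsg.Agent.H1.Frattini
import Cfsg.Agent.H17.Central

set_option autoImplicit false
open Cfsg

namespace Cfsg.Agent.S4405

/-- Let G be a finite group of order 320 = 64·5 whose largest normal 2-subgroup H = O₂(G) equals the Fitting subgroup F(G) and is extraspecial of order 32 containing no elementary abelian subgroup of order 8 (so H is the central product of a quaternion group and a dihedral group of order 8). If T is an involution of G outside H whose centralizer in H contains an elementary abelian subgroup of order 4, then C_H(T) itself is elementary abelian of order 4. -/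
theorem result {G : Type*} [Group G] [Finite G]
    (hG : Nat.card G = 320) (hHF : Cfsg.pCore 2 G = Cfsg.fittingSubgroup G)
    (hex : Cfsg.IsExtraspecial 2 ↥(Cfsg.pCore 2 G)) (h32 : Nat.card ↥(Cfsg.pCore 2 G) = 32)
    (hminus : ∀ A : Subgroup G, A ≤ Cfsg.pCore 2 G → Cfsg.IsElementaryAbelian 2 A → Nat.card ↥A ≤ 4)
    (T : G) (hT : orderOf T = 2) (hTH : T ∉ Cfsg.pCore 2 G)
    (V : Subgroup G) (hV : V ≤ Cfsg.pCore 2 G ⊓ Subgroup.centralizer ({T} : Set G)) (hV4 : Nat.card ↥V = 4) (hVe : Cfsg.IsElementaryAbelian 2 V) :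
    Nat.card ↥(Cfsg.pCore 2 G ⊓ Subgroup.centralizer ({T} : Set G)) = 4 ∧
      Cfsg.IsElementaryAbelian 2 (Cfsg.pCore 2 G ⊓ Subgroup.centralizer ({T} : Set G)) := by
  set H := pCore 2 G with hH
  have : Fact (Nat.Prime 5) := ⟨by norm_num⟩
  have := H17.isSolvable_of_two_primes (G := G) Nat.prime_two this.out fun r hr h => by
    rw [hG, show 320 = 2 ^ 6 * 5 from rfl, hr.dvd_mul] at h
    exact h.imp (fun h => (Nat.prime_dvd_prime_iff_eq hr Nat.prime_two).1 (hr.dvd_of_dvd_pow h))
      (Nat.prime_dvd_prime_iff_eq hr this.out).1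
  obtain ⟨P⟩ : Nonempty (Sylow 2 G) := inferInstance
  obtain ⟨y, y1, yo, hy, -⟩ := H6.exists_odd_inverted hT P fun h =>
    hTH (H1.le_pCore (P.isPGroup'.to_le (P : Subgroup G).normalCore_le) h)
  have y5 : y ^ 5 = 1 := orderOf_dvd_iff_pow_eq_one.1 ((Nat.Coprime.pow_right 6
    (Nat.coprime_two_right.2 yo)).dvd_of_dvd_mul_left ((orderOf_dvd_natCard y).trans hG.dvd))
  obtain ⟨⟨hp, hF, hc⟩, hZ⟩ := hex
  let α : MulAut H := MulAut.conjNormal y
  let τ : MulAut H := MulAut.conjNormal T
  have a5 : α ^ 5 = 1 := by rw [← map_pow, y5, map_one]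
  have t2 : ∀ x, τ (τ x) = x := fun x => by
    rw [← MulAut.mul_apply, ← map_mul, ← pow_two, orderOf_dvd_iff_pow_eq_one.1 hT.dvd, map_one,
      MulAut.one_apply]
  have ta : ∀ x, τ (α x) = α (α (α (α (τ x)))) := fun x => by
    have : T * y = y * y * y * y * T := by
      rw [← mul_inv_eq_iff_eq_mul, hy, inv_eq_iff_mul_eq_one, ← y5]; simp [pow_succ, mul_assoc]
    simp only [← MulAut.mul_apply, α, τ, ← map_mul, this, mul_assoc]
  obtain ⟨z, z1, hz⟩ := (Nat.card_eq_two_iff' (1 : Subgroup.center H)).1 hZ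
  have zc : ∀ (β : MulAut H) (x), x ∈ Subgroup.center H → β x = x := fun β x hx => by
    by_cases h : x = 1
    · rw [h, map_one]
    have h1 : β x ∈ Subgroup.center H := Subgroup.mem_center_iff.2 fun g => by
      obtain ⟨g, rfl⟩ := β.surjective g
      rw [← map_mul, ← map_mul, Subgroup.mem_center_iff.1 hx]
    exact congrArg Subtype.val ((hz ⟨_, h1⟩ fun e => h (β.injective ((congrArg Subtype.val e).trans
      (map_one β).symm))).trans (hz ⟨x, hx⟩ fun e => h (congrArg Subtype.val e)).symm)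
  let D := MonoidHom.eqLocus α.toMonoidHom (MonoidHom.id H)
  have hD : D = Subgroup.center H := by
    refine (Subgroup.eq_of_le_of_card_ge (fun x => zc α x) ?_).symm
    have h1 : Nat.card H ≡ Nat.card D [MOD 5] := H6.card_modEq_fixedBy (G := MulAut H) (g := α) (k := 1) a5
    have h2 : D ≠ ⊤ := fun h => by
      have : y ∈ H := hHF ▸ H1.centralizer_fitting_le (hHF ▸ fun x hx => (mul_inv_eq_iff_eq_mul.1
        (congrArg Subtype.val (show α ⟨x, hx⟩ = _ from (h ▸ Subgroup.mem_top _ : ⟨x, hx⟩ ∈ D)))).symm)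
      have := (Nat.Coprime.pow_right 5 (Nat.coprime_two_right.2 yo)).eq_one_of_dvd
        ((Subgroup.orderOf_dvd_natCard H this).trans h32.dvd)
      exact y1 (orderOf_eq_one_iff.1 this)
    obtain ⟨k, hk, e⟩ := (Nat.dvd_prime_pow Nat.prime_two (m := 5)).1 (h32 ▸ D.card_subgroup_dvd_card)
    have h3 := mt (D.eq_top_of_card_eq) h2
    rw [h32, e] at h1 h3
    rw [hZ, e]
    interval_cases k <;> simp_all [Nat.ModEq]
  have sq : ∀ c : H, τ c = c → c ^ 2 = 1 := fun c h => by
    let f := QuotientGroup.mk' (Subgroup.center H)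
    obtain ⟨cm, ex⟩ := (H1.frattini_eq_bot_iff (hp.to_quotient (Subgroup.center H))).1
      (by rw [← H1.map_frattini_of_isPGroup hp (QuotientGroup.mk'_surjective _), hF,
        QuotientGroup.map_mk'_self])
    let _ : CommGroup (H ⧸ Subgroup.center H) := { mul_comm := mul_comm' }
    have a5' : ∀ x, α (α (α (α (α x)))) = x := fun x => DFunLike.congr_fun a5 x
    set N := c * α c * α (α c) * α (α (α c)) * α (α (α (α c))) with hN
    have h1 : N⁻¹ * α N ∈ Subgroup.center H := QuotientGroup.eq.1 (show f N = f (α N) by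
      simp only [hN, map_mul, a5']; ac_rfl)
    have h2 : f N = 1 := (QuotientGroup.eq_one_iff _).2 (hD ▸ by
      have h3 : ∀ i : ℕ, (α ^ i) N = N * (N⁻¹ * α N) ^ i := fun i => by
        induction i with
        | zero => simp
        | succ i ih => rw [pow_succ', MulAut.mul_apply, ih, map_mul, map_pow, zc α _ h1, pow_succ',
            ← mul_assoc, mul_inv_cancel_left]
      have h4 : (N⁻¹ * α N) ^ 2 = 1 := congrArg Subtype.val
        (hZ ▸ pow_card_eq_one' (x := (⟨_, h1⟩ : Subgroup.center H)))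
      have := h3 5
      rw [a5, pow_succ, pow_mul _ 2 2, h4] at this
      simpa using! this.symm)
    set k := α c * α (α c) with hk
    have h3 : c * (k⁻¹ * τ k) ∈ Subgroup.center H := (QuotientGroup.eq_one_iff _).1 (show f _ = 1 by
      rw [map_mul, map_mul, map_inv, inv_eq_of_mul_eq_one_left ((pow_two _).symm.trans (ex _)), ← h2]
      simp only [hN, hk, map_mul, ta, a5', h]; ac_rfl)
    have h4 := zc τ _ h3
    rw [map_mul, h, mul_left_cancel_iff, map_mul, map_inv, t2] at h4
    have h5 : (c * (k⁻¹ * τ k)) ^ 2 = 1 := congrArg Subtype.val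
      (hZ ▸ pow_card_eq_one' (x := (⟨_, h3⟩ : Subgroup.center H)))
    have h6 : Commute c (k⁻¹ * τ k) := by
      have := Subgroup.mem_center_iff.1 h3 c
      rw [mul_assoc] at this
      exact (mul_left_cancel this)
    rw [h6.mul_pow, pow_two (_ * _)] at h5
    nth_rw 1 [← h4] at h5
    simpa using h5
  have e2 : ∀ c ∈ H ⊓ Subgroup.centralizer {T}, c ^ 2 = 1 := fun c h => congrArg Subtype.val
    (sq ⟨c, h.1⟩ (Subtype.ext (mul_inv_eq_iff_eq_mul.2 (Subgroup.mem_centralizer_singleton_iff.1 h.2).symm)))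
  have he : IsElementaryAbelian 2 (H ⊓ Subgroup.centralizer {T}) := ⟨⟨⟨fun a b => Subtype.ext (by
    have i : ∀ c ∈ H ⊓ Subgroup.centralizer {T}, c⁻¹ = c := fun c h =>
      inv_eq_of_mul_eq_one_left ((pow_two c).symm.trans (e2 c h))
    simpa [i _ a.2, i _ b.2] using (i _ (a * b).2).symm)⟩⟩, e2⟩
  exact ⟨le_antisymm (hminus _ inf_le_left he) (hV4 ▸ Subgroup.card_le_of_le hV), he⟩

end Cfsg.Agent.S4405
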