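import Cfsg.Statements.S4406
open Subgroup

set_option autoImplicit false
open Cfsg

namespace Cfsg.Agent.S4406

theorem d1 : ∀ x : alternatingGroup (Fin 4), x ^ 2 = 1 ∨ x ^ 3 = 1 := by decide +kernel

set_option synthInstance.maxSize 2000 in
set_option synthInstance.maxHeartbeats 200000 in
theorem d2 : ∀ a : alternatingGroup (Fin 4), a ≠ 1 → a ^ 3 = 1 → ∀ x : alternatingGroup (Fin 4),
    x ^ 2 = 1 → x ≠ 1 → ∀ y : alternatingGroup (Fin 4), y ^ 2 = 1 → y ≠ 1 → x * y ≠ 1 →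
    (a * x * a⁻¹ = y ∧ a * y * a⁻¹ = x * y ∧ a⁻¹ * x * a⁻¹⁻¹ = x * y ∧ a⁻¹ * y * a⁻¹⁻¹ = x) ∨
    (a * x * a⁻¹ = x * y ∧ a * y * a⁻¹ = x ∧ a⁻¹ * x * a⁻¹⁻¹ = y ∧ a⁻¹ * y * a⁻¹⁻¹ = x * y) := by
  decide +kernel

theorem pw {q : ℕ} (x : alternatingGroup (Fin 4)) {k : ℕ} (h : x ^ q ^ k = 1) {m : ℕ}
    (hm : x ^ m = 1) (c : q.Coprime m) : x = 1 :=
  orderOf_eq_one_iff.1 (Nat.eq_one_of_dvd_coprimes (c.pow_left k) (orderOf_dvd_of_pow_eq_one h)
    (orderOf_dvd_of_pow_eq_one hm))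

theorem cA : Nat.card (alternatingGroup (Fin 4)) = 12 := by
  rw [Nat.card_eq_fintype_card]; decide +kernel

/-- In the direct product P = A₄ × A₄, let X be the Sylow 2-subgroup, X₁ and X₂ its intersections with the two direct factors, Q a Sylow 3-subgroup and Q₁, Q₂ its intersections with the two factors. Then every subgroup B of X of order 4 either meets X₁ or X₂ nontrivially, or is normalized by one of the two subgroups of Q of order 3 other than Q₁ and Q₂. -/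
theorem result
    (X : Sylow 2 (↥(alternatingGroup (Fin 4)) × ↥(alternatingGroup (Fin 4))))
    (Q : Sylow 3 (↥(alternatingGroup (Fin 4)) × ↥(alternatingGroup (Fin 4))))
    (B : Subgroup (↥(alternatingGroup (Fin 4)) × ↥(alternatingGroup (Fin 4)))) (hBX : B ≤ (X : Subgroup _)) (hB4 : Nat.card ↥B = 4) :
    B ⊓ ((X : Subgroup _) ⊓ Subgroup.prod ⊤ ⊥) ≠ ⊥ ∨ B ⊓ ((X : Subgroup _) ⊓ Subgroup.prod ⊥ ⊤) ≠ ⊥ ∨
      ∃ R : Subgroup (↥(alternatingGroup (Fin 4)) × ↥(alternatingGroup (Fin 4))), R ≤ (Q : Subgroup _) ∧ Nat.card ↥R = 3 ∧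
        R ≠ (Q : Subgroup _) ⊓ Subgroup.prod ⊤ ⊥ ∧ R ≠ (Q : Subgroup _) ⊓ Subgroup.prod ⊥ ⊤ ∧ R ≤ Subgroup.normalizer (B : Set _) := by
  classical
  by_contra hn
  push Not at hn
  obtain ⟨h1, h2, h3⟩ := hn
  have sq : ∀ u ∈ B, u.1 ^ 2 = 1 ∧ u.2 ^ 2 = 1 := fun u hu => by
    obtain ⟨k, hk⟩ := X.isPGroup' ⟨u, hBX hu⟩
    have hk : u ^ 2 ^ k = 1 := congrArg Subtype.val hk
    exact ⟨(d1 _).elim id fun h => by rw [pw u.1 (congrArg Prod.fst hk) h (by norm_num), one_pow],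
      (d1 _).elim id fun h => by rw [pw u.2 (congrArg Prod.snd hk) h (by norm_num), one_pow]⟩
  have ne : ∀ u ∈ B, u ≠ 1 → u.1 ≠ 1 ∧ u.2 ≠ 1 := fun u hu u1 =>
    ⟨fun e => u1 (mem_bot.1 (h2 ▸ ⟨hu, hBX hu, e, trivial⟩)),
      fun e => u1 (mem_bot.1 (h1 ▸ ⟨hu, hBX hu, trivial, e⟩))⟩
  have c4 : (B : Set (alternatingGroup (Fin 4) × alternatingGroup (Fin 4))).ncard = 4 := hB4
  obtain ⟨u, hu, u1⟩ : ∃ u ∈ (B : Set (alternatingGroup (Fin 4) × alternatingGroup (Fin 4))), u ∉ ({1} : Set (alternatingGroup (Fin 4) × alternatingGroup (Fin 4))) := Set.not_subset.1 fun h => by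
    have := Set.ncard_le_ncard h
    rw [c4, Set.ncard_singleton] at this; omega
  obtain ⟨v, hv, v1⟩ : ∃ v ∈ (B : Set (alternatingGroup (Fin 4) × alternatingGroup (Fin 4))), v ∉ ({1, u} : Set (alternatingGroup (Fin 4) × alternatingGroup (Fin 4))) := Set.not_subset.1 fun h => by
    have := (Set.ncard_le_ncard h).trans (Set.ncard_insert_le _ _)
    rw [c4, Set.ncard_singleton] at this; omega
  simp only [Set.mem_insert_iff, Set.mem_singleton_iff, not_or] at u1 v1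
  have uu : u * u = 1 := Prod.ext (by simpa [pow_two] using (sq u hu).1) (by simpa [pow_two] using (sq u hu).2)
  have uv : u * v ≠ 1 := fun e => v1.2 (mul_left_cancel (e.trans uu.symm))
  have eB : ({1, u, v, u * v} : Set (alternatingGroup (Fin 4) × alternatingGroup (Fin 4))) = B := Set.eq_of_subset_of_ncard_le (by
    rintro _ (rfl | rfl | rfl | rfl)
    exacts [B.one_mem, hu, hv, B.mul_mem hu hv]) (by
      rw [c4, Set.ncard_insert_of_notMem (by simp [Ne.symm u1, Ne.symm v1.1, uv.symm]),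
        Set.ncard_insert_of_notMem (by simp [Ne.symm v1.2, v1.1]), Set.ncard_pair (by simp [u1])])
  have c9 : Nat.card (Q : Subgroup (alternatingGroup (Fin 4) × alternatingGroup (Fin 4))) = 9 := by
    rw [Q.card_eq_multiplicity, Nat.card_prod, cA]; decide +kernel
  have eQ : (Q : Subgroup (alternatingGroup (Fin 4) × alternatingGroup (Fin 4))) = ((Q : Subgroup (alternatingGroup (Fin 4) × alternatingGroup (Fin 4))).map (MonoidHom.fst _ _)).prod
      ((Q : Subgroup (alternatingGroup (Fin 4) × alternatingGroup (Fin 4))).map (MonoidHom.snd _ _)) := by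
    refine (Q.is_maximal' (by
        rintro ⟨⟨x, y⟩, hx, hy⟩
        obtain ⟨k, hk⟩ := (Q.isPGroup'.map (MonoidHom.fst _ _)) ⟨x, hx⟩
        obtain ⟨l, hl⟩ := (Q.isPGroup'.map (MonoidHom.snd _ _)) ⟨y, hy⟩
        have hk : x ^ 3 ^ k = 1 := congrArg Subtype.val hk
        have hl : y ^ 3 ^ l = 1 := congrArg Subtype.val hl
        exact ⟨k + l, Subtype.ext (Prod.ext (by simp [pow_add, pow_mul, hk])
          (by simp [pow_add, mul_comm (3 ^ k), pow_mul, hl]))⟩)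
      fun g hg => ?_).symm
    exact ⟨⟨g, hg, rfl⟩, ⟨g, hg, rfl⟩⟩
  have ex : ∀ P P' : Subgroup (alternatingGroup (Fin 4)), IsPGroup 3 P → Nat.card P * Nat.card P' = 9 →
      ∃ a ∈ P, a ≠ 1 ∧ a ^ 3 = 1 := fun P P' hP h => by
    have : P ≠ ⊥ := by
      rintro rfl
      have := card_subgroup_dvd_card P'
      rw [cA] at this
      rw [card_bot, one_mul] at h
      rw [h] at this; omega
    obtain ⟨a, ha⟩ := ne_bot_iff_exists_ne_one.1 this
    obtain ⟨k, hk⟩ := hP a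
    have a1 : (a : alternatingGroup (Fin 4)) ≠ 1 := fun e => ha (Subtype.ext e)
    exact ⟨a, a.2, a1, (d1 _).resolve_left fun h =>
      a1 (pw _ (congrArg Subtype.val hk) h (by norm_num))⟩
  have c9' := c9
  rw [eQ, Nat.card_congr (prodEquiv _ _).toEquiv, Nat.card_prod] at c9'
  obtain ⟨a, ha, a1, a3⟩ := ex _ _ (Q.isPGroup'.map (MonoidHom.fst _ _)) c9'
  obtain ⟨b, hb, b1, b3⟩ := ex _ _ (Q.isPGroup'.map (MonoidHom.snd _ _)) ((mul_comm _ _).trans c9')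
  have fin : ∀ c, (a, c) ∈ (Q : Subgroup (alternatingGroup (Fin 4) × alternatingGroup (Fin 4))) → c ≠ 1 → c ^ 3 = 1 → (a, c) * u * (a, c)⁻¹ ∈ B →
      (a, c) * v * (a, c)⁻¹ ∈ B → False := fun c hc c1 c3 e1 e2 => by
    have : Fact (Nat.Prime 3) := ⟨Nat.prime_three⟩
    refine h3 (zpowers (a, c)) (zpowers_le.2 hc) ?_ (fun e => c1 ?_) (fun e => a1 ?_)
      (zpowers_le.2 (mem_normalizer_fintype fun n hn => ?_))
    · rw [Nat.card_zpowers]
      exact orderOf_eq_prime (Prod.ext a3 c3) fun e => a1 (congrArg Prod.fst e)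
    · exact (e ▸ mem_zpowers (a, c) : (a, c) ∈ (Q : Subgroup (alternatingGroup (Fin 4) × alternatingGroup (Fin 4))) ⊓ prod ⊤ ⊥).2.2
    · exact (e ▸ mem_zpowers (a, c) : (a, c) ∈ (Q : Subgroup (alternatingGroup (Fin 4) × alternatingGroup (Fin 4))) ⊓ prod ⊥ ⊤).2.1
    · rw [← eB] at hn
      rcases hn with rfl | rfl | rfl | rfl
      · rw [mul_one, mul_inv_cancel]; exact B.one_mem
      · exact e1
      · exact e2
      · have := B.mul_mem e1 e2
        simp only [mul_assoc, inv_mul_cancel_left] at this ⊢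
        exact this
  have q1 : (a, b) ∈ (Q : Subgroup (alternatingGroup (Fin 4) × alternatingGroup (Fin 4))) := eQ ▸ ⟨ha, hb⟩
  have q2 : (a, b⁻¹) ∈ (Q : Subgroup (alternatingGroup (Fin 4) × alternatingGroup (Fin 4))) := eQ ▸ ⟨ha, Subgroup.inv_mem _ hb⟩
  have huv := B.mul_mem hu hv
  have mm : ∀ {x y : alternatingGroup (Fin 4) × alternatingGroup (Fin 4)}, y ∈ B → x.1 = y.1 →
      x.2 = y.2 → x ∈ B := fun h h1 h2 => (Prod.ext h1 h2 : _ = _) ▸ h
  have i1 : b⁻¹ ≠ 1 := by simpa using b1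
  have i3 : b⁻¹ ^ 3 = 1 := by rw [inv_pow, b3, inv_one]
  rcases d2 a a1 a3 _ (sq u hu).1 (ne u hu u1).1 _ (sq v hv).1 (ne v hv v1.1).1 (ne _ huv uv).1 with h | h <;>
  rcases d2 b b1 b3 _ (sq u hu).2 (ne u hu u1).2 _ (sq v hv).2 (ne v hv v1.1).2 (ne _ huv uv).2 with h' | h'
  · exact fin b q1 b1 b3 (mm hv h.1 h'.1) (mm huv h.2.1 h'.2.1)
  · exact fin _ q2 i1 i3 (mm hv h.1 h'.2.2.1) (mm huv h.2.1 h'.2.2.2)
  · exact fin _ q2 i1 i3 (mm huv h.1 h'.2.2.1) (mm hu h.2.1 h'.2.2.2)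
  · exact fin b q1 b1 b3 (mm huv h.1 h'.1) (mm hu h.2.1 h'.2.1)

end Cfsg.Agent.S4406
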