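import Cfsg.Statements.S4408
import Cfsg.Agent.H5.Eigen

set_option autoImplicit false
open Cfsg

namespace Cfsg.Agent.S4408

/-- Let S be a finite solvable group whose Fitting subgroup F(S) has odd order, and let I be an elementary abelian 2-subgroup of S of order 2ⁿ with n ≥ 1. Then F(S) contains subgroups A₁, …, Aₙ of prime order, each normalized by I, pairwise commuting and generating a subgroup A of order |A₁|⋯|Aₙ| (their internal direct product), such that no non-identity element of I centralizes A. -/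
theorem result {S : Type*} [Group S] [Finite S]
    [Group.IsSolvable S] (hF : Odd (Nat.card ↥(Cfsg.fittingSubgroup S)))
    (I : Subgroup S) (hI : Cfsg.IsElementaryAbelian 2 I) (n : ℕ) (hn : 1 ≤ n) (hIn : Nat.card ↥I = 2 ^ n) :
    ∃ f : Fin n → Subgroup S, (∀ i, (Nat.card ↥(f i)).Prime) ∧ (∀ i, f i ≤ Cfsg.fittingSubgroup S) ∧
      (∀ i, I ≤ Subgroup.normalizer ((f i) : Set S)) ∧ (∀ i j, i ≠ j → ∀ a ∈ f i, ∀ b ∈ f j, a * b = b * a) ∧
      Nat.card ↥(⨆ i, f i) = ∏ i, Nat.card ↥(f i) ∧ I ⊓ Subgroup.centralizer ((⨆ i, f i : Subgroup S) : Set S) = ⊥ := by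
  classical
  open Subgroup in
  have hc : (Nat.card (fittingSubgroup S)).Coprime 2 := Nat.coprime_two_right.2 hF
  obtain ⟨B, h1, h2, h3, h4⟩ := H5.exists_abelian_faithful hI le_normalizer_of_normal inferInstance hc
    (eq_bot_iff.2 fun x hx => orderOf_eq_one_iff.1 ((hc.coprime_dvd_left (Subgroup.orderOf_dvd_natCard _
      (H1.centralizer_fitting_le hx.2))).eq_one_of_dvd (orderOf_dvd_of_pow_eq_one (hI.2 x hx.1))))
  obtain ⟨a, y, k1, k2, rfl⟩ := H5.dihedral_aux n I B hI hIn h2 (H5.coprime_of_le hc h1) h3 h4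
  have : ∀ i, ∃ w ∈ zpowers (y i), (orderOf w).Prime := fun i => by
    obtain ⟨p, hp, hd⟩ := Nat.exists_prime_and_dvd (mt orderOf_eq_one_iff.1 (k1 i).2.2.2.1)
    exact ⟨_, ⟨(orderOf (y i) / p : ℕ), zpow_natCast _ _⟩,
      (orderOf_pow_orderOf_div (orderOf_pos _).ne' hd).symm ▸ hp⟩
  choose w hw wp using this
  have wB : ∀ i, zpowers (w i) ≤ B := fun i => (zpowers_le.2 (hw i)).trans (zpowers_le.2 (k1 i).2.2.1)
  have c1 : ∀ i j, i ≠ j → zpowers (w j) ≤ centralizer {a i} := fun i j h => (zpowers_le.2 (hw j)).trans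
    (zpowers_le.2 (mem_centralizer_singleton_iff.2 (k2 i j h).symm))
  have c2 : ∀ i, ∀ x ∈ zpowers (w i), a i * x * (a i)⁻¹ = x⁻¹ := fun i x hx => by
    obtain ⟨k, rfl⟩ := zpowers_le.2 (hw i) hx
    rw [← conj_zpow, (k1 i).2.2.2.2, inv_zpow]
  have c3 : ∀ i, ∀ x ∈ zpowers (w i), x * a i = a i * x → x = 1 := fun i x hx h =>
    orderOf_eq_one_iff.1 ((hc.coprime_dvd_left (Subgroup.orderOf_dvd_natCard _
      (h1 (wB i hx)))).eq_one_of_dvd (orderOf_dvd_of_pow_eq_one (by
        rw [pow_two, ← eq_inv_iff_mul_eq_one, ← c2 i x hx, ← h, mul_inv_cancel_right])))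
  have cm : Pairwise fun i j => ∀ x y : S, x ∈ zpowers (w i) → y ∈ zpowers (w j) → Commute x y :=
    fun i j _ x y a b => h2 (wB j b) x (wB i a)
  refine ⟨fun i => zpowers (w i), fun i => Nat.card_zpowers (w i) ▸ wp i, fun i => (wB i).trans h1,
    fun i => iSup_le fun j => zpowers_le.2 (H6.mem_normalizer_of_conj_le fun x hx => ?_),
    fun i j h a ha b hb => cm h a b ha hb, ?_, ?_⟩
  · by_cases h : j = i
    · rw [h, c2 i x hx]; exact inv_mem hx
    · rwa [← mem_centralizer_singleton_iff.1 (c1 j i h hx), mul_inv_cancel_right]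
  · rw [← noncommPiCoprod_range (hcomm := cm), ← Nat.card_pi]
    refine (Nat.card_congr (MonoidHom.ofInjective (injective_noncommPiCoprod_of_iSupIndep
      fun i => disjoint_def.2 fun hx hx' => c3 i _ hx (mem_centralizer_singleton_iff.1 ?_))).toEquiv).symm
    exact (iSup₂_le fun j h => c1 i j (Ne.symm h) :) hx'
  have key : ∀ s : Finset (Fin n), ∀ x ∈ ⨆ i ∈ s, zpowers (a i), (∀ j, w j * x = x * w j) → x = 1 := by
    intro s
    induction s using Finset.induction_on with
    | empty => simp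
    | insert j s hj ih =>
      intro x hx h
      rw [Finset.iSup_insert] at hx
      have := hI.1
      obtain ⟨b, hb, c, hc, rfl⟩ := (H1.mem_sup_of_le_normalizer_right (fun u hu =>
        centralizer_le_normalizer _ fun v hv => setLike_mul_comm ((iSup₂_le fun i _ =>
          le_iSup (fun i => zpowers (a i)) i :) hv) (le_iSup (fun i => zpowers (a i)) j hu))).1 hx
      have h5 : c ∈ centralizer {w j} := (iSup₂_le fun i hi => zpowers_le.2
        (mem_centralizer_singleton_iff.2 (mem_centralizer_singleton_iff.1 (c1 i j (ne_of_mem_of_not_mem hi hj)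
          (mem_zpowers _))).symm) :) hc
      obtain rfl | rfl : b = 1 ∨ b = a j := by
        simpa [(k1 j).2.1, Finset.range_add_one, or_comm] using mem_zpowers_iff_mem_range_orderOf.1 hb
      · rw [one_mul] at h ⊢; exact ih c hc h
      · have := h j
        rw [mul_assoc, mem_centralizer_singleton_iff.1 h5, ← mul_assoc, ← mul_assoc, mul_left_inj] at this
        exact absurd (c3 j _ (mem_zpowers _) this ▸ wp j) (by simp [Nat.not_prime_one])
  exact eq_bot_iff.2 fun x hx => key Finset.univ x (by simpa using hx.1) fun j =>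
    hx.2 _ (le_iSup (fun i => zpowers (w i)) j (mem_zpowers _))

end Cfsg.Agent.S4408
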