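import Cfsg.Statements.S4410
import Cfsg.Agent.H9.HH5

set_option autoImplicit false
open Cfsg

namespace Cfsg.Agent.S4410

open Module H2 Subgroup H15 H9
open scoped commutatorElement

variable {G V : Type*} [Group G] [AddCommGroup V] [Module (ZMod 2) V] [Finite V]
  (ρ : G →* End (ZMod 2) V)

/-- elements acting trivially on `V / T` -/
def kerMod (T : Submodule (ZMod 2) V) : Subgroup G where
  carrier := {s | ∀ v, ρ s v - v ∈ T}
  one_mem' := fun v => by simp
  mul_mem' := fun {a b} ha hb v => by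
    have := T.add_mem (ha (ρ b v)) (hb v)
    rwa [sub_add_sub_cancel, ← End.mul_apply, ← map_mul] at this
  inv_mem' := fun {a} ha v => by
    have := T.neg_mem (ha (ρ a⁻¹ v))
    rwa [neg_sub, ← End.mul_apply, ← map_mul, mul_inv_cancel, map_one, End.one_apply] at this

theorem small_comm [Finite G] (hρ : ρ.ker = ⊥) {T : Submodule (ZMod 2) V} (hT : Nat.card T ≤ 8)
    {q : ℕ} (hq : q.Prime) {M : Subgroup G} (hM : IsPGroup q M) (hc : (Nat.card M).Coprime 2)
    (hMT : M ≤ kerMod ρ T) : IsMulCommutative M := by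
  letI : MulAction M T :=
    { smul := fun m t => ⟨ρ m t, by simpa using T.add_mem (hMT m.2 t) t.2⟩
      one_smul := fun t => Subtype.ext (by show ρ 1 t = t; simp)
      mul_smul := fun a b t => Subtype.ext (by
        show ρ (a * b) t = ρ a (ρ b t)
        rw [map_mul, End.mul_apply]) }
  have hinj : Function.Injective (MulAction.toPermHom M T) := by
    rw [← MonoidHom.ker_eq_bot_iff, eq_bot_iff]
    intro m hm
    have h1 : ∀ t ∈ T, ρ m t = t := fun t ht =>
      congrArg Subtype.val (Equiv.congr_fun (MonoidHom.mem_ker.1 hm) ⟨t, ht⟩)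
    have h2 : (m : G) ^ 2 ∈ (⊥ : Subgroup G) := by
      rw [← hρ, MonoidHom.mem_ker]
      ext v
      have h3 := h1 _ (hMT m.2 v)
      rw [map_sub, sub_eq_iff_eq_add] at h3
      rw [pow_two, map_mul, End.mul_apply, h3, End.one_apply, sub_eq_add_neg,
        ZModModule.neg_eq_self, add_right_comm, ZModModule.add_self, zero_add]
    exact Subtype.ext (mem_of_pow_mem_of_coprime (N := ⊥) (m := Nat.card M)
      (congrArg Subtype.val (pow_card_eq_one' (x := m))) h2 hc)
  haveI := Fact.mk hq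
  obtain ⟨k, hk⟩ := IsPGroup.iff_card.1 hM
  have hd : q ^ k ∣ Nat.factorial 8 := by
    rw [← hk]
    refine (card_dvd_of_injective _ hinj).trans ?_
    rw [Nat.card_perm]
    exact Nat.factorial_dvd_factorial hT
  have hk2 : k ≤ 2 := by
    by_contra h
    have h1 : q ^ 3 ∣ Nat.factorial 8 := (pow_dvd_pow q (by omega)).trans hd
    have h2 : q ≤ 8 := hq.dvd_factorial.1 ((dvd_pow_self q (by omega)).trans h1)
    have h3 : q ≠ 2 := by
      rintro rfl
      rw [hk, Nat.coprime_pow_left_iff (by omega)] at hc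
      exact absurd hc (by decide)
    interval_cases q <;> first | exact absurd hq (by decide) | exact h3 rfl | exact absurd h1 (by decide)
  rcases hk2.eq_or_lt with rfl | h
  · exact IsPGroup.isMulCommutative_of_card_eq_prime_sq hk
  · haveI : IsCyclic M := isCyclic_of_card_dvd_prime (p := q)
      (hk ▸ (pow_dvd_pow q (by omega : k ≤ 1)).trans (by rw [pow_one]))
    infer_instance

theorem card_sup_le {A B : Submodule (ZMod 2) V} : Nat.card (A ⊔ B : Submodule (ZMod 2) V) ≤
    Nat.card A * Nat.card B := by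
  rw [← Nat.card_prod]
  refine Nat.card_le_card_of_surjective (fun x => ⟨x.1 + x.2, Submodule.add_mem_sup x.1.2 x.2.2⟩) ?_
  rintro ⟨v, hv⟩
  obtain ⟨a, ha, b, hb, rfl⟩ := Submodule.mem_sup.1 hv
  exact ⟨(⟨a, ha⟩, ⟨b, hb⟩), rfl⟩

theorem aux [Finite G] (hρ : ρ.ker = ⊥) (hG : Group.IsSolvable G) (h0 : pCore 2 G = ⊥) {x : G}
    (hx : orderOf x = 4) (hr : (ρ x - 1) ^ 3 = 0) :
    4 ≤ Nat.card (LinearMap.range ((ρ x - 1) ^ 2)) := by
  by_contra hlt
  have e : (ρ x - 1) ^ 2 = ρ (x ^ 2 ^ 1) - 1 := by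
    rw [map_pow, ← sub_one_pow_char, pow_one]
  rw [e] at hlt
  set y := x ^ 2 ^ 1 with hy
  set U := LinearMap.range (ρ y - 1) with hU
  have hU2 : Nat.card U ≤ 2 := by
    rw [Module.natCard_eq_pow_finrank (K := ZMod 2), Nat.card_zmod] at hlt ⊢
    have : finrank (ZMod 2) U < 2 := (Nat.pow_lt_pow_iff_right one_lt_two).1 (not_le.1 hlt)
    exact Nat.pow_le_pow_right two_pos (by omega : _ ≤ 1)
  have hx1 : x ^ 2 ^ (1 + 1) = 1 := orderOf_dvd_iff_pow_eq_one.1 (by rw [hx]; decide)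
  have hBX : zpowers y ≤ zpowers x := zpowers_le.2 (pow_mem (mem_zpowers x) _)
  obtain ⟨L, ⟨hRL, hL⟩, hLQ, hm⟩ :=
    H1.exists_minimal_le (fun L : Subgroup G => zpowers x ≤ 𝒩(L) ∧ ¬ zpowers y ≤ 𝒞(L))
      (N := pPrimeCore 2 G) ⟨le_normalizer_of_normal, fun h => pow_not_mem_cent_pPrimeCore
        (H1.isPSolvable_of_isSolvable 2 hG) h0 (n := 1) hx (h (mem_zpowers _))⟩
  have hLc := (H1.coprime_card_pPrimeCore 2).coprime_dvd_left (card_dvd_of_le hLQ)
  obtain ⟨q, hq, hLq, h1, -⟩ := min_action hRL hBX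
    (le_norm_of_le_cent (cent_comm (hBX.trans (le_cent_self inferInstance))))
    (H1.IsPGroup.coprime_card (isPGroup_zpowers_of_pow hx1) hLc) (Or.inl inferInstance) hL
    (fun M hM h => by by_contra h'; exact hM.ne (hm M ⟨h, h'⟩ hM.le))
  have hcm : ∀ g ∈ L, ∀ h ∈ L, Commute ⁅g, y⁆ ⁅h, y⁆ := fun g hg h hh => by
    have hmap : ∀ g : G, Nat.card (U.map (ρ g)) ≤ 2 := fun g =>
      (Nat.card_le_card_of_surjective _ (LinearMap.submoduleMap_surjective _ U)).trans hU2
    set T := U ⊔ U.map (ρ g) ⊔ U.map (ρ h) with hT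
    have hT8 : Nat.card T ≤ 8 := card_sup_le.trans
      (Nat.mul_le_mul (card_sup_le.trans (Nat.mul_le_mul hU2 (hmap g))) (hmap h))
    have hyT : y ∈ kerMod ρ T := fun v => (le_sup_left.trans le_sup_left : U ≤ T) ⟨v, rfl⟩
    have hcT : ∀ k : G, U.map (ρ k) ≤ T → k ∈ L → ⁅k, y⁆ ∈ L ⊓ kerMod ρ T := fun k hk hkL => by
      refine ⟨h1.le (commutator_mem_commutator hkL (mem_zpowers y)),
        (kerMod ρ T).mul_mem (fun v => hk ⟨_, ⟨ρ k⁻¹ v, rfl⟩, ?_⟩) (inv_mem hyT)⟩
      simp only [map_mul, LinearMap.sub_apply, map_sub, End.mul_apply, End.one_apply]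
      rw [← End.mul_apply (ρ k) (ρ k⁻¹), ← map_mul, mul_inv_cancel, map_one, End.one_apply]
    exact H1.isMulCommutative_iff'.1 (small_comm ρ hρ hT8 hq hLq.to_inf_left
      (hLc.coprime_dvd_left (card_dvd_of_le inf_le_left)) inf_le_right) _
      (hcT g (le_sup_right.trans le_sup_left) hg) _ (hcT h le_sup_right hh)
  have hy2 : y ^ 2 = 1 := by rw [hy, ← pow_mul]; exact hx1
  have hgen : ∀ c : G, (∀ g ∈ L, Commute ⁅g, y⁆ c) → c ∈ 𝒞(L) := fun c hc => by
    refine cent_comm (K := zpowers c) (h1.ge.trans (commutator_le.2 fun g hg b hb => ?_))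
      (mem_zpowers c)
    have h2 : Commute ⁅g, b⁆ c := by
      obtain ⟨j, rfl⟩ := mem_powers_iff_mem_zpowers.2 hb
      show Commute ⁅g, y ^ j⁆ c
      rw [pow_eq_pow_mod j hy2]
      rcases Nat.mod_two_eq_zero_or_one j with h | h <;> rw [h]
      · simp
      · rw [pow_one]; exact hc g hg
    refine mem_cent.2 fun k hk => ?_
    obtain ⟨j, rfl⟩ := mem_zpowers_iff.1 hk
    exact (h2.zpow_right j).symm
  have hab : L ≤ 𝒞(L) := fun c hc => hgen c fun g hg =>
    (show Commute c ⁅g, y⁆ from mem_cent.1 (hgen _ fun h hh => hcm h hh g hg) c hc).symm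
  haveI : FiniteDimensional (ZMod 2) V := Module.Finite.of_finite
  obtain ⟨ρ', a, b⟩ := exists_algClosed_rep ρ
  exact hL (zpowers_le.2 (exc_mem_cent (a.trans hρ) hx1 (b x 3 hr) hLc (hRL (mem_zpowers x)) hab))

/-- Let V be a finite-dimensional vector space over the field with two elements and S a solvable group of linear automorphisms of V with O₂(S) = 1. If P ∈ S has order 4 and (P − 1)³ = 0 on V, then the image of (P − 1)² has at least 4 elements; equivalently, in the decomposition of V into indecomposable modules for the cyclic group generated by P, at least two summands have dimension 3. -/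
theorem result
    {V : Type*} [AddCommGroup V] [Module (ZMod 2) V] [Finite V]
    (S : Subgroup (V ≃ₗ[ZMod 2] V)) (hS : Group.IsSolvable ↥S) (hO2 : Cfsg.pCore 2 ↥S = ⊥)
    (P : V ≃ₗ[ZMod 2] V) (hPS : P ∈ S) (hP4 : orderOf P = 4)
    (hcub : ((P : V →ₗ[ZMod 2] V) - LinearMap.id) ^ 3 = 0) :
    4 ≤ Nat.card ↥(LinearMap.range (((P : V →ₗ[ZMod 2] V) - LinearMap.id) ^ 2)) := by
  haveI : Finite (V ≃ₗ[ZMod 2] V) := Finite.of_injective (fun f : V ≃ₗ[ZMod 2] V => (f : V → V))
    DFunLike.coe_injective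
  let ρ : S →* End (ZMod 2) V := (LinearEquiv.automorphismGroup.toLinearMapMonoidHom).comp S.subtype
  exact aux ρ (eq_bot_iff.2 fun g hg => Subtype.ext (LinearEquiv.toLinearMap_injective hg)) hS hO2
    (x := ⟨P, hPS⟩) (by rw [← orderOf_coe]; exact hP4) hcub

end Cfsg.Agent.S4410
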