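import Cfsg.Statements.S4411
import Cfsg.Agent.H12.AZ

set_option autoImplicit false
open Cfsg

namespace Cfsg.Agent.S4411

open Subgroup H16 H12.AZ

/-- Let p and q be distinct primes with {p, q} ≠ {2, 3}, and let G be a finite group such that for every p-subgroup H of G the automizer N_G(H)/C_G(H) is p-solvable. If q divides the order of N_G(H)/C_G(H) for some p-subgroup H, then a Sylow p-subgroup of G has a normal subgroup K (normal in the Sylow subgroup) such that q divides the order of N_G(K)/C_G(K). -/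
theorem result {G : Type*} [Group G] [Finite G]
    (p q : ℕ) [Fact p.Prime] [Fact q.Prime] (hpq : p ≠ q) (h23 : ¬ ((p = 2 ∧ q = 3) ∨ (p = 3 ∧ q = 2)))
    (hsol : ∀ H : Subgroup G, IsPGroup p ↥H →
      Cfsg.IsPSolvable p (↥(Subgroup.normalizer (H : Set G)) ⧸ (Subgroup.centralizer (H : Set G)).subgroupOf (Subgroup.normalizer (H : Set G))))
    (H : Subgroup G) (hH : IsPGroup p ↥H)
    (hq : q ∣ ((Subgroup.centralizer (H : Set G)).subgroupOf (Subgroup.normalizer (H : Set G))).index)
    (Gp : Sylow p G) :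
    ∃ K : Subgroup G, K ≤ (Gp : Subgroup G) ∧ (Gp : Subgroup G) ≤ Subgroup.normalizer (K : Set G) ∧
      q ∣ ((Subgroup.centralizer (K : Set G)).subgroupOf (Subgroup.normalizer (K : Set G))).index := by
  obtain ⟨K, P, h1, h2, h3, h4⟩ := main hpq h23 _ G rfl (fun H hH => hsol H (pg_iff.1 hH)) H
    ((good_iff (pg_iff.2 hH)).2 hq)
  obtain ⟨g, -, e⟩ := sy_conj h1 (sy_top_of_sylow Gp)
  have h5 := h4.map (f := (MulAut.conj g).toMonoidHom) (MulAut.conj g).injective
  exact ⟨K :^ g, e ▸ cj_mono g h2, e ▸ norm_cj_le h3 g, (good_iff h5.1).1 h5⟩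

end Cfsg.Agent.S4411
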