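import Cfsg.Statements.S4413
import Cfsg.Agent.H12.ES3
import Cfsg.Agent.S0288

set_option autoImplicit false
open Cfsg

namespace Cfsg.Agent.S4413

open H12 Subgroup Matrix

abbrev I4 := (Fin 1 ⊕ Fin 1) ⊕ Fin 2
abbrev Q4 : (I4 → ZMod 2) → ZMod 2 := quadFormMinus 1 (ZMod 2) 1 1
abbrev S4 := {v : I4 → ZMod 2 // v ≠ 0 ∧ Q4 v = 0}

instance act : MulAction (isometryGroup (ZMod 2) Q4) S4 where
  smul g v := ⟨(g.1 : Matrix I4 I4 (ZMod 2)) *ᵥ v.1, fun h => v.2.1 (by
    have := congrArg (fun w => ((g.1⁻¹ : GL I4 (ZMod 2)) : Matrix I4 I4 (ZMod 2)) *ᵥ w) h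
    simpa only [mulVec_mulVec, Units.inv_mul, one_mulVec, mulVec_zero] using this),
    (g.2 v.1 v.1).trans v.2.2⟩
  one_smul v := Subtype.ext (one_mulVec v.1)
  mul_smul g h v := Subtype.ext (mulVec_mulVec v.1 g.1.1 h.1.1).symm

theorem card_S4 : Fintype.card S4 = 5 := by decide +kernel

theorem span_S4 : ∀ v : I4 → ZMod 2, ∃ a b, Q4 a = 0 ∧ Q4 b = 0 ∧ v = a + b := by decide +kernel

theorem card_O : Nat.card (isometryGroup (ZMod 2) Q4) = 120 :=
  S0288.result (F := ZMod 2) (q := 2) (by simp) 2 (by norm_num) 1 1 (by decide)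

theorem o4m : Nonempty (isometryGroup (ZMod 2) Q4 ≃* Equiv.Perm (Fin 5)) := by
  have hinj : Function.Injective (MulAction.toPermHom (isometryGroup (ZMod 2) Q4) S4) :=
    (injective_iff_map_eq_one _).2 fun g hg => by
      have h1 : ∀ a, Q4 a = 0 → (g.1 : Matrix I4 I4 (ZMod 2)) *ᵥ a = a := fun a ha => by
        by_cases h0 : a = 0
        · rw [h0, mulVec_zero]
        · have := congrArg Subtype.val (Equiv.congr_fun hg (⟨a, h0, ha⟩ : S4))
          exact this
      refine Subtype.ext (Units.ext (Matrix.ext_of_mulVec_single fun i => ?_))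
      obtain ⟨a, b, ha, hb, e⟩ := span_S4 (Pi.single i 1)
      rw [e, mulVec_add, h1 a ha, h1 b hb]
      exact (one_mulVec _).symm
  have hb := (Nat.bijective_iff_injective_and_card _).2 ⟨hinj, by
    rw [card_O, Nat.card_perm, Nat.card_eq_fintype_card, card_S4]; rfl⟩
  exact ⟨(MulEquiv.ofBijective _ hb).trans (Fintype.equivFinOfCardEq card_S4).permCongrHom⟩

/-- Let P be an extraspecial 2-group of order 32 with no elementary abelian subgroup of order 8 (the central product of a dihedral and a quaternion group of order 8). Then the inner automorphism group of P has order 16 and the outer automorphism group Aut(P)/Inn(P) is isomorphic to the symmetric group of degree 5; in particular Aut(P) has order 1920. -/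
theorem result {P : Type*} [Group P] [Finite P]
    (hex : Cfsg.IsExtraspecial 2 P) (h32 : Nat.card P = 32)
    (hminus : ∀ A : Subgroup P, Cfsg.IsElementaryAbelian 2 A → Nat.card ↥A ≤ 4)
    [(MulAut.conj : P →* MulAut P).range.Normal] :
    Nat.card ↥(MulAut.conj : P →* MulAut P).range = 16 ∧ Nat.card (MulAut P) = 1920 ∧
      Nonempty ((MulAut P ⧸ (MulAut.conj : P →* MulAut P).range) ≃* Equiv.Perm (Fin 5)) := by
  obtain ⟨e⟩ := es_out_minus (m := 1) hex h32 (by
    rintro ⟨A, hA, hc⟩
    have := hminus A hA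
    omega)
  obtain ⟨f⟩ := o4m
  have hk : (MulAut.conj : P →* MulAut P).ker = center P := by
    ext x
    simp only [MonoidHom.mem_ker, MulEquiv.ext_iff, MulAut.conj_apply, MulAut.one_apply,
      mem_center_iff, mul_inv_eq_iff_eq_mul]
    exact forall_congr' fun g => eq_comm
  have h1 : Nat.card ↥(MulAut.conj : P →* MulAut P).range = 16 := by
    have h2 := (MulAut.conj : P →* MulAut P).ker.card_mul_index
    rw [index_ker, hk, hex.2, h32] at h2
    omega
  refine ⟨h1, ?_, ⟨e.trans f⟩⟩
  rw [card_eq_card_quotient_mul_card_subgroup (Inn P), h1, Nat.card_congr e.toEquiv, card_O]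

end Cfsg.Agent.S4413
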