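import Cfsg.Statements.S4414
import Cfsg.Agent.H17.Ng1

set_option autoImplicit false
open Cfsg

namespace Cfsg.Agent.S4414

open H17 Cfsg


/-- Let S be a finite solvable group whose order is divisible only by the primes 2, p, q (p, q distinct odd primes), with a Sylow system S₂, S_p, S_q (pairwise permutable Sylow subgroups) such that: S_p is a minimal normal subgroup of S of order p or p²; S_q has order q and [S_p, S_q] = S_p; and O₂(S) = 1. Let E be an irreducible module for S over the field with two elements on which S_p acts faithfully, and E₀ the subspace of fixed points of S₂. Then either E₀ has at least 8 elements, or E₀ has exactly 4 elements and S_q does not leave E₀ invariant. -/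
theorem result {S : Type*} [Group S] [Finite S]
    [Group.IsSolvable S] (p q : ℕ) (hp : p.Prime) (hq : q.Prime) (hp2 : p ≠ 2) (hq2 : q ≠ 2) (hpq : p ≠ q)
    (hπ : ∀ r : ℕ, r.Prime → r ∣ Nat.card S → r = 2 ∨ r = p ∨ r = q)
    (S₂ : Sylow 2 S) (Sp : Sylow p S) (Sq : Sylow q S)
    (h2q : Nat.card ↥((S₂ : Subgroup S) ⊔ (Sq : Subgroup S)) = Nat.card ↥S₂ * Nat.card ↥Sq)
    (h2p : Nat.card ↥((S₂ : Subgroup S) ⊔ (Sp : Subgroup S)) = Nat.card ↥S₂ * Nat.card ↥Sp)
    (hpq' : Nat.card ↥((Sp : Subgroup S) ⊔ (Sq : Subgroup S)) = Nat.card ↥Sp * Nat.card ↥Sq)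
    (hSpN : (Sp : Subgroup S).Normal) (hSpmin : ∀ N : Subgroup S, N.Normal → N ≤ (Sp : Subgroup S) → N = ⊥ ∨ N = (Sp : Subgroup S))
    (hSpcard : Nat.card ↥Sp = p ∨ Nat.card ↥Sp = p ^ 2)
    (hSq : Nat.card ↥Sq = q) (hcomm : ⁅(Sp : Subgroup S), (Sq : Subgroup S)⁆ = (Sp : Subgroup S))
    (hO2 : Cfsg.pCore 2 S = ⊥)
    {E : Type*} [AddCommGroup E] [Module (ZMod 2) E] [Finite E] (ρ : Representation (ZMod 2) S E) (hE : Nontrivial E)
    (hirr : ∀ N : Submodule (ZMod 2) E, (∀ s : S, ∀ m ∈ N, ρ s m ∈ N) → N = ⊥ ∨ N = ⊤)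
    (hfaith : ∀ x ∈ (Sp : Subgroup S), ρ x = 1 → x = 1) :
    8 ≤ Nat.card {v : E // ∀ s ∈ (S₂ : Subgroup S), ρ s v = v} ∨
      (Nat.card {v : E // ∀ s ∈ (S₂ : Subgroup S), ρ s v = v} = 4 ∧
        ∃ x ∈ (Sq : Subgroup S), ∃ v : E, (∀ s ∈ (S₂ : Subgroup S), ρ s v = v) ∧ ¬ ∀ s ∈ (S₂ : Subgroup S), ρ s (ρ x v) = ρ x v) := by
  classical
  have := Fact.mk hp
  have := Fact.mk hq
  have : Module.Finite (ZMod 2) E := Module.Finite.of_finite
  let k := AlgebraicClosure (ZMod 2)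
  let ρ' := (Module.End.baseChangeHom (ZMod 2) k E).toMonoidHom.comp ρ
  have hb : ∀ T : Subgroup S, Module.finrank k (H19.Fr.Fx ρ' T) =
      Module.finrank (ZMod 2) (H19.Fr.Fx ρ T) := fun T => H19.Fr.fx_base ρ T
  have hnt : Nontrivial (TensorProduct (ZMod 2) k E) := by
    refine Module.nontrivial_of_finrank_pos (R := k) ?_
    rw [Module.finrank_baseChange]; exact Module.finrank_pos
  have hcard : Nat.card (Sp : Subgroup S) = p ∨ Nat.card (Sp : Subgroup S) = p ^ 2 := hSpcard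
  have hV : (Nat.card (Sp : Subgroup S) : k) ≠ 0 := by
    have h : (p : k) ≠ 0 := fun h =>
      hp2 ((Nat.prime_dvd_prime_iff_eq Nat.prime_two hp).1 ((CharP.cast_eq_zero_iff k 2 p).1 h)).symm
    rcases hcard with e | e <;> simp [e, h]
  have hab : commutator (Sp : Subgroup S) = ⊥ := by
    have : IsMulCommutative (Sp : Subgroup S) := by
      rcases hcard with e | e
      · have := isCyclic_of_prime_card e; infer_instance
      · exact IsPGroup.isMulCommutative_of_card_eq_prime_sq e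
    rw [commutator_def, Subgroup.commutator_eq_bot_iff_le_centralizer]
    exact fun a _ b _ => this.1.1 b a
  have h0 : H19.Fr.Fx ρ' Sp = ⊥ := by
    rw [← Submodule.finrank_eq_zero, hb, Submodule.finrank_eq_zero]
    refine (hirr _ fun s m hm => H19.Fr.mem_Fx.2 fun a ha => ?_).resolve_right fun h => ?_
    · rw [H19.Fr.rho_mul, show a * s = s * (s⁻¹ * a * s⁻¹⁻¹) by group, ← H19.Fr.rho_mul,
        H19.Fr.mem_Fx.1 hm _ (hSpN.conj_mem a ha s⁻¹)]
    · have h1 : (Sp : Subgroup S) = ⊥ := eq_bot_iff.2 fun a ha =>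
        hfaith a ha (LinearMap.ext fun v => H19.Fr.mem_Fx.1 (h.ge trivial) a ha)
      rw [h1, Subgroup.card_bot] at hcard
      have := hp.one_lt
      rcases hcard with e | e
      · omega
      · nlinarith
  obtain ⟨h1, h2⟩ := H17.Ng.main ρ' Sp S₂ hV hab h0 S₂.2 hq hq2 Sq hSq hcomm (by rw [h2q, hSq]; rfl)
  have hc : Nat.card {v : E // ∀ s ∈ (S₂ : Subgroup S), ρ s v = v} =
      2 ^ Module.finrank (ZMod 2) (H19.Fr.Fx ρ S₂) := by
    have := Module.natCard_eq_pow_finrank (K := ZMod 2) (V := H19.Fr.Fx ρ S₂)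
    rw [Nat.card_zmod] at this
    rw [← this]
    exact Nat.card_congr (Equiv.subtypeEquivRight fun v => H19.Fr.mem_Fx.symm)
  rw [hb] at h1 h2
  rw [hc]
  by_cases h3 : 3 ≤ Module.finrank (ZMod 2) (H19.Fr.Fx ρ S₂)
  · exact .inl (Nat.pow_le_pow_right (n := 2) (by norm_num) h3)
  refine .inr ⟨by rw [show Module.finrank (ZMod 2) (H19.Fr.Fx ρ S₂) = 2 by omega]; norm_num, ?_⟩
  by_contra! hh
  refine h3 (h2 fun x hx w hw => ?_)
  let K : Subgroup S :=
    { carrier := {g | ∀ v ∈ H19.Fr.Fx ρ S₂, ρ g v = v}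
      mul_mem' := fun ha hb v hv => by rw [← H19.Fr.rho_mul, hb v hv, ha v hv]
      one_mem' := fun v _ => by simp
      inv_mem' := fun {g} ha v hv => by
        conv_lhs => rw [← ha v hv]
        rw [H19.Fr.rho_mul]; simp }
  have hK : (S₂ : Subgroup S) ≤ K := fun g hg v hv => H19.Fr.mem_Fx.1 hv g hg
  have e1 : H19.Fr.Fx ρ K = H19.Fr.Fx ρ S₂ := by
    ext v
    exact ⟨fun h => H19.Fr.mem_Fx.2 fun g hg => H19.Fr.mem_Fx.1 h g (hK hg),
      fun h => H19.Fr.mem_Fx.2 fun g hg => hg v h⟩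
  have e2 : H19.Fr.Fx ρ' K = H19.Fr.Fx ρ' S₂ :=
    Submodule.eq_of_le_of_finrank_eq (fun v h => H19.Fr.mem_Fx.2 fun g hg =>
      H19.Fr.mem_Fx.1 h g (hK hg)) (by rw [hb, hb, e1])
  refine H19.Fr.mem_Fx.2 fun t ht => ?_
  have e3 : x⁻¹ * t * x ∈ K := fun v hv => by
    rw [← H19.Fr.rho_mul, ← H19.Fr.rho_mul, hh x hx v (H19.Fr.mem_Fx.1 hv) t ht, H19.Fr.rho_mul]
    simp
  rw [H19.Fr.rho_mul, show t * x = x * (x⁻¹ * t * x) by group, ← H19.Fr.rho_mul,
    H19.Fr.mem_Fx.1 (e2.ge hw) _ e3]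

end Cfsg.Agent.S4414
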