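import Cfsg.Statements.S4415
import Cfsg.Agent.H10.Cu7

set_option autoImplicit false
open Cfsg H10

namespace Cfsg.Agent.S4415

open Subgroup H10 H10.Cu

/-- Let S be a finite solvable group acting faithfully on a finite-dimensional space E over the field with three elements, with O₃(S) = 1. Let B ≤ S have order 3 and suppose: E = E₀ ⊕ E₁ with B fixing E₁ pointwise, E₀ B-invariant of order 27 and indecomposable under B (a generator of B has a single Jordan block on E₀); B normalizes but does not centralize some subgroup Q of S that is elementary abelian of order 4; and B is the centre of a Sylow 3-subgroup of S. Put R = [O_{3'}(S), B]. Then R is elementary abelian of order 4 or extraspecial of order 32 containing an elementary abelian subgroup of order 8 (a central product of two quaternion groups), and E is the direct sum of a subspace fixed pointwise by R and an RB-invariant subspace on which the subgroup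 RB acts faithfully and irreducibly. -/
theorem result {S : Type*} [Group S] [Finite S]
    [Group.IsSolvable S] {E : Type*} [AddCommGroup E] [Module (ZMod 3) E] [Finite E] (ρ : Representation (ZMod 3) S E)
    (hfaith : Function.Injective ρ) (hO3 : Cfsg.pCore 3 S = ⊥)
    (B : Subgroup S) (hB : Nat.card ↥B = 3) (b : S) (hb : Subgroup.zpowers b = B)
    (E₀ E₁ : Submodule (ZMod 3) E) (hE01 : E₀ ⊓ E₁ = ⊥) (hE01' : E₀ ⊔ E₁ = ⊤)
    (hE1 : ∀ v ∈ E₁, ρ b v = v) (hE0inv : ∀ v ∈ E₀, ρ b v ∈ E₀) (hE0 : Nat.card ↥E₀ = 27)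
    (hind : ∃ v ∈ E₀, ρ b (ρ b v - v) - (ρ b v - v) ≠ 0)
    (Q : Subgroup S) (hQ : Cfsg.IsElementaryAbelian 2 Q) (hQ4 : Nat.card ↥Q = 4)
    (hBQ : B ≤ Subgroup.normalizer (Q : Set S)) (hBQ' : ¬ B ≤ Subgroup.centralizer (Q : Set S))
    (P : Sylow 3 S) (hBZ : (Subgroup.center ↥(P : Subgroup S)).map (P : Subgroup S).subtype = B) :
    ((Cfsg.IsElementaryAbelian 2 ⁅Cfsg.pPrimeCore 3 S, B⁆ ∧ Nat.card ↥⁅Cfsg.pPrimeCore 3 S, B⁆ = 4) ∨
      (Cfsg.IsExtraspecial 2 ↥⁅Cfsg.pPrimeCore 3 S, B⁆ ∧ Nat.card ↥⁅Cfsg.pPrimeCore 3 S, B⁆ = 32 ∧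
        ∃ A : Subgroup S, A ≤ ⁅Cfsg.pPrimeCore 3 S, B⁆ ∧ Cfsg.IsElementaryAbelian 2 A ∧ Nat.card ↥A = 8)) ∧
    ∃ F₀ F₁ : Submodule (ZMod 3) E, F₀ ⊓ F₁ = ⊥ ∧ F₀ ⊔ F₁ = ⊤ ∧
      (∀ r ∈ ⁅Cfsg.pPrimeCore 3 S, B⁆, ∀ v ∈ F₁, ρ r v = v) ∧ (∀ r ∈ ⁅Cfsg.pPrimeCore 3 S, B⁆ ⊔ B, ∀ v ∈ F₀, ρ r v ∈ F₀) ∧
      (∀ r ∈ ⁅Cfsg.pPrimeCore 3 S, B⁆ ⊔ B, (∀ v ∈ F₀, ρ r v = v) → r = 1) ∧
      (∀ N : Submodule (ZMod 3) E, N ≤ F₀ → (∀ r ∈ ⁅Cfsg.pPrimeCore 3 S, B⁆ ⊔ B, ∀ v ∈ N, ρ r v ∈ N) → N = ⊥ ∨ N = F₀) := by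
  subst hb
  have b3 : b * b * b = 1 := by rw [← pow_three', ← hB, Nat.card_zpowers, pow_orderOf_eq_one]
  obtain ⟨q, -, q', -, h⟩ := ex_four b3 hQ hQ4 (hBQ (mem_zpowers b))
    fun e => hBQ' (zpowers_le_of_mem e)
  have hc : ∀ x ∈ (P : Subgroup S), x * b = b * x := by
    have := mem_zpowers b
    rw [← hBZ, map_center_subtype] at this
    exact mem_CC.1 this.2
  have m := mem_core h P hc
  have m' := mem_core h.rot P hc
  have n := le_NN_of_normal (zpowers b) (pPrimeCore 3 S)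
  have h3 := H1.coprime_card_pPrimeCore (G := S) 3
  have h3' := h3.coprime_dvd_left (card_dvd_of_le (comm_le_left n))
  have c : Cf ρ b q q' ⁅pPrimeCore 3 S, zpowers b⁆ :=
    { inj := hfaith
      rk := rk_two b3 hE01' hE1 hE0inv hE0 hind
      four := h
      m := (h.mem_comm m m').1
      m' := (h.mem_comm m m').2
      le := (H1.commutator_commutator_eq n (by rw [hB]; exact h3.symm) (Or.inl inferInstance)).ge
      nb := right_le_NN_comm _ _ (mem_zpowers b)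
      b3 := b3 }
  exact ⟨c.two (c.is2 h3'), c.mod h3'⟩

end Cfsg.Agent.S4415
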