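import Cfsg.Statements.S4420
import Cfsg.Agent.H1.Prim
import Cfsg.Agent.H7.PGrp

set_option autoImplicit false
open Cfsg

namespace Cfsg.Agent.S4420

theorem comm_of_sq {H : Type*} [Group H] (h : ∀ x : H, x ^ 2 = 1) : IsMulCommutative H :=
  ⟨⟨fun a b => by
    have h1 : ∀ x : H, x⁻¹ = x := fun x => inv_eq_iff_mul_eq_one.2 (by rw [← sq, h])
    rw [← h1 (a * b), mul_inv_rev, h1, h1]⟩⟩

/-- Structure of groups in which every element outside some proper subgroup has square 1. Let H be a finite group with a proper subgroup A such that every element outside A has square 1. Then H has an abelian normal subgroup B of index 2 such that every element outside B is an involution inverting every element of B; and if H is not an elementary abelian 2-group, B is the only abelian normal subgroup of index 2 with this property. -/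
theorem result {H : Type*} [Group H] [Finite H] (A : Subgroup H) (hA : A ≠ ⊤) (hD : ∀ x : H, x ∉ A → x ^ 2 = 1) :
    ∃ B : Subgroup H, B.Normal ∧ IsMulCommutative ↥B ∧ B.index = 2 ∧
      (∀ x : H, x ∉ B → x ^ 2 = 1 ∧ ∀ b ∈ B, x * b * x⁻¹ = b⁻¹) ∧
      (¬ (IsMulCommutative H ∧ ∀ x : H, x ^ 2 = 1) →
        ∀ B' : Subgroup H, B'.Normal → IsMulCommutative ↥B' → B'.index = 2 →
          (∀ x : H, x ∉ B' → x ^ 2 = 1 ∧ ∀ b ∈ B', x * b * x⁻¹ = b⁻¹) → B' = B) := by
  obtain ⟨B, hB, hAB⟩ := H1.exists_coatom_ge hA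
  have h1 : ∀ x : H, x ∉ B → x ^ 2 = 1 := fun x hx => hD x fun h => hx (hAB h)
  have h2 : ∀ x : H, x ∉ B → ∀ b ∈ B, x * b * x⁻¹ = b⁻¹ := fun x hx b hb => by
    have h3 := h1 (x * b) fun h => hx ((B.mul_mem_cancel_right hb).1 h)
    have h4 : x⁻¹ = x := inv_eq_iff_mul_eq_one.2 (by rw [← sq, h1 x hx])
    rw [h4, eq_inv_iff_mul_eq_one, ← h3, sq, mul_assoc]
  obtain ⟨x, hx⟩ : ∃ x, x ∉ B := by
    by_contra! h
    exact hB.1 (eq_top_iff.2 fun g _ => h g)
  have h3 : IsMulCommutative B := H1.isMulCommutative_iff'.2 fun a ha b hb => by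
    have := h2 x hx _ (B.mul_mem ha hb)
    rw [mul_inv_rev, ← h2 x hx a ha, ← h2 x hx b hb] at this
    calc a * b = x⁻¹ * (x * (a * b) * x⁻¹) * x := by group
      _ = b * a := by rw [this]; group
  have h4 : B.index = 2 := by
    by_cases h : ∀ b, b ∉ B → b * x ∈ B
    · refine Subgroup.index_eq_two_iff.2 ⟨x, fun b => ?_⟩
      by_cases hb : b ∈ B
      · exact Or.inr ⟨hb, fun h => hx ((B.mul_mem_cancel_left hb).1 h)⟩
      · exact Or.inl ⟨h b hb, hb⟩
    push Not at h
    obtain ⟨y, hy, hyx⟩ := h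
    refine H7.index_eq_prime_of_isCoatom (p := 2) (fun g => ⟨1, ?_⟩) hB
    rw [pow_one]
    by_cases hg : g ∈ B
    · have e := h2 _ hyx g hg
      rw [show y * x * g * (y * x)⁻¹ = y * (x * g * x⁻¹) * y⁻¹ by group, h2 x hx g hg,
        h2 y hy _ (B.inv_mem hg), inv_inv] at e
      rw [sq, ← eq_inv_iff_mul_eq_one]
      exact e
    · exact h1 g hg
  refine ⟨B, B.normal_of_index_eq_two h4, h3, h4, fun y hy => ⟨h1 y hy, h2 y hy⟩,
    fun hn B' _ hc hi h => ?_⟩
  by_contra hne
  obtain ⟨y, hy1, hy2⟩ : ∃ y ∈ B', y ∉ B := by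
    by_contra! hle
    refine hne (Subgroup.eq_of_le_of_card_ge hle (le_of_eq ?_))
    have e1 := B.card_mul_index
    rw [← B'.card_mul_index, h4, hi] at e1
    omega
  have h5 : ∀ g : H, g ^ 2 = 1 := fun g => by
    by_cases hg : g ∈ B
    · by_cases hg' : g ∈ B'
      · have e := h2 y hy2 g hg
        rw [H1.isMulCommutative_iff'.1 hc y hy1 g hg', mul_inv_cancel_right] at e
        rw [sq, ← eq_inv_iff_mul_eq_one]
        exact e
      · exact (h g hg').1
    · exact h1 g hg
  exact hn ⟨comm_of_sq h5, h5⟩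

end Cfsg.Agent.S4420
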