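import Cfsg.Statements.S4519
import Cfsg.Agent.H21.Sig

set_option autoImplicit false
open Cfsg

open H17 H15 CF

namespace Cfsg.Agent.S4519

/-- Let N be a normal subgroup of odd index in the finite group G, and let k be coprime to the order of G with k ^ (2 ^ e) ≡ 1 modulo the order of G for some e and g ^ k = g⁻¹ for every element g of odd order (so g ↦ g ^ k induces a field automorphism of 2-power order inverting the roots of unity of odd order). If an irreducible character θ of N satisfies θ (n ^ k) = θ n for all n, then there is exactly one irreducible character χ of G with θ a constituent of its restriction to N and χ (g ^ k) = χ g for all g; moreover, if θ is invariant under conjugation by G, that χ restricts to θ. -/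
theorem result {G : Type*} [Group G] [Fintype G] (N : Subgroup G) [hN : N.Normal] [Fintype N] (hidx : Odd N.index) (k e : ℕ) (hk : Nat.Coprime k (Nat.card G)) (hke : k ^ (2 ^ e) ≡ 1 [MOD Nat.card G]) (hk₂ : ∀ g : G, Odd (orderOf g) → g ^ k = g⁻¹) (θ : Cfsg.IrrCharacter N) (hθ : ∀ n : N, (θ : N → ℂ) (n ^ k) = (θ : N → ℂ) n) : ∃ χ : Cfsg.IrrCharacter G, (Cfsg.classInner (fun n : N => (χ : G → ℂ) n) (θ : N → ℂ) ≠ 0 ∧ (∀ g : G, (χ : G → ℂ) (g ^ k) = (χ : G → ℂ) g) ∧ ((∀ g : G, ∀ n : N, (θ : N → ℂ) ⟨g * n * g⁻¹, hN.conj_mem n n.2 g⟩ = (θ : N → ℂ) n) → ∀ n : N, (χ : G → ℂ) n = (θ : N → ℂ) n)) ∧ ∀ χ' : Cfsg.IrrCharacter G, Cfsg.classInner (fun n : N => (χ' : G → ℂ) n) (θ : N → ℂ) ≠ 0 → (∀ g : G, (χ' : G → ℂ) (g ^ k) = (χ' : G → ℂ) g) → χ' = χ := by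
  obtain ⟨χ, h1, h2, h3, h4⟩ := H21.pw_over hk hke hk₂ (ext0_mem_Irr.2 θ.2) ((H21.pw_ext0 hk).2 hθ)
    ⊤ le_top (top_le_norm N) (by rwa [Subgroup.relIndex_top_right])
  obtain ⟨h5, h6⟩ := H21.mem_over.1 h1
  refine ⟨⟨χ, mem_Irr_top.1 h5⟩, ⟨by rwa [dot_ext0_right] at h6, congrFun h2, fun h n => ?_⟩,
    fun χ' h7 h8 => Subtype.ext (h4 _ (H21.mem_over.2 ⟨mem_Irr_top.2 χ'.2, by
      rwa [dot_ext0_right]⟩) (funext h8))⟩
  have := congrFun (h3 fun g _ => (mem_stab_ext0 hN _ g).2 (h g)) n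
  rwa [Res_of_mem _ n.2, extendByZero_coe] at this

end Cfsg.Agent.S4519
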