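import Cfsg.Statements.S4520
import Cfsg.Agent.H19.Ht5
import Cfsg.Agent.H20.Rk

set_option autoImplicit false
open Cfsg

namespace Cfsg.Agent.S4520
open H17 H19

/-- Let N be a normal subgroup of odd index in the finite group G, M a maximal ideal of the algebraic integers containing 2, and k coprime to the order of G with k ^ (2 ^ e) ≡ 1 modulo the order of G for some e and g ^ k = g⁻¹ for every element g of odd order. Let θ be an irreducible character of N and χ an irreducible character of G over θ, both unchanged by composing with g ↦ g ^ k. Then χ lies in the principal 2-block of G if and only if θ lies in the principal 2-block of N. -/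
theorem result {G : Type*} [Group G] [Fintype G] (M : Ideal Cfsg.AlgInt) (hM : Cfsg.IsPModular 2 M) (N : Subgroup G) [N.Normal] [Fintype N] (hidx : Odd N.index) (k e : ℕ) (hk : Nat.Coprime k (Nat.card G)) (hke : k ^ (2 ^ e) ≡ 1 [MOD Nat.card G]) (hk₂ : ∀ g : G, Odd (orderOf g) → g ^ k = g⁻¹) (θ : Cfsg.IrrCharacter N) (hθ : ∀ n : N, (θ : N → ℂ) (n ^ k) = (θ : N → ℂ) n) (χ : Cfsg.IrrCharacter G) (hχ : ∀ g : G, (χ : G → ℂ) (g ^ k) = (χ : G → ℂ) g) (hover : Cfsg.classInner (fun n : N => (χ : G → ℂ) n) (θ : N → ℂ) ≠ 0) : χ ∈ Cfsg.principalBlock M G ↔ θ ∈ Cfsg.principalBlock M N := by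
  obtain ⟨O, hO, _⟩ := exists_over hM
  rw [hO.principalBlock_eq, hO.principalBlock_eq, mem_irr, mem_irr]
  have hc := cover_of_inner (O := O) hover
  constructor
  · intro h
    rw [h] at hc
    have h0 := cover_of_inner (O := O) (χ := triv G) (θ := triv N) (by
      change classInner (triv N : N → ℂ) (triv N : N → ℂ) ≠ 0
      rw [(triv N).2.inner_self]; exact one_ne_zero)
    obtain ⟨g, -, hg⟩ := H20.exists_conj_of_cover (H20.top_le_nrm N) le_top (H20.isBlk_eG _)
      (H20.isBlk_eA _ _) (H20.isBlk_eA _ _) h0 hc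
    rw [← H20.aug_eA_iff, ← hg, H20.aug_cj]
    exact H20.aug_eA_B0 N
  · intro h
    rw [h] at hc
    obtain ⟨P, hP⟩ := H10.exists_isSylowIn 2 N
    have h1 := H20.knorr' (H20.top_le_nrm N) le_top (H20.isBlk_eA _ _) (H20.eG_mem_cen _)
      (H20.eG_idem _) hc hP.isPGroup hP.le (H20.br_ne_zero_of_aug hP.isPGroup
        (H20.fixed_anti hP.le (H20.isBlk_eA _ _).fixed) (H20.aug_eA_B0 N))
    have h2 := H20.card_le_pow_of_br hP.isPGroup h1
    refine H20.eq_B0_of_inv ?_ hk hk₂ fun ψ hψ => ?_
    · have h3 := H20.defect_add_emin 2 (irr_nonempty (lam O χ))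
      rw [hP.card_eq_pow, Nat.pow_le_pow_iff_right one_lt_two] at h2
      rw [← fact_card_add_index N, Nat.factorization_eq_zero_of_not_dvd hidx.not_two_dvd_nat] at h3
      omega
    · rw [mem_irr, H20.lam_powIrr hk (mem_irr.1 hψ)]
      exact congrArg _ (Subtype.ext (funext hχ))

end Cfsg.Agent.S4520
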