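import Cfsg.Statements.S4521
import Cfsg.Agent.H19.Ht4
import Cfsg.Agent.H20.Frat
-- import your own Cfsg.Agent.* helpers here

set_option autoImplicit false
open Cfsg

namespace Cfsg.Agent.S4521

open H17 H20 MonoidAlgebra

theorem cls_mul {R G : Type*} [CommRing R] [Group G] [Finite G] {p : ℕ} [Fact p.Prime]
    {U V : Subgroup G} [hU : U.Normal] [hV : V.Normal] (hc : ∀ u ∈ U, ∀ v ∈ V, u * v = v * u)
    (hg : ∀ g, ∃ u ∈ U, ∃ v ∈ V, u * v = g) (hZ : IsPGroup p ↥(U ⊓ V)) {u v : G} (hu : u ∈ U)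
    (hv : v ∈ V) (h1 : ¬ p ∣ orderOf u) (h2 : ¬ p ∣ orderOf v) :
    H19.classSum R (u * v) = H19.classSum R u * H19.classSum R v := by
  classical
  have := Fintype.ofFinite G
  refine H19.ga_ext fun x => ?_
  simp only [H19.coeff_mul_sum, H19.coeff_classSum]
  split_ifs with h
  · obtain ⟨g, rfl⟩ := isConj_iff.1 h
    rw [Finset.sum_eq_single (g * u * g⁻¹) (fun y _ hy => ?_) (by simp), if_pos (isConj_iff.2 ⟨g, rfl⟩),
      if_pos (isConj_iff.2 ⟨g, by group⟩), one_mul]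
    split_ifs with e e' <;> try simp
    obtain ⟨a, rfl⟩ := isConj_iff.1 e
    obtain ⟨b, hb⟩ := isConj_iff.1 e'
    have h3 : (g * u * g⁻¹)⁻¹ * (a * u * a⁻¹) ∈ V := by
      rw [show (g * u * g⁻¹)⁻¹ * (a * u * a⁻¹) = g * v * g⁻¹ * (b * v * b⁻¹)⁻¹ by rw [hb]; group]
      exact mul_mem (hV.conj_mem _ hv _) (inv_mem (hV.conj_mem _ hv _))
    have h4 := H19.isPPart_mul (H19.isPElt_of_mem hZ ⟨U.mul_mem (U.inv_mem (hU.conj_mem _ hu g))
      (hU.conj_mem _ hu a), h3⟩) (y := g * u * g⁻¹) (by rwa [H19.orderOf_conj'])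
      (hc _ (hU.conj_mem _ hu g) _ h3).symm
    rw [← hc _ (hU.conj_mem _ hu g) _ h3, mul_inv_cancel_left] at h4
    exact (hy (inv_mul_eq_one.1 ((H19.isPPart_eq_one_iff h4).2
      (by rwa [H19.orderOf_conj']))).symm).elim
  · refine (Finset.sum_eq_zero fun y _ => ?_).symm
    split_ifs with e e' <;> try simp
    obtain ⟨a, rfl⟩ := isConj_iff.1 e
    obtain ⟨b, hb⟩ := isConj_iff.1 e'
    obtain ⟨a, ha, a', ha', rfl⟩ := hg a
    obtain ⟨b, hb', b', hb'', rfl⟩ := hg b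
    refine (h (isConj_iff.2 ⟨a * b', ?_⟩)).elim
    rw [eq_inv_mul_iff_mul_eq, hc b hb' b' hb'', mul_assoc a a', ← hc u hu a' ha', mul_assoc b' b,
      hc b hb' v hv] at hb
    rw [← hb, mul_assoc a b', ← mul_assoc b' u, ← hc u hu b' hb'', mul_inv_rev,
      ← hc _ (inv_mem ha) _ (inv_mem hb'')]
    have := hc _ (inv_mem ha) _ (mul_mem (mul_mem hb'' hv) (inv_mem hb''))
    simp only [mul_assoc, mul_inv_rev, mul_inv_cancel_left] at this ⊢
    rw [this, hc _ (inv_mem ha) _ (inv_mem hb'')]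


/-- Let the finite group G be generated by subgroups U₁ and U₂ that commute elementwise and whose intersection is a p-group, and let M be a maximal ideal of the algebraic integers containing the prime p. If the irreducible character χ of G has the irreducible constituents ψ₁ on U₁ and ψ₂ on U₂, then χ lies in the principal block of G if and only if ψ₁ and ψ₂ lie in the principal blocks of U₁ and U₂. -/
theorem result {G : Type*} [Group G] [Fintype G] (p : ℕ) [Fact p.Prime] (M : Ideal Cfsg.AlgInt) (hM : Cfsg.IsPModular p M) (U₁ U₂ : Subgroup G) [Fintype U₁] [Fintype U₂] (hcomm : ∀ u ∈ U₁, ∀ v ∈ U₂, u * v = v * u) (hgen : U₁ ⊔ U₂ = ⊤) (hZ : IsPGroup p ↥(U₁ ⊓ U₂)) (χ : Cfsg.IrrCharacter G) (ψ₁ : Cfsg.IrrCharacter U₁) (ψ₂ : Cfsg.IrrCharacter U₂) (h₁ : Cfsg.classInner (fun u : U₁ => (χ : G → ℂ) u) (ψ₁ : U₁ → ℂ) ≠ 0) (h₂ : Cfsg.classInner (fun u : U₂ => (χ : G → ℂ) u) (ψ₂ : U₂ → ℂ) ≠ 0) :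 χ ∈ Cfsg.principalBlock M G ↔ (ψ₁ ∈ Cfsg.principalBlock M U₁ ∧ ψ₂ ∈ Cfsg.principalBlock M U₂) := by
  classical
  obtain ⟨O, hO, _⟩ := H19.exists_over hM
  simp only [hO.principalBlock_eq, H19.mem_irr]
  have hn : ∀ {U V : Subgroup G}, (∀ u ∈ U, ∀ v ∈ V, u * v = v * u) → U ⊔ V = ⊤ → U.Normal :=
    fun {U V} h e => Subgroup.normalizer_eq_top_iff.1 (top_le_iff.1 (e ▸ sup_le (le_nrm_self U)
      fun v hv => cent_le_nrm U (Subgroup.mem_centralizer_iff.2 fun u hu => h u hu v hv)))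
  have := hn hcomm hgen
  have := hn (fun u hu v hv => (hcomm v hv u hu).symm) (sup_comm U₁ U₂ ▸ hgen)
  have key : ∀ {U V : Subgroup G} [Fintype U] (ψ : IrrCharacter U), (∀ u ∈ U, ∀ v ∈ V, u * v = v * u) →
      U ⊔ V = ⊤ → classInner (fun u : U => (χ : G → ℂ) u) ψ ≠ 0 → (H19.lam O χ = H19.B0 O G →
        H19.lam O ψ = H19.B0 O U) ∧ (H19.lam O ψ = H19.B0 O U → ∀ z ∈ supp (H19.kk O) U ⊓ fixed _ ⊤,
          chr (eG (H19.lam O χ)) z = aug z) := fun {U V} _ ψ h e h1 => by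
    have h2 := @chr_eq_of_cover _ _ _ _ _ _ _ _ _ _ le_top (isBlk_eG _) (isBlk_eA _ _)
      (H19.cover_of_inner (O := O) h1)
    have hb := isBlk_eA U (H19.lam O ψ)
    refine ⟨fun h3 => aug_eA_iff.1 ?_, fun h3 z hz => ?_⟩
    · have h4 : eA U (H19.lam O ψ) ∈ fixed _ ⊤ := e ▸ mem_fixed_sup.2 ⟨hb.fixed, supp_cent_le_fixed V
        (supp_mono (fun u hu => Subgroup.mem_centralizer_iff.2 fun v hv => (h u hu v hv).symm) hb.supp)⟩
      rw [← chr_eq_aug (isBlk_eG _) (aug_eG_iff.2 h3) ⟨mem_supp_top _, h4⟩, h2 ⟨hb.supp, h4⟩, chr_self hb]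
    · rw [h2 hz, chr_eq_aug hb (aug_eA_iff.2 h3) ⟨hz.1, fixed_anti le_top hz.2⟩]
  have k1 := key ψ₁ hcomm hgen h₁
  have k2 := key ψ₂ (fun u hu v hv => (hcomm v hv u hu).symm) (sup_comm U₁ U₂ ▸ hgen) h₂
  refine ⟨fun h => ⟨k1.1 h, k2.1 h⟩, fun h => H19.eq_of_blk_eB_ne_zero ?_⟩
  have hg : ∀ g, ∃ u ∈ U₁, ∃ v ∈ U₂, u * v = g := fun g =>
    Subgroup.mem_sup_of_normal_left.1 (hgen ▸ Subgroup.mem_top g)
  have := Fintype.ofFinite (ConjClasses G)
  rw [H19.blk_eq_sum, Finset.sum_congr rfl fun K _ => ?_, ← H19.blk_eq_sum (H19.B0 O G),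
    H19.blk_eB_self]
  · exact one_ne_zero
  by_cases e : (H19.eB (H19.B0 O G) : (H19.kk O)[G]).coeff (H19.rep K) = 0
  · rw [e, zero_mul, zero_mul]
  obtain ⟨u, hu, v, hv, h3⟩ := hg (H19.rep K)
  have h4 : H19.rpart p u * H19.rpart p v = H19.rep K := by
    have hc : Commute u v := hcomm u hu v hv
    rw [← H19.rpart_of_reg (H19.preg_of_coeff_eB e), ← h3, ← H19.rpart_mul_reg (H19.rpart_reg v)
      (H19.commute_rpart hc), ← H19.rpart_pelt_mul (H19.ppart_isPElt v) (g := u * _)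
      ((H19.commute_ppart hc).symm.mul_right (H19.commute_ppart_rpart v)), ← mul_assoc,
      ← (H19.commute_ppart hc).eq, mul_assoc, H19.ppart_mul_rpart]
  have c1 := classSum_mem_supp_fixed (R := H19.kk O) (⟨H19.rpart p u, rpart_mem hu⟩ : U₁)
  have c2 := classSum_mem_supp_fixed (R := H19.kk O) (⟨H19.rpart p v, rpart_mem hv⟩ : U₂)
  congr 1
  rw [← chr_eG, ← chr_eG, chr_eq_aug (isBlk_eG _) aug_eG_B0 (mem_cen_top_iff.2 (H19.cls _ _).2),
    H19.coe_cls, ← h4, cls_mul hcomm hg hZ (rpart_mem hu) (rpart_mem hv) (H19.rpart_reg u)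
      (H19.rpart_reg v), map_mul, chr_mul (isBlk_eG _) ⟨mem_supp_top _, c1.2⟩ ⟨mem_supp_top _, c2.2⟩,
    k1.2 h.1 _ c1, k2.2 h.2 _ c2]

end Cfsg.Agent.S4521
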