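import Cfsg.Statements.S4528
import Cfsg.Agent.H19.TmD

set_option autoImplicit false
open Cfsg

namespace Cfsg.Agent.S4528
open H17 H19

/-- Let B be a 2-block of the finite group G (relative to a maximal ideal M of the algebraic integers containing 2) whose defect group D is dihedral of order 2 ^ n with n ≥ 3. Then B contains exactly 2 ^ (n - 2) + 3 irreducible characters, its 2-regular rank (the number of irreducible Brauer characters) is between 1 and 3, exactly four of its members have height zero, and every member has height at most one. -/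
theorem result {G : Type*} [Group G] [Finite G] (M : Ideal Cfsg.AlgInt) (hM : Cfsg.IsPModular 2 M) (B : Set (Cfsg.IrrCharacter G)) (hB : Cfsg.IsPBlock M B) (D : Subgroup G) (hD : Cfsg.IsDefectGroup 2 M B D) (n : ℕ) (hn : 3 ≤ n) (hdih : Nonempty (D ≃* DihedralGroup (2 ^ (n - 1)))) : Nat.card B = 2 ^ (n - 2) + 3 ∧ 1 ≤ Cfsg.blockRank 2 B ∧ Cfsg.blockRank 2 B ≤ 3 ∧ Nat.card {χ : Cfsg.IrrCharacter G // χ ∈ B ∧ Cfsg.blockHeight 2 B (χ : G → ℂ) = 0} = 4 ∧ ∀ χ ∈ B, Cfsg.blockHeight 2 B (χ : G → ℂ) ≤ 1 := by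
  obtain ⟨O, hO, _⟩ := exists_over hM
  obtain ⟨β, rfl⟩ := hO.exists_blk hB
  rw [H20.isDefectGroup_iff hO hM] at hD
  obtain ⟨e, h⟩ := H20.exists_max (H20.isBlk_eG β) hD
  obtain ⟨b, hb⟩ := exists_SB h
  obtain ⟨φ⟩ := hdih
  obtain ⟨x, y, m, hy⟩ := exists_MC_dih hn φ
  obtain ⟨h1, h2, h3, h4⟩ := m.dih (m.sq_dih hy) hb
  exact ⟨by rw [h1]; congr 2; omega, H20.blockRank_pos β, by omega, h3, h4⟩

end Cfsg.Agent.S4528
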