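import Cfsg.Statements.S4530
import Cfsg.Agent.H19.TmH

set_option autoImplicit false
open Cfsg

namespace Cfsg.Agent.S4530
open H17 H19

/-- Let B be a 2-block of the finite group G (relative to a maximal ideal M of the algebraic integers containing 2) whose defect group D is generalized quaternion of order 2 ^ n, n ≥ 3. Then its 2-regular rank l is between 1 and 3, the number of irreducible characters in B is l + 2 ^ (n - 2) + 2, exactly four members have height zero, and every other member has height one or height n - 2; when n ≥ 4 exactly 2 ^ (n - 2) - 1 members have height one. -/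
theorem result {G : Type*} [Group G] [Finite G] (M : Ideal Cfsg.AlgInt) (hM : Cfsg.IsPModular 2 M) (B : Set (Cfsg.IrrCharacter G)) (hB : Cfsg.IsPBlock M B) (D : Subgroup G) (hD : Cfsg.IsDefectGroup 2 M B D) (n : ℕ) (hn : 3 ≤ n) (hq : Nonempty (D ≃* QuaternionGroup (2 ^ (n - 2)))) : 1 ≤ Cfsg.blockRank 2 B ∧ Cfsg.blockRank 2 B ≤ 3 ∧ Nat.card B = Cfsg.blockRank 2 B + 2 ^ (n - 2) + 2 ∧ Nat.card {χ : Cfsg.IrrCharacter G // χ ∈ B ∧ Cfsg.blockHeight 2 B (χ : G → ℂ) = 0} = 4 ∧ (∀ χ ∈ B, Cfsg.blockHeight 2 B (χ : G → ℂ) = 0 ∨ Cfsg.blockHeight 2 B (χ : G → ℂ) = 1 ∨ Cfsg.blockHeight 2 B (χ : G → ℂ) = n - 2) ∧ (4 ≤ n → Nat.card {χ : Cfsg.IrrCharacter G // χ ∈ B ∧ Cfsg.blockHeight 2 B (χ : G → ℂ) = 1} = 2 ^ (n - 2) - 1) := by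
  classical
  obtain ⟨O, hO, _⟩ := exists_over hM
  obtain ⟨β, rfl⟩ := hO.exists_blk hB
  rw [H20.isDefectGroup_iff hO hM] at hD
  obtain ⟨e, h⟩ := H20.exists_max (H20.isBlk_eG β) hD
  obtain ⟨b, hb⟩ := exists_SB h
  obtain ⟨φ⟩ := hq
  obtain ⟨x, y, m, hy, hxy⟩ := exists_MC_quat hn φ
  obtain ⟨k, rfl⟩ := Nat.exists_eq_add_of_le' hn
  rw [show k + 3 - 2 = k + 1 from rfl]
  rw [show k + 3 - 3 = k from rfl] at m
  obtain ⟨th, lam, a, η, n, Q⟩ := m.exists_QT hb hxy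
  have h1 := m.card_irr' hb hxy
  have h2 := H20.blockRank_pos (p := 2) β
  simp only [hy, false_and, if_false] at h1 Q
  rcases Nat.eq_zero_or_pos k with hk | hk
  · obtain ⟨h3, h4⟩ := Q.main0 hk
    subst hk
    exact ⟨h2, by omega, h1, Q.h4, fun χ hχ => (h4 χ hχ).imp_right Or.inl, by omega⟩
  · obtain ⟨γ, h3, h4, h5, h6⟩ := Q.main hk (by omega) (by omega)
    exact ⟨h2, by omega, h1, Q.h4, h6, fun _ => h5⟩

end Cfsg.Agent.S4530
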