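import Cfsg.Statements.S4531
import Cfsg.Agent.H19.TmI

set_option autoImplicit false
open Cfsg

namespace Cfsg.Agent.S4531
open H17 H19

/-- Let the finite group G have a 2-block B (relative to a maximal ideal M of the algebraic integers containing 2) of 2-regular rank three (three irreducible Brauer characters) whose defect group D is dihedral of order 2 ^ n with n ≥ 3 or semidihedral. Then the centre of G has odd order and G is not solvable. -/
theorem result {G : Type*} [Group G] [Finite G] (M : Ideal Cfsg.AlgInt) (hM : Cfsg.IsPModular 2 M) (B : Set (Cfsg.IrrCharacter G)) (hB : Cfsg.IsPBlock M B) (D : Subgroup G) (hD : Cfsg.IsDefectGroup 2 M B D) (hD' : (∃ n : ℕ, 3 ≤ n ∧ Nonempty (D ≃* DihedralGroup (2 ^ (n - 1)))) ∨ Cfsg.IsQuasiDihedral D) (hl : Cfsg.blockRank 2 B = 3) : Odd (Nat.card (Subgroup.center G)) ∧ ¬ Group.IsSolvable G := by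
  obtain ⟨O, hO, _⟩ := exists_over hM
  obtain ⟨β, rfl⟩ := hO.exists_blk hB
  rw [H20.isDefectGroup_iff hO hM] at hD
  obtain ⟨k, x, y, t, m, hy⟩ : ∃ k x y t, MC D k x y t ∧ y * y = 1 := by
    rcases hD' with ⟨n, hn, ⟨φ⟩⟩ | h
    · obtain ⟨x, y, m⟩ := exists_MC_dih hn φ
      exact ⟨_, x, y, _, m⟩
    · obtain ⟨k, x, y, m, -, hy, -⟩ := exists_MC_qd h
      exact ⟨k, x, y, _, m, hy⟩
  exact ⟨m.odd_center hy hD hl.ge, fun hs => (rank_lt_of_psolv G
    (H1.isPSolvable_of_isSolvable 2 hs) β D k x y t hD m hy).ne hl⟩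

end Cfsg.Agent.S4531
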