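import Cfsg.Statements.S4534
import Cfsg.Agent.H19.Sn8

set_option autoImplicit false
open Cfsg

namespace Cfsg.Agent.S4534
open H17 H19

/-- Let B be a p-block of a finite symmetric group (relative to a maximal ideal M of the algebraic integers containing p) with a nontrivial defect group D all of whose sections have p-rank at most s. Then the p-regular rank of B is less than p ^ s. -/
theorem result (n : ℕ) (p : ℕ) [Fact p.Prime] (M : Ideal Cfsg.AlgInt) (hM : Cfsg.IsPModular p M) (B : Set (Cfsg.IrrCharacter (Equiv.Perm (Fin n)))) (hB : Cfsg.IsPBlock M B) (D : Subgroup (Equiv.Perm (Fin n))) (hD : Cfsg.IsDefectGroup p M B D) (hD1 : D ≠ ⊥) (s : ℕ) (hs : Cfsg.SectionalPRankLE p s D) : Cfsg.blockRank p B < p ^ s := by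
  obtain ⟨O, hO, _⟩ := exists_over hM
  obtain ⟨β, rfl⟩ := hO.exists_blk hB
  rw [hO.isDefectGroup_iff hM] at hD
  have hp : p.Prime := Fact.out
  have hN : 2 * Fintype.card (Fin n) ≤ Fintype.card (Fin (2 * n)) := by simp
  obtain ⟨γ, w, h⟩ := Sn.exists_hasCore (p := p) hN β
  have hs1 : 0 < s := by
    obtain ⟨x, hx, -, hx1⟩ := H9.exists_mem_center_orderOf_eq hD.isPGroup (M := ⊤)
      (by have := (Subgroup.nontrivial_iff_ne_bot D).2 hD1; exact top_ne_bot)
    have := Sn.card_le_of_sectional hs (D.subtype.comp (Subgroup.zpowers x).subtype)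
      (D.subtype_injective.comp (Subgroup.subtype_injective _)) (fun y => y.1.2)
      (fun a b => mul_comm' a b) (fun a => by rw [← hx1, ← Nat.card_zpowers, pow_card_eq_one'])
    rw [Nat.card_zpowers, hx1] at this
    by_contra h0
    rw [show s = 0 by omega, pow_zero] at this
    exact absurd hp.two_le (by omega)
  have hw : w ≤ s := by
    let φ := Sn.piHom (Fin w) (MulAction.toPermHom (Multiplicative (ZMod p)) (Multiplicative (ZMod p)))
    have hφ : Function.Injective φ := Sn.piHom_injective MulAction.toPerm_injective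
    have he : ∀ x : Fin w → Multiplicative (ZMod p), x ^ p = 1 := fun x => funext fun i => by
      simpa using pow_card_eq_one (x := x i)
    obtain ⟨e, he'⟩ := h.exists_embedding hN hD (Ω := Fin w × Multiplicative (ZMod p))
      (by simp [mul_comm]) (R := φ.range)
      (IsPGroup.of_surjective (fun x => ⟨1, by simpa using he x⟩) _ φ.rangeRestrict_surjective)
    have := Sn.card_le_of_sectional hs ((Equiv.Perm.viaEmbeddingHom e).comp φ)
      ((Equiv.Perm.viaEmbeddingHom_injective e).comp hφ) (fun x => he' ⟨_, ⟨x, rfl⟩, rfl⟩)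
      mul_comm he
    simp only [Nat.card_eq_fintype_card, Fintype.card_pi, Fintype.card_multiplicative, ZMod.card,
      Finset.prod_const, Finset.card_univ, Fintype.card_fin] at this
    exact (Nat.pow_le_pow_iff_right hp.one_lt).1 this
  refine (h.rank_le hN).trans_lt ?_
  rcases w with _ | w
  · rw [Sn.CP_zero, Set.ncard_singleton]; exact Nat.one_lt_pow hs1.ne' hp.one_lt
  · have h1 := Sn.ncard_CP_add (p - 1) 1 w
    have h2 := Sn.ncard_CP_one (p - 1)
    rw [Nat.sub_add_cancel hp.one_le, add_comm] at h1
    refine h1.trans_lt (lt_of_lt_of_le ?_ (Nat.pow_le_pow_right hp.pos hw))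
    rw [pow_succ']
    exact Nat.mul_lt_mul_of_pos_right (by have := hp.pos; omega) (Nat.pow_pos hp.pos)

end Cfsg.Agent.S4534
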