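import Cfsg.Statements.S4535
import Cfsg.Agent.H19.Sn11

set_option autoImplicit false
open Cfsg

namespace Cfsg.Agent.S4535
open H17 H19
theorem v1 : ∀ y : Multiplicative (ZMod 2 × ZMod 2), Equiv.Perm.sign
    (MulAction.toPermHom (Multiplicative (ZMod 2 × ZMod 2)) (Multiplicative (ZMod 2 × ZMod 2)) y) = 1 := by
  decide

theorem v2 : ∀ y : Multiplicative (ZMod 2 × ZMod 2), y ^ 2 = 1 := by decide

theorem aux (q c : ℕ) (hq : 2 ≤ q) (hc : c ≤ q + q * q + (q + 2).choose 3) : 2 * c < (q + 1) ^ 3 := by
  have h : (q + 2).choose 3 * 6 = (q + 2) * (q + 1) * q := by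
    have := Nat.descFactorial_eq_factorial_mul_choose (q + 2) 3
    simp only [Nat.descFactorial, Nat.factorial] at this
    rw [mul_comm]
    simp at this
    rw [← this]; ring
  nlinarith [Nat.mul_le_mul hq hq, Nat.mul_le_mul (Nat.mul_le_mul hq hq) hq]

/-- Let B be a p-block of a finite alternating group (relative to a maximal ideal M of the algebraic integers containing p) with a nontrivial defect group D all of whose sections have p-rank at most s. Then the p-regular rank of B is less than p ^ s. -/
theorem result (n : ℕ) (p : ℕ) [Fact p.Prime] (M : Ideal Cfsg.AlgInt) (hM : Cfsg.IsPModular p M) (B : Set (Cfsg.IrrCharacter (alternatingGroup (Fin n)))) (hB : Cfsg.IsPBlock M B) (D : Subgroup (alternatingGroup (Fin n))) (hD : Cfsg.IsDefectGroup p M B D) (hD1 : D ≠ ⊥) (s : ℕ) (hs : Cfsg.SectionalPRankLE p s D) : Cfsg.blockRank p B < p ^ s := by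
  obtain ⟨O, hO, _⟩ := exists_over hM
  obtain ⟨b, rfl⟩ := hO.exists_blk hB
  rw [hO.isDefectGroup_iff hM] at hD
  have hp : p.Prime := Fact.out
  have hN : 2 * Fintype.card (Fin n) ≤ Fintype.card (Fin (2 * n)) := by simp
  obtain ⟨β, E, γ, w, h⟩ := Sn.exists_AB hN hD
  have hd : blockDefect p (irr b) ≠ 0 := fun h0 => hD1 (by
    rw [← Subgroup.card_eq_one, hD.card_eq_pow, h0, pow_zero])
  have hw0 : w ≠ 0 := by
    rintro rfl
    exact hd (by simpa using h.defect_le)
  have : Nontrivial (Fin n) := by
    rw [← Fintype.one_lt_card_iff_nontrivial]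
    exact lt_of_lt_of_le hp.one_lt ((Nat.le_mul_of_pos_right _ (by omega)).trans h.core.le)
  obtain ⟨r1, r2⟩ := Ix.rank_le_two_mul (p := p) alternatingGroup.index_eq_two h.cov
  have r3 := h.core.rank_le hN
  have small : blockDefect p (irr b) ≤ 2 → blockDefect p (irr b) ≤ s → blockRank p (irr b) < p ^ s :=
    fun h1 h2 => (rank_lt_card hd).trans_le ((H20.card_irr_le_of_defect h1).trans
      (Nat.pow_le_pow_right hp.pos h2))
  have r4 : ∀ v, w = 3 + v → blockRank p (irr β) ≤ (Sn.CP (p - 1) 3).ncard * p ^ v := by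
    rintro v rfl
    have := Sn.ncard_CP_add (p - 1) 3 v
    rw [Nat.sub_add_cancel hp.one_le] at this
    exact r3.trans this
  have r5 := Sn.ncard_CP_three (p - 1)
  by_cases h2 : p = 2
  · subst h2
    have hs' : 2 * (w / 2) ≤ s := by
      let Λ := Multiplicative (ZMod 2 × ZMod 2)
      have := h.card_le hs (Ω := Fin (w / 2) × Λ) (by simp [Λ]; omega)
        (Sn.piHom (Fin (w / 2)) (MulAction.toPermHom Λ Λ))
        (Sn.piHom_injective MulAction.toPerm_injective)
        (fun x => by
          rw [Sn.sign_piHom]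
          exact Finset.prod_eq_one fun i _ => v1 _)
        mul_comm (fun x => funext fun i => v2 _)
      simp only [Λ, Nat.card_eq_fintype_card, Fintype.card_pi, Fintype.card_multiplicative,
        Fintype.card_prod, ZMod.card, Finset.prod_const, Finset.card_univ, Fintype.card_fin] at this
      rw [← pow_two, ← pow_mul] at this
      exact (Nat.pow_le_pow_iff_right one_lt_two).1 this
    have hd2 := h.defect_two rfl hw0
    by_cases hw : w < 3
    · have : (Nat.factorial w).factorization 2 + 1 = w := by
        interval_cases w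
        · exact absurd rfl hw0
        · simp
        · simp [Nat.prime_two.factorization]
      exact small (by omega) (by omega)
    · obtain ⟨v, rfl⟩ := Nat.exists_eq_add_of_le (not_lt.1 hw)
      have r6 := (r4 v rfl).trans (Nat.mul_le_mul_right _ r5)
      have r7 : 0 < 2 ^ v := by positivity
      simp only [Nat.add_one_sub_one, mul_one, Nat.reduceAdd, Nat.choose_self] at r6
      rcases Nat.even_or_odd (3 + v) with hw | hw
      · have : 2 ^ (3 + v) ≤ 2 ^ s := Nat.pow_le_pow_right two_pos (by obtain ⟨k, hk⟩ := hw; omega)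
        rw [pow_add] at this
        omega
      · have r8 := r2 fun χ hχ => h.tw_ne rfl hw hχ
        have : 2 ^ (2 + v) ≤ 2 ^ s := Nat.pow_le_pow_right two_pos (by omega)
        rw [pow_add] at this
        omega
  · have hw : w ≤ s := by
      let Λ := Multiplicative (ZMod p)
      have he : ∀ x : Fin w → Λ, x ^ p = 1 := fun x => funext fun i => by
        simpa [Λ] using pow_card_eq_one (x := x i)
      have := h.card_le hs (Ω := Fin w × Λ) (by simp [Λ, mul_comm])
        (Sn.piHom (Fin w) (MulAction.toPermHom Λ Λ))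
        (Sn.piHom_injective MulAction.toPerm_injective)
        (fun x => Sn.le_alt h2 (IsPGroup.of_surjective (fun x => ⟨1, by simpa using he x⟩) _
          (MonoidHom.rangeRestrict_surjective _)) ⟨x, rfl⟩) mul_comm he
      simp only [Λ, Nat.card_eq_fintype_card, Fintype.card_pi, Fintype.card_multiplicative,
        ZMod.card, Finset.prod_const, Finset.card_univ, Fintype.card_fin] at this
      exact (Nat.pow_le_pow_iff_right hp.one_lt).1 this
    have h3 : 3 ≤ p := lt_of_le_of_ne hp.two_le (Ne.symm h2)
    by_cases hw3 : w < 3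
    · have := h.defect_odd h2
      rw [Nat.factorization_factorial_eq_zero_of_lt (by omega)] at this
      exact small (by omega) (by omega)
    · obtain ⟨v, rfl⟩ := Nat.exists_eq_add_of_le (not_lt.1 hw3)
      have r6 := aux (p - 1) _ (by omega) r5
      rw [Nat.sub_add_cancel hp.one_le] at r6
      refine lt_of_lt_of_le ?_ (Nat.pow_le_pow_right hp.pos hw)
      calc _ ≤ 2 * ((Sn.CP (p - 1) 3).ncard * p ^ v) := r1.trans (Nat.mul_le_mul_left _ (r4 v rfl))
        _ < p ^ 3 * p ^ v := by
          rw [← mul_assoc]; exact Nat.mul_lt_mul_of_pos_right r6 (Nat.pow_pos hp.pos)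
        _ = _ := (pow_add _ _ _).symm

end Cfsg.Agent.S4535
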