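import Cfsg.Statements.S4538
import Cfsg.Agent.H20.Stn2
-- import your own Cfsg.Agent.* helpers here

set_option autoImplicit false
open Cfsg

namespace Cfsg.Agent.S4538

/-- Let F be a finite field of characteristic p and n ≥ 2. Relative to a maximal ideal M of the algebraic integers containing p, the group SL(n, F) has exactly one p-block of defect zero, and every other p-block has full defect (its defect equals the exponent of p in the order of the group, so its defect groups are Sylow p-subgroups). -/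
theorem result {F : Type*} [Field F] [Fintype F] (n : ℕ) (hn : 2 ≤ n) (p : ℕ) [Fact p.Prime] [CharP F p] (M : Ideal Cfsg.AlgInt) (hM : Cfsg.IsPModular p M) : Nat.card {B : Set (Cfsg.IrrCharacter (Matrix.SpecialLinearGroup (Fin n) F)) // Cfsg.IsPBlock M B ∧ Cfsg.blockDefect p B = 0} = 1 ∧ ∀ B : Set (Cfsg.IrrCharacter (Matrix.SpecialLinearGroup (Fin n) F)), Cfsg.IsPBlock M B → Cfsg.blockDefect p B = 0 ∨ Cfsg.blockDefect p B = (Nat.card (Matrix.SpecialLinearGroup (Fin n) F)).factorization p := by
  -----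
  obtain ⟨O, hO, _⟩ := H19.exists_over hM
  refine ⟨?_, fun B hB => ?_⟩
  · obtain ⟨χ, h1, h2⟩ := H20.sl_vd (p := p) (F := F) hn
    refine Nat.card_eq_one_iff_exists.2 ⟨⟨_, hO.isPBlock_irr (H19.lam O χ),
      H19.defect_zero_of_vd h1⟩, fun ⟨B, hB, h⟩ => Subtype.ext ?_⟩
    obtain ⟨β, rfl⟩ := hO.exists_blk hB
    obtain ⟨ψ, rfl⟩ := H19.lam_surjective β
    exact congrArg (fun ψ => H19.irr (H19.lam O ψ)) (h2 ψ (H19.vd_of_defect_zero h rfl))
  · obtain ⟨β, rfl⟩ := hO.exists_blk hB
    exact H20.sl_defect β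

end Cfsg.Agent.S4538
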