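import Cfsg.Statements.S4539
import Cfsg.Agent.H19.Maj

set_option autoImplicit false
open Cfsg

namespace Cfsg.Agent.S4539
open H17 H19

/-- Let B be a p-block of the finite group G (relative to a maximal ideal M of the algebraic integers containing p) of defect d with defect group D. Let z be an element of D commuting with every element of D, and let b be a block of the centralizer C of z with defect group D that induces B (a major subsection (z, b)). If b has p-regular rank at most two, then B contains at most p ^ d irreducible characters. -/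
theorem result {G : Type*} [Group G] [Finite G] (p : ℕ) [Fact p.Prime] (M : Ideal Cfsg.AlgInt) (hM : Cfsg.IsPModular p M) (B : Set (Cfsg.IrrCharacter G)) (hB : Cfsg.IsPBlock M B) (D : Subgroup G) (hD : Cfsg.IsDefectGroup p M B D) (z : G) (hzD : z ∈ D) (hzc : ∀ d ∈ D, d * z = z * d) (b : Set (Cfsg.IrrCharacter ↥(Subgroup.centralizer ({z} : Set G)))) (hb : Cfsg.IsInducedBlock M (Subgroup.centralizer ({z} : Set G)) b B) (hbD : Cfsg.IsDefectGroup p M b (D.subgroupOf (Subgroup.centralizer ({z} : Set G)))) (hl : Cfsg.blockRank p b ≤ 2) : Nat.card B ≤ p ^ Cfsg.blockDefect p B := by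
  obtain ⟨O, hO, _⟩ := exists_over hM
  obtain ⟨b, β, rfl, rfl, hi⟩ := hO.exists_of_isInducedBlock hb
  rw [hO.isDefectGroup_iff hM] at hD hbD
  have hd := defect_eq_of_major hD (fun d h => Subgroup.mem_centralizer_singleton_iff.2 (hzc d h)) hbD
  have hz := isPElt_of_mem hD.isPGroup hzD
  by_cases h : ∃ θ ∈ LZ O (irr b), (p : ℂ) ^ Cfsg.blockDefect p (irr β) *
      H20.bil (Cfsg.pRegularPart p θ) θ = (1 : ℕ)
  · obtain ⟨θ, hθ, h⟩ := h
    simpa using card_le_of_unit rfl hz hi hd hθ (Fact.out : p.Prime).not_dvd_one h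
  · have := card_mul_le_of_min rfl hz hi hd 2 fun θ hθ m h1 h2 c =>
      h ⟨θ, hθ, by rwa [show m = 1 by omega] at c⟩
    exact Nat.le_of_mul_le_mul_right (this.trans (Nat.mul_le_mul_left _ hl)) two_pos

end Cfsg.Agent.S4539
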