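import Cfsg.Statements.S4541
import Cfsg.Agent.H19.Maj

set_option autoImplicit false
open Cfsg

namespace Cfsg.Agent.S4541
open H17 H19

/-- Let B be a 2-block of the finite group G (relative to a maximal ideal M of the algebraic integers containing 2), u a 2-element, and b a block of the centralizer of u inducing B (a subsection (u, b)), of defect q and 2-regular rank l; write s for the integer square root of l and k₀(B) for the number of members of B of height zero. If s is odd then k₀(B) ≤ s·2 ^ q, and otherwise (s + 1)·k₀(B) ≤ l·2 ^ q; in particular k₀(B) ≤ 2 ^ q when l ≤ 3. -/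
theorem result {G : Type*} [Group G] [Finite G] (M : Ideal Cfsg.AlgInt) (hM : Cfsg.IsPModular 2 M) (B : Set (Cfsg.IrrCharacter G)) (hB : Cfsg.IsPBlock M B) (u : G) (hu : ∃ j : ℕ, orderOf u = 2 ^ j) (b : Set (Cfsg.IrrCharacter ↥(Subgroup.centralizer ({u} : Set G)))) (hb : Cfsg.IsInducedBlock M (Subgroup.centralizer ({u} : Set G)) b B) : (Odd (Nat.sqrt (Cfsg.blockRank 2 b)) → Nat.card {χ : Cfsg.IrrCharacter G // χ ∈ B ∧ Cfsg.blockHeight 2 B (χ : G → ℂ) = 0} ≤ Nat.sqrt (Cfsg.blockRank 2 b) * 2 ^ Cfsg.blockDefect 2 b) ∧ (¬ Odd (Nat.sqrt (Cfsg.blockRank 2 b)) → (Nat.sqrt (Cfsg.blockRank 2 b) + 1) * Nat.card {χ : Cfsg.IrrCharacter G // χ ∈ B ∧ Cfsg.blockHeight 2 B (χ : G → ℂ) = 0} ≤ Cfsg.blockRank 2 b * 2 ^ Cfsg.blockDefect 2 b) ∧ (Cfsg.blockRank 2 b ≤ 3 → Nat.card {χ : Cfsg.IrrCharacter G // χ ∈ B ∧ Cfsg.blockHeight 2 B (χ : G → ℂ) = 0} ≤ 2 ^ Cfsg.blockDefect 2 b) := by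
  classical
  obtain ⟨O, hO, _⟩ := exists_over hM
  obtain ⟨b, β, rfl, rfl, hi⟩ := hO.exists_of_isInducedBlock hb
  obtain ⟨ζ, a, hζ, hx⟩ := exists_prim_two (x := u) hu
  obtain ⟨ψ, hψ, h0⟩ := H20.exists_height_zero 2 (irr_nonempty β)
  obtain ⟨c, h1, h2, h3⟩ := (HM_ctr rfl hi hζ hx).exists_odd (O := O) hζ
    (S := Finset.univ.filter fun χ => χ ∈ irr β ∧ Cfsg.blockHeight 2 (irr β) (χ : G → ℂ) = 0)
    (fun χ hχ => by simp_all) ⟨ψ, Finset.mem_filter.2 ⟨Finset.mem_univ _, hψ, h0⟩⟩ fun χ hχ ψ hψ => by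
      simp only [Finset.mem_filter, Finset.mem_univ, true_and] at hχ hψ
      rw [zpow_one]
      exact (H20.val_ctr_iff le_rfl hu hi hχ.1 hψ.1).2 ⟨hχ.2, hψ.2⟩
  rw [Nat.card_eq_fintype_card, Fintype.card_subtype]
  generalize Finset.card _ = k at h2 h3 ⊢
  have h4 : c * k ≤ Cfsg.blockRank 2 (irr b) * 2 ^ Cfsg.blockDefect 2 (irr b) := by exact_mod_cast h3
  have h5 := H20.blockRank_pos (p := 2) b
  generalize Cfsg.blockRank 2 (irr b) = l at *
  generalize 2 ^ Cfsg.blockDefect 2 (irr b) = Q at *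
  have h6 := Nat.sqrt_le l
  have h7 := Nat.lt_succ_sqrt l
  have key : Odd l.sqrt → k ≤ l.sqrt * Q := fun h => by
    generalize l.sqrt = s at *
    by_cases hc : c ≤ s
    · exact h2.trans (by gcongr)
    · have : s + 2 ≤ c := by obtain ⟨i, rfl⟩ := h; obtain ⟨j, rfl⟩ := h1; omega
      refine Nat.le_of_mul_le_mul_left (c := s + 2) ?_ (by omega)
      calc (s + 2) * k ≤ l * Q := le_trans (by gcongr) h4
        _ ≤ (s + 2) * s * Q := by gcongr; simp only [Nat.succ_eq_add_one] at h7; nlinarith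
        _ = _ := by ring
  refine ⟨key, fun h => ?_, fun h => ?_⟩
  · generalize l.sqrt = s at *
    by_cases hc : s + 1 ≤ c
    · exact le_trans (by gcongr) h4
    · have : c + 1 ≤ s := by
        obtain ⟨i, rfl⟩ := Nat.not_odd_iff_even.1 h; obtain ⟨j, rfl⟩ := h1; omega
      calc (s + 1) * k ≤ (s + 1) * (c * Q) := by gcongr
        _ = (s + 1) * c * Q := by ring
        _ ≤ l * Q := by gcongr; nlinarith
  · have : l.sqrt = 1 := (Nat.eq_sqrt.2 ⟨by omega, by omega⟩).symm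
    simpa [this] using key

end Cfsg.Agent.S4541
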