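import Cfsg.Statements.S4550
import Cfsg.Agent.H19.Act
-- import your own Cfsg.Agent.* helpers here

set_option autoImplicit false
open Cfsg

namespace Cfsg.Agent.S4550

open H17

/-- Let G be a finite group of even order and M a maximal ideal of the algebraic integers containing 2. Let k be a natural number with g ^ k = g ^ 3 for every 2-element g and g ^ k = g for every element g of odd order (such k exist); an irreducible character χ is unchanged by g ↦ g ^ k exactly when it is fixed by the field automorphism that cubes the 2-power roots of unity and fixes the roots of unity of odd order. Then the number of members χ of the principal 2-block of odd degree with χ (g ^ k) = χ g for all g is even. -/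
theorem result {G : Type*} [Group G] [Finite G] (M : Ideal Cfsg.AlgInt) (hM : Cfsg.IsPModular 2 M) (hev : Even (Nat.card G)) (k : ℕ) (hk₁ : ∀ g : G, (∃ j : ℕ, orderOf g = 2 ^ j) → g ^ k = g ^ 3) (hk₂ : ∀ g : G, Odd (orderOf g) → g ^ k = g) : Even (Nat.card {χ : Cfsg.IrrCharacter G // χ ∈ Cfsg.principalBlock M G ∧ Odd (Cfsg.charDegree (χ : G → ℂ)) ∧ ∀ g : G, (χ : G → ℂ) (g ^ k) = (χ : G → ℂ) g}) := by
  classical
  obtain ⟨O, hO, _⟩ := H19.exists_over hM
  have := Fintype.ofFinite G
  rw [hO.principalBlock_eq]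
  have hk : k.Coprime (Nat.card G) := Nat.coprime_of_dvd fun q hq h1 h2 => by
    have := Fact.mk hq
    obtain ⟨g, hg⟩ := exists_prime_orderOf_dvd_card' q h2
    have h3 : g ^ k = 1 := orderOf_dvd_iff_pow_eq_one.1 (hg ▸ h1)
    rcases hq.eq_two_or_odd' with rfl | h
    · rw [hk₁ g ⟨1, hg⟩, ← orderOf_dvd_iff_pow_eq_one, hg] at h3
      omega
    · rw [hk₂ g (hg ▸ h)] at h3
      rw [h3, orderOf_one] at hg
      exact hq.one_lt.ne hg
  have hr : ∀ g : G, ¬ 2 ∣ orderOf g → g ^ k = g := fun g hg =>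
    hk₂ g (Nat.not_even_iff_odd.1 (mt even_iff_two_dvd.1 hg))
  let A := {χ : IrrCharacter G // χ ∈ H19.irr (H19.B0 O G) ∧ Odd (charDegree (χ : G → ℂ))}
  let f : Function.End A := fun χ => ⟨⟨_, χ.1.2.comp_pow hk⟩, by
    refine Eq.trans (by_contra fun h => ?_) (show H19.lam O χ.1 = _ from χ.2.1)
    have h1 := H19.inner_pr_eq_zero (p := 2) h
    rw [H19.pr_eq_iff.2 fun g hg => congrArg χ.1.1 (hr g hg), ← H19.pr_pr,
      H19.classInner_pr_left, H17.classInner_self_eq_zero] at h1
    exact H19.irr_one_ne_zero χ.1 ((H19.pr_of_reg _ H19.preg_one).symm.trans (congrFun h1 1)), by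
    simpa [charDegree] using χ.2.2⟩
  have hf : ∀ n χ g, ((f ^ n) χ).1.1 g = χ.1.1 (g ^ k ^ n) := fun n => by
    induction n with
    | zero => exact fun χ g => by simp only [pow_zero, pow_one]; rfl
    | succ n ih => exact fun χ g => by rw [pow_succ', pow_succ', pow_mul, ← ih]; rfl
  have hf' : f ^ 2 ^ Nat.card G = 1 := funext fun χ => Subtype.ext (Subtype.ext (funext fun g => by
    rw [hf]; congr 1
    obtain ⟨j, hj⟩ := H19.ppart_isPElt (p := 2) g
    have h1 : ∀ n, H19.ppart 2 g ^ k ^ n = H19.ppart 2 g ^ 3 ^ n ∧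
        H19.rpart 2 g ^ k ^ n = H19.rpart 2 g := fun n => by
      induction n with
      | zero => simp
      | succ n ih => rw [pow_succ, pow_succ, pow_mul, pow_mul, pow_mul, ih.1, ih.2,
          hk₁ _ ((H19.ppart_isPElt g).pow _), hr _ (H19.rpart_reg g)]; simp
    have h2 : j ≤ Nat.card G := (Nat.lt_two_pow_self.le.trans_eq hj.symm).trans
      (Nat.le_of_dvd Nat.card_pos (orderOf_dvd_natCard _))
    have h3 : ∀ n, 3 ^ 2 ^ n ≡ 1 [MOD 2 ^ n] := fun n => by
      have := Nat.ModEq.pow_totient (x := 3) (n := 2 ^ (n + 1)) (by norm_num)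
      rw [Nat.totient_prime_pow_succ Nat.prime_two] at this
      simpa using this.of_dvd (pow_dvd_pow 2 n.le_succ)
    conv_lhs => rw [← H19.ppart_mul_rpart (p := 2) g, (H19.commute_ppart_rpart g).mul_pow,
      (h1 _).1, (h1 _).2, pow_eq_pow_iff_modEq.2 (hj ▸ (h3 _).of_dvd (pow_dvd_pow 2 h2)), pow_one,
      H19.ppart_mul_rpart]
    rfl))
  have h4 := Equiv.Perm.card_fixedPoints_modEq hf'
  have h5 : Even (Fintype.card A) := by
    have h1 := H19.factorization_sum_sq 2 (H19.B0 O G)
    have h2 : 2 ∣ ∑ χ with χ ∈ H19.irr (H19.B0 O G), charDegree (χ : G → ℂ) ^ 2 :=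
      Nat.dvd_of_factorization_pos (by
        have := Nat.prime_two.factorization_pos_of_dvd Nat.card_pos.ne' hev.two_dvd
        omega)
    rw [← even_iff_two_dvd, Finset.even_sum_iff_even_card_odd, Finset.filter_filter] at h2
    simpa [A, Fintype.card_subtype, Nat.odd_pow_iff] using h2
  rw [even_iff_two_dvd, h4.dvd_iff dvd_rfl, ← Nat.card_eq_fintype_card] at h5
  rw [even_iff_two_dvd]
  refine h5.trans (dvd_of_eq (Nat.card_congr (α := Function.fixedPoints f)
    ⟨fun χ => ⟨χ.1.1, χ.1.2.1, χ.1.2.2, congrFun (congrArg (·.1.1) χ.2)⟩,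
    fun χ => ⟨⟨χ.1, χ.2.1, χ.2.2.1⟩, Subtype.ext (Subtype.ext (funext χ.2.2.2))⟩,
    fun _ => rfl, fun _ => rfl⟩))

end Cfsg.Agent.S4550
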