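import Cfsg.Statements.S4552
import Cfsg.Agent.H19.Glu4
import Cfsg.Agent.H19.V4

set_option autoImplicit false
open Cfsg

namespace Cfsg.Agent.S4552
open H17 H19
theorem aux1 {G : Type*} [Group G] {p : ℕ} (hp : p.Prime) {D : Subgroup G} (hD : IsPGroup p D)
    (hab : D ≤ H20.cent D) {g : G} (hg : g ∈ H20.nrm D) {k : ℕ} (hk : ¬ p ∣ k)
    (h1 : g ^ k ∈ H20.cent D) (h2 : ∀ x ∈ D, x ^ p = 1 → g * x * g⁻¹ = x) : g ∈ H20.cent D := by
  have key : ∀ j, ∀ x ∈ D, x ^ p ^ j = 1 → g * x * g⁻¹ = x := fun j => by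
    induction j with
    | zero => intro x _ h; rw [pow_zero, pow_one] at h; simp [h]
    | succ j ih =>
      intro x hx h
      have a1 := H13.conj_mem_of_normalizer hg hx
      have a2 := ih _ (pow_mem hx p) (by rwa [← pow_mul, ← pow_succ'])
      have a3 : (g * x * g⁻¹ * x⁻¹) ^ p = 1 := by
        rw [(show Commute _ _ from Subgroup.mem_centralizer_iff.1 (hab (inv_mem hx)) _ a1).mul_pow,
          conj_pow, a2, inv_pow, mul_inv_cancel]
      have a4 := h2 _ (mul_mem a1 (inv_mem hx)) a3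
      set z := g * x * g⁻¹ * x⁻¹ with hz
      have a5 : ∀ i : ℕ, g ^ i * x * (g ^ i)⁻¹ = z ^ i * x := fun i => by
        induction i with
        | zero => simp
        | succ i ih =>
          rw [show g ^ (i + 1) * x * (g ^ (i + 1))⁻¹ = g * (g ^ i * x * (g ^ i)⁻¹) * g⁻¹ by
            rw [pow_succ']; group, ih, show g * (z ^ i * x) * g⁻¹ =
              g * z ^ i * g⁻¹ * (g * x * g⁻¹ * x⁻¹) * x by group, ← conj_pow, a4, ← hz, pow_succ]
      have a6 := a5 k
      rw [← Subgroup.mem_centralizer_iff.1 h1 x hx, mul_inv_cancel_right, right_eq_mul] at a6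
      have a7 : z = 1 := orderOf_eq_one_iff.1 (Nat.eq_one_of_dvd_coprimes
        ((Nat.Prime.coprime_iff_not_dvd hp).2 hk) (orderOf_dvd_of_pow_eq_one a3)
        (orderOf_dvd_of_pow_eq_one a6))
      exact mul_inv_eq_one.1 a7
  refine Subgroup.mem_centralizer_iff.2 fun x hx => ?_
  obtain ⟨j, hj⟩ := hD ⟨x, hx⟩
  rw [← mul_inv_eq_iff_eq_mul.1 (key j x hx (congrArg Subtype.val hj))]

theorem aux2 {m : ℕ} (hm : 2 ≤ m) : Nat.card (powMonoidHom 2 : Multiplicative (ZMod (2 ^ m) ×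
    ZMod (2 ^ m)) →* _).ker = 4 := by
  have c1 : Nat.card {a : ZMod (2 ^ m) // 2 • a = 0} = 2 :=
    (IsAddCyclic.card_nsmulAddMonoidHom_ker (ZMod (2 ^ m)) 2).trans (by
      rw [Nat.card_zmod, Nat.gcd_eq_right (dvd_pow_self 2 (by omega))])
  refine (Nat.card_congr ((Equiv.subtypeEquiv Multiplicative.toAdd fun x => ?_).trans
    (Equiv.subtypeProdEquivProd (p := fun a : ZMod (2 ^ m) => 2 • a = 0)
      (q := fun a : ZMod (2 ^ m) => 2 • a = 0)))).trans (by rw [Nat.card_prod, c1])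
  exact Prod.ext_iff

/-- Let B be a 2-block of the finite group G (relative to a maximal ideal M of the algebraic integers containing 2) whose defect group D is the direct product of two cyclic groups of the same order 2 ^ m, m ≥ 2. Then either B has 2-regular rank one and exactly 4 ^ m irreducible characters, or B has 2-regular rank three and exactly (4 ^ m + 8) / 3 irreducible characters. -/
theorem result {G : Type*} [Group G] [Finite G] (M : Ideal Cfsg.AlgInt) (hM : Cfsg.IsPModular 2 M) (B : Set (Cfsg.IrrCharacter G)) (hB : Cfsg.IsPBlock M B) (D : Subgroup G) (hD : Cfsg.IsDefectGroup 2 M B D) (m : ℕ) (hm : 2 ≤ m) (hiso : Nonempty (D ≃* Multiplicative (ZMod (2 ^ m) × ZMod (2 ^ m)))) : (Cfsg.blockRank 2 B = 1 ∧ Nat.card B = 4 ^ m) ∨ (Cfsg.blockRank 2 B = 3 ∧ 3 * Nat.card B = 4 ^ m + 8) := by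
  obtain ⟨O, hO, _⟩ := exists_over hM
  obtain ⟨β, rfl⟩ := hO.exists_blk hB
  rw [H20.isDefectGroup_iff hO hM] at hD
  obtain ⟨e, h⟩ := H20.exists_max (H20.isBlk_eG β) hD
  obtain ⟨φ⟩ := hiso
  have hab : D ≤ H20.cent D := fun x hx => Subgroup.mem_centralizer_iff.2 fun y hy =>
    congrArg Subtype.val (φ.injective (by rw [map_mul, map_mul, mul_comm]) :
      (⟨y, hy⟩ * ⟨x, hx⟩ : D) = ⟨x, hx⟩ * ⟨y, hy⟩)
  set V := ((powMonoidHom 2).ker.comap φ.toMonoidHom).map D.subtype with hV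
  have v1 : ∀ x, x ∈ V ↔ x ∈ D ∧ x ^ 2 = 1 := fun x => by
    refine ⟨?_, fun h => ⟨⟨x, h.1⟩, ?_, rfl⟩⟩
    · rintro ⟨y, hy, rfl⟩
      exact ⟨y.2, congrArg Subtype.val (φ.injective (by rw [map_pow, map_one]; exact hy) :
        y ^ 2 = 1)⟩
    · change φ _ ^ 2 = 1
      rw [← map_pow, ← map_one φ]
      exact congrArg φ (Subtype.ext h.2)
  have v2 : Nat.card V = 4 := by
    rw [hV, Subgroup.card_map_of_injective D.subtype_injective, ← aux2 hm]
    exact Nat.card_congr (φ.toEquiv.subtypeEquiv fun _ => Iff.rfl)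
  have : Nontrivial V := Finite.one_lt_card_iff_nontrivial.1 (by omega)
  have v3 : IsKleinFour V := ⟨v2, (Monoid.exponent_eq_prime_iff Nat.prime_two).2 fun x hx =>
    orderOf_eq_prime (Subtype.ext ((v1 x).1 x.2).2) hx⟩
  have v4 : H20.nrm D ≤ H20.nrm V := fun n hn => Subgroup.mem_normalizer_iff.2 fun x => by
    rw [v1, v1, conj_pow, ← Subgroup.mem_normalizer_iff.1 hn]; simp
  have ho := h.not_dvd_TT hab
  have hn := H20.normal_subgroupOf_of_le_nrm
    (inf_le_left.trans (H20.nrm_le_nrm_cent D) : H20.TT D e ≤ _)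
  have hf : ∀ g ∈ H20.TT D e, ∀ x ∈ D, x ≠ 1 → g * x * g⁻¹ = x → g ∈ H20.cent D :=
    fun g hg x hx h1 h2 => by
      obtain ⟨j, hj⟩ := isPElt_of_mem h.pg hx
      obtain _ | j := j
      · exact (h1 (orderOf_eq_one_iff.1 hj)).elim
      have a1 := kf_sq_mem v3 (v4 hg.1) (u := x ^ 2 ^ j) ((v1 _).2 ⟨pow_mem hx _, by
        rw [← pow_mul, ← pow_succ, ← hj, pow_orderOf_eq_one]⟩) (pow_ne_one_of_lt_orderOf
        (by positivity) (hj ▸ Nat.pow_lt_pow_right one_lt_two j.lt_succ_self)) (by rw [← conj_pow, h2])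
      refine mem_cent_of_coprime inf_le_left hg ((Nat.Prime.coprime_iff_not_dvd Nat.prime_two).2 ho)
        (aux1 Nat.prime_two h.pg hab (pow_mem hg.1 2) ho
          (((H20.cent D).subgroupOf _).pow_index_mem ⟨_, pow_mem hg 2⟩) fun y hy h3 => ?_)
      rw [← Subgroup.mem_centralizer_iff.1 a1 y ((v1 y).2 ⟨hy, h3⟩), mul_inv_cancel_right]
  obtain ⟨u, hu⟩ := exists_ne (1 : V)
  have hu' : (u : G) ≠ 1 := by simpa using hu
  have huD := ((v1 u).1 u.2).1
  have h3 : (H20.cent D).relIndex (H20.TT D e) ≤ 3 := by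
    have := Nat.card_le_card_of_injective (β := {x : V // x ≠ 1})
      (fun q : H20.TT D e ⧸ (H20.cent D).subgroupOf (H20.TT D e) => ⟨⟨q.out * u * (q.out : G)⁻¹,
        H13.conj_mem_of_normalizer (v4 q.out.2.1) u.2⟩, fun h => hu' (by
          simpa using (congrArg Subtype.val h : (_ * _ * _ : G) = 1))⟩)
      fun q q' e1 => by
        rw [← q.out_eq', ← q'.out_eq', QuotientGroup.eq]
        refine hf _ (q.out⁻¹ * q'.out).2 u huD hu' ?_
        have e2 : q.out * (u : G) * (q.out : G)⁻¹ = q'.out * u * (q'.out : G)⁻¹ :=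
          congrArg (fun x => (x.1 : G)) e1
        change (q.out : G)⁻¹ * q'.out * u * ((q.out : G)⁻¹ * q'.out)⁻¹ = u
        rw [mul_inv_rev, mul_assoc _ _ (u : G), ← mul_assoc,
          mul_assoc _ (_ * _), ← e2]
        group
    have := Fintype.ofFinite V
    classical
    rwa [Nat.card_eq_fintype_card (α := {x : V // x ≠ 1}), Fintype.card_subtype_compl,
      Fintype.card_subtype_eq, ← Nat.card_eq_fintype_card, v2] at *
  have h4 : Nat.card D = 4 ^ m := by
    rw [Nat.card_congr φ.toEquiv, Nat.card_congr Multiplicative.toAdd, Nat.card_prod, Nat.card_zmod,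
      ← mul_pow]; rfl
  have C : H20.Glu.Ab 2 _ D e := ⟨h, hab, hf⟩
  have h5 := (C.main (fun h => hu' (by simpa [h] using huD)) rfl).2.2 h3
  have h6 := C.card_eq
  rw [h5, h4] at *
  obtain h | h : (H20.cent D).relIndex (H20.TT D e) = 1 ∨ (H20.cent D).relIndex (H20.TT D e) = 3 := by
    omega
  · rw [h] at h6; exact Or.inl ⟨h, by omega⟩
  · rw [h] at h6; exact Or.inr ⟨h, by omega⟩

end Cfsg.Agent.S4552
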