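import Cfsg.Statements.S4553
import Cfsg.Agent.H19.Mur
import Cfsg.Agent.H21.Glau1

set_option autoImplicit false
open Cfsg

namespace Cfsg.Agent.S4553
open H17 H19
theorem card_lin0 {Q : Type*} [CommGroup Q] [Finite Q] {p : ℕ}
    [IsCyclic Q] (hd : p ∣ Nat.card Q) : Nat.card {β : Q →* ℂˣ // ∀ g, β g ^ p = 1} = p := by
  obtain ⟨e⟩ := CommGroup.monoidHom_mulEquiv_of_hasEnoughRootsOfUnity Q ℂ
  have h1 := IsCyclic.card_powMonoidHom_ker Q p
  rw [Nat.gcd_eq_right hd] at h1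
  refine Eq.trans (Nat.card_congr (e.toEquiv.subtypeEquiv fun β => ?_)) h1
  rw [MonoidHom.mem_ker, powMonoidHom_apply, MulEquiv.toEquiv_eq_coe, MulEquiv.coe_toEquiv,
    ← map_pow, MulEquiv.map_eq_one_iff, MonoidHom.ext_iff]
  rfl

theorem card_lin {G : Type*} [Group G] [Finite G] {N : Subgroup G} [N.Normal] {p : ℕ}
    (hc : IsCyclic (G ⧸ N)) (hd : p ∣ N.index) :
    Nat.card {β : G →* ℂˣ // (∀ n ∈ N, β n = 1) ∧ ∀ g, β g ^ p = 1} = p := by
  refine Eq.trans (Nat.card_congr (Equiv.ofBijective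
    (fun x : {β : G ⧸ N →* ℂˣ // ∀ g, β g ^ p = 1} =>
    (⟨x.1.comp (QuotientGroup.mk' N), fun n hn => ?_, fun g => x.2 _⟩ :
      {β : G →* ℂˣ // (∀ n ∈ N, β n = 1) ∧ ∀ g, β g ^ p = 1})) ⟨fun x y h => ?_, fun β => ?_⟩)).symm
    (@card_lin0 _ IsCyclic.commGroup _ _ hc hd)
  · simp [(QuotientGroup.eq_one_iff n).2 hn]
  · refine Subtype.ext (MonoidHom.ext fun q => ?_)
    obtain ⟨g, rfl⟩ := QuotientGroup.mk_surjective q
    exact DFunLike.congr_fun (congrArg Subtype.val h) g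
  · refine ⟨⟨QuotientGroup.lift N β.1 β.2.1, fun q => ?_⟩, rfl⟩
    obtain ⟨g, rfl⟩ := QuotientGroup.mk_surjective q
    exact β.2.2 g

/-- Let G be a finite group, p a prime, P a Sylow p-subgroup, N the p-residual of G (the subgroup generated by the elements of order prime to p, the smallest normal subgroup with G/N a p-group), and M a maximal ideal of the algebraic integers containing p; suppose G/N is cyclic and nontrivial. Let k be a natural number with g ^ k = g ^ (1 + p) for every p-element g and g ^ k = g for every element g of order prime to p (so that χ (g ^ k) is the image of χ g under the field automorphism that raises p-power roots of unity to the power 1 + p and fixes the roots of unity of order prime to p). Then the number of members χ of the principal block of G of degree prime to p with χ (g ^ k) = χ g for all g equals p times the number of members θ of the principal block of N of degree prime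 to p that are invariant under conjugation by P and satisfy θ (n ^ k) = θ n for all n. -/
theorem result {G : Type*} [Group G] [Finite G] (p : ℕ) [Fact p.Prime] (M : Ideal Cfsg.AlgInt) (hM : Cfsg.IsPModular p M) (P : Sylow p G) (N : Subgroup G) [hN : N.Normal] (hNres : N = Cfsg.pResidual p G) (hcyc : IsCyclic (G ⧸ N)) (hnt : N ≠ ⊤) (k : ℕ) (hk₁ : ∀ g : G, (∃ j : ℕ, orderOf g = p ^ j) → g ^ k = g ^ (1 + p)) (hk₂ : ∀ g : G, Nat.Coprime (orderOf g) p → g ^ k = g) : Nat.card {χ : Cfsg.IrrCharacter G // χ ∈ Cfsg.principalBlock M G ∧ ¬ p ∣ Cfsg.charDegree (χ : G → ℂ) ∧ ∀ g : G, (χ : G → ℂ) (g ^ k) = (χ : G → ℂ) g} = p * Nat.card {θ : Cfsg.IrrCharacter ↥N // θ ∈ Cfsg.principalBlock M ↥N ∧ ¬ p ∣ Cfsg.charDegree (θ : ↥N → ℂ) ∧ (∀ x ∈ (P : Subgroup G), ∀ n : ↥N, (θ : ↥N → ℂ) ⟨x * n * x⁻¹, hN.conj_mem n n.2 x⟩ = (θ : ↥N → ℂ) n) ∧ ∀ n : ↥N, (θ : ↥N → ℂ) (n ^ k) = (θ : ↥N → ℂ) n} := by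
  classical
  obtain ⟨O, hO, _⟩ := exists_over hM
  have hp : p.Prime := Fact.out
  rw [hO.principalBlock_eq, hO.principalBlock_eq]
  subst hNres
  obtain ⟨a, ha⟩ := H3.index_pResidual (G := G) (p := p)
  have hd := fun θ hθ => H21.not_dvd_detOrder (G := G) (θ := θ) hp hθ
  have hP := H3.pResidual_sup_sylow P
  have hr := fun g => H3.mem_pResidual_of_coprime (G := G) (p := p) (g := g)
  set N := pResidual p G
  have hc : ∀ {m : ℕ}, ¬ p ∣ m → N.index.Coprime m := fun h =>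
    ha ▸ Nat.Coprime.pow_left a (hp.coprime_iff_not_dvd.2 h)
  have hk : k.Coprime (Nat.card G) := by
    refine Nat.coprime_of_dvd fun q hq h1 h2 => ?_
    have := Fact.mk hq
    obtain ⟨g, hg⟩ := exists_prime_orderOf_dvd_card' q h2
    have h3 : g ^ k = 1 := orderOf_dvd_iff_pow_eq_one.1 (hg ▸ h1)
    have h4 : g ^ k = g := by
      by_cases e : q = p
      · rw [hk₁ g ⟨1, by rw [hg, e, pow_one]⟩, pow_add, ← e, ← hg, pow_orderOf_eq_one, mul_one, pow_one]
      · exact hk₂ g (hg ▸ (Nat.coprime_primes hq hp).2 e)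
    rw [h4.symm.trans h3, orderOf_one] at hg
    exact hq.one_lt.ne hg
  have hβ : ∀ β : G →* ℂˣ, (∀ n ∈ N, β n = 1) → ∀ g, ∃ x, IsPElt p x ∧ β x = β g ∧
      ∀ γ : G →* ℂˣ, (∀ n ∈ N, γ n = 1) → γ x = γ g := fun β h g => by
    obtain ⟨i, j, h1, h2, h3⟩ := H3.exists_pPart_mul_pPrimePart (p := p) g (orderOf_pos g).ne'
    have : ∀ γ : G →* ℂˣ, (∀ n ∈ N, γ n = 1) → γ (g ^ i) = γ g := fun γ h => by
      conv_rhs => rw [← h3, map_mul, h _ (hr _ h2), mul_one]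
    exact ⟨_, h1, this β h, this⟩
  have hσ : ∀ β : G →* ℂˣ, (∀ n ∈ N, β n = 1) → ∀ g, β (g ^ k) = β g * β g ^ p := fun β h g => by
    obtain ⟨x, h1, h2, -⟩ := hβ β h g
    rw [map_pow, ← h2, ← map_pow, hk₁ x h1, map_pow, pow_add, pow_one]
  have hne : ∀ χ : IrrCharacter G, ¬ p ∣ charDegree (χ : G → ℂ) → ∀ x, IsPElt p x →
      (χ : G → ℂ) x ≠ 0 := fun χ h x hx h0 => h <| by
    have := char_mul_sub_mem (O := O) χ.2.isCharacter hx (Commute.one_right x)
    rwa [mul_one, h0, zero_sub, neg_mem_iff, ← cast_deg, natCast_mem_nonunits_iff p] at this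
  set B := {θ : IrrCharacter N // θ ∈ irr (B0 O N) ∧ ¬ p ∣ charDegree (θ : N → ℂ) ∧
    (∀ x ∈ (P : Subgroup G), ∀ n : N, (θ : N → ℂ) ⟨x * n * x⁻¹, hN.conj_mem n n.2 x⟩ =
      (θ : N → ℂ) n) ∧ ∀ n : N, (θ : N → ℂ) (n ^ k) = (θ : N → ℂ) n}
  have hext : ∀ θ : B, ∃ χ : IrrCharacter G, (∀ n : N, (χ : G → ℂ) n = (θ.1 : N → ℂ) n) ∧
      ∀ g, (χ : G → ℂ) (g ^ k) = (χ : G → ℂ) g := by
    rintro ⟨θ, -, h2, h3, h4⟩
    obtain ⟨χ, ⟨h5, h6, h7⟩, h8⟩ := H21.ext_canonical θ.2 (fun g n => by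
      obtain ⟨y, hy, u, hu, rfl⟩ := Subgroup.mem_sup_of_normal_left.1 (hP.ge (Subgroup.mem_top g))
      rw [← h3 u hu n, ← irr_class θ ⟨u * n * u⁻¹, _⟩ ⟨y, hy⟩]
      exact congrArg _ (Subtype.ext (by simp [mul_assoc]))) (cast_deg θ).symm
      ((hc (hd _ θ.2.isCharacter)).mul_right (hc h2))
    refine ⟨⟨χ, h5⟩, h6, congrFun (h8 _ (h5.comp_pow hk) (fun n => ?_) ?_)⟩
    · rw [← h4 n, ← h6]; rfl
    · obtain ⟨σ, hσ⟩ := exists_ringEquiv_pow_char hk
      refine (hc (h7 ▸ hd _ θ.2.isCharacter)).coprime_dvd_right (orderOf_dvd_of_pow_eq_one ?_)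
      ext g
      have := congrFun (pow_orderOf_eq_one (detChar χ)) g
      simp only [← hσ χ h5.isGen]
      rw [Pi.pow_apply] at this ⊢
      erw [H21.detChar_aut h5.isCharacter σ.toRingHom]
      rw [← map_pow, detOrder, this]; exact map_one _
  choose ext he1 he2 using hext
  have he3 : ∀ θ : B, ¬ p ∣ charDegree (ext θ : G → ℂ) := fun θ => by
    rw [H21.deg_congr (he1 θ 1)]; exact θ.2.2.1
  have h0 := card_lin hcyc (p := p) (by
    rw [ha]; refine dvd_pow_self p fun e => hnt ?_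
    rwa [e, pow_zero, Subgroup.index_eq_one] at ha)
  rw [← congrArg (· * Nat.card B) h0, ← Nat.card_prod]
  refine (Nat.card_congr (Equiv.ofBijective (fun x => ⟨⟨_, H21.irr_twist (ext x.2).2 x.1.1⟩,
    mem_B0_of_dot ha x.2.2.1 (H20.dot_ne_of_res fun n => by simp [x.1.2.1 n n.2, he1]),
    by rw [H21.deg_congr (ψ := (ext x.2 : G → ℂ)) (by simp)]; exact he3 _,
    fun g => by simp only [he2, hσ _ x.1.2.1, x.1.2.2, mul_one]⟩) ⟨?_, ?_⟩)).symm
  · rintro ⟨β, θ⟩ ⟨γ, η⟩ h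
    have h1 : ∀ g, (β.1 g : ℂ) * (ext θ : G → ℂ) g = γ.1 g * (ext η : G → ℂ) g :=
      congrFun (congrArg Subtype.val (congrArg Subtype.val h))
    obtain rfl : θ = η := Subtype.ext (Subtype.ext (funext fun n => by
      simpa [β.2.1 n n.2, γ.2.1 n n.2, he1] using h1 n))
    refine Prod.ext (Subtype.ext (MonoidHom.ext fun g => ?_)) rfl
    obtain ⟨x, h2, h3, h4⟩ := hβ β.1 β.2.1 g
    rw [← h3, ← h4 γ.1 γ.2.1]
    exact Units.ext (mul_right_cancel₀ (hne _ (he3 θ) x h2) (h1 x))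
  · rintro ⟨χ, h1, h2, h3⟩
    obtain ⟨θ, hθ⟩ := H20.exists_res (H21.Res_irr_of_coprime le_top (H20.top_le_nrm N)
      (CF.mem_Irr_top.2 χ.2) (by rw [Subgroup.relIndex_top_right]; exact (hc h2).symm))
    let θ' : B := ⟨θ, H20.lam_eq_of_fixed (H20.eA_B0_fixed N) (by
        rw [((H20.isBlk_eG (B0 O G)).commute_cover (H20.isBlk_eA N (B0 O N)) le_top).eq,
          H20.eA_B0_mul]
        exact (H20.isBlk_eG _).ne_zero) h1 (H20.dot_ne_of_res hθ),
      by rwa [← H21.deg_congr (hθ 1)], fun x _ n => by rw [← hθ, ← hθ]; exact irr_class χ _ _,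
      fun n => by rw [← hθ, ← hθ]; exact h3 n⟩
    obtain ⟨β, h4, h5⟩ := H21.exists_twist θ.2 (ext θ').2.isCharacter χ.2.isCharacter (he1 θ') hθ
    refine ⟨⟨⟨β, h4, fun g => ?_⟩, θ'⟩, Subtype.ext (Subtype.ext h5.symm)⟩
    obtain ⟨x, h6, h7, -⟩ := hβ β h4 g
    have h8 := h3 x
    rw [h5] at h8
    simp only [he2, hσ β h4] at h8
    rw [← h7]
    exact mul_eq_left.1 (Units.ext (mul_right_cancel₀ (hne _ (he3 θ') x h6) h8))

end Cfsg.Agent.S4553
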