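import Cfsg.Statements.S4558
import Cfsg.Agent.H21.Glau1
import Cfsg.Agent.H21.Basic

set_option autoImplicit false
open Cfsg

open H17

namespace Cfsg.Agent.S4558

/-- Let χ be a character of the finite group G and g an element of p-power order for the prime p. If χ g = 0, then p divides the degree of χ. -/
theorem result {G : Type*} [Group G] [Finite G] (p : ℕ) [Fact p.Prime] (χ : G → ℂ) (hχ : Cfsg.IsCharacter G χ) (g : G) (hg : ∃ j : ℕ, orderOf g = p ^ j) (h0 : χ g = 0) : p ∣ Cfsg.charDegree χ := by
  obtain ⟨j, hj⟩ := hg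
  have h := H21.vchar_mod_pelt (S := ⊤) (CF.mem_vchar_top.2 hχ.isGen) (k := j) (Fact.out : p.Prime)
    (s := g) (c := 1) trivial trivial (hj ▸ pow_orderOf_eq_one g) (by simp) (n := 0)
    (d := charDegree χ) (by rw [mul_one, h0, Int.cast_zero])
    (by rw [Int.cast_natCast, H21.charDegree_cast hχ])
  rw [zero_sub, dvd_neg] at h
  exact Int.natCast_dvd_natCast.1 h

end Cfsg.Agent.S4558
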