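import Cfsg.Statements.S4560
import Cfsg.Agent.H19.Sn14

set_option autoImplicit false
open Cfsg

namespace Cfsg.Agent.S4560
open H17 H19
open Finset Equiv Function H19.Sn

/-- a partition with at most three rows -/
noncomputable def cf (M a b c : ℕ) (i : Fin (M + 3)) : ℕ :=
  dl _ i + ((if dl _ i = M + 2 then a else 0) + (if dl _ i = M + 1 then b else 0) +
    if dl _ i = M then c else 0)

theorem cf_cases (M a b c : ℕ) (i : Fin (M + 3)) :
    (dl _ i < M ∧ cf M a b c i = dl _ i) ∨ (dl _ i = M ∧ cf M a b c i = M + c) ∨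
    (dl _ i = M + 1 ∧ cf M a b c i = M + 1 + b) ∨ (dl _ i = M + 2 ∧ cf M a b c i = M + 2 + a) := by
  have := dl_lt i
  simp only [Fintype.card_fin] at this
  unfold cf; split_ifs <;> omega

theorem cf_ex {M a b c x : ℕ} (h : x < M ∨ x = M + c ∨ x = M + 1 + b ∨ x = M + 2 + a) :
    ∃ j, cf M a b c j = x := by
  have key : ∀ m, m < M + 3 → ∃ j : Fin (M + 3), dl _ j = m := fun m hm => exists_dl (by simpa)
  rcases h with h | h | h | h
  · obtain ⟨j, hj⟩ := key x (by omega); exact ⟨j, by have := cf_cases M a b c j; omega⟩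
  · obtain ⟨j, hj⟩ := key M (by omega); exact ⟨j, by have := cf_cases M a b c j; omega⟩
  · obtain ⟨j, hj⟩ := key (M + 1) (by omega); exact ⟨j, by have := cf_cases M a b c j; omega⟩
  · obtain ⟨j, hj⟩ := key (M + 2) (by omega); exact ⟨j, by have := cf_cases M a b c j; omega⟩

theorem cf_inj {M a b c : ℕ} (h1 : c ≤ b) (h2 : b ≤ a) : Injective (cf M a b c) := fun i j h =>
  dl_inj (by have := cf_cases M a b c i; have := cf_cases M a b c j; omega)

theorem cf_sum (M a b c : ℕ) : ∑ i, cf M a b c i = M0 (Fin (M + 3)) + (a + b + c) := by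
  have key : ∀ m x, m < M + 3 → ∑ i : Fin (M + 3), (if dl _ i = m then x else 0) = x := by
    intro m x hm
    obtain ⟨j, rfl⟩ := exists_dl (ι := Fin (M + 3)) (m := m) (by simpa)
    simp [dl_inj.eq_iff]
  simp only [cf, Finset.sum_add_distrib, M0]
  rw [key _ _ (by omega), key _ _ (by omega), key _ _ (by omega)]

theorem orderOf_dvd {α : Type*} [Fintype α] [DecidableEq α] {σ : Perm α} {m : ℕ}
    (h : ∀ k ∈ σ.partition.parts, k ∣ m) : orderOf σ ∣ m := by
  rw [← Perm.lcm_cycleType, Multiset.lcm_dvd]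
  exact fun k hk => h k (by rw [Perm.parts_partition]; exact Multiset.mem_add.2 (Or.inl hk))

theorem main (n a b c q w k m : ℕ) (ρ : Multiset ℕ) (hn : a + q * w + b + c = n) (hq : 0 < q)
    (h1 : c ≤ b) (h2 : b ≤ a) (hqn : q ≤ n) (hk : k = 2 ∨ k = 4) (h3 : b + k ≤ a + q * w)
    (h4 : c < k) (h5 : b + 1 < k ∨ b + 1 = c + k) (h6 : c < q) (h7 : b + 1 < q ∨ b + 1 = c + q)
    (h8 : a + 2 < q ∨ a + 2 = c + q ∨ a + 1 = b + q) (hρ : ∀ x ∈ ρ, 0 < x ∧ q ∣ x ∧ x ∣ m)
    (h9 : q * w < ρ.sum) (h10 : ρ.sum ≤ n) (h11 : Even (ρ.sum + ρ.card)) :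
    ∃ χ : IrrCharacter (alternatingGroup (Fin n)), (∃ x : alternatingGroup (Fin n),
      orderOf x ∣ m ∧ (χ : alternatingGroup (Fin n) → ℂ) x = 0) ∧
      ∃ ψ : IrrCharacter (Perm (Fin n)), ∀ x : alternatingGroup (Fin n),
        (ψ : Perm (Fin n) → ℂ) x = (χ : alternatingGroup (Fin n) → ℂ) x := by
  classical
  have : Nontrivial (Fin n) := Fin.nontrivial_iff_two_le.2 (by omega)
  have hi := cf_inj (M := 2 * n) (a := a + q * w) h1 (by omega)
  have hs := cf_sum (2 * n) (a + q * w) b c
  obtain ⟨ψ, hψ⟩ := exists_irr_lab (α := Fin n) (by simp) hi (by simpa [hn] using hs)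
  obtain ⟨r, hr⟩ := Nat.exists_eq_add_of_le (show k ≤ n by omega)
  obtain ⟨τ, hτ⟩ := exists_parts_eq (Fin n) (k ::ₘ Multiset.replicate r 1)
    (fun x hx => by simp only [Multiset.mem_cons, Multiset.mem_replicate] at hx; omega)
    (by simp; omega)
  obtain ⟨χ, hχ⟩ := Ix.exists_res alternatingGroup.index_eq_two (χ := ψ) (Ix.tw_ne _ (g := τ) (by
    rw [Perm.mem_alternatingGroup, sign_parts, hτ, Odd.neg_one_pow]
    · decide
    · simp only [Multiset.card_cons, Multiset.card_replicate, Nat.odd_iff, Fintype.card_fin]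
      omega) (by
    obtain ⟨i, hi1⟩ := cf_ex (M := 2 * n) (a := a + q * w) (b := b) (c := c) (x := _)
      (Or.inr (Or.inr (Or.inr rfl)))
    have hk1 : k ≤ cf (2 * n) (a + q * w) b c i := by omega
    rw [hψ.ne_zero_iff, hτ, X_cons, U_apply, Finset.sum_eq_single i, if_pos hk1]
    · refine X_one_ne_zero (inj_sub_single hi hk1 fun j => ?_)
        (by have := sum_sub_single hk1; omega)
      have := cf_cases (2 * n) (a + q * w) b c j
      omega
    · intro j _ hj
      split_ifs with h
      · refine (anti_X _).zero_of fun hinj => ?_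
        have h0 := cf_cases (2 * n) (a + q * w) b c j
        have h0' : cf (2 * n) (a + q * w) b c j ≠ cf (2 * n) (a + q * w) b c i := hi.ne hj
        obtain ⟨l, hl⟩ := cf_ex (M := 2 * n) (a := a + q * w) (b := b) (c := c)
          (x := cf (2 * n) (a + q * w) b c j - k) (by omega)
        have hlj : l ≠ j := by rintro rfl; omega
        exact hlj (hinj (by rw [sub_single_self, sub_single_ne _ hlj, hl]))
      · rfl
    · simp))
  obtain ⟨s, hs'⟩ := Nat.exists_eq_add_of_le h10
  obtain ⟨σ, hσ⟩ := exists_parts_eq (Fin n) (ρ + Multiset.replicate s 1)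
    (fun x hx => by
      rcases Multiset.mem_add.1 hx with h | h
      · exact (hρ x h).1
      · rw [Multiset.eq_of_mem_replicate h]; exact one_pos)
    (by simp; omega)
  refine ⟨χ, ⟨⟨σ, ?_⟩, ?_, ?_⟩, ψ, hχ⟩
  · rw [Perm.mem_alternatingGroup, sign_parts, hσ, Even.neg_one_pow]
    simp only [Multiset.card_add, Multiset.card_replicate, Nat.even_iff, Fintype.card_fin] at h11 ⊢
    omega
  · rw [Subgroup.orderOf_mk]
    refine orderOf_dvd fun x hx => ?_
    rcases Multiset.mem_add.1 (hσ ▸ hx) with h | h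
    · exact (hρ x h).2.2
    · rw [Multiset.eq_of_mem_replicate h]; exact one_dvd _
  · rw [← hχ]
    by_contra h0
    rw [← ne_eq, hψ.ne_zero_iff, hσ, X_add] at h0
    have e1 := sum_le_of_Um_ne_zero hq (anti_X _) ρ (fun x hx => (hρ x hx).2.1) h0
    have e2 : Rest q (cf (2 * n) a b c) := ⟨cf_inj h1 h2, fun i hi => by
      have := cf_cases (2 * n) a b c i
      obtain ⟨j, hj⟩ := cf_ex (M := 2 * n) (a := a) (b := b) (c := c)
        (x := cf (2 * n) a b c i - q) (by omega)
      exact ⟨j, by omega⟩⟩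
    rw [core_sum_eq hq e2.1 hi (res_congr fun i => by
      unfold cf; split_ifs <;> simp [Nat.add_mod, Nat.add_assoc]), e2.core_eq hq, cf_sum, hs] at e1
    omega

/-- For n ≥ 7 the alternating group on n letters has an irreducible character that vanishes at some 2-element and is the restriction of an irreducible character of the symmetric group, and an irreducible character that vanishes at some element of order 3 and is the restriction of an irreducible character of the symmetric group. -/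
theorem result (n : ℕ) (hn : 7 ≤ n) : (∃ χ : Cfsg.IrrCharacter (alternatingGroup (Fin n)), (∃ x : alternatingGroup (Fin n), (∃ j : ℕ, orderOf x = 2 ^ j) ∧ (χ : alternatingGroup (Fin n) → ℂ) x = 0) ∧ ∃ ψ : Cfsg.IrrCharacter (Equiv.Perm (Fin n)), ∀ x : alternatingGroup (Fin n), (ψ : Equiv.Perm (Fin n) → ℂ) x = (χ : alternatingGroup (Fin n) → ℂ) x) ∧ (∃ χ : Cfsg.IrrCharacter (alternatingGroup (Fin n)), (∃ y : alternatingGroup (Fin n), orderOf y = 3 ∧ (χ : alternatingGroup (Fin n) → ℂ) y = 0) ∧ ∃ ψ : Cfsg.IrrCharacter (Equiv.Perm (Fin n)), ∀ x : alternatingGroup (Fin n), (ψ : Equiv.Perm (Fin n) → ℂ) x = (χ : alternatingGroup (Fin n) → ℂ) x) := by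
  constructor
  · suffices h : ∃ χ : IrrCharacter (alternatingGroup (Fin n)), (∃ x : alternatingGroup (Fin n),
      orderOf x ∣ 2 ^ 2 ∧ (χ : alternatingGroup (Fin n) → ℂ) x = 0) ∧
      ∃ ψ : IrrCharacter (Perm (Fin n)), ∀ x : alternatingGroup (Fin n),
        (ψ : Perm (Fin n) → ℂ) x = (χ : alternatingGroup (Fin n) → ℂ) x by
      obtain ⟨χ, ⟨x, h1, h2⟩, h3⟩ := h
      obtain ⟨j, -, hj⟩ := (Nat.dvd_prime_pow Nat.prime_two).1 h1
      exact ⟨χ, ⟨x, ⟨j, hj⟩, h2⟩, h3⟩
    have key : ∀ j, ∀ x ∈ Multiset.replicate j 2, 0 < x ∧ 2 ∣ x ∧ x ∣ 2 ^ 2 := fun j x hx => by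
      rw [Multiset.eq_of_mem_replicate hx]; decide
    rcases (show n % 2 = 0 ∨ n % 4 = 1 ∨ n % 4 = 3 by omega) with h | h | h
    · exact main n 3 2 1 2 (n / 2 - 3) 2 _ (Multiset.replicate (n / 4 * 2) 2) (by omega) (by omega)
        (by omega) (by omega) (by omega) (by omega) (by omega) (by omega) (by omega) (by omega)
        (by omega) (by omega) (key _) (by simp; omega) (by simp; omega)
        (by rw [Nat.even_iff]; simp only [Multiset.sum_replicate, Multiset.card_replicate, smul_eq_mul]; omega)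
    · exact main n 2 1 0 2 (n / 2 - 1) 2 _ (Multiset.replicate (n / 2) 2) (by omega) (by omega)
        (by omega) (by omega) (by omega) (by omega) (by omega) (by omega) (by omega) (by omega)
        (by omega) (by omega) (key _) (by simp; omega) (by simp; omega) (by simp [Nat.even_iff]; omega)
    · exact main n 2 1 0 2 (n / 2 - 1) 2 _ (4 ::ₘ Multiset.replicate (n / 2 - 2) 2) (by omega)
        (by omega) (by omega) (by omega) (by omega) (by omega) (by omega) (by omega) (by omega)
        (by omega) (by omega) (by omega)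
        (fun x hx => (Multiset.mem_cons.1 hx).elim (fun e => by subst e; decide) (key _ x))
        (by simp; omega) (by simp; omega) (by simp [Nat.even_iff]; omega)
  · suffices h : ∃ χ : IrrCharacter (alternatingGroup (Fin n)), (∃ x : alternatingGroup (Fin n),
      orderOf x ∣ 3 ∧ (χ : alternatingGroup (Fin n) → ℂ) x = 0) ∧
      ∃ ψ : IrrCharacter (Perm (Fin n)), ∀ x : alternatingGroup (Fin n),
        (ψ : Perm (Fin n) → ℂ) x = (χ : alternatingGroup (Fin n) → ℂ) x by
      obtain ⟨χ, ⟨x, h1, h2⟩, h3⟩ := h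
      refine ⟨χ, ⟨x, ((Nat.dvd_prime Nat.prime_three).1 h1).resolve_left fun e => ?_, h2⟩, h3⟩
      rw [orderOf_eq_one_iff.1 e] at h2
      exact χ.2.one_ne_zero h2
    have key : ∀ j, ∀ x ∈ Multiset.replicate j 3, 0 < x ∧ 3 ∣ x ∧ x ∣ 3 := fun j x hx => by
      rw [Multiset.eq_of_mem_replicate hx]; decide
    rcases (show n % 3 = 0 ∨ n % 3 = 1 ∨ n % 3 = 2 by omega) with h | h | h
    · exact main n 4 2 0 3 (n / 3 - 2) 4 _ (Multiset.replicate (n / 3) 3) (by omega) (by omega)
        (by omega) (by omega) (by omega) (by omega) (by omega) (by omega) (by omega) (by omega)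
        (by omega) (by omega) (key _) (by simp; omega) (by simp; omega) (by simp [Nat.even_iff]; omega)
    · exact main n 3 1 0 3 (n / 3 - 1) 4 _ (Multiset.replicate (n / 3) 3) (by omega) (by omega)
        (by omega) (by omega) (by omega) (by omega) (by omega) (by omega) (by omega) (by omega)
        (by omega) (by omega) (key _) (by simp; omega) (by simp; omega) (by simp [Nat.even_iff]; omega)
    · exact main n 3 1 1 3 (n / 3 - 1) 4 _ (Multiset.replicate (n / 3) 3) (by omega) (by omega)
        (by omega) (by omega) (by omega) (by omega) (by omega) (by omega) (by omega) (by omega)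
        (by omega) (by omega) (key _) (by simp; omega) (by simp; omega) (by simp [Nat.even_iff]; omega)

end Cfsg.Agent.S4560
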