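import Cfsg.Statements.S4561
import Cfsg.Agent.H19.Gag1
import Cfsg.Agent.H17.Central
import Cfsg.Agent.H21.Basic

set_option autoImplicit false
universe u
open Cfsg

namespace Cfsg.Agent.S4561
open H17 H19
open H19.Gg
open scoped ComplexConjugate

theorem exists_chi {Γ : Type*} [Group Γ] [Finite Γ] {A : Type} [CommGroup A] [Finite A]
    (κ : Coc Γ A) (l : A →* ℂˣ) : ∃ χ : Tw κ → ℂ, IsIrrCharacter (Tw κ) χ ∧
      ∀ a x, χ (Tw.inc κ a * x) = l a * χ x := by
  classical
  have : Finite (Tw κ) := Finite.of_equiv _ (Tw.equiv κ).symm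
  have := Fintype.ofFinite (Tw κ)
  let θ : Tw κ → ℂ := fun x => if x.g = 1 then l x.a else 0
  have hθ : IsClassFunction (Tw κ) θ := by
    rw [isClassFunction_iff_isConj]
    intro g h hc
    obtain ⟨y, rfl⟩ := isConj_iff.1 hc
    by_cases e : g.g = 1
    · rw [Subgroup.mem_center_iff.1 (Tw.mem_center.2 e) y, mul_inv_cancel_right]
    · have : (y * g * y⁻¹).g ≠ 1 := by simpa using e
      simp only [θ, if_neg e, if_neg this]
  obtain ⟨χ, hχ, hi⟩ := H17.Cfsg.IsClassFunction.exists_inner_ne_zero hθ (fun h => by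
    have := congrFun h 1
    simp [θ] at this)
  obtain ⟨lam, hl⟩ := H17.Cfsg.IsIrrCharacter.exists_linear_center hχ
  refine ⟨χ, hχ, fun a x => ?_⟩
  let z : Subgroup.center (Tw κ) := ⟨Tw.inc κ a, Tw.mem_center.2 rfl⟩
  rw [show χ (Tw.inc κ a * x) = lam z * χ x from hl z x]
  congr 1
  rw [classInner_def] at hi
  have h0 := right_ne_zero_of_mul hi
  have e := Equiv.sum_comp (Equiv.mulLeft z.1) fun g => θ g * conj (χ g)
  have e2 : ∀ g, θ (z.1 * g) = l a * θ g := by
    intro g
    have h1 : (z.1 * g).g = g.g := by simp [z, Tw.inc]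
    have h2 : (z.1 * g).a = a * g.a := by simp [z, Tw.inc, κ.one_left]
    simp only [θ, h1, h2]
    split_ifs <;> simp
  simp only [Equiv.coe_mulLeft, e2, hl, map_mul] at e
  have e3 : ∑ g, (l a : ℂ) * θ g * (conj (lam z : ℂ) * conj (χ g)) =
      (l a * conj (lam z : ℂ)) * ∑ g, θ g * conj (χ g) := by
    rw [Finset.mul_sum]; exact Finset.sum_congr rfl fun g _ => by ring
  rw [e3, mul_eq_right₀ h0, linear_conj, map_inv, Units.val_inv_eq_inv_val,
    mul_inv_eq_one₀ (Units.ne_zero _)] at e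
  exact e.symm

/-- For every finite solvable group G there is a finite group H with a faithful irreducible character χ whose degree squared equals the index of the centre Z(H) (so χ is fully ramified over the centre), such that G is isomorphic to a subgroup of H/Z(H), the primes dividing the orders of H, of Z(H) and of G are the same, and the order of Z(H) is squarefree. -/
theorem result {G : Type u} [Group G] [Finite G] (hsolv : Group.IsSolvable G) : ∃ (H : Type u) (_ : Group H) (_ : Finite H) (χ : Cfsg.IrrCharacter H), (∀ h : H, (χ : H → ℂ) h = (χ : H → ℂ) 1 → h = 1) ∧ (Cfsg.charDegree (χ : H → ℂ)) ^ 2 = (Subgroup.center H).index ∧ (∃ f : G →* H ⧸ Subgroup.center H, Function.Injective f) ∧ (∀ p : ℕ, p.Prime → ((p ∣ Nat.card H ↔ p ∣ Nat.card G) ∧ (p ∣ Nat.card (Subgroup.center H) ↔ p ∣ Nat.card G))) ∧ Squarefree (Nat.card (Subgroup.center H)) := by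
  classical
  set m := UniqueFactorizationMonoid.radical (Nat.card G) with hm
  have hG0 : Nat.card G ≠ 0 := Nat.card_pos.ne'
  have hm0 : m ≠ 0 := UniqueFactorizationMonoid.radical_ne_zero
  have : NeZero m := ⟨hm0⟩
  have hA : Nat.card (rootsOfUnity m ℂ) = m := Complex.card_rootsOfUnity m
  have hq : ∀ q : ℕ, q.Prime → (q ∣ m ↔ q ∣ Nat.card G) := fun q h => by
    have := Nat.primeFactors_radical (Nat.card G)
    rw [← hm, Finset.ext_iff] at this
    simpa [Nat.mem_primeFactors, h, hm0, hG0] using this q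
  obtain ⟨Γ, _, _, κ, f, hf, hΓ⟩ := exists_coc (A := rootsOfUnity m ℂ) _ G rfl
    fun q h1 h2 => by rw [hA]; exact (hq q h1).2 h2
  have hfin : Finite (Tw κ) := Finite.of_equiv _ (Tw.equiv κ).symm
  have := Fintype.ofFinite (Tw κ)
  obtain ⟨χ, hχ, hl⟩ := exists_chi κ (rootsOfUnity m ℂ).subtype
  have h1 := H17.Cfsg.IsIrrCharacter.one_ne_zero hχ
  have hv : ∀ x, x ∉ Subgroup.center (Tw κ) → χ x = 0 := fun x hx => by
    obtain ⟨y, a, ha, e⟩ := Tw.conj_of hx
    have e2 := (H17.Cfsg.IsIrrCharacter.isClassFunction hχ).of_isConj (isConj_iff.2 ⟨y, e⟩)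
    rw [hl, eq_comm] at e2
    by_contra h0
    rw [mul_eq_right₀ h0] at e2
    exact ha (Subtype.ext (Units.ext e2))
  have hZ : Nat.card (Subgroup.center (Tw κ)) = m := by
    rw [Tw.center_eq_range]
    exact (Nat.card_congr (MonoidHom.ofInjective Tw.inc_inj).toEquiv).symm.trans hA
  have hH : Nat.card (Tw κ) = m * Nat.card Γ := by
    rw [Nat.card_congr (Tw.equiv κ), Nat.card_prod, hA]
  let e : (Tw κ ⧸ Subgroup.center (Tw κ)) ≃* Γ :=
    (QuotientGroup.quotientMulEquivOfEq Tw.center_eq_ker).trans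
      (QuotientGroup.quotientKerEquivOfSurjective _ Tw.pr_surj)
  refine ⟨Tw κ, _, hfin, ⟨χ, hχ⟩, fun h hh => ?_, ?_, ⟨e.symm.toMonoidHom.comp f,
    e.symm.injective.comp hf⟩, fun p hp => ⟨?_, ?_⟩, ?_⟩
  · have hh' : χ h = χ 1 := hh
    have hc : h ∈ Subgroup.center (Tw κ) := by
      by_contra hc; exact h1 (hh'.symm.trans (hv h hc))
    rw [Tw.center_eq_range] at hc
    obtain ⟨a, rfl⟩ := hc
    have := hl a 1
    rw [mul_one, hh', eq_comm, mul_eq_right₀ h1] at this
    rw [show a = 1 from Subtype.ext (Units.ext this), map_one]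
  · obtain ⟨n, -, hn⟩ := H17.Cfsg.IsIrrCharacter.exists_pos_one hχ
    rw [show charDegree χ = n from H21.charDegree_eq_of_one hn]
    have hs := H17.Cfsg.IsIrrCharacter.sum_norm_sq hχ
    have e1 : ∑ g, ‖χ g‖ ^ 2 = ∑ g ∈ Finset.univ.filter (· ∈ Subgroup.center (Tw κ)),
        ((n : ℝ) ^ 2) := by
      rw [Finset.sum_filter]
      refine Finset.sum_congr rfl fun g _ => ?_
      split_ifs with h
      · rw [((H17.Cfsg.IsIrrCharacter.isCharacter hχ).mem_charCenter' hn).1
          (H17.Cfsg.IsIrrCharacter.center_le_charCenter hχ h)]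
      · rw [hv g h]; simp
    have e2 : (Finset.univ.filter (· ∈ Subgroup.center (Tw κ))).card = m := by
      refine Eq.trans ?_ hZ
      rw [Nat.card_eq_fintype_card, Fintype.card_subtype]
    rw [e1, Finset.sum_const, e2, nsmul_eq_mul, ← (Subgroup.center (Tw κ)).card_mul_index, hZ]
      at hs
    have : m * n ^ 2 = m * (Subgroup.center (Tw κ)).index := by exact_mod_cast hs
    exact Nat.eq_of_mul_eq_mul_left (Nat.pos_of_ne_zero hm0) this
  · rw [hH, ← hq p hp, hp.dvd_mul]
    exact ⟨fun h => h.elim id fun h => hA ▸ hΓ p hp h, Or.inl⟩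
  · rw [hZ, hq p hp]
  · rw [hZ]; exact UniqueFactorizationMonoid.squarefree_radical

end Cfsg.Agent.S4561
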