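import Cfsg.Statements.S4563
import Cfsg.Agent.H21.FR1

set_option autoImplicit false
open Cfsg

open H17 H15 CF H21 Subgroup

namespace Cfsg.Agent.S4563

/-- Let χ be an irreducible character of the finite group H that is fully ramified over the normal subgroup Z: the restriction of χ to Z is e times an irreducible character of Z with e ^ 2 equal to the index of Z. If K is a proper normal subgroup of H containing Z and χ is induced from a character of K, then H/K is solvable; in particular, if K is solvable then so is H. -/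
theorem result {H : Type*} [Group H] [Fintype H] (Z : Subgroup H) [Z.Normal] (χ : Cfsg.IrrCharacter H) (hfr : ∃ (θ : Cfsg.IrrCharacter ↥Z) (e : ℕ), e ^ 2 = Z.index ∧ ∀ z : ↥Z, (χ : H → ℂ) z = (e : ℂ) * (θ : ↥Z → ℂ) z) (K : Subgroup H) [K.Normal] [Fintype K] (hZK : Z ≤ K) (hK : K ≠ ⊤) (φ : ↥K → ℂ) (hφ : Cfsg.IsCharacter ↥K φ) (hind : Cfsg.indFun K φ = (χ : H → ℂ)) : Group.IsSolvable (H ⧸ K) ∧ (Group.IsSolvable ↥K → Group.IsSolvable H) := by
  obtain ⟨θ, h⟩ := fr_of hfr
  have h1 : Ind ⊤ K (extendByZero K φ) = χ := (Ind_top_ext0 φ).trans hind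
  have h2 : Group.IsSolvable (H ⧸ K) := H1.isSolvable_of_forall_exists_isPiHall_compl fun p hp => by
    have := Fact.mk hp
    obtain ⟨S, hS⟩ := exists_syl p (⊤ : Subgroup H)
    obtain ⟨C, h3, h4⟩ := h.compl_of_Ind hZK hS ((isChar_ext0.2 hφ).mem_Irr_of_Ind le_top (h1 ▸ h.2.2.1)) h1
    refine ⟨C.map (QuotientGroup.mk' K), (H1.isPiHall_compl_iff_index_eq hp).2 ?_⟩
    have h5 := (hS.map (QuotientGroup.mk' K)).card_eq_pow
    rw [← MonoidHom.range_eq_map, QuotientGroup.range_mk', card_top, ← relIndex_ker, QuotientGroup.ker_mk'] at h5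
    rw [index_map_eq _ (QuotientGroup.mk'_surjective K) (by rwa [QuotientGroup.ker_mk']), h4, h5]
  exact ⟨h2, fun _ => solvable_of_ker_le_range K.subtype (QuotientGroup.mk' K) (by simp)⟩

end Cfsg.Agent.S4563
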