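import Cfsg.Statements.S4564
import Cfsg.Agent.H21.FR1

set_option autoImplicit false
open Cfsg

open H17 H15 CF H21 Subgroup

namespace Cfsg.Agent.S4564

/-- Let χ be an irreducible character of the finite group H that is fully ramified over the normal subgroup Z: the restriction of χ to Z is e times an irreducible character of Z with e ^ 2 equal to the index of Z. Let K be a normal subgroup of H containing Z and P a cyclic Sylow p-subgroup of H/K. Then P has a complement in H/K: a subgroup meeting P trivially whose product with P is the whole group. -/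
theorem result {H : Type*} [Group H] [Finite H] (Z : Subgroup H) [Z.Normal] (χ : Cfsg.IrrCharacter H) (hfr : ∃ (θ : Cfsg.IrrCharacter ↥Z) (e : ℕ), e ^ 2 = Z.index ∧ ∀ z : ↥Z, (χ : H → ℂ) z = (e : ℂ) * (θ : ↥Z → ℂ) z) (K : Subgroup H) [K.Normal] (hZK : Z ≤ K) (p : ℕ) [Fact p.Prime] (P : Sylow p (H ⧸ K)) (hcyc : IsCyclic P) : ∃ M : Subgroup (H ⧸ K), M.IsComplement' (P : Subgroup (H ⧸ K)) := by
  obtain ⟨θ, h⟩ := fr_of hfr
  obtain ⟨S, hS⟩ := exists_syl p ((P : Subgroup (H ⧸ K)).comap (QuotientGroup.mk' K))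
  have h1 : Syl(p, S, ⊤) := hS.trans_idx le_top ((H1.isPiNat_compl_singleton_iff Fact.out).2 (by
    rw [relIndex_top_right, index_comap_of_surjective _ (QuotientGroup.mk'_surjective K)]
    exact ((Nat.Prime.coprime_iff_not_dvd Fact.out).2 P.not_dvd_index).symm))
  obtain ⟨C, h3, h4⟩ := h.compl_of_cyclic hZK h1 (Subgroup.isCyclic_of_le (map_le_iff_le_comap.2 hS.le))
  have h5 := h1.map (QuotientGroup.mk' K)
  rw [← MonoidHom.range_eq_map, QuotientGroup.range_mk'] at h5
  have h6 := h5.card_eq (syl_top_sylow P)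
  rw [← relIndex_ker, QuotientGroup.ker_mk', ← h4,
    ← index_map_eq _ (QuotientGroup.mk'_surjective K) (by rwa [QuotientGroup.ker_mk'])] at h6
  have h7 := (C.map (QuotientGroup.mk' K)).card_mul_index
  rw [h6] at h7
  refine ⟨_, isComplement'_of_coprime h7 ?_⟩
  rw [Nat.eq_of_mul_eq_mul_right Nat.card_pos (h7.trans (P : Subgroup (H ⧸ K)).index_mul_card.symm)]
  exact P.card_coprime_index.symm

end Cfsg.Agent.S4564
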