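import Cfsg.Statements.S4565
import Cfsg.Agent.H9.Ch1
import Cfsg.Agent.H21.Glau4
import Cfsg.Agent.H21.Ext3

set_option autoImplicit false
open Cfsg

namespace Cfsg.Agent.S4565
open H17

/-- Let χ be an irreducible character of the finite group H that is fully ramified over the normal subgroup Z: the restriction of χ to Z is e times an irreducible character of Z with e ^ 2 equal to the index of Z. If Z ≠ H, then H/Z has no cyclic subgroup that is its own centralizer. -/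
theorem result {H : Type*} [Group H] [Finite H] (Z : Subgroup H) [Z.Normal] (χ : Cfsg.IrrCharacter H) (hfr : ∃ (θ : Cfsg.IrrCharacter ↥Z) (e : ℕ), e ^ 2 = Z.index ∧ ∀ z : ↥Z, (χ : H → ℂ) z = (e : ℂ) * (θ : ↥Z → ℂ) z) (hZ : Z ≠ ⊤) (C : Subgroup (H ⧸ Z)) (hC : IsCyclic C) : Subgroup.centralizer (C : Set (H ⧸ Z)) ≠ C := by
  intro hc
  classical
  obtain ⟨θ, e, he, hr⟩ := hfr
  obtain ⟨⟨q, hq0⟩, hq⟩ := hC.exists_generator
  obtain ⟨c, rfl⟩ := QuotientGroup.mk_surjective q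
  have hCq : C = Subgroup.zpowers (c : H ⧸ Z) := le_antisymm (fun x hx => by
    obtain ⟨k, hk⟩ := hq ⟨x, hx⟩
    exact ⟨k, congrArg Subtype.val hk⟩) (Subgroup.zpowers_le.2 hq0)
  have hcZ : c ∉ Z := fun h => hZ (top_le_iff.1 fun x _ => by
    rw [(QuotientGroup.eq_one_iff c).2 h, Subgroup.zpowers_one_eq_bot] at hCq
    rw [← QuotientGroup.eq_one_iff, ← Subgroup.mem_bot, ← hCq, ← hc, hCq]
    exact fun y hy => by rw [Subgroup.mem_bot.1 hy, one_mul, mul_one])
  set L := Z ⊔ Subgroup.zpowers c with hL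
  have hLC : L = C.comap (QuotientGroup.mk' Z) := by
    rw [hCq, ← QuotientGroup.mk'_apply, ← MonoidHom.map_zpowers, Subgroup.comap_map_eq,
      QuotientGroup.ker_mk', sup_comm]
  have key : ∀ x n, n ∈ Z → (x * (n * c) * x⁻¹ * c⁻¹ ∈ Z ↔ x ∈ L) := fun x n hn => by
    rw [hLC, Subgroup.mem_comap, ← hc, hCq, ← QuotientGroup.eq_one_iff,
      Subgroup.zpowers_eq_closure, Subgroup.centralizer_closure,
      Subgroup.mem_centralizer_singleton_iff]
    simp [(QuotientGroup.eq_one_iff n).2 hn, mul_inv_eq_iff_eq_mul]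
  have hθ := CF.ext0_mem_Irr.2 θ.2
  have hχ := CF.mem_Irr_top.2 χ.2
  have hn := top_le_norm Z
  have hR : CF.Res (Z : Set H) χ = (e : ℂ) • extendByZero Z θ := by
    rw [← CF.ext0_res, ← CF.ext0_apply Z θ, ← map_smul, CF.ext0_apply]
    exact congrArg _ (funext hr)
  have he0 : (e : ℂ) ≠ 0 := Nat.cast_ne_zero.2 fun h =>
    Z.index_ne_zero_of_finite (by rw [← he, h]; rfl)
  have hs := H9.le_stab_of_Res_eq hn (CF.irr_cf hχ) he0 hR
  rw [← Subgroup.relIndex_top_right] at he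
  have hv := (H9.sq_eq_iff_vanish le_top hχ hθ hR).1 he
  have hu := (H9.sq_eq_iff_unique le_top hn hχ hθ hs hR).1 he
  have hZL : Z ≤ L := le_sup_left
  have hcL : c ∈ L := Subgroup.mem_sup_right (Subgroup.mem_zpowers c)
  have hnL := le_top.trans (a := L) hn
  obtain ⟨ξ, hξ, hξr⟩ := H21.exists_ext_cyclic hZL hnL hθ (le_top.trans hs) inferInstance hL.symm
  have hp : CF.Res (Z : Set H) ξ ∈ CF.Irr Z := hξr ▸ hθ
  have h1 : ∀ ψ ∈ CF.cf L, ∑ n ∈ CF.fs (Z : Set H), ψ (n * c) * (starRingEnd ℂ) (ξ (n * c)) =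
      Nat.card Z * ∑ β ∈ CF.IrrQ L Z, CF.dot L ψ (β * ξ) * β c := fun ψ hψ => by
    have := H21.sum_coset_eq hZL hnL (CF.mul_mem_cf hψ (CF.star_mem_cf (CF.irr_cf hξ))) c
    simp only [CF.dot_mul_left, star_star] at this
    exact this
  have hmem : ∀ n ∈ Z, n * c ∈ L := fun n hn => L.mul_mem (hZL hn) hcL
  have h2 : ∀ ψ ∈ CF.Irr (⊤ : Subgroup H),
      ∑ n ∈ CF.fs (Z : Set H), ψ (n * c) * (starRingEnd ℂ) (ξ (n * c)) = 0 := fun ψ hψ => by
    by_cases h : ψ = χ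
    · refine CF.sum_fs_eq_zero fun n hn => ?_
      rw [h, hv _ fun h' => hcZ ((Z.mul_mem_cancel_left hn).1 h'), zero_mul]
    rw [← CF.sum_fs_congr (f := fun n => CF.Res (L : Set H) ψ (n * c) * (starRingEnd ℂ) (ξ (n * c)))
      fun n hn => by rw [CF.Res_of_mem _ (hmem n hn)],
      h1 _ (CF.Res_mem_cf le_top (CF.irr_cf hψ)), Finset.sum_eq_zero fun β hβ => ?_, mul_zero]
    rw [CF.dot_Res_left]
    refine mul_eq_zero_of_left (by_contra fun h' => h (hu ψ hψ ?_)) _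
    have h3 := H21.mem_over.1 ((H21.gall1_mem hZL hnL (CF.irr_char hξ) hp).2 ⟨β, hβ, rfl⟩)
    rw [hξr] at h3
    exact ((H21.mem_over' le_top).1 (H21.mem_over.2 ⟨hψ, H21.dot_ne_trans hZL le_top
      (CF.irr_char hψ) h3.1 (CF.irr_char hθ) h' h3.2⟩)).2
  set S : Set H := {x | x * c⁻¹ ∈ Z}
  have hS : S ⊆ L := fun x hx => by simpa using hmem _ hx
  have hF : CF.Ind ⊤ L (CF.Res S ξ) = 0 :=
    CF.cf_eq_zero_of_dot (CF.Ind_mem_cf le_top _) fun ψ hψ => by
      rw [CF.dot_Ind_left le_top _ (CF.irr_cf hψ), CF.dot_supp hS (CF.Res_mem_supp S ξ)]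
      refine mul_eq_zero_of_right _ ?_
      have := congrArg (starRingEnd ℂ) (h2 ψ hψ)
      rw [map_sum, map_zero] at this
      rw [← this]
      refine Finset.sum_bij' (fun x _ => x * c⁻¹) (fun n _ => n * c) (fun x hx => ?_)
        (fun x hx => ?_) (by simp) (by simp) fun x hx => ?_
      · exact CF.mem_fs.2 (CF.mem_fs (A := S).1 hx)
      · simpa [S] using hx
      · rw [CF.Res_of_mem _ (CF.mem_fs.1 hx)]
        simp [mul_comm]
  have h3 : ∀ n ∈ Z, ξ (n * c) = 0 := fun n hn => by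
    have := congrFun hF (n * c)
    rw [CF.Ind_apply_cf' (CF.supp_mono hS (CF.Res_mem_supp S ξ)), ← CF.sum_fs_subset (A := L)
      (B := ((⊤ : Subgroup H) : Set H)) (f := fun x => CF.Res S ξ (x * (n * c) * x⁻¹))
      (fun x _ => Subgroup.mem_top x)
      fun x _ hx => CF.Res_of_not_mem (A := S) _ fun h => hx ((key x n hn).1 h),
      CF.sum_fs_congr (g := fun _ => ξ (n * c)) fun x hx => by
        rw [CF.Res_of_mem (A := S) _ ((key x n hn).2 hx), CF.cf_conj (CF.irr_cf hξ) _ hx],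
      CF.sum_sub_const, inv_mul_cancel_left₀ (CF.card_ne L)] at this
    exact this
  have h4 := h1 ξ (CF.irr_cf hξ)
  rw [CF.sum_fs_eq_zero fun n hn => by rw [h3 n hn, zero_mul], Finset.sum_eq_single_of_mem _
    (CF.one_mem_IrrQ hZL) fun β hβ hne => by
      have := H21.gall1_dot hZL hnL (CF.irr_char hξ) hp (CF.one_mem_IrrQ hZL) hβ
      rw [CF.one_mul_cf (CF.irr_cf hξ), if_neg hne.symm] at this
      rw [this, zero_mul],
    CF.one_mul_cf (CF.irr_cf hξ), CF.dot_irr_self hξ, CF.one_of_mem hcL, one_mul, mul_one] at h4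
  exact CF.card_ne Z h4.symm

end Cfsg.Agent.S4565
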