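import Cfsg.Statements.S4566
import Cfsg.Agent.H21.Basic
import Cfsg.Agent.H17.Central

set_option autoImplicit false
open Cfsg

open H17

namespace Cfsg.Agent.S4566

/-- Let N be a central subgroup of the finite group G, ψ a faithful irreducible (hence degree-one) character of N, and χ an irreducible character of G whose restriction to N contains ψ. If g ∈ G and some x ∈ G has commutator x⁻¹ g⁻¹ x g in N but different from 1, then χ g = 0. -/
theorem result {G : Type*} [Group G] [Fintype G] (N : Subgroup G) [Fintype N] (hN : N ≤ Subgroup.center G) (ψ : Cfsg.IrrCharacter ↥N) (hfaith : ∀ n : ↥N, (ψ : ↥N → ℂ) n = (ψ : ↥N → ℂ) 1 → n = 1) (χ : Cfsg.IrrCharacter G) (hover : Cfsg.classInner (fun n : ↥N => (χ : G → ℂ) n) (ψ : ↥N → ℂ) ≠ 0) (g x : G) (hcomm : x⁻¹ * g⁻¹ * x * g ∈ N) (hne : x⁻¹ * g⁻¹ * x * g ≠ 1) : (χ : G → ℂ) g = 0 := by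
  by_contra h0
  obtain ⟨lam, hl⟩ := χ.2.exists_linear_center
  have h1 : (χ : G → ℂ) g = lam ⟨_, hN hcomm⟩ * (χ : G → ℂ) g := by
    rw [← hl]
    have h2 := Subgroup.mem_center_iff.1 (hN hcomm) g
    change _ = (χ : G → ℂ) (x⁻¹ * g⁻¹ * x * g * g)
    have h3 : x⁻¹ * g⁻¹ * x * g * g = x * g * x⁻¹ := by
      have h4 := Subgroup.mem_center_iff.1 (hN hcomm) x
      have h5 : g⁻¹ * x * g * x⁻¹ = x⁻¹ * g⁻¹ * x * g := by
        rw [mul_inv_eq_iff_eq_mul, ← h4]; group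
      have h6 := Subgroup.mem_center_iff.1 (hN hcomm) g
      rw [← h6, ← h5]
      rw [← h5] at h6
      have h7 : x * g * x⁻¹ = g * (g⁻¹ * x * g * x⁻¹) := by group
      rw [h7]
    rw [h3, χ.2.isClassFunction]
  have h2 : (lam ⟨_, hN hcomm⟩ : ℂ) = 1 := by
    have := mul_right_cancel₀ h0 ((one_mul _).trans h1)
    exact this.symm
  have h3 : (χ : G → ℂ) (x⁻¹ * g⁻¹ * x * g) = (χ : G → ℂ) 1 := by
    have := hl ⟨_, hN hcomm⟩ 1
    rwa [mul_one, h2, one_mul] at this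
  have h4 : (⟨_, hcomm⟩ : N) ∈ charKer (fun n : N => (χ : G → ℂ) n) :=
    (χ.2.isCharacter.restrict N).mem_charKer.2 h3
  have h5 := (χ.2.isCharacter.restrict N).charKer_le ψ.2 hover h4
  exact hne (congrArg Subtype.val (hfaith _ (ψ.2.mem_charKer.1 h5)))

end Cfsg.Agent.S4566
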