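import Cfsg.Statements.S4567
import Cfsg.Agent.S4566

set_option autoImplicit false
open Cfsg

open H17
open scoped ComplexConjugate

namespace Cfsg.Agent.S4567

/-- Let N be a central subgroup of the finite group G and ψ a faithful irreducible (hence degree-one) character of N. Call a coset g N special when every x ∈ G whose commutator x⁻¹ g⁻¹ x g lies in N actually commutes with g (this depends only on the coset). Then the number of irreducible characters of G whose restriction to N contains ψ equals the number of conjugacy classes of G/N consisting of special cosets. -/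
theorem result {G : Type*} [Group G] [Fintype G] (N : Subgroup G) [N.Normal] [Fintype N] (hN : N ≤ Subgroup.center G) (ψ : Cfsg.IrrCharacter ↥N) (hfaith : ∀ n : ↥N, (ψ : ↥N → ℂ) n = (ψ : ↥N → ℂ) 1 → n = 1) : Nat.card {χ : Cfsg.IrrCharacter G // Cfsg.classInner (fun n : ↥N => (χ : G → ℂ) n) (ψ : ↥N → ℂ) ≠ 0} = Nat.card {C : ConjClasses (G ⧸ N) // ∃ g : G, ConjClasses.mk (g : G ⧸ N) = C ∧ ∀ x : G, x⁻¹ * g⁻¹ * x * g ∈ N → x * g = g * x} := by
  classical
  haveI := Fintype.ofFinite (G ⧸ N)
  let S : G → Prop := fun g => ∀ x : G, x⁻¹ * g⁻¹ * x * g ∈ N → x * g = g * x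
  let O : IrrCharacter G → Prop := fun χ =>
    classInner (fun n : N => (χ : G → ℂ) n) (ψ : N → ℂ) ≠ 0
  have hN0 : (Nat.card N : ℂ) ≠ 0 := card_ne_zero_complex
  have h1 : ∀ (χ : IrrCharacter G) (g : G), (Nat.card N : ℂ)⁻¹ *
      ∑ z : N, (χ : G → ℂ) (z * g) * conj ((ψ : N → ℂ) z) = if O χ then (χ : G → ℂ) g else 0 := by
    intro χ
    obtain ⟨l, hl⟩ := χ.2.exists_linear_center
    have h2 : ∀ g, (Nat.card N : ℂ)⁻¹ * ∑ z : N, (χ : G → ℂ) (z * g) * conj ((ψ : N → ℂ) z) =
        classInner (fun z : N => (l.comp (Subgroup.inclusion hN) z : ℂ)) ψ * (χ : G → ℂ) g := by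
      intro g
      rw [classInner_def, mul_assoc, Finset.sum_mul]
      exact congrArg _ (Finset.sum_congr rfl fun z _ => by
        rw [mul_right_comm]; exact congrArg (· * _) (hl ⟨z, hN z.2⟩ g))
    have h3 := h2 1
    simp only [mul_one] at h3
    intro g
    rw [h2]
    by_cases h : (fun z : N => (l.comp (Subgroup.inclusion hN) z : ℂ)) = ψ
    · rw [h, ψ.2.inner_self, one_mul] at h3 ⊢
      exact (if_pos fun h4 => χ.2.one_ne_zero (h3.symm.trans h4)).symm
    · rw [(isIrr_linear _).inner_of_ne ψ.2 h, zero_mul] at h3 ⊢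
      exact (if_neg fun h4 => h4 h3).symm
  have hψ1 : (ψ : N → ℂ) 1 = 1 := ψ.2.one_eq_one_of_comm fun a b =>
    Subtype.ext (Subgroup.mem_center_iff.1 (hN b.2) a)
  let P : ConjClasses (G ⧸ N) → Prop := fun C => ∃ g : G, ConjClasses.mk (g : G ⧸ N) = C ∧ S g
  have hP : ∀ g : G, P (ConjClasses.mk (g : G ⧸ N)) ↔ S g := fun g => by
    refine ⟨fun ⟨y, h2, h3⟩ x hx => ?_, fun h => ⟨g, rfl, h⟩⟩
    obtain ⟨c, hc⟩ := isConj_iff.1 (ConjClasses.mk_eq_mk_iff_isConj.1 h2)
    obtain ⟨c, rfl⟩ := QuotientGroup.mk_surjective c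
    obtain ⟨z, rfl⟩ : ∃ z : N, g = c * y * c⁻¹ * z :=
      ⟨⟨_, QuotientGroup.eq.1 hc⟩, (mul_inv_cancel_left _ _).symm⟩
    have hz := Subgroup.mem_center_iff.1 (hN z.2)
    have h4 := h3 (c⁻¹ * x * c) (by
      have h5 := ‹N.Normal›.conj_mem _ hx c⁻¹
      have h6 : ∀ a b : G, a * (z : G)⁻¹ * b * z = a * b := fun a b => by
        rw [mul_assoc, hz, ← mul_assoc, inv_mul_cancel_right]
      have h7 : x⁻¹ * (c * y * c⁻¹ * z)⁻¹ * x * (c * y * c⁻¹ * z) =
          x⁻¹ * (z : G)⁻¹ * ((c * y * c⁻¹)⁻¹ * x * (c * y * c⁻¹)) * z := by group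
      rw [h7, h6] at h5
      convert h5 using 1
      group)
    calc _ = c * (c⁻¹ * x * c * y) * c⁻¹ * z := by group
      _ = c * y * c⁻¹ * (x * z) := by rw [h4]; group
      _ = _ := by rw [hz x]; group
  have h2 : ∀ g : G, ∑ χ : IrrCharacter G, (if O χ then (χ : G → ℂ) g else 0) *
      conj ((χ : G → ℂ) g) = Nat.card (Subgroup.centralizer ({(g : G ⧸ N)} : Set (G ⧸ N))) *
        if P (ConjClasses.mk (g : G ⧸ N)) then 1 else 0 := fun g => by
    by_cases hg : S g
    · simp only [← h1, mul_assoc, Finset.sum_mul, ← Finset.mul_sum]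
      rw [Finset.sum_comm, Finset.sum_eq_single 1, if_pos ((hP g).2 hg), mul_one]
      · simp only [hψ1, OneMemClass.coe_one, one_mul, map_one, column_orthogonality_self]
        rw [inv_mul_eq_iff_eq_mul₀ hN0, ← Nat.cast_mul]
        refine congrArg _ ((Nat.card_congr (Equiv.subtypeEquivRight fun x => ?_)).trans
          (QuotientGroup.card_preimage_mk N (Subgroup.centralizer ({(g : G ⧸ N)} : Set (G ⧸ N)))))
        simp only [Set.mem_preimage, SetLike.mem_coe, Subgroup.mem_centralizer_singleton_iff]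
        refine ⟨fun h => by rw [← QuotientGroup.mk_mul, h, QuotientGroup.mk_mul], fun h => hg x ?_⟩
        have := QuotientGroup.eq.1 (h.symm : ((g * x : G) : G ⧸ N) = (x * g : G))
        rwa [mul_inv_rev, ← mul_assoc] at this
      · intro z _ hz
        simp only [mul_left_comm _ (conj ((ψ : N → ℂ) z)), ← Finset.mul_sum, column_orthogonality]
        rw [if_neg, mul_zero]
        intro h
        obtain ⟨c, hc⟩ := isConj_iff.1 h
        have h3 : c⁻¹ * g * c = z * g := by
          rw [mul_assoc, inv_mul_eq_iff_eq_mul, ← mul_inv_eq_iff_eq_mul.1 hc]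
        have h4 := hg c (by
          have h5 : c⁻¹ * g⁻¹ * c * g = g⁻¹ * (z : G)⁻¹ * g := by
            rw [← mul_inv_rev (z : G), ← h3]; group
          rw [h5]
          exact ‹N.Normal›.conj_mem' _ (inv_mem z.2) g)
        rw [mul_assoc, ← h4, inv_mul_cancel_left] at h3
        exact hz (Subtype.ext (mul_eq_right.1 h3.symm))
      · simp
    · rw [if_neg (mt (hP g).1 hg), mul_zero]
      simp only [S, not_forall] at hg
      obtain ⟨x, h3, h4⟩ := hg
      refine Finset.sum_eq_zero fun χ _ => ?_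
      split_ifs with h
      · rw [S4566.result N hN ψ hfaith χ h g x h3 fun h5 => h4 ?_, zero_mul]
        rw [mul_assoc, mul_assoc, inv_mul_eq_one, eq_inv_mul_iff_mul_eq] at h5
        exact h5.symm
      · exact zero_mul _
  have h3 := Finset.sum_congr rfl fun g (_ : g ∈ Finset.univ) => h2 g
  have h4 := sum_comp_of_surjective (QuotientGroup.mk' N) (QuotientGroup.mk'_surjective N)
    fun q => Nat.card (Subgroup.centralizer ({q} : Set (G ⧸ N))) *
      if P (ConjClasses.mk q) then (1 : ℂ) else 0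
  rw [sum_card_centralizer_mul (fun C => if P C then (1 : ℂ) else 0), QuotientGroup.ker_mk',
    ← mul_assoc, ← Nat.cast_mul, mul_comm (Nat.card N),
    ← Subgroup.card_eq_card_quotient_mul_card_subgroup] at h4
  have h5 : ∀ χ : IrrCharacter G, ∑ g, (if O χ then (χ : G → ℂ) g else 0) * conj ((χ : G → ℂ) g) =
      Nat.card G * if O χ then 1 else 0 := fun χ => by
    split_ifs
    · simp only [mul_comm ((χ : G → ℂ) _), χ.2.sum_conj_mul_self, mul_one]
    · simp
  rw [Finset.sum_comm, Finset.sum_congr rfl fun χ _ => h5 χ, ← Finset.mul_sum] at h3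
  have h6 := mul_left_cancel₀ card_ne_zero_complex (h3.trans h4)
  rw [Finset.sum_boole, Finset.sum_boole, Nat.cast_inj] at h6
  rw [Nat.card_eq_fintype_card, Nat.card_eq_fintype_card, Fintype.card_subtype,
    Fintype.card_subtype]
  convert h6

end Cfsg.Agent.S4567
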