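import Cfsg.Statements.S4574
import Cfsg.Agent.H17.Central
import Cfsg.Agent.H21.Basic
-- import your own Cfsg.Agent.* helpers here

set_option autoImplicit false
open Cfsg

namespace Cfsg.Agent.S4574

open H17

/-- Let χ be an irreducible character of the finite group G, of degree d, and let Z(χ) be the set of elements g with |χ g| = d (the centre of χ). Then χ vanishes on at least (d ^ 2 - 1) · |Z(χ)| elements of G, with equality when every value |χ g| is 0, 1 or d. -/
theorem result {G : Type*} [Group G] [Fintype G] [DecidableEq G] (χ : G → ℂ) (hχ : Cfsg.IsIrrCharacter G χ) : (Cfsg.charDegree χ ^ 2 - 1) * (Finset.univ.filter (fun g : G => ‖χ g‖ = (Cfsg.charDegree χ : ℝ))).card ≤ (Finset.univ.filter (fun g : G => χ g = 0)).card ∧ ((∀ g : G, ‖χ g‖ = 0 ∨ ‖χ g‖ = 1 ∨ ‖χ g‖ = (Cfsg.charDegree χ : ℝ)) → (Cfsg.charDegree χ ^ 2 - 1) * (Finset.univ.filter (fun g : G => ‖χ g‖ = (Cfsg.charDegree χ : ℝ))).card = (Finset.univ.filter (fun g : G => χ g = 0)).card)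 := by
  classical
  set d := charDegree χ
  have hd : χ 1 = d := (H21.charDegree_cast hχ.isCharacter).symm
  have h0 : 0 < d := H21.charDegree_pos hχ
  set Z := Finset.univ.filter fun g : G => ‖χ g‖ = (d : ℝ)
  set N := Finset.univ.filter fun g : G => χ g = 0
  set S := Finset.univ.filter fun g : G => ¬ ‖χ g‖ = (d : ℝ) ∧ χ g ≠ 0
  have key : ∀ F : G → ℝ, ∑ g, F g = ∑ g ∈ Z, F g + ∑ g ∈ N, F g + ∑ g ∈ S, F g := fun F => by
    simp only [Z, N, S, Finset.sum_filter, ← Finset.sum_add_distrib]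
    refine Finset.sum_congr rfl fun g _ => ?_
    by_cases e : χ g = 0
    · simp [e, show (0 : ℝ) ≠ d by exact_mod_cast h0.ne]
    · by_cases e' : ‖χ g‖ = d <;> simp [e, e']
  have h1 := key fun _ => 1
  have h2 := key fun g => ‖χ g‖ ^ 2
  rw [hχ.sum_norm_sq, Finset.sum_congr rfl (fun g hg => by rw [(Finset.mem_filter.1 hg).2] :
    ∀ g ∈ Z, ‖χ g‖ ^ 2 = (d : ℝ) ^ 2), Finset.sum_eq_zero (s := N) (fun g hg => by
      simp [(Finset.mem_filter.1 hg).2])] at h2
  simp only [Finset.sum_const, nsmul_eq_mul, mul_one, Finset.card_univ,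
    Nat.card_eq_fintype_card] at h1 h2
  have h3 : ((d ^ 2 - 1 : ℕ) : ℝ) = d ^ 2 - 1 := by
    rw [Nat.cast_sub (Nat.one_le_pow _ _ h0)]; simp
  refine ⟨?_, fun h => ?_⟩
  · have := hχ.isGen.card_le_sum_norm_sq S (fun k hk g hg => by
      have hk' := hk.coprime_dvd_right (orderOf_dvd_natCard g)
      simp only [S, Finset.mem_filter, Finset.mem_univ, true_and, ← hχ.isCharacter.mem_charCenter' hd,
        Ne, hχ.isGen.apply_pow_eq_zero_iff hk'] at hg ⊢
      refine ⟨fun e => hg.1 ?_, hg.2⟩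
      obtain ⟨m, hm⟩ := exists_pow_eq_self_of_coprime hk'
      exact hm ▸ pow_mem e m) fun g hg => (Finset.mem_filter.1 hg).2.2
    rw [← Nat.cast_le (α := ℝ)]; push_cast; rw [h3]; linarith
  · rw [Finset.sum_congr rfl (fun g hg => by
      obtain ⟨-, a, b⟩ := Finset.mem_filter.1 hg
      rw [((h g).resolve_left (by simpa using b)).resolve_right a, one_pow] :
        ∀ g ∈ S, ‖χ g‖ ^ 2 = (1 : ℝ))] at h2
    simp only [Finset.sum_const, nsmul_eq_mul, mul_one] at h2
    rw [← Nat.cast_inj (R := ℝ)]; push_cast; rw [h3]; linarith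

end Cfsg.Agent.S4574
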