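import Cfsg.Statements.S4575
import Cfsg.Agent.H19.Maj

set_option autoImplicit false
open Cfsg

namespace Cfsg.Agent.S4575
open H17 H19

/-- Let B be a 2-block of the finite group G (relative to a maximal ideal M of the algebraic integers containing 2) of defect d with defect group D. Let z be an element of D commuting with every element of D, and let b be a block of the centralizer of z with defect group D that induces B (a major subsection (z, b)). If the number of irreducible characters in B exceeds the 2-regular rank of b by at most three, then B contains at most 2 ^ d irreducible characters. -/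
theorem result {G : Type*} [Group G] [Finite G] (M : Ideal Cfsg.AlgInt) (hM : Cfsg.IsPModular 2 M) (B : Set (Cfsg.IrrCharacter G)) (hB : Cfsg.IsPBlock M B) (D : Subgroup G) (hD : Cfsg.IsDefectGroup 2 M B D) (z : G) (hzD : z ∈ D) (hzc : ∀ d ∈ D, d * z = z * d) (b : Set (Cfsg.IrrCharacter ↥(Subgroup.centralizer ({z} : Set G)))) (hb : Cfsg.IsInducedBlock M (Subgroup.centralizer ({z} : Set G)) b B) (hbD : Cfsg.IsDefectGroup 2 M b (D.subgroupOf (Subgroup.centralizer ({z} : Set G)))) (h : Nat.card B ≤ Cfsg.blockRank 2 b + 3) : Nat.card B ≤ 2 ^ Cfsg.blockDefect 2 B := by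
  obtain ⟨O, hO, _⟩ := exists_over hM
  obtain ⟨b, β, rfl, rfl, hi⟩ := hO.exists_of_isInducedBlock hb
  rw [hO.isDefectGroup_iff hM] at hD hbD
  have hd := defect_eq_of_major hD (fun d h => Subgroup.mem_centralizer_singleton_iff.2 (hzc d h)) hbD
  by_cases h0 : Cfsg.blockDefect 2 (irr β) = 0
  · obtain ⟨χ, hχ⟩ := irr_nonempty β
    rw [h0, H20.irr_eq_singleton_of_defect h0 hχ]; simp
  · have := major_two rfl (isPElt_of_mem hD.isPGroup hzD) hi hd (Or.inr ⟨h0, h⟩)
    omega

end Cfsg.Agent.S4575
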