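import Cfsg.Statements.S4581
import Cfsg.Agent.H21.MK6

set_option autoImplicit false
open Cfsg

open H17 H15 CF H21 Subgroup

namespace Cfsg.Agent.S4581

/-- Let G be a finite solvable group, P a Sylow 2-subgroup and N its normalizer. Then G and N have the same number of real-valued irreducible characters of odd degree; and every odd-degree irreducible character of G is real-valued exactly when the derived subgroup of P equals the Frattini subgroup of P and P is its own normalizer in G. -/
theorem result {G : Type*} [Group G] [Finite G] [Group.IsSolvable G] (P : Sylow 2 G) :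
    Nat.card {χ : Cfsg.IrrCharacter G // (∀ g : G, ((χ : G → ℂ) g).im = 0) ∧ Odd (Cfsg.charDegree (χ : G → ℂ))} =
      Nat.card {ψ : Cfsg.IrrCharacter (Subgroup.normalizer ((P : Subgroup G) : Set G)) // (∀ g, ((ψ : Subgroup.normalizer ((P : Subgroup G) : Set G) → ℂ) g).im = 0) ∧ Odd (Cfsg.charDegree (ψ : Subgroup.normalizer ((P : Subgroup G) : Set G) → ℂ))} ∧
    ((∀ χ : Cfsg.IrrCharacter G, Odd (Cfsg.charDegree (χ : G → ℂ)) → ∀ g : G, ((χ : G → ℂ) g).im = 0) ↔
      (commutator (P : Subgroup G) = frattini (P : Subgroup G) ∧ Subgroup.normalizer ((P : Subgroup G) : Set G) = (P : Subgroup G))) := by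
  have hS := syl_top_sylow P
  have ho : ∀ n : ℕ, Odd n ↔ ¬ 2 ∣ n := fun n => by rw [← even_iff_two_dvd, Nat.not_even_iff_odd]
  constructor
  · classical
    rw [card_irr_subtype_top _ ((Irr ⊤).filter RO) (Finset.filter_subset _ _) fun χ => ?_,
      card_irr_subtype _ ((Irr _).filter RO) (Finset.filter_subset _ _) fun χ => ?_]
    · convert ro_card inferInstance hS
    · rw [Finset.mem_filter, and_iff_right (ext0_irr χ), RO, real_ext0, ho,
        deg_congr (ψ := χ.1) (ext0_of_mem χ.1 (one_mem _))]
    · rw [Finset.mem_filter, and_iff_right (mem_Irr_top.2 χ.2), RO, star_eq_iff_im, ho]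
  · rw [← ro_norm_iff hS, ← ro_iff inferInstance hS]
    exact ⟨fun h χ a b => star_eq_iff_im.2 (h ⟨χ, mem_Irr_top.1 a⟩ ((ho _).2 b)),
      fun h χ a => star_eq_iff_im.1 (h _ (mem_Irr_top.2 χ.2) ((ho _).1 a))⟩

end Cfsg.Agent.S4581
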