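import Cfsg.Statements.S4582
import Cfsg.Agent.H9.Basic
import Cfsg.Agent.H16.Not

set_option autoImplicit false
open Cfsg

open Subgroup

namespace Cfsg.Agent.S4582

/-- Let N be a normal subgroup of the finite group G, P a Sylow 2-subgroup of G and Q = P ∩ N. Suppose that P/QP' and Q/Q' are elementary abelian (every square of an element of P lies in the subgroup generated by Q and the derived subgroup of P, and every square of an element of Q lies in the derived subgroup of Q), and that the commutator factor group N/N' has odd order. Then P/P' is elementary abelian. -/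
theorem result {G : Type*} [Group G] [Finite G] (N : Subgroup G) [N.Normal] (P : Sylow 2 G)
    (hP : ∀ x ∈ (P : Subgroup G), x ^ 2 ∈ ((P : Subgroup G) ⊓ N) ⊔ ⁅(P : Subgroup G), (P : Subgroup G)⁆)
    (hQ : ∀ x ∈ (P : Subgroup G) ⊓ N, x ^ 2 ∈ ⁅(P : Subgroup G) ⊓ N, (P : Subgroup G) ⊓ N⁆)
    (hodd : Odd (Nat.card (Abelianization N))) :
    ∀ x ∈ (P : Subgroup G), x ^ 2 ∈ ⁅(P : Subgroup G), (P : Subgroup G)⁆ := by
  classical
  set L := N ⊔ (P : Subgroup G)
  let ϕ : (P : Subgroup G) →* Abelianization (P : Subgroup G) := Abelianization.of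
  have hk : ∀ x : (P : Subgroup G), ϕ x = 1 ↔ (x : G) ∈ ⁅(P : Subgroup G), (P : Subgroup G)⁆ :=
    fun x => (QuotientGroup.eq_one_iff x).trans (by
      rw [← map_subtype_commutator]
      exact (mem_map_iff_mem (P : Subgroup G).subtype_injective).symm)
  have hA : IsPGroup 2 (Abelianization (P : Subgroup G)) := P.isPGroup'.to_quotient _
  let V := MonoidHom.transfer (ϕ.comp (subgroupOfEquivOfLe (le_sup_right : _ ≤ L)).toMonoidHom)
  have h1 : N ≤ V.ker.map L.subtype := fun n hn => ⟨⟨n, mem_sup_left hn⟩, by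
    refine H9.eq_one_of_pow_eq_one_of_coprime hA (Nat.two_dvd_ne_zero.2 (Nat.odd_iff.1 hodd)) ?_
    have := congrArg (Abelianization.lift (V.comp (inclusion le_sup_left)))
      (pow_card_eq_one' (x := Abelianization.of (⟨n, hn⟩ : N)))
    rwa [map_pow, map_one] at this, rfl⟩
  have h2 : ⁅(P : Subgroup G), (P : Subgroup G)⁆ ≤ V.ker.map L.subtype :=
    (commutator_mono le_sup_right le_sup_right).trans
      (map_subtype_commutator L ▸ map_mono (Abelianization.commutator_subset_ker V))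
  intro x hx
  obtain ⟨y, h3, h4⟩ := sup_le (inf_le_right.trans h1) h2 (hP x hx)
  obtain rfl : y = (⟨x, mem_sup_right hx⟩ : L) ^ 2 := Subtype.ext (h4.trans (by simp))
  haveI := Fintype.ofFinite (Quotient (MulAction.orbitRel (zpowers (⟨x, mem_sup_right hx⟩ : L))
    (L ⧸ (P : Subgroup G).subgroupOf L)))
  rw [SetLike.mem_coe, MonoidHom.mem_ker, map_pow,
    MonoidHom.transfer_eq_prod_quotient_orbitRel_zpowers_quot, ← Finset.prod_pow,
    Finset.prod_congr rfl (g := fun q => (ϕ ⟨x, hx⟩ ^ 2) ^ Function.minimalPeriod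
      ((⟨x, mem_sup_right hx⟩ : L) • ·) q.out) fun q _ => ?_, Finset.prod_pow_eq_pow_sum,
    ← index_eq_sum_minimalPeriod] at h3
  · exact (hk (⟨x, hx⟩ ^ 2)).1 ((map_pow _ _ _).trans (H9.eq_one_of_pow_eq_one_of_coprime hA
      (fun e => P.not_dvd_index (e.trans (relIndex_dvd_index_of_le le_sup_right))) h3))
  suffices ∀ (m : ℕ) (t : G) (_ : t ∈ L) (h6 : t⁻¹ * x ^ m * t ∈ (P : Subgroup G)),
      ϕ ⟨_, h6⟩ ^ 2 = (ϕ ⟨x, hx⟩ ^ 2) ^ m from this _ _ q.out.out.2 _
  intro m t ht h6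
  obtain ⟨y, hy, n, hn, rfl⟩ := (H16.mem_sup_r (H := P) (K := N)
    (le_top.trans (normalizer_eq_top N).ge)).1 ((sup_comm N P).le ht)
  have h7 : (y⁻¹ * x ^ m * y)⁻¹ * ((y * n)⁻¹ * x ^ m * (y * n)) ∈ (P : Subgroup G) ⊓ N :=
    mem_inf.2 ⟨mul_mem (inv_mem (mul_mem (mul_mem (inv_mem hy) (pow_mem hx m)) hy)) h6, by
      simpa [mul_assoc] using mul_mem
        (Normal.conj_mem' inferInstance _ (inv_mem hn) (y⁻¹ * x ^ m * y)) hn⟩
  have h8 := (hk (⟨_, h7.1⟩ ^ 2)).2 (commutator_mono inf_le_left inf_le_left (hQ _ h7))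
  rw [show (⟨_, h7.1⟩ : (P : Subgroup G)) = (⟨y, hy⟩⁻¹ * ⟨x, hx⟩ ^ m * ⟨y, hy⟩)⁻¹ * ⟨_, h6⟩ from rfl,
    map_pow, map_mul, map_inv, map_mul, map_mul, map_inv, inv_mul_cancel_comm, mul_pow, inv_pow,
    inv_mul_eq_one, map_pow, ← pow_mul, mul_comm, pow_mul] at h8
  exact h8.symm

end Cfsg.Agent.S4582
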