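import Cfsg.Statements.S4583
import Cfsg.Agent.H19.Mur

set_option autoImplicit false
open Cfsg

namespace Cfsg.Agent.S4583
open H17 H19

/-- Let N be a normal subgroup of the finite group G, p a prime, M a maximal ideal of the algebraic integers containing p, and P a Sylow p-subgroup of G. Let θ be an irreducible character of N of degree prime to p lying in the principal p-block of N, and suppose θ extends to the subgroup NP (some irreducible character of NP restricts to θ). Then some irreducible character χ of G of degree prime to p in the principal p-block of G lies over θ (θ is a constituent of the restriction of χ to N). -/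
theorem result {G : Type*} [Group G] [Finite G] (N : Subgroup G) [N.Normal] (p : ℕ) [Fact p.Prime] (M : Ideal Cfsg.AlgInt) (hM : Cfsg.IsPModular p M) (P : Sylow p G)
    (θ : Cfsg.IrrCharacter N) (hθ : θ ∈ Cfsg.principalBlock M N) (hdeg : ¬ p ∣ Cfsg.charDegree (θ : N → ℂ))
    (hext : ∃ η : Cfsg.IrrCharacter ↥(N ⊔ (P : Subgroup G)), ∀ n : N, (η : ↥(N ⊔ (P : Subgroup G)) → ℂ) (Subgroup.inclusion le_sup_left n) = (θ : N → ℂ) n) :
    ∃ χ : Cfsg.IrrCharacter G, χ ∈ Cfsg.principalBlock M G ∧ ¬ p ∣ Cfsg.charDegree (χ : G → ℂ) ∧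
      haveI := Fintype.ofFinite N; Cfsg.classInner (fun n : N => (χ : G → ℂ) n) (θ : N → ℂ) ≠ 0 := by
  classical
  obtain ⟨O, hO, _⟩ := exists_over hM
  rw [hO.principalBlock_eq] at hθ ⊢
  set H := N ⊔ (P : Subgroup G)
  obtain ⟨η, hη⟩ := hext
  have := Fintype.ofFinite H
  letI := Fintype.ofFinite N
  have hNH : N ≤ H := le_sup_left
  obtain ⟨k, hk⟩ : ∃ k, (N.subgroupOf H).index = p ^ k := by
    obtain ⟨n, hn⟩ := IsPGroup.iff_card.1 P.2
    have : N.relIndex H ∣ p ^ n := by
      rw [Subgroup.relIndex_sup_left, ← hn]; exact Subgroup.relIndex_dvd_card _ _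
    obtain ⟨k, -, hk⟩ := (Nat.dvd_prime_pow Fact.out).1 this
    exact ⟨k, hk⟩
  have h1 : η ∈ irr (B0 O H) := mem_B0_of_dot hk
    (θ := inflE (Subgroup.subgroupOfEquivOfLe hNH) θ)
    (by rw [← domE_B0 (Subgroup.subgroupOfEquivOfLe hNH), inflE_mem_irr]; exact hθ)
    (H20.dot_ne_of_res fun n => hη ((Subgroup.subgroupOfEquivOfLe hNH) n))
  have h2 : charDegree (η : H → ℂ) = charDegree (θ : N → ℂ) :=
    H21.charDegree_eq_of_one (by rw [cast_deg]; simpa using hη 1)
  obtain ⟨χ, h3, h4, h5⟩ := exists_B0_over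
    (fun h => P.not_dvd_index (h.trans (Subgroup.index_dvd_of_le le_sup_right))) h1 (h2 ▸ hdeg)
  refine ⟨χ, h3, h4, ?_⟩
  obtain ⟨n, hn⟩ := (((χ.2.isCharacter.restrict H).sub_irr η.2 h5).comp
    (Subgroup.inclusion hNH)).inner_nat θ.2.isCharacter
  have h6 : (fun n : N => (χ : G → ℂ) n) = (fun x : N => ((fun x : H => (χ : G → ℂ) x) -
      (η : H → ℂ)) (Subgroup.inclusion hNH x)) + θ := by
    ext x; simp [hη]
  rw [h6, classInner_add_left, hn, θ.2.inner_self]
  exact_mod_cast n.succ_ne_zero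

end Cfsg.Agent.S4583
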