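import Cfsg.Statements.S4584
import Cfsg.Agent.H21.Cm1
import Cfsg.Agent.H7.Extra1

set_option autoImplicit false
open Cfsg

open H15 H21

namespace Cfsg.Agent.S4584

/-- Let p be a prime and P a group of order p^4. Then the derived subgroup P' has order p if and only if the centre Z(P) has index p^2 in P. -/
theorem result {P : Type*} [Group P] [Finite P] (p : ℕ) [Fact p.Prime] (hP : Nat.card P = p ^ 4) :
    Nat.card (commutator P) = p ↔ (Subgroup.center P).index = p ^ 2 := by
  have hp : p.Prime := Fact.out
  have h0 := hp.pos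
  have h1 := hp.one_lt
  have hz := (Subgroup.center P).card_mul_index
  by_cases hc : IsMulCommutative P
  · have e1 : commutator P = ⊥ := (commutator_eq_bot_iff P).2 hc
    have e2 : Subgroup.center P = ⊤ := (Subgroup.center_eq_top_iff).2 hc
    rw [e1, e2, Subgroup.card_bot, Subgroup.index_top]
    exact iff_of_false h1.ne (Nat.one_lt_pow two_ne_zero h1).ne
  obtain ⟨A, hA, h2, h3⟩ := H7.exists_abelian_index_of_card_pow_four hP
  have hco := H9.isCoatom_of_index_eq_prime h3
  obtain ⟨x, -, hx⟩ := SetLike.exists_of_lt hco.lt_top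
  have hs : ∀ x, x ∉ A → A ⊔ Subgroup.zpowers x = ⊤ := fun x hx =>
    hco.2 _ (left_lt_sup.2 (mt Subgroup.zpowers_le.1 hx))
  have h4 := card_center_mul_commutator h2 (hs x hx) fun z hz => by
    by_contra h
    refine hc ((commutator_eq_bot_iff P).1 ?_)
    rw [commutator_eq_cyc h2 (hs z h), Subgroup.commutator_comm, ← le_cent_iff_comm]
    exact (Subgroup.zpowers_le.2 hz).trans (Subgroup.center_le_centralizer _)
  have h5 := A.card_mul_index
  rw [h3, ← h4, ← hz, mul_assoc, Nat.mul_left_cancel_iff Nat.card_pos] at h5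
  rw [← h5, sq, Nat.mul_left_inj h0.ne']

end Cfsg.Agent.S4584
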