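import Cfsg.Statements.S4585
import Cfsg.Agent.H13.Pearl2

set_option autoImplicit false
open Cfsg

namespace Cfsg.Agent.S4585

open H13 Equiv Cfsg.FusionSystem
open scoped commutatorElement

/-- Let p be a prime and P a group of order p^4. Then P' has index p^2 in P if and only if P has maximal nilpotency class, that is, nilpotency class exactly 3. -/
theorem result {P : Type*} [Group P] [Finite P] (p : ℕ) [Fact p.Prime] (hP : Nat.card P = p ^ 4) :
    (commutator P).index = p ^ 2 ↔ Group.nilpotencyClass P = 3 := by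
  have hG := IsPGroup.of_card hP
  haveI := hG.isNilpotent
  have h0 : 0 < p := (Fact.out : p.Prime).pos
  have h1 : (commutator P).index = p ^ 2 ↔ Nat.card (lc P 1) = p ^ 2 := by
    have := (commutator P).index_mul_card
    rw [hP, show p ^ 4 = p ^ 2 * p ^ 2 by ring] at this
    exact ⟨fun e => Nat.eq_of_mul_eq_mul_left (pow_pos h0 2) (e ▸ this),
      fun e => Nat.eq_of_mul_eq_mul_right (pow_pos h0 2) (e ▸ this)⟩
  have h2 := Subgroup.lowerCentralSeries_eq_bot_iff_nilpotencyClass_le.1 (H9.lcs_eq_bot_of_card_le 2 hG hP.le)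
  have h3 : Group.nilpotencyClass P = 3 ↔ lc P 2 ≠ ⊥ := by
    rw [Ne, Subgroup.lowerCentralSeries_eq_bot_iff_nilpotencyClass_le]; omega
  rw [h1, h3]
  refine ⟨fun h4 h5 => ?_, fun h4 => (MC.of_class hP (by omega) h4).2 1 le_rfl⟩
  have hZ : ∀ x ∈ lc P 1, ∀ g, Commute g x := fun x hx => H9.commute_of_mem_center (mem_center_of_lc h5 hx)
  have h6 : ∀ a, lc P 1 ⊔ Subgroup.zpowers a ≠ ⊤ := fun a e => by
    haveI : IsCyclic P := isCyclic_iff_exists_zpowers_eq_top.2 ⟨a, H9.eq_top_of_sup_commutator ((sup_comm _ _).trans e)⟩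
    rw [show lc P 1 = ⊥ from commutator_eq_bot P, Subgroup.card_bot] at h4
    exact (Nat.one_lt_pow two_ne_zero (Fact.out : p.Prime).one_lt).ne h4
  obtain ⟨a, ha⟩ : ∃ a, a ∉ lc P 1 := by simpa [Subgroup.eq_top_iff'] using h6 1
  obtain ⟨b, hb⟩ : ∃ b, b ∉ lc P 1 ⊔ Subgroup.zpowers a := by simpa [Subgroup.eq_top_iff'] using h6 a
  have h7 := mul_card_le_of_lt (hG.to_subgroup (lc P 1 ⊔ Subgroup.zpowers a)) (lt_of_le_not_ge le_sup_left
    fun e => ha (e (Subgroup.mem_sup_right (Subgroup.mem_zpowers a))))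
  have h8 : ∀ K, lc P 1 ≤ K → a ∈ K → b ∈ K → ∀ g, g ∈ K := fun K h8 h9 h10 g =>
    ((eq_or_eq_of_card_le hG (sup_le h8 (Subgroup.zpowers_le.2 h9)) le_top (by
      rw [Subgroup.card_top, hP, pow_succ', pow_succ', ← h4]; exact Nat.mul_le_mul_left p h7)).resolve_left
      fun e => hb (e.le h10)).ge trivial
  have hab : ⁅a, b⁆ ∈ lc P 1 := comm_mem_lc' a (Subgroup.mem_top b)
  haveI : (Subgroup.zpowers ⁅a, b⁆).Normal := H9.normal_of_le_center (Subgroup.zpowers_le.2 (mem_center_of_lc h5 hab))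
  have h9 : ∀ T : Set P, lc P 1 ≤ H9.centMod (Subgroup.zpowers ⁅a, b⁆) T := fun T x hx g _ => by
    rw [commutatorElement_eq_one_iff_commute.2 (hZ x hx g).symm]; exact Subgroup.one_mem _
  have sw : ∀ x y, ⁅x, y⁆ ∈ Subgroup.zpowers ⁅a, b⁆ → ⁅y, x⁆ ∈ Subgroup.zpowers ⁅a, b⁆ := fun x y e =>
    commutatorElement_inv x y ▸ Subgroup.inv_mem _ e
  have key : ∀ y, ⁅a, y⁆ ∈ Subgroup.zpowers ⁅a, b⁆ → ⁅b, y⁆ ∈ Subgroup.zpowers ⁅a, b⁆ →
      ∀ x, ⁅x, y⁆ ∈ Subgroup.zpowers ⁅a, b⁆ := fun y e1 e2 x =>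
    h8 (H9.centMod _ {y}) (h9 _) (fun _ e => e ▸ e1) (fun _ e => e ▸ e2) x y rfl
  have h10 : lc P 1 ≤ Subgroup.zpowers ⁅a, b⁆ := Subgroup.commutator_le.2 fun x _ y _ =>
    key y (sw _ _ (key a (by simp) (sw _ _ (Subgroup.mem_zpowers _)) y))
      (sw _ _ (key b (Subgroup.mem_zpowers _) (by simp) y)) x
  have h11 : ⁅a, b⁆ ^ p = 1 := by
    rw [← H9.commutator_pow_right (hZ _ hab b), commutatorElement_eq_one_iff_mul_comm]
    have h11 : (lc P 1 ⊔ Subgroup.zpowers a).index = p := by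
      have h12 := mul_card_le_of_lt (pg_top hG) (lt_top_iff_ne_top.2 (h6 a))
      have h13 := (lc P 1 ⊔ Subgroup.zpowers a).index_mul_card
      rw [Subgroup.card_top, hP, pow_succ'] at h12
      rw [h4, ← pow_succ'] at h7
      rw [le_antisymm (Nat.le_of_mul_le_mul_left h12 h0) h7, hP, pow_succ' p 3] at h13
      exact Nat.eq_of_mul_eq_mul_right (pow_pos h0 3) h13
    exact (Subgroup.mem_centralizer_singleton_iff.1 ((sup_le (fun x hx => Subgroup.mem_centralizer_singleton_iff.2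
      (hZ x hx a).symm) (Subgroup.zpowers_le.2 (Subgroup.mem_centralizer_singleton_iff.2 rfl)) :
      lc P 1 ⊔ Subgroup.zpowers a ≤ Subgroup.centralizer {a})
      (H9.pow_mem_coatom hG (H9.isCoatom_of_index_eq_prime h11) b))).symm
  have h12 := Subgroup.card_le_of_le h10
  rw [h4, Nat.card_zpowers] at h12
  have h13 := Nat.le_of_dvd h0 (orderOf_dvd_of_pow_eq_one h11)
  have := (Fact.out : p.Prime).one_lt
  nlinarith

end Cfsg.Agent.S4585
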