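import Cfsg.Statements.S4586
import Cfsg.Agent.H21.Cm1

set_option autoImplicit false
open Cfsg

open H15 H21

namespace Cfsg.Agent.S4586

/-- Let p be a prime, P a finite p-group and N a normal subgroup of P of index p. For x ∈ P write c(x) for the number of elements n of N whose commutator x n x⁻¹ n⁻¹ lies in the derived subgroup N' (so c(x)/#N' is the order of the centralizer of x acting on N/N'). Then [P : P'] = p² if and only if c(x) = p·#N' for every x ∈ P outside N, and also if and only if c(x) = p·#N' for some x ∈ P outside N. -/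
theorem result {P : Type*} [Group P] [Finite P] (p : ℕ) [Fact p.Prime] (hP : IsPGroup p P) (N : Subgroup P) [N.Normal] (hN : N.index = p) :
    ((commutator P).index = p ^ 2 ↔ ∀ x : P, x ∉ N →
        Nat.card {n : N // x * n * x⁻¹ * (n : P)⁻¹ ∈ (commutator N).map N.subtype} = p * Nat.card (commutator N)) ∧
    ((commutator P).index = p ^ 2 ↔ ∃ x : P, x ∉ N ∧
        Nat.card {n : N // x * n * x⁻¹ * (n : P)⁻¹ ∈ (commutator N).map N.subtype} = p * Nat.card (commutator N)) := by
  have hp : p.Prime := Fact.out
  have hco := H9.isCoatom_of_index_eq_prime hN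
  have key : ∀ x : P, x ∉ N → ((commutator P).index = p ^ 2 ↔
      Nat.card {n : N // x * n * x⁻¹ * (n : P)⁻¹ ∈ (commutator N).map N.subtype} =
        p * Nat.card (commutator N)) := fun x hx => by
    have h1 := card_comm_cyc (hco.2 _ (left_lt_sup.2 (mt Subgroup.zpowers_le.1 hx)))
    rw [← Subgroup.map_subtype_commutator,
      Subgroup.card_map_of_injective N.subtype_injective] at h1
    have h2 := (commutator P).card_mul_index
    rw [← N.card_mul_index, hN] at h2
    have h3 : 0 < Nat.card (commutator P) := Nat.card_pos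
    have h4 : 0 < Nat.card (commutator N) := Nat.card_pos
    have h5 := hp.pos
    have h6 : Nat.card {n : N // x * n * x⁻¹ * (n : P)⁻¹ ∈ (commutator N).map N.subtype} * p =
        (commutator P).index * Nat.card (commutator N) := by
      refine Nat.eq_of_mul_eq_mul_left h3 ?_
      rw [← mul_assoc, ← mul_assoc, h2, mul_comm (Nat.card (commutator P)), h1]; ring
    constructor
    · intro h
      rw [h] at h6
      exact Nat.eq_of_mul_eq_mul_right h5 (by rw [h6]; ring)
    · intro h
      rw [h] at h6
      exact Nat.eq_of_mul_eq_mul_right h4 (by rw [← h6]; ring)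
  obtain ⟨x, -, hx⟩ := SetLike.exists_of_lt hco.lt_top
  exact ⟨⟨fun h y hy => (key y hy).1 h, fun h => (key x hx).2 (h x hx)⟩,
    ⟨fun h => ⟨x, hx, (key x hx).1 h⟩, fun ⟨y, hy, h⟩ => (key y hy).2 h⟩⟩

end Cfsg.Agent.S4586
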