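import Cfsg.Statements.S4588
import Cfsg.Agent.H20.K0
-- import your own Cfsg.Agent.* helpers here

set_option autoImplicit false
open Cfsg

namespace Cfsg.Agent.S4588

/-- Let G be a finite group, p a prime and M a maximal ideal of the algebraic integers containing p. If some p-element x of G (possibly x = 1) has centralizer whose order has p-part at most p², then the principal p-block of G contains at most p² irreducible characters of degree prime to p. -/
theorem result {G : Type*} [Group G] [Finite G] (p : ℕ) [Fact p.Prime] (M : Ideal Cfsg.AlgInt) (hM : Cfsg.IsPModular p M)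
    (hx : ∃ x : G, (∃ k : ℕ, orderOf x = p ^ k) ∧ (Nat.card (Subgroup.centralizer ({x} : Set G))).factorization p ≤ 2) :
    Nat.card {χ : Cfsg.IrrCharacter G // χ ∈ Cfsg.principalBlock M G ∧ ¬ p ∣ Cfsg.charDegree (χ : G → ℂ)} ≤ p ^ 2 := by
  obtain ⟨O, hO, _⟩ := H19.exists_over hM
  have hp : p.Prime := Fact.out
  obtain ⟨x, ⟨k, hk⟩, hx⟩ := hx
  rw [hO.principalBlock_eq]
  have hle : ∀ {H : Type _} [Group H] [Finite H] (β : H19.Blk O H),
      blockDefect p (H19.irr β) ≤ (Nat.card H).factorization p := fun β => Nat.sub_le _ _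
  by_cases h1 : x = 1
  · subst h1
    have h2 : blockDefect p (H19.irr (H19.B0 O G)) ≤ 2 := by
      refine (hle _).trans ?_
      rwa [show Subgroup.centralizer ({1} : Set G) = ⊤ by
        rw [eq_top_iff]; intro g _; simp [Subgroup.mem_centralizer_singleton_iff],
        Subgroup.card_top] at hx
    refine le_trans ?_ ((H20.card_irr_le_of_defect h2).trans (Nat.pow_le_pow_right hp.pos h2))
    exact Nat.card_le_card_of_injective (fun χ => ⟨χ.1, χ.2.1⟩)
      fun a b h => Subtype.ext (Subtype.mk.inj h)
  · have hpe : H19.IsPElt p x := ⟨k, hk⟩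
    have h2 := (hle (H19.B0 O (Subgroup.centralizer ({x} : Set G)))).trans hx
    have h3 := H20.card_ht0_le rfl hpe ((H19.induces_B0_iff hpe _).2 rfl)
      ((Nat.pow_le_pow_right hp.pos h2).trans (by
        rw [sq, hk]
        refine Nat.mul_le_mul_right _ (Nat.le_self_pow ?_ p)
        rintro rfl
        exact h1 (orderOf_eq_one_iff.1 hk)))
    refine le_trans ?_ (h3.trans (Nat.pow_le_pow_right hp.pos h2))
    exact Nat.card_le_card_of_injective (fun χ => ⟨χ.1, χ.2.1, H19.height_zero_of_vd
      (Nat.factorization_eq_zero_of_not_dvd χ.2.2) _⟩)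
      fun a b h => Subtype.ext (Subtype.mk.inj h)

end Cfsg.Agent.S4588
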