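import Cfsg.Statements.S4601
import Cfsg.Agent.H12.SylN

set_option autoImplicit false
open Cfsg

namespace Cfsg.Agent.S4601

open Subgroup H10 H12

universe u

def Hyp (p q : ℕ) (G : Type*) [Group G] : Prop :=
  ∀ y : G, (∃ k : ℕ, orderOf y = q ^ k) → ¬ p ∣ (Subgroup.centralizer ({y} : Set G)).index

theorem Hyp.map {G G' : Type*} [Group G] [Finite G] [Group G'] {p q : ℕ} [Fact q.Prime]
    (h : Hyp p q G) {f : G →* G'} (hf : Function.Surjective f) : Hyp p q G' := by
  haveI : Finite G' := Finite.of_surjective f hf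
  rintro y ⟨k, hk⟩ hd
  obtain ⟨Q⟩ : Nonempty (Sylow q G) := inferInstance
  have hQ := (isSylowIn_top Q).map_top hf
  obtain ⟨g, -, hg⟩ := hQ.exists_le_cj (isPGroup_zpowers_of_orderOf hk) le_top
  obtain ⟨g, rfl⟩ := hf g
  have hy := hg (mem_zpowers y)
  rw [mem_cj] at hy
  obtain ⟨x, hx, e⟩ := hy
  have hx' : g * x * g⁻¹ ∈ cj g (Q : Subgroup G) := by
    rw [mem_cj]; simpa [mul_assoc] using hx
  have e' : f (g * x * g⁻¹) = y := by
    simp [e, mul_assoc]
  refine h _ (orderOf_eq_pow_of_mem ((isSylowIn_top Q).cj g).isPGroup hx') ?_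
  refine hd.trans (((index_dvd_of_le ?_)).trans (index_map_dvd _ hf))
  rintro _ ⟨c, hc, rfl⟩
  rw [SetLike.mem_coe, mem_centralizer_singleton_iff] at hc
  rw [mem_centralizer_singleton_iff, ← e', ← map_mul, hc, map_mul]

theorem case_p {G : Type*} [Group G] [Finite G] {p q : ℕ} [Fact p.Prime] [hq : Fact q.Prime]
    (hpq : p ≠ q) (hG : IsPSolvable p G) (h : Hyp p q G) : ¬ q ∣ (pPrimeCore p G).index := by
  have h' := h.map (QuotientGroup.mk'_surjective (pPrimeCore p G))
  rw [index_eq_card]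
  intro hd
  obtain ⟨y, hy⟩ := exists_prime_orderOf_dvd_card' q hd
  obtain ⟨P, hP⟩ := exists_syl_le_of_index (h' y ⟨1, by simpa using hy⟩)
  have h1 : pCore p (G ⧸ pPrimeCore p G) ≤ (P : Subgroup _) :=
    (isSylowIn_top P).le_of_NN (H1.isPGroup_pCore p) le_top (le_NN_of_normal _ _)
  have h2 := eq_bot_of_pCore_le_NN hpq (H1.IsPSolvable.quotient hG _)
    (H1.pPrimeCore_quotient_pPrimeCore p) (isPGroup_zpowers_of_orderOf_eq hy)
    ((h1.trans hP).trans ?_)
  · exact ne_one_of_orderOf_eq hy (by simpa using h2)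
  · refine le_trans ?_ (CC_le_NN _)
    intro c hc
    rw [mem_centralizer_singleton_iff] at hc
    rintro _ ⟨n, rfl⟩
    exact (Commute.zpow_left (a := y) (b := c) hc.symm n).eq

theorem case_q {p q : ℕ} [hp : Fact p.Prime] [hq : Fact q.Prime] (hpq : p ≠ q) (n : ℕ) :
    ∀ (G : Type u) [Group G] [Finite G], Nat.card G = n → IsPSolvable q G → Hyp p q G →
    ∀ Q : Subgroup G, IsSylowIn q Q ⊤ → ¬ p ∣ NN(Q).index := by
  induction n using Nat.strong_induction_on with
  | _ n ih =>
  intro G _ _ hn hG h Q hQ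
  have key : ∀ (N : Subgroup G) [N.Normal], N ≠ ⊥ → ¬ p ∣ NN(Q ⊔ N).index := by
    intro N _ hN
    have hf := QuotientGroup.mk'_surjective N
    have := ih _ (hn ▸ H1.card_quotient_lt hN) (G ⧸ N) rfl (H1.IsPSolvable.quotient hG N)
      (h.map hf) _ (hQ.map_top hf)
    intro hd
    apply this
    rw [← index_comap_of_surjective _ hf]
    refine hd.trans (index_dvd_of_le ?_)
    have e : ((Q.map (QuotientGroup.mk' N)).comap (QuotientGroup.mk' N)) = Q ⊔ N := by
      rw [comap_map_eq, QuotientGroup.ker_mk']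
    rw [← e]
    exact le_normalizer_comap _
  rcases subsingleton_or_nontrivial G with h1 | h1
  · rw [Subsingleton.elim NN(Q) ⊤, index_top]
    exact hp.out.one_lt.ne' ∘ Nat.dvd_one.1
  rcases H1.IsPSolvable.core_ne_bot hG with h1 | h1
  · have := key _ h1
    rwa [sup_eq_left.2 (hQ.le_of_NN (H1.isPGroup_pCore q) le_top (le_NN_of_normal _ _))] at this
  set K := pPrimeCore q G
  have hK := key K h1
  have hcop : ∀ A : Subgroup G, IsPGroup q A → (Nat.card A).Coprime (Nat.card K) := fun A hA =>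
    H1.IsPGroup.coprime_card hA (H1.coprime_card_pPrimeCore q)
  have hsol : ∀ A : Subgroup G, IsPGroup q A → Group.IsSolvable A := fun A hA => by
    haveI := hA.isNilpotent
    infer_instance
  obtain ⟨R, hR, hQR⟩ := H1.exists_invariant_sylowOf (K := K) (A := Q) p (le_NN_of_normal _ _)
    (hcop _ hQ.isPGroup) (Or.inl (hsol _ hQ.isPGroup))
  have hRC : R ≤ CC(Q) := by
    apply le_CC_symm
    intro y hy
    obtain ⟨k, hk⟩ := orderOf_eq_pow_of_mem hQ.isPGroup hy
    obtain ⟨P, hP⟩ := exists_syl_le_of_index (h y ⟨k, hk⟩)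
    have hPK : IsSylowIn p ((P : Subgroup G) ⊓ K) K :=
      (isSylowIn_top P).inf_normal le_top (le_NN_of_normal _ _)
    have hPC : (P : Subgroup G) ⊓ K ≤ CC(zpowers y) := by
      intro c hc
      have hc' := hP hc.1
      rw [mem_centralizer_singleton_iff] at hc'
      rintro _ ⟨n, rfl⟩
      exact (Commute.zpow_left (a := y) (b := c) hc'.symm n).eq
    have hz := isPGroup_zpowers_of_orderOf hk
    obtain ⟨c, hc, e⟩ := H1.invariant_sylowOf_conj (K := K) (A := zpowers y) (le_NN_of_normal _ _)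
      (hcop _ hz) (Or.inl (hsol _ hz)) (hall_of_syl hPK) hR
      ((le_CC_symm hPC).trans (CC_le_NN _)) ((zpowers_le.2 hy).trans hQR)
    have : R ≤ CC(zpowers y) := by
      rw [← e]
      rintro _ ⟨x, hx, rfl⟩
      exact mul_mem (mul_mem hc.2 (hPC hx)) (inv_mem hc.2)
    exact le_CC_symm this (mem_zpowers y)
  have hQs : IsSylowIn q Q (Q ⊔ K) := hQ.of_le le_sup_left le_top
  have h2 : NN(Q).relIndex NN(Q ⊔ K) = NN(Q).relIndex K := by
    refine relIndex_eq_of_mul (le_sup_right.trans le_normalizer) fun m hm => ?_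
    obtain ⟨a, ha, b, hb, e⟩ := hQs.frattini' (L := NN(Q ⊔ K)) le_normalizer le_rfl hm
    rw [sup_comm, ← SetLike.mem_coe, normal_mul] at ha
    obtain ⟨k, hk, x, hx, rfl⟩ := ha
    exact ⟨k, hk, x * b, mul_mem (le_normalizer hx) hb.2, by rw [← e]; simp [mul_assoc]⟩
  have h3 : NN(Q) ≤ NN(Q ⊔ K) := le_NN_sup le_rfl (le_NN_of_normal _ _)
  rw [← relIndex_mul_index h3, h2]
  intro hd
  rcases (Nat.Prime.dvd_mul hp.out).1 hd with h4 | h4
  · exact (syl_of_hall hR).not_dvd_relIndex
      (h4.trans (relIndex_dvd_of_le_left _ (hRC.trans (CC_le_NN _))))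
  · exact hK h4

/-- Let p and q be primes and G a finite group that is p-solvable or q-solvable, in which no q-element has conjugacy class size divisible by p. Then some Sylow p-subgroup of G normalizes some Sylow q-subgroup of G. -/
theorem result {G : Type*} [Group G] [Finite G] (p q : ℕ) [Fact p.Prime] [Fact q.Prime] (hsolv : Cfsg.IsPSolvable p G ∨ Cfsg.IsPSolvable q G)
    (h : ∀ y : G, (∃ k : ℕ, orderOf y = q ^ k) → ¬ p ∣ (Subgroup.centralizer ({y} : Set G)).index) :
    ∃ (P : Sylow p G) (Q : Sylow q G), (P : Subgroup G) ≤ Subgroup.normalizer ((Q : Subgroup G) : Set G) := by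
  by_cases hpq : p = q
  · subst hpq
    obtain ⟨P⟩ : Nonempty (Sylow p G) := inferInstance
    exact ⟨P, P, le_normalizer⟩
  rcases hsolv with hs | hs
  · exact s4602_of (case_p hpq hs h)
  · obtain ⟨Q⟩ : Nonempty (Sylow q G) := inferInstance
    obtain ⟨P, hP⟩ := exists_syl_le_of_index (case_q hpq _ G rfl hs h Q (isSylowIn_top Q))
    exact ⟨P, Q, hP⟩

end Cfsg.Agent.S4601
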