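import Cfsg.Statements.S4604
import Cfsg.Agent.H20.Ht
-- import your own Cfsg.Agent.* helpers here

set_option autoImplicit false
open Cfsg

namespace Cfsg.Agent.S4604

open H17 Finset

theorem pow_sub {G : Type*} [Group G] [Finite G] (p : ℕ) [Fact p.Prime] {χ : G → ℂ}
    (h : IsCharacter G χ) (g : G) (k : ℕ) :
    ∃ γ : AlgInt, χ g ^ p ^ k - χ (g ^ p ^ k) = (p : ℂ) * (γ : ℂ) := by
  obtain ⟨n, ε, -, h1, h2⟩ := h.exists_eigenvalues g
  let e : Fin n → AlgInt := fun i => ⟨ε i, IsIntegral.of_pow (orderOf_pos g) (by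
    rw [← Units.val_pow_eq_pow_val, h1]; exact isIntegral_one)⟩
  have h3 : ∀ s : Finset (Fin n), (p : AlgInt) ∣ (∑ i ∈ s, e i) ^ p ^ k - ∑ i ∈ s, e i ^ p ^ k := by
    intro s
    induction s using Finset.cons_induction with
    | empty => simp [(Fact.out : p.Prime).ne_zero]
    | cons a s ha ih =>
      obtain ⟨r, hr⟩ := exists_add_pow_prime_pow_eq (Fact.out : p.Prime) (e a) (∑ i ∈ s, e i) k
      rw [sum_cons, sum_cons, hr]
      convert dvd_add ih (dvd_mul_right _ (e a * (∑ i ∈ s, e i) * r)) using 1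
      ring
  obtain ⟨γ, hγ⟩ := h3 univ
  refine ⟨γ, ?_⟩
  have h4 := h2 1
  have h5 := h2 (p ^ k : ℕ)
  simp only [zpow_natCast, zpow_one] at h4 h5
  simpa [h4, h5, e] using congrArg Subtype.val hγ


/-- Let G be a finite group, p a prime and p^a the p-part of the order of G. Let x, y ∈ G and let x′, y′ be their p-regular parts: x′ has order prime to p, commutes with x·x′⁻¹, and x·x′⁻¹ has p-power order (likewise for y). Then x′ and y′ are conjugate in G if and only if for every irreducible character χ of G the algebraic integer χ(x)^(p^a) − χ(y)^(p^a) is p times an algebraic integer. -/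
theorem result {G : Type*} [Group G] [Finite G] (p : ℕ) [Fact p.Prime] (x y x' y' : G)
    (hx : (∃ k : ℕ, orderOf (x * x'⁻¹) = p ^ k) ∧ Commute (x * x'⁻¹) x' ∧ ¬ p ∣ orderOf x')
    (hy : (∃ k : ℕ, orderOf (y * y'⁻¹) = p ^ k) ∧ Commute (y * y'⁻¹) y' ∧ ¬ p ∣ orderOf y') :
    IsConj x' y' ↔ ∀ χ : Cfsg.IrrCharacter G, ∃ γ : Cfsg.AlgInt,
      (χ : G → ℂ) x ^ (p ^ (Nat.card G).factorization p) - (χ : G → ℂ) y ^ (p ^ (Nat.card G).factorization p) = (p : ℂ) * (γ : ℂ) := by
  classical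
  have := Fintype.ofFinite G
  have key : ∀ {x x' : G}, ((∃ k : ℕ, orderOf (x * x'⁻¹) = p ^ k) ∧ Commute (x * x'⁻¹) x' ∧
      ¬ p ∣ orderOf x') → x ^ p ^ (Nat.card G).factorization p =
        x' ^ p ^ (Nat.card G).factorization p := fun {x x'} ⟨⟨k, h1⟩, h2, _⟩ => by
    conv_lhs => rw [← inv_mul_cancel_right x x', h2.mul_pow, orderOf_dvd_iff_pow_eq_one.1 (h1 ▸
      pow_dvd_pow p (((Fact.out : p.Prime).pow_dvd_iff_le_factorization Nat.card_pos.ne').1
        (h1 ▸ orderOf_dvd_natCard _))), one_mul]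
  refine ⟨fun h χ => ?_, fun h => by_contra fun hc => ?_⟩
  · obtain ⟨a, ha⟩ := pow_sub p χ.2.isCharacter x ((Nat.card G).factorization p)
    obtain ⟨b, hb⟩ := pow_sub p χ.2.isCharacter y ((Nat.card G).factorization p)
    rw [key hy, H19.classFun_isConj (H19.irr_class χ) (h.pow _), ← key hx] at hb
    exact ⟨a - b, by push_cast; linear_combination ha - hb⟩
  obtain ⟨O, _⟩ := H19.exists_val p
  have h1 : ∀ χ : IrrCharacter G, (χ : G → ℂ) x' - (χ : G → ℂ) y' ∈ O.nonunits := fun χ => by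
    obtain ⟨γ, hγ⟩ := h χ
    have m := H19.irr_mem O χ
    have h2 := (H19.res_eq_res_iff (pow_mem (m x) _) (pow_mem (m y) _)).2 (hγ ▸
      H19.nonunits_mul_right (H19.p_mem_nonunits O p) (H19.algInt_mem O γ))
    rw [H19.res_pow (m x), H19.res_pow (m y), ← sub_eq_zero, ← sub_pow_char_pow,
      pow_eq_zero_iff (pow_pos (Fact.out : p.Prime).pos _).ne', sub_eq_zero] at h2
    have h3 := (H19.res_eq_res_iff (m _) (m _)).2 (H19.char_mul_sub_mem χ.2.isCharacter hx.1 hx.2.1)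
    have h4 := (H19.res_eq_res_iff (m _) (m _)).2 (H19.char_mul_sub_mem χ.2.isCharacter hy.1 hy.2.1)
    rw [inv_mul_cancel_right] at h3 h4
    rw [← H19.res_eq_res_iff (m _) (m _), ← h3, ← h4, h2]
  have h2 : ∀ θ ∈ H19.GC O.toSubring G, θ x' - θ y' ∈ O.nonunits := fun θ hθ => by
    refine H19.GC_induction (P := fun θ => θ x' - θ y' ∈ O.nonunits) hθ h1 (by simp)
      (fun a b ha hb => ?_) fun c hc a ha => ?_
    · simpa only [Pi.add_apply, add_sub_add_comm] using add_mem ha hb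
    · simpa only [Pi.smul_apply, smul_eq_mul, mul_sub] using H19.nonunits_mul_left hc ha
  have h3 := h2 _ (H20.hat_mem_GC (p := p) (θ := fun g => if IsConj x' g then 1 else 0)
    (fun g c => if_congr ⟨fun e => e.trans (isConj_iff.2 ⟨c⁻¹, by group⟩), fun e =>
      e.trans (isConj_iff.2 ⟨c, rfl⟩)⟩ rfl rfl) fun g _ => by split_ifs <;> simp)
  simp only [H19.rpart_of_reg hx.2.2, H19.rpart_of_reg hy.2.2, IsConj.refl, hc, if_true, if_false,
    sub_zero] at h3
  exact H19.one_not_mem_nonunits h3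

end Cfsg.Agent.S4604
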