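import Cfsg.Statements.S4607
import Cfsg.Agent.H20.Eq
-- import your own Cfsg.Agent.* helpers here

set_option autoImplicit false
open Cfsg

namespace Cfsg.Agent.S4607

/-- Let G be a finite group, p a prime, M a maximal ideal of the algebraic integers containing p, and B a p-block of G with defect group D. Then B contains exactly two irreducible characters if and only if D has order 2. -/
theorem result {G : Type*} [Group G] [Finite G] (p : ℕ) [Fact p.Prime] (M : Ideal Cfsg.AlgInt) (hM : Cfsg.IsPModular p M) (B : Set (Cfsg.IrrCharacter G)) (hB : Cfsg.IsPBlock M B) (D : Subgroup G) (hD : Cfsg.IsDefectGroup p M B D) : Nat.card B = 2 ↔ Nat.card D = 2 := by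
  obtain ⟨O, hO, _⟩ := H19.exists_over hM
  obtain ⟨β, rfl⟩ := hO.exists_blk hB
  have hD := (H20.isDefectGroup_iff hO hM _ _).1 hD
  rw [hD.card_eq_pow]
  have h1 := H20.blockRank_pos (p := p) β
  constructor
  · intro h
    have h2 : blockDefect p (H19.irr β) ≠ 0 := fun e => by
      obtain ⟨χ, h3, -⟩ := H19.exists_singleton_of_defect_zero e
      simp [h3] at h
    have := H19.rank_lt_card h2
    rw [← (H20.card_eq_of_le_four (by omega) (by omega)).1, h]
  · intro h
    obtain ⟨rfl, h2⟩ := (Nat.prime_two.pow_eq_iff).1 h
    have := H19.rank_lt_card (p := 2) (β := β) (by omega)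
    have := H19.card_le_two_of_defect (β := β) h2.le
    omega

end Cfsg.Agent.S4607
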