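import Cfsg.Statements.S4611
import Cfsg.Agent.H19.Kern
import Cfsg.Agent.H1.PSolv

set_option autoImplicit false
open Cfsg

namespace Cfsg.Agent.S4611
open H17 H19

/-- Let G be a finite solvable group and π a nonempty set of primes, each dividing the order of G; fix for each p in π a maximal ideal M p of the algebraic integers containing p. Then the only irreducible character lying in the principal p-block for every p in π is the principal character if and only if G is generated by the subgroups O_{p'}(G), p in π (the largest normal subgroups of order prime to p). -/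
theorem result {G : Type*} [Group G] [Finite G] [Group.IsSolvable G] (π : Set ℕ) (hπ : ∀ p ∈ π, p.Prime ∧ p ∣ Nat.card G) (hne : π.Nonempty) (M : ℕ → Ideal Cfsg.AlgInt) (hM : ∀ p ∈ π, Cfsg.IsPModular p (M p)) :
    (∀ χ : Cfsg.IrrCharacter G, (∀ p ∈ π, χ ∈ Cfsg.principalBlock (M p) G) → (χ : G → ℂ) = fun _ => 1) ↔
      ⨆ p ∈ π, Cfsg.pPrimeCore p G = ⊤ := by
  have key : ∀ p ∈ π, ∀ χ : IrrCharacter G,
      χ ∈ principalBlock (M p) G ↔ pPrimeCore p G ≤ charKer (χ : G → ℂ) := fun p hp χ => by
    have := Fact.mk (hπ p hp).1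
    obtain ⟨O, hO, _⟩ := exists_over (hM p hp)
    have hK : ¬ p ∣ Nat.card (pPrimeCore p G) := H1.not_dvd_card_pPrimeCore (hπ p hp).1
    rw [hO.principalBlock_eq]
    refine ⟨le_charKer_of_B0 hK, fun h => ?_⟩
    obtain ⟨ψ, rfl⟩ := exists_infl _ (QuotientGroup.mk'_surjective (pPrimeCore p G))
      (by rwa [QuotientGroup.ker_mk'])
    have := subsingleton_blk_of_cent O (H1.isPGroup_pCore (G := G ⧸ pPrimeCore p G) p)
      ((H1.isPGroup_pCore p).to_le (H1.IsPSolvable.centralizer_pCore_le (H1.IsPSolvable.quotient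
        (H1.isPSolvable_of_isSolvable p inferInstance) _) (H1.pPrimeCore_quotient_pPrimeCore p)))
    rw [mem_irr, lam_infl, Subsingleton.elim (lam O ψ) (B0 O _), dom_B0]
  constructor
  · intro h
    have : (⨆ p ∈ π, pPrimeCore p G).Normal := Subgroup.biSup_normal π _ fun _ _ => inferInstance
    refine eq_top_iff.2 fun g _ => mem_of_forall_irr_ker _ fun χ hχ h1 => ?_
    rw [show χ = fun _ => 1 from h ⟨χ, hχ⟩ fun p hp => (key p hp _).2 ((le_biSup _ hp).trans h1)]
  · exact fun h χ h1 => χ.2.eq_one_of_charKer_eq_top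
      (eq_top_iff.2 (h ▸ iSup₂_le fun p hp => (key p hp χ).1 (h1 p hp)))

end Cfsg.Agent.S4611
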