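import Cfsg.Statements.S4620
import Cfsg.Agent.H10.SylowIn
import Cfsg.Agent.H15.Amb
import Cfsg.Agent.H1.Cores

set_option autoImplicit false
open scoped Pointwise
open Cfsg

open H15

namespace Cfsg.Agent.S4620

/-- Let H be a finite group with no nontrivial normal p-subgroup and no nontrivial normal subgroup of order prime to p, whose Sylow p-subgroup P is nontrivial and a trivial-intersection set (P meets its conjugates by elements outside N_H(P) trivially). Then H has a unique minimal normal subgroup N; N is non-abelian simple with trivial centralizer in H (so H embeds in Aut(N)), and a Sylow p-subgroup of N is again a nontrivial trivial-intersection set in N. -/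
theorem result {H : Type*} [Group H] [Finite H] (p : ℕ) [Fact p.Prime] (hOp : Cfsg.pCore p H = ⊥) (hOp' : Cfsg.pPrimeCore p H = ⊥) (P : Sylow p H) (hP1 : (P : Subgroup H) ≠ ⊥)
    (hTI : ∀ g : H, g ∉ Subgroup.normalizer ((P : Subgroup H) : Set H) → (P : Subgroup H) ⊓ (MulAut.conj g • (P : Subgroup H)) = ⊥) :
    ∃ N : Subgroup H, N.Normal ∧ N ≠ ⊥ ∧ (∀ K : Subgroup H, K.Normal → K ≠ ⊥ → N ≤ K) ∧
      IsSimpleGroup N ∧ ¬ IsMulCommutative N ∧ Subgroup.centralizer (N : Set H) = ⊥ ∧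
      ∀ Q : Sylow p N, (Q : Subgroup N) ≠ ⊥ ∧
        ∀ n : N, n ∉ Subgroup.normalizer ((Q : Subgroup N) : Set N) → (Q : Subgroup N) ⊓ (MulAut.conj n • (Q : Subgroup N)) = ⊥ := by
  have hp : p.Prime := Fact.out
  have ti : ∀ (R : Sylow p H) (g x : H), x ≠ 1 → x ∈ (R : Subgroup H) →
      g⁻¹ * x * g ∈ (R : Subgroup H) → g ∈ 𝒩((R : Subgroup H)) := by
    intro R g x h1 h2 h3
    obtain ⟨c, rfl⟩ := MulAction.exists_smul_eq H P R
    rw [Sylow.coe_subgroup_smul, Subgroup.mem_pointwise_smul_iff_inv_smul_mem] at h2 h3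
    have h4 : c⁻¹ * g * c ∈ 𝒩((P : Subgroup H)) := by
      by_contra h
      refine h1 ?_
      have : (MulAut.conj c)⁻¹ • x ∈ (P : Subgroup H) ⊓ MulAut.conj (c⁻¹ * g * c) • (P : Subgroup H) :=
        Subgroup.mem_inf.2 ⟨h2, by
          rw [Subgroup.mem_pointwise_smul_iff_inv_smul_mem]
          convert h3 using 1
          simp [mul_assoc]⟩
      rw [hTI _ h, Subgroup.mem_bot] at this
      simpa [mul_assoc, inv_mul_eq_iff_eq_mul] using this
    have h5 := Sylow.smul_eq_iff_mem_normalizer.2 h4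
    rw [mul_smul, mul_smul, inv_smul_eq_iff] at h5
    exact Sylow.smul_eq_iff_mem_normalizer.1 h5
  have ne : ∀ (R : Sylow p H) (A : Subgroup H), A.IsSubnormal → A ≠ ⊥ → (R : Subgroup H) ⊓ A ≠ ⊥ := by
    intro R A hA h0
    refine ((H10.isSylowIn_top R).inf_subn (H10.subnIn_top.2 hA)).ne_bot ?_
    by_contra h
    exact h0 (le_bot_iff.1 (hOp' ▸ H1.subnormal_le_pPrimeCore hA
      ((Nat.Prime.coprime_iff_not_dvd hp).2 h).symm))
  have key : ∀ A B : Subgroup H, A.IsSubnormal → B.IsSubnormal → A ≠ ⊥ → B ≠ ⊥ → ¬ A ≤ 𝒞(B) := by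
    intro A B hA hB hA0 hB0 h
    obtain ⟨x, hx, hx1⟩ := (Subgroup.bot_or_exists_ne_one _).resolve_left (ne P B hB hB0)
    have h1 : A ≤ 𝒩((P : Subgroup H)) := fun g hg => ti P g x hx1 hx.1 (by
      rw [mul_assoc, h hg x hx.2, inv_mul_cancel_left]; exact hx.1)
    refine ne P A hA hA0 (le_bot_iff.1 (hOp ▸ H1.subnormal_le_pCore (H10.subnIn_top.1
      ((H10.subnIn_top.2 hA).step inf_le_right (le_norm_inf h1 (le_norm_self A))))
      (P.isPGroup'.to_inf_left)))
  obtain ⟨N, ⟨hN, hN0⟩, -, hmin⟩ := H1.exists_minimal_le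
    (fun N : Subgroup H => N.Normal ∧ N ≠ ⊥) (N := ⊤) ⟨inferInstance, ne_bot_of_le_ne_bot hP1 le_top⟩
  have hC : 𝒞(N) = ⊥ := by
    by_contra h
    exact key _ N (Subgroup.Normal.isSubnormal inferInstance) hN.isSubnormal h hN0 le_rfl
  have hK : ∀ K : Subgroup H, K.Normal → K ≠ ⊥ → N ≤ K := fun K hK h0 => by
    refine inf_eq_left.1 (hmin _ ⟨inferInstance, fun e => h0 (le_bot_iff.1 (hC ▸ ?_))⟩ inf_le_left)
    exact le_cent_iff_comm.2 (le_bot_iff.1 (e ▸ inf_comm K N ▸ Subgroup.commutator_le_inf K N))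
  refine ⟨N, hN, hN0, hK, ?_, fun h => hN0 (le_bot_iff.1 (hC ▸ le_cent_self h)), hC, fun Q => ?_⟩
  · haveI := (Subgroup.nontrivial_iff_ne_bot N).2 hN0
    refine ⟨fun S hS => or_iff_not_imp_left.2 fun h0 => ?_⟩
    obtain ⟨T, ⟨h1, h2, h3⟩, h4, h5⟩ := H1.exists_minimal_le
      (fun T : Subgroup H => T ≤ N ∧ N ≤ 𝒩(T) ∧ T ≠ ⊥) (N := S.map N.subtype)
      ⟨Subgroup.map_subtype_le S, by
        have := Subgroup.le_normalizer_map (H := S) N.subtype
        rwa [Subgroup.normalizer_eq_top, ← MonoidHom.range_eq_map, Subgroup.range_subtype] at this,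
        by rwa [Ne, Subgroup.map_eq_bot_iff_of_injective _ N.subtype_injective]⟩
    have hcj : ∀ g : H, cj(g, N) = N := fun g =>
      cj_of_mem_norm (by rw [Subgroup.normalizer_eq_top]; trivial)
    have sn : ∀ T : Subgroup H, T ≤ N → N ≤ 𝒩(T) → T.IsSubnormal := fun T a b =>
      H10.subnIn_top.1 ((H10.subnIn_top.2 hN.isSubnormal).step a b)
    have h6 : ∀ g : H, T ≤ cj(g, T) := fun g => by
      have a1 : cj(g, T) ≤ N := hcj g ▸ Subgroup.map_mono h1
      have a2 : N ≤ 𝒩(cj(g, T)) := hcj g ▸ cj_le_norm h2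
      refine inf_eq_left.1 (h5 _ ⟨inf_le_left.trans h1, le_norm_inf h2 a2, fun e => ?_⟩ inf_le_left)
      refine key T _ (sn _ h1 h2) (sn _ a1 a2) h3 (by
        rwa [Ne, Subgroup.map_eq_bot_iff_of_injective _ (MulAut.conj g).injective]) ?_
      exact le_cent_iff_comm.2 (le_bot_iff.1 (e ▸ comm_le_inf (a1.trans h2) (h1.trans a2)))
    have h7 : T.Normal := ⟨fun x hx g => by
      obtain ⟨y, hy, rfl⟩ := h6 g⁻¹ hx
      simpa [mul_assoc] using hy⟩
    rw [eq_top_iff]
    intro x _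
    obtain ⟨y, hy, e⟩ := h4 (hK T h7 h3 x.2)
    exact Subtype.ext e ▸ hy
  · obtain ⟨R, hR⟩ := Q.exists_comap_subtype_eq
    refine ⟨fun e => ne R N hN.isSubnormal hN0 ?_, fun n hn => ?_⟩
    · rw [← Subgroup.subgroupOf_map_subtype, Subgroup.subgroupOf, hR, e, Subgroup.map_bot]
    · rw [eq_bot_iff]
      intro x hx
      obtain ⟨h1, h2⟩ := Subgroup.mem_inf.1 hx
      by_contra h3
      rw [Subgroup.mem_pointwise_smul_iff_inv_smul_mem] at h2
      rw [← hR] at h1 h2 hn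
      refine hn (Subgroup.mem_normalizer_iff.2 fun y => ?_)
      exact Subgroup.mem_normalizer_iff.1 (ti R n x (fun e => h3 (Subtype.ext e)) h1
        (by simpa [Subgroup.mem_subgroupOf] using h2)) y

end Cfsg.Agent.S4620
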