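import Cfsg.Statements.S4630
import Cfsg.Agent.H16.LA19
-- import your own Cfsg.Agent.* helpers here

set_option autoImplicit false
open Cfsg

namespace Cfsg.Agent.S4630

open H16 H22 in
/-- Let F be a finite field of odd order and m ≥ 1 with m even or m ≥ 4. For the commutator subgroup Ω of the isometry group of the plus-type quadratic form Σ_{i<m} x_i y_i in dimension 2m over F, a Sylow 2-subgroup P of Ω has P/P' elementary abelian: the square of every element of P lies in the derived subgroup of P. -/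
theorem result {F : Type*} [Field F] [Fintype F] (hF : Odd (Fintype.card F)) (m : ℕ) (hm : 1 ≤ m) (hm' : Even m ∨ 4 ≤ m) (P : Sylow 2 (Cfsg.Omega F (Cfsg.quadFormPlus m F))) : ∀ x : (P : Subgroup (Cfsg.Omega F (Cfsg.quadFormPlus m F))), x ^ 2 ∈ commutator (P : Subgroup (Cfsg.Omega F (Cfsg.quadFormPlus m F))) := by
  refine ab2_Omega hF (Q := qPlus m F) (qPlus_nondeg m) ?_ P
  by_cases h : m = 2
  · subst h
    refine .inr ⟨by simp, (neg_mem_omega_plus_iff (H22.two_ne_zero_of_odd_card hF) 2).2 ?_⟩
    obtain ⟨k, hk⟩ := hF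
    rw [hk, show (2 * k + 1) ^ 2 = 1 + 4 * (k ^ 2 + k) by ring, Nat.add_mul_mod_self_left]
  · refine .inl ?_
    rcases hm' with ⟨k, hk⟩ | hm' <;> simp <;> omega

end Cfsg.Agent.S4630
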