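import Cfsg.Statements.S4743
import Cfsg.Agent.H21.DZ3

set_option autoImplicit false
open Cfsg

namespace Cfsg.Agent.S4743

/-- Let p ≠ q be primes dividing the order of the finite group G, suppose the centralizer of every non-identity p-element has order prime to q, and suppose G is p-solvable or q-solvable. Then G has an irreducible character of p-defect zero or an irreducible character of q-defect zero. -/
theorem result {G : Type*} [Group G] [Finite G] (p q : ℕ) [Fact p.Prime] [Fact q.Prime] (hppq : p ≠ q) (hpG : p ∣ Nat.card G) (hqG : q ∣ Nat.card G) (hC : ∀ g : G, g ≠ 1 → (∃ k : ℕ, orderOf g = p ^ k) → ¬ q ∣ Nat.card ↥(Subgroup.centralizer ({g} : Set G))) (hsolv : Cfsg.IsPSolvable p G ∨ Cfsg.IsPSolvable q G) : (∃ χ : Cfsg.IrrCharacter G, (Cfsg.charDegree (χ : G → ℂ)).factorization p = (Nat.card G).factorization p) ∨ (∃ χ : Cfsg.IrrCharacter G, (Cfsg.charDegree (χ : G → ℂ)).factorization q = (Nat.card G).factorization q) := by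
  have hC' := H21.cent_symm p q hC
  have key : ∃ N : Subgroup G, N.Normal ∧
      ((p ∣ Nat.card N ∧ ¬ q ∣ Nat.card N) ∨ (q ∣ Nat.card N ∧ ¬ p ∣ Nat.card N)) := by
    rcases hsolv with h | h
    · exact H21.exists_normal_xor Fact.out Fact.out hppq hpG h
    · obtain ⟨N, h1, h2⟩ := H21.exists_normal_xor Fact.out Fact.out hppq.symm hqG h
      exact ⟨N, h1, h2.symm⟩
  obtain ⟨N, hN, h | h⟩ := key
  · exact Or.inr (H21.dz_of_normal q p hC' h.1 h.2)
  · exact Or.inl (H21.dz_of_normal p q hC h.1 h.2)

end Cfsg.Agent.S4743
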