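import Cfsg.Statements.S4746
import Cfsg.Agent.H21.DZ3

set_option autoImplicit false
open Cfsg

namespace Cfsg.Agent.S4746

/-- Let p be an odd prime and G a finite group of even order divisible by p in which the centralizer of every non-identity p-element has odd order. Then G has an irreducible character of p-defect zero or an irreducible character of even degree. -/
theorem result {G : Type*} [Group G] [Finite G] (p : ℕ) [Fact p.Prime] (hp2 : p ≠ 2) (hpG : p ∣ Nat.card G) (h2G : 2 ∣ Nat.card G) (hC : ∀ g : G, g ≠ 1 → (∃ k : ℕ, orderOf g = p ^ k) → Odd (Nat.card ↥(Subgroup.centralizer ({g} : Set G)))) : (∃ χ : Cfsg.IrrCharacter G, (Cfsg.charDegree (χ : G → ℂ)).factorization p = (Nat.card G).factorization p) ∨ ∃ χ : Cfsg.IrrCharacter G, Even (Cfsg.charDegree (χ : G → ℂ)) := by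
  have h2p := H21.no2p_of_cent hC
  refine (em _).imp_right fun hno => ?_
  obtain ⟨t, ht⟩ := exists_prime_orderOf_dvd_card' 2 h2G
  obtain ⟨P⟩ : Nonempty (Sylow p G) := inferInstance
  obtain ⟨s, hts, hs⟩ := H21.exists_inverted_of_no_dz hp2 h2p hno ht P
  obtain ⟨u, hu, ho⟩ := H10.exists_orderOf_eq_of_ne_bot P.isPGroup' (P.ne_bot_of_dvd_card hpG)
  have hu1 := H10.ne_one_of_orderOf_eq ho
  exact H21.exists_even_deg hu1 (isConj_iff.2 ⟨s, hs u hu⟩)
    (H21.odd_cent_of_no2p hp2 h2p hu1 ⟨1, by rw [ho, pow_one]⟩)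

end Cfsg.Agent.S4746
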