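import Cfsg.Statements.S4750
import Cfsg.Agent.H21.LD2
import Cfsg.Agent.H21.Basic

set_option autoImplicit false
open scoped Pointwise
open Cfsg

open H17 H15 H21 Subgroup Module

namespace Cfsg.Agent.S4750

/-- Let P be a Sylow p-subgroup of the finite group G that meets each conjugate g P g⁻¹ with g outside N_G(P) trivially, χ a character of G with χ(1)² ≤ |P|, and H a subgroup of G containing N_G(P). Then the inner product of χ with itself over G equals the inner product over H of the restriction of χ to H. -/
theorem result {G : Type*} [Group G] [Fintype G] [DecidableEq G] (p : ℕ) [Fact p.Prime] (P : Sylow p G) (hTI : ∀ g : G, g ∉ Subgroup.normalizer ((P : Subgroup G) : Set G) → (P : Subgroup G) ⊓ (MulAut.conj g • (P : Subgroup G)) = ⊥) (χ : G → ℂ) (hχ : Cfsg.IsCharacter G χ) (hdeg : Cfsg.charDegree χ ^ 2 ≤ Nat.card ↥(P : Subgroup G)) (H : Subgroup G) [Fintype ↥H] (hH : Subgroup.normalizer ((P : Subgroup G) : Set G) ≤ H) : Cfsg.classInner χ χ = Cfsg.classInner (fun h : ↥H => χ h) (fun h : ↥H => χ h) := by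
  have hc := hχ.conj_apply
  obtain ⟨n, ρ, rfl⟩ := hχ
  rcases n.eq_zero_or_pos with rfl | hn
  · have : ∀ g, ρ.character g = 0 := fun g => by
      rw [Representation.character, Subsingleton.elim (ρ g) 0, map_zero]
    simp [classInner, this]
  have : Nonempty (Fin n) := ⟨⟨0, hn⟩⟩
  have h1 : charDegree ρ.character = n := charDegree_eq_of_one (by simp [Representation.char_one])
  have : Invertible (Nat.card G : ℂ) := invertibleOfNonzero (Nat.cast_ne_zero.2 Nat.card_pos.ne')
  have : Invertible (Nat.card H : ℂ) := invertibleOfNonzero (Nat.cast_ne_zero.2 Nat.card_pos.ne')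
  have h2 : (ρ.linHom ρ).invariants = Representation.invariants ((ρ.linHom ρ).comp H.subtype) :=
    le_antisymm (fun m hm g => hm g) fun m hm => fix_of_TI (σ := ρ.linHom ρ) (syl_top_sylow P) hTI
      (by rwa [Module.finrank_linearMap, finrank_fin_fun, ← sq, ← h1]) (m₀ := 1) one_ne_zero
      (fun g => by rw [Representation.linHom_apply, End.one_eq_id, LinearMap.id_comp, ← End.mul_eq_comp, ← map_mul,
        mul_inv_cancel, map_one, End.one_eq_id]) fun g hg => hm ⟨g, hH hg⟩
  have h3 := (ρ.linHom ρ).card_inv_mul_sum_char_eq_finrank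
  rw [h2, ← Representation.card_inv_mul_sum_char_eq_finrank] at h3
  have h4 : ∀ g, ρ.character g * starRingEnd ℂ (ρ.character g) = (ρ.linHom ρ).character g := fun g => by
    rw [hc, Representation.char_linHom, mul_comm]
  simp only [classInner, h4]
  exact h3

end Cfsg.Agent.S4750
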