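import Cfsg.Statements.S4756
import Cfsg.Agent.H21.PG1

set_option autoImplicit false
open Cfsg

open H17 H15 CF H21 Subgroup
open scoped commutatorElement

namespace Cfsg.Agent.S4756

variable {G : Type*} [Group G] [Finite G] {χ : G → ℂ} {D : Subgroup G} {g : G}

theorem vanish [D.Normal] (hχ : χ ∈ Irr ⊤) (h : ¬ D ≤ cfker χ) (hg : ∀ d ∈ D, g * d = d * g → d = 1) :
    χ g = 0 := by
  have := Fintype.ofFinite G
  have := Fintype.ofFinite D
  have h1 : Function.Surjective fun d : D => (⟨⁅(d : G), g⁆, commutator_le_left D ⊤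
      (commutator_mem_commutator d.2 trivial)⟩ : D) := Finite.injective_iff_surjective.1 fun a b e => by
    have e : (a : G) * g * (a : G)⁻¹ = b * g * (b : G)⁻¹ := mul_right_cancel (congrArg Subtype.val e)
    refine Subtype.ext (inv_mul_eq_one.1 (hg _ (mul_mem (inv_mem b.2) a.2) ?_)).symm
    calc _ = (b : G)⁻¹ * (b * g * (b : G)⁻¹) * a := by group
      _ = _ := by rw [← e]; group
  have h2 := sum_coset_eq_zero (mem_Irr_top.1 hχ) D (by
    simpa [(irr_char hχ).le_cfker] using h) g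
  rw [Finset.sum_congr rfl (g := fun _ => χ g) fun n _ => by
    obtain ⟨d, rfl⟩ := h1 n
    simpa [commutatorElement_def] using cf_conj (irr_cf hχ) g (mem_top (d : G))] at h2
  simpa using h2

theorem exists_prime_pow (h : g ≠ 1) : ∃ q n : ℕ, q.Prime ∧ orderOf (g ^ n) = q := by
  obtain ⟨q, hq, h1⟩ := Nat.exists_prime_and_dvd (mt orderOf_eq_one_iff.1 h)
  exact ⟨q, _, hq, orderOf_pow_orderOf_div (orderOf_pos g).ne' h1⟩

omit [Finite G] in
theorem ne_one {q : ℕ} (hq : q.Prime) (h : orderOf g = q) : g ≠ 1 := fun e => hq.ne_one (by simp [← h, e])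

/-- For a finite group G the following are equivalent. (1) χ(x y) = χ(x) χ(y) for every irreducible character χ and all non-identity elements x, y of prime power orders for two different primes. (2) G is a p-group for some prime p, or G is abelian, or for some prime p: G = A P with P a normal Sylow p-subgroup and A a nontrivial cyclic subgroup of order prime to p such that, with C = C_P(A) and D = [A, P], one has P = C D, C abelian, D normal in G, C ∩ D = 1, and A acts fixed-point-freely on D (no non-identity element of A centralizes a non-identity element of D). -/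
theorem result {G : Type*} [Group G] [Finite G] : (∀ (x y : G) (χ : Cfsg.IrrCharacter G), x ≠ 1 → y ≠ 1 → (∃ p q a b : ℕ, p.Prime ∧ q.Prime ∧ p ≠ q ∧ orderOf x = p ^ a ∧ orderOf y = q ^ b) → (χ : G → ℂ) (x * y) = (χ : G → ℂ) x * (χ : G → ℂ) y) ↔ ((∃ p : ℕ, p.Prime ∧ IsPGroup p G) ∨ IsMulCommutative G ∨ ∃ (p : ℕ) (_ : Fact p.Prime) (P : Sylow p G) (A : Subgroup G), (P : Subgroup G).Normal ∧ IsCyclic ↥A ∧ A ≠ ⊥ ∧ (Nat.card ↥A).Coprime p ∧ A ⊔ (P : Subgroup G) = ⊤ ∧ IsMulCommutative ↥((P : Subgroup G) ⊓ Subgroup.centralizer (A : Set G)) ∧ (⁅A, (P : Subgroup G)⁆).Normal ∧ ((P : Subgroup G) ⊓ Subgroup.centralizer (A : Set G)) ⊔ ⁅A, (P : Subgroup G)⁆ = (P : Subgroup G) ∧ ((P : Subgroup G) ⊓ Subgroup.centralizer (A : Set G)) ⊓ ⁅A, (P : Subgroup G)⁆ = ⊥ ∧ ∀ a ∈ A, a ≠ 1 → ∀ d ∈ ⁅A, (P : Subgroup G)⁆, a * d = d * a → d = 1) := by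
  have hlin : ∀ χ ∈ Irr (⊤ : Subgroup G), commutator G ≤ cfker χ → ∀ x y, χ (x * y) = χ x * χ y :=
    fun χ h h' x y => (isLin_of_le_cfker h h').map_mul trivial trivial
  constructor
  · intro h
    have := Fintype.ofFinite G
    refine or_iff_not_imp_left.2 fun h1 => or_iff_not_imp_left.2 fun h2 => ?_
    replace h : ∀ {p q a b : ℕ}, p.Prime → q.Prime → p ≠ q → ∀ {x y : G}, x ≠ 1 → y ≠ 1 →
        orderOf x = p ^ a → orderOf y = q ^ b → ∀ χ ∈ Irr ⊤, χ (x * y) = χ x * χ y :=
      fun hp hq hpq x y hx hy h3 h4 χ hχ => h x y ⟨χ, mem_Irr_top.1 hχ⟩ hx hy ⟨_, _, _, _, hp, hq, hpq, h3, h4⟩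
    have h3 : ∀ {p q a b : ℕ}, p.Prime → q.Prime → p ≠ q → ∀ {x y : G}, x ≠ 1 → y ≠ 1 →
        orderOf x = p ^ a → orderOf y = q ^ b → ∀ χ ∈ Irr ⊤, ¬ commutator G ≤ cfker χ →
        χ x * χ y = 0 := fun hp hq hpq x y hx hy h3 h4 χ hχ h5 => by
      have := sum_conj_mul (mem_Irr_top.1 hχ) x y
      rw [Finset.sum_congr rfl (g := fun _ => χ x * χ y) fun t _ => by
        rw [h (x := t * x * t⁻¹) hp hq hpq (by simpa using hx) hy (((MulAut.conj t).orderOf_eq x).trans h3) h4 χ hχ,
          cf_conj (irr_cf hχ) _ trivial], Finset.sum_const, Finset.card_univ, ← Nat.card_eq_fintype_card,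
        nsmul_eq_mul, mul_assoc, mul_div_assoc, mul_right_inj' (Nat.cast_ne_zero.2 Nat.card_pos.ne'),
        eq_div_iff (irr_one_ne hχ)] at this
      exact by_contra fun e => h5 ((irr_one_eq_one_iff hχ).1 ((mul_eq_left₀ e).1 this))
    have h0 : commutator G ≠ ⊥ := mt (commutator_eq_bot_iff G).1 h2
    obtain ⟨p, hp, h4⟩ := Nat.exists_prime_and_dvd (mt card_eq_one.1 h0)
    haveI := Fact.mk hp
    have hD : IsPGroup p (commutator G) := H1.isPiNat_card_singleton_iff.1 fun q hq h5 => by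
      by_contra e
      haveI := Fact.mk hq
      obtain ⟨x, hx⟩ := exists_prime_orderOf_dvd_card' p h4
      obtain ⟨y, hy⟩ := exists_prime_orderOf_dvd_card' q h5
      rw [← orderOf_coe] at hx hy
      have h7 : (x : G) * y ≠ 1 := fun e' => e (by
        rw [← hy, eq_inv_of_mul_eq_one_right e', orderOf_inv, hx]; rfl)
      have h8 := sum_irr_one_mul ⊤ h7
      rw [← Finset.sum_subset (IrrQ_subset ⊤ (commutator G)) fun χ hχ h9 => by
        rw [h hp hq (Ne.symm e) (ne_one hp hx) (ne_one hq hy) (hx.trans (pow_one p).symm)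
          (hy.trans (pow_one q).symm) χ hχ, h3 hp hq (Ne.symm e) (ne_one hp hx) (ne_one hq hy)
          (hx.trans (pow_one p).symm) (hy.trans (pow_one q).symm) χ hχ fun e => h9 (mem_IrrQ.2 ⟨hχ, e⟩),
          mul_zero], sum_IrrQ_one_mul le_top (normalizer_eq_top _).ge, one_of_mem (mul_mem x.2 y.2),
        mul_one] at h8
      exact relIndex_ne _ _ h8
    obtain ⟨P⟩ : Nonempty (Sylow p G) := inferInstance
    have hDP : commutator G ≤ P := (H1.le_pCore hD).trans (H1.pCore_le_sylow P)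
    haveI := normal_of_der hDP
    obtain ⟨A, hA⟩ := exists_right_complement'_of_coprime (N := (P : Subgroup G)) P.card_coprime_index
    have hc : (Nat.card A).Coprime p := by
      rw [← hA.symm.index_eq_card]
      exact ((Nat.Prime.coprime_iff_not_dvd hp).2 P.not_dvd_index).symm
    have h5 : ∀ a ∈ A, a ≠ 1 → ∀ d ∈ commutator G, a * d = d * a → d = 1 := fun a ha h5 d hd e => by
      obtain ⟨q, n, hq, h6⟩ := exists_prime_pow h5
      have hpq : q ≠ p := fun e' => hp.not_dvd_one (hc ▸ Nat.dvd_gcd (by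
        rw [← e', ← h6]; exact orderOf_dvd_natCard _ (pow_mem ha n)) dvd_rfl)
      by_contra h7
      obtain ⟨k, hk⟩ := IsPGroup.iff_orderOf.1 hD ⟨d, hd⟩
      rw [← orderOf_coe] at hk
      obtain ⟨t, -, ht⟩ := conj_of_irr_eq (H := ⊤) (g := a ^ n) (h := a ^ n * d) trivial fun χ hχ => by
        rw [h hq hp hpq (ne_one hq h6) h7 (h6.trans (pow_one q).symm) hk χ hχ]
        by_cases h8 : commutator G ≤ cfker χ
        · rw [cfker_apply (h8 hd), (irr_one_eq_one_iff hχ).2 h8, mul_one]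
        suffices χ (a ^ n) = 0 by simp [this]
        by_contra h9
        have := dot_one_eq_zero_of_not_le le_top (normalizer_eq_top _).ge hχ h8
        rw [dot_one_right, Finset.sum_eq_single_of_mem 1 (mem_fs.2 (one_mem _)) fun x hx hx1 => by
          obtain ⟨j, hj⟩ := IsPGroup.iff_orderOf.1 hD ⟨x, mem_fs.1 hx⟩
          exact (mul_eq_zero.1 (h3 hq hp hpq (ne_one hq h6) hx1 (h6.trans (pow_one q).symm)
            ((orderOf_coe _).trans hj) χ hχ h8)).resolve_left h9] at this
        exact mul_ne_zero (inv_ne_zero (card_ne _)) (irr_one_ne hχ) this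
      have h8 : (a ^ n * d) ^ q = 1 := by rw [← ht, conj_pow, ← h6, pow_orderOf_eq_one]; simp
      rw [(Commute.pow_left e n).mul_pow, ← h6, pow_orderOf_eq_one, one_mul, h6] at h8
      exact h7 (congrArg Subtype.val (H9.eq_one_of_pow_eq_one_of_coprime hD (x := ⟨d, hd⟩)
        (fun e' => hpq ((Nat.prime_dvd_prime_iff_eq hp hq).1 e').symm) (Subtype.ext h8)))
    have hA0 : A ≠ ⊥ := fun e => h1 ⟨p, hp, P.isPGroup'.of_equiv
      ((MulEquiv.subgroupCongr (by simpa [e] using hA.sup_eq_top)).trans topEquiv)⟩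
    haveI : IsMulCommutative A := ⟨⟨fun a b => Subtype.ext (commutatorElement_eq_one_iff_mul_comm.1
      (hA.disjoint.le_bot ⟨hDP (commutator_mem_commutator trivial trivial),
        commutator_le_self A (commutator_mem_commutator a.2 b.2)⟩))⟩⟩
    have h6 : commutator G ⊓ centralizer A = ⊥ := by
      obtain ⟨a, ha, ha1⟩ := (A.bot_or_exists_ne_one).resolve_left hA0
      exact eq_bot_iff.2 fun d hd => h5 a ha ha1 d hd.1 (hd.2 a ha)
    have hs : ∀ {K : Subgroup G}, IsPGroup p K → (Nat.card A).Coprime (Nat.card K) := fun h => by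
      obtain ⟨k, hk⟩ := IsPGroup.iff_card.1 h
      exact hk ▸ hc.pow_right k
    have h7 : ⁅A, (P : Subgroup G)⁆ = commutator G := le_antisymm (commutator_mono le_top le_top) (by
      have := H1.commutator_sup_centralizer (le_top.trans (normalizer_eq_top _).ge) (hs hD)
        (.inl (Group.isSolvable_of_comm fun a b => mul_comm' a b))
      rw [h6, sup_bot_eq] at this
      rw [← this, commutator_comm]; exact commutator_mono le_rfl hDP)
    have h8 : (P : Subgroup G) ⊓ centralizer A ⊓ commutator G = ⊥ := by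
      rw [inf_assoc, inf_comm (centralizer _), h6, inf_bot_eq]
    refine ⟨p, ⟨hp⟩, P, A, inferInstance, H2.isCyclic_of_fpf_comm' A _ h0 (le_top.trans
      (normalizer_eq_top _).ge) fun a ha ha1 => eq_bot_iff.2 fun d hd => h5 a ha ha1 d hd.1
        (mem_centralizer_singleton_iff.1 hd.2).symm, hA0, hc, hA.symm.sup_eq_top,
      ⟨⟨fun a b => Subtype.ext (commutatorElement_eq_one_iff_mul_comm.1 (h8.le ⟨commutator_le_self _
        (commutator_mem_commutator a.2 b.2), commutator_mem_commutator trivial trivial⟩))⟩⟩,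
      h7 ▸ inferInstance, ?_, h7 ▸ h8, h7 ▸ h5⟩
    rw [sup_comm, commutator_comm]
    exact H1.commutator_sup_centralizer (le_top.trans (normalizer_eq_top _).ge) (hs P.isPGroup')
      (.inl (Group.isSolvable_of_comm fun a b => mul_comm' a b))
  rintro h x y ⟨χ, hχ⟩ hx hy ⟨q, r, a, b, hq, hr, hqr, h1, h2⟩
  replace hχ := mem_Irr_top.2 hχ
  have key : ∀ {p q a : ℕ} {x : G} {P : Subgroup G}, p.Prime → q.Prime → IsPGroup p P → x ≠ 1 →
      orderOf x = q ^ a → x ∈ P → q = p := fun {p q a x P} hp hq hP hx h1 h2 => by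
    haveI := Fact.mk hp
    obtain ⟨k, hk⟩ := IsPGroup.iff_orderOf.1 hP ⟨x, h2⟩
    rw [← orderOf_coe, h1] at hk
    exact (Nat.prime_dvd_prime_iff_eq hq hp).1 (hq.dvd_of_dvd_pow (hk ▸ dvd_pow_self q fun e =>
      hx (by simpa [e] using h1)))
  refine (em (commutator G ≤ cfker χ)).elim (fun e => hlin χ hχ e x y) fun h0 => ?_
  rcases h with ⟨p, hp, h⟩ | h | ⟨p, hp, P, A, _, _, -, h3, h4, h5, _, h6, -, h7⟩
  · exact absurd ((key hp hq (h.to_subgroup ⊤) hx h1 trivial).trans
      (key hp hr (h.to_subgroup ⊤) hy h2 trivial).symm) hqr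
  · exact absurd ((commutator_eq_bot_iff G).2 h ▸ bot_le) h0
  have h8 : commutator G ≤ ⁅A, (P : Subgroup G)⁆ := by
    have h8 : ∀ {X : Subgroup G}, IsMulCommutative X → ⁅X, X⁆ ≤ ⁅A, (P : Subgroup G)⁆ := fun h =>
      (commutator_eq_bot_iff_le_centralizer.2 (le_centralizer _)).le.trans bot_le
    have h9 : ⁅(P : Subgroup G), (P : Subgroup G)⁆ ≤ ⁅A, (P : Subgroup G)⁆ := by
      nth_rw 1 [← h6]
      refine H9.commutator_sup_le ?_ (commutator_le_left _ _)
      nth_rw 2 [← h6]
      rw [commutator_comm]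
      exact H9.commutator_sup_le (h8 h5) ((commutator_mono le_rfl le_top).trans (commutator_le_left _ _))
    rw [_root_.commutator_def, ← h4]
    refine H9.commutator_sup_le ?_ ?_ <;> rw [commutator_comm] <;> refine H9.commutator_sup_le ?_ ?_
    exacts [h8 inferInstance, (commutator_comm _ _).le, le_rfl, h9]
  have h9 : ∀ g, g ∉ (P : Subgroup G) → χ g = 0 := fun g hg => vanish hχ (fun e => h0 (h8.trans e))
    fun d hd e => by
      obtain ⟨s, hs, h9, h10⟩ : ∃ s, s.Prime ∧ s ∣ orderOf g ∧ s ≠ p := by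
        by_contra! h9
        exact hg ((syl_top_sylow P).le_of_normal (normalizer_eq_top _).ge (K := zpowers g)
          (fun s hs h => h9 s hs (Nat.card_zpowers g ▸ h)) le_top (mem_zpowers g))
      haveI := Fact.mk hs
      have h11 := orderOf_pow_orderOf_div (orderOf_pos g).ne' h9
      obtain ⟨R, hR⟩ := exists_syl s A
      obtain ⟨m, -, hm⟩ := (hR.trans_idx le_top fun t ht h (e : t = s) => h10 (e ▸ (syl_top_sylow P).isPi
        t ht (h.trans (h4 ▸ relIndex_sup_dvd (le_top.trans (normalizer_eq_top _).ge))))).exists_cj_le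
        (Q := zpowers (g ^ (orderOf g / s))) (fun t ht h => (Nat.prime_dvd_prime_iff_eq ht hs).1
          (by rwa [Nat.card_zpowers, h11] at h)) le_top
      have := h7 _ (hR.le (hm (H16.cj_mem (mem_zpowers _)))) (by simpa using ne_one hs h11) _
        (Normal.conj_mem inferInstance d hd m) (by simp [mul_assoc, (Commute.pow_left e _).left_comm])
      simpa using this
  have h10 : x ∉ (P : Subgroup G) ∨ y ∉ (P : Subgroup G) := not_and_or.1 fun e => hqr
    ((key hp.out hq P.isPGroup' hx h1 e.1).trans (key hp.out hr P.isPGroup' hy h2 e.2).symm)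
  refine (h9 _ fun e => ?_).trans (mul_eq_zero.2 (h10.imp (h9 x) (h9 y))).symm
  have h11 : x ∈ (P : Subgroup G) := (QuotientGroup.eq_one_iff x).1 (orderOf_eq_one_iff.1
    (Nat.eq_one_of_dvd_coprimes (Nat.coprime_pow_primes a b hq hr hqr)
      (h1 ▸ orderOf_map_dvd (QuotientGroup.mk' _) x) (by
        have h11 : (x : G ⧸ (P : Subgroup G)) * y = 1 := (QuotientGroup.eq_one_iff (x * y)).2 e
        rw [eq_inv_of_mul_eq_one_left h11, orderOf_inv]
        exact h2 ▸ orderOf_map_dvd (QuotientGroup.mk' _) y)))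
  exact h10.elim (· h11) (· ((mul_mem_cancel_left h11).1 e))

end Cfsg.Agent.S4756
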