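import Cfsg.Statements.S4757
import Cfsg.Agent.H21.MS3

set_option autoImplicit false
open Cfsg

open H17 H15 CF H21
open scoped commutatorElement ComplexConjugate

namespace Cfsg.Agent.S4757

theorem aux {G : Type*} [Group G] [Finite G] {u : G} (hu : u ≠ 1) (S : Finset (G → ℂ))
    (hS : S ⊆ Irr ⊤) (h : ∀ χ ∈ Irr (⊤ : Subgroup G), χ ∉ S → 0 ≤ (χ 1 * χ u).re) :
    ∑ χ ∈ S, (χ 1 * χ u).re ≤ 0 ∧ (∑ χ ∈ S, (χ 1 * χ u).re = 0 →
      ∀ χ ∈ Irr (⊤ : Subgroup G), χ ∉ S → (χ 1 * χ u).re = 0) := by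
  classical
  have h1 := congrArg Complex.re (sum_irr_one_mul (⊤ : Subgroup G) hu)
  rw [Complex.re_sum, ← Finset.sum_sdiff hS, Complex.zero_re] at h1
  have h2 : ∀ χ ∈ Irr ⊤ \ S, 0 ≤ (χ 1 * χ u).re := fun χ hχ =>
    h χ (Finset.mem_sdiff.1 hχ).1 (Finset.mem_sdiff.1 hχ).2
  refine ⟨by linarith [Finset.sum_nonneg h2], fun h3 χ a b => ?_⟩
  exact (Finset.sum_eq_zero_iff_of_nonneg h2).1 (by linarith) χ (Finset.mem_sdiff.2 ⟨a, b⟩)

/-- Let u ≠ 1 be an element of the finite group G and c a complex number such that every non-principal irreducible character χ satisfies χ(1) − χ(u) = c or χ(u) = 0. Then the following are equivalent: (a) u has order 2, G is generated by u together with O(G), the largest normal subgroup of G of odd order, and the centralizer of u is {1, u}; (b) G is not perfect; (c) c = 2. -/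
theorem result {G : Type*} [Group G] [Finite G] (u : G) (hu : u ≠ 1) (c : ℂ) (hyp : ∀ χ : Cfsg.IrrCharacter G, (χ : G → ℂ) ≠ (fun _ => (1 : ℂ)) → ((χ : G → ℂ) 1 - (χ : G → ℂ) u = c ∨ (χ : G → ℂ) u = 0)) : ((orderOf u = 2 ∧ Subgroup.zpowers u ⊔ Cfsg.oddCore G = ⊤ ∧ Subgroup.centralizer ({u} : Set G) = Subgroup.zpowers u) ↔ commutator G ≠ ⊤) ∧ (commutator G ≠ ⊤ ↔ c = 2) := by
  classical
  have hyp' : ∀ χ ∈ Irr (⊤ : Subgroup G), χ ≠ one ⊤ → χ u = χ 1 - c ∨ χ u = 0 := fun χ h1 h2 =>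
    (hyp ⟨χ, mem_Irr_top.1 h1⟩ (by rwa [one_top] at h2)).imp_left fun h => by
      rw [← h]; simp
  have hl : ∀ l, IsLin ⊤ l → l ≠ one ⊤ → l u = 1 - c := fun l h1 h2 =>
    h1.one_apply ▸ (hyp' l h1.mem_Irr h2).resolve_right (h1.ne_zero trivial)
  have h1 : (one (⊤ : Subgroup G) 1 * one ⊤ u).re = 1 := by simp [one_top]
  have ab : orderOf u = 2 ∧ Subgroup.zpowers u ⊔ Cfsg.oddCore G = ⊤ ∧
      Subgroup.centralizer ({u} : Set G) = Subgroup.zpowers u → commutator G ≠ ⊤ := by
    rintro ⟨a1, a2, -⟩ h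
    have h2 := H16.der_sup_le (H := Subgroup.zpowers u) (K := oddCore G) (le_top.trans (top_le_norm _))
    rw [sup_comm, a2, H16.der_eq_bot.2 (H16.comm_of_cyclic (H16.cyclic_zpowers u)), sup_bot_eq,
      ← commutator_def, h] at h2
    have h3 := H16.orderOf_dvd_card (h2 (Subgroup.mem_top u))
    exact H1.not_dvd_card_pPrimeCore Nat.prime_two (a1 ▸ h3)
  have bc : commutator G ≠ ⊤ → c = 2 := fun h => by
    obtain ⟨l, a1, -, a2⟩ := exists_lin_not_le (H := ⊤) (N := ⁅(⊤ : Subgroup G), ⊤⁆) le_rfl le_top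
      (A := ⊤) fun h' => h (top_le_iff.1 h')
    have a3 : l ≠ one ⊤ := fun e => a2 (e ▸ (cfker_one _).ge)
    have a4 := hl l a1 a3
    have a5 : conj (l u) = 1 - c := hl _ a1.star (fun e => a3 (star_eq_one_iff.1 e))
    have a6 := a1.mul_conj (Subgroup.mem_top u)
    rw [a5, a4] at a6
    have a7 : c * (c - 2) = 0 := by linear_combination a6
    refine sub_eq_zero.1 ((mul_eq_zero.1 a7).resolve_left ?_)
    rintro rfl
    have := (aux hu {one ⊤} (by simpa using one_mem_Irr _) fun χ b1 b2 => by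
      rcases hyp' χ b1 (by simpa using b2) with h | h
      · rw [h, sub_zero, ← deg_cast b1, ← Nat.cast_mul, Complex.natCast_re]; positivity
      · simp [h]).1
    rw [Finset.sum_singleton, h1] at this
    linarith
  have ca : c = 2 → orderOf u = 2 ∧ Subgroup.zpowers u ⊔ Cfsg.oddCore G = ⊤ ∧
      Subgroup.centralizer ({u} : Set G) = Subgroup.zpowers u := by
    rintro rfl
    have e1 : ∀ χ ∈ Irr (⊤ : Subgroup G), χ ≠ one ⊤ → χ u ≠ 0 →
        (χ 1 * χ u).re = charDegree χ * (charDegree χ - 2) := fun χ b1 b2 b3 => by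
      rw [(hyp' χ b1 b2).resolve_right b3, ← deg_cast b1]
      simp
    have e2 : ∀ χ ∈ Irr (⊤ : Subgroup G), χ ≠ one ⊤ → ¬ IsLin ⊤ χ → 0 ≤ (χ 1 * χ u).re :=
      fun χ b1 b2 b3 => by
        by_cases h : χ u = 0
        · simp [h]
        have b4 := deg_pos b1
        have b5 : charDegree χ ≠ 1 := fun e => b3 (lin_of_deg b1 e)
        have b6 : (2 : ℝ) ≤ charDegree χ := by exact_mod_cast (by omega : 2 ≤ charDegree χ)
        rw [e1 χ b1 b2 h]
        nlinarith
    obtain ⟨l, a1, a2⟩ : ∃ l, IsLin (⊤ : Subgroup G) l ∧ l ≠ one ⊤ := by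
      by_contra hh
      push Not at hh
      have := (aux hu {one ⊤} (by simpa using one_mem_Irr _) fun χ b1 b2 =>
        e2 χ b1 (by simpa using b2) fun h => b2 (by simpa using hh χ h)).1
      rw [Finset.sum_singleton, h1] at this
      linarith
    have a3 : ∀ m, IsLin (⊤ : Subgroup G) m → m ≠ one ⊤ → m = l := fun m b1 b2 => by
      by_contra b3
      have b4 := hl _ (b1.mul a1.star) fun e => b3 (by
        rw [← a1.mul_star, mul_comm m, mul_comm l] at e
        exact a1.star.mul_left_cancel (cf_le_supp _ b1.cf) (cf_le_supp _ a1.cf) e)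
      rw [Pi.mul_apply, Pi.star_apply, hl m b1 b2, hl l a1 a2] at b4
      norm_num at b4
    have a4 : ({one ⊤, l} : Finset (G → ℂ)) ⊆ Irr ⊤ := by
      simp [Finset.insert_subset_iff, one_mem_Irr, a1.mem_Irr]
    have a5 := (aux hu _ a4 fun χ b1 b2 => by
      simp only [Finset.mem_insert, Finset.mem_singleton, not_or] at b2
      exact e2 χ b1 b2.1 fun h => b2.2 (a3 χ h b2.1)).2 (by
        rw [Finset.sum_pair a2.symm, h1, hl l a1 a2, a1.one_apply]; norm_num)
    have a6 : ∀ χ ∈ Irr (⊤ : Subgroup G), χ ∉ ({one ⊤, l} : Finset (G → ℂ)) → χ u = 0 :=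
      fun χ b1 b2 => by
        by_contra b3
        have b4 := a5 χ b1 b2
        simp only [Finset.mem_insert, Finset.mem_singleton, not_or] at b2
        rw [e1 χ b1 b2.1 b3] at b4
        have b5 : (charDegree χ : ℝ) = 2 := sub_eq_zero.1 ((mul_eq_zero.1 b4).resolve_left
          (by exact_mod_cast (deg_pos b1).ne'))
        have b6 : charDegree χ = 2 := by exact_mod_cast b5
        exact b3 (by rw [(hyp' χ b1 b2.1).resolve_right b3, ← deg_cast b1, b6]; simp)
    have a7 := sum_normSq_Irr (Subgroup.mem_top u)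
    rw [← Finset.sum_subset a4 fun χ b1 b2 => by simp [a6 χ b1 b2], Finset.sum_pair a2.symm,
      hl l a1 a2, one_of_mem (Subgroup.mem_top u), top_inf_eq] at a7
    have a8 : Nat.card 𝒞₁(u) = 2 := by
      have : (Nat.card 𝒞₁(u) : ℝ) = 2 := by rw [← a7]; norm_num
      exact_mod_cast this
    have a9 := H16.zpowers_eq_of_prime (a8 ▸ Nat.prime_two) (H16.cent1_self u) hu
    have b1 : orderOf u = 2 := by rw [← H16.card_zpowers, a9, a8]
    refine ⟨b1, ?_, a9.symm⟩
    set D := ⁅(⊤ : Subgroup G), (⊤ : Subgroup G)⁆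
    have b2 : u ∉ D := fun h => by
      have := a1.mem_cfker.1 (a1.commutator_le h)
      rw [hl l a1 a2] at this
      norm_num at this
    have b3 : D.index = 2 := by
      rw [← Subgroup.relIndex_top_right, ← card_IrrQ_of_comm le_rfl le_top, ← Finset.card_pair a2.symm]
      congr 1
      ext m
      rw [← isLin_iff_IrrQ, Finset.mem_insert, Finset.mem_singleton]
      exact ⟨fun h => or_iff_not_imp_left.2 (a3 m h), fun h => h.elim (· ▸ isLin_one _) (· ▸ a1)⟩
    have b4 : D ≤ oddCore G := by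
      have := Fact.mk Nat.prime_two
      have c1 : IsPGroup 2 (Subgroup.zpowers u) :=
        IsPGroup.of_card (n := 1) (by rw [H16.card_zpowers, b1, pow_one])
      have c2 := H3.card_modEq_card_inf_centralizer c1 (le_top.trans (top_le_norm D))
      rw [H16.cent_zpowers, ← a9, inf_comm, H16.inf_bot_of_prime (by
        rw [H16.card_zpowers, b1]; exact Nat.prime_two) (fun h => b2 (h (Subgroup.mem_zpowers u))),
        Subgroup.card_bot] at c2
      exact H1.le_pPrimeCore (by rw [Nat.Coprime, c2.gcd_eq]; simp)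
    have b5 : IsCoatom D := H9.isCoatom_of_index_eq_prime (hp := ⟨Nat.prime_two⟩) b3
    refine top_le_iff.1 ((H9.sup_zpowers_eq_top_of_isCoatom b5 b2).ge.trans ?_)
    rw [sup_comm]
    exact sup_le_sup_left b4 _
  exact ⟨⟨ab, fun h => ca (bc h)⟩, bc, fun h => ab (ca h)⟩

end Cfsg.Agent.S4757
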