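import Cfsg.Statements.S4758
import Cfsg.Agent.H18.Bz3
import Cfsg.Agent.S4757

set_option autoImplicit false
open Cfsg

namespace Cfsg.Agent.S4758



/-- Let u ≠ 1 be an element of the finite group G such that every non-principal irreducible character χ satisfies χ(1) − χ(u) = 4 or χ(u) = 0. Then O(G), the largest normal subgroup of odd order, is abelian, and either G ⧸ O(G) ≅ PSL₂(5) and u is an involution, or G ⧸ O(G) ≅ SL₂(5) and u has order 4. -/
theorem result {G : Type*} [Group G] [Finite G] (u : G) (hu : u ≠ 1) (hyp : ∀ χ : Cfsg.IrrCharacter G, (χ : G → ℂ) ≠ (fun _ => (1 : ℂ)) → ((χ : G → ℂ) 1 - (χ : G → ℂ) u = 4 ∨ (χ : G → ℂ) u = 0)) : IsMulCommutative ↥(Cfsg.oddCore G) ∧ ((Nonempty (G ⧸ Cfsg.oddCore G ≃* Matrix.ProjectiveSpecialLinearGroup (Fin 2) (ZMod 5)) ∧ orderOf u = 2) ∨ (Nonempty (G ⧸ Cfsg.oddCore G ≃* Matrix.SpecialLinearGroup (Fin 2) (ZMod 5)) ∧ orderOf u = 4)) := by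
  refine H18.Bz.Hy.final ⟨hu, ?_, fun χ h1 h2 => (hyp ⟨χ, CF.mem_Irr_top.1 h1⟩ h2).imp_left fun h => by
    rw [← h]; simp⟩
  by_contra h
  have := (Cfsg.Agent.S4757.result u hu 4 hyp).2.1 h
  norm_num at this

end Cfsg.Agent.S4758
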