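import Cfsg.Statements.S4762
import Cfsg.Agent.H21.PG1

set_option autoImplicit false
open Cfsg

open H17 H15 CF H21

namespace Cfsg.Agent.S4762

theorem aux {G : Type*} [Group G] [Finite G] [DecidableEq (G → ℂ)] {p : ℕ} [hp : Fact p.Prime] (hG : IsPGroup p G)
    {χ : G → ℂ} : χ ∈ Irr ⊤ \ IrrQ ⊤ (commutator G) ↔ χ ∈ Irr ⊤ ∧ p ∣ charDegree χ := by
  rw [Finset.mem_sdiff, mem_IrrQ]
  refine and_congr_right fun h => ?_
  obtain ⟨n, hn⟩ := IsPGroup.iff_card.1 hG
  obtain ⟨i, -, hi⟩ := (Nat.dvd_prime_pow hp.out).1 (by simpa [hn] using deg_dvd_card h)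
  rw [and_iff_right h, ← deg_eq_one_iff h, hi]
  cases i <;> simp [hp.out.ne_one, pow_succ]

/-- Let p be a prime and G a finite nilpotent group. Then G has exactly one irreducible complex character of degree divisible by p if and only if p = 2 and G is an extraspecial 2-group. -/
theorem result {G : Type*} [Group G] [Finite G] [Group.IsNilpotent G] (p : ℕ) [Fact p.Prime] : Nat.card {χ : Cfsg.IrrCharacter G // p ∣ Cfsg.charDegree (χ : G → ℂ)} = 1 ↔ (p = 2 ∧ Cfsg.IsExtraspecial 2 G) := by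
  classical
  have hp : p.Prime := Fact.out
  have hs := Finset.sum_sdiff (f := fun χ => charDegree χ ^ 2)
    (IrrQ_subset (⊤ : Subgroup G) (commutator G))
  rw [sum_deg_sq_IrrQ, sum_deg_sq', Subgroup.card_top, ← (commutator G).card_mul_index] at hs
  have h0 := (commutator G).index_ne_zero_of_finite
  rw [Nat.card_eq_one_iff_exists]
  constructor
  · rintro ⟨⟨⟨χ, hχ⟩, h1⟩, h2⟩
    replace hχ := mem_Irr_top.2 hχ
    replace h2 : ∀ ψ ∈ Irr ⊤, p ∣ charDegree ψ → ψ = χ := fun ψ h h' =>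
      congrArg (·.1.1) (h2 ⟨⟨ψ, mem_Irr_top.1 h⟩, h'⟩)
    have hG : IsPGroup p G := by
      have hc : IsComplIn (pCore p G) (pPrimeCore p G) ⊤ := ⟨le_top, le_top, H1.pCore_inf_pPrimeCore p,
        fun m _ => by
          obtain ⟨a, ha, b, hb, e⟩ := Subgroup.mem_sup_of_normal_left.1
            ((H1.pCore_sup_pPrimeCore_eq_top p).ge (Subgroup.mem_top m))
          exact ⟨a, ha, b, hb, e.symm⟩⟩
      have hc' := Subgroup.le_centralizer_iff.1 (H1.pPrimeCore_le_centralizer_pCore (G := G) p)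
      obtain ⟨φ, hφ, ψ, hψ, e⟩ := exists_dp_eq hc hc' hχ
      have hd : ∀ ψ ∈ Irr (pPrimeCore p G), charDegree (dp _ _ φ ψ) = charDegree φ * charDegree ψ :=
        fun ψ hψ => charDegree_eq_of_one (by rw [dp_at_one hc.2.2.1, Nat.cast_mul, deg_cast hφ, deg_cast hψ])
      have h3 : p ∣ charDegree φ := ((Nat.Prime.dvd_mul hp).1 (by rwa [← hd ψ hψ, e])).resolve_right
        fun h => H1.not_dvd_card_pPrimeCore hp (h.trans (deg_dvd_card hψ))
      have h4 : ∀ ψ' ∈ Irr (pPrimeCore p G), ψ' = ψ := fun ψ' h => (dp_inj hc hc' hφ h hφ hψ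
        ((h2 _ (dp_mem_Irr hc hc' hφ h) (hd ψ' h ▸ h3.mul_right _)).trans e.symm)).2
      have h5 := sum_deg_sq' (pPrimeCore p G)
      rw [Finset.eq_singleton_iff_unique_mem.2 ⟨one_mem_Irr _, fun x hx =>
        (h4 x hx).trans (h4 _ (one_mem_Irr _)).symm⟩, Finset.sum_singleton, deg_one] at h5
      rw [← H1.pCore_eq_top_iff, ← H1.pCore_sup_pPrimeCore_eq_top p,
        Subgroup.eq_bot_of_card_eq _ h5.symm, sup_bot_eq]
    rw [Finset.eq_singleton_iff_unique_mem.2 ⟨(aux hG).2 ⟨hχ, h1⟩, fun x hx =>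
      h2 x ((aux hG).1 hx).1 ((aux hG).1 hx).2⟩, Finset.sum_singleton] at hs
    have h3 : charDegree χ ≠ 1 := fun e => hp.not_dvd_one (e ▸ h1)
    obtain ⟨e, he⟩ := Nat.exists_eq_succ_of_ne_zero (Nat.card_pos (α := commutator G)).ne'
    have h4 : p ∣ e + 1 := by
      obtain ⟨_ | b, hb⟩ := H9.card_eq_pow hG (commutator G)
      · exact absurd ((deg_eq_one_iff hχ).2 (Subgroup.eq_bot_of_card_eq _ hb ▸ bot_le)) h3
      · rw [← Nat.succ_eq_add_one, ← he, hb]; exact dvd_pow_self p b.succ_ne_zero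
    obtain ⟨n, hn⟩ := IsPGroup.iff_card.1 hG
    have h5 : e ∣ p ^ (n * 2) := (Dvd.intro (commutator G).index (by rw [he, Nat.succ_mul] at hs; omega) : e ∣ charDegree χ ^ 2).trans
      (by rw [pow_mul]; exact pow_dvd_pow_of_dvd (by simpa [hn] using deg_dvd_card hχ) 2)
    obtain rfl : e = 1 := Nat.Coprime.eq_one_of_dvd (Nat.Coprime.pow_right _
      (Nat.Coprime.coprime_dvd_right h4 (by simp))) h5
    obtain rfl : p = 2 := (Nat.prime_dvd_prime_iff_eq hp Nat.prime_two).1 h4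
    have hZ := H9.le_center_of_card_le_prime hG he.le
    have h6 : commutator G = Subgroup.center G := by
      refine le_antisymm hZ (Subgroup.relIndex_eq_one.1 (mul_right_cancel₀ h0 ?_))
      have := Subgroup.relIndex_mul_index hZ
      rw [← pd_deg he hχ h3 hZ, show charDegree χ ^ 2 = (commutator G).index by
        rw [he] at hs; omega] at this
      rw [this, one_mul]
    refine ⟨rfl, ⟨hG, le_antisymm (H3.frattini_le_of (p := 2) hZ fun x => ?_)
      (h6 ▸ H3.commutator_le_frattini), h6⟩, h6 ▸ he⟩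
    have := pow_mem_center hZ (w := x) fun y => Subgroup.commutator_mem_commutator trivial trivial
    rwa [he] at this
  · rintro ⟨rfl, ⟨hG, -, h1⟩, h2⟩
    rw [← h1] at h2
    rw [Finset.sum_congr rfl (g := fun _ => (commutator G).index) fun χ hχ => by
      rw [h1]; exact pd_deg h2 ((aux hG).1 hχ).1 (fun e => hp.not_dvd_one (e ▸ ((aux hG).1 hχ).2)) h1.le,
      Finset.sum_const, h2, smul_eq_mul] at hs
    obtain ⟨χ, hχ⟩ := Finset.card_eq_one.1 (mul_right_cancel₀ h0 (by omega) : (Irr ⊤ \ IrrQ ⊤ (commutator G)).card = 1)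
    have h3 := (aux hG).1 (hχ.ge (Finset.mem_singleton_self χ))
    exact ⟨⟨⟨χ, mem_Irr_top.1 h3.1⟩, h3.2⟩, fun y => Subtype.ext (Subtype.ext
      (Finset.mem_singleton.1 (hχ.le ((aux hG).2 ⟨mem_Irr_top.2 y.1.2, y.2⟩))))⟩

end Cfsg.Agent.S4762
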