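import Cfsg.Statements.S4763
import Cfsg.Agent.H21.MS3
import Cfsg.Agent.H21.RC3
import Cfsg.Agent.H21.GBr
import Cfsg.Agent.H21.CD6
import Cfsg.Agent.H21.Glau3
import Cfsg.Agent.H17.FrobIrr
import Cfsg.Agent.H8.Cls

set_option autoImplicit false
open Cfsg

open H17 H15 CF H21
open scoped commutatorElement ComplexConjugate

namespace Cfsg.Agent.S4763

theorem card_cls {G : Type*} [Group G] [Finite G] (p : ℕ) [hp : Fact p.Prime] (P : Sylow p G)
    (h : 𝒩((P : Subgroup G)) ≤ 𝒞((P : Subgroup G))) :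
    Nat.card {C : ConjClasses G // ¬ p ∣ Nat.card C.carrier} =
      Nat.card (ConjClasses 𝒞((P : Subgroup G))) := by
  have hP := syl_top_sylow P
  refine card_eq_of_rel' (fun a b => ∃ x : 𝒞((P : Subgroup G)), ConjClasses.mk (x : G) = a.1 ∧
    ConjClasses.mk x = b) ?_ ?_ ?_ ?_
  · rintro ⟨a, ha⟩
    obtain ⟨x, rfl⟩ := ConjClasses.mk_surjective a
    rw [H8.card_carrier_mk] at ha
    obtain ⟨Q, hQ⟩ := exists_syl p 𝒞₁(x)
    have h1 : Syl(p, Q, ⊤) := hQ.trans_idx le_top ((H1.isPiNat_compl_singleton_iff hp.out).2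
      (by rw [Subgroup.relIndex_top_right]; exact (hp.out.coprime_iff_not_dvd.2 ha).symm))
    obtain ⟨m, -, e⟩ := h1.exists_cj_eq hP
    refine ⟨_, ⟨m * x * m⁻¹, ?_⟩, ConjClasses.mk_eq_mk_iff_isConj.2 (isConj_iff.2 ⟨m, rfl⟩).symm, rfl⟩
    rw [← e, ← cj_cent]
    exact conj_mem_cj (le_cent1_iff.1 hQ.le)
  · intro b
    obtain ⟨x, rfl⟩ := ConjClasses.mk_surjective b
    refine ⟨⟨ConjClasses.mk (x : G), fun h => ?_⟩, x, rfl, rfl⟩
    rw [H8.card_carrier_mk] at h
    exact P.not_dvd_index (h.trans (Subgroup.index_dvd_of_le (le_cent1_iff.2 x.2)))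
  · rintro a _ _ ⟨x, h1, rfl⟩ ⟨y, h2, rfl⟩
    obtain ⟨g, hg⟩ := isConj_iff.1 (ConjClasses.mk_eq_mk_iff_isConj.1 (h1.trans h2.symm))
    obtain ⟨n, hn, e⟩ := P.conj_eq_normalizer_conj_of_mem_centralizer x g⁻¹ x.2 (by
      rw [inv_inv, hg]; exact y.2)
    rw [inv_inv, hg] at e
    exact ConjClasses.mk_eq_mk_iff_isConj.2 (isConj_iff.2 ⟨⟨n⁻¹, inv_mem (h hn)⟩, Subtype.ext (by
      simpa using e.symm)⟩)
  · rintro a a' _ ⟨x, h1, rfl⟩ ⟨y, h2, h3⟩
    obtain ⟨g, hg⟩ := isConj_iff.1 (ConjClasses.mk_eq_mk_iff_isConj.1 h3)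
    have : ConjClasses.mk (y : G) = ConjClasses.mk (x : G) :=
      ConjClasses.mk_eq_mk_iff_isConj.2 (isConj_iff.2 ⟨g, congrArg Subtype.val hg⟩)
    exact Subtype.ext (h1.symm.trans (this.symm.trans h2))

/-- Let p be a prime and G a finite group that is not nilpotent and has a normal p-complement (a normal subgroup of order prime to p and index a power of p). If G has exactly one irreducible complex character of degree divisible by p, then G has exactly one conjugacy class whose size is divisible by p. -/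
theorem result {G : Type*} [Group G] [Finite G] (p : ℕ) [Fact p.Prime] (hnil : ¬ Group.IsNilpotent G) (N : Subgroup G) [N.Normal] (hN : (Nat.card N).Coprime p) (hidx : ∃ k : ℕ, N.index = p ^ k) (hone : Nat.card {χ : Cfsg.IrrCharacter G // p ∣ Cfsg.charDegree (χ : G → ℂ)} = 1) : Nat.card {C : ConjClasses G // p ∣ Nat.card C.carrier} = 1 := by
  classical
  have hp : p.Prime := Fact.out
  obtain ⟨P⟩ : Nonempty (Sylow p G) := inferInstance
  have hP := syl_top_sylow P
  obtain ⟨k, hk⟩ := hidx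
  obtain ⟨a, ha⟩ := IsPGroup.iff_card.1 P.2
  have hG : N ⊔ P = ⊤ := by
    rw [sup_comm]
    exact hP.sup_eq_of_idx le_top ((H1.isPiNat_singleton_iff hp (CF.relIndex_pos _ _).ne').2
      ⟨k, by rw [Subgroup.relIndex_top_right, hk]⟩)
  have hn : (P : Subgroup G) ≤ 𝒩(N) := le_top.trans (top_le_norm N)
  have hc : (Nat.card N).Coprime (Nat.card (P : Subgroup G)) := ha ▸ hN.pow_right a
  have hi : N ⊓ P = ⊥ := H16.inf_bot_of_coprime hc
  rw [card_irr_subtype_top _ ((Irr ⊤).filter fun χ => p ∣ charDegree χ) (Finset.filter_subset _ _)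
    fun χ => by simp [mem_Irr_top, χ.2]] at hone
  have hA : IsMulCommutative (P : Subgroup G) := by
    by_contra h
    obtain ⟨χ, h1, h2⟩ : ∃ χ ∈ IrrQ ⊤ N, charDegree χ ≠ 1 := by
      by_contra hh
      push Not at hh
      exact h (H16.der_eq_bot.1 (eq_bot_iff.2 (hi ▸ le_inf ((H16.der_mono le_top).trans
        (der_le_of_deg le_top (top_le_norm N) hh)) (H16.der_le _))))
    obtain ⟨h3, h4⟩ := mem_IrrQ.1 h1
    have h5 : p ∣ charDegree χ := by
      obtain ⟨m, -, e⟩ := (Nat.dvd_prime_pow hp).1 (hk ▸ deg_dvd_index h1)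
      exact e ▸ dvd_pow_self p fun h => h2 (by rw [e, h, pow_zero])
    have hN0 : N ≠ ⊥ := by
      rintro rfl
      rw [bot_sup_eq] at hG
      exact hnil (IsPGroup.isNilpotent (p := p) (IsPGroup.of_card (n := a) (by
        rw [← ha, hG, Subgroup.card_top])))
    obtain ⟨θ, b1, b2⟩ := exists_Irr_not_le (H := N) hN0
    have key : ∀ ψ ∈ IrrO ⊤ N θ, ¬ p ∣ charDegree ψ := fun ψ c1 c2 => by
      obtain ⟨c3, c4⟩ := mem_over.1 c1
      have : ψ = χ := Finset.card_le_one.1 hone.le _ (Finset.mem_filter.2 ⟨c3, c2⟩) _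
        (Finset.mem_filter.2 ⟨h3, h5⟩)
      exact b2 (le_cfker_of_under le_top le_rfl (irr_char c3) b1 c4 (this ▸ h4))
    by_cases h6 : ⊤ ≤ stab θ
    · obtain ⟨ξ, c1, c2⟩ := exists_ext_hall le_top (top_le_norm N) b1 h6 (by
        rw [Subgroup.relIndex_top_right, hk]; exact hN.pow_right k)
      refine key (χ * ξ) (c2 ▸ (gall1_mem le_top (top_le_norm N) (irr_char c1) (c2 ▸ b1)).2
        ⟨χ, h1, rfl⟩) ?_
      rw [deg_mul h3 c1]
      exact h5.mul_right _
    · obtain ⟨ψ, c1⟩ := over_nonempty le_top b1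
      obtain ⟨e, -, -, c2⟩ := deg_clifford le_top (top_le_norm N) b1 c1
      refine key ψ c1 (c2 ▸ (Dvd.dvd.mul_left ?_ _).mul_right _)
      rw [Subgroup.relIndex_top_right]
      obtain ⟨m, -, e⟩ := (Nat.dvd_prime_pow hp).1
        (hk ▸ Subgroup.index_dvd_of_le (le_stab (irr_cf b1)))
      exact e ▸ dvd_pow_self p fun h => h6 (Subgroup.index_eq_one.1 (by rw [e, h, pow_zero])).ge
  have hPC := H16.comm_iff.1 hA
  have e1 : N ⊓ 𝒞((P : Subgroup G)) ⊔ P = 𝒞((P : Subgroup G)) := by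
    rw [← H16.modr hPC (Or.inr hn), hG, top_inf_eq]
  have e2 : 𝒩((P : Subgroup G)) ≤ 𝒞((P : Subgroup G)) := by
    rw [← e1, ← H1.inf_normalizer_eq_inf_centralizer hn hi, ← H16.modr (H16.le_norm _) (Or.inr hn),
      hG, top_inf_eq]
  have e3 := card_coprime_degree hn hc
  have e4 := card_Irr_dp (compl_of_coprime (K := N ⊓ 𝒞((P : Subgroup G))) (S := P)
    (H16.norm_of_cent' inf_le_right) (hc.coprime_dvd_left (H16.card_dvd inf_le_left))) inf_le_right
  rw [hG, card_IrrS (H16.sol_of_comm hA) N hn hc, Finset.filter_true_of_mem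
    (fun _ h => irr_one_of_comm hA h), ← e4, e1, card_Irr, ← card_cls p P e2] at e3
  have e5 := Finset.card_filter_add_card_filter_not (s := Irr (⊤ : Subgroup G))
    fun χ => p ∣ charDegree χ
  have e6 : (Irr (⊤ : Subgroup G)).card = Nat.card (ConjClasses G) := card_Irr_top
  have e7 := Nat.card_congr (Equiv.sumCompl fun C : ConjClasses G => p ∣ Nat.card C.carrier)
  rw [Nat.card_sum] at e7
  have e8 : (Irr (⊤ : Subgroup G)).filter (fun χ => ¬ p ∣ charDegree χ) = (Irr ⊤).filter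
      fun χ => ∃ d : ℕ, χ 1 = (d : ℂ) ∧ d.Coprime (Nat.card (P : Subgroup G)) := by
    refine Finset.filter_congr fun χ hχ => ⟨fun h => ⟨_, (deg_cast hχ).symm,
      ha ▸ (hp.coprime_iff_not_dvd.2 h).symm.pow_right a⟩, fun ⟨d, h1, h2⟩ h => ?_⟩
    rw [charDegree_eq_of_one h1] at h
    have h3 := (deg_dvd_card hχ)
    rw [charDegree_eq_of_one h1, Subgroup.card_top] at h3
    exact hp.one_lt.ne' (Nat.eq_one_of_dvd_coprimes h2 h (P.dvd_card_of_dvd_card (h.trans h3)))
  rw [e8, e3, hone, e6] at e5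
  omega

end Cfsg.Agent.S4763
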