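import Cfsg.Statements.S4765
import Cfsg.Agent.H4.SL2Deg

set_option autoImplicit false
open Cfsg

namespace Cfsg.Agent.S4765

/-- Let F be a finite field of characteristic p with at least 4 elements. Then PSL(2,F) has exactly one irreducible complex character of degree divisible by p, and its degree is the order of F. -/
theorem result (p : ℕ) [Fact p.Prime] (F : Type*) [Field F] [Fintype F] [CharP F p] (hF : 4 ≤ Fintype.card F) : Nat.card {χ : Cfsg.IrrCharacter (Matrix.ProjectiveSpecialLinearGroup (Fin 2) F) // p ∣ Cfsg.charDegree (χ : Matrix.ProjectiveSpecialLinearGroup (Fin 2) F → ℂ)} = 1 ∧ ∀ χ : Cfsg.IrrCharacter (Matrix.ProjectiveSpecialLinearGroup (Fin 2) F), p ∣ Cfsg.charDegree (χ : Matrix.ProjectiveSpecialLinearGroup (Fin 2) F → ℂ) → Cfsg.charDegree (χ : Matrix.ProjectiveSpecialLinearGroup (Fin 2) F → ℂ) = Fintype.card F := by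
  classical
  have : Fintype (Matrix.SpecialLinearGroup (Fin 2) F) := Fintype.ofFinite _
  have hp : p.Prime := Fact.out
  obtain ⟨e, he⟩ := H4.exists_ell_sl (F := F)
  have k1 := H4.not_dvd_card_add_one (F := F) p
  have k2 := H4.not_dvd_card_sub_one (F := F) p
  have key : ∀ χ : Cfsg.IrrCharacter (Matrix.ProjectiveSpecialLinearGroup (Fin 2) F),
      p ∣ Cfsg.charDegree χ.1 → Cfsg.charDegree χ.1 = Fintype.card F ∧
        (fun g : Matrix.SpecialLinearGroup (Fin 2) F => χ.1 g) = H4.sSt F := fun χ h => by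
    rcases H4.sl_irr_deg he (H17.Cfsg.IsIrrCharacter.inflate χ.2) (H4.irr_one_eq χ.2) with
      ⟨k, -⟩ | k | ⟨k, -⟩ | ⟨k, -⟩ | ⟨k, -⟩ | ⟨k, -⟩
    · exact absurd (k ▸ h) hp.not_dvd_one
    · exact k
    · exact absurd (k ▸ h) k1
    · exact absurd (h.trans ⟨1, by omega⟩) k2
    · exact absurd (h.trans ⟨2, by omega⟩) k1
    · exact absurd (h.trans ⟨2, by omega⟩) k2
  refine ⟨Nat.card_eq_one_iff_unique.2 ⟨⟨fun χ ψ => Subtype.ext (Subtype.ext (funext fun g => ?_))⟩,
    ?_⟩, fun χ h => (key χ h).1⟩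
  · obtain ⟨g, rfl⟩ := QuotientGroup.mk_surjective g
    exact congrFun ((key _ χ.2).2.trans (key _ ψ.2).2.symm) g
  · obtain ⟨χ, h⟩ := H4.card_mem_psl_deg (F := F)
    exact ⟨⟨χ, h ▸ H4.char_dvd_card p⟩⟩

end Cfsg.Agent.S4765
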