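import Cfsg.Statements.S4784
import Cfsg.Agent.H21.FS

set_option autoImplicit false
open Cfsg

open H17

namespace Cfsg.Agent.S4784

/-- Let H be a subgroup of the finite group G and consider the permutation character of G on the cosets of H (the function induced from the principal character of H). Then exactly one irreducible constituent of it is real-valued with Frobenius–Schur indicator +1 (namely the principal character) if and only if the normal core of H has odd index in G. -/
theorem result {G : Type*} [Group G] [Fintype G] (H : Subgroup G) : Nat.card {χ : Cfsg.IrrCharacter G // Cfsg.classInner (Cfsg.indFun H (fun _ : H => (1 : ℂ))) (χ : G → ℂ) ≠ 0 ∧ (∀ g : G, (starRingEnd ℂ) ((χ : G → ℂ) g) = (χ : G → ℂ) g) ∧ (Nat.card G : ℂ)⁻¹ * ∑ g : G, (χ : G → ℂ) (g * g) = 1} = 1 ↔ Odd H.normalCore.index := by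
  classical
  have hπ : IsCharacter G (indFun H (fun _ : H => (1 : ℂ))) := isCharacter_one.ind
  have h1 : classInner (indFun H (fun _ : H => (1 : ℂ))) (fun _ => 1) = 1 := by
    rw [classInner_indFun_one, classInner_one_one]
  obtain ⟨ν, h2, h3, h4, -⟩ := H21.exists_nu (G := G)
  have h5 : ν (H21.trivIrr G) = 1 := by
    have := h2 (H21.trivIrr G)
    simp only [H21.trivIrr_apply, Finset.sum_const, Finset.card_univ, ← Nat.card_eq_fintype_card,
      nsmul_eq_mul, mul_one, inv_mul_cancel₀ (card_ne_zero_complex (G := G))] at this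
    exact_mod_cast this.symm
  have hfix : ∀ g ∈ H.normalCore, MulAction.fixedBy (G ⧸ H) g = Set.univ := fun g hg => by
    rw [Subgroup.normalCore_eq_ker] at hg
    exact Set.eq_univ_of_forall fun x => Equiv.congr_fun (MonoidHom.mem_ker.1 hg) x
  have h6 : classInner (indFun H (fun _ : H => (1 : ℂ))) (H21.trivIrr G : G → ℂ) ≠ 0 ∧
      (∀ g : G, (starRingEnd ℂ) ((H21.trivIrr G : G → ℂ) g) = (H21.trivIrr G : G → ℂ) g) ∧
      (Nat.card G : ℂ)⁻¹ * ∑ g : G, (H21.trivIrr G : G → ℂ) (g * g) = 1 :=
    ⟨by rw [H21.trivIrr_coe, h1]; exact one_ne_zero, fun g => by simp [H21.trivIrr_apply],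
      by rw [h2, h5, Int.cast_one]⟩
  rw [Nat.card_eq_one_iff_exists]
  constructor
  · rintro ⟨χ₀, h7⟩
    by_contra hc
    haveI : Fact (Nat.Prime 2) := ⟨Nat.prime_two⟩
    obtain ⟨q, hq⟩ := exists_prime_orderOf_dvd_card' (G := G ⧸ H.normalCore) 2
      (Nat.not_odd_iff_even.1 hc).two_dvd
    obtain ⟨s, rfl⟩ := QuotientGroup.mk_surjective q
    have hs1 : s ∉ H.normalCore := fun h => by simp [(QuotientGroup.eq_one_iff s).2 h] at hq
    have hs2 : s * s ∈ H.normalCore := by
      rw [← QuotientGroup.eq_one_iff, QuotientGroup.mk_mul, ← pow_two, ← hq, pow_orderOf_eq_one]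
    have h8 : ∑ g : G, Nat.card (MulAction.fixedBy (G ⧸ H) g) <
        ∑ g : G, Nat.card (MulAction.fixedBy (G ⧸ H) (g * g)) := by
      refine Finset.sum_lt_sum (fun g _ => Nat.card_mono (Set.toFinite _) fun x hx => ?_)
        ⟨s, Finset.mem_univ _, ?_⟩
      · rw [MulAction.mem_fixedBy] at hx ⊢
        rw [mul_smul, hx, hx]
      · rw [hfix _ hs2]
        refine Set.ncard_lt_ncard (Set.ssubset_univ_iff.2 fun h => hs1 ?_)
        rw [Subgroup.normalCore_eq_ker]
        exact Equiv.ext fun x => (h ▸ Set.mem_univ x : x ∈ MulAction.fixedBy (G ⧸ H) s)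
    obtain ⟨m, h9, h10⟩ := hπ.exists_coeff
    have h11 : ∑ g : G, Nat.card (MulAction.fixedBy (G ⧸ H) g) = Nat.card G := by
      rw [classInner_one_right, indFun_one_eq_perm, inv_mul_eq_iff_eq_mul₀ card_ne_zero_complex,
        mul_one] at h1
      beta_reduce at h1
      exact_mod_cast h1
    have h12 : ((∑ g : G, Nat.card (MulAction.fixedBy (G ⧸ H) (g * g)) : ℕ) : ℤ) =
        Nat.card G * ∑ χ, m χ * ν χ := by
      have : ((∑ g : G, Nat.card (MulAction.fixedBy (G ⧸ H) (g * g)) : ℕ) : ℂ) =
          Nat.card G * ∑ χ, (m χ : ℂ) * ν χ := by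
        rw [indFun_one_eq_perm] at h10
        simp only [Nat.cast_sum, congrFun h10, Finset.sum_apply, Pi.smul_apply, smul_eq_mul, ← h2]
        rw [Finset.sum_comm, Finset.mul_sum]
        refine Finset.sum_congr rfl fun χ _ => ?_
        rw [← Finset.mul_sum, mul_left_comm, mul_inv_cancel_left₀ card_ne_zero_complex]
      exact_mod_cast this
    have h13 : ∑ χ, m χ * ν χ ≤ 1 := by
      rw [← Finset.add_sum_erase _ _ (Finset.mem_univ (H21.trivIrr G)), h5]
      have h14 : m (H21.trivIrr G) = 1 := by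
        have := h9 (H21.trivIrr G)
        rw [H21.trivIrr_coe, h1] at this
        exact_mod_cast this.symm
      rw [h14, Nat.cast_one, one_mul, add_le_iff_nonpos_right]
      refine Finset.sum_nonpos fun χ hχ => ?_
      rcases h3 χ with h | h | h
      · simp [h]
      · by_cases h15 : m χ = 0
        · simp [h15]
        refine absurd (congrArg Subtype.val ((h7 ⟨χ, ?_, fun g => ?_, ?_⟩).trans
          (h7 ⟨_, h6⟩).symm)) (Finset.ne_of_mem_erase hχ)
        · rw [h9]; exact Nat.cast_ne_zero.2 h15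
        · exact Complex.conj_eq_iff_im.2 ((h4 χ).1 (by simp [h]) g)
        · rw [h2, h, Int.cast_one]
      · simp [h]
    have h14 := mul_le_mul_of_nonneg_left h13 (Nat.cast_nonneg (α := ℤ) (Nat.card G))
    rw [← h12, mul_one, Nat.cast_le] at h14
    omega
  · refine fun ho => ⟨⟨_, h6⟩, fun χ => Subtype.ext (H21.eq_trivIrr_iff.2 ?_)⟩
    obtain ⟨ψ, hψ, e⟩ := χ.1.2.exists_quotient H.normalCore
      (le_trans (fun g hg => hπ.mem_charKer.2 (by
        rw [indFun_one_eq_perm]
        simp only [hfix g hg, hfix 1 (one_mem _)])) (hπ.charKer_le χ.1.2 χ.2.1))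
    rw [e, hψ.eq_one_of_conj_eq ho (funext fun q => by
      obtain ⟨x, rfl⟩ := QuotientGroup.mk_surjective q
      exact (congrArg (starRingEnd ℂ) (congrFun e x)).symm.trans
        ((χ.2.2.1 x).trans (congrFun e x)))]

end Cfsg.Agent.S4784
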