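import Cfsg.Statements.S4796
import Cfsg.Agent.H9.Ch1
import Cfsg.Agent.H16.Not
import Cfsg.Agent.S0039
import Cfsg.Agent.S0034

set_option autoImplicit false
open Cfsg

namespace Cfsg.Agent.S4796

open Subgroup hiding one
open H15 H17 H21 H9

/-- Let G be a finite group with a faithful irreducible complex character χ whose codegree #G / χ(1) is a prime p (for a faithful character the kernel is trivial, so the codegree is #G / χ(1)). Then either G is cyclic of order p, or G is a Frobenius group whose Frobenius kernel has order p: some proper non-trivial subgroup H satisfies H ∩ gHg⁻¹ = 1 for every element g outside H, and the set of elements lying in no conjugate of H, together with the identity, has exactly p elements. -/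
theorem result {G : Type*} [Group G] [Finite G] (χ : Cfsg.IrrCharacter G) (hfaith : ∀ g : G, (χ : G → ℂ) g = (χ : G → ℂ) 1 → g = 1) (p : ℕ) (hp : p.Prime) (hcod : Nat.card G = p * Cfsg.charDegree (χ : G → ℂ)) : (IsCyclic G ∧ Nat.card G = p) ∨ ∃ H : Subgroup G, Cfsg.IsFrobeniusComplement H ∧ Nat.card ↥(Cfsg.frobeniusKernel H) = p := by
  obtain ⟨P, hN, hP, hC, hi⟩ := prime_cod χ.2 hp hcod
  haveI := Fact.mk hp
  by_cases h1 : P = ⊤
  · subst h1
    rw [card_top] at hP
    exact Or.inl ⟨isCyclic_of_prime_card hP, hP⟩
  obtain ⟨H, hH⟩ := exists_right_complement'_of_coprime (N := P)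
    (hP ▸ (Nat.coprime_of_lt_prime index_ne_zero_of_finite hi hp))
  have hP0 : P ≠ ⊥ := fun e => hp.one_lt.ne' (by rw [← hP, e, card_bot])
  have hF := (Cfsg.Agent.S0039.result P H hH hP0 fun e => h1 (by
    simpa [e] using hH.sup_eq_top)).2 fun h hh h1 => by
      refine (H16.eq_bot_or_eq_of_prime (hP ▸ hp) inf_le_left).resolve_right fun e => h1 ?_
      exact (disjoint_def.1 hH.disjoint) (hC (mem_cent.2 fun k hk =>
        mem_centralizer_singleton_iff.1 (e.ge hk).2)) hh
  exact Or.inr ⟨H, hF, by rw [(Cfsg.Agent.S0034.result H hF).1, hH.index_eq_card, hP]⟩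

end Cfsg.Agent.S4796
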