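import Cfsg.Statements.S4797
import Cfsg.Agent.H9.Ch1

set_option autoImplicit false
open Cfsg

namespace Cfsg.Agent.S4797

open Subgroup hiding one
open CF H15 H17 H21 H9

/-- The codegree of an irreducible complex character χ of a finite group G is [G : ker χ] / χ(1), where ker χ is the set of elements at which χ takes the value χ(1). A non-trivial finite group is perfect if and only if no irreducible complex character of it has prime codegree. -/
theorem result {G : Type*} [Group G] [Finite G] [Nontrivial G] : commutator G = ⊤ ↔ ∀ χ : Cfsg.IrrCharacter G, ¬ ((Nat.card G / (Nat.card {g : G // (χ : G → ℂ) g = (χ : G → ℂ) 1} * Cfsg.charDegree (χ : G → ℂ)))).Prime := by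
  refine ⟨fun h χ hp => ?_, fun h => by_contra fun hc => ?_⟩
  · haveI := χ.2.isCharacter.charKer_normal
    obtain ⟨ψ, h1, -, -, h4⟩ := exists_faithful_quot χ.2
    obtain ⟨P, hN, hP, hC, -⟩ := prime_cod h1 hp (h4 ▸ index_eq_cod χ.2)
    haveI := Fact.mk hp
    have h2 : _root_.commutator (G ⧸ charKer (χ : G → ℂ)) = ⊤ := by
      have := congrArg (map (QuotientGroup.mk' (charKer (χ : G → ℂ)))) h
      rwa [_root_.commutator_def, map_commutator,
        map_top_of_surjective _ (QuotientGroup.mk'_surjective _)] at this
    have h3 := commutator_le_centralizer_of_isCyclic P (isCyclic_of_prime_card hP)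
    rw [h2] at h3
    obtain rfl : P = ⊤ := top_le_iff.1 (h3.trans hC)
    have h5 := le_cent_iff_comm.1 h3
    rw [← _root_.commutator_def, h2] at h5
    exact hp.one_lt.ne' (by rw [← hP, h5, card_bot])
  · obtain ⟨M, hM, hle⟩ := H1.exists_coatom_ge hc
    haveI : M.Normal := ⟨fun a ha g => by
      simpa [commutatorElement_def] using mul_mem (hle (commutator_mem_commutator (mem_top g)
        (mem_top a))) ha⟩
    obtain ⟨χ, h1, h2, h3⟩ := exists_lin_not_le (H := ⊤) hle le_top (A := ⊤)
      fun e => hM.1 (top_le_iff.1 e)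
    have hχ := mem_Irr_top.1 h1.mem_Irr
    have h4 := index_eq_cod hχ
    have h5 : charKer χ = M := ((hM.le_iff.1 h2).resolve_left fun e => h3 e.ge)
    rw [charDegree_eq_of_one (χ := χ) (n := 1) (by rw [h1.one_apply, Nat.cast_one]), mul_one,
      h5] at h4
    refine h ⟨χ, hχ⟩ ?_
    rw [charDegree_eq_of_one (χ := χ) (n := 1) (by rw [h1.one_apply, Nat.cast_one]), ← h4]
    exact index_prime_of_coatom hM

end Cfsg.Agent.S4797
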