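import Cfsg.Statements.S4798
import Cfsg.Agent.H19.Idem
import Cfsg.Agent.H17.Central

set_option autoImplicit false
open Cfsg

namespace Cfsg.Agent.S4798
open H17 H19

/-- Let p be a prime and χ a faithful irreducible complex character of the finite group G (χ(g) = χ(1) only for g = 1), so that its codegree is #G / χ(1). Then #G / χ(1) is a power of p if and only if χ is induced from a character of a Sylow p-subgroup of G. -/
theorem result {G : Type*} [Group G] [Fintype G] (p : ℕ) [Fact p.Prime] (χ : Cfsg.IrrCharacter G) (hfaith : ∀ g : G, (χ : G → ℂ) g = (χ : G → ℂ) 1 → g = 1) : (∃ k : ℕ, Nat.card G = p ^ k * Cfsg.charDegree (χ : G → ℂ)) ↔ ∃ (P : Sylow p G) (θ : ↥(P : Subgroup G) → ℂ), Cfsg.IsCharacter ↥(P : Subgroup G) θ ∧ (χ : G → ℂ) = Cfsg.indFun (P : Subgroup G) θ := by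
  have hp : p.Prime := Fact.out
  constructor
  · rintro ⟨k, hk⟩
    obtain ⟨P⟩ : Nonempty (Sylow p G) := inferInstance
    have := Fintype.ofFinite (P : Subgroup G)
    obtain ⟨a, ha⟩ := P.isPGroup'.exists_card_eq
    have h1 := (P : Subgroup G).card_mul_index
    have h2 := P.not_dvd_index
    rw [ha, hk] at h1
    obtain ⟨j, rfl⟩ := Nat.exists_eq_add_of_le ((Nat.pow_dvd_pow_iff_le_right hp.one_lt).1
      ((((Nat.Prime.coprime_iff_not_dvd hp).2 h2).pow_left k).dvd_of_dvd_mul_right ⟨_, h1⟩))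
    rw [pow_add, mul_assoc, mul_right_inj' (pow_ne_zero _ hp.ne_zero)] at h1
    obtain ⟨m, h3, h4⟩ := (χ.2.isCharacter.restrict (P : Subgroup G)).exists_coeff
    have h5 : charDegree (χ : G → ℂ) = ∑ θ, m θ * charDegree θ.1 := by
      have := congrFun h4 1
      simp only [OneMemClass.coe_one, Finset.sum_apply, Pi.smul_apply, smul_eq_mul, ← cast_deg] at this
      exact_mod_cast this
    obtain ⟨θ, h6, h7⟩ : ∃ θ, m θ ≠ 0 ∧ ¬ p ^ (j + 1) ∣ charDegree θ.1 := by
      by_contra! h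
      refine h2 ((Nat.mul_dvd_mul_iff_left (pow_pos hp.pos j)).1 ?_)
      rw [h1, h5, ← pow_succ]
      refine Finset.dvd_sum fun θ _ => ?_
      by_cases c : m θ = 0
      exacts [by simp [c], (h θ c).mul_left _]
    obtain ⟨s, -, hs⟩ := (Nat.dvd_prime_pow hp).1 (ha ▸ θ.2.degree_dvd_card (cast_deg θ).symm)
    have h8 : classInner (indFun (P : Subgroup G) θ.1) χ ≠ 0 := by
      rw [frobenius_reciprocity _ (irr_class χ), Ne, classInner_eq_zero_comm, h3]
      exact_mod_cast h6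
    have h9 := θ.2.isCharacter.ind.irr_degree_le χ.2 h8
    refine ⟨P, θ, θ.2.isCharacter, (θ.2.isCharacter.ind.eq_irr_of_degree χ.2 h8 ?_).symm⟩
    rw [indFun_one, ← cast_deg, ← cast_deg, ← h1, hs, ← Nat.cast_mul] at h9 ⊢
    rw [hs, Nat.pow_dvd_pow_iff_le_right hp.one_lt] at h7
    rw [le_antisymm (by exact_mod_cast h9 : p ^ j * _ ≤ _ * p ^ s) ((mul_comm _ _).trans_le
      (Nat.mul_le_mul_right _ (Nat.pow_le_pow_right hp.pos (by omega))))]
  · rintro ⟨P, θ, h1, h2⟩
    obtain ⟨n, hn⟩ := h1.exists_nat_one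
    obtain ⟨c, hc⟩ := (h1.isIrr_of_ind (h2 ▸ χ.2)).degree_dvd_card hn
    obtain ⟨a, ha⟩ := P.isPGroup'.exists_card_eq
    obtain ⟨k, -, rfl⟩ := (Nat.dvd_prime_pow hp).1 (ha ▸ Dvd.intro_left _ hc.symm)
    refine ⟨k, ?_⟩
    rw [charDegree_natCast (n := (P : Subgroup G).index * n) (by rw [h2, indFun_one, hn, Nat.cast_mul]),
      ← (P : Subgroup G).card_mul_index, hc]
    ring

end Cfsg.Agent.S4798
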