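import Cfsg.Statements.S4801
import Cfsg.Agent.H19.Idem
import Cfsg.Agent.H9.Ch1

set_option autoImplicit false
open Cfsg

namespace Cfsg.Agent.S4801
open H17 H19

/-- The codegree of an irreducible complex character χ of a finite group G is [G : ker χ] / χ(1), where ker χ is the set of elements at which χ takes the value χ(1). Let S be a finite simple group and G a finite group such that every codegree of an irreducible character of S is a codegree of an irreducible character of G. Then the order of S divides the order of G. -/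
theorem result {S : Type*} [Group S] [Finite S] (hS : IsSimpleGroup S) {G : Type*} [Group G] [Finite G] (hsub : ∀ χ : Cfsg.IrrCharacter S, ∃ ψ : Cfsg.IrrCharacter G, (Nat.card S / (Nat.card {g : S // (χ : S → ℂ) g = (χ : S → ℂ) 1} * Cfsg.charDegree (χ : S → ℂ))) = (Nat.card G / (Nat.card {g : G // (ψ : G → ℂ) g = (ψ : G → ℂ) 1} * Cfsg.charDegree (ψ : G → ℂ)))) : Nat.card S ∣ Nat.card G := by
  rcases Nat.eq_zero_or_pos (Nat.card G) with h | h
  · simp [h]
  refine (Nat.factorization_prime_le_iff_dvd Nat.card_pos.ne' h.ne').1 fun p hp => ?_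
  by_cases h0 : p ∣ Nat.card S
  swap
  · simp [Nat.factorization_eq_zero_of_not_dvd h0]
  obtain ⟨χ, h1, h2⟩ : ∃ χ : IrrCharacter S, χ ≠ ⟨_, isIrr_one⟩ ∧ ¬ p ∣ charDegree (χ : S → ℂ) := by
    classical
    by_contra! c
    have h1 : ∑ χ : IrrCharacter S, charDegree (χ : S → ℂ) ^ 2 = Nat.card S := by
      have := sum_irr_sq (G := S)
      simp only [← cast_deg] at this
      exact_mod_cast this
    rw [← h1, ← Finset.add_sum_erase _ _ (Finset.mem_univ ⟨_, isIrr_one⟩), Nat.dvd_add_left
      (Finset.dvd_sum fun χ hχ => (c χ (Finset.ne_of_mem_erase hχ)).trans (dvd_pow_self _ two_ne_zero)),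
      charDegree_natCast (n := 1) (by simp)] at h0
    exact hp.one_lt.ne' (Nat.dvd_one.1 h0)
  obtain ⟨ψ, h3⟩ := hsub χ
  have h4 := H9.index_eq_cod χ.2
  have h5 := H9.index_eq_cod ψ.2
  rw [χ.2.charKer_eq_bot_of_simple fun e => h1 (Subtype.ext e), Subgroup.index_bot, h3] at h4
  have h6 := (Dvd.intro _ h5.symm).trans (Subgroup.index_dvd_card _)
  rw [h4, Nat.factorization_mul (ne_zero_of_dvd_ne_zero h.ne' h6) (deg_ne_zero χ), Finsupp.add_apply,
    Nat.factorization_eq_zero_of_not_dvd h2, add_zero]
  exact (Nat.factorization_prime_le_iff_dvd (ne_zero_of_dvd_ne_zero h.ne' h6) h.ne').2 h6 p hp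

end Cfsg.Agent.S4801
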