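import Cfsg.Statements.S4802
import Cfsg.Agent.H21.Basic

set_option autoImplicit false
open Cfsg

open H17 H21

namespace Cfsg.Agent.S4802

/-- Let N < M be normal subgroups of the finite group G and g ∈ M ∖ N. Then the conjugacy class of g is exactly M ∖ N if and only if every irreducible complex character of G whose kernel contains N takes the same value at all elements of M ∖ N, and every irreducible complex character of G whose kernel does not contain N vanishes at g. -/
theorem result {G : Type*} [Group G] [Finite G] (N M : Subgroup G) [N.Normal] [M.Normal] (hNM : N < M) (g : G) (hgM : g ∈ M) (hgN : g ∉ N) : {h : G | IsConj g h} = (M : Set G) \ (N : Set G) ↔ ((∀ χ : Cfsg.IrrCharacter G, (∀ x ∈ N, (χ : G → ℂ) x = (χ : G → ℂ) 1) → ∀ x ∈ M, x ∉ N → ∀ y ∈ M, y ∉ N → (χ : G → ℂ) x = (χ : G → ℂ) y) ∧ (∀ χ : Cfsg.IrrCharacter G, (∃ x ∈ N, (χ : G → ℂ) x ≠ (χ : G → ℂ) 1) → (χ : G → ℂ) g = 0)) := by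
  classical
  have := Fintype.ofFinite G
  have hM : M.Normal := inferInstance
  have hN : N.Normal := inferInstance
  constructor
  · intro h
    have h1 : ∀ x ∈ M, x ∉ N → IsConj g x := fun x hx hx' => by
      have : x ∈ (M : Set G) \ (N : Set G) := ⟨hx, hx'⟩
      rwa [← h] at this
    refine ⟨fun χ _ x hx hx' y hy hy' => ?_, fun χ hχ => ?_⟩
    · rw [← χ.2.isClassFunction.of_isConj (h1 x hx hx'),
        ← χ.2.isClassFunction.of_isConj (h1 y hy hy')]
    · have h2 := sum_coset_eq_zero χ.2 N hχ g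
      have h3 : ∀ n : N, (χ : G → ℂ) (n * g) = (χ : G → ℂ) g := fun n =>
        (χ.2.isClassFunction.of_isConj (h1 _ (M.mul_mem (hNM.le n.2) hgM)
          (fun hn => hgN (by simpa using N.mul_mem (N.inv_mem n.2) hn)))).symm
      simp only [h3, Finset.sum_const, Finset.card_univ, nsmul_eq_mul] at h2
      exact (mul_eq_zero.1 h2).resolve_left (by exact_mod_cast Fintype.card_ne_zero)
  · rintro ⟨h1, h2⟩
    ext x
    constructor
    · intro hx
      obtain ⟨c, rfl⟩ := isConj_iff.1 hx
      exact ⟨hM.conj_mem _ hgM c, fun hn => hgN (by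
        simpa [mul_assoc] using hN.conj_mem _ hn c⁻¹)⟩
    · rintro ⟨hx, hx'⟩
      apply isConj_of_zero_or_eq
      intro χ
      by_cases hχ : ∀ x ∈ N, (χ : G → ℂ) x = (χ : G → ℂ) 1
      · exact Or.inr (h1 χ hχ g hgM hgN x hx hx')
      · push Not at hχ
        exact Or.inl (h2 χ hχ)

end Cfsg.Agent.S4802
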