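import Cfsg.Statements.S4807
import Cfsg.Agent.H21.MK5

set_option autoImplicit false
open Cfsg

open H17 H15 CF H21 Subgroup

namespace Cfsg.Agent.S4807

/-- Let p be a prime and G a finite p-solvable group, L a normal subgroup of G, S a Sylow p-subgroup of G and P the subgroup generated by L and S (so P/L is a Sylow p-subgroup of G/L), and let ν be an irreducible complex character of L that is invariant under conjugation by every element of P. Let N be the normalizer of P in G (it contains L). Then the number of irreducible characters of G of degree prime to p lying over ν (restriction to L not orthogonal to ν) equals the number of irreducible characters of N of degree prime to p lying over ν. -/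
theorem result {G : Type*} [Group G] [Finite G] (p : ℕ) [Fact p.Prime] (hG : Cfsg.IsPSolvable p G) (L : Subgroup G) [L.Normal] (S : Sylow p G) (P : Subgroup G) (hP : P = L ⊔ (S : Subgroup G)) (hLN : L ≤ (Subgroup.normalizer ((P : Subgroup G) : Set G))) (ν : Cfsg.IrrCharacter ↥L) (hν : ∀ x ∈ P, Cfsg.IsConjCharOf L x (ν : ↥L → ℂ) (ν : ↥L → ℂ)) : Nat.card {χ : Cfsg.IrrCharacter G // ¬ p ∣ Cfsg.charDegree (χ : G → ℂ) ∧ (∑ᶠ l : ↥L, (χ : G → ℂ) (l : G) * (starRingEnd ℂ) ((ν : ↥L → ℂ) l)) ≠ 0} = Nat.card {ψ : Cfsg.IrrCharacter ↥(Subgroup.normalizer ((P : Subgroup G) : Set G)) // ¬ p ∣ Cfsg.charDegree (ψ : ↥(Subgroup.normalizer ((P : Subgroup G) : Set G)) → ℂ) ∧ (∑ᶠ l : ↥L, (ψ : ↥(Subgroup.normalizer ((P : Subgroup G) : Set G)) → ℂ) (Subgroup.inclusion hLN l) * (starRingEnd ℂ) ((ν : ↥L → ℂ) l)) ≠ 0} := by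
  subst hP
  have hn : ⊤ ≤ 𝒩(L) := top_le_norm L
  have h := mckay_rel hG le_top hn (syl_top_sylow S) (ext0_irr ν) ((inv_iff_stab (le_top.trans hn)
    (ν : L → ℂ)).1 fun s hs g g' e => hν s (mem_sup_right hs) g g' e)
  rw [top_inf_eq] at h
  have key : ∀ χ : G → ℂ, dot L χ (extendByZero L (ν : L → ℂ)) ≠ 0 ↔
      (∑ᶠ l : L, χ l * (starRingEnd ℂ) ((ν : L → ℂ) l)) ≠ 0 := fun χ => by
    rw [dot_ext0_fin, mul_ne_zero_iff, and_iff_right (inv_ne_zero (card_ne L))]
  rw [card_irr_subtype_top _ (IrP p ⊤ L _) (fun χ a => over_subset _ _ _ (Finset.mem_filter.1 a).1)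
    fun χ => ?_, h, card_irr_subtype _ (IrP p _ L _)
      (fun χ a => over_subset _ _ _ (Finset.mem_filter.1 a).1) fun χ => ?_]
  · rw [IrP, Finset.mem_filter, mem_over, key, and_iff_right (ext0_irr χ), and_comm,
      deg_congr (ψ := χ.1) (ext0_of_mem χ.1 (one_mem _))]
    simp only [ext0_of_mem χ.1 (hLN (Subtype.prop _))]
    rfl
  · rw [IrP, Finset.mem_filter, mem_over, key, and_iff_right (mem_Irr_top.2 χ.2), and_comm]

end Cfsg.Agent.S4807
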