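import Cfsg.Statements.S4808
import Cfsg.Agent.H9.Ch1

set_option autoImplicit false
open Cfsg

namespace Cfsg.Agent.S4808

open Subgroup hiding one
open H17 H21 H9

/-- The codegree of an irreducible complex character χ of a finite group G is [G : ker χ] / χ(1), where ker χ is the set of elements at which χ takes the value χ(1). A prime divides the order of G if and only if it divides the codegree of some irreducible complex character of G. -/
theorem result {G : Type*} [Group G] [Finite G] (p : ℕ) (hp : p.Prime) : p ∣ Nat.card G ↔ ∃ χ : Cfsg.IrrCharacter G, p ∣ (Nat.card G / (Nat.card {g : G // (χ : G → ℂ) g = (χ : G → ℂ) 1} * Cfsg.charDegree (χ : G → ℂ))) := by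
  refine ⟨fun h => by_contra fun hc => ?_, fun ⟨χ, h⟩ => h.trans ?_⟩
  · push Not at hc
    haveI := Fact.mk hp
    haveI := Fintype.ofFinite G
    obtain ⟨x, hx⟩ := exists_prime_orderOf_dvd_card' p h
    have h1 : IsConj x 1 := isConj_of_zero_or_eq fun χ => by
      haveI := χ.2.isCharacter.charKer_normal
      obtain ⟨ψ, h1, h2, -, h4⟩ := exists_faithful_quot χ.2
      by_cases h5 : (x : G ⧸ charKer (χ : G → ℂ)) = 1
      · exact Or.inr (by rw [h2, h2, h5, QuotientGroup.mk_one])
      refine Or.inl ((h2 x).trans (dz_vanish h1 (h4 ▸ index_eq_cod χ.2) hp (hc χ) ?_))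
      rw [orderOf_eq_prime (p := p) (by rw [← QuotientGroup.mk_pow, ← hx, pow_orderOf_eq_one]; rfl) h5]
    rw [isConj_one_left.1 h1, orderOf_one] at hx
    exact hp.one_lt.ne hx
  · exact (Dvd.intro _ (index_eq_cod χ.2).symm).trans (index_dvd_card _)

end Cfsg.Agent.S4808
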