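import Cfsg.Statements.S4825
import Cfsg.Agent.H20.Amb
import Cfsg.Agent.H21.CD3
-- import your own Cfsg.Agent.* helpers here

set_option autoImplicit false
open Cfsg

namespace Cfsg.Agent.S4825

open H17


/-- Let p be a prime, G a finite group with Sylow p-subgroup P, M a maximal ideal of the algebraic integers containing p, and B a p-block of G with defect group P. Let N be a normal subgroup of G not containing P and θ an irreducible character of N. Then the number of irreducible characters in B of degree prime to p lying over θ (having θ as a constituent on restriction to N) is either 0 or at least 2, and when p ≤ 3 it is divisible by p. -/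
theorem result {G : Type*} [Group G] [Fintype G] (p : ℕ) [Fact p.Prime] (P : Sylow p G) (M : Ideal Cfsg.AlgInt) (hM : Cfsg.IsPModular p M) (B : Set (Cfsg.IrrCharacter G)) (hB : Cfsg.IsPBlock M B) (hBP : Cfsg.IsDefectGroup p M B P) (N : Subgroup G) [N.Normal] [Fintype N] (hPN : ¬ (P : Subgroup G) ≤ N) (θ : Cfsg.IrrCharacter N) :
    (Nat.card {χ : Cfsg.IrrCharacter G // χ ∈ B ∧ ¬ p ∣ Cfsg.charDegree (χ : G → ℂ) ∧ Cfsg.classInner (fun n : N => (χ : G → ℂ) n) (θ : N → ℂ) ≠ 0} = 0 ∨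
      2 ≤ Nat.card {χ : Cfsg.IrrCharacter G // χ ∈ B ∧ ¬ p ∣ Cfsg.charDegree (χ : G → ℂ) ∧ Cfsg.classInner (fun n : N => (χ : G → ℂ) n) (θ : N → ℂ) ≠ 0}) ∧
    (p ≤ 3 → p ∣ Nat.card {χ : Cfsg.IrrCharacter G // χ ∈ B ∧ ¬ p ∣ Cfsg.charDegree (χ : G → ℂ) ∧ Cfsg.classInner (fun n : N => (χ : G → ℂ) n) (θ : N → ℂ) ≠ 0}) := by
  classical
  obtain ⟨O, hO, _⟩ := H19.exists_over hM
  obtain ⟨β, rfl⟩ := hO.exists_blk hB
  have hp : p.Prime := Fact.out
  have hN : p ∣ N.index := by_contra fun h => hPN fun g hg => (QuotientGroup.eq_one_iff g).1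
    (((H19.isPElt_of_mem P.isPGroup' hg).map (QuotientGroup.mk' N)).eq_one fun e =>
      h (e.trans (orderOf_dvd_natCard _)))
  set t := (CF.stab (extendByZero N θ)).relIndex ⊤ * charDegree (extendByZero N θ)
  have h1 : ((∑ χ with χ ∈ H19.irr β ∧ classInner (fun n : N => (χ : G → ℂ) n) θ ≠ 0,
      charDegree (χ : G → ℂ) ^ 2 : ℕ) : ℂ) = N.index * (t * ∑ n : N,
        blockCoeff (H19.irr β) (n : G)⁻¹ * (θ : N → ℂ) n⁻¹) := by
    have : (N.index : ℂ) = (Nat.card N : ℂ)⁻¹ * Nat.card G := by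
      rw [← N.card_mul_index, Nat.cast_mul, inv_mul_cancel_left₀ card_ne_zero_complex]
    have hG : (Nat.card G : ℂ) ≠ 0 := card_ne_zero_complex
    rw [← Finset.filter_filter, Nat.cast_sum, Finset.sum_congr rfl (g := fun χ : IrrCharacter G =>
      t * ((χ : G → ℂ) 1 * classInner (fun n : N => (χ : G → ℂ) n) θ)) fun χ hχ => by
        obtain ⟨e, -, h2, h3⟩ := H21.deg_clifford le_top (top_le_norm N) (H20.ext_mem_Irr θ)
          (H21.mem_over.2 ⟨CF.mem_Irr_top.2 χ.2, dot_ext0_right N _ _ ▸ (Finset.mem_filter.1 hχ).2⟩)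
        rw [← dot_ext0_right, h2, ← H21.irr_charDegree_cast, h3]; simp only [t]; push_cast; ring,
      Finset.sum_filter_of_ne (fun χ _ h => right_ne_zero_of_mul (right_ne_zero_of_mul h)), this]
    simp only [H19.blockCoeff_eq_sum, classInner_char_right _ θ.2.isCharacter, Finset.mul_sum,
      Finset.sum_mul, inv_inv]
    rw [Finset.sum_comm]
    exact Finset.sum_congr rfl fun _ _ => Finset.sum_congr rfl fun _ _ => by field_simp
  have h2 := (H19.natCast_mem_nonunits_iff (O := O) p _).1 (h1 ▸ H19.nonunits_mul_right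
    ((H19.natCast_mem_nonunits_iff p _).2 hN) (mul_mem (natCast_mem O t) (sum_mem fun n _ =>
      mul_mem (H19.blockCoeff_irr_mem β _) (H19.irr_mem O θ _))))
  rw [← Finset.sum_filter_add_sum_filter_not _ fun χ : IrrCharacter G => p ∣ charDegree (χ : G → ℂ),
    Nat.dvd_add_right (Finset.dvd_sum fun χ hχ => dvd_pow (Finset.mem_filter.1 hχ).2 two_ne_zero),
    Finset.filter_filter, Finset.filter_congr (q := fun χ : IrrCharacter G => χ ∈ H19.irr β ∧
      ¬ p ∣ charDegree (χ : G → ℂ) ∧ classInner (fun n : N => (χ : G → ℂ) n) θ ≠ 0)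
      (fun _ _ => by tauto)] at h2
  rw [Nat.card_eq_fintype_card, Fintype.card_subtype]
  set F := Finset.univ.filter fun χ : IrrCharacter G => χ ∈ H19.irr β ∧
      ¬ p ∣ charDegree (χ : G → ℂ) ∧ classInner (fun n : N => (χ : G → ℂ) n) θ ≠ 0
  have h3 : ∀ χ ∈ F, ¬ p ∣ charDegree (χ : G → ℂ) := fun χ h => (Finset.mem_filter.1 h).2.2.1
  clear_value F
  refine ⟨by_contra fun h => ?_, fun h => ?_⟩
  · obtain ⟨χ, rfl⟩ := Finset.card_eq_one.1 (show F.card = 1 by omega)
    exact h3 χ (by simp) (hp.dvd_of_dvd_pow (by simpa using h2))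
  · rw [Finset.card_eq_sum_ones, ← (Nat.ModEq.sum (fun χ hχ => ?_)).dvd_iff dvd_rfl]
    · exact h2
    have h4 := h3 χ hχ
    have h5 := hp.two_le
    generalize charDegree (χ : G → ℂ) = d at h4
    rw [Nat.ModEq, Nat.pow_mod]
    interval_cases p
    · rw [show d % 2 = 1 by omega]
    · rcases show d % 3 = 1 ∨ d % 3 = 2 by omega with e | e <;> rw [e]

end Cfsg.Agent.S4825
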