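import Cfsg.Statements.S4828
import Cfsg.Agent.H19.Ht5
import Cfsg.Agent.H20.Nil

set_option autoImplicit false
open Cfsg

namespace Cfsg.Agent.S4828
open H17 H19

/-- Let p be a prime, M a maximal ideal of the algebraic integers containing p, and (Q, e) a Brauer pair of the finite group G (Q a p-subgroup, e a block of C_G(Q)). Then (Q, e) is a maximal Brauer pair of some block of G if and only if e contains an irreducible character θ such that θ takes the value θ(1) at every element of Z(Q) = Q ∩ C_G(Q), the p-part of θ(1) times the p-part of the order of Z(Q) equals the p-part of the order of C_G(Q) (θ has defect zero as a character of C_G(Q)/Z(Q)), and every element of N_G(Q) of p-power order that stabilizes e lies in Q·C_G(Q) (the stabilizer of e in N_G(Q) has index prime to p over Q·C_G(Q)). -/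
theorem result {G : Type*} [Group G] [Finite G] (p : ℕ) [Fact p.Prime] (M : Ideal Cfsg.AlgInt) (hM : Cfsg.IsPModular p M) (Q : Subgroup G) (e : Set (Cfsg.IrrCharacter (Subgroup.centralizer (Q : Set G)))) (he : Cfsg.IsBrauerPair p M Q e) :
    (∃ B : Set (Cfsg.IrrCharacter G), Cfsg.IsMaximalBrauerPair p M B Q e) ↔
      ∃ θ ∈ e, (∀ z : Subgroup.centralizer (Q : Set G), (z : G) ∈ Q → (θ : Subgroup.centralizer (Q : Set G) → ℂ) z = (θ : Subgroup.centralizer (Q : Set G) → ℂ) 1) ∧
        (Cfsg.charDegree (θ : Subgroup.centralizer (Q : Set G) → ℂ)).factorization p + (Nat.card ↥(Q ⊓ Subgroup.centralizer (Q : Set G))).factorization p = (Nat.card (Subgroup.centralizer (Q : Set G))).factorization p ∧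
        (∀ g : G, g ∈ Subgroup.normalizer (Q : Set G) → Cfsg.StabilizesBlock (Subgroup.centralizer (Q : Set G)) e g → (∃ k : ℕ, orderOf g = p ^ k) → g ∈ Q ⊔ Subgroup.centralizer (Q : Set G)) := by
  obtain ⟨O, hO, _⟩ := exists_over hM
  obtain ⟨ε, rfl⟩ := hO.exists_blk he.2
  have hQ : IsPGroup p Q := he.1
  have hp := H20.isPair_eA hQ ε
  have hZ : (Q ⊓ H20.cent Q).subgroupOf (H20.cent Q) ≤ Subgroup.center _ := fun z hz =>
    Subgroup.mem_center_iff.2 fun g => Subtype.ext (Subgroup.mem_centralizer_iff.1 g.2 z hz.1).symm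
  have hZp : IsPGroup p ((Q ⊓ H20.cent Q).subgroupOf (H20.cent Q)) :=
    (hQ.to_le inf_le_left).comap_of_injective _ (Subgroup.subtype_injective _)
  have hc : Nat.card ((Q ⊓ H20.cent Q).subgroupOf (H20.cent Q)) = Nat.card (Q ⊓ H20.cent Q : Subgroup G) :=
    Nat.card_congr (Subgroup.subgroupOfEquivOfLe inf_le_right).toEquiv
  have hf := fact_card_add_index (p := p) ((Q ⊓ H20.cent Q).subgroupOf (H20.cent Q))
  rw [hc] at hf
  have hd : IsDef p ε ((Q ⊓ H20.cent Q).subgroupOf (H20.cent Q)) ↔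
      H20.IsDef p (H20.cent Q) (H20.eA _ ε) (Q ⊓ H20.cent Q) := isDef_subgroupOf_iff_H20 inf_le_right
  constructor
  · rintro ⟨B, hB⟩
    obtain ⟨β, ε', rfl, h1, hm⟩ := H20.exists_max_of hO hM hB
    obtain rfl := irr_inj.1 h1
    have h2 := (hm.isDef_centric_iff (H20.PSub.refl _ _ _)).2 fun g hg =>
      inf_le_left.trans (Subgroup.eq_of_le_of_card_ge hg.sc_le (H20.card_sc _ _).ge).ge
    rw [top_inf_eq] at h2
    obtain ⟨θ, h3, h4, h5, -⟩ := (hd.2 h2).irr_of_sup_cent (top_le_iff.1 (le_sup_of_le_right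
      fun g _ => Subgroup.mem_centralizer_iff.2 fun z hz =>
        (Subgroup.mem_center_iff.1 (hZ hz) g).symm))
    refine ⟨θ, h3, fun z hz => apply_eq_of_mem_charKer (h4 ⟨hz, z.2⟩), by rw [← hf, add_comm]; congr 1, fun g g1 g2 g3 => ?_⟩
    have g4 := (H20.nrm_stabilizes_iff ε g).1 ⟨g1, g2⟩
    have h6 := hm.isDef_stab
    rw [top_inf_eq] at h6
    obtain ⟨t, ht, h7⟩ := h6.exists_conj_le_sup (H20.isBlk_eA _ ε)
      (inf_le_left.trans (H20.nrm_le_nrm_cent Q)) (by simpa using hp.cent_le_stab)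
      (H20.mem_fixed_iff_le_stab.2 inf_le_right) (IsPElt.isPGroup_zpowers g3)
      (Subgroup.zpowers_le.2 g4)
    rw [H20.sc_le_iff, H20.sc_sup, H20.sc_eq_of_nrm (inv_mem ht.1),
      H20.sc_eq_of_nrm (H20.nrm_le_nrm_cent Q (inv_mem ht.1))] at h7
    exact h7 (Subgroup.mem_zpowers g)
  · rintro ⟨θ, h1, h2, h3, h4⟩
    have h5 := (central_defect (O := O) hZp hZ (χ := θ)
      (add_right_cancel ((h3.trans hf.symm).trans (add_comm _ _)))).1
    rw [mem_irr.1 h1, hd] at h5
    have a1 : Q ≤ H20.nrm (H20.cent Q) := (H20.le_nrm_self Q).trans (H20.nrm_le_nrm_cent Q)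
    obtain ⟨f, hf⟩ := H20.exists_ind hQ le_top a1 inf_le_right le_top (H20.cent_le_nrm Q)
      (H20.isBlk_eA _ ε)
    obtain ⟨β, rfl⟩ := hf.right.exists_eG
    have h6 : H20.PairOf p ⊤ ⊤ (H20.eG β) Q (H20.eA _ ε) := ⟨hp, le_top,
      (H20.ind_iff_br hQ le_top a1 inf_le_right le_top (H20.cent_le_nrm Q) hf.left hf.right).1 hf⟩
    refine ⟨_, (H20.isMaximalBrauerPair_iff hO hM β ε).2 ⟨h6, h6.isDef_of_br (H20.isPrim_eG β)
      (H20.le_nrm_top _) le_rfl fun R hR r1 r2 => by_contra fun r3 => r1.not_ge ?_⟩⟩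
    rw [top_inf_eq] at r2
    refine hp.le_of_centric (by rwa [top_inf_eq]) hR (fun g hg => ?_) r3
    have := (H20.nrm_stabilizes_iff ε g).2 (r2 hg)
    rw [top_inf_eq]
    exact h4 g this.1 this.2 (isPElt_of_mem hR hg)

end Cfsg.Agent.S4828
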