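import Cfsg.Statements.S4838
import Cfsg.Agent.H9.Ch2

set_option autoImplicit false
open Cfsg

namespace Cfsg.Agent.S4838

open Subgroup H15
open scoped commutatorElement

/-- Let G be a finite group of order greater than 2 with an irreducible character χ nonzero on exactly two conjugacy classes, N the normal p-subgroup of elements where χ is nonzero, and P a Sylow p-subgroup of G. Then (a) for every x outside N the centralizer of x in G has the same order as the centralizer of xN in G/N; (b) the centre of P lies in N, and equals N exactly when P is normal in G; (c) N, viewed inside P, is a term of the upper central series of P. -/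
theorem result {G : Type*} [Group G] [Finite G] (hG : 2 < Nat.card G) (χ : Cfsg.IrrCharacter G) (hχ : Nat.card {C : ConjClasses G // ∃ g ∈ C.carrier, (χ : G → ℂ) g ≠ 0} = 2) (p : ℕ) [Fact p.Prime] (N : Subgroup G) [N.Normal] (hN : ∀ g : G, g ∈ N ↔ (χ : G → ℂ) g ≠ 0) (hNp : IsPGroup p N) (hN1 : N ≠ ⊥) (P : Sylow p G) :
    (∀ x : G, x ∉ N → Nat.card (Subgroup.centralizer ({x} : Set G)) = Nat.card (Subgroup.centralizer ({(x : G ⧸ N)} : Set (G ⧸ N)))) ∧
      ((Subgroup.center ↥(P : Subgroup G)).map (P : Subgroup G).subtype ≤ N ∧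
        ((Subgroup.center ↥(P : Subgroup G)).map (P : Subgroup G).subtype = N ↔ (P : Subgroup G).Normal)) ∧
      (∃ i : ℕ, Subgroup.upperCentralSeries ↥(P : Subgroup G) i = N.subgroupOf (P : Subgroup G)) := by
  obtain ⟨M, h⟩ := H9.exists_gag hG χ.2 hχ
  obtain rfl := h.eq hN
  have hMP : M ≤ P := hNp.le_sylow_of_normal P
  have h1 : (center ↥(P : Subgroup G)).map (P : Subgroup G).subtype ≤ M := by
    rintro _ ⟨z, hz, rfl⟩
    refine h.mem_of_comm hNp P (M := ⊥) (H1.card_lt_of_lt (bot_lt_iff_ne_bot.2 hN1)) fun g hg => ?_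
    exact commutatorElement_eq_one_iff_mul_comm.2
      (congrArg Subtype.val (mem_center_iff.1 hz ⟨g, hg⟩))
  refine ⟨fun x hx => h.card_cent hx, ⟨h1, fun e => ?_, fun hP => le_antisymm h1 (h.le ?_)⟩, ?_⟩
  · obtain ⟨x, hx, hx1⟩ := (bot_or_exists_ne_one M).resolve_left hN1
    obtain ⟨Q, hQ⟩ := h.sylow hNp (h.index_cent hx hx1)
    have h2 : (P : Subgroup G) ≤ 𝒞(M) := fun g hg => mem_cent.2 fun k hk => by
      obtain ⟨z, hz, rfl⟩ := e.ge hk
      exact (congrArg Subtype.val (mem_center_iff.1 hz ⟨g, hg⟩)).symm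
    have h3 : 𝒞(M) ≤ Q := hQ ▸ centralizer_le (Set.singleton_subset_iff.2 hx)
    rw [← P.is_maximal' (Q.isPGroup'.to_le h3) h2]
    infer_instance
  · haveI : Nontrivial P := (nontrivial_iff_ne_bot _).2 fun e => hN1 (le_bot_iff.1 (hMP.trans e.le))
    rw [Ne, map_eq_bot_iff_of_injective _ (P : Subgroup G).subtype_injective, ← Ne,
      ← nontrivial_iff_ne_bot]
    exact P.isPGroup'.center_nontrivial
  haveI := P.isPGroup'.isNilpotent
  by_contra hc
  push Not at hc
  have h2 : ∀ i, Subgroup.upperCentralSeries ↥(P : Subgroup G) i ≤ M.subgroupOf P := fun i => by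
    induction i with
    | zero => exact bot_le
    | succ i ih =>
      intro z hz
      refine h.mem_of_comm hNp P (M := (Subgroup.upperCentralSeries ↥(P : Subgroup G) i).map
        (P : Subgroup G).subtype) (H1.card_lt_of_lt ?_) fun g hg => 
        ⟨⁅(⟨g, hg⟩ : (P : Subgroup G)), z⁆, ?_, rfl⟩
      · rw [← map_subgroupOf_eq_of_le hMP]
        exact map_subtype_lt_map_subtype.2 (lt_of_le_of_ne ih (hc i))
      · rw [← commutatorElement_inv]
        exact inv_mem (Subgroup.mem_upperCentralSeries_succ_iff.1 hz _)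
  obtain ⟨n, hn⟩ := Group.IsNilpotent.nilpotent ↥(P : Subgroup G)
  exact hc n (le_antisymm (h2 n) (hn ▸ le_top))

end Cfsg.Agent.S4838
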