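import Mathlib
import Cfsg.Statements.S4839
import Cfsg.Agent.H8.Gag1
import Cfsg.Agent.S0039
import Cfsg.Agent.S0034

set_option autoImplicit false
open Cfsg

namespace Cfsg.Agent.S4839

open Subgroup

theorem result {G : Type*} [Group G] [Finite G] (hG : 2 < Nat.card G) (χ : Cfsg.IrrCharacter G) (hχ : Nat.card {C : ConjClasses G // ∃ g ∈ C.carrier, (χ : G → ℂ) g ≠ 0} = 2) (p : ℕ) [Fact p.Prime] (N : Subgroup G) [N.Normal] (hN : ∀ g : G, g ∈ N ↔ (χ : G → ℂ) g ≠ 0) (hNp : IsPGroup p N) (hN1 : N ≠ ⊥) :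
    N = Cfsg.pCore p G ↔ ∃ H : Subgroup G, Cfsg.IsFrobeniusComplement H ∧ Cfsg.frobeniusKernel H = (N : Set G) ∧ Nat.card H + 1 = Nat.card N := by
  obtain ⟨M, h⟩ := H9.exists_gag hG χ.2 hχ
  obtain rfl := h.eq hN
  have hp : p.Prime := Fact.out
  obtain ⟨a, ha⟩ := IsPGroup.iff_card.1 hNp
  have ha0 : a ≠ 0 := fun e => hN1 (eq_bot_of_card_eq M (by rw [ha, e, pow_zero]))
  refine ⟨fun hO => ?_, fun ⟨H, hH, hk, hc⟩ => le_antisymm (H1.le_pCore hNp) ?_⟩
  · have hi := H8.gag_index h hNp hO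
    obtain ⟨H, hH⟩ := exists_right_complement'_of_coprime (N := M)
      (ha ▸ (Nat.Coprime.pow_left a ((Nat.Prime.coprime_iff_not_dvd hp).2 hi)))
    have hC : ∀ x ∈ M, x ≠ 1 → centralizer ({x} : Set G) = M := fun x hx h1 =>
      ((hNp.toSylow hi).is_maximal' (H8.gag_cent h hNp hx h1) fun y hy =>
        mem_centralizer_singleton_iff.2 ((H8.gag_elem h hNp).1 _ hy _ hx))
    obtain ⟨x, hx, hx1⟩ := (bot_or_exists_ne_one M).resolve_left hN1
    have h1 := h.index_cent hx hx1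
    rw [hC x hx hx1, hH.symm.index_eq_card] at h1
    have h2 := hH.card_mul
    have hH1 : H ≠ ⊥ := by
      rintro rfl
      rw [card_bot] at h1 h2
      omega
    have hf : ∀ y ∈ H, y ≠ 1 → M ⊓ centralizer {y} = ⊥ := fun y hy h1 =>
      eq_bot_iff.2 fun n hn => by_contra fun hn1 => h1 (disjoint_def.1 hH.disjoint
        (hC n hn.1 hn1 ▸ mem_centralizer_singleton_iff.2
          (mem_centralizer_singleton_iff.1 hn.2).symm) hy)
    have hF := (S0039.result M H hH hN1 hH1).2 hf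
    refine ⟨H, hF, (Set.eq_of_subset_of_ncard_le (fun n hn => ?_) ?_).symm, h1⟩
    · refine (em (n = 1)).imp_right fun hn1 g hg => hn1 ?_
      rw [mem_pointwise_smul_iff_inv_smul_mem] at hg
      have h3 : (MulAut.conj g)⁻¹ • n ∈ M := by
        simpa using h.normal.conj_mem _ hn g⁻¹
      exact ((MulAut.conj g)⁻¹).map_eq_one_iff.1 (disjoint_def.1 hH.disjoint h3 hg)
    · rw [← Nat.card_coe_set_eq, ← Nat.card_coe_set_eq, (S0034.result H hF).1,
        hH.index_eq_card]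
      exact le_rfl
  · have h1 := (S0034.result H hH).1
    rw [hk] at h1
    have h2 : M.index = Nat.card H := by
      have h3 := M.card_mul_index
      rw [← H.index_mul_card, ← h1] at h3
      exact Nat.eq_of_mul_eq_mul_left Nat.card_pos h3
    have hi : ¬ p ∣ M.index := fun e => hp.one_lt.ne' (Nat.dvd_one.1
      ((Nat.dvd_add_right (h2 ▸ e)).1 (hc ▸ ha ▸ dvd_pow_self p ha0)))
    exact (H1.isPGroup_pCore p).le_sylow_of_normal (hNp.toSylow hi)

end Cfsg.Agent.S4839
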