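import Cfsg.Statements.S4840
import Cfsg.Agent.H25.Hup3
import Cfsg.Agent.H25.B2a
import Cfsg.Agent.H3.PComp
import Cfsg.Agent.H1.Cores
import Cfsg.Agent.H17.Ker
import Cfsg.Agent.S0043

set_option autoImplicit false
open Cfsg

namespace Cfsg.Agent.S4840
open H17
open Subgroup H25 Module
open scoped ComplexConjugate IsMulCommutative commutatorElement

theorem lin {p : ℕ} [hp : Fact p.Prime] {V G : Type*} [AddCommGroup V] [Module (ZMod p) V]
    [Finite V] [Nontrivial V] [Group G] [Finite G] [Group.IsSolvable G]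
    {σ : G →* End (ZMod p) V} (hσ : Function.Injective σ) (ht : LTrans σ) {v : V} (hv : v ≠ 0)
    (hs : ∀ g, σ g v = v → ∃ k, g ^ p ^ k = 1) :
    ∃ B : Subgroup G, B.Normal ∧ (Nat.card B).Coprime p ∧ commutator G ≤ B := by
  obtain ⟨k, hk⟩ : ∃ k, Nat.card G = p ^ k * (Nat.card V - 1) := by
    let : MulAction G V := MulAction.compHom V σ
    have h1 : MulAction.orbit G v = Set.univ \ {0} := by
      ext w
      exact ⟨by rintro ⟨g, rfl⟩; exact ⟨trivial, rep_ne_zero σ g hv⟩, fun h => ht v w hv h.2⟩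
    have := MulAction.index_stabilizer G v
    rw [h1, Set.ncard_sdiff_singleton_of_mem (Set.mem_univ _), Set.ncard_univ] at this
    have h2 : IsPGroup p (MulAction.stabilizer G v) := fun g => by
      obtain ⟨k, hk⟩ := hs g.1 g.2
      exact ⟨k, Subtype.ext hk⟩
    obtain ⟨k, hk⟩ := h2.exists_card_eq
    exact ⟨k, by rw [← hk, ← this, card_mul_index]⟩
  obtain ⟨A, h1, h2, h3⟩ := exists_max_abelian_normal (G := G)
  obtain ⟨K, _, _, _, _, hK⟩ := exists_scalar_field _ (ht.inj_of_comm h2)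
  have hK' : ScalF K σ A := hK
  by_cases hI : Irr σ A
  · have : Finite K := finite_scalars K V
    refine ⟨A, h1, ?_, ?_⟩
    · have h4 : Nat.card K = p ^ finrank (ZMod p) K := by
        rw [natCard_eq_pow_finrank (K := ZMod p), Nat.card_zmod]
      refine Nat.Coprime.coprime_dvd_left (hK'.card_dvd hσ) ?_
      have : Module.Finite (ZMod p) K := Module.Finite.of_finite
      refine Nat.Coprime.coprime_dvd_right (k := Nat.card K - 1) (m := Nat.card K)
        (h4 ▸ dvd_pow_self p finrank_pos.ne') ?_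
      exact (Nat.coprime_self_sub_left Nat.card_pos).2 (Nat.coprime_one_left _)
    · obtain ⟨φ, hφ⟩ := hK'.exists_galois
      obtain ⟨κ, -, hκ⟩ := hK'.exists_units hσ
      have hC : centralizer (A : Set G) = A :=
        h3 _ inferInstance (hI.centralizer_comm hσ) (le_centralizer A)
      let := IsCyclic.commGroup (α := K ≃ₐ[ZMod p] K)
      refine (Abelianization.commutator_subset_ker φ).trans fun g hg => hC.le fun a ha => hσ ?_
      ext w
      rw [map_mul, map_mul, End.mul_apply, End.mul_apply, hκ ⟨a, ha⟩, hκ ⟨a, ha⟩, hφ,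
        MonoidHom.mem_ker.1 hg]
      rfl
  obtain ⟨N, r, h⟩ := exists_hup hσ ht h2 hK' hI h3
  obtain ⟨rfl, hC, hA, hc⟩ := h.card_cases ht
  have hA2 := h.dvd_card
  have hN : Nat.card A * A.relIndex N = Nat.card N := by
    rw [← Nat.card_congr (subgroupOfEquivOfLe h.le).toEquiv]; exact card_mul_index _
  have hNG := card_subgroup_dvd_card N
  have hAG := A.card_mul_index
  rcases hc with ⟨e1, e2⟩ | ⟨e1, e2, e3⟩
  · exfalso
    have h4 : Nat.card V = p ^ finrank (ZMod p) V := by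
      rw [natCard_eq_pow_finrank (K := ZMod p), Nat.card_zmod]
    have h5 : p = 3 := by
      have : 3 ∣ p ^ finrank (ZMod p) V := by rw [← h4, e2]; norm_num
      exact ((Nat.prime_dvd_prime_iff_eq Nat.prime_three hp.out).1
        (Nat.prime_three.dvd_of_dvd_pow this)).symm
    subst h5
    have : 32 ∣ 3 ^ k * 80 := by
      rw [e2] at hk
      refine Dvd.dvd.trans ?_ (hk ▸ hNG)
      rw [← hN, e1]; omega
    have := Nat.Coprime.dvd_of_dvd_mul_left (Nat.Coprime.pow_right k (by norm_num)) this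
    omega
  have hi := h.index_le e1 rfl hC
  have hA0 : 0 < p - 1 := by have := hp.out.two_le; omega
  have hAle := Nat.le_of_dvd hA0 hA
  rcases k with _ | k
  · refine ⟨⊤, inferInstance, ?_, le_top⟩
    rw [card_top, hk, pow_zero, one_mul, e2]
    refine Nat.Coprime.coprime_dvd_right (m := p ^ 2) (dvd_pow_self p two_ne_zero) ?_
    exact (Nat.coprime_self_sub_left (pow_pos hp.out.pos 2)).2 (Nat.coprime_one_left _)
  have hle : Nat.card G ≤ (p - 1) * 24 := hAG ▸ Nat.mul_le_mul hAle hi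
  have hk1 : 0 < p ^ k := pow_pos hp.out.pos k
  rw [e2, pow_succ] at hk
  simp only [Set.mem_insert_iff, Set.mem_singleton_iff] at e3
  rcases e3 with rfl | rfl | rfl | rfl | rfl
  · have hN8 : Nat.card N = 8 := by
      have : 0 < Nat.card A := Nat.card_pos
      have : Nat.card A = 2 := by omega
      rw [← hN, this, e1]
    have hk0 : 3 ^ k = 1 := by
      rcases k with _ | k
      · rfl
      · rw [pow_succ] at hk; have := pow_pos (by norm_num : 0 < 3) k; omega
    have := h.nN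
    have hNi := N.card_mul_index
    rw [hN8] at hNi
    refine ⟨N, this, by rw [hN8]; norm_num, ?_⟩
    have : IsCyclic (G ⧸ N) := isCyclic_of_prime_card (p := 3) (by change N.index = 3; omega)
    exact Subgroup.Normal.quotient_commutative_iff_commutator_le.1 inferInstance
  all_goals omega

theorem pair {G : Type*} [Group G] [Finite G] (χ : Cfsg.IrrCharacter G) (hG : 2 < Nat.card G)
    (hχ : Nat.card {C : ConjClasses G // ∃ g ∈ C.carrier, (χ : G → ℂ) g ≠ 0} = 2) :
    ∃ N : Subgroup G, N.Normal ∧ N ≠ ⊥ ∧ (∀ x ∈ N, ∀ y ∈ N, x ≠ 1 → y ≠ 1 → IsConj x y) ∧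
      ∀ g, g ∉ N → ∀ n ∈ N, IsConj g (n * g) := by
  classical
  have := Fintype.ofFinite G
  have hcl := H17.Cfsg.IsIrrCharacter.isClassFunction χ.2
  have h1 := H17.Cfsg.IsIrrCharacter.one_ne_zero χ.2
  obtain ⟨C, hC, hu⟩ := (Nat.card_eq_two_iff' (⟨ConjClasses.mk 1, 1,
    ConjClasses.mem_carrier_mk, h1⟩ : {C : ConjClasses G // ∃ g ∈ C.carrier,
      (χ : G → ℂ) g ≠ 0})).1 hχ
  obtain ⟨x, hx, hx0⟩ := C.2
  have hx1 : x ≠ 1 := fun e => hC (Subtype.ext (by
    rw [← ConjClasses.mem_carrier_iff_mk_eq.1 hx, e]))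
  have hz : ∀ g, g ≠ 1 → (χ : G → ℂ) g ≠ 0 → IsConj x g := fun g hg h0 => by
    have := hu ⟨ConjClasses.mk g, g, ConjClasses.mem_carrier_mk, h0⟩ fun e => hg (by
      simpa [ConjClasses.mk_eq_mk_iff_isConj] using congrArg Subtype.val e)
    exact ConjClasses.mk_eq_mk_iff_isConj.1
      ((ConjClasses.mem_carrier_iff_mk_eq.1 hx).trans (congrArg Subtype.val this).symm)
  set m : ℂ := ((Finset.univ.filter fun g => IsConj x g).card : ℂ) with hm
  have hm0 : m ≠ 0 := Nat.cast_ne_zero.2 (Finset.card_ne_zero.2 ⟨x,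
    Finset.mem_filter.2 ⟨Finset.mem_univ _, IsConj.refl x⟩⟩)
  have key : ∀ ψ, IsIrrCharacter G ψ → ψ ≠ χ →
      ψ 1 * conj ((χ : G → ℂ) 1) + m * (ψ x * conj ((χ : G → ℂ) x)) = 0 := fun ψ hψ hne => by
    have h := H17.Cfsg.IsIrrCharacter.inner_of_ne hψ χ.2 hne
    rw [classInner_def, mul_eq_zero] at h
    have h := h.resolve_left (inv_ne_zero card_ne_zero_complex)
    rw [← h, ← Finset.add_sum_erase _ _ (Finset.mem_univ 1)]
    congr 1
    rw [← Finset.sum_subset (s₁ := Finset.univ.filter fun g => IsConj x g), hm,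
      ← nsmul_eq_mul, ← Finset.sum_const]
    · refine Finset.sum_congr rfl fun g hg => ?_
      have := (Finset.mem_filter.1 hg).2
      rw [hcl.of_isConj this, (H17.Cfsg.IsIrrCharacter.isClassFunction hψ).of_isConj this]
    · intro g hg
      refine Finset.mem_erase.2 ⟨fun e => hx1 ?_, Finset.mem_univ _⟩
      simpa [e] using (Finset.mem_filter.1 hg).2
    · intro g hg hg'
      have : (χ : G → ℂ) g = 0 := by_contra fun h0 => hg' (Finset.mem_filter.2
        ⟨Finset.mem_univ _, hz g (Finset.mem_erase.1 hg).1 h0⟩)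
      rw [this, map_zero, mul_zero]
  by_cases ht : (χ : G → ℂ) = fun _ => 1
  · refine ⟨⊤, inferInstance, fun e => ?_, fun a _ b _ ha hb => ?_, fun g hg => (hg trivial).elim⟩
    · exact hx1 (mem_bot.1 (e ▸ mem_top x))
    · exact (hz a ha (by simp [ht])).symm.trans (hz b hb (by simp [ht]))
  have k1 := key _ isIrr_one (Ne.symm ht)
  have kx : ∀ ψ, IsIrrCharacter G ψ → ψ ≠ χ → ψ x = ψ 1 := fun ψ hψ hne => by
    have k2 := key ψ hψ hne
    have h3 : conj ((χ : G → ℂ) x) ≠ 0 := (map_ne_zero _).2 hx0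
    refine mul_right_cancel₀ (mul_ne_zero hm0 h3) ?_
    linear_combination k2 - ψ 1 * k1
  let N : Subgroup G := ⨅ ψ : {ψ : IrrCharacter G // ψ ≠ χ}, charKer (ψ.1 : G → ℂ)
  have hN : ∀ g, g ∈ N ↔ ∀ ψ, IsIrrCharacter G ψ → ψ ≠ χ → g ∈ charKer ψ := fun g => by
    rw [mem_iInf]
    exact ⟨fun h ψ hψ hne => h ⟨⟨ψ, hψ⟩, fun e => hne (congrArg Subtype.val e)⟩,
      fun h ψ => h ψ.1.1 ψ.1.2 fun e => ψ.2 (Subtype.ext e)⟩
  have hNn : N.Normal := ⟨fun n hn g => (hN _).2 fun ψ hψ hne =>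
    (H17.Cfsg.IsClassFunction.charKer_normal
      (H17.Cfsg.IsIrrCharacter.isClassFunction hψ)).conj_mem _ ((hN _).1 hn ψ hψ hne) g⟩
  have hxN : x ∈ N := (hN x).2 fun ψ hψ hne =>
    (H17.Cfsg.IsIrrCharacter.mem_charKer hψ).2 (kx ψ hψ hne)
  have hN0 : ∀ g ∈ N, (χ : G → ℂ) g ≠ 0 := fun g hg h0 => by
    have hg1 : g ≠ 1 := fun e => h1 (e ▸ h0)
    have s1 := sum_irr_one_mul_of_ne hg1
    have s2 := sum_irr_sq (G := G)
    rw [← Finset.add_sum_erase _ _ (Finset.mem_univ χ)] at s1 s2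
    rw [h0, mul_zero, zero_add, Finset.sum_congr rfl fun ψ hψ => by
      rw [apply_eq_of_mem_charKer ((hN g).1 hg ψ.1 ψ.2 fun e =>
        (Finset.mem_erase.1 hψ).1 (Subtype.ext e)), ← sq]] at s1
    choose d hd0 hd using fun ψ : IrrCharacter G => H17.Cfsg.IsIrrCharacter.exists_pos_one ψ.2
    simp only [hd] at s1
    have s3 : ∑ ψ ∈ Finset.univ.erase χ, d ψ ^ 2 = 0 := by exact_mod_cast s1
    have := Finset.sum_eq_zero_iff.1 s3 ⟨_, isIrr_one⟩
      (Finset.mem_erase.2 ⟨fun e => ht (congrArg Subtype.val e).symm, Finset.mem_univ _⟩)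
    exact (pow_pos (hd0 _) 2).ne' this
  have hoff : ∀ g, g ∉ N → (χ : G → ℂ) g = 0 := fun g hg => by_contra fun h0 => hg (by
    obtain ⟨c, rfl⟩ := isConj_iff.1 (hz g (fun e => hg (e ▸ one_mem N)) h0)
    exact hNn.conj_mem x hxN c)
  refine ⟨N, hNn, fun e => hx1 (mem_bot.1 (e ▸ hxN)), fun a ha b hb a1 b1 =>
    (hz a a1 (hN0 a ha)).symm.trans (hz b b1 (hN0 b hb)), fun g hg n hn =>
      isConj_of_irr_eq fun ψ hψ => ?_⟩
  by_cases e : ψ = χ
  · rw [e, hoff g hg, hoff _ fun h => hg ((mul_mem_cancel_left hn).1 h)]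
  · exact (mem_charKer_def.1 ((hN n).1 hn ψ hψ e) g).symm

/-- Let G be a finite solvable group of order greater than 2 with an irreducible character nonzero on exactly two conjugacy classes. Then there is exactly one prime p with O_p(G) ≠ 1, and the quotient G/O_p(G) has a normal p-complement and commutative Sylow p-subgroups. -/
theorem result {G : Type*} [Group G] [Finite G] [hs : Group.IsSolvable G] (hG : 2 < Nat.card G) (χ : Cfsg.IrrCharacter G) (hχ : Nat.card {C : ConjClasses G // ∃ g ∈ C.carrier, (χ : G → ℂ) g ≠ 0} = 2) :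
    ∃ p : ℕ, p.Prime ∧ (∀ q : ℕ, q.Prime → (Cfsg.pCore q G ≠ ⊥ ↔ q = p)) ∧
      Cfsg.HasNormalPComplement p (G ⧸ Cfsg.pCore p G) ∧ ∀ Q : Sylow p (G ⧸ Cfsg.pCore p G), IsMulCommutative (Q : Subgroup (G ⧸ Cfsg.pCore p G)) := by
  obtain ⟨N, hNn, hN0, hconj, hcam⟩ := pair χ hG hχ
  have hle : ∀ M : Subgroup G, M.Normal → M ≠ ⊥ → N ≤ M := fun M hM h0 n hn => by
    obtain ⟨⟨m, hm⟩, hm1⟩ := ne_bot_iff_exists_ne_one.1 h0
    have hm1' : m ≠ 1 := fun e => hm1 (Subtype.ext e)
    by_cases h : m ∈ N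
    · by_cases e : n = 1
      · exact e ▸ one_mem M
      obtain ⟨c, rfl⟩ := isConj_iff.1 (hconj m h n hn hm1' e)
      exact hM.conj_mem m hm c
    · obtain ⟨c, hc⟩ := isConj_iff.1 (hcam m h n hn)
      exact (mul_mem_cancel_right hm).1 (hc ▸ hM.conj_mem m hm c)
  obtain ⟨hNc, p, hp, hpow⟩ := Cfsg.Agent.S0043.result N hN0 fun M hM h =>
    or_iff_not_imp_left.2 fun h0 => le_antisymm h (hle M hM h0)
  have := Fact.mk hp
  have hNp : IsPGroup p N := fun x => ⟨1, Subtype.ext (by rw [pow_one]; exact hpow _ x.2)⟩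
  have hNO : N ≤ pCore p G := H1.le_pCore hNp
  obtain ⟨⟨x, hx⟩, hx1⟩ := ne_bot_iff_exists_ne_one.1 hN0
  have hx1' : x ≠ 1 := fun e => hx1 (Subtype.ext e)
  have hxo : ∀ y ∈ N, y ≠ 1 → orderOf y = p := fun y hy h => orderOf_eq_prime (hpow y hy) h
  have hcen : ∀ y ∈ N, y ≠ 1 → IsPGroup p (centralizer ({y} : Set G)) := fun y hy h1 => by
    rw [IsPGroup.iff_card]
    refine ⟨_, Nat.eq_prime_pow_of_unique_prime_dvd Nat.card_pos.ne' fun {q} hq hd => ?_⟩
    by_contra hqp
    have := Fact.mk hq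
    obtain ⟨g, hg⟩ := exists_prime_orderOf_dvd_card' q hd
    rw [← orderOf_coe] at hg
    have hgN : g.1 ∉ N := fun h => hqp (by
      rw [← hg]; exact hxo _ h fun e => hq.one_lt.ne (by rw [← hg, e, orderOf_one]))
    have h2 : orderOf g.1 = orderOf (y * g.1) := by
      obtain ⟨c, hc⟩ := isConj_iff.1 (hcam g.1 hgN y hy)
      rw [← hc]; exact ((MulAut.conj c).orderOf_eq g.1).symm
    have c : Commute y g.1 := (mem_centralizer_singleton_iff.1 g.2).symm
    rw [c.orderOf_mul_eq_mul_orderOf_of_coprime (by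
      rw [hxo y hy h1, hg]; exact (Nat.coprime_primes hp hq).2 (Ne.symm hqp)), hxo y hy h1, hg,
      eq_comm, mul_eq_right₀ hq.ne_zero] at h2
    exact hp.one_lt.ne' h2
  have hOC : pCore p G ≤ centralizer (N : Set G) := by
    have : Nontrivial (pCore p G) := (nontrivial_iff_ne_bot _).2 fun e => hN0 (eq_bot_iff.2 (e ▸ hNO))
    have := (H1.isPGroup_pCore (G := G) p).center_nontrivial
    have h := hle ((center (pCore p G)).map (pCore p G).subtype) inferInstance (by
      rw [Ne, map_eq_bot_iff_of_injective _ (subtype_injective _)]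
      exact (nontrivial_iff_ne_bot _).1 this)
    intro g hg n hn
    obtain ⟨z, hz, rfl⟩ := h hn
    exact congrArg Subtype.val (mem_center_iff.1 hz ⟨g, hg⟩).symm
  have hCO : centralizer (N : Set G) ≤ pCore p G :=
    H1.le_pCore ((hcen x hx hx1').to_le (centralizer_le (by simpa using hx)))
  refine ⟨p, hp, fun q hq => ⟨fun h => by_contra fun hqp => ?_, ?_⟩, ?_⟩
  · have := Fact.mk hq
    exact hN0 (disjoint_self.1 ((IsPGroup.disjoint_of_ne q p hqp _ _ (H1.isPGroup_pCore q)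
      hNp).mono_left (hle _ inferInstance h)))
  · rintro rfl e
    exact hN0 (eq_bot_iff.2 (e ▸ hNO))
  let := B2.conjAct N
  obtain ⟨_⟩ : Nonempty (Module (ZMod p) (Additive N)) := ⟨AddCommGroup.zmodModule fun v => by
    apply Additive.toMul.injective
    rw [toMul_nsmul]
    exact Subtype.ext (hpow _ v.toMul.2)⟩
  have : SMulCommClass G (ZMod p) (Additive N) :=
    ⟨fun g c v => ZMod.map_smul (DistribSMul.toAddMonoidHom (Additive N) g) c v⟩
  let σ0 : G →* End (ZMod p) (Additive N) := DistribMulAction.toModuleEnd (ZMod p) (Additive N)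
  have hker : ∀ g, σ0 g = 1 ↔ g ∈ centralizer (N : Set G) := fun g =>
    ⟨fun h n hn => (mul_inv_eq_iff_eq_mul.1 ((B2.conj_fix_iff N g (Additive.ofMul ⟨n, hn⟩)).1
      (DFunLike.congr_fun h _))).symm, fun h => LinearMap.ext fun v =>
        (B2.conj_fix_iff N g v).2 (mul_inv_eq_iff_eq_mul.2 (h _ v.toMul.2).symm)⟩
  let σ := QuotientGroup.lift (pCore p G) σ0 fun g hg => (hker g).2 (hOC hg)
  have : Nontrivial (Additive N) := (nontrivial_iff_ne_bot _).2 hN0
  obtain ⟨B, hBn, hB, hBc⟩ := lin (σ := σ) (v := Additive.ofMul ⟨x, hx⟩) (fun a b e => by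
      obtain ⟨a, rfl⟩ := QuotientGroup.mk_surjective a
      obtain ⟨b, rfl⟩ := QuotientGroup.mk_surjective b
      have e' : σ0 a = σ0 b := e
      refine QuotientGroup.eq.2 (hCO ((hker _).1 ?_))
      rw [map_mul, ← e', ← map_mul, inv_mul_cancel, map_one]) (fun v w hv hw => by
      obtain ⟨c, hc⟩ := isConj_iff.1 (hconj _ v.toMul.2 _ w.toMul.2
        (fun e => hv (Subtype.ext e)) fun e => hw (Subtype.ext e))
      exact ⟨c, Subtype.ext hc⟩) hx1 fun g hg => by
      obtain ⟨g, rfl⟩ := QuotientGroup.mk_surjective g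
      obtain ⟨k, hk⟩ := hcen x hx hx1' ⟨g, mem_centralizer_singleton_iff.2
        (mul_inv_eq_iff_eq_mul.1 ((B2.conj_fix_iff N g (Additive.ofMul ⟨x, hx⟩)).1 hg))⟩
      exact ⟨k, by rw [← QuotientGroup.mk_pow, show g ^ p ^ k = 1 from congrArg Subtype.val hk]; rfl⟩
  refine ⟨H3.hasNormalPComplement_of_quotient_coprime B hB ?_, fun Q => ⟨⟨fun a b => ?_⟩⟩⟩
  · have := Subgroup.Normal.quotient_commutative_iff_commutator_le.2 hBc
    exact H3.hasNormalPComplement_of_isNilpotent _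
  · have hd := H3.disjoint_of_coprime_card (H3.sylow_card_coprime_of_coprime Q hB)
    exact commutatorElement_eq_one_iff_mul_comm.1 (Subtype.ext (mem_bot.1 (hd.le_bot
      ⟨hBc (commutator_mem_commutator (mem_top a.1) (mem_top b.1)), (⁅a, b⁆).2⟩)))

end Cfsg.Agent.S4840
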