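import Cfsg.Statements.S4843
import Cfsg.Agent.H18.CG2
import Cfsg.Agent.H21.PF3c

set_option autoImplicit false
open Cfsg

open H17 H15 CF H21
open scoped commutatorElement

namespace Cfsg.Agent.S4843

variable {G : Type*} [Group G] [Finite G] {χ ψ μ : G → ℂ} {T : Subgroup G}

theorem dot_one (h : χ ∈ Irr ⊤) : dot ⊤ (χ * star χ) (one ⊤) = 1 := by
  rw [← dot_eq_dot_one, dot_irr_self h]

theorem char_sub (h : χ ∈ Irr ⊤) : IsChar ⊤ (χ * star χ - one ⊤) :=
  ((irr_char h).mul (irr_char h).star).sub_irr (one_mem_Irr _) (by simp [dot_one h])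

theorem dot_ne (h : χ ∈ Irr ⊤) (h1 : Ind ⊤ T μ ∈ Irr ⊤) (h2 : Ind ⊤ T μ ≠ one ⊤)
    (h3 : ∀ g ∈ T, χ g = μ g * χ g) : dot ⊤ (χ * star χ - one ⊤) (Ind ⊤ T μ) ≠ 0 := by
  rw [dot_sub_left, dot_irr_ne (one_mem_Irr _) h1 h2.symm, sub_zero, dot_Ind_right le_top _
    ((irr_char h).mul (irr_char h).star).cf, dot_mul_left, star_star,
    dot_congr (fun _ _ => rfl) (ψ := μ * χ) (ψ' := χ) fun g hg => (h3 g hg).symm, ← dot_Res_left, ← dot_Res_right,
    Ne, dot_self_eq_zero (Res_mem_cf le_top (irr_cf h))]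
  exact fun e => irr_one_ne h (by rw [← Res_one T χ, e]; rfl)

omit [Finite G] in
theorem conj_eq {g x : G} (h : ⁅g, x⁆ ∈ Subgroup.center G) : ⁅g, x⁆ * g = x⁻¹ * g * x := by
  rw [mul_assoc, eq_inv_mul_iff_mul_eq, ← mul_assoc, Subgroup.mem_center_iff.1 h]
  simp [commutatorElement_def]

/-- Let G be a finite group with a faithful irreducible character χ (taking the value χ(1) only at the identity) and let k be prime to the order of G, so that g ↦ χ(g^k) is a Galois conjugate of χ. If the pointwise product g ↦ χ(g)·χ(g^k) is again an irreducible character, then the Fitting subgroup of G equals its centre. -/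
theorem result {G : Type*} [Group G] [Finite G] (χ : Cfsg.IrrCharacter G) (hfaith : ∀ g : G, (χ : G → ℂ) g = (χ : G → ℂ) 1 → g = 1) (k : ℕ) (hk : Nat.Coprime k (Nat.card G)) (hirr : Cfsg.IsIrrCharacter G (fun g => (χ : G → ℂ) g * (χ : G → ℂ) (g ^ k))) : Cfsg.fittingSubgroup G = Subgroup.center G := by
  obtain ⟨χ, hχ⟩ := χ
  have hχ' := mem_Irr_top.2 hχ
  obtain ⟨u, hu, -⟩ := exists_aut_pow_fix Nat.card_pos.ne' hk one_ne_zero
  set ψ : G → ℂ := fun g => χ (g ^ k) with hψ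
  have h1 : aut (u : ℂ →+* ℂ) χ = ψ := funext fun g =>
    vchar_aut_apply (u : ℂ →+* ℂ) (irr_vchar hχ') hu trivial pow_card_eq_one'
  have hψ' : ψ ∈ Irr ⊤ := h1 ▸ aut_mem_Irr _ hχ'
  replace hirr : χ * ψ ∈ Irr ⊤ := mem_Irr_top.2 hirr
  have hker : cfker χ = ⊥ := eq_bot_iff.2 fun g hg => hfaith g (cfker_apply hg)
  have hp : H18.Prim ⊤ χ := fun T hT θ hθ e => by
    have h2 : ψ = Ind ⊤ T (aut (u : ℂ →+* ℂ) θ) := by rw [← aut_Ind, e, h1]
    rw [← e, ← Ind_mul_Res _ (irr_cf hψ')] at hirr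
    have h3 := H18.irr_of_mul hθ ((irr_char hψ').Res le_top)
      ((hθ.mul ((irr_char hψ').Res le_top)).mem_Irr_of_Ind le_top hirr)
    rw [h2] at h3
    exact hT.ne (by simpa using H18.sup_eq_of_Res_Ind le_top le_top (hθ.aut _) h3)
  refine le_antisymm (by_contra fun h0 => ?_) H1.center_le_fitting
  set Z := Subgroup.center G
  set F := fittingSubgroup G
  haveI := centMod_normal (K := Z) F
  set E := F ⊓ H9.centMod Z F
  have hE : ∀ a ∈ E, ∀ b ∈ E, ⁅a, b⁆ ∈ Z := fun a ha b hb => H9.mem_centMod.1 ha.2 b hb.1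
  obtain ⟨x, hx, hxZ⟩ : ∃ x ∈ E, x ∉ Z := by
    obtain ⟨x, -, h2, h3⟩ := H9.exists_not_mem_commutator_mem (G := F) (M := ⊤) (H := ⊤)
      (N := Z.subgroupOf F) Subgroup.le_normalizer fun e => h0 fun y hy => e (Subgroup.mem_top ⟨y, hy⟩)
    exact ⟨x, ⟨x.2, H9.mem_centMod.2 fun s hs => h3 ⟨s, hs⟩ trivial⟩, h2⟩
  have hA : E ⊓ 𝒞(E) ≤ Z := fun a ha => Subgroup.mem_center_iff.2 fun g =>
    commutatorElement_eq_one_iff_mul_comm.1 (hker.le (hp.comm_le hχ' (M := E ⊓ 𝒞(E)) le_top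
      (Subgroup.normalizer_eq_top _).ge (Subgroup.commutator_le.2 fun a ha b hb => by
        rw [commutatorElement_eq_one_iff_mul_comm.2 (hb.2 a ha.1)]; exact one_mem _)
      (Subgroup.commutator_mem_commutator trivial ha)))
  obtain ⟨l, hl⟩ := hχ.exists_linear_center
  have hli : ∀ z, l z = 1 → z = 1 := fun z hz =>
    Subtype.ext (hker.le (mem_cfker.2 fun w => by rw [hl, hz]; simp))
  set T := H9.centMod Z ({x} : Set G)
  have hT : ∀ {g}, g ∈ T ↔ ⁅g, x⁆ ∈ Z := by simp [T, H9.mem_centMod]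
  let c : T →* Z := MonoidHom.mk' (fun g => ⟨_, hT.1 g.2⟩) fun a b => Subtype.ext (by
    have := H9.commutator_mul_left_of_commute (H9.commute_of_mem_center (hT.1 b.2) (a : G))
    simpa [Subgroup.mem_center_iff.1 (hT.1 b.2)] using this)
  have hET : E ≤ T := fun a ha => hT.2 (hE a ha x hx)
  have hμ := isLin_ofHom ((l.comp c) ^ k)
  set μ := ofHom T ((l.comp c) ^ k) with hμ'
  have h2 : ∀ g (hg : g ∈ T), μ g = l (⟨_, hT.1 hg⟩ ^ k) := fun g hg => by
    rw [hμ', ofHom_apply _ hg, map_pow]; rfl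
  have h3 : ∀ a ∈ E, ∀ b ∈ E, μ a = μ b → ⁅a, x⁆ = ⁅b, x⁆ := fun a ha b hb e => by
    rw [h2 a (hET ha), h2 b (hET hb), Units.val_inj] at e
    exact congrArg Subtype.val ((Nat.Coprime.pow_left_bijective (hk.symm.coprime_dvd_left
      (Subgroup.card_subgroup_dvd_card Z))).1 ((injective_iff_map_eq_one l).2 hli e))
  have hν := (hμ.Res hET).mem_Irr
  have h4 : T = ⊤ ⊓ stab (Res E μ) := by
    refine le_antisymm (le_inf le_top (le_stab_Res (le_top.trans (Subgroup.normalizer_eq_top _).ge) hμ.cf))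
      fun g hg => inv_mem_iff.1 (hT.2 (hA ⟨?_, fun y hy => ?_⟩))
    · exact E.mul_mem (Subgroup.Normal.conj_mem inferInstance x hx _) (E.inv_mem hx)
    have h5 := Subgroup.Normal.conj_mem inferInstance y hy g
    have h6 := mem_stab_iff.1 hg.2 y
    rw [Res_of_mem _ h5, Res_of_mem _ hy] at h6
    have h7 := h3 _ h5 _ hy h6
    have h8 := Subgroup.mem_center_iff.1 (hE y hy x hx)
    calc y * ⁅g⁻¹, x⁆ = g⁻¹ * ⁅g * y * g⁻¹, x⁆ * (x * g * x⁻¹) * ⁅y, x⁆⁻¹ * y := by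
          simp only [commutatorElement_def]; group
      _ = _ := by
        rw [h7, mul_assoc g⁻¹, ← h8, ← mul_assoc, mul_inv_cancel_right, commutatorElement_def]; group
  have h5 := (mem_over.1 (Ind_mem_over le_top (Subgroup.normalizer_eq_top _).ge hν h4
    (mem_over_of_Res hμ.mem_Irr hν rfl)))
  have h6 : Ind ⊤ T μ ≠ one ⊤ := fun e => hxZ (hA ⟨hx, fun y hy => by
    have := irr_eq_of_dot_ne (one_mem_Irr E) hν (by
      rw [← Res_one_of_le le_top, dot_Res_left, ← e]; exact h5.2)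
    refine commutatorElement_eq_one_iff_mul_comm.1 ((h3 y hy 1 E.one_mem ?_).trans (by simp))
    rw [← Res_of_mem μ hy, ← this, one_of_mem hy, hμ.one_apply]⟩)
  refine (char_sub hχ').dot_ne_zero_of_common (char_sub hψ') h5.1 (dot_ne hχ' h5.1 h6 fun g hg => ?_)
    (dot_ne hψ' h5.1 h6 fun g hg => ?_) ?_
  · have h7 := H9.commutator_pow_right (H9.commute_of_mem_center (hT.1 hg) x) k
    rw [h2 g hg, ← hl, Subgroup.coe_pow, ← h7, conj_eq (h7 ▸ pow_mem (hT.1 hg) k),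
      cf_conj' (irr_cf hχ') _ trivial]
  · rw [h2 g hg, hψ, ← hl, Subgroup.coe_pow, ← (H9.commute_of_mem_center (hT.1 hg) g).symm.mul_pow,
      conj_eq (hT.1 hg)]
    exact (cf_conj' (irr_cf hψ') _ trivial).symm
  · have h7 : dot ⊤ (χ * star χ) (ψ * star ψ) = 1 := by
      rw [← dot_irr_self hirr, dot_eq_dot_one, dot_eq_dot_one (χ * ψ)]
      congr 1
      simp only [star_mul, star_star]; ring
    rw [dot_sub_left, dot_sub_right, dot_sub_right, h7, dot_one hχ', dot_symm_nat (n := 1)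
      (by simpa using dot_one hψ'), dot_one_one]
    simp

end Cfsg.Agent.S4843
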