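import Cfsg.Statements.S4850
import Cfsg.Agent.H12.Vn2
import Cfsg.Agent.H16.Misc

set_option autoImplicit false
open Cfsg

namespace Cfsg.Agent.S4850

/-- Let p be a prime and G a finite solvable group whose vanishing elements (elements at which some irreducible character is zero) of order divisible by p all have the same order, with at least one such element. Let P be a Sylow p-subgroup of G. Then the derived subgroup of P is subnormal in G and the image of P in G/O_p(G) is cyclic. -/
theorem result {G : Type*} [Group G] [Finite G] [hs : Group.IsSolvable G] (p : ℕ) [Fact p.Prime] (b : ℕ) (hvo : {n : ℕ | p ∣ n ∧ ∃ (g : G) (χ : Cfsg.IrrCharacter G), orderOf g = n ∧ (χ : G → ℂ) g = 0} = {b}) (P : Sylow p G) :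
    ((commutator ↥(P : Subgroup G)).map (P : Subgroup G).subtype).IsSubnormal ∧ IsCyclic ↥((P : Subgroup G).map (QuotientGroup.mk' (Cfsg.pCore p G))) := by
  have key : ∀ x : G, H12.Vn.Van x → p ∣ orderOf x → orderOf x = b := fun x ⟨χ, h1, h2⟩ hd =>
    Set.mem_singleton_iff.1 (hvo.le ⟨hd, x, ⟨χ, h1⟩, rfl, h2⟩)
  have h2 : IsCyclic ((P : Subgroup G).map (QuotientGroup.mk' (Cfsg.pCore p G))) :=
    isCyclic_of_card_dvd_prime (H12.Vn.card_dvd (p := p)
      (fun x y hx hy dx dy => (key x hx dx).trans (key y hy dy).symm) P.2)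
  refine ⟨Subgroup.IsSubnormal.trans (K := Cfsg.pCore p G) ?_
    (H16.subnormal_of_nil (H1.isPGroup_pCore p).isNilpotent _) (Subgroup.Normal.isSubnormal
      inferInstance), h2⟩
  rw [Subgroup.map_subtype_commutator, ← QuotientGroup.ker_mk' (Cfsg.pCore p G),
    ← Subgroup.map_eq_bot_iff, Subgroup.map_commutator,
    Subgroup.commutator_eq_bot_iff_le_centralizer, Subgroup.le_centralizer_iff_isMulCommutative]
  infer_instance

end Cfsg.Agent.S4850
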