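import Cfsg.Statements.S4864
import Cfsg.Agent.H21.RC3

set_option autoImplicit false
open Cfsg

open H17 H15 CF H21

namespace Cfsg.Agent.S4864

theorem mem_of_real {G : Type*} [Group G] [Finite G] {K : Subgroup G} [K.Normal] (ho : Odd K.index)
    {x : G} (h : IsConj x x⁻¹) : x ∈ K :=
  (QuotientGroup.eq_one_iff x).1 (eq_one_of_isConj_inv_of_odd ho
    ((QuotientGroup.mk' K).map_isConj h.symm))

theorem aux {G : Type*} [Group G] [Finite G] {p : ℕ} [hp : Fact p.Prime] {K P : Subgroup G}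
    (h : INS p K ⊥ P) {x : G} (hx : IsConj x x⁻¹) : ∃ y ∈ 𝒩(P), IsConj x y := by
  classical
  have h1 : ¬ p ∣ Nat.card K := Subgroup.relIndex_bot_left K ▸ h.nd
  obtain ⟨k, hk⟩ := IsPGroup.iff_card.1 h.syl.isPGroup
  have h2 : P ≤ 𝒞(K ⊓ 𝒩(P)) := le_cent_of_inf_eq_bot inf_le_right ((H16.le_norm P).trans h.nC)
    (H16.inf_bot_of_coprime (hk ▸ ((hp.out.coprime_iff_not_dvd.2 h1).pow_left k).coprime_dvd_right
      (H16.card_dvd inf_le_left)))
  have h3 := card_eq_of_rel ((Irr ⊤).filter fun χ => star χ = χ)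
    ((Irr 𝒩(P)).filter fun χ => star χ = χ) (INR p K P) (fun χ hχ => ?_) (fun ξ hξ => ?_)
    (fun _ _ _ _ _ _ => h.un) fun _ _ _ _ _ _ => h.un'
  · rw [card_real_classes 𝒩(P), ← card_irr_subtype_top _ _ (Finset.filter_subset _ _) fun χ => by
      rw [Finset.mem_filter, and_iff_right (mem_Irr_top.2 χ.2), star_eq_iff_im],
      Cfsg.Agent.S0160.result] at h3
    obtain ⟨⟨X, h4⟩, e⟩ := ((Nat.bijective_iff_injective_and_card (Subtype.map
      (ConjClasses.map 𝒩(P).subtype) fun X hX => by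
        obtain ⟨c, rfl⟩ := ConjClasses.mk_surjective X
        exact real_mk (𝒩(P).subtype.map_isConj (hX c rfl)))).2
      ⟨fun ⟨X, hX⟩ ⟨Y, hY⟩ e => Subtype.ext (by
        obtain ⟨c, rfl⟩ := ConjClasses.mk_surjective X
        obtain ⟨d, rfl⟩ := ConjClasses.mk_surjective Y
        obtain ⟨g, hg⟩ := isConj_iff.1 (ConjClasses.mk_eq_mk_iff_isConj.1 (congrArg Subtype.val e))
        have := Subgroup.normalizer_eq_top_iff.1 (top_le_iff.1 h.nK)
        have h5 : ∀ c : 𝒩(P), IsConj c c⁻¹ → (c : G) ∈ 𝒞(P) := fun c hc => cent_comm h2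
          ⟨mem_of_real (Subgroup.relIndex_top_right K ▸ h.odd) (𝒩(P).subtype.map_isConj hc), c.2⟩
        obtain ⟨S, rfl⟩ := h.syl.exists_sylow_top
        obtain ⟨n, hn, h6⟩ := S.conj_eq_normalizer_conj_of_mem_centralizer c g⁻¹ (h5 c (hX c rfl))
          (by rw [inv_inv]; exact hg ▸ h5 d (hY d rfl))
        exact ConjClasses.mk_eq_mk_iff_isConj.2 (isConj_iff.2 ⟨⟨n, hn⟩⁻¹, Subtype.ext (by
          simpa using h6.symm.trans (by simpa using hg))⟩)), h3.symm⟩).2 ⟨_, real_mk hx⟩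
    obtain ⟨c, rfl⟩ := ConjClasses.mk_surjective X
    exact ⟨c, c.2, (ConjClasses.mk_eq_mk_iff_isConj.1 (congrArg Subtype.val e)).symm⟩
  · rw [Finset.mem_filter] at hχ
    obtain ⟨ξ, h3⟩ := h.ex hχ.1 hχ.2
    obtain ⟨_, _, _, _, _, _, h4, _, h5⟩ := id h3
    exact ⟨ξ, Finset.mem_filter.2 ⟨(mem_over.1 h4).1, h5⟩, h3⟩
  · rw [Finset.mem_filter] at hξ
    obtain ⟨η, h4, h5⟩ := exists_under (inf_le_right (a := K)) hξ.1
    obtain ⟨χ, h3⟩ := h.ex' hξ.1 hξ.2 fun h3 => by
      rw [(real_deg inf_le_right h.nC h.odd' h4 (mem_over.2 ⟨hξ.1, h5⟩) hξ.2).1, hp.out.dvd_mul] at h3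
      refine h3.elim (fun h3 => (h.syl.of_le (H16.le_norm P) le_top).not_dvd_idx hp.out rfl
        (h3.trans (Subgroup.relIndex_dvd_of_le_left _ (mem_IrrS.1 (IrrS_of_cent h2 ▸ h4)).2)))
        fun h3 => h1 (h3.trans (((irr_res h4).degree_dvd_card (deg_cast h4).symm).trans
          (H16.card_dvd inf_le_left)))
    obtain ⟨_, _, _, _, _, h6, _, h7, _⟩ := id h3
    exact ⟨χ, Finset.mem_filter.2 ⟨(mem_over.1 h6).1, h7⟩, h3⟩

/-- Let p be a prime and G a finite group such that the subgroup generated by the p-elements of G is solvable and every real-valued irreducible complex character of G has degree prime to p. Then the normalizer of a Sylow p-subgroup of G contains an element of every real conjugacy class of G: every element conjugate to its inverse is conjugate to an element of that normalizer. -/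
theorem result {G : Type*} [Group G] [Finite G] (p : ℕ) [Fact p.Prime] (hsolv : Group.IsSolvable ↥(Subgroup.closure {g : G | ∃ k : ℕ, orderOf g = p ^ k})) (hreal : ∀ χ : Cfsg.IrrCharacter G, (∀ g : G, ((χ : G → ℂ) g).im = 0) → ¬ p ∣ Cfsg.charDegree (χ : G → ℂ)) (P : Sylow p G) (x : G) (hx : IsConj x x⁻¹) : ∃ y ∈ Subgroup.normalizer ((P : Subgroup G) : Set G), IsConj x y := by
  have h := ins_of_sol (fun χ hχ h => hreal ⟨χ, mem_Irr_top.1 hχ⟩ (star_eq_iff_im.1 h)) hsolv
    (syl_top_sylow P)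
  have := Subgroup.normalizer_eq_top_iff.1 (top_le_iff.1 h.nK)
  have := Subgroup.normalizer_eq_top_iff.1 (top_le_iff.1 h.nQ)
  set f := QuotientGroup.mk' (gp 2 G ⊓ P)
  have hf : Function.Surjective f := QuotientGroup.mk'_surjective _
  have hk : f.ker = gp 2 G ⊓ P := QuotientGroup.ker_mk' _
  have := ‹(gp 2 G).Normal›.map f hf
  obtain ⟨y, h1, h2⟩ := aux (K := (gp 2 G).map f) (P := (P : Subgroup G).map f) ⟨top_le_norm _,
    H15.norm_bot.ge, by
      rw [Subgroup.relIndex_top_right, Subgroup.index_map_eq _ hf (hk.le.trans inf_le_left)]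
      exact Subgroup.relIndex_top_right (gp 2 G) ▸ h.odd,
    Subgroup.map_top_of_surjective f hf ▸ h.syl.map f, bot_le, by
      rw [Subgroup.relIndex_bot_left, ← Subgroup.relIndex_ker, hk]
      exact h.nd, fun χ hχ hr => hreal ⟨_, (mem_Irr_top.1 hχ).comp_of_surjective f hf⟩
        fun g => star_eq_iff_im.1 hr _⟩ (f.map_isConj hx)
  obtain ⟨g, rfl⟩ := isConj_iff.1 h2
  obtain ⟨g, rfl⟩ := hf g
  refine ⟨_, ?_, isConj_iff.2 ⟨g, rfl⟩⟩
  rw [← Subgroup.comap_map_eq_self (hk.le.trans inf_le_right),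
    ← Subgroup.comap_normalizer_eq_of_surjective _ hf]
  simpa using h1

end Cfsg.Agent.S4864
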