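import Cfsg.Statements.S4865
import Cfsg.Agent.H21.RC3

set_option autoImplicit false
open Cfsg

open H17 H15 CF H21

namespace Cfsg.Agent.S4865

/-- Let p be a prime and G a finite group such that the subgroup generated by the p-elements of G is solvable and every real-valued irreducible complex character of G has degree prime to p. Let N be the normalizer of a Sylow p-subgroup of G. Then there is a bijection from the real-valued irreducible characters of G onto the real-valued irreducible characters of N of degree prime to p under which corresponding degrees are congruent modulo p up to sign. -/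
theorem result {G : Type*} [Group G] [Finite G] (p : ℕ) [Fact p.Prime] (hsolv : Group.IsSolvable ↥(Subgroup.closure {g : G | ∃ k : ℕ, orderOf g = p ^ k})) (hreal : ∀ χ : Cfsg.IrrCharacter G, (∀ g : G, ((χ : G → ℂ) g).im = 0) → ¬ p ∣ Cfsg.charDegree (χ : G → ℂ)) (P : Sylow p G) : ∃ f : {χ : Cfsg.IrrCharacter G // ∀ g : G, ((χ : G → ℂ) g).im = 0} → {ξ : Cfsg.IrrCharacter ↥(Subgroup.normalizer ((P : Subgroup G) : Set G)) // (∀ n, ((ξ : ↥(Subgroup.normalizer ((P : Subgroup G) : Set G)) → ℂ) n).im = 0) ∧ ¬ p ∣ Cfsg.charDegree (ξ : ↥(Subgroup.normalizer ((P : Subgroup G) : Set G)) → ℂ)}, Function.Bijective f ∧ ∀ χ, ((Cfsg.charDegree ((f χ).1 : ↥(Subgroup.normalizer ((P : Subgroup G) : Set G)) → ℂ) : ZMod p) = (Cfsg.charDegree (χ.1 : G → ℂ) : ZMod p) ∨ (Cfsg.charDegree ((f χ).1 : ↥(Subgroup.normalizer ((P : Subgroup G) : Set G)) → ℂ) : ZMod p) = -(Cfsg.charDegree (χ.1 : G → ℂ) : ZMod p)) := by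
  have h := ins_of_sol (fun χ hχ h => hreal ⟨χ, mem_Irr_top.1 hχ⟩ (star_eq_iff_im.1 h)) hsolv
    (syl_top_sylow P)
  have hd : ∀ ξ : ↥(Subgroup.normalizer ((P : Subgroup G) : Set G)) → ℂ,
      charDegree (extendByZero _ ξ) = charDegree ξ := fun ξ => deg_congr (ext0_of_mem _ (one_mem _))
  refine (exists_bij_of_rel (fun χ ξ => INR p (gp 2 G) P (χ.1 : G → ℂ) (extendByZero _ ξ.1.1))
    (fun χ => ?_) (fun ξ => ?_) (fun χ ξ ξ' a b => Subtype.ext (irr_ext0_inj (h.un a b)))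
    fun χ χ' ξ a b => Subtype.ext (Subtype.ext (h.un' a b))).imp fun f hf =>
      ⟨hf.1, fun χ => hd _ ▸ h.degree (hf.2 χ)⟩
  · obtain ⟨ξ, h1⟩ := h.ex (mem_Irr_top.2 χ.1.2) (star_eq_iff_im.2 χ.2)
    have h2 := h.not_dvd h1
    obtain ⟨_, _, _, _, _, _, h3, _, h4⟩ := id h1
    obtain ⟨ξ, rfl⟩ := exists_ext0_eq (mem_over.1 h3).1
    exact ⟨⟨ξ, (real_ext0 _).1 h4, hd _ ▸ h2⟩, h1⟩
  · obtain ⟨χ, h1⟩ := h.ex' (ext0_irr ξ.1) ((real_ext0 _).2 ξ.2.1) ((hd _).symm ▸ ξ.2.2)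
    obtain ⟨_, _, _, _, _, h3, _, h4, _⟩ := id h1
    exact ⟨⟨⟨χ, mem_Irr_top.1 (mem_over.1 h3).1⟩, star_eq_iff_im.1 h4⟩, h1⟩

end Cfsg.Agent.S4865
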