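import Cfsg.Statements.S4866
import Cfsg.Agent.H17.Square

set_option autoImplicit false
open Cfsg

namespace Cfsg.Agent.S4866
open H17
open MulAction

theorem card_quot {G X Y : Type*} [Group G] [Fintype G] [MulAction G X] [Finite X] (σ : X → X)
    (h2 : ∀ x, σ (σ x) = x) (hc : ∀ (g : G) x, σ (g • x) = g • σ x) {n : ℕ} (hn : Odd n)
    (hg : ∀ (g : G) (x : X), g ^ n • x = x) (r : Y → Y → Prop) (f : Y → X)
    (hf : ∀ x, σ x = x ↔ ∃ y, f y = x) (hr : ∀ a b, r a b ↔ ∃ g : G, g • f a = f b) :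
    ∑ g : G, Nat.card {x // g • σ x = x} = Nat.card (Quot r) * Fintype.card G := by
  classical
  let S : SubMulAction G X :=
    { carrier := {x | σ x = x}
      smul_mem' := fun g x hx => (hc g x).trans (congrArg _ hx) }
  have := Fintype.ofFinite (orbitRel.Quotient G S)
  have := fun g : G => Fintype.ofFinite (fixedBy S g)
  let F : Y → S := fun y => ⟨f y, (hf _).2 ⟨y, rfl⟩⟩
  have hF : ∀ a b, r a b ↔ orbitRel G S (F b) (F a) := fun a b =>
    (hr a b).trans (exists_congr fun g => by rw [Subtype.ext_iff]; rfl)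
  have e : Nat.card (Quot r) = Fintype.card (orbitRel.Quotient G S) := by
    rw [← Nat.card_eq_fintype_card]
    refine Nat.card_eq_of_bijective (Quot.lift (fun y => Quotient.mk _ (F y))
      fun a b h => (Quotient.sound ((hF a b).1 h)).symm) ⟨?_, ?_⟩
    · rintro ⟨a⟩ ⟨b⟩ h
      exact Quot.sound ((hF a b).2 (Quotient.exact h.symm))
    · rintro ⟨x, hx⟩
      obtain ⟨y, rfl⟩ := (hf x).1 hx
      exact ⟨Quot.mk _ y, rfl⟩
  rw [e, ← sum_card_fixedBy_eq_card_orbits_mul_card_group]
  refine Finset.sum_congr rfl fun g _ => ?_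
  rw [← Nat.card_eq_fintype_card]
  have key : ∀ x, g • σ x = x → g • x = x := fun x hx => by
    have h1 : g ^ 2 ∈ stabilizer G x := by
      rw [mem_stabilizer_iff, sq, mul_smul]
      conv_lhs => rw [← h2 x, ← hc, hx]
      exact hx
    obtain ⟨k, rfl⟩ := hn
    have h3 : g ^ (2 * k + 1) ∈ stabilizer G x := hg g x
    rwa [pow_succ, pow_mul, Subgroup.mul_mem_cancel_left _ (pow_mem h1 k)] at h3
  exact Nat.card_congr
    { toFun := fun x => ⟨⟨x.1, smul_left_cancel g (x.2.trans (key _ x.2).symm)⟩,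
        Subtype.ext (key _ x.2)⟩
      invFun := fun x => ⟨x.1.1, (congrArg _ x.1.2).trans (congrArg Subtype.val x.2)⟩
      left_inv := fun _ => rfl
      right_inv := fun _ => rfl }

variable {G : Type*} [Group G] (K : Subgroup G) [K.Normal]

/-- conjugation action on irreducible characters -/
@[reducible] def actI : MulAction G (IrrCharacter K) where
  smul g θ := ⟨fun k => θ.1 (MulAut.conjNormal g⁻¹ k),
    θ.2.comp_of_surjective (MulAut.conjNormal g⁻¹ : MulAut K).toMonoidHom
      (MulAut.conjNormal g⁻¹ : MulAut K).surjective⟩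
  one_smul θ := Subtype.ext (funext fun k => congrArg θ.1 (by simp))
  mul_smul g h θ := Subtype.ext (funext fun k => congrArg θ.1 (by simp))

/-- conjugation action on classes -/
@[reducible] def actC : MulAction G (ConjClasses K) where
  smul g := ConjClasses.map (MulAut.conjNormal g : MulAut K).toMonoidHom
  one_smul := by
    rintro ⟨k⟩
    exact congrArg ConjClasses.mk (by simp)
  mul_smul g h := by
    rintro ⟨k⟩
    exact congrArg ConjClasses.mk (by simp)


/-- Let K be a normal subgroup of odd index in the finite group G. Then G has as many orbits on the real-valued irreducible complex characters of K (acting by conjugation) as it has orbits on the conjugacy classes of K that are real in K; equivalently, the number of G-orbits of real-valued irreducible characters of K equals the number of G-conjugacy classes of elements of K that are conjugate in K to their inverses. -/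
theorem result {G : Type*} [Group G] [Finite G] (K : Subgroup G) [K.Normal] (hodd : Odd K.index) : Nat.card (Quot (fun θ η : {θ : Cfsg.IrrCharacter ↥K // (∀ k : ↥K, ((θ : ↥K → ℂ) k).im = 0)} => ∃ g : G, ∀ k k' : ↥K, (k' : G) = g * (k : G) * g⁻¹ → (η.1 : ↥K → ℂ) k' = (θ.1 : ↥K → ℂ) k)) = Nat.card (Quot (fun x y : {x : ↥K // IsConj x x⁻¹} => ∃ g : G, (y.1 : G) = g * x.1 * g⁻¹)) := by
  classical
  have := Fintype.ofFinite G
  have hp : ∀ (g : G) (k : K), IsConj k (MulAut.conjNormal (g ^ K.index)⁻¹ k) := fun g k =>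
    isConj_iff.2 ⟨⟨_, K.inv_mem (K.pow_index_mem g)⟩, rfl⟩
  have h1 := @card_quot G _ _ _ _ (actI K) _ (fun θ => ⟨_, θ.2.comp_inv⟩)
    (fun θ => Subtype.ext (by simp)) (fun g θ => Subtype.ext (funext fun k =>
      congrArg θ.1 (map_inv _ _))) _ hodd
    (fun g θ => Subtype.ext (funext fun k => (θ.2.isClassFunction.of_isConj (hp g k)).symm))
    (fun θ η : {θ : IrrCharacter K // ∀ k : K, ((θ : K → ℂ) k).im = 0} =>
      ∃ g : G, ∀ k k' : K, (k' : G) = g * (k : G) * g⁻¹ → (η.1 : K → ℂ) k' = (θ.1 : K → ℂ) k)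
    Subtype.val (fun θ => by
      simp only [Subtype.exists, exists_prop, exists_eq_right]
      rw [Subtype.ext_iff, ← conj_eq_self_iff_im]
      simp [θ.2.isCharacter.conj_apply])
    fun a b => exists_congr fun g => ⟨fun h => Subtype.ext (funext fun k =>
      (h _ k (by simp [mul_assoc])).symm), fun h k k' e => by
        rw [← h]
        exact congrArg a.1.1 (Subtype.ext (by simp [e, mul_assoc]))⟩
  have h2 := @card_quot G _ _ _ _ (actC K) _
    (Quotient.map Inv.inv fun a b h => by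
      obtain ⟨c, rfl⟩ := isConj_iff.1 h
      exact isConj_iff.2 ⟨c, by simp [mul_assoc]⟩)
    (by rintro ⟨k⟩; exact congrArg ConjClasses.mk (inv_inv k))
    (by rintro g ⟨k⟩; exact congrArg ConjClasses.mk (map_inv _ _).symm) _ hodd
    (by
      rintro g ⟨k⟩
      exact ConjClasses.mk_eq_mk_iff_isConj.2
        (isConj_iff.2 ⟨⟨_, K.pow_index_mem g⟩, rfl⟩ : IsConj k _).symm)
    (fun x y : {x : K // IsConj x x⁻¹} => ∃ g : G, (y.1 : G) = g * x.1 * g⁻¹)
    (fun x => ConjClasses.mk x.1) (by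
      rintro ⟨k⟩
      refine ⟨fun h => ⟨⟨k, (ConjClasses.mk_eq_mk_iff_isConj.1 h).symm⟩, rfl⟩, fun ⟨y, h⟩ => ?_⟩
      rw [← h]
      exact ConjClasses.mk_eq_mk_iff_isConj.2 y.2.symm)
    fun a b => ⟨fun ⟨g, h⟩ => ⟨g, congrArg ConjClasses.mk (Subtype.ext (by simp [h]))⟩,
      fun ⟨g, h⟩ => by
        obtain ⟨c, hc⟩ := isConj_iff.1 (ConjClasses.mk_eq_mk_iff_isConj.1 h)
        exact ⟨c * g, by rw [← hc]; simp [mul_assoc]⟩⟩
  refine Nat.eq_of_mul_eq_mul_right Fintype.card_pos (h1.symm.trans (Eq.trans ?_ h2))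
  refine Finset.sum_congr rfl fun g _ => ?_
  refine Eq.trans ?_ (card_fixed_irr_eq (fun k : K => (MulAut.conjNormal g⁻¹ k)⁻¹)
    (fun χ hχ => hχ.comp_inv.comp_of_surjective (MulAut.conjNormal g⁻¹ : MulAut K).toMonoidHom
      (MulAut.conjNormal g⁻¹ : MulAut K).surjective) _ fun k => ?_)
  · exact Nat.card_congr (Equiv.subtypeEquivRight fun θ => Subtype.ext_iff)
  · refine ConjClasses.mk_eq_mk_iff_isConj.trans ?_
    have e : ∀ (α : MulAut K) (a b : K), IsConj (α a) (α b) ↔ IsConj a b := fun α a b =>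
      ⟨fun h => by simpa using α.symm.toMonoidHom.map_isConj h, α.toMonoidHom.map_isConj⟩
    have e2 : ∀ a b : K, IsConj a⁻¹ b → IsConj b⁻¹ a := fun a b h => by
      obtain ⟨c, rfl⟩ := isConj_iff.1 h
      exact isConj_iff.2 ⟨c⁻¹, by group⟩
    refine Iff.trans (b := IsConj k⁻¹ (MulAut.conjNormal g⁻¹ k)) ?_ ⟨e2 _ _, e2 _ _⟩
    rw [← e (MulAut.conjNormal g) k⁻¹, map_inv MulAut.conjNormal, MulAut.apply_inv_self]
    rfl

end Cfsg.Agent.S4866
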