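import Cfsg.Statements.S4871
import Cfsg.Agent.H21.RC2

set_option autoImplicit false
open Cfsg

open H17 H15 CF H21
open scoped commutatorElement

namespace Cfsg.Agent.S4871

theorem finsum_sub {G : Type*} [Group G] [Finite G] (P : IrrCharacter G → Prop) (X : Finset (G → ℂ))
    (hX : X ⊆ Irr ⊤) (h : ∀ χ : IrrCharacter G, P χ ↔ (χ : G → ℂ) ∈ X) (f : (G → ℂ) → ℕ) :
    ∑ᶠ χ : {χ : IrrCharacter G // P χ}, f χ.1 = ∑ χ ∈ X, f χ := by
  rw [← Finset.sum_coe_sort X, ← finsum_eq_sum_of_fintype]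
  refine finsum_comp (fun χ : {χ : IrrCharacter G // P χ} => (⟨(χ.1 : G → ℂ), (h _).1 χ.2⟩ : X))
    ⟨fun a b e => Subtype.ext (Subtype.ext (congrArg (fun z : X => (z : G → ℂ)) e)),
      fun ⟨φ, hφ⟩ => ⟨⟨⟨φ, mem_Irr_top.1 (hX hφ)⟩, (h _).2 hφ⟩, rfl⟩⟩ (g := fun χ => f χ.1)

/-- Let G be a finite group that is the semidirect product of a normal elementary abelian subgroup N of odd order by a non-trivial 2-subgroup P, with N the unique minimal normal subgroup of G. Consider the strongly real irreducible complex characters of G (Frobenius–Schur indicator +1) whose degree is 1 or even. Then their average degree is at least 4/3: four times their number is at most three times the sum of their degrees. -/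
theorem result {G : Type*} [Group G] [Finite G] (N P : Subgroup G) (hN : N.Normal) (q : ℕ) [Fact q.Prime] (hq : q ≠ 2) (hNel : Cfsg.IsElementaryAbelian q N) (hP : IsPGroup 2 ↥P) (hP1 : P ≠ ⊥) (hdisj : N ⊓ P = ⊥) (hprod : N ⊔ P = ⊤) (hmin : N ≠ ⊥ ∧ ∀ M : Subgroup G, M.Normal → M ≠ ⊥ → N ≤ M) : 4 * Nat.card {χ : Cfsg.IrrCharacter G // (Cfsg.charDegree (χ : G → ℂ) = 1 ∨ 2 ∣ Cfsg.charDegree (χ : G → ℂ)) ∧ (Nat.card G : ℂ)⁻¹ * ∑ᶠ g : G, (χ : G → ℂ) (g * g) = 1} ≤ 3 * (∑ᶠ χ : {χ : Cfsg.IrrCharacter G // (Cfsg.charDegree (χ : G → ℂ) = 1 ∨ 2 ∣ Cfsg.charDegree (χ : G → ℂ)) ∧ (Nat.card G : ℂ)⁻¹ * ∑ᶠ g : G, (χ : G → ℂ) (g * g) = 1}, Cfsg.charDegree (χ.1 : G → ℂ)) := by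
  classical
  have hn := top_le_norm N
  have h1 : ¬ P ≤ 𝒞(N) := fun h => hmin.1 (hdisj ▸ (inf_eq_left.2 (hmin.2 P
    (Subgroup.normalizer_eq_top_iff.1 (top_le_iff.1 (hprod.ge.trans
      (sup_le (H16.norm_of_cent' h) (H16.le_norm P))))) hP1)).symm)
  have h2 : N ≤ ⁅(⊤ : Subgroup G), N⁆ :=
    hmin.2 _ inferInstance fun h => h1 (le_top.trans (H16.comm_eq_bot.1 h))
  obtain ⟨a, ha⟩ := IsPGroup.iff_card.1 (show IsPGroup q N from fun x =>
    ⟨1, Subtype.ext (by simpa using hNel.2 x x.2)⟩)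
  have ho : Odd (Nat.card N) := ha ▸ ((Fact.out : q.Prime).odd_of_ne_two hq).pow
  obtain ⟨k, hk⟩ := IsPGroup.iff_card.1 hP
  have h3 : N.relIndex ⊤ ∣ 2 ^ k := by
    rw [← hprod, H16.relIndex_sup_l (le_top.trans hn), ← hk]
    exact Subgroup.relIndex_dvd_card N P
  obtain ⟨χ₀, a1, a2, a3⟩ := exists_real_not_le ho fun h => h1 ((le_gp hP).trans h)
  obtain ⟨l, hl, a4, a5⟩ := exists_under_ne_one le_top hn a1 a3
  obtain ⟨g, -, hg⟩ := mem_orb.1 (clifford_mem_orb le_top hn a1 hl (star_mem_Irr hl) a5 (by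
    rwa [dot_star_right, a2, map_ne_zero]))
  obtain ⟨χ, b1, -, b2, b, b3, b4⟩ := exists_plus_over_dz le_top hl (Subgroup.mem_top g) (hn trivial)
    hg fun x hx h => absurd (h.trans (H16.orderOf_dvd_card hx)) ho.not_two_dvd_nat
  have b5 := mem_over.2 ⟨b1, b4.trans_ne (Nat.cast_ne_zero.2 b3.pos.ne')⟩
  obtain ⟨e, b6, b7⟩ := clifford_dot_dvd le_top hn hl b5
  obtain ⟨ψ, c1, rfl⟩ := exists_Ind_eq_over le_top hn hl rfl b5
  have c2 : N ≤ ⊤ ⊓ stab l := le_inf le_top (le_stab (irr_cf hl))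
  have c3 : Res (N : Set G) ψ = l := by
    rw [Res_eq_smul_of_le_stab c2 (le_top.trans hn) (mem_over.1 c1).1 hl inf_le_right
      (mem_over.1 c1).2, ← cliffCorr_dot_Ind le_top hn hl rfl (mem_over.1 c1).1 (mem_over.1 c1).2,
      b4, ((Nat.coprime_two_right.2 b3).pow_right k).eq_one_of_dvd
        ((Nat.cast_inj.1 (b4.symm.trans b6) ▸ b7).trans h3), Nat.cast_one, one_smul]
  have c4 := isLin_of_comm hNel.1 hl
  set d := (⊤ ⊓ stab l).relIndex ⊤ with hd
  have c5 : d ≠ 1 := fun h => a4 (irr_eq_one_of_le_cfker hl (h2.trans ((c4.le_stab_iff hn).1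
    ((Subgroup.relIndex_eq_one.1 h).trans inf_le_right))))
  obtain ⟨j, -, hj⟩ := (Nat.dvd_prime_pow Nat.prime_two).1
    ((Subgroup.relIndex_dvd_of_le_left _ c2).trans h3)
  have c6 : 2 ∣ d := by
    rcases j with _ | j
    · exact absurd hj c5
    · exact hd ▸ hj ▸ dvd_pow_self 2 j.succ_ne_zero
  set A := (Irr (⊤ : Subgroup G)).filter fun χ => (charDegree χ = 1 ∨ 2 ∣ charDegree χ) ∧ nu ⊤ χ = 1
  have hA : ∀ χ : IrrCharacter G, ((charDegree (χ : G → ℂ) = 1 ∨ 2 ∣ charDegree (χ : G → ℂ)) ∧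
      (Nat.card G : ℂ)⁻¹ * ∑ᶠ g : G, (χ : G → ℂ) (g * g) = 1) ↔ (χ : G → ℂ) ∈ A := fun χ => by
    simp [A, mem_Irr_top.2 χ.2, nu_top]
  rw [card_irr_subtype_top _ A (Finset.filter_subset _ _) hA,
    finsum_sub _ A (Finset.filter_subset _ _) hA]
  have c7 : ∀ l ∈ A.filter fun χ => charDegree χ = 1, IsLin ⊤ l ∧ N ≤ cfker l := fun l hl => by
    simp only [A, Finset.mem_filter] at hl
    have := isLin_of_irr hl.1.1 (by rw [← deg_cast hl.1.1, hl.2, Nat.cast_one])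
    exact ⟨this, h2.trans ((H16.comm_le_der le_rfl le_top).trans this.commutator_le)⟩
  have c8 := card_lin_le le_top hn (mem_over.1 c1).1 (c3 ▸ hl) (c3 ▸ rfl) _
    (A.filter fun χ => charDegree χ = d) c7 fun m hm => by
      obtain ⟨a, b, -⟩ := Ind_lin_mul le_top hn (mem_over.1 c1).1 (c3 ▸ hl) (c3 ▸ rfl) (c7 m hm).1
        (c7 m hm).2
      rw [charDegree_eq_of_one (χ := ψ) (n := 1) (by rw [← Res_one N ψ, c3, c4.one_apply, Nat.cast_one]),
        mul_one] at b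
      simp only [A, Finset.mem_filter] at hm ⊢
      refine ⟨⟨a, .inr (b ▸ c6), ?_⟩, b⟩
      rw [mul_comm, Ind_mul_Res _ (c7 m (by simpa [A] using hm)).1.cf, mul_comm,
        nu_lin_mul (c7 m (by simpa [A] using hm)).1 (real_of_nu_ne hm.1.1
          (hm.1.2.2.trans_ne one_ne_zero)), b2]
  have c9 := Finset.sum_le_sum (s := A) (f := fun χ => 4 + d * if charDegree χ = d then 1 else 0)
    (g := fun χ => 3 * charDegree χ + if charDegree χ = 1 then 1 else 0) fun χ hχ => by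
      have := deg_pos (Finset.mem_filter.1 hχ).1
      split_ifs <;> omega
  rw [Finset.sum_add_distrib, Finset.sum_add_distrib, ← Finset.mul_sum, ← Finset.mul_sum,
    ← Finset.card_filter, ← Finset.card_filter, Finset.sum_const, smul_eq_mul] at c9
  rw [← hd] at c8
  omega

end Cfsg.Agent.S4871
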