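import Cfsg.Statements.S4872
import Cfsg.Agent.H21.RC1
import Cfsg.Agent.H19.Ht3

set_option autoImplicit false
open Cfsg

open H17 H15 CF H21

namespace Cfsg.Agent.S4872

/-- Let N be a normal subgroup of the finite group G with G/N a 2-group, and let φ be an irreducible complex character of N of 2-defect zero (the 2-part of #N divides φ(1)) whose complex conjugate is G-conjugate to φ. Then some irreducible character of G with Frobenius–Schur indicator +1 contains φ with multiplicity exactly one on restriction to N. -/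
theorem result {G : Type*} [Group G] [Finite G] (N : Subgroup G) [N.Normal] (h2 : IsPGroup 2 (G ⧸ N)) (φ : Cfsg.IrrCharacter ↥N) (hdef : 2 ^ (Nat.card ↥N).factorization 2 ∣ Cfsg.charDegree (φ : ↥N → ℂ)) (hconj : ∃ g : G, ∀ n n' : ↥N, (n' : G) = g * (n : G) * g⁻¹ → (φ : ↥N → ℂ) n' = (starRingEnd ℂ) ((φ : ↥N → ℂ) n)) : ∃ χ : Cfsg.IrrCharacter G, (Nat.card G : ℂ)⁻¹ * ∑ᶠ g : G, (χ : G → ℂ) (g * g) = 1 ∧ (Nat.card ↥N : ℂ)⁻¹ * ∑ᶠ n : ↥N, (χ : G → ℂ) n * (starRingEnd ℂ) ((φ : ↥N → ℂ) n) = 1 := by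
  have hθ := ext0_irr φ
  obtain ⟨g, hg⟩ := hconj
  obtain ⟨χ, h1, -, h2, b, h3, h4⟩ := exists_plus_over_dz le_top hθ (Subgroup.mem_top g⁻¹)
    (top_le_norm N trivial) (by
      rw [cfj_ext0 ‹_›]
      refine funext fun x => ?_
      by_cases hx : x ∈ N
      · rw [Pi.star_apply, ext0_of_mem _ hx, ext0_of_mem _ hx]
        exact hg _ _ rfl
      · rw [Pi.star_apply, ext0_of_not_mem _ hx, ext0_of_not_mem _ hx, star_zero])
    fun x hx h => by
      rw [ext0_of_mem _ hx]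
      exact H19.vanish_of_vd (p := 2) ((H20.vd_le 2 φ).antisymm
        ((Nat.prime_two.pow_dvd_iff_le_factorization (H19.deg_ne_zero φ)).1 hdef))
        (by rwa [Subgroup.orderOf_mk])
  refine ⟨⟨χ, mem_Irr_top.1 h1⟩, (nu_top χ).symm.trans h2, (dot_ext0_fin _ _).symm.trans ?_⟩
  obtain ⟨e, h5, h6⟩ := clifford_dot_dvd le_top (top_le_norm N) hθ (mem_over.2 ⟨h1, by
    rw [h4, Nat.cast_ne_zero]; exact h3.pos.ne'⟩)
  obtain ⟨k, hk⟩ := IsPGroup.iff_card.1 ‹IsPGroup 2 (G ⧸ N)›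
  rw [Subgroup.relIndex_top_right, Subgroup.index, hk, ← Nat.cast_inj.1 (h4.symm.trans h5)] at h6
  rw [h4, ((Nat.coprime_two_right.2 h3).pow_right k).eq_one_of_dvd h6, Nat.cast_one]

end Cfsg.Agent.S4872
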