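import Cfsg.Statements.S4873
import Cfsg.Agent.H21.RC1

set_option autoImplicit false
open Cfsg

open H17 H15 CF H21

namespace Cfsg.Agent.S4873

/-- Let N be a normal subgroup of odd index in the finite group G. Then every irreducible complex character of N with Frobenius–Schur indicator +1 lies under exactly one irreducible character of G with Frobenius–Schur indicator +1. -/
theorem result {G : Type*} [Group G] [Finite G] (N : Subgroup G) [N.Normal] (hodd : Odd N.index) (φ : Cfsg.IrrCharacter ↥N) (hφ : (Nat.card ↥N : ℂ)⁻¹ * ∑ᶠ g : ↥N, (φ : ↥N → ℂ) (g * g) = 1) : ∃! χ : Cfsg.IrrCharacter G, (Nat.card G : ℂ)⁻¹ * ∑ᶠ g : G, (χ : G → ℂ) (g * g) = 1 ∧ (∑ᶠ n : ↥N, (χ : G → ℂ) n * (starRingEnd ℂ) ((φ : ↥N → ℂ) n)) ≠ 0 := by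
  have hθ := ext0_irr φ
  have h1 := (nu_ext0 _).trans hφ
  have h2 : ∀ χ : G → ℂ, (∑ᶠ n : N, χ n * (starRingEnd ℂ) ((φ : N → ℂ) n)) ≠ 0 ↔
      dot N χ (extendByZero N (φ : N → ℂ)) ≠ 0 := fun χ => by
    rw [dot_ext0_fin, mul_ne_zero_iff, and_iff_right (inv_ne_zero (card_ne N))]
  obtain ⟨χ, h3, -, h4, h5, h6⟩ := real_over_odd le_top (top_le_norm N)
    (by rwa [Subgroup.relIndex_top_right]) hθ (real_of_nu_ne hθ (h1.trans_ne one_ne_zero))
  refine ⟨⟨χ, mem_Irr_top.1 h3⟩, ⟨(nu_top χ).symm.trans (h5.trans h1), (h2 χ).2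
    (h4.trans_ne one_ne_zero)⟩, fun ψ hψ => Subtype.ext ?_⟩
  have h7 := mem_Irr_top.2 ψ.2
  exact h6 _ (mem_over.2 ⟨h7, (h2 _).1 hψ.2⟩)
    (real_of_nu_ne h7 (((nu_top _).trans hψ.1).trans_ne one_ne_zero))

end Cfsg.Agent.S4873
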