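import Cfsg.Statements.S4885
import Cfsg.Agent.H19.NW2

set_option autoImplicit false
open Cfsg

namespace Cfsg.Agent.S4885
open H17 H19

/-- Let p and q be primes dividing the order of the finite group G, and suppose G is p-solvable and q-solvable. Fix maximal ideals of the algebraic integers containing p and q, defining the principal p-block and the principal q-block. If the irreducible characters of degree prime to p in the principal p-block are exactly the irreducible characters of degree prime to q in the principal q-block, then p = q. -/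
theorem result {G : Type*} [Group G] [Finite G] (p q : ℕ) [Fact p.Prime] [Fact q.Prime] (hp : p ∣ Nat.card G) (hq : q ∣ Nat.card G) (hps : Cfsg.IsPSolvable p G) (hqs : Cfsg.IsPSolvable q G) (Mp Mq : Ideal Cfsg.AlgInt) (hMp : Cfsg.IsPModular p Mp) (hMq : Cfsg.IsPModular q Mq) (h : ∀ χ : Cfsg.IrrCharacter G, (χ ∈ Cfsg.principalBlock Mp G ∧ ¬ p ∣ Cfsg.charDegree (χ : G → ℂ)) ↔ (χ ∈ Cfsg.principalBlock Mq G ∧ ¬ q ∣ Cfsg.charDegree (χ : G → ℂ))) : p = q := by
  by_contra hpq
  have h1 := NW.idx_of_hd (Ne.symm hpq) hqs hps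
    (NW.hd_of hMq hqs fun χ h1 h2 => ((h χ).2 ⟨h1, h2⟩).2)
  obtain ⟨P, hP⟩ := H15.exists_syl p (⊤ : Subgroup G)
  obtain ⟨χ, h2, h3, h4⟩ := NW.exists_B0 hMp hps hp hP
  exact h4 ((NW.syl_le (H15.Cfsg.IsPiHallOf.isPi hP) h1).trans
    ((NW.mem_B0 hMq hqs χ).1 ((h χ).1 ⟨h2, h3⟩).1))

end Cfsg.Agent.S4885
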