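import Cfsg.Statements.S4886
import Cfsg.Agent.H19.NW2

set_option autoImplicit false
open Cfsg

namespace Cfsg.Agent.S4886
open H17 H19

/-- Let p ≠ q be primes and G a finite group that is p-solvable and q-solvable. Fix maximal ideals of the algebraic integers containing p and q, defining the principal p-block and the principal q-block. Then every irreducible character of degree prime to p in the principal p-block has degree prime to q and every irreducible character of degree prime to q in the principal q-block has degree prime to p, if and only if some Sylow p-subgroup of G commutes elementwise with some Sylow q-subgroup. -/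
theorem result {G : Type*} [Group G] [Finite G] (p q : ℕ) [Fact p.Prime] [Fact q.Prime] (hpq : p ≠ q) (Mp Mq : Ideal Cfsg.AlgInt) (hMp : Cfsg.IsPModular p Mp) (hMq : Cfsg.IsPModular q Mq) (hps : Cfsg.IsPSolvable p G) (hqs : Cfsg.IsPSolvable q G) : ((∀ χ : Cfsg.IrrCharacter G, χ ∈ Cfsg.principalBlock Mp G → ¬ p ∣ Cfsg.charDegree (χ : G → ℂ) → ¬ q ∣ Cfsg.charDegree (χ : G → ℂ)) ∧ (∀ χ : Cfsg.IrrCharacter G, χ ∈ Cfsg.principalBlock Mq G → ¬ q ∣ Cfsg.charDegree (χ : G → ℂ) → ¬ p ∣ Cfsg.charDegree (χ : G → ℂ))) ↔ ∃ (P : Sylow p G) (Q : Sylow q G), ∀ x ∈ (P : Subgroup G), ∀ y ∈ (Q : Subgroup G), x * y = y * x := by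
  refine ⟨fun h => ?_, fun ⟨P, Q, h⟩ => ⟨fun χ hχ _ => ?_, fun χ hχ _ => ?_⟩⟩
  · obtain ⟨P, Q, hP, hQ, h1⟩ := NW.exists_comm hqs
      (NW.idx_of_hd hpq hps hqs (NW.hd_of hMp hps h.1))
      (NW.idx_of_hd hpq.symm hqs hps (NW.hd_of hMq hqs h.2))
    obtain ⟨P, rfl⟩ := H15.Cfsg.IsPiHallOf.exists_sylow_top hP
    obtain ⟨Q, rfl⟩ := H15.Cfsg.IsPiHallOf.exists_sylow_top hQ
    exact ⟨P, Q, fun x hx y hy => (H15.mem_cent.1 (h1 hx) y hy).symm⟩
  · exact NW.nd_of_comm hpq hMp hps (H15.syl_top_sylow P) (H15.syl_top_sylow Q)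
      (fun y hy => H15.mem_cent.2 fun x hx => h x hx y hy) χ hχ
  · exact NW.nd_of_comm hpq.symm hMq hqs (H15.syl_top_sylow Q) (H15.syl_top_sylow P)
      (fun x hx => H15.mem_cent.2 fun y hy => (h x hx y hy).symm) χ hχ

end Cfsg.Agent.S4886
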