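import Cfsg.Statements.S4888
import Cfsg.Agent.H19.Npc

set_option autoImplicit false
open Cfsg

namespace Cfsg.Agent.S4888
open H17 H19

/-- Let G be a finite group, p a prime and M a maximal ideal of the algebraic integers containing p. Then all height-zero irreducible characters of the principal p-block of G (equivalently, all its characters of degree prime to p) have the same degree if and only if G has a normal p-complement. -/
theorem result {G : Type*} [Group G] [Finite G] (p : ℕ) [Fact p.Prime] (M : Ideal Cfsg.AlgInt) (hM : Cfsg.IsPModular p M) : (∃ d : ℕ, ∀ χ : Cfsg.IrrCharacter G, χ ∈ (Cfsg.principalBlock M G) → Cfsg.blockHeight p (Cfsg.principalBlock M G) (χ : G → ℂ) = 0 → Cfsg.charDegree (χ : G → ℂ) = d) ↔ Cfsg.HasNormalPComplement p G := by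
  obtain ⟨O, hO, _⟩ := exists_over hM
  rw [hO.principalBlock_eq]
  constructor
  · rintro ⟨d, hd⟩
    have h1 : charDegree (triv G : G → ℂ) = 1 := H21.charDegree_eq_of_one (by simp)
    have h2 := hd _ triv_mem_B0 (ht_B0_iff.2 (h1 ▸ (Fact.out : p.Prime).not_dvd_one))
    exact npc_of_lin O fun χ hχ h => by rw [hd χ hχ (ht_B0_iff.2 h), ← h2, h1]
  · exact fun h => ⟨1, fun χ hχ h0 => lin_of_npc h hχ (ht_B0_iff.1 h0)⟩

end Cfsg.Agent.S4888
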