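import Cfsg.Statements.S4890
import Cfsg.Agent.H20.Frat
-- import your own Cfsg.Agent.* helpers here

set_option autoImplicit false
open Cfsg

namespace Cfsg.Agent.S4890

/-- Let G be a finite group, p a prime, M a maximal ideal of the algebraic integers containing p, and B a p-block of G with a defect group that is normal in G. Then all height-zero irreducible characters of B have the same degree if and only if B is a nilpotent block. -/
theorem result {G : Type*} [Group G] [Finite G] (p : ℕ) [Fact p.Prime] (M : Ideal Cfsg.AlgInt) (hM : Cfsg.IsPModular p M) (B : Set (Cfsg.IrrCharacter G)) (hB : Cfsg.IsPBlock M B) (D : Subgroup G) (hD : Cfsg.IsDefectGroup p M B D) (hDn : D.Normal) : (∃ d : ℕ, ∀ χ : Cfsg.IrrCharacter G, χ ∈ B → Cfsg.blockHeight p B (χ : G → ℂ) = 0 → Cfsg.charDegree (χ : G → ℂ) = d) ↔ Cfsg.IsNilpotentBlock p M B := by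
  obtain ⟨O, hO, _⟩ := H19.exists_over hM
  obtain ⟨β, rfl⟩ := hO.exists_blk hB
  have hD := (H20.isDefectGroup_iff hO hM _ _).1 hD
  rw [H20.isNilpotentBlock_iff hO hM]
  constructor
  · rintro ⟨d, hd⟩
    exact H20.isNil_of_deg_normal hD (n := d) fun χ hχ h0 => by
      rw [← hd χ hχ h0, H19.cast_deg]
  · intro h
    obtain ⟨e, he⟩ := H20.exists_max (H20.isBlk_eG β) hD
    obtain ⟨b, S⟩ := H19.exists_SB he
    obtain ⟨χ, hχ, h0⟩ := H20.exists_height_zero p (H19.irr_nonempty β)
    obtain ⟨Φ, hΦ⟩ := H20.BP.exists_equiv S (he.isNil_iff.1 h) hχ h0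
    refine ⟨charDegree (χ : G → ℂ), fun ψ hψ h2 => ?_⟩
    obtain ⟨l, hl⟩ := Φ.surjective ⟨ψ, hψ⟩
    have h1 := (hΦ l).2.1
    rw [hl] at h1
    have hp : p.Prime := Fact.out
    obtain ⟨n, -, hn⟩ := (Nat.dvd_prime_pow hp).1 (hD.card_eq_pow ▸ H20.deg_dvd l)
    rw [H20.height_eq_zero_iff hψ, ← (H20.height_eq_zero_iff hχ).1 h0, H20.vd, H20.vd, h1, hn,
      Nat.factorization_mul (pow_ne_zero _ hp.ne_zero) (H19.deg_ne_zero χ), Finsupp.add_apply,
      hp.factorization_pow, Finsupp.single_eq_same, add_eq_right] at h2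
    rwa [hn, h2, pow_zero, one_mul] at h1

end Cfsg.Agent.S4890
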