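import Cfsg.Statements.S4911
import Cfsg.Agent.H21.RC3

set_option autoImplicit false
open Cfsg

open H17 H15 CF H21

namespace Cfsg.Agent.S4911

/-- Let P and K be subgroups of a finite group with P a p-group normalizing K and K of order prime to p. Then the number of P-invariant real-valued irreducible complex characters of K equals the number of conjugacy classes of K that are real (closed under inversion) and P-invariant. Moreover, if every real-valued irreducible character of K is P-invariant, then every real element of K (one conjugate in K to its inverse) is conjugate in K to an element centralized by P. -/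
theorem result {G : Type*} [Group G] [Finite G] (p : ℕ) [Fact p.Prime] (P K : Subgroup G) (hP : IsPGroup p ↥P) (hK : ¬ p ∣ Nat.card ↥K) (hPK : P ≤ Subgroup.normalizer (K : Set G)) : Nat.card {θ : Cfsg.IrrCharacter ↥K // (∀ k : ↥K, ((θ : ↥K → ℂ) k).im = 0) ∧ (∀ x ∈ P, ∀ k k' : ↥K, (k' : G) = x * (k : G) * x⁻¹ → (θ : ↥K → ℂ) k' = (θ : ↥K → ℂ) k)} = Nat.card {c : ConjClasses ↥K // (∀ k : ↥K, ConjClasses.mk k = c → IsConj k k⁻¹) ∧ ∀ k : ↥K, ConjClasses.mk k = c → ∀ x ∈ P, ∀ k' : ↥K, (k' : G) = x * (k : G) * x⁻¹ → ConjClasses.mk k' = c} ∧ ((∀ θ : Cfsg.IrrCharacter ↥K, (∀ k : ↥K, ((θ : ↥K → ℂ) k).im = 0) → (∀ x ∈ P, ∀ k k' : ↥K, (k' : G) = x * (k : G) * x⁻¹ → (θ : ↥K → ℂ) k' = (θ : ↥K → ℂ) k)) → ∀ k : ↥K, IsConj k k⁻¹ → ∃ k' : ↥K, IsConj k k' ∧ ∀ x ∈ P, x * (k' : G) * x⁻¹ = (k' : G)) := by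
  classical
  have hp : p.Prime := Fact.out
  obtain ⟨k, hk⟩ := IsPGroup.iff_card.1 hP
  have hc : (Nat.card K).Coprime (Nat.card P) :=
    hk ▸ (hp.coprime_iff_not_dvd.2 hK).symm.pow_right k
  have hs : Group.IsSolvable P := H16.sol_of_nil hP.isNilpotent
  have h := (rb_pgroup hp (N := ⊥) (H15.norm_bot.ge.trans' le_top)
    (by rwa [Subgroup.relIndex_bot_left]) P hP hPK (H15.norm_bot.ge.trans' le_top)).card_real
  rw [rc_bot, IrrS_of_cent (cent_comm inf_le_right), card_real_classes,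
    card_real_inv_classes hPK hc hs, ← card_irr_subtype _ _ ((Finset.filter_subset _ _).trans
      (IrrS_subset K P)) fun χ => by
        rw [Finset.mem_filter, and_comm, real_ext0, ← ext0_mem_IrrS hPK]] at h
  refine ⟨h, fun h1 k hk => ?_⟩
  rw [Nat.card_congr (Equiv.subtypeEquivRight fun θ => and_iff_left_of_imp (h1 θ)),
    Cfsg.Agent.S0160.result] at h
  obtain ⟨⟨X, h2, h3⟩, e⟩ := ((Nat.bijective_iff_injective_and_card _).2
    ⟨Subtype.map_injective (fun _ h => h.1) Function.injective_id, h.symm⟩).2 ⟨_, real_mk hk⟩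
  obtain rfl : X = ConjClasses.mk k := congrArg Subtype.val e
  obtain ⟨c, h4⟩ := exists_cent_conj hPK hc hs (h3 k rfl)
  exact ⟨_, h4, fun x hx => mul_inv_eq_iff_eq_mul.2 (mem_cent.1 c.2.2 x hx)⟩

end Cfsg.Agent.S4911
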