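import Cfsg.Statements.S4912
import Cfsg.Agent.H21.RC2
import Cfsg.Agent.H21.Glau3

set_option autoImplicit false
open Cfsg

open H17 H15 CF H21
open scoped commutatorElement

namespace Cfsg.Agent.S4912

/-- Let G be a finite group with a non-abelian minimal normal subgroup N, and let φ be an irreducible complex character of N with stabilizer I in G such that φ extends to an irreducible character of I with Frobenius–Schur indicator +1. Put d = φ(1)·[G : I]. Then the number of linear characters of G with Frobenius–Schur indicator +1 is at most [G : I] times the number of irreducible characters of G of degree d with Frobenius–Schur indicator +1. -/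
theorem result {G : Type*} [Group G] [Finite G] (N : Subgroup G) (hN : N.Normal) (hN1 : N ≠ ⊥) (hmin : ∀ M : Subgroup G, M.Normal → M ≤ N → M = ⊥ ∨ M = N) (hna : ¬ IsMulCommutative ↥N) (φ : Cfsg.IrrCharacter ↥N) (I : Subgroup G) (hI : ∀ g : G, g ∈ I ↔ ∀ n n' : ↥N, (n' : G) = g * (n : G) * g⁻¹ → (φ : ↥N → ℂ) n' = (φ : ↥N → ℂ) n) (hNI : N ≤ I) (hext : ∃ ψ : Cfsg.IrrCharacter ↥I, (Nat.card ↥I : ℂ)⁻¹ * ∑ᶠ g : ↥I, (ψ : ↥I → ℂ) (g * g) = 1 ∧ ∀ n : ↥N, (ψ : ↥I → ℂ) (Subgroup.inclusion hNI n) = (φ : ↥N → ℂ) n) : Nat.card {χ : Cfsg.IrrCharacter G // Cfsg.charDegree (χ : G → ℂ) = 1 ∧ (Nat.card G : ℂ)⁻¹ * ∑ᶠ g : G, (χ : G → ℂ) (g * g) = 1} ≤ I.index * Nat.card {χ : Cfsg.IrrCharacter G // Cfsg.charDegree (χ : G → ℂ) = Cfsg.charDegree (φ : ↥N → ℂ) * I.index ∧ (Nat.card G : ℂ)⁻¹ * ∑ᶠ g : G, (χ : G → ℂ) (g * g) = 1} := by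
  classical
  obtain ⟨ψ, hν, hψ⟩ := hext
  rw [← nu_ext0] at hν
  have h1 : Res (N : Set G) (extendByZero I (ψ : I → ℂ)) = extendByZero N (φ : N → ℂ) :=
    Res_eq_ext0_iff.1 fun n => (ext0_of_mem _ (hNI n.2)).trans (hψ n)
  have h2 := h1 ▸ ext0_irr φ
  have hT : I = ⊤ ⊓ stab (Res (N : Set G) (extendByZero I (ψ : I → ℂ))) := by
    rw [h1, top_inf_eq]
    exact Subgroup.ext fun g => (hI g).trans ((mem_stab_ext0 hN _ g).trans
      ⟨fun h n n' e => (congrArg _ (Subtype.ext e)).trans (h n), fun h n => h n _ rfl⟩).symm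
  have h3 : N ≤ ⁅(⊤ : Subgroup G), (⊤ : Subgroup G)⁆ := ((hmin _ inferInstance
    (H16.der_le N)).resolve_left (mt H16.der_eq_bot.1 hna)).ge.trans (H16.der_mono le_top)
  have h4 : ∀ l ∈ (Irr (⊤ : Subgroup G)).filter fun χ => charDegree χ = 1 ∧ nu ⊤ χ = 1,
      IsLin ⊤ l ∧ N ≤ cfker l := fun l hl => by
    rw [Finset.mem_filter] at hl
    have := isLin_of_irr hl.1 (by rw [← deg_cast hl.1, hl.2.1, Nat.cast_one])
    exact ⟨this, h3.trans this.commutator_le⟩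
  rw [card_irr_subtype_top _ _ (Finset.filter_subset (fun χ => charDegree χ = 1 ∧ nu ⊤ χ = 1) _)
    (fun χ => by simp [mem_Irr_top.2 χ.2, nu_top]), card_irr_subtype_top _ _ (Finset.filter_subset
      (fun χ => charDegree χ = charDegree (φ : N → ℂ) * I.index ∧ nu ⊤ χ = 1) _)
    (fun χ => by simp [mem_Irr_top.2 χ.2, nu_top]), ← Subgroup.relIndex_top_right]
  refine card_lin_le le_top (top_le_norm N) (ext0_irr ψ) h2 hT _ _ h4 fun l hl => ?_
  obtain ⟨a, b, c⟩ := Ind_lin_mul le_top (top_le_norm N) (ext0_irr ψ) h2 hT (h4 l hl).1 (h4 l hl).2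
  rw [Finset.mem_filter] at hl ⊢
  refine ⟨a, ?_, (c (real_of_nu_ne hl.1 (hl.2.2.trans_ne one_ne_zero))
    (real_of_nu_ne (ext0_irr ψ) (hν.trans_ne one_ne_zero))).trans hν⟩
  rw [b, mul_comm, deg_congr ((ext0_of_mem _ (one_mem I)).trans (hψ 1))]

end Cfsg.Agent.S4912
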