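import Cfsg.Statements.S4914
import Cfsg.Agent.H21.RG2
import Cfsg.Agent.H18.PF6b

set_option autoImplicit false
open Cfsg

open H17 H15 CF H21

namespace Cfsg.Agent.S4914

/-- Let P and K be subgroups of a finite group G with P a p-group normalizing K, and suppose K has a normal Sylow p-subgroup Q. Let C be the subgroup of those k ∈ K whose commutator with every element of P lies in Q (so that C/Q is the fixed-point subgroup of P on K/Q). Then there is a bijection f from the P-invariant irreducible complex characters of K onto the P-invariant irreducible complex characters of C such that, for every P-invariant irreducible character χ of K, the multiplicity of f(χ) in the restriction of χ to C is a natural number congruent to 1 or to −1 modulo p, every other P-invariant irreducible character of C occurs in that restriction with multiplicity divisible by p, and the degrees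 of χ and f(χ) are congruent modulo p up to sign. -/
theorem result {G : Type*} [Group G] [Finite G] (p : ℕ) [Fact p.Prime] (P K Q C : Subgroup G) (hP : IsPGroup p ↥P) (hPK : P ≤ Subgroup.normalizer (K : Set G)) (hQK : Q ≤ K) (hQn : ∀ k ∈ K, ∀ q ∈ Q, k * q * k⁻¹ ∈ Q) (hQp : ∃ a : ℕ, Nat.card ↥Q = p ^ a) (hQsyl : ¬ p ∣ Q.relIndex K) (hCK : C ≤ K) (hC : ∀ k : G, k ∈ C ↔ (k ∈ K ∧ ∀ x ∈ P, x * k * x⁻¹ * k⁻¹ ∈ Q)) : ∃ f : {χ : Cfsg.IrrCharacter ↥K // (∀ x ∈ P, ∀ k k' : ↥K, (k' : G) = x * (k : G) * x⁻¹ → (χ : ↥K → ℂ) k' = (χ : ↥K → ℂ) k)} → {ξ : Cfsg.IrrCharacter ↥C // (∀ x ∈ P, ∀ k k' : ↥C, (k' : G) = x * (k : G) * x⁻¹ → (ξ : ↥C → ℂ) k' = (ξ : ↥C → ℂ) k)}, Function.Bijective f ∧ ∀ χ, (∀ ξ : {ξ : Cfsg.IrrCharacter ↥C // (∀ x ∈ P, ∀ k k' : ↥C, (k' : G) = x * (k : G) * x⁻¹ → (ξ : ↥C → ℂ) k' = (ξ : ↥C → ℂ) k)}, ∃ m : ℕ, (Nat.card ↥C : ℂ)⁻¹ * ∑ᶠ c : ↥C, (χ.1 : ↥K → ℂ) (Subgroup.inclusion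 hCK c) * (starRingEnd ℂ) ((ξ.1 : ↥C → ℂ) c) = (m : ℂ) ∧ (ξ = f χ → ((m : ZMod p) = 1 ∨ (m : ZMod p) = -1)) ∧ (ξ ≠ f χ → p ∣ m)) ∧ ((Cfsg.charDegree ((f χ).1 : ↥C → ℂ) : ZMod p) = (Cfsg.charDegree (χ.1 : ↥K → ℂ) : ZMod p) ∨ (Cfsg.charDegree ((f χ).1 : ↥C → ℂ) : ZMod p) = -(Cfsg.charDegree (χ.1 : ↥K → ℂ) : ZMod p)) := by
  have hp : p.Prime := Fact.out
  have hq := Nat.prime_iff_prime_int.1 hp
  have hK : K ≤ Subgroup.normalizer (Q : Set G) := fun k hk =>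
    Subgroup.mem_normalizer_fintype (hQn k hk)
  have hN : P ≤ Subgroup.normalizer (Q : Set G) := fun x hx =>
    Subgroup.mem_normalizer_fintype fun q h => by
      obtain ⟨a, ha⟩ := hQp
      refine H18.mem_of_coprime_relIndex hK (H16.conj_mem (hPK hx) (hQK h))
        (((hp.coprime_iff_not_dvd.2 hQsyl).pow_left a).coprime_dvd_left ?_)
      rw [← ha, ← MulAut.conj_apply, MulEquiv.orderOf_eq]
      exact Subgroup.orderOf_dvd_natCard Q h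
  obtain rfl : C = rc K Q P := Subgroup.ext fun k => (hC k).trans (mem_rc hK).symm
  have h := rb_pgroup hp hK hQsyl P hP hPK hN
  have hPC := le_norm_rc hK hPK hN (H16.le_norm P)
  set C := rc K Q P
  have h1 : ∀ χ : {χ : IrrCharacter ↥K // (∀ x ∈ P, ∀ k k' : ↥K, (k' : G) = x * (k : G) * x⁻¹ →
      (χ : ↥K → ℂ) k' = (χ : ↥K → ℂ) k)}, ∃ ξ : {ξ : IrrCharacter ↥C // (∀ x ∈ P, ∀ k k' : ↥C,
        (k' : G) = x * (k : G) * x⁻¹ → (ξ : ↥C → ℂ) k' = (ξ : ↥C → ℂ) k)},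
          ¬ (p : ℤ) ∣ mi C (extendByZero K (χ.1 : K → ℂ)) (extendByZero C (ξ.1 : C → ℂ)) := fun χ => by
    obtain ⟨ξ, h1, h2⟩ := h.ex _ ((ext0_mem_IrrS hPK _).1 χ.2)
    obtain ⟨ξ, rfl⟩ := exists_ext0_eq (mem_IrrS.1 h1).1
    exact ⟨⟨ξ, (ext0_mem_IrrS hPC _).2 h1⟩, h2⟩
  choose f hf using h1
  refine ⟨f, ⟨fun χ χ' e => Subtype.ext (irr_ext0_inj (h.un' _ ((ext0_mem_IrrS hPC _).1 (f χ).2) _
    ((ext0_mem_IrrS hPK _).1 χ.2) _ ((ext0_mem_IrrS hPK _).1 χ'.2) (hf χ) (e ▸ hf χ'))),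
    fun ξ => ?_⟩, fun χ => ?_⟩
  · obtain ⟨χ, h1, h2⟩ := h.ex' _ ((ext0_mem_IrrS hPC _).1 ξ.2)
    obtain ⟨χ, rfl⟩ := exists_ext0_eq (mem_IrrS.1 h1).1
    exact ⟨⟨χ, (ext0_mem_IrrS hPK _).2 h1⟩, Subtype.ext (irr_ext0_inj (h.un _ h1 _
      ((ext0_mem_IrrS hPC _).1 (f _).2) _ ((ext0_mem_IrrS hPC _).1 ξ.2) (hf ⟨χ, _⟩) h2))⟩
  have hχ := (ext0_mem_IrrS hPK _).1 χ.2
  have hξ := (ext0_mem_IrrS hPC _).1 (f χ).2
  have h2 := (ZMod.intCast_zmod_eq_zero_iff_dvd _ p).2 (h.sq _ hχ _ hξ (hf χ))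
  rw [Int.cast_sub, Int.cast_pow, Int.cast_one, sub_eq_zero, sq_eq_one_iff] at h2
  refine ⟨fun ξ => ?_, ?_⟩
  · have hη := (ext0_mem_IrrS hPC _).1 ξ.2
    obtain ⟨m, hm⟩ := (irr_char (mem_IrrS.1 hχ).1).dot_nat_of_le hCK (irr_char (mem_IrrS.1 hη).1)
    have h3 := mi_eq (n := m) (hm.trans (Int.cast_natCast m).symm)
    refine ⟨m, ?_, fun e => ?_, fun e => ?_⟩
    · classical
      haveI := Fintype.ofFinite C
      rw [← hm, ← inner_res_eq hCK, finsum_eq_sum_of_fintype, classInner, Nat.card_eq_fintype_card]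
      rfl
    · rwa [← e, h3, Int.cast_natCast] at h2
    · exact Int.natCast_dvd_natCast.1 (h3 ▸ of_not_not fun h4 =>
        e (Subtype.ext (irr_ext0_inj (h.un _ hχ _ hη _ hξ h4 (hf χ)))))
  have h3 := (ZMod.intCast_zmod_eq_zero_iff_dvd _ p).2 (h.degree hp hP hCK hPC hχ hξ (hf χ)
    ((ext0_of_mem _ (one_mem K)).trans (irr_charDegree_cast χ.1).symm)
    ((ext0_of_mem _ (one_mem C)).trans (irr_charDegree_cast (f χ).1).symm))
  rw [Int.cast_sub, Int.cast_mul, Int.cast_natCast, Int.cast_natCast, sub_eq_zero] at h3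
  rcases h2 with h2 | h2 <;> simp [h3, h2]

end Cfsg.Agent.S4914
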