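import Cfsg.Statements.S4916
import Cfsg.Agent.H19.Act
-- import your own Cfsg.Agent.* helpers here

set_option autoImplicit false
open Cfsg

namespace Cfsg.Agent.S4916

open H17

/-- Let G be a finite group, p a prime and M a maximal ideal of the algebraic integers containing p. Then the principal character is the only irreducible character of degree prime to p in the principal p-block of G if and only if p does not divide the order of G. -/
theorem result {G : Type*} [Group G] [Finite G] (p : ℕ) [Fact p.Prime] (M : Ideal Cfsg.AlgInt) (hM : Cfsg.IsPModular p M) : (∀ χ : Cfsg.IrrCharacter G, χ ∈ Cfsg.principalBlock M G → ¬ p ∣ Cfsg.charDegree (χ : G → ℂ) → (χ : G → ℂ) = fun _ => (1 : ℂ)) ↔ ¬ p ∣ Nat.card G := by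
  classical
  obtain ⟨O, hO, _⟩ := H19.exists_over hM
  have hp : p.Prime := Fact.out
  rw [hO.principalBlock_eq]
  refine ⟨fun h hG => ?_, fun h χ hχ _ => ?_⟩
  · have h1 := H19.factorization_sum_sq p (H19.B0 O G)
    have h2 : p ∣ ∑ χ with χ ∈ H19.irr (H19.B0 O G), charDegree (χ : G → ℂ) ^ 2 :=
      Nat.dvd_of_factorization_pos (by
        have := hp.factorization_pos_of_dvd Nat.card_pos.ne' hG
        omega)
    rw [← Finset.add_sum_erase _ _ (a := H19.triv G) (Finset.mem_filter.2 ⟨Finset.mem_univ _, H19.triv_mem_B0⟩),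
      H19.coe_triv, H21.charDegree_const_one, Nat.dvd_add_left (Finset.dvd_sum fun χ hχ =>
        dvd_pow (by_contra fun e => (Finset.mem_erase.1 hχ).1 (Subtype.ext (h χ
          (Finset.mem_filter.1 (Finset.mem_erase.1 hχ).2).2 e))) two_ne_zero)] at h2
    exact hp.one_lt.ne' (Nat.dvd_one.1 h2)
  · have := H19.singleton_of_not_dvd (O := O) h (H19.triv G)
    rw [show H19.lam O (H19.triv G) = H19.B0 O G from H19.triv_mem_B0] at this
    rw [this] at hχ
    exact congrArg Subtype.val hχ

end Cfsg.Agent.S4916
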