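import Cfsg.Statements.S4931
import Cfsg.Agent.H11.ZStar
import Cfsg.Agent.H11.BGLib2
import Cfsg.Agent.H14.Tate
import Cfsg.Agent.S0081
import Cfsg.Agent.H21.CD3
import Cfsg.Agent.H21.GBr

set_option autoImplicit false
open Cfsg

namespace Cfsg.Agent.S4931
open H17 H15 CF H21

variable {G : Type*} [Group G] [Finite G] {N A B : Subgroup G}

/-- intersection of the kernels of the extensions -/
noncomputable def KK (N A : Subgroup G) : Subgroup G :=
  ⨅ χ ∈ {χ | χ ∈ Irr (⊤ : Subgroup G) ∧ Res (N : Set G) χ ∈ IrrQ N A}, cfker χ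

theorem KK_norm (N A : Subgroup G) : ⊤ ≤ 𝒩(KK N A) :=
  le_norm_of_cj_le fun _ hg => le_iInf₂ fun χ h => (cj_mono (iInf₂_le χ h)).trans
    (cj_of_mem_norm (le_norm_cfker (irr_cf h.1) hg)).le

theorem le_KK (h : A ≤ N) : A ≤ KK N A := le_iInf₂ fun _ hχ =>
  ((irr_char hχ.1).le_cfker_Res_iff h).1 (mem_IrrQ.1 hχ.2).2

theorem KK_mono (h : A ≤ B) : KK N A ≤ KK N B := le_iInf₂ fun χ hχ => iInf₂_le χ
  ⟨hχ.1, mem_IrrQ.2 ⟨(mem_IrrQ.1 hχ.2).1, h.trans (mem_IrrQ.1 hχ.2).2⟩⟩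

theorem KK_inf (h : A ≤ N) (hn : N ≤ 𝒩(A))
    (hx : ∀ θ ∈ IrrQ N A, ∃ χ ∈ Irr ⊤, Res (N : Set G) χ = θ) : KK N A ⊓ N ≤ A := by
  by_contra hc
  obtain ⟨θ, hθ, h1⟩ := exists_IrrQ_not_le h hn hc
  obtain ⟨χ, hχ, rfl⟩ := hx θ hθ
  exact h1 (((irr_char hχ).le_cfker_Res_iff inf_le_right).2
    (inf_le_left.trans (iInf₂_le χ ⟨hχ, hθ⟩)))

/-- Let G be a finite group, p a prime and P a Sylow p-subgroup of G with normalizer N. Then every irreducible complex character of N of degree not divisible by p is the restriction of an irreducible character of G if and only if there is a normal subgroup K of G with KN = G and K ∩ N = 1. -/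
theorem result {G : Type*} [Group G] [Finite G] (p : ℕ) [Fact p.Prime] (P : Sylow p G) :
    (∀ θ : Cfsg.IrrCharacter ↥(Subgroup.normalizer ((P : Subgroup G) : Set G)), ¬ p ∣ Cfsg.charDegree (θ : ↥(Subgroup.normalizer ((P : Subgroup G) : Set G)) → ℂ) →
        ∃ χ : Cfsg.IrrCharacter G, ∀ x : ↥(Subgroup.normalizer ((P : Subgroup G) : Set G)), (χ : G → ℂ) x = (θ : ↥(Subgroup.normalizer ((P : Subgroup G) : Set G)) → ℂ) x) ↔
      ∃ K : Subgroup G, K.Normal ∧ K ⊔ Subgroup.normalizer ((P : Subgroup G) : Set G) = ⊤ ∧ K ⊓ Subgroup.normalizer ((P : Subgroup G) : Set G) = ⊥ := by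
  set N := 𝒩((P : Subgroup G)) with hN
  refine ⟨fun h => ?_, fun ⟨K, hK, h1, h2⟩ θ _ => ?_⟩
  swap
  · have hc : IsComplIn K N ⊤ := (H16.H11.isComplIn_iff (Or.inr (le_top.trans (top_le_norm K)))).2
      ⟨h2, h1⟩
    refine ⟨⟨_, mem_Irr_top.1 (sdp_mem_Irr hc (le_top.trans (top_le_norm K)) (ext0_irr θ))⟩,
      fun x => ?_⟩
    exact (sdp_of_mem h2 _ x.2).trans (ext0_of_mem _ x.2)
  have hP := syl_top_sylow P
  have hPN : (P : Subgroup G) ≤ N := le_norm_self _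
  have hD : ⁅(P : Subgroup G), (P : Subgroup G)⁆ ≤ P := commutator_le_of_le le_rfl le_rfl
  have hx : ∀ θ ∈ IrrQ N ⁅(P : Subgroup G), (P : Subgroup G)⁆,
      ∃ χ ∈ Irr ⊤, Res (N : Set G) χ = θ := fun θ hθ => by
    obtain ⟨h1, h2⟩ := mem_IrrQ.1 hθ
    obtain ⟨μ, hμ, h3⟩ := exists_under hPN h1
    obtain ⟨m, h4, h5⟩ := deg_over hPN le_rfl hμ (mem_over.2 ⟨h1, h3⟩)
    rw [deg_lin (isLin_of_le_cfker hμ (le_cfker_of_under hPN hD (irr_char h1) hμ h3 h2)),
      mul_one] at h5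
    obtain ⟨ψ, rfl⟩ := exists_ext0_eq h1
    obtain ⟨χ, hχ⟩ := h ψ fun hd => (hP.of_le hPN le_top).not_dvd_idx Fact.out rfl (by
      refine Dvd.dvd.trans ?_ h4
      rwa [← h5, deg_congr (φ := extendByZero N ψ) (congrFun (res_ext0 N ψ) 1)])
    refine ⟨χ, mem_Irr_top.2 χ.2, ?_⟩
    rw [← ext0_res]
    exact congrArg _ (funext hχ)
  have h0 := KK_inf (hD.trans hPN) (le_norm_comm le_rfl le_rfl) hx
  have h1 := KK_inf hPN le_rfl fun θ hθ => hx θ (mem_IrrQ.2
    ⟨(mem_IrrQ.1 hθ).1, hD.trans (mem_IrrQ.1 hθ).2⟩)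
  have h01 := KK_mono (N := N) hD
  have h2 := le_KK (hD.trans hPN)
  have h3 := le_KK hPN
  have := normal_of_top (KK_norm N ⁅(P : Subgroup G), (P : Subgroup G)⁆)
  have := normal_of_top (KK_norm N P)
  set K := KK N ⁅(P : Subgroup G), (P : Subgroup G)⁆
  set L := KK N P
  set f := QuotientGroup.mk' K with hf
  have hs : Function.Surjective f := QuotientGroup.mk'_surjective K
  have hk : f.ker = K := QuotientGroup.ker_mk' K
  have hPL : Syl(p, (P : Subgroup G), L) := hP.of_le h3 le_top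
  have h4 := H16.H11.burnside_amb (hPL.map f) (by
    rintro _ ⟨⟨k, hkL, rfl⟩, h5⟩
    have h6 : k ∈ 𝒩((P : Subgroup G) ⊔ K) := by
      rw [← hk, ← Subgroup.comap_map_eq]
      exact Subgroup.le_normalizer_comap f h5
    obtain ⟨x, hx, n, hn, rfl⟩ := (hP.of_le le_sup_left le_top).frattini_mem h6
    have h7 : n ∈ (P : Subgroup G) := h1 ⟨(mul_mem_cancel_left (sup_le h3 h01 hx)).1 hkL, hn⟩
    have h8 : (P : Subgroup G).map f ≤ 𝒞((P : Subgroup G).map f) := by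
      rw [le_cent_iff_comm, ← Subgroup.map_commutator, Subgroup.map_eq_bot_iff, hk]
      exact h2
    refine h8 ?_
    rw [← Subgroup.mem_comap, Subgroup.comap_map_eq, hk]
    exact mul_mem hx (Subgroup.mem_sup_left h7))
  set M := (piCoreOf {p}ᶜ (L.map f)).comap f with hM
  have hLn : (L.map f).Normal := Subgroup.Normal.map inferInstance f hs
  have : M.Normal := Subgroup.Normal.comap (normal_of_top (le_norm_piCoreOf _ (top_le_norm _))) f
  have hML : M ≤ L := by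
    refine (Subgroup.comap_mono h4.le).trans ?_
    rw [Subgroup.comap_map_eq, hk]
    exact sup_le le_rfl h01
  have h5 : M ⊓ P ≤ K := fun x hx => by
    rw [← hk, MonoidHom.mem_ker, ← Subgroup.mem_bot, ← h4.isPi.inf_eq_bot' (hP.isPi.map f)]
    exact ⟨hx.1, Subgroup.mem_map_of_mem f hx.2⟩
  have h6 := (H16.pnil_iff Fact.out).1 (S0081.result P M
    (((le_inf h5 (inf_le_right.trans hPN)).trans h0).trans (H14.Fus.comm_le_frattini P.2)))
  have h7 : ⊤ ≤ 𝒩(piCoreOf {p}ᶜ M) := le_norm_piCoreOf _ (top_le_norm _)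
  refine ⟨piCoreOf {p}ᶜ M, normal_of_top h7, eq_top_iff.2 ?_, le_bot_iff.1 ?_⟩
  · rw [← hPL.frattini le_top (top_le_norm L), top_inf_eq]
    refine sup_le ?_ le_sup_right
    refine (hPL.sup_eq_of_idx hML (by
      rw [hM, Subgroup.relIndex_comap]
      simpa using h4.idx)).ge.trans (sup_le (hPN.trans le_sup_right) ?_)
    exact ((hP.inf_normal le_top (le_top.trans (top_le_norm M))).sup_compl h6).ge.trans
      (sup_le (inf_le_left.trans (hPN.trans le_sup_right)) le_sup_left)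
  · rw [← h6.isPi.inf_eq_bot' hP.isPi]
    exact le_inf inf_le_left ((inf_le_inf_right _ (h6.le.trans hML)).trans h1)

end Cfsg.Agent.S4931
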