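import Cfsg.Statements.S4937
import Cfsg.Agent.H20.Res2
-- import your own Cfsg.Agent.* helpers here

set_option autoImplicit false
open Cfsg

namespace Cfsg.Agent.S4937

/-- Let G be a finite group, p a prime, M a maximal ideal of the algebraic integers containing p, N a normal subgroup of G and P a Sylow p-subgroup of N such that G = N·C_G(P). Let θ be an irreducible character in the principal p-block of N that is the restriction of some irreducible character of G. Then θ is the restriction of an irreducible character χ of G lying in the principal p-block of G such that, for every subgroup J of G containing N, the restriction of χ to J is an irreducible character of J lying in the principal p-block of J. -/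
theorem result {G : Type*} [Group G] [Finite G] (p : ℕ) [Fact p.Prime] (M : Ideal Cfsg.AlgInt) (hM : Cfsg.IsPModular p M) (N : Subgroup G) [N.Normal] (P : Sylow p ↥N)
    (hcov : N ⊔ Subgroup.centralizer (((P : Subgroup ↥N).map N.subtype : Subgroup G) : Set G) = ⊤)
    (θ : Cfsg.IrrCharacter ↥N) (hθ : θ ∈ Cfsg.principalBlock M ↥N)
    (hext : ∃ ψ : Cfsg.IrrCharacter G, ∀ x : ↥N, (ψ : G → ℂ) x = (θ : ↥N → ℂ) x) :
    ∃ χ : Cfsg.IrrCharacter G, χ ∈ Cfsg.principalBlock M G ∧ (∀ x : ↥N, (χ : G → ℂ) x = (θ : ↥N → ℂ) x) ∧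
      ∀ J : Subgroup G, N ≤ J → ∃ ξ : Cfsg.IrrCharacter ↥J, ξ ∈ Cfsg.principalBlock M ↥J ∧ ∀ y : ↥J, (ξ : ↥J → ℂ) y = (χ : G → ℂ) y := by
  obtain ⟨O, hO, _⟩ := H19.exists_over hM
  simp only [hO.principalBlock_eq] at hθ ⊢
  obtain ⟨ψ, hψ⟩ := hext
  have hP := (H10.isSylowIn_top P).of_top_subtype.not_dvd_relIndex
  have e := H20.res_eq_iff.2 hψ
  obtain ⟨χ, h1, h2, h3⟩ := H20.exists_ext_aug (O := O) hP hcov (CF.mem_Irr_top.2 ψ.2)
    (e ▸ H20.ext_mem_IB.2 hθ)
  have h4 : CF.Res (N : Set G) χ ∈ CF.Irr N := by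
    rw [CF.Res_congr h2, e]; exact H20.ext_mem_Irr θ
  have key : ∀ J : Subgroup G, N ≤ J →
      CF.Res (J : Set G) χ ∈ H20.IB J (H20.eA J (H19.B0 O J)) := fun J hJ =>
    H20.mem_IB_of_aug (((CF.irr_char h1).Res le_top).mem_Irr_of_Res hJ
      (by rwa [CF.Res_Res_of_le hJ])) fun a ha hO => h3 a (H20.fixed_anti hJ ha.2) hO
  refine ⟨⟨χ, CF.mem_Irr_top.1 h1⟩, ?_, fun x => (h2 x x.2).trans (hψ x), fun J hJ => ?_⟩
  · have := key ⊤ le_top
    rw [CF.Res_top, (H20.isBlk_eA ⊤ _).principal_unique (H20.isBlk_eG _) (H20.aug_eA_B0 ⊤)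
      H20.aug_eG_B0] at this
    exact H20.mem_IB_top.1 this
  · obtain ⟨ξ, h5, h6⟩ := H20.exists_of_IB (key J hJ)
    exact ⟨ξ, h5, fun y => (H20.res_eq_iff.1 h6 y).symm⟩

end Cfsg.Agent.S4937
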