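import Cfsg.Statements.S4949
import Cfsg.Agent.H19.Sn14

set_option autoImplicit false
open Cfsg

namespace Cfsg.Agent.S4949
open H17 H19
theorem comm_of_le {G : Type*} [Group G] [Finite G] {p d : ℕ} [Fact p.Prime]
    (h : Nat.card G = p ^ d) (hd : d ≤ 2) : IsMulCommutative G := by
  interval_cases d
  · have : Subsingleton G := (Nat.card_eq_one_iff_unique.1 (by simpa using h)).1
    exact ⟨⟨fun a b => Subsingleton.elim _ _⟩⟩
  · have := isCyclic_of_prime_card (by simpa using h : Nat.card G = p)
    infer_instance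
  · exact IsPGroup.isMulCommutative_of_card_eq_prime_sq h

/-- Let n be a natural number, p a prime, M a maximal ideal of the algebraic integers containing p, B a p-block of the alternating group of degree n and D a defect group of B. Then either B contains an irreducible character of height 1 and D has an irreducible complex character of degree p, or every irreducible character of B has height zero and D is commutative (so the least positive height in B and the least positive exponent of a character degree of D are both 1 or both absent). -/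
theorem result (n : ℕ) (p : ℕ) [Fact p.Prime] (M : Ideal Cfsg.AlgInt) (hM : Cfsg.IsPModular p M) (B : Set (Cfsg.IrrCharacter ↥(alternatingGroup (Fin n)))) (hB : Cfsg.IsPBlock M B) (D : Subgroup ↥(alternatingGroup (Fin n))) (hD : Cfsg.IsDefectGroup p M B D) :
    ((∃ χ : Cfsg.IrrCharacter ↥(alternatingGroup (Fin n)), χ ∈ B ∧ Cfsg.blockHeight p B (χ : ↥(alternatingGroup (Fin n)) → ℂ) = 1) ∧ (∃ φ : Cfsg.IrrCharacter ↥D, Cfsg.charDegree (φ : ↥D → ℂ) = p)) ∨
    ((∀ χ : Cfsg.IrrCharacter ↥(alternatingGroup (Fin n)), χ ∈ B → Cfsg.blockHeight p B (χ : ↥(alternatingGroup (Fin n)) → ℂ) = 0) ∧ IsMulCommutative D) := by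
  obtain ⟨O, hO, _⟩ := exists_over hM
  obtain ⟨b, rfl⟩ := hO.exists_blk hB
  rw [hO.isDefectGroup_iff hM] at hD
  have hp : p.Prime := Fact.out
  have hN3 : 3 * Fintype.card (Fin n) ≤ Fintype.card (Fin (3 * n)) := by simp
  have hN : 2 * Fintype.card (Fin n) ≤ Fintype.card (Fin (3 * n)) := by omega
  obtain ⟨β, E, γ, w, h⟩ := Sn.exists_AB hN hD
  by_cases hd : blockDefect p (irr b) ≤ 2
  · exact Or.inr ⟨fun χ hχ => H20.height_eq_zero_of_le_two hd hχ, comm_of_le hD.card_eq_pow hd⟩
  have hw0 : w ≠ 0 := by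
    rintro rfl
    exact hd (h.defect_le.trans (by simp))
  have : Nontrivial (Fin n) := by
    rw [← Fintype.one_lt_card_iff_nontrivial]
    exact lt_of_lt_of_le hp.one_lt ((Nat.le_mul_of_pos_right _ (by omega)).trans h.core.le)
  by_cases h2 : p = 2
  · have hw : 3 ≤ w := by
      by_contra hw
      have h3 := h.defect_two h2 hw0
      subst h2
      have : w ≤ 2 := by omega
      interval_cases w
      · exact hw0 rfl
      · simp at h3; omega
      · simp [Nat.prime_two.factorization] at h3; omega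
    obtain ⟨χ, h3, h4, h5⟩ := h.height_one_two hN3 h2 hw
    obtain ⟨θ, h6, h7⟩ := h.exists_under h3
    exact Or.inl ⟨⟨θ, h6, (h.height_eq (Or.inr hw0) h7 (Or.inr h5)).trans h4⟩,
      h.hasDeg (by omega) hw⟩
  by_cases hw : w < p
  · refine Or.inr ⟨fun θ hθ => ?_, h.comm hw⟩
    obtain ⟨χ, h3, h4⟩ := Ix.exists_ov h.cov hθ
    obtain ⟨β', h5, h6⟩ := h.core.exists_lab hN h3
    rw [h.height_eq (Or.inl h2) h4 (Or.inl h2), h.core.height_eq hN h3 h5 h6]
    exact Nat.factorization_eq_zero_of_not_dvd (Sn.not_dvd_cnt hp h5.1 h5.2.1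
      (by rw [h6, h5.2.1, h.core.2.1]) h.core.le hN3 hw)
  · obtain ⟨χ, h3, h4⟩ := h.core.height_one_odd hN3 h2 (not_lt.1 hw)
    obtain ⟨θ, h6, h7⟩ := h.exists_under h3
    have := hp.two_le
    exact Or.inl ⟨⟨θ, h6, (h.height_eq (Or.inl h2) h7 (Or.inl h2)).trans h4⟩,
      h.hasDeg (not_lt.1 hw) (by omega)⟩

end Cfsg.Agent.S4949
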