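import Cfsg.Statements.S4989
import Cfsg.Agent.H21.Basic
import Cfsg.Agent.H17.Central
import Cfsg.Agent.H17.Galois

set_option autoImplicit false
open Cfsg

open H17

namespace Cfsg.Agent.S4989

/-- Let H be a subgroup of the finite group G and χ an irreducible complex character of G. Then the inner product of the restriction of χ to H with itself, (1/#H)·Σ_{h ∈ H} |χ(h)|², is at most 1 + #(Z ∖ H)/#H, where Z is the set of zeros of χ in G. -/
theorem result {G : Type*} [Group G] [Finite G] (H : Subgroup G) (χ : Cfsg.IrrCharacter G) : (Nat.card ↥H : ℝ)⁻¹ * ∑ᶠ h : ↥H, ‖(χ : G → ℂ) h‖ ^ 2 ≤ 1 + (Set.ncard ({x : G | (χ : G → ℂ) x = 0} \ (H : Set G)) : ℝ) / (Nat.card ↥H : ℝ) := by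
  classical
  haveI := Fintype.ofFinite G
  have hH : (0 : ℝ) < Nat.card H := Nat.cast_pos.2 Nat.card_pos
  have h1 := χ.2.isGen.card_le_sum_norm_sq
    (Finset.univ.filter fun x => x ∉ H ∧ (χ : G → ℂ) x ≠ 0) (fun k hk g hg => by
      simp only [Finset.mem_filter, Finset.mem_univ, true_and] at hg ⊢
      have hk' : k.Coprime (orderOf g) := hk.coprime_dvd_right (orderOf_dvd_natCard g)
      refine ⟨fun h => hg.1 ?_, fun h => hg.2 ((χ.2.isGen.apply_pow_eq_zero_iff hk').1 h)⟩
      obtain ⟨m, hm⟩ := exists_pow_eq_self_of_coprime hk'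
      exact hm ▸ H.pow_mem h m) (fun g hg => (Finset.mem_filter.1 hg).2.2)
  have h2 := χ.2.sum_norm_sq
  rw [← Finset.sum_filter_add_sum_filter_not Finset.univ (fun x => x ∈ H),
    Finset.sum_subtype (p := fun x => x ∈ H) _ (by simp)] at h2
  have h3 : ∑ x ∈ Finset.univ.filter (fun x => x ∉ H ∧ (χ : G → ℂ) x ≠ 0), ‖(χ : G → ℂ) x‖ ^ 2 ≤
      ∑ x ∈ Finset.univ.filter (fun x => x ∉ H), ‖(χ : G → ℂ) x‖ ^ 2 :=
    Finset.sum_le_sum_of_subset_of_nonneg (fun x hx => by simp_all) (fun _ _ _ => sq_nonneg _)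
  have h4 : Set.ncard ({x : G | (χ : G → ℂ) x = 0} \ (H : Set G)) =
      (Finset.univ.filter fun x => x ∉ H ∧ (χ : G → ℂ) x = 0).card := by
    rw [← Set.ncard_coe_finset]
    congr 1
    ext x
    simp [and_comm]
  have h5 : (Finset.univ.filter fun x => x ∉ H ∧ (χ : G → ℂ) x = 0).card +
      (Finset.univ.filter fun x => x ∉ H ∧ (χ : G → ℂ) x ≠ 0).card + Nat.card H = Nat.card G := by
    rw [← Finset.filter_filter, ← Finset.filter_filter, Finset.card_filter_add_card_filter_not,
      Nat.card_eq_fintype_card (α := G), ← Finset.card_univ,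
      ← Finset.card_filter_add_card_filter_not (s := Finset.univ) (fun x => x ∈ H), add_comm,
      Nat.card_eq_fintype_card, Fintype.card_subtype]
  have h6 := congrArg (Nat.cast (R := ℝ)) h5
  push_cast at h6
  rw [finsum_eq_sum_of_fintype, h4, inv_mul_le_iff₀ hH, mul_add, mul_one, mul_div_cancel₀ _ hH.ne']
  linarith

end Cfsg.Agent.S4989
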