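import Cfsg.Statements.S4993
import Cfsg.Agent.H12.Av2
import Cfsg.Agent.S0008

set_option autoImplicit false
open Cfsg

namespace Cfsg.Agent.S4993

open Subgroup H16 H12.Av

theorem not_le {G : Type*} [Group G] [Finite G] {K L S : Subgroup G} [K.Normal] [L.Normal]
    (h : L < K) (h1 : Group.IsNilpotent (S.map (QuotientGroup.mk' L)))
    (h2 : K.map (QuotientGroup.mk' L) ≤ S.map (QuotientGroup.mk' L)) : ¬ K ≤ L ⊔ ⁅K, S⁆ := by
  intro e
  have := Normal.map (inferInstance : K.Normal) _ (QuotientGroup.mk'_surjective L)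
  refine (H1.commutator_lt_of_isNilpotent h1 h2 (le_top.trans (nrm _)) fun e1 => h.not_ge (by
    rwa [Subgroup.map_eq_bot_iff, QuotientGroup.ker_mk'] at e1)).not_ge ((map_mono e).trans ?_)
  rw [Subgroup.map_sup, map_commutator, (Subgroup.map_eq_bot_iff L).2 (QuotientGroup.ker_mk' L).ge,
    bot_sup_eq]

theorem nil_map {G H : Type*} [Group G] [Group H] {S : Subgroup G} (f : G →* H)
    (h : Group.IsNilpotent S) : Group.IsNilpotent (S.map f) :=
  Group.nilpotent_of_surjective (f.subgroupMap S) (f.subgroupMap_surjective S)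

theorem nsup {G : Type*} [Group G] [Finite G] {F : Subgroup G} [F.Normal]
    (hm : Group.IsNilpotent (G ⧸ F)) {p : ℕ} [Fact p.Prime] (P : Sylow p G) :
    (F ⊔ P : Subgroup G).Normal := by
  have h1 : ((P.mapSurjective (QuotientGroup.mk'_surjective F)) : Subgroup (G ⧸ F)).Normal :=
    Sylow.normal_of_normalizerCondition Group.normalizerCondition_of_isNilpotent _
  have h2 := h1.comap (QuotientGroup.mk' F)
  rwa [Sylow.coe_mapSurjective, comap_map_eq, QuotientGroup.ker_mk', sup_comm] at h2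

theorem k1 {G : Type*} [Group G] {K L N : Subgroup G} [K.Normal] [L.Normal] [N.Normal]
    (h : Ch K L) (e : ¬ K ≤ L ⊔ ⁅K, N⁆) : ⁅K, N⁆ ≤ L :=
  le_sup_right.trans ((h.eq (L ⊔ ⁅K, N⁆) le_sup_left
    (sup_le h.1.le (commutator_le_left _ _))).resolve_right fun e1 => e e1.ge).le

theorem k2 {G : Type*} [Group G] [Finite G] {K L F : Subgroup G} [K.Normal] [L.Normal] [F.Normal]
    (h : Ch K L) (hF : Group.IsNilpotent F) : ⁅K, F⁆ ≤ L := by
  refine k1 h fun e => not_le h.1 (nil_map _ hF) ((map_mono e).trans ?_) e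
  rw [Subgroup.map_sup, (Subgroup.map_eq_bot_iff L).2 (QuotientGroup.ker_mk' L).ge, bot_sup_eq]
  exact map_mono (commutator_le_right _ _)

theorem k3 {G : Type*} [Group G] [Finite G] {K L : Subgroup G} [hK : K.Normal] [L.Normal]
    {p : ℕ} [Fact p.Prime] (P : Sylow p G) (he : ∀ x ∈ K, x ^ p ∈ L) :
    K.map (QuotientGroup.mk' L) ≤ (P : Subgroup G).map (QuotientGroup.mk' L) := by
  have := hK.map _ (QuotientGroup.mk'_surjective L)
  have h3 : IsPGroup p (K.map (QuotientGroup.mk' L)) := by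
    rintro ⟨_, x, hx, rfl⟩
    refine ⟨1, Subtype.ext ?_⟩
    rw [pow_one]
    exact (QuotientGroup.eq_one_iff _).2 (he x hx)
  have h7 := h3.le_sylow_of_normal (P.mapSurjective (QuotientGroup.mk'_surjective L))
  rwa [Sylow.coe_mapSurjective] at h7

theorem key {G : Type*} [Group G] [Finite G] {F : Subgroup G} [F.Normal] (hF : Group.IsNilpotent F)
    {p : ℕ} [Fact p.Prime] (P : Sylow p G) (h0 : (F ⊔ P : Subgroup G).Normal) :
    ∀ K L : Subgroup G, K.Normal → L.Normal → Ch K L →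
      (∀ x ∈ K, x ^ p ∈ L) → ⁅K, F ⊔ P⁆ ≤ L := by
  intro K L _ _ h he
  have h2 := k2 h hF
  have h4 : F ≤ N[L ⊔ ⁅K, (P : Subgroup G)⁆] :=
    norm_of_comm_le (((commutator_mono (sup_le h.1.le (commutator_le_left _ _)) le_rfl).trans
      h2).trans le_sup_left)
  have h5 : (P : Subgroup G) ≤ N[L ⊔ ⁅K, (P : Subgroup G)⁆] :=
    norm_sup (le_top.trans (nrm L)) (norm_comm (le_top.trans (nrm K)) (le_norm _))
  exact k1 h fun e => not_le h.1 (nil_map _ P.isPGroup'.isNilpotent) (k3 P he)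
    (e.trans (sup_le le_sup_left (comm_sup_le (h2.trans le_sup_left) le_sup_right h4 h5)))

/-- Let G be a group of odd order whose order has exactly two prime divisors and whose quotient by its Fitting subgroup is nilpotent (G is metanilpotent), and let χ be a primitive irreducible complex character of G (not induced from a character of any proper subgroup). Then χ(1) divides the size of some conjugacy class of G. -/
theorem result {G : Type*} [Group G] [Fintype G] (hodd : Odd (Nat.card G)) (h2 : (Nat.card G).primeFactors.card = 2) [hF : (Cfsg.fittingSubgroup G).Normal] (hmeta : Group.IsNilpotent (G ⧸ Cfsg.fittingSubgroup G)) (χ : Cfsg.IrrCharacter G) (hprim : ¬ ∃ (H : Subgroup G), H ≠ ⊤ ∧ ∃ θ : ↥H → ℂ, Cfsg.IsCharacter ↥H θ ∧ Cfsg.indFun H θ = (χ : G → ℂ)) : ∃ g : G, Cfsg.charDegree (χ : G → ℂ) ∣ (Subgroup.centralizer ({g} : Set G)).index := by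
  have hn := Cfsg.Agent.S0008.result (G := G)
  have : Group.IsSolvable G := Group.isSolvable_of_ker_le_range (fittingSubgroup G).subtype
    (QuotientGroup.mk' (fittingSubgroup G)) (by simp)
  obtain ⟨p, q, -, hpq⟩ := Finset.card_eq_two.1 h2
  have h1 : ∀ r, r.Prime ∧ r ∣ Nat.card G ↔ r = p ∨ r = q := fun r => by
    rw [← Finset.mem_singleton (a := q), ← Finset.mem_insert, ← hpq, Nat.mem_primeFactors_of_ne_zero
      Nat.card_pos.ne']
  have := Fact.mk ((h1 p).2 (Or.inl rfl)).1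
  have := Fact.mk ((h1 q).2 (Or.inr rfl)).1
  obtain ⟨P⟩ : Nonempty (Sylow p G) := inferInstance
  obtain ⟨Q⟩ : Nonempty (Sylow q G) := inferInstance
  have p1 := nsup hmeta P
  have q1 := nsup hmeta Q
  have p2 := key hn P p1
  have q2 := key hn Q q1
  obtain ⟨g, hg⟩ := prim_class p2 χ hprim
  obtain ⟨k, hk⟩ := prim_class q2 χ hprim
  have h3 : (fittingSubgroup G ⊔ P) ⊔ (fittingSubgroup G ⊔ Q) = ⊤ := by
    rw [← index_eq_one]
    by_contra e
    obtain ⟨r, hr, h4⟩ := Nat.exists_prime_and_dvd e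
    rcases (h1 r).1 ⟨hr, h4.trans (index_dvd_card _)⟩ with rfl | rfl
    · exact P.not_dvd_index (h4.trans (index_dvd_of_le (le_sup_right.trans le_sup_left)))
    · exact Q.not_dvd_index (h4.trans (index_dvd_of_le (le_sup_right.trans le_sup_right)))
  obtain ⟨a, ha, b, hb, e⟩ := (mem_sup_r (le_top.trans (nrm _))).1 (h3.ge (mem_top (g⁻¹ * k)))
  have h5 : k * b⁻¹ = g * a := by rw [mul_inv_eq_iff_eq_mul, mul_assoc, e, mul_inv_cancel_left]
  have h6 := H21.deg_dvd_card (CF.mem_Irr_top.2 χ.2)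
  rw [card_top] at h6
  refine ⟨g * a, (Nat.factorization_prime_le_iff_dvd (H21.deg_pos (CF.mem_Irr_top.2 χ.2)).ne'
    index_ne_zero_of_finite).1 fun r hr => ?_⟩
  by_cases e1 : r ∣ charDegree (χ : G → ℂ)
  · rcases (h1 r).1 ⟨hr, e1.trans h6⟩ with rfl | rfl
    · exact hg a ha
    · exact h5 ▸ hk _ (inv_mem hb)
  · rw [Nat.factorization_eq_zero_of_not_dvd e1]; exact Nat.zero_le _

end Cfsg.Agent.S4993
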