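import Cfsg.Statements.S4996
import Cfsg.Agent.H21.Basic
import Cfsg.Agent.H21.Ext3
import Cfsg.Agent.H17.Galois

set_option autoImplicit false
open Cfsg

open H17 H15 CF
open scoped ComplexConjugate

namespace Cfsg.Agent.S4996

theorem aux {G : Type*} [Group G] [Finite G] (N : Subgroup G) [N.Normal] [Fintype N] {χ : G → ℂ}
    (hχ : IsCharacter G χ) : ∃ ψ : G → ℂ, IsCharacter G ψ ∧
      ∀ g, ψ g = (((Nat.card N : ℝ)⁻¹ * ∑ n : N, ‖χ (n * g)‖ ^ 2 : ℝ) : ℂ) := by
  have h1 : IsChar ⊤ (χ * star χ) := (isChar_top.2 hχ).mul (isChar_top.2 hχ).star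
  refine ⟨∑ β ∈ IrrQ ⊤ N, dot ⊤ (χ * star χ) β • β, isChar_top.1 (isChar_sum _ _ fun β hβ => ?_),
    fun g => ?_⟩
  · obtain ⟨n, hn⟩ := h1.dot_nat (irr_char (IrrQ_subset _ _ hβ))
    rw [hn]
    exact (irr_char (IrrQ_subset _ _ hβ)).natCast_smul n
  · have h2 := H21.sum_coset_eq le_top (top_le_norm N) h1.cf g
    rw [sum_sub_eq] at h2
    simp only [Finset.sum_apply, Pi.smul_apply, smul_eq_mul]
    push_cast
    rw [eq_inv_mul_iff_mul_eq₀ (card_ne N), ← h2]
    refine Finset.sum_congr rfl fun n _ => ?_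
    rw [Pi.mul_apply, Pi.star_apply, RCLike.star_def, Complex.mul_conj, Complex.normSq_eq_norm_sq]
    push_cast
    rfl

/-- Let N be a normal subgroup of the finite group G and χ an irreducible complex character of G. Then the restriction of χ to N is not irreducible if and only if χ vanishes on some whole coset Nx of N in G. -/
theorem result {G : Type*} [Group G] [Finite G] (N : Subgroup G) [N.Normal] (χ : Cfsg.IrrCharacter G) : ¬ Cfsg.IsIrrCharacter ↥N (fun n : ↥N => (χ : G → ℂ) n) ↔ ∃ x : G, ∀ n : ↥N, (χ : G → ℂ) ((n : G) * x) = 0 := by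
  classical
  haveI := Fintype.ofFinite G
  obtain ⟨ψ, hψ, h⟩ := aux N χ.2.isCharacter
  have hN : (0 : ℝ) < Nat.card N := Nat.cast_pos.2 Nat.card_pos
  have h1 : ψ 1 = classInner (fun n : N => (χ : G → ℂ) n) (fun n : N => (χ : G → ℂ) n) := by
    rw [h, classInner_self_eq]
    simp only [mul_one]
  constructor
  · intro hn
    by_contra hc
    push Not at hc
    apply hn
    refine (χ.2.isCharacter.restrict N).isIrr_of_norm_one ?_
    have h0 : ∀ g, 0 < (Nat.card N : ℝ)⁻¹ * ∑ n : N, ‖(χ : G → ℂ) (n * g)‖ ^ 2 := fun g => by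
      obtain ⟨n, hn⟩ := hc g
      exact mul_pos (inv_pos.2 hN) (Finset.sum_pos' (fun _ _ => sq_nonneg _)
        ⟨n, Finset.mem_univ _, pow_pos (norm_pos_iff.2 hn) 2⟩)
    have h2 := hψ.isGen.card_le_sum_norm (Finset.univ.filter fun x => x ∉ N) (fun k hk g hg => by
      simp only [Finset.mem_filter, Finset.mem_univ, true_and] at hg ⊢
      obtain ⟨m, hm⟩ := exists_pow_eq_self_of_coprime
        (hk.coprime_dvd_right (orderOf_dvd_natCard g))
      exact fun h => hg (hm ▸ N.pow_mem h m)) (fun g _ => by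
        rw [h]; exact Complex.ofReal_ne_zero.2 (h0 g).ne')
    have h3 : ∀ g, ‖ψ g‖ = (Nat.card N : ℝ)⁻¹ * ∑ n : N, ‖(χ : G → ℂ) (n * g)‖ ^ 2 := fun g => by
      rw [h, Complex.norm_real, Real.norm_eq_abs, abs_of_pos (h0 g)]
    have h4 : ∑ g, ‖ψ g‖ = Nat.card G := by
      simp only [h3]
      have h5 : ∀ n : N, ∑ g, ‖(χ : G → ℂ) (n * g)‖ ^ 2 = Nat.card G := fun n =>
        (Equiv.sum_comp (Equiv.mulLeft (n : G)) (fun g => ‖(χ : G → ℂ) g‖ ^ 2)).trans
          χ.2.sum_norm_sq
      rw [← Finset.mul_sum, Finset.sum_comm, Finset.sum_congr rfl fun n _ => h5 n,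
        Finset.sum_const, Finset.card_univ, nsmul_eq_mul,
        ← Nat.card_eq_fintype_card, ← mul_assoc, inv_mul_cancel₀ hN.ne', one_mul]
    obtain ⟨m, hm⟩ := hψ.exists_nat_one
    have h5 : ∀ g ∈ Finset.univ.filter (fun x => x ∈ N), ‖ψ g‖ = m := fun g hg => by
      have h6 : ‖ψ 1‖ = m := by rw [hm, Complex.norm_natCast]
      rw [← h6, h3, h3]
      congr 1
      exact Fintype.sum_equiv (Equiv.mulRight (⟨g, (Finset.mem_filter.1 hg).2⟩ : N)) _ _
        fun n => by simp
    rw [← Finset.sum_filter_add_sum_filter_not Finset.univ (fun x => x ∈ N),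
      Finset.sum_congr rfl h5, Finset.sum_const, nsmul_eq_mul] at h4
    have h6 : (Finset.univ.filter fun x => x ∈ N).card = Nat.card N := by
      rw [Nat.card_eq_fintype_card, Fintype.card_subtype]
    have h7 := Finset.card_filter_add_card_filter_not (s := Finset.univ) (fun x => x ∈ N)
    rw [Finset.card_univ, ← Nat.card_eq_fintype_card, h6] at h7
    have h8 := congrArg (Nat.cast (R := ℝ)) h7
    push_cast at h8
    rw [h6] at h4
    have h9 : (m : ℝ) ≤ 1 := le_of_mul_le_mul_left (by linarith) hN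
    have h10 : 0 < m := by
      have := h0 1
      rw [← h3, hm, Complex.norm_natCast] at this
      exact_mod_cast this
    have h11 : m = 1 := le_antisymm (by exact_mod_cast h9) h10
    rw [← h1, hm, h11, Nat.cast_one]
  · rintro ⟨x, hx⟩ hn
    have h2 := H21.norm_eq_one_of_one_eq_one hψ (h1.trans hn.inner_self) x
    rw [h] at h2
    simp [hx] at h2

end Cfsg.Agent.S4996
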