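import Cfsg.Statements.S5001
import Cfsg.Agent.H19.Ht3
-- import your own Cfsg.Agent.* helpers here

set_option autoImplicit false
open Cfsg

namespace Cfsg.Agent.S5001

open H17 in
open scoped ComplexConjugate in
theorem aux {D : Type*} [Group D] [Fintype D] {θ : D → ℂ} {z : D} {c : ℂ}
    (h : ∀ u, θ (z * u) = c * θ u) (μ : D →* ℂˣ)
    (h0 : classInner θ (fun g => (μ g : ℂ)) ≠ 0) : (μ z : ℂ) = c := by
  rw [classInner_def] at h0
  have h1 : ∑ g, θ g * conj (μ g : ℂ) = c * conj (μ z : ℂ) * ∑ g, θ g * conj (μ g : ℂ) := by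
    rw [Finset.mul_sum, ← Equiv.sum_comp (Equiv.mulLeft z)]
    refine Finset.sum_congr rfl fun g _ => ?_
    simp only [Equiv.coe_mulLeft, h, map_mul, Units.val_mul]
    ring
  have h2 : ∑ g, θ g * conj (μ g : ℂ) ≠ 0 := fun h => h0 (by rw [h, mul_zero])
  have h3 : c * conj (μ z : ℂ) = 1 := by
    have := mul_right_cancel₀ h2 (h1.symm.trans (one_mul _).symm)
    exact this
  rw [linear_conj, map_inv, Units.val_inv_eq_inv_val] at h3
  have h4 : (μ z : ℂ) ≠ 0 := Units.ne_zero _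
  field_simp at h3
  exact h3.symm


/-- Let p be a prime, G a finite group and B a p-block of G (relative to a maximal ideal M of the algebraic integers containing p) with defect group D. Let Z be a central p-subgroup of G contained in D and λ a linear character of Z (a homomorphism to the nonzero complex numbers). Say an irreducible character χ of G lies over λ when χ(z) = χ(1)λ(z) for all z ∈ Z. If some irreducible character in B lying over λ has height zero, then λ extends to a linear character of D. -/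
theorem result {G : Type*} [Group G] [Finite G] (p : ℕ) [Fact p.Prime] (M : Ideal Cfsg.AlgInt) (hM : Cfsg.IsPModular p M) (B : Set (Cfsg.IrrCharacter G)) (hB : Cfsg.IsPBlock M B) (D : Subgroup G) (hD : Cfsg.IsDefectGroup p M B D) (Z : Subgroup G) (hZc : Z ≤ Subgroup.center G) (hZp : IsPGroup p ↥Z) (hZD : Z ≤ D) (lam : ↥Z →* ℂˣ) (χ : Cfsg.IrrCharacter G) (hχ : χ ∈ B) (hover : (∀ z : ↥Z, (χ : G → ℂ) z = (χ : G → ℂ) 1 * (lam z : ℂ))) (h0 : Cfsg.blockHeight p B (χ : G → ℂ) = 0) : (∃ μ : ↥D →* ℂˣ, ∀ z : ↥Z, μ ⟨(z : G), hZD z.2⟩ = lam z) := by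
  classical
  obtain ⟨O, hO, _⟩ := H19.exists_over hM
  obtain ⟨β, rfl⟩ := hO.exists_blk hB
  rw [hO.isDefectGroup_iff hM] at hD
  obtain ⟨y, hy, hyc, -⟩ := hD.exists_isDefCl
  have hu := hy.irr_unit hχ h0
  haveI := Fintype.ofFinite D
  have hle : D ≤ Subgroup.centralizer {y} := fun d hd => by
    rw [Subgroup.mem_centralizer_singleton_iff]
    exact (Subgroup.mem_centralizer_iff.1 hyc d hd)
  have hθ := H19.GC_shift (H19.ZB_le O) (H19.irr_mem_GC χ) hle
  have h1 := H17.Cfsg.IsClassFunction.apply_eq_sum (H19.GC_class hθ) 1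
  simp only [Subgroup.coe_one, mul_one] at h1
  have h2 : ∃ μ : IrrCharacter D, classInner (fun u : D => (χ : G → ℂ) (y * u)) μ * (μ : D → ℂ) 1
      ∉ O.nonunits := by
    by_contra hc
    push Not at hc
    exact hu (h1 ▸ O.nonunits.toAddSubgroup.sum_mem fun μ _ => hc μ)
  obtain ⟨μ, hμ⟩ := h2
  have hin := H19.GC_inner hθ (H17.Cfsg.IsIrrCharacter.isGen μ.2)
  obtain ⟨n, -, hn⟩ := H17.Cfsg.IsIrrCharacter.exists_pos_one μ.2
  have hnd : ¬ p ∣ n := fun h => hμ (H19.nonunits_mul_left hin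
    (by rw [hn]; exact (H19.natCast_mem_nonunits_iff p n).2 h))
  have hn1 : n = 1 := by
    have hdv := H17.Cfsg.IsIrrCharacter.degree_dvd_card μ.2 hn
    obtain ⟨k, hk⟩ := IsPGroup.iff_card.1 hD.isPGroup
    rw [hk] at hdv
    obtain ⟨j, -, rfl⟩ := (Nat.dvd_prime_pow Fact.out).1 hdv
    rcases j with _ | j
    · rfl
    · exact absurd (dvd_pow_self p (Nat.succ_ne_zero j)) hnd
  obtain ⟨ν, hν⟩ := H17.Cfsg.IsCharacter.exists_linear
    (H17.Cfsg.IsIrrCharacter.isCharacter μ.2) (by rw [hn, hn1]; simp)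
  refine ⟨ν, fun z => Units.ext ?_⟩
  obtain ⟨ω, hω⟩ := H17.mem_charCenter_def.1
    (H17.Cfsg.IsIrrCharacter.center_le_charCenter χ.2 (hZc z.2))
  have hωz : (ω : ℂ) = lam z := by
    have h3 := hω 1
    rw [mul_one, hover, mul_comm] at h3
    exact (mul_right_cancel₀ (H17.Cfsg.IsIrrCharacter.one_ne_zero χ.2) h3).symm
  refine aux (θ := fun u : D => (χ : G → ℂ) (y * u)) (fun u => ?_) ν ?_
  · simp only [Subgroup.coe_mul]
    rw [← mul_assoc, Subgroup.mem_center_iff.1 (hZc z.2) y, mul_assoc, hω, hωz]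
  · rw [← hν]
    intro h
    exact hμ (by rw [h, zero_mul]; exact O.nonunits.zero_mem)

end Cfsg.Agent.S5001
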