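import Cfsg.Statements.S5011
import Cfsg.Agent.H17.Central

set_option autoImplicit false
open Cfsg

open H17

namespace Cfsg.Agent.S5011

/-- Let G be a finite non-abelian simple group and ρ an irreducible complex representation of G on a space of dimension greater than one (irreducible in the sense that the only subspaces invariant under every ρ(x) are 0 and the whole space). Then for every non-identity element g of G, the centralizer of g does not act irreducibly: there is a non-zero proper subspace invariant under ρ(c) for every c commuting with g. -/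
theorem result {G : Type*} [Group G] [Finite G] [IsSimpleGroup G]
    (hG : ¬ IsMulCommutative G) {V : Type*} [AddCommGroup V] [Module ℂ V] [FiniteDimensional ℂ V]
    (ρ : Representation ℂ G V)
    (hirr : ∀ W : Submodule ℂ V, (∀ x : G, ∀ v ∈ W, ρ x v ∈ W) → W = ⊥ ∨ W = ⊤)
    (hdim : 1 < Module.finrank ℂ V) (g : G) (hg : g ≠ 1) :
    ∃ W : Submodule ℂ V, W ≠ ⊥ ∧ W ≠ ⊤ ∧ ∀ c ∈ Subgroup.centralizer ({g} : Set G), ∀ v ∈ W, ρ c v ∈ W := by
  by_contra hc
  push Not at hc
  haveI : Nontrivial V := Module.nontrivial_of_finrank_pos (R := ℂ) (by omega)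
  haveI : ρ.IsIrreducible := (isIrreducible_iff ρ).2 ⟨inferInstance, hirr⟩
  let C := Subgroup.centralizer ({g} : Set G)
  let σ : Representation ℂ C V := ρ.comp C.subtype
  haveI : σ.IsIrreducible := (isIrreducible_iff σ).2 ⟨inferInstance, fun W hW => by
    by_contra h
    push Not at h
    obtain ⟨c, hcC, v, hv, h2⟩ := hc W h.1 h.2
    exact h2 (hW ⟨c, hcC⟩ v hv)⟩
  obtain ⟨c, hcg⟩ := schur_scalar σ (ρ g) (fun x => by
    change ρ g * ρ x = ρ x * ρ g
    rw [← map_mul, ← map_mul, Subgroup.mem_centralizer_iff.1 x.2 g rfl])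
  have hχ := isIrr_character ρ
  have h1 : ρ.character ≠ fun _ => 1 := fun h => by
    have := congrFun h 1
    rw [Representation.char_one] at this
    have h2 : Module.finrank ℂ V = 1 := by exact_mod_cast this
    omega
  have h2 := mem_charCenter_character ρ |>.2 ⟨c, hcg⟩
  rw [hχ.charCenter_eq_center (hχ.charKer_eq_bot_of_simple h1)] at h2
  rcases (inferInstance : (Subgroup.center G).Normal).eq_bot_or_eq_top with h | h
  · exact hg (Subgroup.mem_bot.1 (h ▸ h2))
  · exact hG ⟨⟨fun a b => Subgroup.mem_center_iff.1 (h ▸ Subgroup.mem_top b) a⟩⟩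

end Cfsg.Agent.S5011
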