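import Cfsg.Statements.S5012
import Cfsg.Agent.H24.LT5
import Cfsg.Agent.S0906
import Cfsg.Agent.S0908
import Cfsg.Agent.S0955
import Cfsg.Agent.S0956
import Cfsg.Agent.H1.Cores

set_option autoImplicit false
set_option maxHeartbeats 400000
open Cfsg

namespace Cfsg.Agent.S5012

/-- Let G be a finite simple group of Lie type in characteristic p. Then every p-block of G has defect zero or full defect: its defect is 0 or the exponent of p in the order of G (its defect groups are trivial or Sylow p-subgroups). -/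
theorem result {G : Type*} [Group G] [Finite G] (p : ℕ) [Fact p.Prime] (hG : Cfsg.IsLieTypeChar p G) (M : Ideal Cfsg.AlgInt) (hM : Cfsg.IsPModular p M) (B : Set (Cfsg.IrrCharacter G)) (hB : Cfsg.IsPBlock M B) : Cfsg.blockDefect p B = 0 ∨ Cfsg.blockDefect p B = (Nat.card G).factorization p := by
  obtain ⟨g, hg⟩ := S0906.result p M hM B hB
  obtain ⟨S⟩ : Nonempty (Sylow p (Subgroup.centralizer ({g} : Set G))) := inferInstance
  obtain ⟨D, hD⟩ : ∃ D, IsDefectGroup p M B D := ⟨_, g, hg, S, rfl⟩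
  have h1 := S0908.result p M hM B hB D hD
  have hp := IsPGroup.of_card h1
  by_cases h0 : D = ⊥
  · rw [h0, Subgroup.card_bot] at h1
    exact .inl ((Nat.pow_eq_one.1 h1.symm).resolve_left (Fact.out : p.Prime).ne_one)
  obtain ⟨Q, a1, a2, a3, a4⟩ := (H24.nice_of_lie hG).bt D hp h0
  have a5 : Q ⊓ Subgroup.normalizer (D : Set G) ≤ D := fun x hx => by
    have : (Q.subgroupOf (Subgroup.normalizer (D : Set G))).Normal := Subgroup.normal_subgroupOf_of_le_normalizer a3
    rw [← S0955.result p M hM B hB D hD]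
    exact ⟨⟨x, hx.2⟩, H1.le_pCore (N := Q.subgroupOf _) a1.comap_subtype hx.1, rfl⟩
  have a6 : Q ≤ D := by
    have := a1.isNilpotent
    by_contra h
    obtain ⟨x, hx, hx'⟩ := SetLike.exists_of_lt (normalizerCondition_of_isNilpotent (D.subgroupOf Q)
      (lt_top_iff_ne_top.2 fun e => h (Subgroup.subgroupOf_eq_top.1 e)))
    rw [← Subgroup.subgroupOf_normalizer_eq a2] at hx
    exact hx' (a5 ⟨x.2, hx⟩)
  obtain ⟨P, hP⟩ := hp.exists_le_sylow
  obtain ⟨x, b1, ⟨T, b2⟩, -⟩ := S0956.result p M hM B hB D hD P hP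
  have b3 : x ∈ Q := a4 fun y hy => by
    obtain ⟨y, -, rfl⟩ := b2.ge (a6 hy)
    exact (y.2 x rfl).symm
  obtain ⟨k, hk⟩ := IsPGroup.iff_orderOf.1 a1 ⟨x, b3⟩
  rw [Subgroup.orderOf_mk] at hk
  obtain rfl : x = 1 := by
    rcases k with _ | k
    · exact orderOf_eq_one_iff.1 hk
    · exact absurd (hk ▸ dvd_pow_self p k.succ_ne_zero) b1
  right
  rw [← b2, Subgroup.card_map_of_injective (Subgroup.subtype_injective _), T.card_eq_multiplicity,
    show Subgroup.centralizer ({1} : Set G) = ⊤ from eq_top_iff.2 fun y _ => by simp [Subgroup.mem_centralizer_iff],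
    Subgroup.card_top] at h1
  exact (Nat.pow_right_injective (Fact.out : p.Prime).two_le h1).symm

end Cfsg.Agent.S5012
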