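import Cfsg.Statements.S5075
import Cfsg.Agent.H11.MD

set_option autoImplicit false
open Cfsg

namespace Cfsg.Agent.S5075

open H11.McL Module

theorem tv_of {p : ℕ} [Fact p.Prime] {V : Type*} [AddCommGroup V] [Module (ZMod p) V] [Finite V]
    (t : V ≃ₗ[ZMod p] V) (h1 : orderOf t = p)
    (h2 : Module.finrank (ZMod p) ↥(LinearMap.ker ((t : V →ₗ[ZMod p] V) - LinearMap.id)) + 1 =
        Module.finrank (ZMod p) V) :
    ∃ (x : V) (φ : Dual (ZMod p) V), φ x = 0 ∧ x ≠ 0 ∧ φ ≠ 0 ∧ ∀ v, t v = v + φ v • x := by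
  have h3 := LinearMap.finrank_range_add_finrank_ker ((t : V →ₗ[ZMod p] V) - LinearMap.id)
  obtain ⟨φ, x, e⟩ := (LinearEquiv.mem_dilatransvections_iff_finrank (e := t)).2 (by omega)
  have e' : ∀ v, t v = v + φ v • x := fun v => LinearMap.congr_fun e v
  have h4 : t ≠ 1 := by
    rintro rfl
    rw [orderOf_one] at h1
    exact (Fact.out : p.Prime).one_lt.ne h1
  have hx : x ≠ 0 := by
    rintro rfl
    exact h4 (LinearEquiv.ext fun v => by simp [e'])
  refine ⟨x, φ, ?_, hx, ?_, e'⟩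
  · have h5 : ∀ n : ℕ, (t ^ n) x = (1 + φ x) ^ n • x := by
      intro n
      induction n with
      | zero => simp
      | succ n ih =>
        rw [pow_succ', LinearEquiv.mul_apply, ih, map_smul, e', pow_succ, mul_smul, add_smul,
          one_smul]
    have h6 := h5 p
    have h7 : t ^ p = 1 := by simpa [h1] using pow_orderOf_eq_one t
    rw [h7, ZMod.pow_card, add_smul, one_smul] at h6
    simpa [hx] using h6
  · rintro rfl
    exact h4 (LinearEquiv.ext fun v => by simp [e'])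


/-- Let p be an odd prime, V a finite-dimensional vector space over the field with p elements, and H a group of linear automorphisms of V generated by transvections (elements of order p fixing a hyperplane pointwise) and having no nontrivial normal p-subgroup. Then for some n ≥ 1 there are a decomposition V = V₀ ⊕ V₁ ⊕ ⋯ ⊕ Vₙ into H-invariant subspaces and a decomposition of H as the internal direct product of normal subgroups H₁, …, Hₙ such that Hⱼ acts trivially on every Vᵢ with i ≠ j, and Hⱼ induces on Vⱼ exactly the special linear group of Vⱼ or exactly the isometry group of a non-degenerate alternating form on Vⱼ. -/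
theorem result {p : ℕ} [Fact p.Prime] (hp : Odd p) {V : Type*} [AddCommGroup V] [Module (ZMod p) V] [Finite V]
    (H : Subgroup (V ≃ₗ[ZMod p] V)) (T : Set (V ≃ₗ[ZMod p] V)) (hHT : H = Subgroup.closure T)
    (hT : ∀ t ∈ T, orderOf t = p ∧
      Module.finrank (ZMod p) ↥(LinearMap.ker ((t : V →ₗ[ZMod p] V) - LinearMap.id)) + 1 =
        Module.finrank (ZMod p) V)
    (hOp : Cfsg.pCore p ↥H = ⊥) :
    ∃ (n : ℕ) (W : Fin (n + 1) → Submodule (ZMod p) V) (K : Fin n → Subgroup (V ≃ₗ[ZMod p] V)),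
      1 ≤ n ∧ DirectSum.IsInternal W ∧
      (∀ h ∈ H, ∀ i, (W i).map (h : V →ₗ[ZMod p] V) = W i) ∧
      (∀ j, K j ≤ H ∧ ((K j).subgroupOf H).Normal) ∧ ⨆ j, K j = H ∧
      (∀ j, K j ⊓ (⨆ j' ∈ {j' : Fin n | j' ≠ j}, K j') = ⊥) ∧
      (∀ j j', j ≠ j' → ∀ a ∈ K j, ∀ b ∈ K j', a * b = b * a) ∧
      (∀ j, ∀ h ∈ K j, ∀ i : Fin (n + 1), i ≠ j.succ → ∀ v ∈ W i, h v = v) ∧
      (∀ j, ∃ ρ : ↥(K j) →* (↥(W j.succ) ≃ₗ[ZMod p] ↥(W j.succ)),
        (∀ (h : ↥(K j)) (v : ↥(W j.succ)), ((ρ h v : ↥(W j.succ)) : V) = (h : V ≃ₗ[ZMod p] V) (v : V)) ∧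
        ((ρ.range : Set (↥(W j.succ) ≃ₗ[ZMod p] ↥(W j.succ))) =
            {f : ↥(W j.succ) ≃ₗ[ZMod p] ↥(W j.succ) | LinearMap.det (f : ↥(W j.succ) →ₗ[ZMod p] ↥(W j.succ)) = 1} ∨
          ∃ B : LinearMap.BilinForm (ZMod p) ↥(W j.succ), B.IsAlt ∧ B.Nondegenerate ∧
            (ρ.range : Set (↥(W j.succ) ≃ₗ[ZMod p] ↥(W j.succ))) = {f : ↥(W j.succ) ≃ₗ[ZMod p] ↥(W j.succ) | ∀ x y, B (f x) (f y) = B x y})) := by
  classical
  have hG : Gen H := by
    refine hHT.le.trans (Subgroup.closure_mono fun t ht => ?_)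
    obtain ⟨x, φ, a1, a2, a3, a4⟩ := tv_of t (hT t ht).1 (hT t ht).2
    exact ⟨x, φ, ⟨a1, t, hHT ▸ Subgroup.subset_closure ht, a4⟩, a2, a3, a4⟩
  have : Finite (Dual (ZMod p) V) := DFunLike.finite _
  let ι := {C : Set (V × Dual (ZMod p) V) // Cl H C}
  have : Nonempty ι := ⟨⟨∅, by simp, by simp⟩⟩
  let e : Fin (Nat.card ι) ≃ ι := (Finite.equivFin ι).symm
  let C : Fin (Nat.card ι) → Set (V × Dual (ZMod p) V) := fun j => (e j).1
  have hC : ∀ j, Cl H (C j) := fun j => (e j).2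
  have hne : ∀ j j', j ≠ j' → C j ≠ C j' := fun j j' h h' => h (e.injective (Subtype.ext h'))
  let U := fun j => UU (ZMod p) (EC (C j))
  have UA : ∀ j j', j ≠ j' → U j ≤ AC (C j') := fun j j' h =>
    (hC j).U_le_A hG hp hOp (hC j') (hne j j' h)
  have cpl : ∀ j, IsCompl (U j) (AC (C j)) := fun j => (hC j).compl hG hp hOp
  have sup : ⨆ j, KC (C j) = H := by
    refine le_antisymm (iSup_le fun j => (hC j).le_H) (hG.trans ((Subgroup.closure_le _).2 ?_))
    rintro g ⟨x, φ, a1, a2, a3, a4⟩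
    have hc : Cl H {c | H11.McL.Rel H (x, φ) c} :=
      ⟨fun a ha c hc => (H11.McL.Rel.symm hG hp hOp ha).trans hc, fun a ha c hc => H11.McL.Rel.trans ha hc⟩
    refine (le_iSup (fun j => KC (C j)) (e.symm ⟨_, hc⟩)) (Subgroup.subset_closure ⟨(x, φ), ?_, a4⟩)
    simp only [C, Equiv.apply_symm_apply]
    exact ⟨⟨a1, a2, a3⟩, .refl⟩
  have comm : ∀ j j', j ≠ j' → ∀ a ∈ KC (C j), ∀ b ∈ KC (C j'), a * b = b * a := by
    intro j j' h a ha b hb
    ext v
    have e1 := ((hC j).K_mem ha).2 _ (UA j' j h.symm (((hC j').K_mem hb).1 v))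
    have e2 := ((hC j').K_mem hb).2 _ (UA j j' h (((hC j).K_mem ha).1 v))
    simp only [map_sub] at e1 e2
    simp only [LinearEquiv.mul_apply]
    rw [sub_eq_iff_eq_add.1 e1, sub_eq_iff_eq_add.1 e2]
    abel
  let π : ∀ j, V →ₗ[ZMod p] V := fun j => (U j).subtype ∘ₗ (U j).projectionOnto _ (cpl j)
  have π1 : ∀ j v, π j v ∈ U j := fun j v => Subtype.property _
  have π2 : ∀ j, ∀ v ∈ U j, π j v = v := fun j v hv => by
    simpa [π] using congrArg Subtype.val (Submodule.projectionOnto_apply_left (cpl j) ⟨v, hv⟩)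
  have π3 : ∀ j, ∀ v ∈ AC (C j), π j v = 0 := fun j v hv => by simpa [π] using hv
  have π4 : ∀ j v, v - π j v ∈ AC (C j) := fun j v => by
    obtain ⟨a, ha, b, hb, rfl⟩ := Submodule.mem_sup.1 ((cpl j).sup_eq_top ▸ Submodule.mem_top : v ∈ _)
    simpa [π2 j a ha, π3 j b hb] using hb
  have mapeq : ∀ (W : Submodule (ZMod p) V), Inv (DD H) W → ∀ h ∈ H,
      W.map (h : V →ₗ[ZMod p] V) = W := by
    intro W hW h hh
    ext v
    constructor
    · rintro ⟨w, hw, rfl⟩
      exact (hG.inv hW hh w).2 hw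
    · intro hv
      exact ⟨h⁻¹ v, (hG.inv hW (H.inv_mem hh) v).2 hv, by simp⟩
  refine ⟨Nat.card ι, Fin.cons (⨅ j, AC (C j)) U, fun j => KC (C j), Nat.card_pos, ?_, ?_,
    fun j => ⟨(hC j).le_H, ?_⟩, sup, fun j => ?_, comm, ?_, fun j => ?_⟩
  · rw [DirectSum.isInternal_submodule_iff_iSupIndep_and_iSup_eq_top]
    constructor
    · intro i
      refine Fin.cases ?_ (fun j => ?_) i
      · have : (⨆ k, ⨆ (_ : k ≠ 0), (Fin.cons (⨅ j, AC (C j)) U : Fin (Nat.card ι + 1) → _) k) ≤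
            LinearMap.ker (LinearMap.id - ∑ j, π j) := by
          refine iSup_le fun k => Fin.cases (by simp) (fun k => iSup_le fun _ v hv => ?_) k
          simp only [Fin.cons_succ] at hv
          simp only [LinearMap.mem_ker, LinearMap.sub_apply, LinearMap.id_apply,
            LinearMap.sum_apply]
          rw [Finset.sum_eq_single k (fun j _ hj => π3 j v (UA k j hj.symm hv)) (by simp),
            π2 k v hv, sub_self]
        refine Disjoint.mono_right this (Submodule.disjoint_def.2 fun v hv hv' => ?_)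
        simp only [Fin.cons_zero, Submodule.mem_iInf] at hv
        simpa [π3 _ v (hv _)] using hv'
      · refine Disjoint.mono_right (iSup_le fun k => Fin.cases ?_ (fun k => ?_) k) (cpl j).disjoint
        · exact iSup_le fun _ => iInf_le _ j
        · exact iSup_le fun hk => UA k j fun h => hk (h ▸ rfl)
    · rw [eq_top_iff]
      intro v _
      have e1 : v = (v - ∑ j, π j v) + ∑ j, π j v := by abel
      rw [e1]
      refine Submodule.add_mem _ (Submodule.mem_iSup_of_mem 0 ?_) (Submodule.sum_mem _ fun j _ =>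
        Submodule.mem_iSup_of_mem j.succ (π1 j v))
      simp only [Fin.cons_zero, Submodule.mem_iInf]
      intro k
      rw [← Finset.add_sum_erase _ _ (Finset.mem_univ k), ← sub_sub]
      exact Submodule.sub_mem _ (π4 k v) (Submodule.sum_mem _ fun j hj =>
        UA j k (Finset.ne_of_mem_erase hj) (π1 j v))
  · intro h hh i
    refine Fin.cases (mapeq _ ?_ h hh) (fun j => mapeq _ ((hC j).U_inv hG hp hOp) h hh) i
    intro x φ a1 a2 a3 v hv
    simp only [Fin.cons_zero, Submodule.mem_iInf] at hv ⊢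
    exact fun j => (hC j).A_inv x φ a1 a2 a3 v (hv j)
  · rw [Subgroup.normal_subgroupOf_iff_le_normalizer (hC j).le_H, ← sup]
    refine iSup_le fun k => ?_
    by_cases hk : k = j
    · rw [hk]; exact Subgroup.le_normalizer
    · refine le_trans (fun g hg => Subgroup.mem_centralizer_iff.2 fun a ha => ?_)
        (Subgroup.centralizer_le_normalizer _)
      exact (comm k j hk g hg a ha).symm
  · rw [eq_bot_iff]
    rintro g ⟨h1, h2⟩
    have h3 : (⨆ j' ∈ {j' | j' ≠ j}, KC (C j')) ≤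
        { carrier := {g : V ≃ₗ[ZMod p] V | ∀ v ∈ U j, g v = v}
          one_mem' := by simp
          mul_mem' := fun ha hb v hv => by simp [ha v hv, hb v hv]
          inv_mem' := fun {a} ha v hv => a.injective (by simp [ha v hv]) } :=
      iSup₂_le fun k hk g hg v hv => ((hC k).K_mem hg).2 v (UA j k (Ne.symm hk) hv)
    rw [Subgroup.mem_bot]
    ext v
    obtain ⟨a, ha, b, hb, rfl⟩ := Submodule.mem_sup.1 ((cpl j).sup_eq_top ▸ Submodule.mem_top : v ∈ _)
    simp [h3 h2 a ha, ((hC j).K_mem h1).2 b hb]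
  · intro j h hh i
    refine Fin.cases (fun _ v hv => ?_) (fun k hk v hv => ?_) i
    · simp only [Fin.cons_zero, Submodule.mem_iInf] at hv
      exact ((hC j).K_mem hh).2 v (hv j)
    · exact ((hC j).K_mem hh).2 v (UA k j (fun h => hk (h ▸ rfl)) hv)
  · let ρ : KC (C j) →* (U j ≃ₗ[ZMod p] U j) :=
      { toFun := fun g => g.1.ofSubmodules _ _ (mapeq _ ((hC j).U_inv hG hp hOp) _ ((hC j).le_H g.2))
        map_one' := by ext; simp
        map_mul' := fun a b => by ext; simp }
    exact ⟨ρ, fun _ _ => rfl, (hC j).range hG hp hOp ρ fun _ _ => rfl⟩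

end Cfsg.Agent.S5075
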