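import Cfsg.Statements.S5135
import Cfsg.Agent.H14.Grp

set_option autoImplicit false
set_option linter.unusedVariables false
set_option linter.style.haveILetI false
open Cfsg Cfsg.FusionSystem Equiv H13 H14.Fus
open scoped commutatorElement

namespace Cfsg.Agent.S5135

/-- Let G be a finite group, S a Sylow p-subgroup and H a normal subgroup of G. Then the fusion system of G/H on the image SH/H of S is the factor system of the fusion system of G on S modulo S ∩ H, read through the quotient map restricted to S: for each subgroup P' of SH/H, the conjugation maps by elements of G/H defined on P' with values in SH/H are exactly the homomorphisms induced by the conjugation maps by elements of G defined on the full preimage of P' in S with values in S. -/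
theorem result {G : Type*} [Group G] [Finite G] (p : ℕ) [Fact p.Prime] (S : Sylow p G) (H : Subgroup G) [H.Normal] : (Cfsg.groupFusionSystem (S : Subgroup G)).IsFactorSystem ((S : Subgroup G) ⊓ H) ((QuotientGroup.mk' H).comp (S : Subgroup G).subtype) (Cfsg.groupFusionSystem ((S : Subgroup G).map (QuotientGroup.mk' H))) := by
  have e : ∀ x ∈ (S : Subgroup G), QuotientGroup.mk' H x = fn ((QuotientGroup.mk' H).comp (S : Subgroup G).subtype) x :=
    fun x hx => by rw [fn_apply _ hx]; rfl
  have h := (fac_ofSubgroup (sylIn_top S) (homOn_hom ⊤ (QuotientGroup.mk' H)) (G' := ⊤)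
    (by rw [img_hom, ← MonoidHom.range_eq_map, QuotientGroup.range_mk']) (img_hom _ _) le_top).congr e
  rw [group_eq_ofSubgroup, group_eq_ofSubgroup]
  refine isFactorSystem_iff.2 ⟨?_, h.facW⟩
  ext x
  rw [mem_ker h.hom]
  exact ⟨fun H => ⟨H.1, (QuotientGroup.eq_one_iff x).1 ((e x H.1).trans H.2)⟩,
    fun H => ⟨H.1, (e x H.1).symm.trans ((QuotientGroup.eq_one_iff x).2 H.2)⟩⟩

end Cfsg.Agent.S5135
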