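import Cfsg.Statements.S5138
import Cfsg.Agent.H14.CProd

set_option autoImplicit false
set_option linter.unusedVariables false
set_option linter.style.haveILetI false
open Cfsg Cfsg.FusionSystem Equiv H13 H14.Fus
open scoped commutatorElement

namespace Cfsg.Agent.S5138

/-- Let F be a saturated fusion system over a finite p-group S and E₁, E₂ normal subsystems over T₁, T₂ with [T₁, T₂] = 1. Then there is a normal subsystem of F over T₁T₂ which, if moreover T₁ ∩ T₂ lies in the centre of E₁ and in the centre of E₂, is a central product of E₁ and E₂ (the factor system of a direct product of E₁ and E₂ modulo a subgroup of its centre meeting both factors trivially). -/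
theorem result {Ω : Type*} [Group Ω] {S : Subgroup Ω} [Finite S] (p : ℕ) [Fact p.Prime] (hS : IsPGroup p S) (F : Cfsg.FusionSystem S) (hF : F.IsSaturated p) {T₁ T₂ : Subgroup Ω} (E₁ : Cfsg.FusionSystem T₁) (E₂ : Cfsg.FusionSystem T₂) (hE₁ : E₁.IsNormalIn F p) (hE₂ : E₂.IsNormalIn F p) (hc : ⁅T₁, T₂⁆ = ⊥) : ∃ D : Cfsg.FusionSystem (T₁ ⊔ T₂), D.IsNormalIn F p ∧ (T₁ ⊓ T₂ ≤ E₁.center → T₁ ⊓ T₂ ≤ E₂.center → Cfsg.FusionSystem.IsCentralProductOf E₁ E₂ D) := by
  have i₁ := nrm_inv hE₁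
  have i₂ := nrm_inv hE₂
  have := finite_of_le i₁.le
  have := finite_of_le i₂.le
  have hc' : ∀ a ∈ T₁, ∀ b ∈ T₂, a * b = b * a := fun a ha b hb =>
    (Subgroup.commutator_eq_bot_iff_le_centralizer.1 hc ha b hb).symm
  by_cases h : T₁ ⊓ T₂ ≤ E₁.center ∧ T₁ ⊓ T₂ ≤ E₂.center
  · obtain ⟨D, hD⟩ := CPData.exists_cp (E₁ := E₁) (E₂ := E₂)
      ⟨hc', central_iff_le_center.2 h.1, central_iff_le_center.2 h.2⟩ rfl
    exact ⟨D, hD.normalIn hS hF hE₁ hE₂, fun _ _ => isCentralProductOf_iff.2 hD⟩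
  · have hZ := normal_of_sc_of_comm hS hF (sc_inf i₁.sc i₂.sc) fun a ha b hb => hc' b hb.1 a ha.2
    obtain ⟨C₁, a1, -, a2⟩ := exists_csys_normal hS hF hE₁ hZ inf_le_left
      fun a ha b hb => (hc' a ha b hb.2).symm
    obtain ⟨C₂, b1, -, b2⟩ := exists_csys_normal hS hF hE₂ hZ inf_le_right
      fun a ha b hb => hc' b hb.1 a ha
    obtain ⟨D, hD⟩ := CPData.exists_cp (E₁ := C₁) (E₂ := C₂) ⟨hc', a2, b2⟩ rfl
    exact ⟨D, hD.normalIn hS hF a1 b1, fun h1 h2 => (h ⟨h1, h2⟩).elim⟩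

end Cfsg.Agent.S5138
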