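import Cfsg.Statements.S5148
import Cfsg.Agent.H14.Iso
import Cfsg.Agent.H14.Cons

set_option autoImplicit false
open Cfsg

namespace Cfsg.Agent.S5148

open H13 Equiv Cfsg.FusionSystem

/-- A quasisimple fusion system over a finite p-group S (saturated, equal to its p-residual subsystem, with simple — in particular nontrivial — factor system modulo its centre) has S nonabelian. -/
theorem result {Ω : Type*} [Group Ω] {S : Subgroup Ω} [Finite S] (p : ℕ) [Fact p.Prime] (hS : IsPGroup p S) (F : Cfsg.FusionSystem S) (hq : F.Quasisimple p) : ¬ IsMulCommutative S := by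
  intro hc
  have hF := hq.1
  have hZ : F.StronglyClosed F.center := sc_of_normal (normal_of_central (central_center F))
  obtain ⟨E, hE⟩ := H14.Fus.exists_quot hS hF hZ
  obtain ⟨h1, h2⟩ := (H14.Fus.quasisimple_iff hS hF hE (H14.Fus.ker_fn_mk _ (center_le F))).1 hq
  have hn : F.IsNormal S := normal_of_sc_of_comm hS hF (sc_top F) fun x hx y hy =>
    congrArg Subtype.val (hc.is_comm.comm (⟨y, hy⟩ : S) ⟨x, hx⟩)
  have h3 := hE.normal_img hn
  rw [hE.img_eq] at h3
  have := hE.finite
  have h4 := hE.isPGroup hS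
  rcases h2.2.2 _ _ (H14.Fus.inner_normalIn h4 h2.1 h3) with h5 | h5
  · exact h2.2.1 h5
  · have h6 := (H14.Fus.hom_eq_inner_iff.1 fun P => (h5.2 P).symm).hyp_eq_bot h4
    rw [← hE.img_hyp, h1, hE.img_eq] at h6
    exact h2.2.1 h6

end Cfsg.Agent.S5148
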