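import Cfsg.Statements.S5151
import Cfsg.Agent.H14.ES5

set_option autoImplicit false
set_option linter.unusedVariables false
set_option linter.style.haveILetI false
open Cfsg Cfsg.FusionSystem Equiv H13 H14.Fus
open scoped commutatorElement

namespace Cfsg.Agent.S5151

/-- E-balance for fusion systems: let F be a saturated fusion system over a finite p-group S, X a fully normalized subgroup and N the normalizer system of X. Then the layer of N is a subsystem of the layer of F. -/
theorem result {Ω : Type*} [Group Ω] {S : Subgroup Ω} [Finite S] (p : ℕ) [Fact p.Prime] (hS : IsPGroup p S) (F : Cfsg.FusionSystem S) (hF : F.IsSaturated p) (X : Subgroup Ω) (hX : F.IsFullyNormalized X) (N : Cfsg.FusionSystem (Cfsg.FusionSystem.normalizerIn S X)) (hN : F.IsNormalizerSystem X N) {U : Subgroup Ω} (EN : Cfsg.FusionSystem U) (hEN : EN.IsLayerOf N p) {T : Subgroup Ω} (E : Cfsg.FusionSystem T) (hE : E.IsLayerOf F p) : EN.IsSubsystemOf E := by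
  haveI := finite_of_le (H13.core_le F)
  haveI := finite_of_le (nrm_le hE.1)
  haveI := finite_of_le (normalizerIn_le S X)
  have hS₁ := isPGroup_of_le hS (normalizerIn_le S X)
  have sN := saturated_normalizer hS hF hX hN
  obtain ⟨D, h3⟩ := (layer_cpData hS hF hE).exists_cp rfl
  have h4 := h3.normalIn hS hF (inner_normalIn hS hF (core_normal F)) hE.1
  have hU := nrm_le h4
  haveI := finite_of_le hU
  obtain ⟨M, b1, b2⟩ := exists_csub' hS hF h4
  haveI := finite_of_le (nrm_le b1)
  have b3 := constrained_of_no_comp (hS.to_le (nrm_le b1)) (nrm_sat b1) fun W C hC => by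
    have c1 := comp_up hC (subnormal_of_normal b1)
    exact (b2.of_sub (comp_sub (nrm_sat b1) hC)).not_le hS (comp_le hF c1) hC.2
      ((le_of_isSubsystemOf (hE.2.1 W C c1)).trans h3.le₂)
  have b4 := ((nrm_inv b1).core_le_core hS hF).trans h3.le₁
  have b5 : CS D F p ≤ F.core ⊔ T := le_trans (le_trans (le_inf le_rfl (cs_le_cent.trans
    ((centralizerIn_le_centralizer _ _).trans (Subgroup.centralizer_le b4))))
    (constrained_iff.1 b3).2) b4
  obtain ⟨D₁, d1, d2⟩ := exists_normal_nsys hS hF h4 hX hN
  have d3 := isSubsystemOf_trans (layer_sub_of_le hS₁ sN hEN d1 fun V C hC => fun x hx =>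
    ⟨(comp_nsys_le hS hF h4 hX hN hC).elim (fun h => h hx) fun h => b5 (h hx), (comp_le sN hC hx).2⟩) d2
  haveI := finite_of_le (nrm_le hEN.1)
  have d4 := ((layer_le_hyp hS₁ sN hEN).trans (H13.hyp_mono d3)).trans (h3.hyp_le_of_inner (isPGroup_of_le hS hU))
  exact isSubsystemOf_iff.2 fun P f hf => h3.symm.full (hf.of_sub d3) (hf.le.trans d4)

end Cfsg.Agent.S5151
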