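import Cfsg.Statements.S5152
import Cfsg.Agent.H14.CharP
import Cfsg.Agent.H14.ZLift

set_option autoImplicit false
set_option linter.unusedVariables false
set_option linter.style.haveILetI false
open Cfsg Cfsg.FusionSystem Equiv H13 H14.Fus
open scoped commutatorElement

namespace Cfsg.Agent.S5152

/-- Dichotomy for saturated fusion systems: a saturated fusion system over a finite p-group is of characteristic p-type (the normalizer system of every nontrivial fully normalized subgroup is constrained) or of component type (the centralizer system of some fully normalized subgroup of order p has a component). -/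
theorem result {Ω : Type*} [Group Ω] {S : Subgroup Ω} [Finite S] (p : ℕ) [Fact p.Prime] (hS : IsPGroup p S) (F : Cfsg.FusionSystem S) (hF : F.IsSaturated p) : F.IsOfCharacteristicPType p ∨ F.IsOfComponentType p := by
  rw [or_iff_not_imp_right]
  intro hct U hU0 hU N hN
  have hUS := hU.1
  have : Finite (normalizerIn S U) := finite_of_le (normalizerIn_le S U)
  have hUN : U ≤ normalizerIn S U := le_normalizerIn hUS
  have hZ : centralizerIn U (normalizerIn S U) ≠ ⊥ :=
    centralizerIn_ne_bot (hS.to_le (normalizerIn_le S U)) hUN hU0 (normalizerIn_le_normalizer S U)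
  have hZU := centralizerIn_le U (normalizerIn S U)
  have : Finite (centralizerIn U (normalizerIn S U)) := finite_of_le (hZU.trans hUS)
  have hd : p ∣ Nat.card (centralizerIn U (normalizerIn S U)) := by
    rcases (hS.to_le (hZU.trans hUS)).card_eq_or_dvd with h | h
    · exact absurd (Subgroup.card_eq_one.1 h) hZ
    · exact h
  obtain ⟨⟨x, hx⟩, hxo⟩ := exists_prime_orderOf_dvd_card' p hd
  have hxo' : orderOf x = p := by rw [← hxo]; exact (Subgroup.orderOf_mk x hx).symm
  set X := Subgroup.zpowers x with hX
  have hXU : X ≤ U := (Subgroup.zpowers_le_of_mem (hZU hx))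
  have hNC : normalizerIn S U ≤ centralizerIn S X := by
    intro g hg
    refine mem_centralizerIn.2 ⟨hg.1, ?_⟩
    rw [hX, Subgroup.zpowers_eq_closure, Subgroup.centralizer_closure]
    intro y hy
    rw [Set.mem_singleton_iff.1 hy]
    exact ((mem_centralizerIn.1 hx).2 g hg).symm
  obtain ⟨Q, τ, hQ, hτ, hi⟩ := exists_mor_normalizer' hS hF (hXU.trans hUS)
  have hNN : normalizerIn S U ≤ normalizerIn S X := hNC.trans (centralizerIn_le_normalizerIn S X)
  have hτ' := hτ.restrict hNN
  have hm : Maps U (img τ U) τ := (hτ'.hom.mono hUN).maps_img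
  set U' := img τ U with hU'
  obtain ⟨hU'n, hmN⟩ := fullyNormalized_img hU hτ' hm
  have hQU' : Q ≤ U' := (hi.maps.le_iff hm).1 hXU
  have hU'C : U' ≤ centralizerIn S Q := by
    refine img_le_iff.2 fun u hu => mem_centralizerIn.2 ⟨hτ'.mem (hUN hu), ?_⟩
    exact hτ.hom.mem_centralizer (le_normalizerIn (hXU.trans hUS)) hi.maps (hNN (hUN hu))
      (hNC (hUN hu)).2
  have hQc := fullyCentralized_of_fullyNormalized hS hF hQ
  have : Finite (centralizerIn S Q) := finite_of_le (centralizerIn_le S Q)
  have hC1 : (Csys F Q hQ.1).IsConstrained p := by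
    refine constrained_of_no_comp (hS.to_le (centralizerIn_le S Q)) (saturated_csys hS hF hQc)
      fun T C hC => hct ⟨Q, ?_, hQ, _, isCentralizerSystem_csys F Q hQ.1, T, C, hC⟩
    rw [← hi.card_eq, hX, Nat.card_zpowers, hxo']
  have hV : centralizerIn (centralizerIn S Q) U' = centralizerIn S U' := by
    refine le_antisymm (centralizerIn_mono (centralizerIn_le S Q) le_rfl) fun g hg => ?_
    exact ⟨⟨hg.1, Subgroup.centralizer_le (SetLike.coe_subset_coe.2 hQU') hg.2⟩, hg.2⟩
  have hU'c : (Csys F Q hQ.1).IsFullyCentralized U' := by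
    refine fullyCentralized_iff.2 ⟨hU'C, fun W σ hσ => ?_⟩
    rw [hV]
    have h1 := (fullyCentralized_iff.1 (fullyCentralized_of_fullyNormalized hS hF hU'n)).2 W σ
      (hσ.of_sub (H13.centralizerSystem_sub (isCentralizerSystem_csys F Q hQ.1)))
    have : Finite (centralizerIn S W) := finite_of_le (centralizerIn_le S W)
    exact (Subgroup.card_le_of_le (centralizerIn_mono (centralizerIn_le S Q) le_rfl)).trans h1
  have hC2 := csys_constrained (hS.to_le (centralizerIn_le S Q)) hC1 hU'c
    (isCentralizerSystem_csys _ U' hU'C)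
  have hN' : (Nsys F U' hU'n.1).IsConstrained p := by
    refine nsys_constrained hS hF hU'n (isNormalizerSystem_nsys F U' hU'n.1) hV hC2 ?_
    rintro P f hP ⟨g, hg, e1, e2⟩
    refine (isCentralizerSystem_iff.1 (isCentralizerSystem_csys _ U' hU'C) P f).2 ⟨hP, g, ?_, e1, e2⟩
    refine (isCentralizerSystem_iff.1 (isCentralizerSystem_csys F Q hQ.1) _ g).2
      ⟨sup_le (hP.trans (centralizerIn_le _ _)) hU'C, ?_⟩
    exact cExt_of_mor hg le_rfl (hQU'.trans le_sup_right) (fun _ _ => rfl) fun y hy => e2 y (hQU' hy)
  exact ((nsys_fIso ⟨hτ', hmN⟩ hUS hU'n.1 hm hN (isNormalizerSystem_nsys F U' hU'n.1)).constrained_iff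
    (hS.to_le (normalizerIn_le S U))).1 hN'

end Cfsg.Agent.S5152
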