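import Cfsg.Statements.S5153
import Cfsg.Agent.H14.Cons

set_option autoImplicit false
open Cfsg

namespace Cfsg.Agent.S5153

open H13 Equiv Cfsg.FusionSystem

/-- Let F be a saturated fusion system over a finite p-group S and E a subnormal subsystem of F over T. Then every subgroup of T that is fully normalized in F is fully normalized in E. -/
theorem result {Ω : Type*} [Group Ω] {S : Subgroup Ω} [Finite S] (p : ℕ) [Fact p.Prime] (hS : IsPGroup p S) (F : Cfsg.FusionSystem S) (hF : F.IsSaturated p) {T : Subgroup Ω} (E : Cfsg.FusionSystem T) (hE : E.IsSubnormalIn F p) (P : Subgroup Ω) (hPT : P ≤ T) (hP : F.IsFullyNormalized P) : E.IsFullyNormalized P := by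
  refine H14.Fus.subnormal_induction (fun U D => U ≤ S ∧ (P ≤ U → D.IsFullyNormalized P)) hE
    ⟨le_rfl, fun _ => hP⟩ ?_ |>.2 hPT
  intro U V D D' hV h1 h2
  have := finite_of_le hV
  have h3 := H14.Fus.nrm_le h1
  exact ⟨h3.trans hV, fun h => H14.Fus.sub_fullyNormalized (hS.to_le hV) (H14.Fus.nrm_sat' h1)
    (H14.Fus.nrm_inv h1).sc (H14.Fus.nrm_sub h1) h (h2.2 (h.trans h3))⟩

end Cfsg.Agent.S5153
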