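import Cfsg.Statements.S5154
import Cfsg.Agent.H14.Grp

set_option autoImplicit false
set_option linter.unusedVariables false
set_option linter.style.haveILetI false
open Cfsg Cfsg.FusionSystem Equiv H13 H14.Fus
open scoped commutatorElement

namespace Cfsg.Agent.S5154

theorem aux {Ω : Type*} [Group Ω] {p : ℕ} {T S : Subgroup Ω} {C : FusionSystem T} {F : FusionSystem S}
    (h : C.IsSubnormalIn F p) : Finite S → p.Prime → IsPGroup p S → F.IsSaturated p →
    ∀ γ, Mor F T γ → ∀ (T' : Subgroup Ω) (E : FusionSystem T'), Fac C E γ → E.IsSubnormalIn F p := by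
  induction h with
  | refl F p =>
    intro _ hp hS hF γ hγ T' E hE
    haveI := Fact.mk hp
    obtain ⟨σ, hσ, e⟩ := hγ.exists_perm
    exact (((inv_self F).fIso hσ.iso_top).congr e).subnormal hS hE (IsSubnormalIn.refl F p)
  | @step U S C D F p h1 h2 ih =>
    intro _ hp hS hF γ hγ T' E hE
    haveI := Fact.mk hp
    have hi := nrm_inv h2
    haveI := finite_of_le hi.le
    have hU := isPGroup_of_le hS hi.le
    have hT := (subnormal_facts (nrm_sat h2) h1).1
    haveI := finite_of_le hT
    obtain ⟨α, hα, h3⟩ := hi.frat T γ hT hγ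
    obtain ⟨E₀, hE₀⟩ := exists_fIso C h3.hom h3.injOn rfl
    have h4 := ih inferInstance hp hU (nrm_sat h2) _ h3 _ E₀ hE₀.fac
    obtain ⟨η, hη, e, -⟩ := hE₀.exists_inv
    refine ((hi.fIso hα).subnormal hU ((hE.comp hη.fac).congr fun y hy => ?_) h4).step h2
    obtain ⟨x, hx, rfl⟩ := hE₀.fac.surj hy
    rw [e x hx, ap_inv]

/-- Let F be a saturated fusion system over a finite p-group S, C a component of F over T, and γ a map of F with source T. Then the image of C under γ — the fusion system over γ(T) whose maps are the homomorphisms induced along γ by the maps of C — is again a component of F. -/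
theorem result {Ω : Type*} [Group Ω] {S : Subgroup Ω} [Finite S] (p : ℕ) [Fact p.Prime] (hS : IsPGroup p S) (F : Cfsg.FusionSystem S) (hF : F.IsSaturated p) {T : Subgroup Ω} (C : Cfsg.FusionSystem T) (hC : C.IsComponentIn F p) (γ : T →* Ω) (hγ : γ ∈ F.Hom T) (E : Cfsg.FusionSystem γ.range) (hE : C.IsFactorSystem ⊥ γ E) : E.IsComponentIn F p := by
  have h := isFactorSystem_bot_iff.1 hE
  have hT := (subnormal_facts hF hC.1).1
  haveI := finite_of_le hT
  exact ⟨aux hC.1 inferInstance Fact.out hS hF _ (mor_fn hγ) _ E h.fac, h.quasisimple (isPGroup_of_le hS hT) hC.2⟩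

end Cfsg.Agent.S5154
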