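import Cfsg.Statements.S5162
import Cfsg.Agent.H14.Comp

set_option autoImplicit false
set_option linter.unusedVariables false
set_option linter.style.haveILetI false
open Cfsg Cfsg.FusionSystem Equiv H13 H14.Fus
open scoped commutatorElement

namespace Cfsg.Agent.S5162

/-- Let F be a saturated fusion system over a finite p-group S that is a central product of two saturated subsystems F₁ (over S₁) and F₂ (over S₂) inside S. Then every component of F is a component of F₁ or a component of F₂. -/
theorem result {Ω : Type*} [Group Ω] {S : Subgroup Ω} [Finite S] (p : ℕ) [Fact p.Prime] (hS : IsPGroup p S) (F : Cfsg.FusionSystem S) (hF : F.IsSaturated p) {S₁ S₂ : Subgroup Ω} (F₁ : Cfsg.FusionSystem S₁) (F₂ : Cfsg.FusionSystem S₂) (h₁ : F₁.IsSaturated p) (h₂ : F₂.IsSaturated p) (h₁F : F₁.IsSubsystemOf F) (h₂F : F₂.IsSubsystemOf F) (hc : Cfsg.FusionSystem.IsCentralProductOf F₁ F₂ F) {T : Subgroup Ω} (C : Cfsg.FusionSystem T) (hC : C.IsComponentIn F p) : C.IsComponentIn F₁ p ∨ C.IsComponentIn F₂ p := by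
  have := finite_of_le (le_of_isSubsystemOf h₁F)
  have := finite_of_le (le_of_isSubsystemOf h₂F)
  have h := isCentralProductOf_iff.1 hc
  rcases comp_subnormal hS hF hC (subnormal_of_normal (h.normalIn₁ hF h₁)) with a | a
  · exact Or.inl a
  rcases comp_subnormal hS hF hC (subnormal_of_normal (h.symm.normalIn₁ hF h₂)) with b | b
  · exact Or.inr b
  have hT := comp_le hF hC
  have := finite_of_le hT
  refine (qs_not_comm (hS.to_le hT) hC.2 (hT.trans (h.sup.le.trans (sup_le ?_ ?_)))).elim
  · exact a.1.trans (centralizerIn_le_centralizer _ _)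
  · exact b.1.trans (centralizerIn_le_centralizer _ _)

end Cfsg.Agent.S5162
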