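import Cfsg.Statements.S5201
import Cfsg.Agent.H14.Res2

set_option autoImplicit false
set_option linter.unusedVariables false
set_option linter.style.haveILetI false
open Cfsg Cfsg.FusionSystem Equiv H13 H14.Fus
open scoped commutatorElement

namespace Cfsg.Agent.S5201

/-- A reduction to normal subsystems. Let F be a saturated fusion system over a finite p-group S and E a normal subsystem of F over T whose centralizer in S lies in T (every subgroup Y of C_S(T) with E contained in the centralizer fusion system of Y in F satisfies Y ≤ T), and suppose Aut_F(T)/Aut_E(T) is p-solvable. Then F and E have the same residual limit: if F∞ is the residual limit of F (reached by alternately passing to the p-residual and the p'-residual subsystem until nothing changes) and E∞ that of E, then F∞ and E∞ have the same maps. -/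
theorem result {Ω : Type*} [Group Ω] {S : Subgroup Ω} [Finite S] (p : ℕ) [Fact p.Prime] (hS : IsPGroup p S) (F : Cfsg.FusionSystem S) (hF : F.IsSaturated p) {T : Subgroup Ω} (E : Cfsg.FusionSystem T) (hE : E.IsNormalIn F p) (hCE : ∀ Y : Subgroup Ω, Y ≤ Cfsg.FusionSystem.centralizerIn S T → (∀ C : Cfsg.FusionSystem (Cfsg.FusionSystem.centralizerIn S Y), F.IsCentralizerSystem Y C → E.IsSubsystemOf C) → Y ≤ T) [hn : ((E.autGroup T).subgroupOf (F.autGroup T)).Normal] (hsolv : Cfsg.IsPSolvable p (↥(F.autGroup T) ⧸ (E.autGroup T).subgroupOf (F.autGroup T))) {U V : Subgroup Ω} (Finf : Cfsg.FusionSystem U) (hFinf : Finf.IsResidualLimitOf F p) (Einf : Cfsg.FusionSystem V) (hEinf : Einf.IsResidualLimitOf E p) : ∀ P : Subgroup Ω, Finf.Hom P = Einf.Hom P := by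
  have hI := nrm_inv hE
  have := finite_of_le hI.le
  obtain ⟨D, h1, h2, h3, h4⟩ := chain_of_pSolvable hS hF hI (nrm_sat hE) hsolv
  have hD := nrm_inv h1
  have := finite_of_le hD.le
  have hR := hS.to_le hD.le
  have h5 : CS E F p ≤ T := hCE _ cs_le_cent fun C hC => (cs_cen hS hF hE).sub_sys hI.le hC
  have h6 := hI.of_sub hS (nrm_sat h1) h2 hD.sub
  have h7 : D.hyperfocalSubgroup p ≤ T := by
    refine hyp_le_of_over hR (nrm_sat h1) h6.sc le_rfl le_sup_left fun P a1 a2 β a3 _ x hx => ?_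
    have b1 := iso_of_mem_autF a2 a3
    have b2 := sc_maps h6.sc b1.1 a1
    obtain ⟨γ, b3, b4, b5⟩ := nrm_ext hE _ (iso_of_mem_autF le_rfl (h3.le (rs_mem_autF a1 a2 a3 b2)))
    have b6 : ∀ y ∈ T, γ y = β y := fun y hy => by rw [b4 y hy, rs_apply b2 hy]
    have b8 := (H14.Fus.maps_sup_centralizerIn b3 (b2.congr fun y hy => (b6 y hy).symm)).2
    have b9 := b8.inv.1.mul (b1.1.of_sub hD.sub) fun y hy => a2 (b1.mem hy)
    obtain ⟨t, ht, c, hc, rfl⟩ := (mem_sup_of_normalizes' ((centralizerIn_le S T).trans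
      (sc_le_normalizer hI.sc))).1 (a2 hx)
    refine triv_of_mem_sup hI.sc (W := P ⊓ centralizerIn S T) inf_le_left (b1.1.of_sub hD.sub)
      (fun y hy => ?_) hx ht (by
        rw [inv_mul_cancel_left]; exact ⟨(Subgroup.mul_mem_cancel_left _ (a1 ht)).1 hx, hc⟩)
    have c1 := h5 (inv_mul_mem_cs hS hF hE b9 a1
      (fun z hz => by rw [mul_ap, ← b6 z hz, inv_ap]) hy.1 hy.2)
    have c2 := mul_mem (b5 y hy.2) (sc_mem hI.sc b3 (Subgroup.mem_sup_left c1) c1)
    rwa [mul_assoc, ← b3.hom.map_mul (a2 hy.1) (Subgroup.mem_sup_left c1), mul_inv_cancel_left,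
      mul_ap, ap_inv] at c2
  obtain ⟨E₁, h8, h9, h10⟩ := exists_pPowerIndex_of_sc hR (nrm_sat h1) h6.sc h7
  have h11 := sub_of_pPowerIndex hR (nrm_sat hE) h2 h9 le_rfl
  have h12 := (h6.of_sub hR h8 h11 h10.sub).sub_of_top fun α hα =>
    (iso_of_mem_autF le_rfl (h3.le (hα.of_sub h10.sub).rs_mem)).1.congr fun x hx => rs_apply hα.2 hx
  have h13 := limit_prf hS hF hFinf
  exact limit_eq hS hF hI (nrm_sat hE) hFinf hEinf (isSubsystemOf_trans
    (h13.sub_of_pPowerIndex hR (h4 _ Finf h13 (limit_inv hS hF hFinf)) h9) h12)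

end Cfsg.Agent.S5201
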