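import Cfsg.Statements.S5212
import Cfsg.Agent.H13.Sup2

set_option autoImplicit false
open Cfsg

namespace Cfsg.Agent.S5212

open H13 Equiv Cfsg.FusionSystem

/-- Let S be a finite metacyclic 2-group that is not homocyclic abelian (a direct product of cyclic groups of one common order), not dihedral, not semidihedral and not generalized quaternion. Then every saturated fusion system over S is the inner fusion system of S. -/
theorem result {Ω : Type*} [Group Ω] {S : Subgroup Ω} [Finite S] (hS : IsPGroup 2 S) (F : Cfsg.FusionSystem S) (hF : F.IsSaturated 2) (hm : Cfsg.IsMetacyclic ↥S) (hh : ¬ ∃ n k : ℕ, Nonempty (↥S ≃* Multiplicative (Fin k → ZMod (2 ^ n)))) (hd : ¬ ∃ m : ℕ, Nonempty (↥S ≃* DihedralGroup m)) (hq : ¬ ∃ m : ℕ, Nonempty (↥S ≃* QuaternionGroup m)) (hsd : ¬ Cfsg.IsQuasiDihedral ↥S) : ∀ P : Subgroup Ω, F.Hom P = (Cfsg.innerFusionSystem S).Hom P := by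
  haveI := Fact.mk Nat.prime_two
  have h : ¬ H9.DQS S := fun h => by
    rcases h.iso with ⟨k, e⟩ | ⟨k, h1, a, b, h2⟩ | ⟨k, e⟩
    exacts [hd ⟨_, e⟩, hsd ⟨k + 3, by omega, h1, a, b, h2⟩, hq ⟨_, e⟩]
  rcases meta_cases hS hm with h1 | ⟨k, -, ⟨e⟩⟩ | h1
  · rw [eq_inner_of_normal hS hF (normal_of_meta hS hm (fun h2 => h h2.2) hF) h1.isPGroup]
    exact fun _ => rfl
  · exact (hh ⟨k, 2, ⟨e.trans ((MulEquiv.prodMultiplicative _ _).symm.trans
      (RingEquiv.piFinTwo fun _ => ZMod (2 ^ k)).symm.toAddEquiv.toMultiplicative)⟩⟩).elim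
  · exact (h h1.2.2).elim

end Cfsg.Agent.S5212
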