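import Mathlib
import Cfsg.Statements.S5214
import Cfsg.Agent.H13.Rk2S
import Cfsg.Agent.S1137
import Cfsg.Agent.S1138

set_option autoImplicit false
open Cfsg

namespace Cfsg.Agent.S5214

theorem result {Ω : Type*} [Group Ω] {S : Subgroup Ω} [Finite S] (hS : IsPGroup 2 S) (F : Cfsg.FusionSystem S) (hF : F.IsSaturated 2) (hsz : Cfsg.IsSuzukiTwoGroup ↥S) : F.IsNormal S := by
  open H13 H14.Fus Cfsg.FusionSystem in
  haveI := Fact.mk Nat.prime_two
  obtain ⟨F', h1, -, h3, -⟩ := exists_top hS F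
  rw [← h3 S le_rfl, Subgroup.subgroupOf_self]
  refine normal_top_of_no_essential (pg_top hS) (h1.2 hF) fun E hE => ?_
  obtain ⟨a1, a2⟩ := Cfsg.Agent.S1137.result hsz
  obtain ⟨-, a3, -⟩ := Cfsg.Agent.S1138.result hsz
  have a4 : ∀ x : S, x * x = 1 → x ∈ Subgroup.center S := fun x hx => by
    by_cases e : x = 1
    · rw [e]; exact one_mem _
    · exact ((a1 x).1 ⟨e, hx⟩).1
  have D := radD_of_essential (pg_top hS) (h1.2 hF) hE
  have h4 : Subgroup.center S ≤ E := fun z hz => hE.1.2 E (isConj_refl F' le_top)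
    (mem_centralizerIn.2 ⟨trivial, fun s _ => Subgroup.mem_center_iff.1 hz s⟩)
  refine D.not_chain (chain3 ⊥ (Subgroup.center S) E) rfl (by rintro (_ | _ | j); exacts [bot_le, h4, le_rfl])
    (n := 2) rfl (fun α hα => ?_) fun u hu => ?_
  · rintro (_ | _ | j)
    exacts [(D.hom hα).maps_bot, ((D.hom hα).mono h4).maps_of_mem fun z hz => a4 _ (by
      rw [← (D.hom hα).map_mul (h4 hz) (h4 hz), a2 z hz, (D.hom hα).map_one]), D.maps hα]
  obtain ⟨s, -, hs, rfl⟩ := mem_autBy.1 hu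
  rintro (_ | _ | j) x hx
  · rw [cr_apply hs (h4 hx), Subgroup.mem_center_iff.1 hx s]; simp [chain3]
  · rw [cr_apply hs hx]
    have := a3 x s⁻¹
    rw [inv_inv, mul_assoc, mul_assoc, ← mul_assoc s] at this
    exact this
  · exact E.mul_mem (E.inv_mem hx) ((maps_cr hs).mem hx)

end Cfsg.Agent.S5214
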