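import Cfsg.Statements.S5215
import Cfsg.Agent.H13.Rk2S

set_option autoImplicit false
open Cfsg

namespace Cfsg.Agent.S5215

open H13 Equiv Cfsg.FusionSystem

/-- Let S be a finite 2-group of 2-rank 2 (an elementary abelian subgroup of order 4, none of order 8) and F a simple saturated fusion system over S. Then S is dihedral, semidihedral or wreathed, and F is the fusion system of the projective special linear group PSL₂(q) for some odd prime power q ≡ ±1 (mod 8) or of PSL₃(q) for some odd prime power q: it is realized by an injective homomorphism of S into that group whose image is a Sylow 2-subgroup. -/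
theorem result {Ω : Type*} [Group Ω] {S : Subgroup Ω} [Finite S] (hS : IsPGroup 2 S) (F : Cfsg.FusionSystem S) (hF : F.IsSaturated 2) (hr : Cfsg.PRankAtLeast 2 2 ↥S ∧ ¬ Cfsg.PRankAtLeast 2 3 ↥S) (hsimple : F.IsSimple 2) : ((∃ m : ℕ, Nonempty (↥S ≃* DihedralGroup m)) ∨ Cfsg.IsQuasiDihedral ↥S ∨ Cfsg.IsWreathed ↥S) ∧ ∃ (K : Type) (_ : Field K) (_ : Fintype K) (q : ℕ), Fintype.card K = q ∧ Odd q ∧ (((q % 8 = 1 ∨ q % 8 = 7) ∧ ∃ ι : ↥S →* Matrix.ProjectiveSpecialLinearGroup (Fin 2) K, F.IsRealizedBy ι ∧ ∃ T : Sylow 2 (Matrix.ProjectiveSpecialLinearGroup (Fin 2) K), (T : Subgroup (Matrix.ProjectiveSpecialLinearGroup (Fin 2) K)) = ι.range) ∨ (∃ ι : ↥S →* Matrix.ProjectiveSpecialLinearGroup (Fin 3) K, F.IsRealizedBy ι ∧ ∃ T : Sylow 2 (Matrix.ProjectiveSpecialLinearGroup (Fin 3) K), (T : Subgroup (Matrix.ProjectiveSpecialLinearGroup (Fin 3) K)) = ι.range)) := by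
  haveI := Fact.mk Nat.prime_two
  obtain ⟨⟨A, -, -, hA4⟩, h3⟩ := hr
  have h2 : PRankLE 2 2 S := by
    by_contra h
    obtain ⟨B, hB, hB'⟩ := H9.exists_of_not_prank h
    exact h3 ⟨B, hB.1, hB.2, hB'⟩
  have h4 := Subgroup.card_le_card_group A
  have h5 := fun Q => simple_normal (Q := Q) hS hsimple (by omega)
  have hf := simple_foc hS hsimple (by omega)
  have h6 : ∀ {H : Type} [Group H], S ≃* H → ¬ IsMulCommutative H := fun e hc => hsimple.2.1 (h5 S
    (normal_of_sc_of_comm hS hF (sc_top F) fun x hx y hy => congrArg Subtype.val (e.injective (by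
      rw [map_mul, map_mul, hc.1.1]) : (⟨y, hy⟩ * ⟨x, hx⟩ : S) = ⟨x, hx⟩ * ⟨y, hy⟩)))
  haveI : Nontrivial S := Finite.one_lt_card_iff_nontrivial.1 (by omega)
  obtain ⟨z, -, hz, hc⟩ := H6.exists_central_ord2 (hS.to_subgroup ⊤) top_ne_bot
  rcases H6.rk2_of_fusion hS hF h2 z.2 (by simpa using hz) (fun s hs => congrArg Subtype.val (hc ⟨s, hs⟩ trivial))
    (fun h => H6.ord2_ne_one hz (Subtype.ext (Subgroup.zpowers_eq_bot.1 (h5 _ (normal_of_central h))))) with
    ⟨m, hm, ⟨e⟩⟩ | h | h | ⟨n, -, ⟨e⟩⟩ | h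
  · refine ⟨.inl ⟨m, ⟨e⟩⟩, ?_⟩
    obtain rfl | rfl | hm : m = 2 ∨ m = 3 ∨ 4 ≤ m := by omega
    · exact (h6 e ⟨⟨by decide⟩⟩).elim
    · obtain ⟨k, hk⟩ := (hS.of_equiv e).exists_card_eq
      rw [DihedralGroup.nat_card] at hk
      exact absurd (Nat.prime_three.dvd_of_dvd_pow (hk ▸ Dvd.intro_left 2 rfl)) (by decide)
    obtain ⟨n, x, y, h⟩ := tm_of_dih hS hm e
    obtain ⟨K, _, _, hK, T, x', y', h'⟩ := exists_psl2_tm n
    have := Fintype.one_lt_card (α := K)
    exact ⟨K, _, _, _, rfl, Nat.odd_iff.2 (by omega), Or.inl ⟨Or.inl hK, h.realized hF hf h'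
      (perfect_quot (H22.commutator_SL_fin_eq_top 2 fun _ => by omega) _)⟩⟩
  · refine ⟨.inr (.inl h), ?_⟩
    obtain ⟨k, x, y, h, -⟩ := H6.qd_top h
    have := (tm_of_qd h).map S.subtype_injective
    rw [← MonoidHom.range_eq_map, S.range_subtype] at this
    obtain ⟨K, _, _, hK, T, x', y', h'⟩ := exists_psl3_tm k
    exact ⟨K, _, _, _, rfl, hK, Or.inr (this.realized hF hf h'
      (perfect_quot (H22.commutator_SL_fin_eq_top 3 (by omega)) _))⟩
  · refine ⟨.inr (.inr h), ?_⟩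
    obtain ⟨k, x, y, t, h, -⟩ := H6.wr_top h
    obtain ⟨F', h1, -, -, -, -, h7⟩ := exists_top hS F
    obtain ⟨K, _, _, hK, T, x', y', t', h'⟩ := exists_psl3_wr k
    obtain ⟨θ, h8, h9⟩ := wr_realized h (h1.2 hF) (by rw [← h7.fac.img_foc, hf, h7.img_eq]) h'
      (perfect_quot (H22.commutator_SL_fin_eq_top 3 (by omega)) _)
    exact ⟨K, _, _, _, rfl, hK, Or.inr ((realized_of_fIso (H14.Fus.FIso.comp h9 h7)).imp fun ι hι =>
      ⟨hι.1, T, h8.symm.trans hι.2⟩)⟩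
  · exact (h6 e inferInstance).elim
  · exact (hsimple.2.1 (h5 S (normal_of_u34 hS hF h))).elim

end Cfsg.Agent.S5215
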