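import Cfsg.Statements.S5222
import Cfsg.Agent.H14.Tate

set_option autoImplicit false
set_option linter.unusedVariables false
set_option linter.style.haveILetI false
open Cfsg Cfsg.FusionSystem Equiv H13 H14.Fus
open scoped commutatorElement

namespace Cfsg.Agent.S5222

theorem aux {Ω : Type*} [Group Ω] {S T : Subgroup Ω} [Finite S] {p : ℕ} [Fact p.Prime] (hS : IsPGroup p S)
    (hT : T = S) {E : FusionSystem T} (hE : E.IsSaturated p) {Q : Subgroup Ω} (hQ : E.StronglyClosed Q)
    (h1 : ⁅S, S⁆ ≤ Q) (h2 : Q ≤ (frattini S).map S.subtype)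
    (h : ∀ f, Mor E S f → ∃ s ∈ S, ∀ x ∈ S, f x = s * x * s⁻¹) : IsInner E := by
  subst hT
  exact isInner_of_top_of_sc hS hE hQ h1 h2 h

/-- Let F be a saturated fusion system over a finite p-group S whose normalizer fusion system of S is the inner fusion system of S (Aut_F(S) is a p-group). Then for every subgroup Q of S with [S, S] ≤ Q ≤ Φ(S), the normalizer fusion system of Q in F is the inner fusion system of N_S(Q) = S. -/
theorem result {Ω : Type*} [Group Ω] {S : Subgroup Ω} [Finite S] (p : ℕ) [Fact p.Prime] (hS : IsPGroup p S) (F : Cfsg.FusionSystem S) (hF : F.IsSaturated p) (hN : ∀ N : Cfsg.FusionSystem (Cfsg.FusionSystem.normalizerIn S S), F.IsNormalizerSystem S N → ∀ P : Subgroup Ω, N.Hom P = (Cfsg.innerFusionSystem (Cfsg.FusionSystem.normalizerIn S S)).Hom P) (Q : Subgroup Ω) (h1 : (commutator ↥S).map S.subtype ≤ Q) (h2 : Q ≤ (frattini ↥S).map S.subtype) : ∀ N : Cfsg.FusionSystem (Cfsg.FusionSystem.normalizerIn S Q), F.IsNormalizerSystem Q N → ∀ P : Subgroup Ω, N.Hom P = (Cfsg.innerFusionSystem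 (Cfsg.FusionSystem.normalizerIn S Q)).Hom P := by
  intro N hN'
  rw [Subgroup.map_subtype_commutator] at h1
  have hQ : Q ≤ S := h2.trans (Subgroup.map_subtype_le _)
  have hn := le_normalizer_of_comm h1 hQ
  refine hom_eq_inner_iff.2 (aux hS (le_antisymm (normalizerIn_le _ _) fun x hx => ⟨hx, hn hx⟩)
    (saturated_normalizer hS hF (fn_of_normal F hQ hn) hN') (sc_of_normal (normalizerSystem_normal hQ hN')) h1 h2
    fun f hf => top_inner_of_normalizer (fun N hN' => hom_eq_inner_iff.1 (hN N hN'))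
      (hf.of_sub (H14.Fus.normalizerSystem_sub hN')))

end Cfsg.Agent.S5222
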