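import Cfsg.Statements.S5223
import Cfsg.Agent.H14.Fac3

set_option autoImplicit false
set_option linter.unusedVariables false
set_option linter.style.haveILetI false
open Cfsg Cfsg.FusionSystem Equiv H13 H14.Fus
open scoped commutatorElement

namespace Cfsg.Agent.S5223

/-- Let F be a saturated fusion system over a finite p-group S. Suppose there are subgroups Q₀ = S, Q₁, …, Qₙ = 1 (not required to be nested) such that for each i < n the focal subgroup of Qᵢ (generated by the elements x⁻¹φ(x), x ∈ Qᵢ, φ a map of F defined on the cyclic group generated by x) lies in Qᵢ₊₁. Then F is the inner fusion system of S. -/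
theorem result {Ω : Type*} [Group Ω] {S : Subgroup Ω} [Finite S] (p : ℕ) [Fact p.Prime] (hS : IsPGroup p S) (F : Cfsg.FusionSystem S) (hF : F.IsSaturated p) (n : ℕ) (Q : Fin (n + 1) → Subgroup Ω) (hQ0 : Q 0 = S) (hQn : Q (Fin.last n) = ⊥) (hstep : ∀ i : Fin n, Subgroup.closure {y : Ω | ∃ x ∈ Q i.castSucc, ∃ φ ∈ F.Hom (Subgroup.zpowers x), y = x⁻¹ * φ ⟨x, Subgroup.mem_zpowers x⟩} ≤ Q i.succ) : ∀ P : Subgroup Ω, F.Hom P = (Cfsg.innerFusionSystem S).Hom P := by
  refine hom_eq_inner_iff.2 (isInner_of_hyp_bot hS hF (le_bot_iff.1 (H14.Fus.hyp_le_iff.2 fun P hP α hα hc x hx => ?_)))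
  have hi := iso_of_mem_autF hP hα
  have := fix_of_chain (isPGroup_of_le hS hP) (fun j => P ⊓ Q ⟨n - j, by omega⟩)
    (by rw [show (⟨n - 0, by omega⟩ : Fin (n + 1)) = Fin.last n from rfl, hQn, inf_bot_eq]) (fun _ => inf_le_left)
    hi.hom hi.maps (fun j y hy => ⟨P.mul_mem (P.inv_mem hy.1) (hi.mem hy.1), ?_⟩) hc
    (fun x _ => by rw [pow_orderOf_eq_one]; rfl) n x ⟨hx, by
      rw [show (⟨n - n, by omega⟩ : Fin (n + 1)) = 0 by simp, hQ0]; exact hP hx⟩
  · rw [this, inv_mul_cancel]; exact Subgroup.one_mem _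
  · by_cases hj : j < n
    · have h1 := hi.mor.restrict (Subgroup.zpowers_le.2 hy.1)
      have := hstep ⟨n - (j + 1), by omega⟩ (Subgroup.subset_closure ⟨y, hy.2, _, h1.toHom_mem, rfl⟩)
      rwa [show Fin.succ (⟨n - (j + 1), by omega⟩ : Fin n) = ⟨n - j, by omega⟩ from Fin.ext (by simp; omega)] at this
    · rw [show (⟨n - j, by omega⟩ : Fin (n + 1)) = 0 from Fin.ext (by simp; omega), hQ0]
      exact hP (P.mul_mem (P.inv_mem hy.1) (hi.mem hy.1))

end Cfsg.Agent.S5223
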