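import Cfsg.Statements.S5225
import Cfsg.Agent.H14.Yoshida

set_option autoImplicit false
set_option linter.unusedVariables false
set_option linter.style.haveILetI false
open Cfsg Cfsg.FusionSystem Equiv H13 H14.Fus
open scoped commutatorElement

namespace Cfsg.Agent.S5225

/-- Yoshida's Theorem for fusion systems. Let F be a saturated fusion system over a finite p-group S and N the normalizer fusion system of S in F. If the focal subgroups of F and N differ (N does not control transfer in F), then S has a quotient isomorphic to the wreath product C_p ≀ C_p (realised as a Sylow p-subgroup of the symmetric group of degree p²). -/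
theorem result {Ω : Type*} [Group Ω] {S : Subgroup Ω} [Finite S] (p : ℕ) [Fact p.Prime] (hS : IsPGroup p S) (F : Cfsg.FusionSystem S) (hF : F.IsSaturated p) (N : Cfsg.FusionSystem (Cfsg.FusionSystem.normalizerIn S S)) (hN : F.IsNormalizerSystem S N) (hne : N.focalSubgroup ≠ F.focalSubgroup) : ∃ (W : Sylow p (Equiv.Perm (Fin (p ^ 2)))) (f : ↥S →* ↥(W : Subgroup (Equiv.Perm (Fin (p ^ 2))))), Function.Surjective f := by
  refine yoshida hS hF (lt_of_le_of_ne (foc_mono (H14.Fus.normalizerSystem_sub hN)) hne) fun f hf x hx => ?_
  exact mem_foc ((isNormalizerSystem_iff.1 hN S f).2 ⟨le_normalizerIn le_rfl,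
    nExt_of_mor hf le_rfl le_rfl (fun _ _ => rfl) (mor_img_self hf fun x hx => hf.mem hx)⟩) hx

end Cfsg.Agent.S5225
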