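import Cfsg.Statements.S5226
import Cfsg.Agent.H14.Cons

set_option autoImplicit false
set_option linter.unusedVariables false
set_option linter.style.haveILetI false
open Cfsg Cfsg.FusionSystem Equiv H13 H14.Fus
open scoped commutatorElement

namespace Cfsg.Agent.S5226

/-- Let F be a saturated fusion system over a finite p-group S and Q a subgroup of S. Then Q is normal in F (F equals the normalizer system of Q) if and only if Q is strongly closed in F and admits a central series 1 = Q₀ ≤ Q₁ ≤ ⋯ ≤ Qₙ = Q ([Qᵢ₊₁, Q] ≤ Qᵢ) all of whose proper terms are weakly closed in F. -/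
theorem result {Ω : Type*} [Group Ω] {S : Subgroup Ω} [Finite S] (p : ℕ) [Fact p.Prime] (hS : IsPGroup p S) (F : Cfsg.FusionSystem S) (hF : F.IsSaturated p) (Q : Subgroup Ω) : F.IsNormal Q ↔ F.StronglyClosed Q ∧ ∃ (n : ℕ) (C : Fin (n + 1) → Subgroup Ω), C 0 = ⊥ ∧ C (Fin.last n) = Q ∧ Monotone C ∧ (∀ i : Fin n, ⁅C i.succ, Q⁆ ≤ C i.castSucc) ∧ ∀ i : Fin n, F.WeaklyClosed (C i.castSucc) := by
  constructor
  · intro h
    obtain ⟨n, hn⟩ := exists_lowerCentralSeries_eq_bot hS h.1
    refine ⟨sc_of_normal h, n, fun i => Q.lowerCentralSeries (n - i), by simp [hn], by simp, fun i j hij => ?_,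
      fun i => ?_, fun i => wc_of_sc (sc_of_normal (H13.normal_of_invariant h (Subgroup.lowerCentralSeries_le_self ..)
        fun σ hσ => hσ.hom.maps_lowerCentralSeries hσ.maps _))⟩
    · exact Subgroup.lowerCentralSeries_antitone _ (Nat.sub_le_sub_left hij n)
    · have : n - (i.castSucc : ℕ) = (n - (i.succ : ℕ)) + 1 := by simp; omega
      simp only [this]
      exact le_rfl
  · rintro ⟨h, n, C, h0, hn, hm, hc, hw⟩
    refine normal_of_wc_chain hS hF h (fun i => if hi : i < n + 1 then C ⟨i, hi⟩ else Q) (by simpa using h0) (n := n)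
      (by simp only [dif_pos (Nat.lt_succ_self n)]; exact hn) (fun i => ?_) (fun i => ?_) fun i hi => ?_
    · split_ifs with hi
      · exact hn ▸ hm (Fin.le_last _)
      · exact le_rfl
    · split_ifs with hi
      · by_cases hi' : i < n
        · exact hw ⟨i, hi'⟩
        · have : (⟨i, hi⟩ : Fin (n + 1)) = Fin.last n := Fin.ext (by simp; omega)
          rw [this, hn]; exact wc_of_sc h
      · exact wc_of_sc h
    · simp only [dif_pos (show i + 1 < n + 1 by omega), dif_pos (show i < n + 1 by omega)]
      exact hc ⟨i, hi⟩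

end Cfsg.Agent.S5226
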