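import Cfsg.Statements.S5233
import Cfsg.Agent.H3.Transv
import Cfsg.Agent.H7.Heisen

set_option autoImplicit false
open Cfsg

namespace Cfsg.Agent.S5233

/-- Let F be a saturated fusion system over a finite p-group S and P a subgroup of S strongly closed in F that is generalized extraspecial (its Frattini subgroup equals its commutator subgroup and has order p) and not isomorphic to E × A with A elementary abelian and E dihedral of order 8 (p = 2) or extraspecial of order p³ and exponent p (p odd). Then P is normal in F. -/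
theorem result {Ω : Type*} [Group Ω] {S : Subgroup Ω} [Finite S] (p : ℕ) [Fact p.Prime] (hS : IsPGroup p S) (F : Cfsg.FusionSystem S) (hF : F.IsSaturated p) (P : Subgroup Ω) (hP : F.StronglyClosed P) (hge : frattini ↥P = commutator ↥P ∧ Nat.card ↥(commutator ↥P) = p) (h2 : p = 2 → ¬ ∃ (A : Type) (_ : CommGroup A), (∀ a : A, a ^ 2 = 1) ∧ Nonempty (↥P ≃* DihedralGroup 4 × A)) (hodd : p ≠ 2 → ¬ ∃ (E : Type) (_ : Group E) (A : Type) (_ : CommGroup A), Cfsg.IsExtraspecial p E ∧ Nat.card E = p ^ 3 ∧ Monoid.exponent E = p ∧ (∀ a : A, a ^ p = 1) ∧ Nonempty (↥P ≃* E × A)) : F.IsNormal P := by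
  by_contra hn
  have := H13.finite_of_le hP.1
  have hPp := hS.to_le hP.1
  obtain ⟨z, c, hz⟩ := H3.exists_c2 hPp (by
    rw [← Subgroup.map_subtype_commutator, Subgroup.card_map_of_injective P.subtype_injective,
      hge.2])
  have hpw : ∀ x ∈ P, x ^ p ∈ Subgroup.zpowers z := fun x hx => by
    rw [hz, ← Subgroup.map_subtype_commutator, ← hge.1]
    exact H13.pow_mem_fr hPp hx
  obtain ⟨Q, hQ⟩ := H3.exists_rr hS hF hP hn
  obtain ⟨W, y, g, h⟩ := hQ.tv c
  have hg := hpw g h.gP
  have hel := h.elem fun x hx => hpw x (hQ.lt.le hx)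
  obtain ⟨e⟩ := h.equiv_prod hg
  have hWQ := h.wle.trans h.cenQ
  have := H13.finite_of_le (hWQ.trans hQ.le)
  have := H13.finite_of_le (h.ele.trans hP.1)
  let eW : Shrink.{0} W ≃* W := Shrink.mulEquiv
  let iW : CommGroup (Shrink.{0} W) := { (inferInstance : Group (Shrink.{0} W)) with
    mul_comm := fun a b => eW.injective (by
      rw [map_mul, map_mul]; exact Subtype.ext (h.comm _ (hWQ (eW a).2) _ (hWQ (eW b).2))) }
  have hA : ∀ a : Shrink.{0} W, a ^ p = 1 := fun a => eW.injective (by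
    rw [map_pow, map_one]; exact Subtype.ext (hel _ (hWQ (eW a).2)))
  by_cases hp2 : p = 2
  · obtain ⟨d⟩ := h.dihedral hp2 hg
    exact h2 hp2 ⟨_, iW, hp2 ▸ hA, ⟨e.trans (d.prodCongr eW.symm)⟩⟩
  · have hE := h.card_e hg
    have hx := H13.extraspecial_of_card hE h.not_comm
    generalize hEd : Subgroup.zpowers z ⊔ Subgroup.zpowers y ⊔ Subgroup.zpowers g = E at *
    let eE : Shrink.{0} E ≃* E := Shrink.mulEquiv
    refine hodd hp2 ⟨Shrink.{0} E, inferInstance, _, iW, H7.isExtraspecial_of_equiv hx eE.symm,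
      (Nat.card_congr eE.toEquiv).trans hE, (Monoid.exponent_eq_of_mulEquiv eE).trans ?_, hA,
      ⟨e.trans (eE.symm.prodCongr eW.symm)⟩⟩
    have : Nontrivial E := Finite.one_lt_card_iff_nontrivial.1
      (hE ▸ Nat.one_lt_pow (by norm_num) (Fact.out : p.Prime).one_lt)
    refine (Monoid.exponent_eq_prime_iff Fact.out).2 fun a ha => orderOf_eq_prime
      (Subtype.ext (h.pow_eq_one hp2 hg hel _ ((hEd ▸ h.ele) a.2))) ha

end Cfsg.Agent.S5233
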