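import Cfsg.Statements.S5234
import Cfsg.Agent.H3.Transv
import Cfsg.Agent.H9.Metacyc

set_option autoImplicit false
open Cfsg

namespace Cfsg.Agent.S5234

open H13 H3 Equiv
open Cfsg.FusionSystem (centralizerIn)
open Subgroup (zpowers mem_zpowers)
open scoped commutatorElement

/-- Let p be an odd prime, F a saturated fusion system over a finite p-group S and P a metacyclic subgroup of S strongly closed in F. Then P is normal in F. -/
theorem result {Ω : Type*} [Group Ω] {S : Subgroup Ω} [Finite S] (p : ℕ) [Fact p.Prime] (hS : IsPGroup p S) (F : Cfsg.FusionSystem S) (hF : F.IsSaturated p) (P : Subgroup Ω) (hP : F.StronglyClosed P) (hp : p ≠ 2) (hm : Cfsg.IsMetacyclic ↥P) : F.IsNormal P := by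
  have hpp : p.Prime := Fact.out
  have := finite_of_le hP.1
  have hPp := hS.to_le hP.1
  by_cases hab : ∀ x ∈ P, ∀ y ∈ P, Commute x y
  · exact normal_of_sc_of_comm hS hF hP fun x hx y hy => hab y hy x hx
  obtain ⟨V, hV, hc, hV2⟩ : ∃ V : Subgroup Ω, (∀ x, x ∈ V ↔ x ∈ P ∧ x ^ p = 1) ∧
      (∀ x ∈ V, ∀ y ∈ V, Commute x y) ∧ Nat.card V = p ^ 2 := by
    obtain ⟨⟨h1, h2⟩, h3⟩ := H9.omega_top_of_isMetacyclic hp hPp hm fun h => hab fun x hx y hy =>
      setLike_mul_comm (s := P) hx hy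
    refine ⟨(omegaOne p ⊤).map P.subtype, fun x => ⟨?_, fun h => ⟨⟨x, h.1⟩,
      H4.mem_omegaOne trivial (Subtype.ext h.2), rfl⟩⟩, fun x hx y hy => setLike_mul_comm hx hy,
      (Subgroup.card_map_of_injective P.subtype_injective).trans h3⟩
    rintro ⟨y, hy, rfl⟩
    exact ⟨y.2, congrArg Subtype.val (h2 y hy)⟩
  have hVP : V ≤ P := fun x hx => ((hV x).1 hx).1
  have hVS := hVP.trans hP.1
  have := finite_of_le hVS
  have hVp := hS.to_le hVS
  have hsc : F.StronglyClosed V := stronglyClosed_iff_fun.2 ⟨hVS, fun R f hf x hx h => (hV _).2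
    ⟨sc_mem hP hf hx (hVP h), by rw [← hf.hom.map_pow hx, ((hV x).1 h).2, hf.hom.map_one]⟩⟩
  have hN := H13.sc_le_normalizer hsc
  have hZ : centralizerIn V S ≤ V := inf_le_left
  have := finite_of_le hZ
  have hA := fun u (hu : u ∈ AutBy S V) => mem_autAll.1 (autBy_le_autAll S V hu)
  have hfix : ∀ u ∈ AutBy S V, ∀ x ∈ centralizerIn V S, u x = x := fun u hu x hx => by
    obtain ⟨s, hs, h1, rfl⟩ := mem_autBy.1 hu
    rw [cr_apply h1 hx.1, hx.2 s hs, mul_inv_cancel_right]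
  have hcard : Nat.card V ≤ p * Nat.card (centralizerIn V S) := by
    obtain ⟨x, hx, hx', h1⟩ := exists_fix_mod hVp (bot_lt_iff_ne_bot.2 fun e => by
      rw [e, Subgroup.card_bot] at hV2
      exact (Nat.one_lt_pow two_ne_zero hpp.one_lt).ne hV2) (isPGroup_autBy hS V)
      (fun u hu => (hA u hu).1) (fun u hu => (hA u hu).2.1) fun u hu => (hA u hu).1.maps_bot
    have := mul_card_le_of_lt (hVp.to_le hZ) (bot_lt_iff_ne_bot.2 fun e => hx' (e.le ⟨hx, fun s hs => by
      have := h1 _ (cr_mem_autBy hs (hN hs))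
      rw [Subgroup.mem_bot, inv_mul_eq_one, cr_apply (hN hs) hx] at this
      exact mul_inv_eq_iff_eq_mul.1 this.symm⟩))
    rw [Subgroup.card_bot, mul_one] at this
    rw [hV2, pow_two]
    exact Nat.mul_le_mul_left _ this
  have htv := triv_of_card hVp hZ (le_normalizer_iff.2 fun g hg x hx => by
      rwa [(hc g hg x hx.1).eq, mul_inv_cancel_right]) hcard (isPGroup_autBy hS V)
    (fun u hu => (hA u hu).1) (fun u hu => (hA u hu).2.1)
    fun u hu => (maps_one _).congr fun x hx => (hfix u hu x hx).symm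
  by_cases hZs : F.StronglyClosed (centralizerIn V S)
  · refine normal_of_omega_chain hp hS hF hP (chain2 (centralizerIn V S) V) rfl (n := 2)
      ((Subgroup.closure_le _).2 fun x hx => (hV x).2 hx) ?_ ?_
    · rintro (_ | _ | i)
      exacts [sc_of_normal (normal_bot F), hZs, hsc]
    · rintro (_ | _ | i)
      · exact (Subgroup.commutator_eq_bot_iff_le_centralizer.2
          (inf_le_right.trans (Subgroup.centralizer_le hP.1))).le
      · refine Subgroup.commutator_le.2 fun x hx g hg => ?_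
        have := htv _ (cr_mem_autBy (hP.1 hg) (hN (hP.1 hg))) _ (V.inv_mem hx)
        rwa [inv_mul_cr_eq (hN (hP.1 hg)) (V.inv_mem hx), inv_inv] at this
      · exact H10.comm_le_left (hP.1.trans hN)
  exfalso
  obtain ⟨β, hβ, z, hz, hy⟩ : ∃ β ∈ AutF F V, ∃ z ∈ centralizerIn V S, β z ∉ centralizerIn V S := by
    by_contra hh
    push Not at hh
    refine hZs (stronglyClosed_iff.2 ⟨hZ.trans hVS, fun R σ hσ x hx h => ?_⟩)
    have h1 := Subgroup.zpowers_le.2 hx
    obtain ⟨τ, h2, h3, -⟩ := receptive_extend_centralizer (receptive_of_fullyNormalized hS hF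
      (fullyNormalized_of_normal (h1.trans hσ.le) (le_normalizer_iff.2 fun g hg w hw => by
        rwa [(show Commute g w from by
          obtain ⟨k, rfl⟩ := hw
          exact Commute.zpow_right (h.2 g hg) k).eq, mul_inv_cancel_right])))
      (hσ.iso_of_le h1).inv
    have h4 : V ≤ img σ (zpowers x) ⊔ centralizerIn S (img σ (zpowers x)) :=
      fun v hv => Subgroup.mem_sup_right ⟨hVS hv, fun w hw => hc w (img_le_iff.2 (fun w hw =>
        sc_mem hsc hσ (h1 hw) (Subgroup.zpowers_le.2 h.1 hw)) hw) v hv⟩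
    have h5 : Iso F V V τ := ⟨h2.restrict h4, sc_maps hsc h2 h4⟩
    have := hh _ h5.inv.rs_mem x h
    rwa [rs_apply h5.inv.maps h.1, Perm.inv_eq_iff_eq.2
      ((h3 _ (mem_img_of_mem σ (mem_zpowers x))).trans (inv_ap σ x)).symm] at this
  have hb := homOn_of_mem_autF hβ
  have hbm := maps_of_mem_autF hβ
  have hyV := hbm.mem hz.1
  have hzp := ((hV z).1 hz.1).2
  have hZc : Nat.card V = p * Nat.card (centralizerIn V S) :=
    (card_le_mul_cases hVp hZ hcard).resolve_left fun e => hy (e.le hyV)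
  have hz1 : z ≠ 1 := by
    rintro rfl
    exact hy (by rw [hb.map_one]; exact one_mem _)
  have hZz : zpowers z = centralizerIn V S := eq_of_le_of_card_le (Subgroup.zpowers_le.2 hz) (by
    rw [Nat.card_zpowers, orderOf_eq_prime hzp hz1]
    exact (Nat.eq_of_mul_eq_mul_left hpp.pos (hZc.symm.trans (hV2.trans (pow_two p)))).le)
  have hall : ∀ {f g : Ω → Ω}, HomOn V f → HomOn V g → f z = g z → ∀ w ∈ V,
      w ∉ centralizerIn V S → f w = g w → ∀ x ∈ V, f x = g x := fun {f g} hf hg e w hw hw' e' x hx => by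
    have h1 := sup_le hZ (Subgroup.zpowers_le.2 hw)
    have h2 := (eq_or_eq_of_card le_sup_left h1 hZc).resolve_left
      fun e => hw' (e.le (Subgroup.mem_sup_right (mem_zpowers w)))
    refine (hf.mono h1).eqOn_sup (hg.mono h1) (hZz ▸ ?_) ?_ x (h2.ge hx) <;> rintro _ ⟨k, rfl⟩
    · exact (hf.map_zpow hz.1 k).trans (e ▸ (hg.map_zpow hz.1 k).symm)
    · exact (hf.map_zpow hw k).trans (e' ▸ (hg.map_zpow hw k).symm)
  obtain ⟨u, hu, huy⟩ : ∃ u ∈ AutBy S V, u (β z) ≠ β z := by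
    by_contra hh
    push Not at hh
    exact hy ⟨hyV, fun s hs => mul_inv_eq_iff_eq_mul.1
      ((cr_apply (hN hs) hyV).symm.trans (hh _ (cr_mem_autBy hs (hN hs))))⟩
  have huA := autBy_le_autF F hVS le_rfl hu
  have hvA := mul_mem (mul_mem hβ huA) (inv_mem hβ)
  have hv1 : (β * u * β⁻¹) (β z) = β z := by rw [mul_ap, mul_ap, inv_ap, hfix u hu z hz]
  obtain ⟨m, hm⟩ := exists_tv_pow (hA u hu).1 hyV hz.1 hzp (hfix u hu z hz)
    (hZz ▸ htv u hu _ hyV) huy (mem_zpowers z)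
  obtain ⟨n, hn⟩ := exists_tv_pow (homOn_of_mem_autF hvA) hz.1 hyV ((hV _).1 hyV).2 hv1 (by
      have h1 := hbm.inv_mem hz.1
      have h3 := HomOn.map_zp hb hz.1 (mem_zpowers _) (hZz.ge (htv u hu _ h1))
      rwa [hb.map_mul (V.inv_mem h1) ((hA u hu).2.1.mem h1), hb.map_inv h1, ap_inv] at h3)
    (fun e => huy (hall (hA u hu).1 (homOn_id V) (hfix u hu z hz) _ (hbm.inv_mem hz.1) (fun h => hy (by
      obtain ⟨k, hk⟩ := exists_pow_of_mem_zp hzp (hZz.ge h) (fun e => hz1 (by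
        rw [Perm.inv_eq_iff_eq.1 e, hb.map_one])) (mem_zpowers z)
      rw [← hk, hb.map_pow (hbm.inv_mem hz.1), ap_inv]
      exact pow_mem hz k)) (Perm.eq_inv_iff_eq.2 e) _ hyV)) (inv_mem (mem_zpowers _))
  have hω := mul_mem (mul_mem (pow_mem huA m) (pow_mem hvA n)) (pow_mem huA m)
  obtain ⟨w1, w2⟩ := tv_weyl (homOn_of_mem_autF (pow_mem huA m)) (homOn_of_mem_autF (pow_mem hvA n))
    hyV hz.1 (hc _ hyV _ hz.1) (Perm.pow_apply_eq_self_of_apply_eq_self (hfix u hu z hz) m) hm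
    (Perm.pow_apply_eq_self_of_apply_eq_self hv1 n) hn
  generalize u ^ m * (β * u * β⁻¹) ^ n * u ^ m = ω at hω w1 w2
  have ht := mul_mem hω hω
  have hinv : ∀ x ∈ V, (ω * ω) x = x⁻¹ := hall (homOn_of_mem_autF ht)
    (fun x hx y hy => by rw [mul_inv_rev, (hc _ (V.inv_mem hx) _ (V.inv_mem hy)).eq])
    (by rw [mul_ap, w1, (homOn_of_mem_autF hω).map_inv hyV, w2]) _ hyV hy (by rw [mul_ap, w2, w1])
  obtain ⟨τ, h1, h2⟩ := receptive_extend_of_conj (receptive_of_fullyNormalized hS hF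
    (fullyNormalized_of_normal hVS hN)) (iso_of_mem_autF hVS ht) (R := S) (fun s hs => ⟨hs, hN hs⟩)
    fun s hs => by
      have h1 := cr_mem_autBy hs (hN hs)
      rwa [mul_inv_eq_iff_eq_mul.2 (perm_ext_on (P := V) (fix_of_mem_autF (mul_mem ht
        (autBy_le_autF F hVS le_rfl h1))) (fix_of_mem_autF (mul_mem (autBy_le_autF F hVS le_rfl h1) ht))
        fun x hx => by
          rw [mul_ap _ (cr V s), mul_ap (cr V s), hinv _ ((hA _ h1).2.1.mem hx), hinv x hx,
            (hA _ h1).1.map_inv hx])]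
  have hPle : P ≤ V ⊔ S := hP.1.trans le_sup_right
  have h3 : Iso F P P τ := ⟨h1.restrict hPle, sc_maps hP h1 hPle⟩
  have hρ := h3.rs_mem
  have hρV : ∀ x ∈ V, rs P τ x = x⁻¹ := fun x hx => by rw [rs_apply h3.maps (hVP hx), h2 x hx, hinv x hx]
  generalize rs P τ = ρ at hρ hρV
  have := finite_autF F P
  obtain ⟨k, m, hm, e⟩ := Nat.exists_eq_pow_mul_and_not_dvd (orderOf_ne_zero_of_mem hρ) p hpp.ne_one
  obtain ⟨j, hj⟩ : Odd (p ^ k) := (hpp.odd_of_ne_two hp).pow
  have h4 : ∀ x ∈ V, (ρ ^ p ^ k) x = x⁻¹ := fun x hx => by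
    rw [hj, pow_succ', mul_ap, pow_mul, Perm.pow_apply_eq_self_of_apply_eq_self (by
      rw [pow_two, mul_ap, hρV x hx, hρV _ (V.inv_mem hx), inv_inv]), hρV x hx]
  have h5 := pow_mem hρ (p ^ k)
  refine hab (comm_of_fpf (homOn_of_mem_autF h5) (maps_of_mem_autF h5) (fix_of_fix_omega hp hPp
    (homOn_of_mem_autF (mul_mem h5 h5)) (maps_of_mem_autF (mul_mem h5 h5))
    (((Nat.Prime.coprime_iff_not_dvd hpp).2 hm).symm.coprime_dvd_left (orderOf_dvd_of_pow_eq_one ?_))
    fun x hx h => ?_) fun x hx h => ?_)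
  · rw [← pow_two, pow_right_comm, ← pow_mul ρ, ← e, pow_orderOf_eq_one, one_pow]
  · have := (hV x).2 ⟨hx, h⟩
    rw [mul_ap, h4 x this, h4 _ (V.inv_mem this), inv_inv]
  · by_contra h6
    obtain ⟨i, hi⟩ := isPGroup_iff_mem.1 hPp x hx
    obtain ⟨l, h7, h8⟩ := exists_pow_not_mem' (Q := ⊥) hi h6
    have h9 := h4 _ ((hV _).2 ⟨pow_mem hx l, h8⟩)
    rw [(homOn_of_mem_autF h5).map_pow hx, h, eq_inv_iff_mul_eq_one, ← pow_two] at h9
    exact h7 (orderOf_eq_one_iff.1 (Nat.eq_one_of_dvd_coprimes ((Nat.coprime_primes Nat.prime_two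
      hpp).2 hp.symm) (orderOf_dvd_of_pow_eq_one h9) (orderOf_dvd_of_pow_eq_one h8)))

end Cfsg.Agent.S5234
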