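import Cfsg.Statements.S5235
import Cfsg.Agent.H3.Transv
import Cfsg.Agent.H13.Tw
import Cfsg.Agent.H9.NormalCyc
import Cfsg.Agent.H8.Cyc

set_option autoImplicit false
open Cfsg

namespace Cfsg.Agent.S5235

set_option linter.unusedSectionVars false
open H13 H3 Equiv
open Subgroup (zpowers mem_zpowers)
open scoped commutatorElement

theorem chain {C : Type*} [Group C] [Fact (Nat.Prime 2)] {w c d : C} {k : ℕ} (hw : w ^ 2 ^ k = 1)
    (hc : c ∈ zpowers w) (hd : d ∈ zpowers w) : c ∈ zpowers d ∨ d ∈ zpowers (c ^ 2) := by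
  have hf : IsOfFinOrder w := isOfFinOrder_iff_pow_eq_one.2 ⟨_, by positivity, hw⟩
  obtain ⟨i, rfl⟩ : c ∈ Submonoid.powers w := hf.mem_powers_iff_mem_zpowers.2 hc
  obtain ⟨j, rfl⟩ : d ∈ Submonoid.powers w := hf.mem_powers_iff_mem_zpowers.2 hd
  rcases eq_or_ne i 0 with rfl | hi
  · exact Or.inl (by simp)
  rcases eq_or_ne j 0 with rfl | hj
  · exact Or.inr (by simp)
  obtain ⟨a, i, hi', rfl⟩ := Nat.exists_eq_two_pow_mul_odd hi
  obtain ⟨b, j, hj', rfl⟩ := Nat.exists_eq_two_pow_mul_odd hj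
  have key : ∀ a b i j : ℕ, Odd j → b ≤ a → w ^ (2 ^ a * i) ∈ zpowers (w ^ (2 ^ b * j)) := by
    intro a b i j hj h
    obtain ⟨c, rfl⟩ := Nat.exists_eq_add_of_le h
    rw [pow_add, mul_assoc, pow_mul w _ (_ * i)]
    refine Subgroup.pow_mem _ (H9.mem_of_zpow_mem_of_not_dvd (a := w ^ 2 ^ b) (p := 2) (m := k) (j := j) (by
      rw [pow_right_comm, hw, one_pow]; exact one_mem _)
      (by obtain ⟨j, rfl⟩ := hj; push_cast; omega) ?_) _
    rw [zpow_natCast, ← pow_mul]; exact mem_zpowers _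
  refine (le_or_gt b a).imp (key _ _ _ _ hj') fun h => ?_
  simp only
  rw [← pow_mul, mul_right_comm, ← pow_succ]
  exact key _ _ _ _ hi' h

variable {Ω : Type*} [Group Ω]

theorem mem_op_of_fr {p : ℕ} [Fact p.Prime] {Q L : Subgroup Ω} [Finite Q] (hQ : IsPGroup p Q)
    {A : Subgroup (Perm Ω)} (hA : A ≤ AutAll Q) (hL : L ≤ Q) (hAL : ∀ β ∈ A, Maps L L β) {α : Perm Ω}
    (hα : α ∈ A) (h1 : ∀ x ∈ Q, x⁻¹ * α x ∈ L) (h2 : ∀ x ∈ L, x⁻¹ * α x ∈ Fr Q) : α ∈ Op p A := by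
  have := finite_autAll Q
  have hle : A ⊓ trivMod Q L ⊓ trivMod L (Fr Q) ≤ A := inf_le_left.trans inf_le_left
  have := finite_of_le (hle.trans hA)
  have hm := fun β hβ => mem_autAll.1 (hA (x := β) hβ)
  refine le_op hle ?_ (le_normalizer_iff.2 fun γ hγ β hβ => ⟨⟨A.mul_mem (A.mul_mem hγ hβ.1.1)
    (A.inv_mem hγ), conj_mem_trivMod (hm γ hγ).1 (hm γ hγ).2.1 (fun x hx _ => (hAL γ hγ).mem hx) hβ.1.2⟩,
    conj_mem_trivMod ((hm γ hγ).1.mono hL) (hAL γ hγ) (fun x hx _ =>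
      ((hm γ hγ).1.maps_char (hm γ hγ).2.1 _).mem hx) hβ.2⟩) ⟨⟨hα, (hm α hα).2.1, h1⟩, hAL α hα, h2⟩
  rw [← oUp_eq_bot_iff, eq_bot_iff, oUp_le_iff]
  intro β hβ hc
  obtain ⟨a1, a2, a3⟩ := hm β hβ.1.1
  exact perm_ext_on a3 (fun _ _ => rfl) (fix_of_triv_fr hQ a1 a2 hc
    (triv_step hQ (fr_le Q) hL le_rfl a1 (a1.maps_char a2 _) hc hβ.2.2 hβ.1.2.2))

/-- Let F be a saturated fusion system over a finite 2-group S (p = 2) and P a metacyclic subgroup of S strongly closed in F that is not dihedral, not semidihedral and not generalized quaternion (here the group of order 2, the Klein four-group and the cyclic group of order 4 also count as excluded). Then P is normal in F. -/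
theorem result {Ω : Type*} [Group Ω] {S : Subgroup Ω} [Finite S] (p : ℕ) [Fact p.Prime] (hS : IsPGroup p S) (F : Cfsg.FusionSystem S) (hF : F.IsSaturated p) (P : Subgroup Ω) (hP : F.StronglyClosed P) (hp : p = 2) (hm : Cfsg.IsMetacyclic ↥P) (hd : ¬ ∃ m : ℕ, Nonempty (↥P ≃* DihedralGroup m)) (hq : ¬ ∃ m : ℕ, Nonempty (↥P ≃* QuaternionGroup m)) (hsd : ¬ Cfsg.IsQuasiDihedral ↥P) : F.IsNormal P := by
  subst hp
  by_contra hn
  have := finite_of_le hP.1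
  have hPp := hS.to_le hP.1
  obtain ⟨Q, h⟩ := exists_rr hS hF hP hn
  have := finite_of_le h.le
  have hQp := hS.to_le h.le
  have hQP := h.lt.le
  obtain ⟨N, hN, h1, h2⟩ := hm
  obtain ⟨a, rfl⟩ := (Subgroup.isCyclic_iff_exists_zpowers_eq_top _).1 h1
  have hMi : ∀ k : P, k ∈ zpowers a ↔ (k : Ω) ∈ zpowers (a : Ω) := fun k =>
    ⟨fun ⟨i, e⟩ => ⟨i, congrArg Subtype.val e⟩, fun ⟨i, e⟩ => ⟨i, Subtype.ext e⟩⟩
  have hMP : zpowers (a : Ω) ≤ P := Subgroup.zpowers_le.2 a.2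
  have hMN : P ≤ Subgroup.normalizer ((zpowers (a : Ω) : Subgroup Ω) : Set Ω) :=
    le_normalizer_iff.2 fun g hg x hx =>
      (hMi _).1 (hN.conj_mem ⟨x, hMP hx⟩ ((hMi _).2 hx) ⟨g, hg⟩)
  have hT : ∀ k ∈ P, ∀ l ∈ P, (∃ i : ℤ, (l ^ i)⁻¹ * k ∈ zpowers (a : Ω)) ∨
      ∃ i : ℤ, ((k ^ 2) ^ i)⁻¹ * l ∈ zpowers (a : Ω) := fun k hk l hl => by
    obtain ⟨w, hw⟩ := h2.exists_generator
    obtain ⟨n, hn⟩ := hPp.to_quotient (zpowers a) w
    exact (chain hn (hw (⟨k, hk⟩ : P)) (hw (⟨l, hl⟩ : P))).imp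
      (fun ⟨i, e⟩ => ⟨i, (hMi ((⟨l, hl⟩ ^ i)⁻¹ * ⟨k, hk⟩)).1 (QuotientGroup.eq.1
        ((QuotientGroup.mk_zpow _ _ _).trans e))⟩)
      fun ⟨i, e⟩ => ⟨i, (hMi (((⟨k, hk⟩ ^ 2) ^ i)⁻¹ * ⟨l, hl⟩)).1 (QuotientGroup.eq.1
        (by rw [QuotientGroup.mk_zpow, QuotientGroup.mk_pow]; exact e))⟩
  have hC : ∀ k ∈ P, ∀ l ∈ P, ⁅k, l⁆ ∈ zpowers (a : Ω) := fun k hk l hl =>
    (hMi ⁅(⟨k, hk⟩ : P), ⟨l, hl⟩⁆).1 ((QuotientGroup.eq_one_iff _).1 ((map_commutatorElement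
      (QuotientGroup.mk' (zpowers a)) _ _).trans (commutatorElement_eq_one_iff_mul_comm.2
        (h2.isMulCommutative.is_comm.comm _ _))))
  obtain ⟨x, hx⟩ := H8.exists_zpowers_eq_of_isCyclic (H := Q ⊓ zpowers (a : Ω))
    (Subgroup.isCyclic_of_le inf_le_right)
  have hxQ := hx.le (mem_zpowers x)
  have hcr : ∀ g ∈ P, g ∈ Subgroup.normalizer (Q : Set Ω) → ∀ q ∈ Q, q⁻¹ * cr Q g q ∈ zpowers x :=
    fun g hg hgN q hq => hx.ge ⟨Q.mul_mem (Q.inv_mem hq) ((maps_cr hgN).mem hq),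
      inv_mul_cr_eq hgN hq ▸ hC _ (inv_mem (hQP hq)) g hg⟩
  have hΦ : Q ≤ Subgroup.normalizer ((Fr Q : Subgroup Ω) : Set Ω) := le_normalizer_iff.2
    fun g hg w hw => by simpa using mul_mem hw (conj_mem_fr hQp hg (fr_le Q hw))
  have hodd : ∀ {w : Ω} {K : Subgroup Ω} {j : ℤ}, w ∈ P → ¬ (2 : ℤ) ∣ j → w ^ j ∈ K → w ∈ K :=
    fun {w K j} hw hj e => by
      obtain ⟨k, hk⟩ := isPGroup_iff_mem.1 hPp w hw
      exact H9.mem_of_zpow_mem_of_not_dvd (p := 2) (hk ▸ one_mem K) hj e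
  have hfx : ∀ g (hg : g ∈ P) (hgN : g ∈ Subgroup.normalizer (Q : Set Ω)), zpowers x ⊔ Fr Q ≤
      fixMod hΦ (mem_autAll.1 (cr_mem_autAll hgN)).1 := fun g hg hgN => by
    refine sup_le (Subgroup.zpowers_le.2 ⟨hxQ.1, ?_⟩) fun w hw => ⟨fr_le Q hw, mul_mem (inv_mem hw)
      (((mem_autAll.1 (cr_mem_autAll hgN)).1.maps_char (maps_cr hgN) _).mem hw)⟩
    obtain ⟨j, hj⟩ := hcr g hg hgN x hxQ.1
    rcases Int.even_or_odd' j with ⟨k, rfl | rfl⟩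
    · rw [← hj]
      simp only [zpow_mul]
      exact zpow_mem (zpow_ofNat x 2 ▸ pow_mem_fr hQp hxQ.1) k
    · have e : cr Q g x = (x ^ (k + 1)) ^ 2 := by
        rw [← mul_inv_cancel_left x (cr Q g x), ← hj]; group
      have e' : orderOf x = orderOf ((x ^ (k + 1)) ^ 2) := by
        rw [← e, cr_apply hgN hxQ.1]; exact ((MulAut.conj g).orderOf_eq x).symm
      have := finite_of_le (Subgroup.zpowers_le.2 hxQ.1 : zpowers x ≤ Q)
      have e'' : zpowers ((x ^ (k + 1)) ^ 2) = zpowers x := eq_of_le_of_card_le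
        (Subgroup.zpowers_le.2 (pow_mem (zpow_mem (mem_zpowers x) _) 2))
        (by rw [Nat.card_zpowers, Nat.card_zpowers, e'])
      exact (e''.ge.trans (Subgroup.zpowers_le.2 (pow_mem_fr hQp (Q.zpow_mem hxQ.1 _))))
        (hcr g hg hgN x hxQ.1)
  have hL : zpowers x ⊔ Fr Q ≤ Q := sup_le (Subgroup.zpowers_le.2 hxQ.1) (fr_le Q)
  obtain ⟨g₀, hg₀, hg₀Q⟩ := SetLike.exists_of_lt (lt_normalizerIn hS hP.1 h.lt)
  obtain ⟨hg₀, hg₀N⟩ := mem_normalizerIn.1 hg₀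
  obtain ⟨β, hβ, hy⟩ : ∃ β ∈ AutF F Q, β x ∉ zpowers x ⊔ Fr Q := by
    by_contra hh
    push Not at hh
    have := finite_of_le hL
    refine hg₀Q (h.rad _ hg₀ hg₀N (mem_op_of_fr hQp (autF_le_autAll F Q) hL (fun γ hγ => ?_)
      (cr_mem_autF F h.le (hP.1 hg₀) hg₀N) (fun q hq => Subgroup.mem_sup_left (hcr _ hg₀ hg₀N q hq))
      fun q hq => (hfx _ hg₀ hg₀N hq).2))
    have hc := (homOn_of_mem_autF hγ).mono hL
    refine hc.maps_of_mem (img_le_iff.1 ?_)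
    rw [hc.img_sup, ((homOn_of_mem_autF hγ).maps_char (maps_of_mem_autF hγ) _).img_eq]
    exact sup_le (img_le_iff.2 fun w => HomOn.map_zp (homOn_of_mem_autF hγ) hxQ.1 (hh γ hγ))
      le_sup_right
  have hb := homOn_of_mem_autF hβ
  have hyQ := (maps_of_mem_autF hβ).mem hxQ.1
  have hxy : x⁻¹ * (β x)⁻¹ * x ∈ zpowers (β x) := by
    have h3 := (maps_of_mem_autF hβ).inv_mem hxQ.1
    have := HomOn.map_zp hb hxQ.1 (mem_zpowers _) (hx.ge ⟨conj_mem_of_normalizer'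
      (Subgroup.le_normalizer h3) (inv_mem hxQ.1),
        conj_mem_of_normalizer' (hMN (hQP h3)) (inv_mem hxQ.2)⟩)
    rwa [hb.map_conj' h3 (inv_mem hxQ.1), ap_inv, hb.map_inv hxQ.1] at this
  have ho : orderOf (β x ^ 2) = orderOf (x ^ 2) := by
    rw [← hb.map_pow hxQ.1, hb.orderOf_eq β.injective.injOn (pow_mem hxQ.1 2)]
  generalize β x = y at hy hyQ hxy ho
  have hyP := hQP hyQ
  have hF2 : ∀ g (hg : g ∈ P) (hgN : g ∈ Subgroup.normalizer (Q : Set Ω)), g ∉ Q →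
      y ∉ fixMod hΦ (mem_autAll.1 (cr_mem_autAll hgN)).1 := fun g hg hgN hgQ e => by
    refine hgQ (h.rad _ hg hgN (mem_op_of_fr hQp (autF_le_autAll F Q) le_rfl
      (fun _ => maps_of_mem_autF) (cr_mem_autF F h.le (hP.1 hg) hgN)
      (fun q hq => mul_mem (inv_mem hq) ((maps_cr hgN).mem hq)) fun q hq => ?_))
    obtain ⟨i, hi⟩ | ⟨i, hi⟩ := hT q (hQP hq) y hyP
    · exact ((mul_mem_cancel_left (inv_mem (zpow_mem e i))).1 (hfx g hg hgN (Subgroup.mem_sup_left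
        (hx.ge ⟨Q.mul_mem (Q.inv_mem (zpow_mem hyQ i)) hq, hi⟩)))).2
    · exact absurd ((mul_mem_cancel_left (inv_mem (Subgroup.mem_sup_right
        (zpow_mem (pow_mem_fr hQp hq) i)))).1 (Subgroup.mem_sup_left
          (hx.ge ⟨Q.mul_mem (Q.inv_mem (zpow_mem (pow_mem hq 2) i)) hyQ, hi⟩))) hy
  obtain ⟨g, hgM, hgN, hgQ⟩ : ∃ g ∈ zpowers (a : Ω), g ∈ Subgroup.normalizer (Q : Set Ω) ∧ g ∉ Q := by
    obtain ⟨i, hi⟩ | ⟨i, hi⟩ := hT g₀ hg₀ y hyP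
    · exact ⟨_, hi, mul_mem (inv_mem (Subgroup.le_normalizer (zpow_mem hyQ i))) hg₀N,
        fun e => hg₀Q ((mul_mem_cancel_left (inv_mem (zpow_mem hyQ i))).1 e)⟩
    refine ⟨_, hi, mul_mem (inv_mem (zpow_mem (pow_mem hg₀N 2) i)) (Subgroup.le_normalizer hyQ),
      fun e => hF2 _ hg₀ hg₀N hg₀Q ((mul_mem_cancel_left (inv_mem ?_)).1
        (hfx _ hg₀ hg₀N (Subgroup.mem_sup_left (hx.ge ⟨e, hi⟩))))⟩
    have h3 := inv_mem_iff.1 ((mul_mem_cancel_right hyQ).1 e)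
    refine ⟨h3, ?_⟩
    rw [cr_apply hg₀N h3, (((Commute.refl g₀).pow_right 2).zpow_right i).eq, mul_inv_cancel_right,
      inv_mul_cancel]
    exact one_mem _
  have hgP := hMP hgM
  have hact : ∀ k : Ω, ∀ t : ℤ, k * a * k⁻¹ = a ^ t → ∀ w ∈ zpowers (a : Ω), k * w * k⁻¹ = w ^ t := by
    rintro k t e _ ⟨i, rfl⟩
    simp only
    rw [H9.conj_zpow_eq e, mul_comm t, zpow_mul]
  have hcq := mul_mem (inv_mem hyQ) (conj_mem_of_normalizer hgN hyQ)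
  have hcΦ : ∀ g ∈ P, g ∈ Subgroup.normalizer (Q : Set Ω) → g ∉ Q → y⁻¹ * (g * y * g⁻¹) ∉ Fr Q :=
    fun g hg hgN hgQ e => hF2 g hg hgN hgQ ⟨hyQ, by rwa [cr_apply hgN hyQ]⟩
  have hD : ∀ t : ℤ, y⁻¹ * a * y⁻¹⁻¹ = a ^ t → t % 4 = 3 := fun t ht => by
    have e1 : ∀ w ∈ zpowers (a : Ω), y⁻¹ * (w * y * w⁻¹) = w ^ (t - 1) := fun w hw => by
      rw [zpow_sub_one, ← hact _ t ht w hw]; group
    rw [e1 g hgM] at hcq
    have e2 : g ^ 2 ∈ Q := by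
      by_contra e
      refine hcΦ _ (pow_mem hgP 2) (pow_mem hgN 2) e ?_
      rw [e1 _ (pow_mem hgM 2), ← zpow_natCast, ← zpow_mul, mul_comm, zpow_mul, zpow_natCast]
      exact pow_mem_fr hQp hcq
    have e3 : (2 : ℤ) ∣ t - 1 := by
      by_contra e
      exact hgQ (hodd hgP e hcq)
    by_contra e
    obtain ⟨r, hr⟩ : (4 : ℤ) ∣ t - 1 := by omega
    refine hcΦ g hgP hgN hgQ ?_
    rw [e1 g hgM, hr, zpow_mul, show g ^ (4 : ℤ) = (g ^ 2) ^ 2 by group]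
    exact zpow_mem (pow_mem_fr hQp e2) r
  obtain ⟨t, ht⟩ := H9.exists_conj_eq_zpow (hMN (inv_mem hyP))
  have hy2 : y ^ 2 ∈ zpowers (a : Ω) := by
    obtain ⟨r, hr⟩ : (2 : ℤ) ∣ t - 1 := by have := hD t ht; omega
    have e1 : x ^ 2 ∈ zpowers y := by
      refine hodd (pow_mem (hQP hxQ.1) 2) (j := r) (by have := hD t ht; omega) ?_
      have e : (x ^ 2) ^ r = x * (x⁻¹ * y⁻¹ * x * y) * x⁻¹ := by
        rw [← zpow_natCast, ← zpow_mul, Nat.cast_ofNat, ← hr, zpow_sub_one, ← hact _ t ht x hxQ.2]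
        group
      have e' : (x ^ 2) ^ r = x⁻¹ * (x ^ 2) ^ r * x := by group
      rw [e', e]
      simpa [mul_assoc] using mul_mem hxy (mem_zpowers y)
    have := finite_of_le (Subgroup.zpowers_le.2 hyP)
    have e2 := Subgroup.zpowers_le.2 (pow_mem (mem_zpowers y) 2)
    have := finite_of_le e2
    refine Subgroup.zpowers_le.2 (pow_mem hxQ.2 2) (?_ : y ^ 2 ∈ _)
    obtain ⟨n, hn⟩ := isPGroup_iff_mem.1 hPp y hyP
    refine (chain hn (pow_mem (mem_zpowers y) 2) e1).elim id fun e => (eq_of_le_of_card_le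
      (Subgroup.zpowers_le.2 (Subgroup.zpowers_le.2 (pow_mem (mem_zpowers _) 2) e))
      (by rw [Nat.card_zpowers, Nat.card_zpowers, ho])).ge (mem_zpowers _)
  have hi : (zpowers a).index = 2 := by
    refine Subgroup.index_eq_two_iff_exists_notMem_and'.2 ⟨⟨y, hyP⟩, fun e => hy
      (Subgroup.mem_sup_left (hx.ge ⟨hyQ, (hMi _).1 e⟩)), fun k => ?_⟩
    rw [hMi, hMi]
    obtain ⟨i, hi⟩ | ⟨i, hi⟩ := hT k k.2 y hyP
    · have e := fun j : ℤ => mul_mem (zpow_mem hy2 j) hi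
      rcases Int.even_or_odd' i with ⟨j, rfl | rfl⟩
      · exact Or.inr (by convert e j using 1; group)
      · exact Or.inl (by convert e (j + 1) using 1; simp only [Subgroup.coe_mul]; group)
    · obtain ⟨u, hu⟩ := H9.exists_conj_eq_zpow (hMN (inv_mem (zpow_mem k.2 i)))
      have := hD (u ^ 2) (by
        obtain ⟨j, hj⟩ := hi
        have e : y = ((k : Ω) ^ i) ^ 2 * a ^ j := by
          simp only at hj
          rw [hj]; group
        calc y⁻¹ * a * y⁻¹⁻¹ = ((a : Ω) ^ j)⁻¹ * (((k : Ω) ^ i)⁻¹ ^ 2 * a * (((k : Ω) ^ i)⁻¹ ^ 2)⁻¹) *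
              a ^ j := by rw [e]; group
          _ = _ := by rw [H9.pow_conj_eq hu]; group)
      rcases Int.even_or_odd' u with ⟨v, rfl | rfl⟩ <;> ring_nf at this <;> omega
  obtain ⟨m, hm⟩ := (IsPGroup.iff_orderOf.1 hPp) a
  rcases H9.dqs_or_modular (b := (⟨y, hyP⟩ : P)⁻¹) hm hi (fun e => by
    have := hD 1 (by
      rw [zpow_one, mul_inv_eq_iff_eq_mul]; exact (congrArg Subtype.val e.eq).symm)
    omega) with e | ⟨e1, e⟩
  · rcases e.iso with ⟨k, e⟩ | ⟨k, e1, e⟩ | ⟨k, e⟩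
    exacts [hd ⟨_, e⟩, hsd ⟨k + 3, by omega, e1, e⟩, hq ⟨_, e⟩]
  · have := hD (1 + 2 ^ (m - 1)) ((congrArg Subtype.val e).trans (by
      rw [← zpow_natCast]; push_cast; rfl))
    obtain ⟨k, rfl⟩ : ∃ k, m = k + 3 := ⟨m - 3, by omega⟩
    rw [show k + 3 - 1 = k + 2 from rfl, pow_add] at this
    omega

end Cfsg.Agent.S5235
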