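import Cfsg.Statements.S5236
import Cfsg.Agent.H3.FSmall

set_option autoImplicit false
open Cfsg

namespace Cfsg.Agent.S5236

/-- Let p be an odd prime, F a saturated fusion system over a finite p-group S and P a subgroup of S strongly closed in F. Then P is normal in F if and only if Ω₁(P) (the subgroup generated by the elements of order p of P) has a chain of subgroups 1 = Q₀ ≤ Q₁ ≤ ⋯ ≤ Qₙ = Ω₁(P), each strongly closed in F, with [Qᵢ₊₁, P] ≤ Qᵢ for all i. -/
theorem result {Ω : Type*} [Group Ω] {S : Subgroup Ω} [Finite S] (p : ℕ) [Fact p.Prime] (hS : IsPGroup p S) (F : Cfsg.FusionSystem S) (hF : F.IsSaturated p) (hp : p ≠ 2) (P : Subgroup Ω) (hP : F.StronglyClosed P) : F.IsNormal P ↔ ∃ (n : ℕ) (Q : Fin (n + 1) → Subgroup Ω), Q 0 = ⊥ ∧ Q (Fin.last n) = Cfsg.omegaOne p P ∧ Monotone Q ∧ (∀ i : Fin (n + 1), F.StronglyClosed (Q i)) ∧ ∀ i : Fin n, ⁅Q i.succ, P⁆ ≤ Q i.castSucc := by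
  constructor
  · intro h
    have := H13.finite_of_le hP.1
    obtain ⟨n, hn⟩ := H3.exists_zs_eq (hS.to_le hP.1)
    refine ⟨n, fun i => omegaOne p P ⊓ H3.Zs P i, by simp [H3.zs_zero], ?_,
      fun i j hij => inf_le_inf_left _ (H3.zs_mono P hij), fun i => H13.sc_of_normal
        (H13.normal_of_invariant h (inf_le_left.trans (H4.omegaOne_le P)) fun σ hσ =>
          (H3.maps_omegaOne hσ.hom hσ.maps p).inf (H3.maps_zs i hσ.hom hσ.maps)), fun i => ?_⟩
    · simp only [Fin.val_last, hn]
      exact inf_eq_left.2 (H4.omegaOne_le P)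
    · refine Subgroup.commutator_le.2 fun x hx g hg => ⟨?_, H3.comm_mem_zs hx.2 hg⟩
      exact H4.commutatorElement_mem_of_mem_normalizer hx.1
        (H4.normalizer_le_normalizer_omegaOne P (Subgroup.le_normalizer hg))
  · rintro ⟨n, Q, h0, hn, -, h1, h2⟩
    refine H3.normal_of_omega_chain hp hS hF hP (fun i => Q ⟨min i n, by omega⟩) (by simpa using h0)
      (n := n) (by simp only [min_self]; exact hn.ge) (fun i => h1 _) fun i => ?_
    rcases lt_or_ge i n with h | h
    · have := h2 ⟨i, h⟩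
      simpa [Nat.min_eq_left h.le, Nat.min_eq_left (Nat.succ_le_of_lt h)] using this
    · simp only [Nat.min_eq_right h, Nat.min_eq_right (Nat.le_succ_of_le h)]
      exact Subgroup.commutator_le.2 fun x hx g hg => H4.commutatorElement_mem_of_mem_normalizer hx
        (H13.sc_le_normalizer (h1 _) (hP.1 hg))

end Cfsg.Agent.S5236
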