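import Cfsg.Statements.S5243
import Cfsg.Agent.H14.Res2

set_option autoImplicit false
set_option linter.unusedVariables false
set_option linter.style.haveILetI false
open Cfsg Cfsg.FusionSystem Equiv H13 H14.Fus
open scoped commutatorElement

namespace Cfsg.Agent.S5243

/-- Let F be a saturated fusion system over a finite p-group S, E a normal subsystem of F over T ≤ S, and χ a surjective homomorphism from Aut_F(T) onto a nontrivial finite group Δ of order prime to p whose kernel contains Aut_E(T). Then there is a proper normal subsystem F₀ of F over S containing E such that Aut_{F₀}(S) consists of those α ∈ Aut_F(S) whose restriction to T is an element of Aut_F(T) in the kernel of χ; moreover every p'-residual subsystem O^{p'}(F) of F is contained in F₀. -/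
theorem result {Ω : Type*} [Group Ω] {S : Subgroup Ω} [Finite S] (p : ℕ) [Fact p.Prime] (hS : IsPGroup p S) (F : Cfsg.FusionSystem S) (hF : F.IsSaturated p) {T : Subgroup Ω} (hTS : T ≤ S) (E : Cfsg.FusionSystem T) (hE : E.IsNormalIn F p) {Δ : Type*} [Group Δ] [Finite Δ] [Nontrivial Δ] (hΔ : (Nat.card Δ).Coprime p) (χ : ↥(F.autGroup T) →* Δ) (hχ : Function.Surjective χ) (hker : (E.autGroup T).subgroupOf (F.autGroup T) ≤ χ.ker) : ∃ F₀ : Cfsg.FusionSystem S, F₀.IsNormalIn F p ∧ ¬ (∀ P : Subgroup Ω, F₀.Hom P = F.Hom P) ∧ E.IsSubsystemOf F₀ ∧ (∀ α : MulAut ↥S, α ∈ F₀.autGroup S ↔ α ∈ F.autGroup S ∧ ∃ β : ↥(F.autGroup T), χ β = 1 ∧ ∀ t : ↥T, (((β : MulAut ↥T) t : ↥T) : Ω) = ((α ⟨(t : Ω), hTS t.2⟩ : ↥S) : Ω)) ∧ ∀ R : Cfsg.FusionSystem S, F.IsPPrimeResidual p R → R.IsSubsystemOf F₀ := by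
  have := finite_of_le hTS
  have hI := nrm_inv hE
  let K : Subgroup (Perm Ω) := (χ.ker.map (F.autGroup T).subtype).map (H13.ext T)
  have hK : ∀ β : F.autGroup T, H13.ext T β ∈ K ↔ χ β = 1 := fun β =>
    (Subgroup.mem_map_iff_mem (ext_injective T)).trans
      (Subgroup.mem_map_iff_mem (f := (F.autGroup T).subtype) Subtype.val_injective)
  have hK1 : K ≤ AutF F T := Subgroup.map_mono (Subgroup.map_subtype_le _)
  have hKD : KD E F K := by
    refine ⟨hI, fun α hα => ?_, hK1, le_normalizer_iff.2 ?_, fun α hα => ?_⟩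
    · obtain ⟨β, hβ, rfl⟩ := hI.autF_le le_rfl hα
      exact (hK ⟨β, hβ⟩).2 (hker (ext_mem_autF.1 hα))
    · rintro _ ⟨β, hβ, rfl⟩ γ hγ
      obtain ⟨δ, hδ, rfl⟩ := hK1 hγ
      have := (hK (⟨β, hβ⟩ * ⟨δ, hδ⟩ * (⟨β, hβ⟩ : F.autGroup T)⁻¹)).2 (by
        rw [map_mul, map_mul, (hK ⟨δ, hδ⟩).1 hγ, map_inv, mul_one, mul_inv_cancel])
      simpa using this
    · obtain ⟨k, hk⟩ := isPGroup_iff_mem.1 (isPGroup_autBy hS T) α hα
      obtain ⟨β, hβ, rfl⟩ := autBy_le_autF F hTS le_rfl hα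
      refine (hK ⟨β, hβ⟩).2 (eq_one_of_coprime_of_pow (p := p) (k := k)
        (hΔ.coprime_dvd_left (orderOf_dvd_natCard _)) ?_)
      rw [← map_pow, show (⟨β, hβ⟩ : F.autGroup T) ^ p ^ k = 1 from
        Subtype.ext (ext_injective T (by rw [Subgroup.coe_pow, map_pow, hk]; simp)), map_one]
  obtain ⟨D, h1, h2, h3, h4⟩ := hKD.exists_sys hS hF (nrm_sat hE)
  refine ⟨D, normalIn_of_sub (normalIn_self hF) h1 h2 h2.sub, fun h => ?_, h3, fun α => ?_,
    fun R hR => hR.2.2 D h1 (primeToPIndex_of_inv hS hF h2)⟩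
  · obtain ⟨d, hd⟩ := exists_ne (1 : Δ)
    obtain ⟨β, rfl⟩ := hχ d
    have h5 := ext_mem_autF.2 β.2
    have h6 := ((h4 T _ le_rfl).1 ((iso_of_mem_autF hTS h5).1.of_sub fun P => (h P).ge)).2
    rw [rs_eq_self (maps_of_mem_autF h5) (fix_of_mem_autF h5)] at h6
    exact hd ((hK β).1 h6)
  rw [← ext_mem_autF, ← ext_mem_autF]
  constructor
  · intro h5
    have h6 := h2.autF_le le_rfl h5
    have h7 := ((h4 S _ hTS).1 (iso_of_mem_autF le_rfl h5).1).2
    obtain ⟨β, hβ, e⟩ := hK1 h7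
    refine ⟨h6, ⟨β, hβ⟩, (hK ⟨β, hβ⟩).1 (e ▸ h7), fun t => ?_⟩
    rw [← ext_coe, e, rs_apply (sc_maps hI.sc (iso_of_mem_autF le_rfl h6).1 hTS) t.2]
    exact ext_coe α ⟨t, hTS t.2⟩
  · rintro ⟨h5, β, h6, h7⟩
    refine (mem_autF le_rfl).2 ⟨⟨(h4 S _ hTS).2 ⟨(iso_of_mem_autF le_rfl h5).1, ?_⟩,
      maps_of_mem_autF h5⟩, fix_of_mem_autF h5⟩
    rw [rs_eq_of_mem_autF (ext_mem_autF.2 β.2) fun x hx =>
      (ext_coe α ⟨x, hTS hx⟩).trans ((h7 ⟨x, hx⟩).symm.trans (ext_coe (β : MulAut T) ⟨x, hx⟩).symm)]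
    exact (hK β).2 h6

end Cfsg.Agent.S5243
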