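import Cfsg.Statements.S5244
import Cfsg.Agent.H13.Idx2
import Cfsg.Agent.H1.Basic

set_option autoImplicit false
open Cfsg

namespace Cfsg.Agent.S5244

open H13 Equiv Cfsg.FusionSystem

/-- Let p be an odd prime, S a finite nonabelian p-group with a unique abelian subgroup A of index p, and F a saturated fusion system over S with no nontrivial normal subgroup (O_p(F) = 1) in which A is not F-essential. Then some subgroup Z(S)⟨x⟩ with x ∈ S outside A is F-essential, the centre Z(S) is contained in the commutator subgroup of S, and S has maximal nilpotency class (if S has order pⁿ with n ≥ 3, the term of index n − 2 of its lower central series, counting S itself as the term of index 0, is nontrivial). -/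
theorem result {Ω : Type*} [Group Ω] {S : Subgroup Ω} [Finite S] (p : ℕ) [Fact p.Prime] (hS : IsPGroup p S) (F : Cfsg.FusionSystem S) (hF : F.IsSaturated p) (hp : p ≠ 2) (hna : ¬ IsMulCommutative ↥S) (A : Subgroup Ω) (hA : A ≤ S ∧ IsMulCommutative ↥A ∧ (A.subgroupOf S).index = p) (huniq : ∀ B : Subgroup Ω, B ≤ S → IsMulCommutative ↥B → (B.subgroupOf S).index = p → B = A) (hcore : F.core = ⊥) (hAe : ¬ F.IsEssential p A) : (∃ x ∈ S, x ∉ A ∧ F.IsEssential p ((S ⊓ Subgroup.centralizer (S : Set Ω)) ⊔ Subgroup.zpowers x)) ∧ (S ⊓ Subgroup.centralizer (S : Set Ω)) ≤ (commutator ↥S).map S.subtype ∧ ∀ n : ℕ, Nat.card S = p ^ n → 3 ≤ n → Subgroup.lowerCentralSeries S (n - 2) ≠ ⊥ := by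
  obtain ⟨F', h1, h2, -, -, h5, -⟩ := exists_top hS F
  have h := ua_of hS hna hA huniq
  obtain ⟨⟨P, hP, hc⟩, hZ⟩ := h.core_free (h1.2 hF) (fun e => hAe ((h2 A hA.1).1 e)) hp
    (by rw [h5, hcore, Subgroup.bot_subgroupOf])
  have hE : EssD p F' P := ⟨hS, h1.2 hF, hP⟩
  have hne : P ≠ A.subgroupOf S := fun e => hAe ((h2 A hA.1).1 (e ▸ hP))
  obtain ⟨x, hxP, hx⟩ := h.exists_mem hE hne
  have e := h.eq_sup hx hxP
  rw [(h.ab_ess hx hE hxP hc).1] at e
  rw [← map_center]
  refine ⟨⟨x, x.2, hx, ?_⟩, Subgroup.map_mono hZ, fun n hn h3 => (lc_ne_bot_iff S _).1 fun h4 => ?_⟩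
  · have e1 : (Subgroup.center S).map S.subtype ⊔ Subgroup.zpowers (x : Ω) = P.map S.subtype := by
      conv_rhs => rw [e, Subgroup.map_sup, MonoidHom.map_zpowers]
      rfl
    rw [e1, ← h2 _ (Subgroup.map_subtype_le _), Subgroup.subgroupOf,
      Subgroup.comap_map_eq_self_of_injective S.subtype_injective]
    exact hP
  · obtain ⟨-, e2⟩ := h.struct hE hne
    have e3 := h.pow_le_lc e2.le (n - 3)
    rw [inf_eq_left.2 hZ] at e2
    have e4 := h.card
    rw [h.card_eq, e2, hn] at e4
    rw [show n - 3 + 1 = n - 2 by omega, h4, Subgroup.card_bot, mul_one] at e3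
    have hp1 := (Fact.out : p.Prime).one_lt
    have e5 : p ^ n ≤ p ^ (n - 1) := by
      rw [e4, show n - 1 = n - 3 + 1 + 1 by omega, pow_succ', pow_succ']
      exact Nat.mul_le_mul_left _ (Nat.mul_le_mul_left _ e3)
    have := (Nat.pow_le_pow_iff_right hp1).1 e5
    omega

end Cfsg.Agent.S5244
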