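import Cfsg.Statements.S5245
import Cfsg.Agent.H14.CharP

set_option autoImplicit false
set_option linter.unusedVariables false
set_option linter.style.haveILetI false
open Cfsg Cfsg.FusionSystem Equiv H13 H14.Fus
open scoped commutatorElement

namespace Cfsg.Agent.S5245

theorem nrm_inner {Ω : Type*} [Group Ω] {P : Subgroup Ω} [Finite P] {Γ : Subgroup (Perm Ω)}
    (h : Γ ≤ AutAll P) : Nrm (innerFusionSystem P) Γ := by
  intro γ hγ
  obtain ⟨h1, h2, -⟩ := mem_autAll.1 (h hγ)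
  refine ⟨h1, h2, fun Q σ hσ => ?_⟩
  obtain ⟨a1, g, a2, a3⟩ := mor_inner_iff.1 hσ
  refine mor_inner_iff.2 ⟨img_le_iff.2 fun x hx => h2.mem (a1 hx), γ g, h2.mem a2, fun x hx => ?_⟩
  obtain ⟨y, hy, rfl⟩ := (h1.mono a1).mem_img.1 hx
  rw [mul_ap, mul_ap, inv_ap, a3 y hy, h1.map_conj a2 (a1 hy)]

/-- Let F be an extremely sparse fusion system over a finite p-group S (saturated, not the inner system, and every saturated fusion system over any subgroup T of S contained in F is F itself or the inner system of T). Then S is normal in F, the focal and hyperfocal subgroups of F are both S, and Aut_F(S) is generated by the inner automorphisms of S together with a single automorphism of prime order q ≠ p (F is the fusion system of the semidirect product of S by a cyclic group of prime order). -/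
theorem result {Ω : Type*} [Group Ω] {S : Subgroup Ω} [Finite S] (p : ℕ) [Fact p.Prime] (hS : IsPGroup p S) (F : Cfsg.FusionSystem S) (hF : F.IsSaturated p) (hxs : ¬ (∀ P : Subgroup Ω, F.Hom P = (Cfsg.innerFusionSystem S).Hom P) ∧ ∀ (T : Subgroup Ω) (E : Cfsg.FusionSystem T), E.IsSaturated p → E.IsSubsystemOf F → (T = S ∧ ∀ P : Subgroup Ω, E.Hom P = F.Hom P) ∨ (∀ P : Subgroup Ω, E.Hom P = (Cfsg.innerFusionSystem T).Hom P)) : F.IsNormal S ∧ F.focalSubgroup = S ∧ F.hyperfocalSubgroup p = S ∧ ∃ (q : ℕ) (β : MulAut ↥S), q.Prime ∧ q ≠ p ∧ β ∈ F.autGroup S ∧ orderOf β = q ∧ (F.autGroup S : Subgroup (MulAut ↥S)) = Cfsg.Inn ↥S ⊔ Subgroup.zpowers β := by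
  obtain ⟨h0, h⟩ := hxs
  rw [H14.Fus.hom_eq_inner_iff] at h0
  have key : ∀ P, P ≤ S → ∀ β ∈ AutF F P, β ≠ 1 → (orderOf β).Coprime p →
      P = S ∧ ∀ Q, (Tw (innerFusionSystem P) (Subgroup.zpowers β)).Hom Q = F.Hom Q := by
    intro P hP β hβ h1 hc
    have := finite_of_le hP
    have hz : Subgroup.zpowers β ≤ AutF F P := Subgroup.zpowers_le.2 hβ
    have hn := nrm_inner (hz.trans (autF_le_autAll F P))
    have hs := hn.saturated (hS.to_le hP) (saturated_inner (hS.to_le hP)) fun γ hγ =>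
      ⟨orderOf β, hc, by
        obtain ⟨k, rfl⟩ := hγ
        rw [← zpow_natCast, ← zpow_mul, mul_comm, zpow_mul, zpow_natCast, pow_orderOf_eq_one, one_zpow]
        exact mor_one _ le_rfl⟩
    refine (h P _ hs (tw_le (inner_sub_of_le F hP) fun γ hγ =>
      (iso_of_mem_autF hP (hz hγ)).mor)).resolve_right fun h2 => h1 ?_
    rw [H14.Fus.hom_eq_inner_iff] at h2
    have h3 : β ∈ AutF (Tw (innerFusionSystem P) (Subgroup.zpowers β)) P :=
      (mem_autF le_rfl).2 ⟨hn.iso (Subgroup.mem_zpowers β), fix_of_mem_autF hβ⟩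
    rw [IsInner.autF_eq h2 le_rfl] at h3
    obtain ⟨k, hk⟩ := isPGroup_iff_mem.1 (isPGroup_autBy (hS.to_le hP) P) β h3
    exact eq_one_of_coprime_of_pow hc hk
  obtain ⟨P, hP, α, hα, hc, h1⟩ : ∃ P, P ≤ S ∧ ∃ α ∈ AutF F P, (orderOf α).Coprime p ∧ α ≠ 1 := by
    by_contra hcon
    refine h0 (isInner_of_hyp_bot hS hF (le_bot_iff.1 (H14.Fus.hyp_le_iff.2 fun P hP α hα hc x hx => ?_)))
    have : α = 1 := by_contra fun h1 => hcon ⟨P, hP, α, hα, hc, h1⟩
    simp [this]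
  have h2 : orderOf α ≠ 0 := by
    rintro e
    rw [e, Nat.coprime_zero_left] at hc
    exact (Fact.out : p.Prime).one_lt.ne' hc
  obtain ⟨q, hq, hd⟩ := Nat.exists_prime_and_dvd (mt orderOf_eq_one_iff.1 h1)
  have h3 : orderOf (α ^ (orderOf α / q)) = q := orderOf_pow_orderOf_div h2 hd
  set β := α ^ (orderOf α / q)
  have hβ : β ∈ AutF F P := pow_mem hα _
  have hβc : (orderOf β).Coprime p := h3 ▸ hc.coprime_dvd_left hd
  have hβ1 : β ≠ 1 := fun e => hq.one_lt.ne' (by rw [← h3, e, orderOf_one])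
  obtain ⟨rfl, h4⟩ := key P hP β hβ hβ1 hβc
  have hn := nrm_inner ((Subgroup.zpowers_le.2 hβ).trans (autF_le_autAll F P))
  have e : Tw (innerFusionSystem P) (Subgroup.zpowers β) = F :=
    fs_antisymm (fun Q => (h4 Q).le) fun Q => (h4 Q).ge
  have h5 : F.hyperfocalSubgroup p = P := by
    have a1 := H13.sc_hyp hS hF
    have a2 := sc_maps a1 (iso_of_mem_autF le_rfl hβ).mor a1.1
    refine (key _ a1.1 _ (rs_mem_autF a1.1 le_rfl hβ a2) (fun a3 => hβ1 ?_) (orderOf_rs_coprime a2 hβc)).1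
    refine perm_ext_on (P := P) (fix_of_mem_autF hβ) (fun _ _ => rfl) ?_
    exact fix_of_fix_of_coprime hS a1.1 (homOn_of_mem_autF hβ) ((rs_eq_one_iff a2).1 a3)
      (H14.Fus.hyp_le_iff.1 le_rfl P le_rfl β hβ hβc) hβc fun x _ => by rw [pow_orderOf_eq_one]; rfl
  refine ⟨normal_of_inv_inner hS hF (e ▸ hn.inv) (isInner_inner P),
    le_antisymm (focal_le F) (h5.ge.trans (hyp_le_focal F p)), h5, ?_⟩
  obtain ⟨b, hb, hbe⟩ := hβ
  refine ⟨q, b, hq, fun e' => ?_, hb, ?_, ?_⟩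
  · rw [h3, e', Nat.coprime_self] at hβc
    exact (Fact.out : p.Prime).one_lt.ne' hβc
  · rw [← h3, ← hbe, orderOf_injective _ (ext_injective P)]
  · apply Subgroup.map_injective (ext_injective P)
    rw [Subgroup.map_sup, map_inn, MonoidHom.map_zpowers, hbe]
    refine le_antisymm (fun σ hσ => ?_) (sup_le (autBy_le_autF F le_rfl le_rfl)
      (Subgroup.zpowers_le.2 ⟨b, hb, hbe⟩))
    have hσ' : σ ∈ AutF F P := hσ
    obtain ⟨γ, a1, a2⟩ := hn.mor_iff.1 (e.symm ▸ (iso_of_mem_autF le_rfl hσ').mor)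
    have a3 : γ⁻¹ * σ ∈ AutF F P :=
      mul_mem (inv_mem ((Subgroup.zpowers_le.2 (⟨b, hb, hbe⟩ : β ∈ AutF F P)) a1)) hσ'
    have a4 : γ⁻¹ * σ ∈ AutBy P P := by
      rw [← autF_inner le_rfl]
      exact (mem_autF le_rfl).2 ⟨⟨a2, maps_of_mem_autF a3⟩, fix_of_mem_autF a3⟩
    rw [show σ = γ * (γ⁻¹ * σ) by group]
    exact mul_mem (Subgroup.mem_sup_right a1) (Subgroup.mem_sup_left a4)

end Cfsg.Agent.S5245
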