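import Cfsg.Statements.S5246
import Cfsg.Agent.H14.PSt

set_option autoImplicit false
set_option linter.unusedVariables false
set_option linter.style.haveILetI false
open Cfsg Cfsg.FusionSystem Equiv H13 H14.Fus
open scoped commutatorElement

namespace Cfsg.Agent.S5246

/-- Let p be an odd prime, G a finite group and P a Sylow p-subgroup. Call a fusion system F p-stable when, for every fully normalized subgroup Q and every χ ∈ Aut_F(Q) acting quadratically on Q (that is, χ fixes a⁻¹χ(a) for every a ∈ Q; equivalently χ(a⁻¹)·a·χ(a⁻¹)·χ(χ(a)) = 1), χ lies in O_p(Aut_F(Q)). Then G is p-stable in the normalizer form (for every p-subgroup Q and x ∈ N_G(Q) with [Q, x, x] = 1, the image of x lies in O_p(N_G(Q)/C_G(Q))) if and only if the fusion system of G on P is p-stable. -/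
theorem result {Ω : Type*} [Group Ω] [Finite Ω] {p : ℕ} [Fact p.Prime] (hp : p ≠ 2) (P : Sylow p Ω) : Cfsg.IsNormalizerPStable p Ω ↔ (∀ Q : Subgroup Ω, (Cfsg.groupFusionSystem (P : Subgroup Ω)).IsFullyNormalized Q → ∀ χ : MulAut ↥Q, χ ∈ (Cfsg.groupFusionSystem (P : Subgroup Ω)).autGroup Q → (∀ a : ↥Q, (χ a⁻¹) * a * (χ a⁻¹) * (χ (χ a)) = 1) → χ ∈ ((Cfsg.pCore p ↥((Cfsg.groupFusionSystem (P : Subgroup Ω)).autGroup Q)).map ((Cfsg.groupFusionSystem (P : Subgroup Ω)).autGroup Q).subtype : Subgroup (MulAut ↥Q))) := by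
  refine ⟨fun h => stmt_of_pSt (H3.pSt_group h P.isPGroup'), fun h W hW g hg hq => ?_⟩
  have h1 := H3.pSt_of_fullyNormalized h
  obtain ⟨k, -, hk⟩ := (sylIn_top P).exists_conj hW le_top
  have hm : Maps W (img (cj k) W) (cj k) := (homOn_cj W k).maps_img
  have hW' : img (cj k) W ≤ P := img_le_iff.2 hk
  have hh := homOn_cr W
  have hg' := (homOn_cj ⊤ k).mem_normalizer le_top hm trivial hg
  have e := (homOn_cj ⊤ k).conj_cr le_top hm trivial hg
  have h2 := h1 _ hW' (cr (img (cj k) W) (cj k g)) (by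
    rw [autF_group hW']; exact mem_autBy.2 ⟨_, trivial, hg', rfl⟩) (by
      intro w hw
      have hx := hm.inv_mem hw
      have a1 := (H3.quad_cr_iff hg).2 hq _ hx
      have a2 : w⁻¹ * (cj k * cr W g * (cj k)⁻¹ : Perm Ω) w =
          cj k (((cj k)⁻¹ w)⁻¹ * cr W g ((cj k)⁻¹ w)) := by
        rw [(homOn_cj ⊤ k).map_mul trivial trivial, (homOn_cj ⊤ k).map_inv trivial, ap_inv]; rfl
      rw [← e, a2, mul_ap, mul_ap, inv_ap, a1])
  rw [autF_group hW', ← e] at h2
  have h3 := H3.mem_op_of_conj ((homOn_cj ⊤ k).maps_autBy le_rfl le_top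
    (maps_cj_iff.2 ((Subgroup.normalizer_eq_top ⊤).ge trivial)) hm) h2
  rw [AutBy, normalizerIn_top] at h3
  refine H4.mk_mem_pCore_iff.2 ⟨(pre _ (cr W) (Op p (img (cr W) (Subgroup.normalizer (W : Set Ω))))).subgroupOf _,
    (normal_subgroupOf_iff (pre_le _ _ _)).2 (hh.pre_normalizes (le_normalizer_op p _)),
    hh.mem_pre.2 ⟨hg, h3⟩, fun d hd => ?_⟩
  obtain ⟨n, hn⟩ := isPGroup_iff_mem.1 (isPGroup_op p _) _ (hh.mem_pre.1 hd).2
  exact ⟨n, (cr_eq_one_iff (pow_mem d.2 _)).1 (by rw [hh.map_pow d.2]; exact hn)⟩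

end Cfsg.Agent.S5246
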