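import Cfsg.Statements.S5248
import Cfsg.Agent.H13.WRF

set_option autoImplicit false
open Cfsg

namespace Cfsg.Agent.S5248

open H13 Equiv Cfsg.FusionSystem

/-- Let S be a finite 2-group that is dihedral of order at least 8, generalized quaternion of order at least 8, semidihedral, or wreathed, and let F be a saturated fusion system over S. Then F has at most two F-conjugacy classes of F-essential subgroups (among any three essential subgroups two are joined by a map of F), and F is realizable: it is the fusion system of a finite group on a Sylow 2-subgroup. -/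
theorem result {Ω : Type*} [Group Ω] {S : Subgroup Ω} [Finite S] (hS : IsPGroup 2 S) (F : Cfsg.FusionSystem S) (hF : F.IsSaturated 2) (hshape : ((∃ m : ℕ, 4 ≤ m ∧ Nonempty (↥S ≃* DihedralGroup m)) ∨ (∃ m : ℕ, 2 ≤ m ∧ Nonempty (↥S ≃* QuaternionGroup m)) ∨ Cfsg.IsQuasiDihedral ↥S ∨ Cfsg.IsWreathed ↥S)) : (∀ E₁ E₂ E₃ : Subgroup Ω, F.IsEssential 2 E₁ → F.IsEssential 2 E₂ → F.IsEssential 2 E₃ → (∃ φ ∈ F.Hom E₁, φ.range = E₂) ∨ (∃ φ ∈ F.Hom E₁, φ.range = E₃) ∨ (∃ φ ∈ F.Hom E₂, φ.range = E₃)) ∧ F.IsRealizable 2 := by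
  haveI := Fact.mk Nat.prime_two
  have key : ∀ {n a b x y}, TM S n a b x y → _ ∧ _ := fun h =>
    ⟨fun E₁ E₂ E₃ (h1 : F.IsEssential 2 E₁) (h2 : F.IsEssential 2 E₂) (h3 : F.IsEssential 2 E₃) => h.three hF h1 h2 h3,
      h.realizable' hF⟩
  rcases hshape with ⟨m, hm, ⟨e⟩⟩ | ⟨m, hm, ⟨e⟩⟩ | h | h
  · obtain ⟨_, _, _, h⟩ := tm_of_dih hS hm e
    exact key h
  · obtain rfl | hm := hm.eq_or_lt
    swap
    · obtain ⟨_, _, _, h⟩ := tm_of_quat hS hm e
      exact key h
    have h1 : ∀ E, ¬ F.IsEssential 2 E := fun E hE => by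
      haveI := finite_of_le hE.1.1
      have D := radD_of_essential hS hF hE
      have h1 := card_lt_of_lt (lt_of_le_of_ne hE.1.1 fun e => D.ne (e ▸ le_rfl))
      rw [Nat.card_congr e.toEquiv, Nat.card_eq_fintype_card (α := QuaternionGroup 2), QuaternionGroup.card] at h1
      have h2 := D.sq_le_index
      have h3 := card_fr E
      haveI := finite_of_le (fr_le E)
      have h4 : Fr E = ⊥ := Subgroup.card_le_one_iff_eq_bot _ |>.1 (by nlinarith)
      have h5 : E ≤ Subgroup.zpowers (e.symm (.a 2) : Ω) := fun g hg => by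
        have h5 : e ⟨g, hE.1.1 hg⟩ ^ 2 = 1 := by
          rw [← map_pow, map_eq_one_iff _ e.injective]; exact Subtype.ext (h4.le (pow_mem_fr D.pg hg))
        rcases (by decide : ∀ a : QuaternionGroup 2, a ^ 2 = 1 → a = 1 ∨ a = .a 2) _ h5 with h | h
        · rw [show g = 1 from congrArg Subtype.val ((map_eq_one_iff _ e.injective).1 h)]; exact Subgroup.one_mem _
        · rw [← h, e.symm_apply_apply]; exact Subgroup.mem_zpowers _
      haveI := finite_of_le (Subgroup.zpowers_le.2 (e.symm (.a 2)).2)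
      have h6 := card_le_of_le h5
      rw [Nat.card_zpowers, Subgroup.orderOf_coe, e.symm.orderOf_eq, orderOf_eq_prime (p := 2) (by decide) (by decide),
        h3, h4, Subgroup.card_bot] at h6
      omega
    exact ⟨fun E _ _ hE => (h1 E hE).elim,
      realizable_of_normal_centric hS hF (normal_top_of_no_essential hS hF h1) (centralizerIn_le _ _)⟩
  · obtain ⟨k, x, y, h, -⟩ := H6.qd_top h
    have := (tm_of_qd h).map S.subtype_injective
    rw [← MonoidHom.range_eq_map, S.range_subtype] at this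
    exact key this
  obtain ⟨k, x, y, t, h, -⟩ := H6.wr_top h
  obtain ⟨F', h1, h2, -, -, -, h3⟩ := exists_top hS F
  refine ⟨fun E₁ E₂ E₃ e1 e2 e3 => ?_, realizable_of_fIso h3 (wr_realizable h (h1.2 hF))⟩
  have key2 : ∀ {A B : Subgroup Ω}, A ≤ S → B ≤ S → (∃ s ∈ (⊤ : Subgroup S), img (cj s) (A.subgroupOf S) = B.subgroupOf S) →
      F.IsConj A B := fun {A B} hA hB ⟨s, _, e⟩ => by
    convert (iso_cj F hA s.2).isConj
    refine Subgroup.ext fun g => ⟨fun hg => mem_img_cj.2 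
      (mem_img_cj (P := A.subgroupOf S) (g := s) |>.1 (e.ge (show ⟨g, hB hg⟩ ∈ B.subgroupOf S from hg))),
      fun hg => ?_⟩
    have h4 := mem_img_cj.1 hg
    have h5 : g ∈ S := by simpa [mul_assoc] using S.mul_mem (S.mul_mem s.2 (hA h4)) (S.inv_mem s.2)
    exact e.le (mem_img_cj.2 (show s⁻¹ * ⟨g, h5⟩ * s ∈ A.subgroupOf S from h4))
  exact (wr_three h (h1.2 hF) ((h2 _ e1.1.1).2 e1) ((h2 _ e2.1.1).2 e2) ((h2 _ e3.1.1).2 e3)).imp (key2 e1.1.1 e2.1.1)
    (Or.imp (key2 e1.1.1 e3.1.1) (key2 e2.1.1 e3.1.1))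

end Cfsg.Agent.S5248
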