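import Cfsg.Statements.S5249
import Cfsg.Agent.H3.FApp

set_option autoImplicit false
open Cfsg

namespace Cfsg.Agent.S5249

/-- Let p be an odd prime, G a finite group in which Qd(p) (the natural semidirect product of an elementary abelian group of order p² by SL₂(p)) is not involved, and P a Sylow p-subgroup of G. Then the fusion system of G on P is a solvable fusion system. -/
theorem result {G : Type*} [Group G] [Finite G] {p : ℕ} [Fact p.Prime] (hp : p ≠ 2) (hqd : ¬ Cfsg.Involves ↥(Cfsg.qd p) G) (P : Sylow p G) : (Cfsg.groupFusionSystem (P : Subgroup G)).IsSolvableSystem := by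
  intro R hR hne _ E hE h0
  obtain ⟨h1, h2⟩ := H14.Fus.isFactorSystem_iff.1 hE
  have hF := H13.saturated_group (p := p) P
  have h3 := h2.fac P.2 hF (h1.symm ▸ hR)
  have h4 := h3.isPGroup P.2
  have h5 := H13.le_core (H3.normal_zj_of_not_qdInv hp (Or.inl rfl) h4 (h3.saturated P.2 hF) fun h =>
    hqd (H3.involves_iff_isSec.2 ((H3.qdInv_ofSubgroup_iff (H13.sylIn_top P)).1
      (H13.group_eq_ofSubgroup (P : Subgroup G) ▸ h.of_fac h3))))
  exact H4.centerThompsonOf_zero_ne_bot h4 (H3.Fac.ne_bot h3 (h1.symm ▸ hne)) (le_bot_iff.1 (h0 ▸ h5))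

end Cfsg.Agent.S5249
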