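import Cfsg.Statements.S5251
import Cfsg.Agent.H14.Cons
import Cfsg.Agent.H13.WNMap

set_option autoImplicit false
set_option linter.unusedVariables false
set_option linter.style.haveILetI false
open Cfsg Cfsg.FusionSystem Equiv H13 H14.Fus
open scoped commutatorElement

namespace Cfsg.Agent.S5251

/-- Let F be a saturated fusion system over a finite p-group S, E a normal subsystem of F over T, and P an F-centric subgroup of S such that P ∩ T is not E-centric. Then some F-conjugate P* of P satisfies Out_S(P*) ∩ O_p(Out_F(P*)) ≠ 1: there is an element of N_S(P*) outside P* whose conjugation action on P* lies in O_p(Aut_F(P*)). In particular P is not both centric and radical in F. -/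
theorem result {Ω : Type*} [Group Ω] {S : Subgroup Ω} [Finite S] (p : ℕ) [Fact p.Prime] (hS : IsPGroup p S) (F : Cfsg.FusionSystem S) (hF : F.IsSaturated p) {T : Subgroup Ω} (E : Cfsg.FusionSystem T) (hE : E.IsNormalIn F p) (P : Subgroup Ω) (hP : F.IsCentric P) (hPT : ¬ E.IsCentric (P ⊓ T)) : (∃ φ ∈ F.Hom P, ∃ x ∈ S ⊓ Subgroup.normalizer (φ.range : Set Ω), x ∉ φ.range ∧ ∃ α ∈ ((Cfsg.pCore p ↥(F.autGroup φ.range)).map (F.autGroup φ.range).subtype : Subgroup (MulAut ↥φ.range)), ∀ y : ↥φ.range, ((α y : ↥φ.range) : Ω) = x * (y : Ω) * x⁻¹) ∧ ¬ F.IsRadical p P := by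
  have hI := nrm_inv hE
  have hT := hI.sc
  obtain ⟨U, τ, hU, hτ, hi⟩ := exists_mor_normalizer' hS hF (inf_le_left.trans hP.1 : P ⊓ T ≤ S)
  have hPN : P ≤ normalizerIn S (P ⊓ T) := fun g hg => ⟨hP.1 hg, normalizer_inf (Subgroup.le_normalizer hg)
    (sc_le_normalizer hT (hP.1 hg))⟩
  have h1 := hτ.iso_of_le hPN
  have h2 : U = img τ P ⊓ T := hi.maps.eq_of_maps (sc_maps_inf hT h1)
  have h3 : ¬ centralizerIn T (img τ P ⊓ T) ≤ img τ P := fun c => hPT ((tc_iff_centric hI).1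
    ((tc_of_fullyNormalized hS hF hT (h2 ▸ inf_le_right) hU (h2 ▸ le_inf c (centralizerIn_le _ _))).of_iso hT hi.inv))
  have hc := centric_iso hP h1
  refine ⟨⟨_, h1.mor.toHom_mem, ?_⟩, fun hr => h3 (centralizerIn_inf_le_of_cr hS hT hc ?_)⟩
  · rw [← h1.hom.img_eq_range]
    set R := img τ P
    haveI := finite_of_le hc.1
    have h4 : ¬ normalizerIn (centralizerIn T (R ⊓ T)) R ≤ R := fun c => h3 (le_of_normalizerIn_le hS hc.1
      ((centralizerIn_le _ _).trans hT.1) (fun g hg => normalizer_inf (sc_le_normalizer hT (hc.1 hg))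
      (normalizer_centralizer (normalizer_inf (Subgroup.le_normalizer hg) (sc_le_normalizer hT (hc.1 hg))))) c)
    obtain ⟨g, hg, hg'⟩ := SetLike.not_le_iff_exists.1 h4
    have hgS := hT.1 hg.1.1
    have h5 : cr R g ∈ Op p (AutF F R) := mem_op_of_chain2 (isPGroup_of_le hS hc.1) (Q := R ⊓ T) inf_le_left
      (autF_le_autAll F R) (fun α hα => sc_maps_inf hT (iso_of_mem_autF hc.1 hα)) (cr_mem_autF F hc.1 hgS hg.2)
      (fun x hx => by rw [cr_apply hg.2 hx.1, ← hg.1.2 x hx, mul_inv_cancel_right]) fun x hx => by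
        refine ⟨R.mul_mem (R.inv_mem hx) ((maps_cr hg.2).mem hx), ?_⟩
        rw [cr_apply hg.2 hx, show x⁻¹ * (g * x * g⁻¹) = x⁻¹ * g * x⁻¹⁻¹ * g⁻¹ by group]
        exact T.mul_mem (sc_conj_mem hT (S.inv_mem (hc.1 hx)) hg.1.1) (T.inv_mem hg.1.1)
    rw [← op_autF] at h5
    obtain ⟨α, hα, e⟩ := h5
    exact ⟨g, ⟨hgS, hg.2⟩, hg', α, hα, fun y => by rw [← cr_apply hg.2 y.2, ← e, ext_apply α y.2]⟩
  · refine radical_iff.2 ⟨hc.1, h1.maps_op.eq_of_maps ?_⟩
    rw [(radical_iff.1 hr).2]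
    exact h1.hom.maps_autBy le_rfl le_rfl h1.maps h1.maps

end Cfsg.Agent.S5251
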