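import Cfsg.Statements.S5254
import Cfsg.Agent.H13.Idx2

set_option autoImplicit false
open Cfsg

namespace Cfsg.Agent.S5254

open H13 Equiv Cfsg.FusionSystem

/-- Let p be an odd prime, S a finite nonabelian p-group with a unique abelian subgroup A of index p, and F a saturated fusion system over S. Then every F-essential subgroup P is A, or Z(S)⟨x⟩ for some x ∈ S outside A, or (when the second centre Z₂(S) lies in A) Z₂(S)⟨x⟩ for some x ∈ S outside A; and P has index p in its normalizer in S. -/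
theorem result {Ω : Type*} [Group Ω] {S : Subgroup Ω} [Finite S] (p : ℕ) [Fact p.Prime] (hS : IsPGroup p S) (F : Cfsg.FusionSystem S) (hF : F.IsSaturated p) (hp : p ≠ 2) (hna : ¬ IsMulCommutative ↥S) (A : Subgroup Ω) (hA : A ≤ S ∧ IsMulCommutative ↥A ∧ (A.subgroupOf S).index = p) (huniq : ∀ B : Subgroup Ω, B ≤ S → IsMulCommutative ↥B → (B.subgroupOf S).index = p → B = A) (P : Subgroup Ω) (hP : F.IsEssential p P) : (P = A ∨ (∃ x ∈ S, x ∉ A ∧ P = (S ⊓ Subgroup.centralizer (S : Set Ω)) ⊔ Subgroup.zpowers x) ∨ (((upperCentralSeries ↥S 2).map S.subtype) ≤ A ∧ ∃ x ∈ S, x ∉ A ∧ P = ((upperCentralSeries ↥S 2).map S.subtype) ⊔ Subgroup.zpowers x)) ∧ (P.subgroupOf (S ⊓ Subgroup.normalizer (P : Set Ω))).index = p := by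
  obtain ⟨F', h1, h2, -⟩ := exists_top hS F
  have h := ua_of hS hna hA huniq
  have hPS : P ≤ S := hP.1.1
  have hE : EssD p F' (P.subgroupOf S) := ⟨hS, h1.2 hF, (h2 P hPS).2 hP⟩
  by_cases hne : P = A
  · refine ⟨Or.inl hne, ?_⟩
    subst hne
    rw [inf_eq_left.2 ((Subgroup.normal_subgroupOf_iff_le_normalizer hPS).1 h.normal)]
    exact hA.2.2
  have hne' : P.subgroupOf S ≠ A.subgroupOf S := fun e => hne (by
    rw [← Subgroup.map_subgroupOf_eq_of_le hPS, e, Subgroup.map_subgroupOf_eq_of_le hA.1])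
  obtain ⟨x, hxP, hx⟩ := h.exists_mem hE hne'
  have e := congrArg (Subgroup.map S.subtype) (h.eq_sup hx hxP)
  rw [Subgroup.map_subgroupOf_eq_of_le hPS, Subgroup.map_sup, MonoidHom.map_zpowers] at e
  refine ⟨Or.inr ?_, ?_⟩
  · by_cases hc : IsMulCommutative (P.subgroupOf S)
    · rw [(h.ab_ess hx hE hxP hc).1, map_center] at e
      exact Or.inl ⟨x, x.2, hx, e⟩
    · obtain ⟨e1, e2, -⟩ := h.nab_ess hx hE hxP hc
      rw [e2] at e
      exact Or.inr ⟨(Subgroup.map_mono e1).trans (Subgroup.map_subgroupOf_eq_of_le hA.1).le, x, x.2, hx, e⟩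
  · haveI : Finite (S ⊓ Subgroup.normalizer (P : Set Ω) : Subgroup Ω) := finite_of_le inf_le_left
    refine index_subgroupOf_eq (le_inf hPS Subgroup.le_normalizer) ?_
    rw [← map_normalizer hPS, card_map_subtype, h.card_norm hE hne', card_subgroupOf hPS]

end Cfsg.Agent.S5254
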