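import Cfsg.Statements.S5257
import Cfsg.Agent.H13.Idx2
import Cfsg.Agent.H1.Basic

set_option autoImplicit false
open Cfsg

namespace Cfsg.Agent.S5257

open H13 Equiv Cfsg.FusionSystem

/-- Let p be an odd prime, S a finite nonabelian p-group with a unique abelian subgroup A of index p, and F a saturated fusion system over S having an F-essential subgroup other than A. Then the second centre Z₂(S) lies in A; Z(S) ∩ [S, S] has order p; Z(S)[S, S] has index p in A; Z(S) has index p in Z₂(S); and S/Z(S) has maximal nilpotency class (if S/Z(S) has order pᵐ with m ≥ 3 then the term of index m − 2 of the lower central series of S, counting S as index 0, is not contained in Z(S)). -/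
theorem result {Ω : Type*} [Group Ω] {S : Subgroup Ω} [Finite S] (p : ℕ) [Fact p.Prime] (hS : IsPGroup p S) (F : Cfsg.FusionSystem S) (hF : F.IsSaturated p) (hp : p ≠ 2) (hna : ¬ IsMulCommutative ↥S) (A : Subgroup Ω) (hA : A ≤ S ∧ IsMulCommutative ↥A ∧ (A.subgroupOf S).index = p) (huniq : ∀ B : Subgroup Ω, B ≤ S → IsMulCommutative ↥B → (B.subgroupOf S).index = p → B = A) (P : Subgroup Ω) (hP : F.IsEssential p P) (hPA : P ≠ A) : ((upperCentralSeries ↥S 2).map S.subtype) ≤ A ∧ Nat.card ↥((S ⊓ Subgroup.centralizer (S : Set Ω)) ⊓ ((commutator ↥S).map S.subtype)) = p ∧ (((S ⊓ Subgroup.centralizer (S : Set Ω)) ⊔ ((commutator ↥S).map S.subtype)).subgroupOf A).index = p ∧ (((S ⊓ Subgroup.centralizer (S : Set Ω))).subgroupOf ((upperCentralSeries ↥S 2).map S.subtype)).index = p ∧ ∀ m : ℕ, ((S ⊓ Subgroup.centralizer (S : Set Ω)).subgroupOf S).index = p ^ m → 3 ≤ m → ¬ Subgroup.lowerCentralSeries S (m - 2) ≤ (S ⊓ Subgroup.centralizer (S : Set Ω)) := by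
  obtain ⟨F', h1, h2, -⟩ := exists_top hS F
  have h := ua_of hS hna hA huniq
  have hPS : P ≤ S := hP.1.1
  have hE : EssD p F' (P.subgroupOf S) := ⟨hS, h1.2 hF, (h2 P hPS).2 hP⟩
  have hne' : P.subgroupOf S ≠ A.subgroupOf S := fun e => hPA (by
    rw [← Subgroup.map_subgroupOf_eq_of_le hPS, e, Subgroup.map_subgroupOf_eq_of_le hA.1])
  obtain ⟨e1, e2⟩ := h.struct hE hne'
  have hp0 : 0 < p := (Fact.out : p.Prime).pos
  rw [← map_center, ← Subgroup.map_inf _ _ _ S.subtype_injective, ← Subgroup.map_sup, card_map_subtype]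
  refine ⟨(Subgroup.map_mono e1).trans (Subgroup.map_subgroupOf_eq_of_le hA.1).le, e2, ?_, ?_, fun m hm h3 h4 => ?_⟩
  · haveI : Finite A := finite_of_le hA.1
    refine index_subgroupOf_eq ((Subgroup.map_mono (sup_le h.center_le h.commutator_le)).trans
      (Subgroup.map_subgroupOf_eq_of_le hA.1).le) ?_
    rw [card_map_subtype, ← card_subgroupOf hA.1, h.card_eq, ← H1.card_sup_mul_card_inf_normal, e2, mul_comm]
  · haveI : Finite ((Subgroup.upperCentralSeries S 2).map S.subtype) := finite_of_le (Subgroup.map_subtype_le _)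
    refine index_subgroupOf_eq (Subgroup.map_mono UA.center_le_two) ?_
    have := h.card_two
    rw [inf_eq_left.2 e1, e2] at this
    rw [card_map_subtype, card_map_subtype, this, mul_comm]
  · rw [Subgroup.subgroupOf, Subgroup.comap_map_eq_self_of_injective S.subtype_injective] at hm
    rw [← Subgroup.top_subtype_lowerCentralSeries, Subgroup.map_le_map_iff_of_injective S.subtype_injective] at h4
    exact h.lc_not_le e2.le hm h3 h4

end Cfsg.Agent.S5257
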