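import Cfsg.Statements.S5272
import Cfsg.Agent.H3.FZJ

set_option autoImplicit false
open Cfsg

namespace Cfsg.Agent.S5272

/-- An axiomatic Glauberman–Thompson nilpotency criterion for fusion systems. Let p be an odd prime, F a saturated fusion system over a finite p-group S, and 𝒜 a nonempty family of abelian subgroups of S. For Q ≤ S write I(Q) for the intersection of the members of 𝒜 contained in Q. Assume (invariance) that for every Q ≤ S containing a member of 𝒜, every F-automorphism of Q maps I(Q) into itself, and (replacement) that for every subgroup B of S of nilpotency class at most 2, if some member of 𝒜 contains [B,B] but not B, then B normalizes some member of 𝒜 that contains [B,B] but not B. Then F is the inner fusion system of S if and only if the normalizer fusion system of I(S) in F is the inner fusion system of N_S(I(S)). -/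
theorem result {Ω : Type*} [Group Ω] {S : Subgroup Ω} [Finite S] (p : ℕ) [Fact p.Prime] (hS : IsPGroup p ↥S) (F : Cfsg.FusionSystem S) (hF : F.IsSaturated p) (hp : p ≠ 2) (𝒜 : Set (Subgroup Ω)) (h𝒜 : ∀ A ∈ 𝒜, A ≤ S ∧ IsMulCommutative ↥A) (hne : 𝒜.Nonempty) (hinv : ∀ Q : Subgroup Ω, Q ≤ S → (∃ A ∈ 𝒜, A ≤ Q) → ∀ α ∈ F.autGroup Q, ∀ x : ↥Q, (x : Ω) ∈ (⨅ A ∈ {A : Subgroup Ω | A ∈ 𝒜 ∧ A ≤ Q}, A) → (((α : MulAut ↥Q) x : ↥Q) : Ω) ∈ (⨅ A ∈ {A : Subgroup Ω | A ∈ 𝒜 ∧ A ≤ Q}, A)) (hrep : ∀ B : Subgroup Ω, B ≤ S → ⁅⁅B, B⁆, B⁆ = ⊥ → (∃ A ∈ 𝒜, ⁅B, B⁆ ≤ A ∧ ¬ B ≤ A) → ∃ A ∈ 𝒜, ⁅B, B⁆ ≤ A ∧ ¬ B ≤ A ∧ B ≤ Subgroup.normalizer (A : Set Ω)) : (∀ P : Subgroup Ω, F.Hom P = (Cfsg.innerFusionSystem S).Hom P) ↔ ∀ N : Cfsg.FusionSystem (Cfsg.FusionSystem.normalizerIn S (⨅ A ∈ 𝒜, A)), F.IsNormalizerSystem (⨅ A ∈ 𝒜, A) N → ∀ P : Subgroup Ω, N.Hom P = (Cfsg.innerFusionSystem (Cfsg.FusionSystem.normalizerIn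 S (⨅ A ∈ 𝒜, A))).Hom P := by
  rw [H14.Fus.hom_eq_inner_iff]
  refine ⟨fun h N hN => H14.Fus.hom_eq_inner_iff.2 (H3.normalizer_inner_of_isInner h hN), fun h => ?_⟩
  have hf : H3.FZJFam F 𝒜 := by
    refine ⟨fun A hA => (h𝒜 A hA).1, fun A hA => (h𝒜 A hA).2, hne, fun Q hQ hA σ hσ x hx => ?_,
      fun B hB _ hc hA => ?_⟩
    · obtain ⟨α, hα, e⟩ := hσ.rs_mem
      obtain ⟨A, hA1, hA2⟩ := id hA
      have hxQ : x ∈ Q := hA2 (H3.famInf_le hA1 hA2 hx)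
      have := hinv Q hQ hA α hα ⟨x, hxQ⟩ hx
      rwa [← H13.ext_apply α hxQ, e, H13.rs_apply hσ.maps hxQ] at this
    · obtain ⟨A, h1, -, h2⟩ := hrep B hB hc hA
      exact ⟨A, h1, h2⟩
  refine hf.isInner hp hS hF ?_
  have e := H3.famInf_eq_iInf hf.le
  rw [e]
  exact H3.nLe_inner_of (e ▸ hf.famInf_le) h

end Cfsg.Agent.S5272
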