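import Cfsg.Statements.S5275
import Cfsg.Agent.H3.FZJ

set_option autoImplicit false
open Cfsg

namespace Cfsg.Agent.S5275

/-- A Glauberman–Thompson nilpotency criterion for fusion systems relative to a strongly closed subgroup. Let p be an odd prime, F a saturated fusion system over a finite p-group S, and D a subgroup of S that is strongly closed in F. Let Z(J(D)) be the centre of the subgroup of D generated by the abelian subgroups of D of largest order. Then F is the inner fusion system of S if and only if the normalizer fusion system of Z(J(D)) in F is the inner fusion system of N_S(Z(J(D))) = S. -/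
theorem result {Ω : Type*} [Group Ω] {S : Subgroup Ω} [Finite S] (p : ℕ) [Fact p.Prime] (hS : IsPGroup p ↥S) (F : Cfsg.FusionSystem S) (hF : F.IsSaturated p) (hp : p ≠ 2) (D : Subgroup Ω) (hD : F.StronglyClosed D) : (∀ P : Subgroup Ω, F.Hom P = (Cfsg.innerFusionSystem S).Hom P) ↔ ∀ N : Cfsg.FusionSystem (Cfsg.FusionSystem.normalizerIn S (Cfsg.centerThompsonAOf D)), F.IsNormalizerSystem (Cfsg.centerThompsonAOf D) N → ∀ P : Subgroup Ω, N.Hom P = (Cfsg.innerFusionSystem (Cfsg.FusionSystem.normalizerIn S (Cfsg.centerThompsonAOf D))).Hom P := by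
  rw [H14.Fus.hom_eq_inner_iff]
  refine ⟨fun h N hN => H14.Fus.hom_eq_inner_iff.2 (H3.normalizer_inner_of_isInner h hN), fun h => ?_⟩
  refine H3.isInner_of_zj_sc hp (Or.inl rfl) hS hF hD ?_
  rw [H4.omegaOne_zero, ← H4.centerThompsonAOf_eq]
  exact H3.nLe_inner_of (H4.centerThompsonAOf_eq D ▸ (H4.centerThompsonOf_le D).trans hD.1) h

end Cfsg.Agent.S5275
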