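import Cfsg.Statements.S5276
import Cfsg.Agent.H14.Tate

set_option autoImplicit false
set_option linter.unusedVariables false
set_option linter.style.haveILetI false
open Cfsg Cfsg.FusionSystem Equiv H13 H14.Fus
open scoped commutatorElement

namespace Cfsg.Agent.S5276

/-- Let p be a prime and F a saturated fusion system over a finite p-group S. Then F is the inner fusion system of S if and only if the normalizer fusion system of S itself in F is the inner fusion system (equivalently, Aut_F(S) is induced by S) and the Frattini subgroup Φ(S) is strongly closed in F. -/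
theorem result {Ω : Type*} [Group Ω] {S : Subgroup Ω} [Finite S] (p : ℕ) [Fact p.Prime] (hS : IsPGroup p ↥S) (F : Cfsg.FusionSystem S) (hF : F.IsSaturated p) : (∀ P : Subgroup Ω, F.Hom P = (Cfsg.innerFusionSystem S).Hom P) ↔ (∀ N : Cfsg.FusionSystem (Cfsg.FusionSystem.normalizerIn S S), F.IsNormalizerSystem S N → ∀ P : Subgroup Ω, N.Hom P = (Cfsg.innerFusionSystem (Cfsg.FusionSystem.normalizerIn S S)).Hom P) ∧ F.StronglyClosed ((frattini ↥S).map S.subtype) := by
  rw [hom_eq_inner_iff]
  constructor
  · intro h
    refine ⟨fun N hN => hom_eq_inner_iff.2 fun P f hf => ?_, sc_of_normal (h.normal (Subgroup.map_subtype_le _) ?_)⟩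
    · obtain ⟨s, hs, e⟩ := h P f (hf.of_sub (H14.Fus.normalizerSystem_sub hN))
      exact ⟨s, by rw [normalizerIn_self]; exact hs, e⟩
    · exact le_normalizer_of_comm (K := S) (comm_le_frattini hS) (Subgroup.map_subtype_le _)
  · rintro ⟨h1, h2⟩
    exact isInner_of_top_of_sc hS hF h2 (comm_le_frattini hS) le_rfl fun f hf =>
      top_inner_of_normalizer (fun N hN => hom_eq_inner_iff.1 (h1 N hN)) hf

end Cfsg.Agent.S5276
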