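import Cfsg.Statements.S5287
import Cfsg.Agent.H13.TM2
import Cfsg.Agent.S3742

set_option autoImplicit false
open Cfsg

namespace Cfsg.Agent.S5287

open H13 Equiv Cfsg.FusionSystem

/-- Let S be a finite metacyclic p-group (an extension of a cyclic group by a cyclic group). Every saturated fusion system over S is supersoluble (S has a chain of F-strongly closed subgroups from 1 to S with cyclic steps) if and only if S is not homocyclic of rank two (isomorphic to Z/p^n × Z/p^n with n ≥ 1) and, when p = 2, S is not dihedral of order at least 4, not quasi-dihedral (semidihedral) and not generalized quaternion of order at least 8. -/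
theorem result {Ω : Type*} [Group Ω] {S : Subgroup Ω} [Finite S] (p : ℕ) [Fact p.Prime] (hS : IsPGroup p ↥S) (hm : Cfsg.IsMetacyclic ↥S) : (∀ F : Cfsg.FusionSystem S, F.IsSaturated p → (∃ (m : ℕ) (c : Fin (m + 1) → Subgroup Ω), c 0 = ⊥ ∧ c (Fin.last m) = S ∧ (∀ i : Fin (m + 1), F.StronglyClosed (c i)) ∧ ∀ i : Fin m, c i.castSucc ≤ c i.succ ∧ ∃ x ∈ S, c i.succ = c i.castSucc ⊔ Subgroup.zpowers x)) ↔ ¬ ((∃ n : ℕ, 0 < n ∧ Nonempty (↥S ≃* Multiplicative (ZMod (p ^ n)) × Multiplicative (ZMod (p ^ n)))) ∨ (p = 2 ∧ ((∃ n : ℕ, 2 ≤ n ∧ Nonempty (↥S ≃* DihedralGroup n)) ∨ Cfsg.IsQuasiDihedral ↥S ∨ (∃ n : ℕ, 2 ≤ n ∧ Nonempty (↥S ≃* QuaternionGroup n))))) := by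
  have hqd : ∀ {T : Subgroup Ω}, IsQuasiDihedral T → Finite T → ∃ n x y, TM T n 1 0 x y := fun {T} h _ => by
    obtain ⟨k, x, y, h, -⟩ := H6.qd_top h
    have := (tm_of_qd h).map T.subtype_injective
    rw [← MonoidHom.range_eq_map, T.range_subtype] at this
    exact ⟨_, _, _, this⟩
  refine (forall_ss_iff hS).trans ⟨fun ⟨h1, h2⟩ => ?_, fun h => ?_⟩
  · have key : ∀ {n}, 0 < n → S ≃* Multiplicative (ZMod (p ^ n)) × Multiplicative (ZMod (p ^ n)) → False :=
      fun hn e => not_pa_zmod hn (H := Unit) (h2.congr (MulEquiv.prodUnique.trans e.symm))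
    rintro (⟨n, hn, ⟨e⟩⟩ | ⟨rfl, h⟩)
    · exact key hn e
    have key2 : ∀ {n a b x y}, ¬ TM S n a b x y := fun h =>
      h.exists_ne.elim fun F hF => hF.2 (eq_inner_of_normal hS hF.1 (h1 F hF.1) h.aut)
    rcases h with ⟨n, hn, ⟨e⟩⟩ | h | ⟨n, hn, ⟨e⟩⟩
    · obtain rfl | rfl | hn : n = 2 ∨ n = 3 ∨ 4 ≤ n := by omega
      · exact key one_pos (e.trans ((IsKleinFour.nonempty_mulEquiv (G₂ := Multiplicative (ZMod 2 × ZMod 2))).some.trans
          (MulEquiv.prodMultiplicative _ _)))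
      · obtain ⟨k, hk⟩ := (hS.of_equiv e).exists_card_eq
        rw [DihedralGroup.nat_card] at hk
        exact absurd (Nat.prime_three.dvd_of_dvd_pow (hk ▸ Dvd.intro_left 2 rfl)) (by decide)
      · obtain ⟨_, _, _, h⟩ := tm_of_dih hS hn e
        exact key2 h
    · obtain ⟨_, _, _, h⟩ := hqd h ‹_›
      exact key2 h
    obtain rfl | hn := hn.eq_or_lt
    · obtain ⟨k, hk⟩ := ((h2.isPGroup.of_equiv (MulAut.congr e)).of_equiv Cfsg.Agent.S3742.result.some).exists_card_eq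
      rw [Nat.card_perm, Nat.card_fin] at hk
      exact absurd (Nat.prime_three.dvd_of_dvd_pow (hk ▸ (by decide : 3 ∣ Nat.factorial 4))) (by decide)
    · obtain ⟨_, _, _, h⟩ := tm_of_quat hS hn e
      exact key2 h
  have h1 : ¬ (p = 2 ∧ H9.DQS S) := fun ⟨e, h1⟩ => h (Or.inr ⟨e, by
    have : ∀ k, 2 ≤ 2 ^ (k + 1) := fun k => Nat.le_self_pow (by omega) 2
    rcases h1.iso with ⟨k, h2⟩ | ⟨k, h2, h3⟩ | ⟨k, h2⟩
    exacts [Or.inl ⟨_, this _, h2⟩, Or.inr (Or.inl ⟨k + 3, by omega, h2, h3⟩), Or.inr (Or.inr ⟨_, this _, h2⟩)]⟩)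
  exact ⟨fun F hF => normal_of_meta hS hm h1 hF, ((meta_cases hS hm).resolve_right fun h2 =>
    h2.elim (fun h2 => h (Or.inl h2)) fun h2 => h1 ⟨h2.1, h2.2.2⟩)⟩

end Cfsg.Agent.S5287
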