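import Cfsg.Statements.S5291
import Cfsg.Agent.H14.Cons

set_option autoImplicit false
set_option linter.unusedVariables false
set_option linter.style.haveILetI false
open Cfsg Cfsg.FusionSystem Equiv H13 H14.Fus
open scoped commutatorElement

namespace Cfsg.Agent.S5291

/-- Let F be a saturated fusion system over a finite p-group S and E a weakly normal subsystem of F over a subgroup T. Suppose a subgroup R of T is normal in E (E = N_E(R)), and let R* be the subgroup of T generated by the images of R under all maps of F with source R. Then R* is normal in F (F = N_F(R*)). -/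
theorem result {Ω : Type*} [Group Ω] {S : Subgroup Ω} [Finite S] (p : ℕ) [Fact p.Prime] (hS : IsPGroup p S)
    (F : Cfsg.FusionSystem S) (hF : F.IsSaturated p)
    {T : Subgroup Ω} (E : Cfsg.FusionSystem T) (hE : E.IsWeaklyNormalIn F p)
    (R : Subgroup Ω) (hR : E.IsNormal R) :
    F.IsNormal (Subgroup.closure {x : Ω | ∃ φ ∈ F.Hom R, ∃ r : R, x = φ r}) := by
  have h := wn_inv hE
  haveI := finite_of_le h.le
  set W := Subgroup.closure {x : Ω | ∃ φ ∈ F.Hom R, ∃ r : R, x = φ r} with hW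
  have hmem : ∀ f, Mor F R f → ∀ r ∈ R, f r ∈ W := fun f hf r hr =>
    Subgroup.subset_closure ⟨_, hf.toHom_mem, ⟨r, hr⟩, rfl⟩
  have hle : ∀ K : Subgroup Ω, (∀ f, Mor F R f → ∀ r ∈ R, f r ∈ K) → W ≤ K := fun K hK => by
    rw [hW, Subgroup.closure_le]
    rintro _ ⟨φ, hφ, r, rfl⟩
    have := hK _ (mor_fn hφ) r r.2
    rwa [fn_apply φ r.2] at this
  have hWT : W ≤ T := hle T fun f hf r hr => sc_mem h.sc hf hr (hR.1 hr)
  have h1 := sSup_mem_of_finite T (fun Q => E.IsNormal Q ∧ Q ≤ W) (fun Q hQ => hQ.1.1)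
    ⟨H14.Fus.normal_bot E, bot_le⟩ fun A B hA hB => ⟨H14.Fus.normal_sup hA.1 hB.1, sup_le hA.2 hB.2⟩
  have h2 : W ≤ sSup {Q | E.IsNormal Q ∧ Q ≤ W} := hle _ fun f hf r hr => by
    obtain ⟨α, hα, h3⟩ := h.frat R f hR.1 hf
    have h4 : img α R ≤ sSup {Q | E.IsNormal Q ∧ Q ≤ W} :=
      le_sSup ⟨h.normal_img hR hα, img_le_iff.2 (hmem _ (hα.mor.restrict hR.1))⟩
    have := h4 (mem_img_of_mem α (sc_mem (sc_of_normal hR) h3 hr hr))
    rwa [ap_inv] at this
  have h3 : E.IsNormal W := le_antisymm h1.2 h2 ▸ h1.1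
  haveI := finite_of_le hWT
  refine h.normal_of_invariant hS hF h3 fun α hα => (hα.hom.mono hWT).maps_of_mem
    (img_le_iff.1 ((le_pre_iff hα.hom hWT).1 (hle _ fun f hf r hr => ?_)))
  have hfr : ∀ r ∈ R, f r ∈ T := fun r hr => sc_mem h.sc hf hr (hR.1 hr)
  exact hα.hom.mem_pre.2 ⟨hfr r hr, hmem _ (hα.mor.comp hf hfr) r hr⟩

end Cfsg.Agent.S5291
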