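import Cfsg.Statements.S5292
import Cfsg.Agent.H14.Grp
import Cfsg.Agent.H1.PSolv

set_option autoImplicit false
universe u
set_option linter.unusedVariables false
set_option linter.style.haveILetI false
open Cfsg Cfsg.FusionSystem Equiv H13 H14.Fus
open scoped commutatorElement

namespace Cfsg.Agent.S5292

theorem aut_iff {p : ℕ} [Fact p.Prime] {G : Type*} [Group G] [Finite G] {Q : Subgroup G} [hQ : Q.Normal]
    (hC : IsPGroup p (Subgroup.centralizer (Q : Set G))) : IsPSolvable p G ↔ IsPSolvable p (AutBy ⊤ Q) := by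
  have hN : (⊤ : Subgroup G) ≤ Subgroup.normalizer (Q : Set G) := (Subgroup.normalizer_eq_top Q).ge
  let f : G →* AutBy (⊤ : Subgroup G) Q := MonoidHom.mk' (fun g => ⟨cr Q g, mem_autBy.2 ⟨g, trivial, hN trivial, rfl⟩⟩)
    fun a b => Subtype.ext (homOn_cr Q a (hN trivial) b (hN trivial))
  have hf : Function.Surjective f := fun ⟨α, hα⟩ => by
    obtain ⟨g, -, -, rfl⟩ := mem_autBy.1 hα
    exact ⟨g, rfl⟩
  refine ⟨fun h => H1.IsPSolvable.of_surjective h f hf, fun h => H1.IsPSolvable.of_normal_quotient f.ker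
    (H1.isPSolvable_of_isPGroup (hC.to_le fun g hg => (cr_eq_one_iff (hN trivial)).1 (congrArg Subtype.val hg))) ?_⟩
  haveI : Finite (AutBy (⊤ : Subgroup G) Q) := Finite.of_surjective f hf
  exact H1.IsPSolvable.of_equiv h (QuotientGroup.quotientKerEquivOfSurjective f hf).symm

theorem model_iff' {Ω : Type*} [Group Ω] {S : Subgroup Ω} [Finite S] {p : ℕ} [Fact p.Prime]
    {F : FusionSystem S} {G : Type*} [Group G] [Finite G] {T : Subgroup G} (hT : SylIn p T ⊤) (hG : ChP p (⊤ : Subgroup G))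
    {θ : Ω → G} (h : FIso F (fusionSystemOfSubgroup ⊤ T hT.le) θ) :
    IsPSolvable p G ↔ IsPSolvable p (F.autGroup F.core) := by
  haveI : (Op p (⊤ : Subgroup G)).Normal := Subgroup.normalizer_eq_top_iff.1 (top_le_iff.1 (le_normalizer_op p ⊤))
  obtain ⟨e⟩ := h.nonempty_autF (H14.Fus.core_le F)
  rw [h.img_core, core_ofSubgroup hT hG, autF_ofSubgroup hT.op_le] at e
  haveI := finite_autF_of_le F (H14.Fus.core_le F)
  haveI : Finite (AutBy ⊤ (Op p (⊤ : Subgroup G))) := Finite.of_equiv _ e.toEquiv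
  haveI : Finite (F.autGroup F.core) := Finite.of_equiv _ (autEquiv F F.core).symm.toEquiv
  rw [aut_iff (Q := Op p ⊤) (isPGroup_of_le hT.isPGroup (le_trans (by rw [← centralizerIn_top]; exact hG) hT.op_le))]
  exact ⟨fun h => H1.IsPSolvable.of_equiv h ((autEquiv F F.core).trans e).symm,
    fun h => H1.IsPSolvable.of_equiv h ((autEquiv F F.core).trans e)⟩

/-- Let F be a saturated fusion system over a finite p-group S. Then F is the fusion system of some finite p-solvable group on a Sylow p-subgroup if and only if F is constrained (some subgroup normal in F is centric in F) and the group of automorphisms that F induces on its largest normal subgroup O_p(F) is p-solvable. -/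
theorem result {Ω : Type u} [Group Ω] {S : Subgroup Ω} [Finite S] (p : ℕ) [Fact p.Prime] (hS : IsPGroup p S)
    (F : Cfsg.FusionSystem S) (hF : F.IsSaturated p) :
    (∃ (G : Type u) (_ : Group G) (_ : Finite G) (ι : S →* G), Cfsg.IsPSolvable p G ∧ F.IsRealizedBy ι ∧
        ∃ T : Sylow p G, (T : Subgroup G) = ι.range) ↔
      (F.IsConstrained p ∧ Cfsg.IsPSolvable p ↥(F.autGroup F.core)) := by
  constructor
  · rintro ⟨G, _, _, ι, h1, h2, h3⟩
    have hT := sylIn_top_iff.2 h3
    have hi := realized_iff.1 h2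
    let π := QuotientGroup.mk' (pPrimeCore p G)
    have hπ : HomOn (⊤ : Subgroup G) π := fun a _ b _ => map_mul π a b
    have ht : img π (⊤ : Subgroup G) = ⊤ := top_le_iff.1 fun y _ => by
      obtain ⟨x, rfl⟩ := QuotientGroup.mk'_surjective _ y
      exact mem_img_of_mem π trivial
    have hT' : SylIn p (img π ι.range) ⊤ := ht ▸ hT.img hπ
    have hc : ChP p (⊤ : Subgroup (G ⧸ pPrimeCore p G)) := charP_top_iff.2
      (H1.IsPSolvable.centralizer_pCore_le (H1.IsPSolvable.quotient h1 _) (H1.pPrimeCore_quotient_pPrimeCore p))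
    have hi' : FIso (fusionSystemOfSubgroup ⊤ ι.range le_top) (fusionSystemOfSubgroup ⊤ (img π ι.range) hT'.le) π := by
      refine ⟨fac_ofSubgroup hT hπ ht rfl _, fun a ha b hb e => ?_⟩
      have h4 : a⁻¹ * b ∈ pPrimeCore p G := QuotientGroup.eq.1 e
      have h5 : a⁻¹ * b ∈ ι.range := ι.range.mul_mem (ι.range.inv_mem ha) hb
      obtain ⟨k, hk⟩ := hT.isPGroup ⟨_, h5⟩
      have h6 : orderOf (a⁻¹ * b) ∣ p ^ k := orderOf_dvd_of_pow_eq_one (congrArg Subtype.val hk)
      have h7 := ((H1.coprime_card_pPrimeCore p).coprime_dvd_left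
        (Subgroup.orderOf_dvd_natCard _ h4)).pow_right k
      exact inv_mul_eq_one.1 (orderOf_eq_one_iff.1 (Nat.Coprime.eq_one_of_dvd h7 h6))
    have hj := hi'.comp hi
    exact ⟨(hj.constrained_iff hS).1 (constrained_ofSubgroup hT' hc),
      (model_iff' hT' hc hj).1 (H1.IsPSolvable.quotient h1 _)⟩
  · rintro ⟨h1, h2⟩
    obtain ⟨G, _, ι, hι⟩ := exists_model_of_constrained hS h1
    obtain ⟨_, a1, a2, a3⟩ := model_iff.1 hι
    exact ⟨G, _, inferInstance, ι, (model_iff' a2 a3 a1).2 h2, hι.2.1, hι.2.2.1⟩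

end Cfsg.Agent.S5292
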