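import Cfsg.Statements.S5295
import Cfsg.Agent.H3.FApp2
import Cfsg.Agent.H14.ZCompl

set_option autoImplicit false
universe u
open Cfsg

namespace Cfsg.Agent.S5295

/-- Let F be a saturated fusion system over a finite p-group S with p odd. Then the centre Z(F) of F is a direct factor of Z(S): there is a subgroup K of Z(S) with Z(F) ∩ K = 1 and Z(F)K = Z(S). (At the prime 2 this can fail.) -/
theorem result {Ω : Type u} [Group Ω] {S : Subgroup Ω} [Finite S] (p : ℕ) [Fact p.Prime] (hp : p ≠ 2) (hS : IsPGroup p S)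
    (F : Cfsg.FusionSystem S) (hF : F.IsSaturated p) :
    ∃ K : Subgroup Ω, K ≤ (S ⊓ Subgroup.centralizer (S : Set Ω)) ∧ F.center ⊓ K = ⊥ ∧ F.center ⊔ K = (S ⊓ Subgroup.centralizer (S : Set Ω)) := by
  have hW := H3.isCharPFunctor_thompsonA.{u} (p := p)
  have hJ : thompsonSubgroupAOf S ≤ S := H3.iF_le _ S
  have h0 : S ≤ Subgroup.normalizer (thompsonSubgroupAOf S : Set Ω) := H3.iF_le_normalizer hW hS
  have hN := H13.isNormalizerSystem_nsys F _ hJ
  have e : FusionSystem.normalizerIn S (thompsonSubgroupAOf S) = S :=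
    le_antisymm inf_le_left (le_inf le_rfl h0)
  have := H13.finite_of_le e.le
  have h1 := H14.Fus.exists_center_compl' (hS.to_le e.le)
    (H13.saturated_normalizer hS hF (H13.fullyNormalized_of_normal hJ h0) hN) 
      ((inf_le_inf e.le (Subgroup.centralizer_le e.ge)).trans
        ((H3.center_le_iF (fun Q _ _ _ => H3.center_le_thompsonA Q) hS).trans
        (H13.le_core (H13.normal_normalizerSystem hJ hN))))
  rw [H3.center_eq_thompson_odd hp hS hF hN] at h1
  rwa [e] at h1

end Cfsg.Agent.S5295
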