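import Cfsg.Statements.S5298
import Cfsg.Agent.H3.FSmall

set_option autoImplicit false
universe u
open Cfsg

namespace Cfsg.Agent.S5298

/-- Let F be a saturated fusion system over a finite p-group S. If every map of F between cyclic subgroups of the hyperfocal subgroup of F of order p or 4 is conjugation by an element of S, then F is the inner fusion system of S. -/
theorem result {Ω : Type u} [Group Ω] {S : Subgroup Ω} [Finite S] (p : ℕ) [Fact p.Prime] (hS : IsPGroup p S)
    (F : Cfsg.FusionSystem S) (hF : F.IsSaturated p)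
    (h : ∀ A B : Subgroup Ω, A ≤ (F.hyperfocalSubgroup p) → B ≤ (F.hyperfocalSubgroup p) → IsCyclic ↥A → (Nat.card ↥A = p ∨ Nat.card ↥A = 4) → IsCyclic ↥B → (Nat.card ↥B = p ∨ Nat.card ↥B = 4) →
      F.homSet A B ⊆ (Cfsg.innerFusionSystem S).Hom A) :
    ∀ P : Subgroup Ω, F.Hom P = (Cfsg.innerFusionSystem S).Hom P := by
  refine H14.Fus.hom_eq_inner_iff.2 (H3.isInner_of_small hS hF fun P σ hσ x hx h1 h2 => ?_)
  by_cases h3 : x = 1
  · exact ⟨1, one_mem _, by rw [h3, hσ.hom.map_one]; simp⟩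
  have hz : Subgroup.zpowers x ≤ P := Subgroup.zpowers_le.2 hx
  have h4 := hσ.restrict hz
  have h5 : H13.img σ (Subgroup.zpowers x) = Subgroup.zpowers (σ x) := by
    rw [Subgroup.zpowers_eq_closure] at h4 ⊢
    rw [h4.hom.img_closure, Set.image_singleton, Subgroup.zpowers_eq_closure]
  obtain ⟨-, g, hg, e⟩ := H13.mor_inner_iff.1 (H13.mor_fn
    (h _ (Subgroup.zpowers (σ x)) (Subgroup.zpowers_le.2 h1)
      (Subgroup.zpowers_le.2 (H13.sc_mem (H13.sc_hyp hS hF) hσ hx h1)) inferInstance (h2.card h3)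
      inferInstance (h5 ▸ h4.iso.card_eq ▸ h2.card h3)
      ⟨h4.toHom_mem, fun y => h5.le (H13.mem_img_of_mem σ y.2)⟩))
  refine ⟨g, hg, ?_⟩
  rw [← e x (Subgroup.mem_zpowers x), H13.fn_apply _ (Subgroup.mem_zpowers x)]
  rfl

end Cfsg.Agent.S5298
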