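import Cfsg.Statements.S5301
import Cfsg.Agent.H14.Cons

set_option autoImplicit false
universe u
set_option linter.unusedVariables false
set_option linter.style.haveILetI false
open Cfsg Cfsg.FusionSystem Equiv H13 H14.Fus
open scoped commutatorElement

namespace Cfsg.Agent.S5301

/-- Let F be a saturated fusion system over a finite p-group S. If for every subgroup P of S that is fully normalized, centric and radical in F the automorphism group that F induces on P has a normal Sylow p-subgroup, then S is normal in F. -/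
theorem result {Ω : Type u} [Group Ω] {S : Subgroup Ω} [Finite S] (p : ℕ) [Fact p.Prime] (hS : IsPGroup p S)
    (F : Cfsg.FusionSystem S) (hF : F.IsSaturated p)
    (hcl : ∀ P : Subgroup Ω, F.IsFullyNormalized P → F.IsCentric P → F.IsRadical p P →
      ∃ R : Sylow p ↥(F.autGroup P), (R : Subgroup ↥(F.autGroup P)).Normal) :
    F.IsNormal S := by
  refine normal_of_wc_cr hS hF (wc_of_sc (sc_top F)) fun P hc hr hn => ?_
  obtain ⟨R, hR⟩ := hcl P hn hc hr
  haveI := finite_of_le hc.1
  haveI := finite_autF_of_le F hc.1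
  have h1 : SylIn p (((R : Subgroup (F.autGroup P)).map (F.autGroup P).subtype).map (ext P)) (AutF F P) :=
    (sylIn_map_subtype R).map (ext P)
  have h2 : AutF F P ≤ Subgroup.normalizer
      ((((R : Subgroup (F.autGroup P)).map (F.autGroup P).subtype).map (ext P) : Subgroup _) : Set (Perm Ω)) := by
    refine le_normalizer_iff.2 ?_
    rintro _ ⟨g, hg, rfl⟩ _ ⟨_, ⟨a, ha, rfl⟩, rfl⟩
    exact ⟨_, ⟨_, hR.conj_mem a ha ⟨g, hg⟩, rfl⟩, by simp⟩
  have h3 := h1.le_of_le_normalizer (isPGroup_autBy hS P) (autBy_le_autF F hc.1 le_rfl)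
    ((autBy_le_autF F hc.1 le_rfl).trans h2)
  refine le_of_normalizerIn_le hS hc.1 le_rfl (hc.1.trans Subgroup.le_normalizer) fun g hg => ?_
  exact mem_of_cr_mem_op hc hr hg.1 hg.2 (le_op h1.le h1.isPGroup h2 (h3 (cr_mem_autBy hg.1 hg.2)))

end Cfsg.Agent.S5301
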