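import Cfsg.Statements.S5310
import Cfsg.Agent.H14.ZLift

set_option autoImplicit false
set_option linter.unusedVariables false
set_option linter.style.haveILetI false
open Cfsg Cfsg.FusionSystem Equiv H13 H14.Fus
open scoped commutatorElement

namespace Cfsg.Agent.S5310

/-- A saturated fusion system F over a finite p-group S is constrained (its largest normal subgroup O_p(F) is centric) if and only if the inner fusion system of O_p(F) is itself a generalized Fitting subsystem of F (that is, F*(F) = O_p(F)). -/
theorem result {Ω : Type*} [Group Ω] {S : Subgroup Ω} [Finite S] (p : ℕ) [Fact p.Prime] (hS : IsPGroup p S) (F : Cfsg.FusionSystem S) (hF : F.IsSaturated p) :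
    F.IsConstrained p ↔ (Cfsg.innerFusionSystem F.core).IsGeneralizedFittingOf F p := by
  have := finite_of_le (H13.core_le F)
  refine ⟨fun h => ?_, fun ⟨V, E, h1, h2⟩ => constrained_of_no_comp hS hF fun W C hC => ?_⟩
  · obtain ⟨V, E, hE⟩ := exists_layer hS hF
    have := finite_of_le (nrm_le hE.1)
    have h1 := le_of_isSubsystemOf (layer_sub_of_le hS hF hE (inner_normalIn hS hF (core_normal F))
      fun W C hC => (not_constrained_of_comp hS hF hC h).elim)
    obtain ⟨D, hD⟩ := (layer_cpData hS hF hE).exists_cp (sup_eq_left.2 h1).symm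
    obtain rfl : D = innerFusionSystem F.core := fs_antisymm
      (isSubsystemOf_iff.2 fun P f hf => hD.full hf hf.le) hD.sub₁
    exact ⟨V, E, hE, isCentralProductOf_iff.2 hD⟩
  · have := finite_of_le (nrm_le h1.1)
    have := finite_of_le (comp_le hF hC)
    exact qs_not_sub_inner (hS.to_le (comp_le hF hC)) hC.2 (hS.to_le (H13.core_le F))
      (isSubsystemOf_trans (h1.2.1 W C hC) (isCentralProductOf_iff.1 h2).sub₂)

end Cfsg.Agent.S5310
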