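import Cfsg.Statements.S5312
import Cfsg.Agent.H14.Comp

set_option autoImplicit false
set_option linter.unusedVariables false
set_option linter.style.haveILetI false
open Cfsg Cfsg.FusionSystem Equiv H13 H14.Fus
open scoped commutatorElement

namespace Cfsg.Agent.S5312

/-- Let F be a saturated fusion system over a finite p-group S. Every component C of F is a normal subsystem of every generalized Fitting subsystem of F. -/
theorem result {Ω : Type*} [Group Ω] {S : Subgroup Ω} [Finite S] (p : ℕ) [Fact p.Prime] (hS : IsPGroup p S) (F : Cfsg.FusionSystem S) (hF : F.IsSaturated p)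
    {T : Subgroup Ω} (C : Cfsg.FusionSystem T) (hC : C.IsComponentIn F p)
    {U : Subgroup Ω} (D : Cfsg.FusionSystem U) (hD : D.IsGeneralizedFittingOf F p) : C.IsNormalIn D p := by
  have := finite_of_le (H13.core_le F)
  obtain ⟨V, E, h1, h2⟩ := hD
  have := finite_of_le (nrm_le h1.1)
  have h3 := isCentralProductOf_iff.1 h2
  have h4 := h3.normalIn hS hF (inner_normalIn hS hF (core_normal F)) h1.1
  have := finite_of_le (nrm_le h4)
  exact h3.symm.normalIn_of (nrm_sat h4) (comp_normal_layer hS hC h1)

end Cfsg.Agent.S5312
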