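import Cfsg.Statements.S5317
import Cfsg.Agent.H13.SL2Syl

set_option autoImplicit false
open Cfsg

namespace Cfsg.Agent.S5317

open H13 Equiv Cfsg.FusionSystem

/-- Let F be a finite field of odd order q with q² ≡ 1 mod 16 (so that a Sylow 2-subgroup of PSL(2,q), dihedral of order the 2-part of (q²−1)/2, has order at least 8). Then the 2-fusion system of PSL(2,F) on a Sylow 2-subgroup is simple: saturated, over a nontrivial 2-group, with no normal subsystem other than the trivial one and itself. -/
theorem result {F : Type*} [Field F] [Fintype F] (hodd : Fintype.card F % 2 = 1) (h16 : 16 ∣ Fintype.card F ^ 2 - 1)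
    (S : Sylow 2 (Matrix.ProjectiveSpecialLinearGroup (Fin 2) F)) :
    (Cfsg.groupFusionSystem (S : Subgroup (Matrix.ProjectiveSpecialLinearGroup (Fin 2) F))).IsSimple 2 := by
  have hF : Odd (Fintype.card F) := Nat.odd_iff.2 hodd
  obtain ⟨k, h1, ⟨e⟩⟩ := psl2_dihedral hF S
  have h2 : 16 ∣ Nat.card (Matrix.SpecialLinearGroup (Fin 2) F) := by
    rw [H22.card_SL_two]
    exact h16.mul_left _
  have h3 : 2 ^ 4 ∣ 2 ^ (k + 3) := by
    rw [← h1]
    exact (default : Sylow 2 _).pow_dvd_card_of_pow_dvd_card h2
  have h4 := (Nat.pow_dvd_pow_iff_le_right (by omega)).1 h3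
  have h5 : 4 ≤ Fintype.card F := by
    by_contra h
    have := Fintype.one_lt_card (α := F)
    have h6 : Fintype.card F = 3 := by omega
    rw [h6] at h16
    omega
  refine simple_of_DH ?_ (by omega) e S
  have := map_commutator_eq _ (QuotientGroup.mk' (Subgroup.center
    (Matrix.SpecialLinearGroup (Fin 2) F)))
  rw [H22.commutator_SL_fin_eq_top 2 fun _ => h5, ← MonoidHom.range_eq_map,
    MonoidHom.range_eq_top.2 (QuotientGroup.mk'_surjective _)] at this
  exact this.symm

end Cfsg.Agent.S5317
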