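import Cfsg.Statements.S5319
import Cfsg.Agent.H13.GL2Syl

set_option autoImplicit false
open Cfsg

namespace Cfsg.Agent.S5319

open H13 Equiv Cfsg.FusionSystem

/-- Let q be an odd prime power and F a field with q² elements. Then the 2-fusion system of PSU(3,q) (realised as the special unitary group of the standard Hermitian form over F modulo its centre) on a Sylow 2-subgroup is simple. -/
theorem result {F : Type*} [Field F] [Fintype F] (q : ℕ) (hq : Fintype.card F = q ^ 2) (hodd : q % 2 = 1) (S : Sylow 2 (Cfsg.PSU 3 F q)) :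
    (Cfsg.groupFusionSystem (S : Subgroup (Cfsg.PSU 3 F q))).IsSimple 2 := by
  refine simple_quot_of_QD_WR (H22.commutator_SU_eq_top hq 3 le_rfl (by omega)) _ ?_
    (S := default) (su3_QD_WR hq hodd _) S
  rw [H22.card_center_SU hq 3 (by omega)]
  exact Odd.of_dvd_nat (by decide : Odd 3) (Nat.gcd_dvd_left _ _)

end Cfsg.Agent.S5319
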