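import Cfsg.Statements.S5328
import Cfsg.Agent.H14.Biset

set_option autoImplicit false
universe u
set_option linter.unusedVariables false
set_option linter.style.haveILetI false
open Cfsg Cfsg.FusionSystem Equiv H13 H14.Fus
open scoped commutatorElement

namespace Cfsg.Agent.S5328

/-- Every fusion system over a finite p-group S, saturated or not, is realized inside some finite group: there is a finite group G and an injective homomorphism ι of S into G such that the maps of the system are exactly the homomorphisms between subgroups of S that become conjugations by elements of G (the image of S need not be a Sylow p-subgroup of G). -/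
theorem result {Ω : Type u} [Group Ω] {S : Subgroup Ω} [Finite S] (p : ℕ) [Fact p.Prime] (hS : IsPGroup p S) (F : Cfsg.FusionSystem S) : ∃ (G : Type u) (_ : Group G) (_ : Finite G) (ι : ↥S →* G), F.IsRealizedBy ι := by
  obtain ⟨X, _, ρ, h, ξ₀, h0⟩ := exists_cb' F
  let G : Subgroup (Perm X) := Subgroup.centralizer ((fun t => ρ (1, t)) '' S)
  have mul : ∀ s ∈ S, ∀ t ∈ S, ρ (s, t) = ρ (s, 1) * ρ (1, t) ∧ ρ (s, t) = ρ (1, t) * ρ (s, 1) := fun s hs t ht => by
    rw [← h.hom (s, 1) ⟨hs, S.one_mem⟩ (1, t) ⟨S.one_mem, ht⟩, ← h.hom (1, t) ⟨S.one_mem, ht⟩ (s, 1) ⟨hs, S.one_mem⟩]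
    simp
  have hh : HomOn S (fun s => ρ (s, 1)) := fun x hx y hy => by
    rw [← h.hom (x, 1) ⟨hx, S.one_mem⟩ (y, 1) ⟨hy, S.one_mem⟩]; simp
  let ι : S →* G := hh.toHom.codRestrict G fun s => by
    rintro _ ⟨t, ht, rfl⟩
    exact (mul s s.2 t ht).2.symm.trans (mul s s.2 t ht).1
  refine ⟨G, inferInstance, inferInstance, ι, (injective_iff_map_eq_one ι).2 fun s hs => ?_, fun P hP φ hφ => ⟨fun H => ?_, ?_⟩⟩
  · obtain ⟨P, φ, hφ, k⟩ := h.stab ξ₀
    have : ρ (s, 1) ξ₀ = ξ₀ := by rw [show ρ (s, 1) = 1 from congrArg Subtype.val hs]; rfl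
    exact Subtype.ext (((k s s.2 1 S.one_mem).1 this).2.trans hφ.hom.map_one)
  · obtain ⟨f, hf⟩ := h.left P _ (mor_fn H)
    refine ⟨⟨f, ?_⟩, fun x => Subtype.ext (eq_mul_inv_of_mul_eq (Equiv.ext fun ξ => ?_))⟩
    · rintro _ ⟨t, ht, rfl⟩
      ext ξ
      have := hf 1 P.one_mem t ht ξ
      rw [(mor_fn H).hom.map_one] at this
      exact this.symm
    · have := hf x x.2 1 S.one_mem ξ
      rw [fn_apply φ x.2] at this
      exact this.symm
  · rintro ⟨g, hg⟩
    obtain ⟨Q, ψ, hψ, k⟩ := h.stab ((g : Perm X) ξ₀)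
    have : ∀ x : P, (x : Ω) ∈ Q ∧ φ x = ψ x := fun x => by
      refine (k _ (hφ x) _ (hP x.2)).1 ?_
      have e1 : ρ (φ x, 1) = g * ρ (x, 1) * (g : Perm X)⁻¹ := congrArg Subtype.val (hg x)
      have e2 : ρ (1, x) * g = g * ρ (1, x) := g.2 _ ⟨x, hP x.2, rfl⟩
      rw [(mul _ (hφ x) _ (hP x.2)).1, e1, ← Perm.mul_apply, mul_assoc _ _ (g : Perm X), e2, mul_assoc,
        inv_mul_cancel_left, mul_assoc, ← (mul _ (hP x.2) _ (hP x.2)).1, Perm.mul_apply, h0 _ (hP x.2)]
    exact (hψ.restrict fun x hx => (this ⟨x, hx⟩).1).mem_hom fun x => (this x).2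

end Cfsg.Agent.S5328
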