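import Cfsg.Statements.S5330
import Cfsg.Agent.H14.Tate
import Cfsg.Agent.H14.Iso

set_option autoImplicit false
set_option linter.unusedVariables false
set_option linter.style.haveILetI false
open Cfsg Cfsg.FusionSystem Equiv H13 H14.Fus
open scoped commutatorElement

namespace Cfsg.Agent.S5330

/-- Let F be a saturated fusion system over a finite abelian p-group S. Then S is the internal direct product of the centre of the system and the focal subgroup: Z(F) ∩ foc(F) = 1 and Z(F)·foc(F) = S. -/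
theorem result {Ω : Type*} [Group Ω] {S : Subgroup Ω} [Finite S] (p : ℕ) [Fact p.Prime] (hS : IsPGroup p S) (F : Cfsg.FusionSystem S) (hF : F.IsSaturated p) (hab : ∀ x ∈ S, ∀ y ∈ S, x * y = y * x) : F.center ⊓ F.focalSubgroup = ⊥ ∧ F.center ⊔ F.focalSubgroup = S := by
  have hc : ⁅S, S⁆ = ⊥ := Subgroup.commutator_eq_bot_iff_le_centralizer.2 fun x hx y hy => hab y hy x hx
  refine ⟨by rw [inf_comm, foc_inf_center hS hF, hc, bot_inf_eq], ?_⟩
  obtain ⟨C, hC, e1, e2, -, e3⟩ := exists_focal_compl hS hF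
  refine le_antisymm (sup_le (H13.center_le F) (foc_le F)) (e2.ge.trans (sup_le_sup_right (H13.le_center ?_) _))
  have hn := normal_of_sc_of_comm hS hF (sc_top F) fun x hx y hy => hab y hy x hx
  refine central_of_fix hS hF hC fun P σ hσ x hx hxC => ?_
  obtain ⟨τ, hτ, e, -⟩ := normal_extend hn hσ
  rw [sup_eq_right.2 hσ.le] at hτ
  have : x⁻¹ * τ x ∈ C ⊓ F.focalSubgroup :=
    ⟨C.mul_mem (C.inv_mem hxC) (e3 _ ((inv_self F).fIso hτ.iso_top) x hxC), mem_foc hτ (hC hxC)⟩
  rw [e1, hc, Subgroup.mem_bot, inv_mul_eq_one, e x hx] at this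
  exact this.symm

end Cfsg.Agent.S5330
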