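import Cfsg.Statements.S5331
import Cfsg.Agent.H13.Sup2

set_option autoImplicit false
open Cfsg

namespace Cfsg.Agent.S5331

open H13 Equiv Cfsg.FusionSystem

/-- Let S be a finite abelian 2-group that is a direct product of cyclic groups of pairwise distinct orders 2^{a_1} < 2^{a_2} < ⋯ < 2^{a_n} (all a_i ≥ 1). Then every saturated fusion system over S is the inner one: its maps are exactly the conjugations by elements of S. -/
theorem result {Ω : Type*} [Group Ω] {S : Subgroup Ω} [Finite S] (n : ℕ) (a : Fin n → ℕ) (ha : StrictMono a) (ha1 : ∀ i, 1 ≤ a i) (e : ↥S ≃* Multiplicative ((i : Fin n) → ZMod (2 ^ a i))) (F : Cfsg.FusionSystem S) (hF : F.IsSaturated 2) (P : Subgroup Ω) : F.Hom P = (Cfsg.innerFusionSystem S).Hom P := by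
  haveI := Fact.mk Nat.prime_two
  have hS : IsPGroup 2 S := IsPGroup.of_card (n := ∑ i, a i) (by
    rw [Nat.card_congr e.toEquiv, Nat.card_congr Multiplicative.toAdd, Nat.card_pi, ← Finset.prod_pow_eq_pow_sum]
    simp)
  haveI : IsMulCommutative S := ⟨⟨fun x y => e.injective (by rw [map_mul, map_mul, mul_comm])⟩⟩
  rw [eq_inner_of_normal hS hF (normal_of_sc_of_comm hS hF (sc_top F) (Subgroup.le_centralizer S))
    ((pa_pi ha.injective).congr (e.trans (MulEquiv.piMultiplicative _))).isPGroup]

end Cfsg.Agent.S5331
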