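import Cfsg.Statements.S5521
import Cfsg.Agent.H27.MX

set_option autoImplicit false
open Cfsg

namespace Cfsg.Agent.S5521
open H27 MulAction
open scoped Pointwise
theorem six {E : Finset Cfsg.GolayPt} (hE : E.card = 6) : ((∃ o ∈ Cfsg.octads, E ⊆ o) ∧ ∃ g : MM, g • GE.fs 0x80002f = E) ∨
    ((¬ ∃ o ∈ Cfsg.octads, E ⊆ o) ∧ ∃ g : MM, g • GE.fs 0x80001f = E) := by
  rcases exists_smul_six E.toList E.nodup_toList (by simpa) with ⟨a, g, b⟩ | ⟨a, g, b⟩ <;>
    rw [Finset.toList_toFinset] at a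
  · exact .inl ⟨a, g, smul_toFinset b ▸ congrArg _ (by decide +kernel)⟩
  · exact .inr ⟨a, g, smul_toFinset b ▸ congrArg _ (by decide +kernel)⟩


/-- The Mathieu group M₂₄ in its natural action on the 24 coordinate positions of the binary Golay code has minimal base size exactly 7: every set of at most 6 positions is fixed pointwise by some non-identity element of M₂₄, while some set of 7 positions is fixed pointwise only by the identity. -/
theorem result :
    (∀ B : Finset Cfsg.GolayPt, B.card ≤ 6 → ∃ g ∈ Cfsg.M24, g ≠ 1 ∧ ∀ b ∈ B, g b = b) ∧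
    (∃ B : Finset Cfsg.GolayPt, B.card = 7 ∧ ∀ g ∈ Cfsg.M24, (∀ b ∈ B, g b = b) → g = 1) := by
  refine ⟨fun B hB => ?_, GE.fs 0x80003f, by rw [card_gfs]; decide +kernel, fun g hg h => ?_⟩
  · obtain ⟨E, hE, h6⟩ := Finset.exists_superset_card_eq hB (by rw [card_pt]; norm_num)
    have k : ∀ z : MM, z ≠ 1 → E ⊆ fixF z → ∃ g ∈ Cfsg.M24, g ≠ 1 ∧ ∀ b ∈ B, g b = b := fun z a b =>
      ⟨z, z.2, fun c => a (Subtype.ext c), fun p hp => mem_fixF.1 (b (hE hp))⟩
    rcases six h6 with ⟨-, g, rfl⟩ | ⟨-, g, rfl⟩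
    · refine k (g * z2a * g⁻¹) (fun c => ?_) ?_
      · have := ord_z2a
        rw [conj_eq_one_iff.1 c, orderOf_one] at this; cases this
      · rw [fixF_conj, fix_z2a, mm_smul_subset, eO_zero]; decide +kernel
    · refine k (g * x3a * g⁻¹) (fun c => ?_) ?_
      · have := ord_x3a
        rw [conj_eq_one_iff.1 c, orderOf_one] at this; cases this
      · rw [fixF_conj, fix_x3a]
  · have : (⟨g, hg⟩ : MM) ∈ fixM 0x80003f := h
    rw [Subgroup.eq_bot_of_card_le _ card_fix7] at this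
    exact congrArg Subtype.val this

end Cfsg.Agent.S5521
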