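import Cfsg.Statements.S5529
import Cfsg.Agent.H13.T23

set_option autoImplicit false
open Cfsg

namespace Cfsg.Agent.S5529

open H13

/-- Generation of the Mathieu group M₂₃ (the stabiliser of a point in the Mathieu group M₂₄ acting on 24 points) by triples of prime orders. Let p ≤ q ≤ r be primes dividing |M₂₃| = 10200960 = 2⁷·3²·5·7·11·23, not both p and q equal to 2. Then M₂₃ contains elements x, y, z of orders p, q, r with xyz = 1 and ⟨x, y⟩ = M₂₃ if and only if (p, q, r) is none of: (2, 3, r) for any r, (2, 5, 5), (2, 5, 7), (3, 3, 3), (3, 3, 5), (3, 3, 7). -/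
theorem result (p q r : ℕ) (hp : p.Prime) (hq : q.Prime)
    (hr : r.Prime) (hpq : p ≤ q) (hqr : q ≤ r) (hp2 : ¬ (p = 2 ∧ q = 2))
    (hdvd : p ∣ 10200960 ∧ q ∣ 10200960 ∧ r ∣ 10200960) :
    (∃ x y z : Cfsg.Spor.M23, orderOf x = p ∧ orderOf y = q ∧ orderOf z = r ∧ x * y * z = 1 ∧
        Subgroup.closure {x, y} = ⊤) ↔
      ¬ ((p = 2 ∧ q = 3) ∨ (p = 2 ∧ q = 5 ∧ r = 5) ∨ (p = 2 ∧ q = 5 ∧ r = 7) ∨ (p = 3 ∧ q = 3 ∧ r ≤ 7)) := by
  have pr : ∀ s : ℕ, s.Prime → s ∣ 10200960 → s ∈ [2, 3, 5, 7, 11, 23] := by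
    intro s hs h
    have e : (10200960 : ℕ) = 2 ^ 7 * (3 ^ 2 * (5 * (7 * (11 * 23)))) := by norm_num
    rw [e] at h
    simp only [hs.dvd_mul] at h
    simp only [List.mem_cons, List.not_mem_nil, or_false]
    rcases h with h | h | h | h | h | h
    · exact .inl ((Nat.prime_dvd_prime_iff_eq hs (by norm_num)).1 (hs.dvd_of_dvd_pow h))
    · exact .inr (.inl ((Nat.prime_dvd_prime_iff_eq hs (by norm_num)).1 (hs.dvd_of_dvd_pow h)))
    · exact .inr (.inr (.inl ((Nat.prime_dvd_prime_iff_eq hs (by norm_num)).1 h)))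
    · exact .inr (.inr (.inr (.inl ((Nat.prime_dvd_prime_iff_eq hs (by norm_num)).1 h))))
    · exact .inr (.inr (.inr (.inr (.inl ((Nat.prime_dvd_prime_iff_eq hs (by norm_num)).1 h)))))
    · exact .inr (.inr (.inr (.inr (.inr ((Nat.prime_dvd_prime_iff_eq hs (by norm_num)).1 h)))))
  constructor
  · rintro ⟨x, y, z, ox, oy, oz, e, c⟩ h
    have k := H13.ree23 e c
    obtain ⟨a2, a3, a5, a7, a1⟩ := H13.kd23 ox
    obtain ⟨b2, b3, b5, b7, b1⟩ := H13.kd23 oy
    obtain ⟨c2, c3, c5, c7, c1⟩ := H13.kd23 oz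
    have := pr r hr hdvd.2.2
    simp only [List.mem_cons, List.not_mem_nil, or_false] at this
    rcases h with ⟨h1, h2⟩ | ⟨h1, h2, h3⟩ | ⟨h1, h2, h3⟩ | ⟨h1, h2, h3⟩
    · have := a2 h1; have := b3 h2; omega
    · have := a2 h1; have := b5 h2; have := c5 h3; omega
    · have := a2 h1; have := b5 h2; have := c7 h3; omega
    · have := a3 h1; have := b3 h2
      obtain h | h | h : r = 3 ∨ r = 5 ∨ r = 7 := by omega
      · have := c3 h; omega
      · have := c5 h; omega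
      · have := c7 h; omega
  · intro h
    obtain ⟨t, ht, rfl, rfl, rfl⟩ := H13.triT_all p (pr p hp hdvd.1) q (pr q hq hdvd.2.1) r (pr r hr hdvd.2.2) hpq hqr hp2 h
    exact H13.Tr23.gen ((H27.allL_iff _ _).1 H13.triT_chk t ht) hp hq hr

end Cfsg.Agent.S5529
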