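import Cfsg.Statements.S5562
import Cfsg.Agent.H18.Dih0

set_option autoImplicit false
open Cfsg

namespace Cfsg.Agent.S5562



/-- Let G be a finite group, d an involution of G whose conjugates pairwise have products of odd order, and x any involution of G. Then the conjugacy class of d is the disjoint union, over the conjugates a of d commuting with x, of the sets of conjugates of d commuting with ax: every conjugate of d commutes with ax for exactly one conjugate a of d that commutes with x. -/
theorem result {G : Type*} [Group G] [Finite G] (d : G) (hd : orderOf d = 2)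
    (hodd : ∀ a ∈ conjugatesOf d, ∀ b ∈ conjugatesOf d, Odd (orderOf (a * b)))
    (x : G) (hx : orderOf x = 2) :
    ∀ e ∈ conjugatesOf d,
      ∃! a : G, a ∈ conjugatesOf d ∧ Commute a x ∧ Commute e (a * x) := by
  intro e he
  have sq : ∀ a ∈ conjugatesOf d, a * a = 1 := fun a ha =>
    H6.ord2_mul_self (by rw [← H6.isConj_orderOf ha, hd])
  have cj : ∀ a ∈ conjugatesOf d, ∀ g : G, g⁻¹ * a * g ∈ conjugatesOf d := fun a ha g =>
    IsConj.trans ha (isConj_iff.2 ⟨g⁻¹, by simp⟩)
  have x2 := H6.ord2_mul_self hx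
  have xi := H6.ord2_inv hx
  have e2 := sq e he
  have hn : Odd (orderOf ((x * e) ^ 2)) := by
    have := hodd _ (cj e he x) e he
    rwa [xi, mul_assoc, ← pow_two] at this
  set n := orderOf ((x * e) ^ 2) with hnd
  have s2 : (x * e) ^ n * (x * e) ^ n = 1 := by
    rw [← pow_add, ← two_mul, pow_mul, hnd, pow_orderOf_eq_one]
  have sx : Commute ((x * e) ^ n) x := H6.commute_of_inverts_ord2
    (H6.conj_pow_of_inverts (H6.inv_conj_mul x2 e2) n) s2
  have se : Commute ((x * e) ^ n) e := H6.commute_of_inverts_ord2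
    (H6.conj_pow_of_inverts (H6.inv_conj_mul' x2 e2) n) s2
  refine ⟨x * (x * e) ^ n, ⟨?_, (Commute.refl x).mul_left sx, ?_⟩, fun a ⟨ha, hax, hea⟩ => ?_⟩
  · obtain ⟨k, hk⟩ := hn
    rw [hk, H18.refl_conj_odd x2 e2]
    exact cj e he _
  · rw [mul_assoc, sx.eq, ← mul_assoc, x2, one_mul]; exact se.symm
  · have a2 := sq a ha
    have t2 : (a * x) * (a * x) = 1 := by rw [← pow_two, hax.mul_pow, pow_two, pow_two, a2, x2, mul_one]
    have c : Commute (a * e) (a * x) := ((Commute.refl a).mul_right hax).mul_left hea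
    have e1 : x * e = a * e * (a * x) := by
      rw [c.eq, hax.eq, mul_assoc, ← mul_assoc a, a2, one_mul]
    have e3 : (x * e) ^ 2 = (a * e) ^ 2 := by rw [e1, c.mul_pow, pow_two (a * x), t2, mul_one]
    have e4 : (a * e) ^ n = 1 := by
      refine H6.eq_one_of_odd_of_sq (H6.odd_orderOf_pow (hodd a ha e he) n) ?_
      rw [← pow_add, ← two_mul, pow_mul, ← e3, hnd, pow_orderOf_eq_one]
    have := H18.mul_pow_odd c t2 hn e4
    rw [← e1] at this
    rw [this, hax.eq, ← mul_assoc, x2, one_mul]

end Cfsg.Agent.S5562
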