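import Cfsg.Statements.S5595
import Cfsg.Agent.H13.LX2

set_option autoImplicit false
open Cfsg

namespace Cfsg.Agent.S5595

open H13

open Subgroup H5

/-- Setting: `z` is an involution of the finite group `G`; for each element `x`, `Q x` denotes the largest normal 2-subgroup of the centralizer of `x`; `Q z` is extraspecial and contains its own centralizer in `G` (a large extraspecial 2-subgroup in this sense). Call the conjugates of `z` singular, and say that singular `x` is orthogonal to singular `y` when `x ∈ Q y`. Then orthogonality is symmetric: if a conjugate `x` of `z` lies in `Q z`, then `z` lies in `Q x`. -/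
theorem result {G : Type*} [Group G] [Finite G]
    (Q : G → Subgroup G)
    (hQ : ∀ x : G, Q x = (Cfsg.pCore 2 ↥(Subgroup.centralizer ({x} : Set G))).map (Subgroup.centralizer ({x} : Set G)).subtype)
    (z : G) (hz : orderOf z = 2) (hE : Cfsg.IsExtraspecial 2 ↥(Q z))
    (hC : Subgroup.centralizer ((Q z : Subgroup G) : Set G) ≤ Q z)
    (g : G) (hx : g * z * g⁻¹ ∈ Q z) : z ∈ Q (g * z * g⁻¹) := by
  obtain ⟨w, h⟩ := sg_of hQ hz hE hC
  by_cases e : g * z * g⁻¹ = z
  · rw [e]; exact h.xs.zm
  rcases h.w1.eq_or_lt with a | a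
  · have h' := h.xs' ⟨g, rfl⟩
    have := H1.isPGroup_conj_smul (h.xs.pg_of_one a.symm hx h'.zz h'.z_ne e) g
    rw [conj_smul_Cz] at this
    rw [h.q, opOf_eq_self_iff.2 this]
    exact mem_Cz_iff.2 (h.xs.cz hx).symm
  · rw [h.cj]; exact h.xs.sym a hx

end Cfsg.Agent.S5595
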