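import Cfsg.Statements.S5596
import Cfsg.Agent.H13.LX2

set_option autoImplicit false
open Cfsg

namespace Cfsg.Agent.S5596

open H13

open Subgroup H5

/-- Setting: `z` is an involution of the finite group `G`; for each element `x`, `Q x` is the largest normal 2-subgroup of the centralizer of `x`; `Q z` is extraspecial and contains its own centralizer in `G`. A subgroup `U` is singular when it is elementary abelian, every non-identity element of `U` is conjugate to `z`, and any two non-identity elements `u`, `v` of `U` are orthogonal (`v ∈ Q u`). Write `QU` for the intersection of the `Q u` and `LU` for the join of the `Q u` over the non-identity `u` in `U`. If `U` is singular of order `2 ^ n` with `n ≥ 2`, then `U ≤ QU ≤ LU`, `LU` normalizes `U`, and `LU` induces on `U` its full automorphism group (the general linear group of dimension `n` over the field with two elements): every automorphism of `U` is conjugation by some element of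 `LU`. -/
theorem result {G : Type*} [Group G] [Finite G]
    (Q : G → Subgroup G)
    (hQ : ∀ x : G, Q x = (Cfsg.pCore 2 ↥(Subgroup.centralizer ({x} : Set G))).map (Subgroup.centralizer ({x} : Set G)).subtype)
    (z : G) (hz : orderOf z = 2) (hE : Cfsg.IsExtraspecial 2 ↥(Q z))
    (hC : Subgroup.centralizer ((Q z : Subgroup G) : Set G) ≤ Q z)
    (U : Subgroup G) (hU2 : ∀ u ∈ U, u * u = 1)
    (hS : ∀ u ∈ U, u ≠ 1 → ∃ g : G, g * z * g⁻¹ = u)
    (hO : ∀ u ∈ U, ∀ v ∈ U, u ≠ 1 → v ≠ 1 → v ∈ Q u)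
    (QU LU : Subgroup G) (hQU : QU = ⨅ u ∈ ((U : Set G) \ {1}), Q u) (hLU : LU = ⨆ u ∈ ((U : Set G) \ {1}), Q u)
    (n : ℕ) (hn : 2 ≤ n) (hcard : Nat.card ↥U = 2 ^ n) :
    U ≤ QU ∧ QU ≤ LU ∧ LU ≤ Subgroup.normalizer (U : Set G) ∧
      ∀ φ : ↥U ≃* ↥U, ∃ g ∈ LU, ∀ u : ↥U, g * (u : G) * g⁻¹ = ((φ u : ↥U) : G) := by
  obtain ⟨w, h⟩ := sg_of hQ hz hE hC
  have hU : ∀ u ∈ U, u ≠ 1 → U ≤ Q u := fun u hu h1 v hv => by
    by_cases e : v = 1
    exacts [e ▸ one_mem _, hO u hu v hv h1 e]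
  have hle : ∀ u ∈ U, u ≠ 1 → Q u ≤ LU := fun u hu h1 => hLU ▸ le_iSup₂_of_le u ⟨hu, h1⟩ le_rfl
  have hN : LU ≤ normalizer (U : Set G) := hLU ▸ iSup₂_le fun u hu => le_normalizer_iff_cj.2 fun q hq => by
    rintro _ ⟨x, hx, rfl⟩
    change q * x * q⁻¹ ∈ _
    rcases (h.xs' (hS u hu.1 hu.2)).conj hq (hU u hu.1 hu.2 hx) with b | b <;> rw [b]
    exacts [hx, mul_mem hx hu.1]
  refine ⟨hQU ▸ le_iInf₂ fun u hu => hU u hu.1 hu.2, ?_, hN, fun φ => ?_⟩
  · obtain ⟨u, hu, h1⟩ := U.bot_or_exists_ne_one.resolve_left fun e => by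
      rw [e, card_bot] at hcard; exact absurd hcard.symm (Nat.one_lt_two_pow (by omega)).ne'
    exact le_trans (b := Q u) (hQU ▸ iInf₂_le u ⟨hu, h1⟩) (hle u hu h1)
  have uu : ∀ u : U, u * u = 1 := fun u => Subtype.ext (hU2 u u.2)
  have cm : ∀ u v : U, u * v = v * u := fun u v => by
    rw [← inv_eq_of_mul_eq_one_right (uu (u * v)), mul_inv_rev, inv_eq_of_mul_eq_one_right (uu u),
      inv_eq_of_mul_eq_one_right (uu v)]
  suffices ∀ W : Subgroup U, ∀ φ : U ≃* U, (∀ x ∈ W, φ x = x) → ∃ g ∈ LU, ∀ u : U, g * (u : G) * g⁻¹ = φ u from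
    this ⊥ φ fun x hx => by rw [mem_bot.1 hx, map_one]
  intro W
  induction W using subgroup_gt_induction with
  | h W ih =>
  intro φ hφ
  by_cases hW : W = ⊤
  · exact ⟨1, one_mem _, fun u => by rw [hφ u (hW ▸ mem_top u)]; simp⟩
  obtain ⟨x, -, hx⟩ := SetLike.exists_of_lt (lt_top_iff_ne_top.2 hW)
  have lt : ∀ ψ : U ≃* U, (∀ x ∈ W, ψ x = x) → ψ x = x → ∃ g ∈ LU, ∀ u : U, g * (u : G) * g⁻¹ = ψ u := fun ψ a b =>
    ih (ψ.toMonoidHom.eqLocus (MonoidHom.id U)) (lt_of_le_of_ne a fun e => hx (e ▸ b)) ψ fun _ c => c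
  by_cases e : φ x = x
  · exact lt φ hφ e
  have u1 : ((φ x * x : U) : G) ≠ 1 := fun a => e (by
    rw [eq_inv_of_mul_eq_one_left (Subtype.ext a : φ x * x = 1), inv_eq_of_mul_eq_one_right (uu x)])
  have h' := h.xs' (hS _ (φ x * x).2 u1)
  obtain ⟨q, hq, c, d⟩ := h'.exists_nc' (W := (W ⊔ zpowers (φ x * x)).map U.subtype)
    ((map_subtype_le _).trans (hU _ (φ x * x).2 u1)) ⟨_, mem_sup_right (mem_zpowers _), rfl⟩ (hU _ (φ x * x).2 u1 x.2) (by
      rintro ⟨y, hy, a⟩
      obtain rfl : y = x := Subtype.ext a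
      obtain ⟨a, ha, b, hb, f⟩ := (H1.mem_sup_of_le_normalizer_right
        (le_normalizer_of_le_centralizer fun a _ b _ => cm b a)).1 hy
      rcases (mem_zpowers_two (by rw [← orderOf_coe]; exact h'.z2)).1 hb with rfl | rfl
      · exact hx (by rw [← f, mul_one]; exact ha)
      · have : φ y = a := by
          rw [← mul_assoc, mul_eq_right] at f
          rw [eq_inv_of_mul_eq_one_right f, inv_eq_of_mul_eq_one_right (uu a)]
        exact hx (φ.injective (this.trans (hφ a ha).symm) ▸ ha))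
  have hqL := hle _ (φ x * x).2 u1 hq
  let τ : U ≃* U := U.normalizerMonoidHom ⟨q, hN hqL⟩
  have hτ : ∀ u : U, (τ u : G) = q * u * q⁻¹ := fun u => rfl
  obtain ⟨g, hg, k⟩ := lt (φ.trans τ.symm) (fun y hy => by
    rw [MulEquiv.trans_apply, hφ y hy, MulEquiv.symm_apply_eq]
    exact Subtype.ext (conj_eq_iff.2 (c y ⟨y, mem_sup_left hy, rfl⟩).symm).symm) (by
    rw [MulEquiv.trans_apply, MulEquiv.symm_apply_eq]
    refine Subtype.ext ?_
    rw [hτ, d, ← coe_mul, cm (φ x), ← mul_assoc, uu, one_mul])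
  refine ⟨q * g, mul_mem hqL hg, fun u => ?_⟩
  rw [← τ.apply_symm_apply (φ u), hτ, ← MulEquiv.trans_apply, ← k]; group

end Cfsg.Agent.S5596
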