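import Cfsg.Statements.S5597
import Cfsg.Agent.H13.LX2

set_option autoImplicit false
open Cfsg

namespace Cfsg.Agent.S5597

open H13

open Subgroup H5

/-- Setting: `z` is an involution of the finite group `G`; for each element `x`, `Q x` is the largest normal 2-subgroup of the centralizer of `x`; `Q z` is extraspecial and contains its own centralizer in `G`. A subgroup `U` is singular when it is elementary abelian, every non-identity element of `U` is conjugate to `z`, and any two non-identity elements `u`, `v` of `U` are orthogonal (`v ∈ Q u`). Write `QU` for the intersection of the `Q u` and `LU` for the join of the `Q u` over the non-identity `u` in `U`. If `U` is a non-trivial singular subgroup, then `LU` acts trivially on `QU / U` (every commutator of an element of `LU` with an element of `QU` lies in `U`), and for every `x` in `QU` outside `U` the centralizer of `U` in `LU` permutes the coset `x U` transitively: each `x u` with `u ∈ U` is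 a conjugate of `x` by an element of `LU` centralizing `U`. -/
theorem result {G : Type*} [Group G] [Finite G]
    (Q : G → Subgroup G)
    (hQ : ∀ x : G, Q x = (Cfsg.pCore 2 ↥(Subgroup.centralizer ({x} : Set G))).map (Subgroup.centralizer ({x} : Set G)).subtype)
    (z : G) (hz : orderOf z = 2) (hE : Cfsg.IsExtraspecial 2 ↥(Q z))
    (hC : Subgroup.centralizer ((Q z : Subgroup G) : Set G) ≤ Q z)
    (U : Subgroup G) (hU2 : ∀ u ∈ U, u * u = 1)
    (hS : ∀ u ∈ U, u ≠ 1 → ∃ g : G, g * z * g⁻¹ = u)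
    (hO : ∀ u ∈ U, ∀ v ∈ U, u ≠ 1 → v ≠ 1 → v ∈ Q u)
    (QU LU : Subgroup G) (hQU : QU = ⨅ u ∈ ((U : Set G) \ {1}), Q u) (hLU : LU = ⨆ u ∈ ((U : Set G) \ {1}), Q u)
    (hU : U ≠ ⊥) :
    (∀ g ∈ LU, ∀ x ∈ QU, g * x * g⁻¹ * x⁻¹ ∈ U) ∧
      ∀ x ∈ QU, x ∉ U → ∀ u ∈ U, ∃ g ∈ LU ⊓ Subgroup.centralizer (U : Set G), g * x * g⁻¹ = x * u := by
  obtain ⟨w, h⟩ := sg_of hQ hz hE hC
  have hU : ∀ u ∈ U, u ≠ 1 → U ≤ Q u := fun u hu h1 v hv => by
    by_cases e : v = 1
    exacts [e ▸ one_mem _, hO u hu v hv h1 e]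
  have hle : ∀ u ∈ U, u ≠ 1 → QU ≤ Q u := fun u hu h1 => hQU ▸ iInf₂_le u ⟨hu, h1⟩
  have key : ∀ u ∈ U, u ≠ 1 → ∀ q ∈ Q u, ∀ x ∈ Q u, q * x * q⁻¹ * x⁻¹ ∈ U := fun u hu h1 q hq x hx => by
    have h' := h.xs' (hS u hu h1)
    rcases h'.conj hq hx with b | b <;> rw [b] <;> simp [h'.comm hx, hu]
  constructor
  · have : LU ≤ centMod QU U := hLU ▸ iSup₂_le fun u hu => le_centMod.2 ⟨le_normalizer_iff_cj.2 fun q hq => by
      rintro _ ⟨x, hx, rfl⟩
      simpa using mul_mem (key u hu.1 hu.2 q hq x (hU u hu.1 hu.2 hx)) hx,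
      commutator_le.2 fun q hq x hx => key u hu.1 hu.2 q hq x (hle u hu.1 hu.2 hx)⟩
    exact fun g hg x hx => (le_centMod.1 this).2 (commutator_mem_commutator hg hx)
  intro x hx hxU u hu
  by_cases h1 : u = 1
  · exact ⟨1, one_mem _, by simp [h1]⟩
  obtain ⟨q, a, b, c⟩ := (h.xs' (hS u hu h1)).exists_nc' (hU u hu h1) hu (hle u hu h1 hx) hxU
  exact ⟨q, ⟨(hLU ▸ le_iSup₂_of_le u ⟨hu, h1⟩ le_rfl : Q u ≤ LU) a, b⟩, c⟩

end Cfsg.Agent.S5597
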