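import Cfsg.Statements.S5598
import Cfsg.Agent.H13.LX2

set_option autoImplicit false
open Cfsg

namespace Cfsg.Agent.S5598

open H13

open Subgroup H5

/-- Setting: `z` is an involution of the finite group `G`; for each element `x`, `Q x` is the largest normal 2-subgroup of the centralizer of `x`; `Q z` is extraspecial and contains its own centralizer in `G`. A subgroup `U` is singular when it is elementary abelian, every non-identity element of `U` is conjugate to `z`, and any two non-identity elements `u`, `v` of `U` are orthogonal (`v ∈ Q u`). Write `QU` for the intersection of the `Q u` and `LU` for the join of the `Q u` over the non-identity `u` in `U`. If the singular subgroup `U` is generated by a set `T` of non-identity elements, then `QU` is already the intersection of the `Q t` over `t ∈ T`. -/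
theorem result {G : Type*} [Group G] [Finite G]
    (Q : G → Subgroup G)
    (hQ : ∀ x : G, Q x = (Cfsg.pCore 2 ↥(Subgroup.centralizer ({x} : Set G))).map (Subgroup.centralizer ({x} : Set G)).subtype)
    (z : G) (hz : orderOf z = 2) (hE : Cfsg.IsExtraspecial 2 ↥(Q z))
    (hC : Subgroup.centralizer ((Q z : Subgroup G) : Set G) ≤ Q z)
    (U : Subgroup G) (hU2 : ∀ u ∈ U, u * u = 1)
    (hS : ∀ u ∈ U, u ≠ 1 → ∃ g : G, g * z * g⁻¹ = u)
    (hO : ∀ u ∈ U, ∀ v ∈ U, u ≠ 1 → v ≠ 1 → v ∈ Q u)
    (QU LU : Subgroup G) (hQU : QU = ⨅ u ∈ ((U : Set G) \ {1}), Q u) (hLU : LU = ⨆ u ∈ ((U : Set G) \ {1}), Q u)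
    (T : Set G) (hT : Subgroup.closure T = U) (hT1 : (1 : G) ∉ T) :
    QU = ⨅ t ∈ T, Q t := by
  obtain ⟨w, h⟩ := sg_of hQ hz hE hC
  subst hT hQU
  refine le_antisymm (le_iInf₂ fun t ht => iInf₂_le t ⟨subset_closure ht, fun e => hT1 (e ▸ ht)⟩) fun x hx => ?_
  simp only [mem_iInf] at hx ⊢
  suffices ∀ u ∈ closure T, u ≠ 1 → x ∈ Q u from fun u hu => this u hu.1 hu.2
  intro u hu
  induction hu using closure_induction with
  | mem t ht => exact fun _ => hx t ht
  | one => exact fun a => absurd rfl a
  | inv u hu ih => rw [inv_eq_of_mul_eq_one_right (hU2 u hu)]; exact ih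
  | mul v u hv hu ihv ihu =>
    intro h1
    by_cases u1 : u = 1
    · rw [u1, mul_one] at h1 ⊢; exact ihv h1
    by_cases v1 : v = 1
    · rw [v1, one_mul]; exact ihu u1
    have h' := h.xs' (hS u hu u1)
    obtain ⟨q, hq, a⟩ := h'.exists_nc (hO u hu v hv u1 v1) v1 fun e => h1 (by rw [e, hU2 u hu])
    have b := conj_mem_cj (g := q) (ihv v1)
    rw [← h.cj, a] at b
    rcases h'.conj hq (ihu u1) with c | c <;> rw [c] at b
    exacts [b, ((Q _).mul_mem_cancel_right (hO _ (mul_mem hv hu) u hu h1 u1)).1 b]

end Cfsg.Agent.S5598
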