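import Cfsg.Statements.S5729
import Mathlib

set_option autoImplicit false
open Cfsg

namespace Cfsg.Agent.S5729

/-- Let a finite group G act faithfully and transitively on a set with n ≥ 3 points. Then either G is a Frobenius permutation group (Frobenius as a permutation group: transitive, some non-identity element fixes a point, and no non-identity element fixes two points) of order n(n − 1) and exactly |G|/n of its elements are derangements (fix no point), or the number of derangements is greater than |G|/n. -/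
theorem result {G Ω : Type*} [Group G] [Finite G] [MulAction G Ω] [FaithfulSMul G Ω] [Fintype Ω] (htr : MulAction.IsPretransitive G Ω) (hn : 3 ≤ Fintype.card Ω) :
    ((MulAction.IsPretransitive G Ω ∧ (∃ g : G, g ≠ 1 ∧ ∃ ω : Ω, g • ω = ω) ∧ ∀ g : G, g ≠ 1 → Nat.card (MulAction.fixedBy Ω g) ≤ 1) ∧ Nat.card G = Fintype.card Ω * (Fintype.card Ω - 1) ∧ Fintype.card Ω * Nat.card {g : G // ∀ ω : Ω, g • ω ≠ ω} = Nat.card G) ∨
    Nat.card G < Fintype.card Ω * Nat.card {g : G // ∀ ω : Ω, g • ω ≠ ω} := by
  classical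
  have := Fintype.ofFinite G
  set n := Fintype.card Ω with hn'
  let f : G → ℕ := fun g => Fintype.card (MulAction.fixedBy Ω g)
  have hnt : Nontrivial Ω := Fintype.one_lt_card_iff_nontrivial.1 (by omega)
  have h1 : ∑ g, f g = Fintype.card G := by
    have h := MulAction.sum_card_fixedBy_eq_card_orbits_mul_card_group G Ω
    have hu : Fintype.card (Quotient (MulAction.orbitRel G Ω)) = 1 := by
      rw [Fintype.card_eq_one_iff_nonempty_unique]
      exact ⟨(MulAction.pretransitive_iff_unique_quotient_of_nonempty G Ω).1 htr |>.some⟩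
    rw [hu, one_mul] at h
    exact h
  have h2 : 2 * Fintype.card G ≤ ∑ g, f g ^ 2 := by
    have h := MulAction.sum_card_fixedBy_eq_card_orbits_mul_card_group G (Ω × Ω)
    have hu : 2 ≤ Fintype.card (Quotient (MulAction.orbitRel G (Ω × Ω))) := by
      obtain ⟨a, b, hab⟩ := exists_pair_ne Ω
      refine Fintype.one_lt_card_iff.2 ⟨⟦(a, a)⟧, ⟦(a, b)⟧, fun h => ?_⟩
      obtain ⟨g, hg⟩ := Quotient.exact h
      have h1 := congrArg Prod.fst hg
      have h2 := congrArg Prod.snd hg
      exact hab (smul_left_cancel g (h1.trans h2.symm))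
    calc 2 * Fintype.card G ≤ _ := Nat.mul_le_mul_right _ hu
      _ = _ := h.symm
      _ = _ := by
        refine Finset.sum_congr rfl fun g _ => ?_
        rw [sq, ← Fintype.card_prod]
        refine Fintype.card_congr ((Equiv.setCongr ?_).trans (Equiv.Set.prod _ _))
        ext ⟨a, b⟩
        simp [Prod.ext_iff]
  have hfle : ∀ g, f g ≤ n := fun g => Fintype.card_subtype_le _
  have hf1 : f 1 = n := by simp [f, n]
  have hfn : ∀ g, f g = n → g = 1 := by
    intro g hg
    apply eq_of_smul_eq_smul (α := Ω)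
    intro ω
    have : MulAction.fixedBy Ω g = Set.univ := by
      rw [Set.eq_univ_iff_ncard, ← Nat.card_coe_set_eq, Nat.card_eq_fintype_card,
        Nat.card_eq_fintype_card]
      exact hg
    rw [one_smul]
    exact (this ▸ Set.mem_univ ω : ω ∈ MulAction.fixedBy Ω g)
  have hf0 : ∀ g, f g = 0 ↔ ∀ ω : Ω, g • ω ≠ ω := by
    intro g
    simp [f, Fintype.card_eq_zero_iff, isEmpty_subtype]
  have hD : Nat.card {g : G // ∀ ω : Ω, g • ω ≠ ω} = ∑ g, if f g = 0 then 1 else 0 := by
    rw [Nat.card_eq_fintype_card, Fintype.card_subtype, Finset.card_filter]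
    simp only [hf0]
  -- the key inequality, termwise
  let t : G → ℤ := fun g => n * (if f g = 0 then 1 else 0) - ((f g) ^ 2 - (n + 1) * f g + n)
  have ht : ∀ g, t g = if f g = 0 then 0 else ((f g : ℤ) - 1) * (n - f g) := by
    intro g
    by_cases h : f g = 0
    · simp [t, h]
    · simp only [t, h, if_false]; ring
  have ht0 : ∀ g, 0 ≤ t g := by
    intro g
    rw [ht]
    split_ifs with h
    · rfl
    · have := hfle g
      exact mul_nonneg (by omega) (by omega)
  have hsum : ∑ g, t g = n * (Nat.card {g : G // ∀ ω : Ω, g • ω ≠ ω} : ℤ) -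
      ((∑ g, f g ^ 2 : ℕ) - Fintype.card G) := by
    simp only [t, Finset.sum_sub_distrib, Finset.sum_add_distrib, ← Finset.mul_sum, hD]
    have : ∑ g, (f g : ℤ) = Fintype.card G := by exact_mod_cast h1
    rw [this]
    push_cast
    simp only [Finset.sum_const, Finset.card_univ, nsmul_eq_mul]
    ring
  rw [or_iff_not_imp_right]
  intro hlt
  rw [Nat.card_eq_fintype_card (α := G)] at hlt ⊢
  have hs0 := Finset.sum_nonneg fun g (_ : g ∈ Finset.univ) => ht0 g
  have hs : ∑ g, t g = 0 := by
    apply le_antisymm _ hs0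
    rw [hsum]
    zify at hlt h2 ⊢
    push_cast at h2 ⊢
    linarith
  have hall : ∀ g, g ≠ 1 → f g ≤ 1 := by
    intro g hg
    have h := (Finset.sum_eq_zero_iff_of_nonneg fun g _ => ht0 g).1 hs g (Finset.mem_univ g)
    rw [ht] at h
    split_ifs at h with h0
    · omega
    · have h3 : f g ≠ n := fun h => hg (hfn g h)
      rcases mul_eq_zero.1 h with h | h <;> omega
  have h3 : (∑ g, f g ^ 2 : ℕ) = Fintype.card G + n * (n - 1) := by
    rw [← h1, ← Finset.add_sum_erase _ _ (Finset.mem_univ 1),
      ← Finset.add_sum_erase _ _ (Finset.mem_univ 1), hf1,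
      Finset.sum_congr rfl (g := f) fun g hg => by
        have := hall g (Finset.ne_of_mem_erase hg)
        interval_cases f g <;> rfl]
    obtain ⟨k, hk⟩ : ∃ k, n = k + 1 := ⟨n - 1, by omega⟩
    rw [hk]; simp; ring
  rw [hs, h3] at hsum
  rw [h3] at h2
  have h4 : n * Nat.card {g : G // ∀ ω : Ω, g • ω ≠ ω} = n * (n - 1) := by
    zify at hsum ⊢
    linarith
  have h5 : Fintype.card G = n * (n - 1) := by omega
  refine ⟨⟨htr, ?_, fun g hg => by rw [Nat.card_eq_fintype_card]; exact hall g hg⟩, h5, by omega⟩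
  by_contra hcon
  push Not at hcon
  rw [← Finset.add_sum_erase _ _ (Finset.mem_univ 1), hf1, Finset.sum_eq_zero fun g hg =>
    (hf0 g).2 (hcon g (Finset.ne_of_mem_erase hg)), h5] at h1
  obtain ⟨k, hk⟩ : ∃ k, n = k + 3 := ⟨n - 3, by omega⟩
  rw [hk] at h1
  simp at h1

end Cfsg.Agent.S5729
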