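import Cfsg.Statements.S5730
import Cfsg.Agent.Lead.Der3

set_option autoImplicit false
open Cfsg

namespace Cfsg.Agent.S5730

/-- Let a finite group G act faithfully and transitively on a set with n ≥ 7 points. Then either G is a Frobenius permutation group (Frobenius as a permutation group: transitive, some non-identity element fixes a point, and no non-identity element fixes two points) of order n(n − 1)/a with a ∈ {1, 2}, in which case exactly a|G|/n of its elements are derangements, or the number of derangements is at least 2|G|/n. (Equality does occur: PSL₃(2) acting on the 7 points of the Fano plane has exactly 2|G|/7 derangements.) -/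
theorem result {G Ω : Type*} [Group G] [Finite G] [MulAction G Ω] [FaithfulSMul G Ω] [Fintype Ω] (htr : MulAction.IsPretransitive G Ω) (hn : 7 ≤ Fintype.card Ω) :
    (∃ a : ℕ, (a = 1 ∨ a = 2) ∧ (MulAction.IsPretransitive G Ω ∧ (∃ g : G, g ≠ 1 ∧ ∃ ω : Ω, g • ω = ω) ∧ ∀ g : G, g ≠ 1 → Nat.card (MulAction.fixedBy Ω g) ≤ 1) ∧ a * Nat.card G = Fintype.card Ω * (Fintype.card Ω - 1) ∧ Fintype.card Ω * Nat.card {g : G // ∀ ω : Ω, g • ω ≠ ω} = a * Nat.card G) ∨
    2 * Nat.card G ≤ Fintype.card Ω * Nat.card {g : G // ∀ ω : Ω, g • ω ≠ ω} := by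
  classical
  haveI := Fintype.ofFinite G
  have eD : Nat.card {g : G // ∀ ω : Ω, g • ω ≠ ω} = Lead.Der.DD G Ω := by
    rw [Nat.card_eq_fintype_card, Fintype.card_subtype, Lead.Der.DD]
    congr 1
    ext g
    simp [Lead.Der.fx, Finset.filter_eq_empty_iff]
  rw [eD, Nat.card_eq_fintype_card (α := G)]
  obtain ⟨a, b, c, hab, hac, hbc⟩ := Fintype.two_lt_card_iff.1 (show 2 < Fintype.card Ω by omega)
  by_cases h : Lead.Der.T2 G Ω
  swap
  · exact Or.inr (Lead.Der.not_T2 a h)
  have eG := h.cardG hab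
  have eD := h.cardD hab
  have o1 : (1 : G) ∈ Lead.Der.El (Lead.Der.HH G a b) := Lead.Der.mem_El.2 (one_mem _)
  have n7 : (7 : ℚ) ≤ Fintype.card Ω := by exact_mod_cast hn
  have n1 : ((Fintype.card Ω - 1 : ℕ) : ℚ) = Fintype.card Ω - 1 := by
    rw [Nat.cast_sub (by omega)]; simp
  by_cases h2 : 2 ≤ (Lead.Der.El (Lead.Der.HH G a b)).card
  · right
    have := h.main hn hab h2
    have k : (2 * Fintype.card G : ℚ) ≤ Fintype.card Ω * Lead.Der.DD G Ω := by
      rw [eG, eD]
      push_cast [n1]
      have p : (0 : ℚ) ≤ Fintype.card Ω * (Fintype.card Ω - 1) :=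
        mul_nonneg (by linarith) (by linarith)
      nlinarith [mul_le_mul_of_nonneg_left this p]
    exact_mod_cast k
  · have e : Lead.Der.El (Lead.Der.HH G a b) = {1} :=
      Finset.eq_singleton_iff_unique_mem.2 ⟨o1, fun g hg =>
        Finset.card_le_one.1 (by omega) _ hg _ o1⟩
    rw [e, Finset.card_singleton, mul_one] at eG
    rw [e, Finset.sum_singleton, Lead.Der.fx_one, mul_right_comm,
      mul_one_div_cancel (by linarith), one_mul, ← n1] at eD
    refine Or.inl ⟨1, Or.inl rfl, ⟨htr, ?_, fun g g1 => ?_⟩, by rw [one_mul, eG], ?_⟩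
    · obtain ⟨g, h1, h2⟩ := h a b a c hab hac
      exact ⟨g, fun e => hbc (by rw [← h2, e, one_smul]), a, h1⟩
    · refine Finite.card_le_one_iff_subsingleton.2 ⟨fun x y => Subtype.ext ?_⟩
      by_contra n
      have := h.card hab n
      rw [e, Finset.card_singleton] at this
      exact g1 (Finset.card_le_one.1 this.le _ (Lead.Der.mem_El.2 ⟨x.2, y.2⟩) _
        (Lead.Der.mem_El.2 (one_mem _)))
    · rw [one_mul, eG, Nat.cast_injective eD]

end Cfsg.Agent.S5730
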