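import Mathlib
import Cfsg.Statements.S5736
import Cfsg.Agent.H8.Bin4

set_option autoImplicit false
open Cfsg

namespace Cfsg.Agent.S5736

theorem two_iff {F : Type*} [Field F] [Fintype F] : (2 : F) = 0 ↔ ∃ a : ℕ, Fintype.card F = 2 ^ a := by
  refine ⟨fun h => ?_, fun ⟨a, h⟩ => ?_⟩
  · have := CharTwo.of_one_ne_zero_of_two_eq_zero one_ne_zero h
    obtain ⟨n, -, h⟩ := FiniteField.card F 2
    exact ⟨n, h⟩
  · have := H26.charTwo_of_card h
    exact CharTwo.two_eq_zero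

theorem odd_iff {F : Type*} [Field F] [Fintype F] {a : ℕ} (h : Fintype.card F = 2 ^ a) :
    (∀ ω : F, ω * ω + ω + 1 ≠ 0) ↔ Odd a := by
  have t0 := two_iff.2 ⟨a, h⟩
  have := Fact.mk Nat.prime_three
  have h1 : Nat.card Fˣ + 1 = 2 ^ a := by rw [← Nat.card_eq_card_units_add_one, Nat.card_eq_fintype_card, h]
  have h2 : ∀ k, 2 ^ (2 * k) % 3 = 1 := fun k => by rw [pow_mul, Nat.pow_mod]; simp
  constructor
  · intro hω
    rw [← Nat.not_even_iff_odd]
    rintro ⟨k, rfl⟩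
    obtain ⟨x, hx⟩ := exists_prime_orderOf_dvd_card' (G := Fˣ) 3 (by have := h2 k; rw [two_mul] at this; omega)
    have h3 : (x : F) ^ 3 = 1 := by rw [← Units.val_pow_eq_pow_val, ← hx, pow_orderOf_eq_one, Units.val_one]
    have h4 : (x : F) - 1 ≠ 0 := fun e => by
      rw [show x = 1 from Units.ext (sub_eq_zero.1 e), orderOf_one] at hx
      omega
    exact hω x (mul_left_cancel₀ h4 (by linear_combination h3))
  · rintro ⟨k, rfl⟩ ω hω
    have h0 : ω ≠ 0 := by rintro rfl; simp at hω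
    have h3 : orderOf (Units.mk0 ω h0) = 3 := orderOf_eq_prime (Units.ext (by
      simp; linear_combination (ω - 1) * hω)) fun e => by
        have : ω = 1 := congrArg Units.val e
        exact one_ne_zero (α := F) (by rw [this] at hω; linear_combination hω - t0)
    have h4 := h3 ▸ orderOf_dvd_natCard (Units.mk0 ω h0)
    have := h2 k
    rw [pow_succ] at h1
    omega

theorem result {F : Type*} [Field F] [Fintype F] (h4 : 4 ≤ Fintype.card F) (h5 : Fintype.card F ≠ 5)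
    (H : Subgroup (Matrix.ProjectiveSpecialLinearGroup (Fin 2) F)) (hH : H ≠ ⊤) :
    (∀ (n : ℕ) (I J : Fin n → Matrix.ProjectiveSpecialLinearGroup (Fin 2) F ⧸ H), 2 ≤ n →
        (∀ i j : Fin n, i ≠ j → ∃ g : Matrix.ProjectiveSpecialLinearGroup (Fin 2) F, g • I i = J i ∧ g • I j = J j) → ∃ g : Matrix.ProjectiveSpecialLinearGroup (Fin 2) F, ∀ i, g • I i = J i) ↔
      (H = ⊥ ∨ ((∃ a : ℕ, Fintype.card F = 2 ^ a) ∧ ∃ P : Sylow 2 (Matrix.ProjectiveSpecialLinearGroup (Fin 2) F), H = P) ∨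
        ((∃ a : ℕ, Odd a ∧ Fintype.card F = 2 ^ a) ∧ Nat.card H = 3)) := by
  have := Matrix.ProjectiveSpecialLinearGroup.rank_two_simple (F := F) (by rwa [Nat.card_eq_fintype_card])
  refine (H8.Bin.sl_main (QuotientGroup.mk'_surjective _) H8.Bin.mk_eq_one h4 h5 H hH).trans
    (or_congr_right (or_congr (and_congr_left' two_iff) ?_))
  constructor
  · rintro ⟨t0, h1, h2⟩
    obtain ⟨a, ha⟩ := two_iff.1 t0
    exact ⟨⟨a, (odd_iff ha).1 h1, ha⟩, h2⟩
  · rintro ⟨⟨a, h1, ha⟩, h2⟩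
    exact ⟨two_iff.2 ⟨a, ha⟩, (odd_iff ha).2 h1, h2⟩

end Cfsg.Agent.S5736
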