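import Cfsg.Statements.S5738
import Mathlib
import Cfsg.Agent.H25.Singer

set_option autoImplicit false
open Cfsg

namespace Cfsg.Agent.S5738

/-- Let F ⊆ K be finite fields with |F| = q and [K : F] = n ≥ 2, so |K| = q^n. Regard K as an n-dimensional F-vector space; the multiplications by non-zero elements of K form a cyclic subgroup of GL_F(K) of order q^n − 1 acting regularly on the non-zero vectors (a Singer group). Its normaliser in GL_F(K) has order n·(q^n − 1). -/
theorem result {F K : Type*} [Field F] [Fintype F] [Field K] [Fintype K] [Algebra F K] (n : ℕ) (hn : 2 ≤ n) (hdim : Module.finrank F K = n) :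
    Nat.card (Subgroup.normalizer (((Units.map ((Algebra.lmul F K : K →ₐ[F] Module.End F K) : K →* Module.End F K)).range : Subgroup (Module.End F K)ˣ) : Set (Module.End F K)ˣ)) = n * (Fintype.card K - 1) := by
  classical
  have : Module.Finite F K := Module.finite_of_finrank_pos (by omega)
  let φ : (K ≃ₐ[F] K) × Kˣ → Subgroup.normalizer (H25.singer F K : Set (Module.End F K)ˣ) :=
    fun x => ⟨H25.sing x.2.1 x.2.ne_zero *
      (LinearMap.GeneralLinearGroup.ofLinearEquiv x.1.toLinearEquiv),
      H25.mem_normalizer_singer.2 ⟨x.2.1, x.1, fun y => rfl⟩⟩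
  have hφ : ∀ x y, (φ x).1.1 y = x.2.1 * x.1 y := fun x y => rfl
  have hb : Function.Bijective φ := by
    constructor
    · rintro ⟨σ, c⟩ ⟨τ, d⟩ h
      have h1 : ∀ y, c.1 * σ y = d.1 * τ y := fun y =>
        (hφ (σ, c) y).symm.trans (by rw [h]; exact hφ (τ, d) y)
      have h2 : c = d := Units.ext (by simpa using h1 1)
      subst h2
      have h3 : σ = τ := AlgEquiv.ext fun y => mul_left_cancel₀ c.ne_zero (h1 y)
      rw [h3]
    · rintro ⟨g, hg⟩
      obtain ⟨c, σ, h⟩ := H25.mem_normalizer_singer.1 hg
      have hc : c ≠ 0 := by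
        have := H25.unit_apply_ne_zero g (one_ne_zero (α := K))
        rwa [h, map_one, mul_one] at this
      exact ⟨(σ, Units.mk0 c hc), Subtype.ext (Units.ext (LinearMap.ext fun y => (h y).symm))⟩
  rw [← Nat.card_congr (Equiv.ofBijective φ hb), Nat.card_prod, IsGalois.card_aut_eq_finrank,
    hdim, Nat.card_units, Nat.card_eq_fintype_card]

end Cfsg.Agent.S5738
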