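import Cfsg.Statements.S5739
import Mathlib
import Cfsg.Agent.H25.Singer

set_option autoImplicit false
open Cfsg

namespace Cfsg.Agent.S5739

/-- Let F ⊆ K be finite fields with |F| = q and [K : F] = n ≥ 2, and let M ≤ GL_F(K) be the Singer group of multiplications by non-zero elements of K. If g ∈ GL_F(K) does not normalise M, then the order of M ∩ gMg⁻¹ divides q^r − 1 for some proper divisor r of n. In particular, when n is prime, that order divides q − 1. -/
theorem result {F K : Type*} [Field F] [Fintype F] [Field K] [Fintype K] [Algebra F K] (n : ℕ) (hn : 2 ≤ n) (hdim : Module.finrank F K = n)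
    (g : (Module.End F K)ˣ) (hg : ((Units.map ((Algebra.lmul F K : K →ₐ[F] Module.End F K) : K →* Module.End F K)).range).map (MulAut.conj g).toMonoidHom ≠ (Units.map ((Algebra.lmul F K : K →ₐ[F] Module.End F K) : K →* Module.End F K)).range) :
    ∃ r : ℕ, 1 ≤ r ∧ r ∣ n ∧ r < n ∧ Nat.card ↥(((Units.map ((Algebra.lmul F K : K →ₐ[F] Module.End F K) : K →* Module.End F K)).range).map (MulAut.conj g).toMonoidHom ⊓ (Units.map ((Algebra.lmul F K : K →ₐ[F] Module.End F K) : K →* Module.End F K)).range) ∣ Fintype.card F ^ r - 1 := by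
  classical
  have : Module.Finite F K := Module.finite_of_finrank_pos (by omega)
  let S : Subalgebra F K :=
    { carrier := {a | ∃ b : K, ∀ x, a * g.1 x = g.1 (b * x)}
      mul_mem' := by
        rintro a a' ⟨b, hb⟩ ⟨b', hb'⟩
        exact ⟨b * b', fun x => by rw [mul_assoc, hb', hb, mul_assoc]⟩
      add_mem' := by
        rintro a a' ⟨b, hb⟩ ⟨b', hb'⟩
        exact ⟨b + b', fun x => by rw [add_mul, hb', hb, add_mul, map_add]⟩
      algebraMap_mem' := fun r => ⟨algebraMap F K r, fun x => by
        rw [← Algebra.smul_def, ← Algebra.smul_def, map_smul]⟩ }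
  let E : IntermediateField F K := subalgebraEquivIntermediateField S
  have hE : ∀ a : K, a ∈ E ↔ ∃ b : K, ∀ x, a * g.1 x = g.1 (b * x) := fun a => Iff.rfl
  have hmem : ∀ (u : (Module.End F K)ˣ) (a : K), (∀ x, u.1 x = a * x) →
      (u ∈ (H25.singer F K).map (MulAut.conj g).toMonoidHom ↔ a ∈ E) := by
    intro u a hu
    rw [Subgroup.mem_map_equiv, H25.mem_singer, hE]
    refine exists_congr fun b => forall_congr' fun x => ?_
    simp only [MulAut.conj_symm_apply, Units.val_mul, Module.End.mul_apply, hu]
    constructor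
    · intro h; rw [← h, H25.unit_apply_inv]
    · intro h; rw [h, H25.unit_inv_apply]
  have hmul := Module.finrank_mul_finrank F E K
  have hdvd : Module.finrank F E ∣ n := ⟨_, by rw [← hdim, hmul]⟩
  refine ⟨Module.finrank F E, Module.finrank_pos, hdvd, ?_, ?_⟩
  · refine lt_of_le_of_ne (Nat.le_of_dvd (by omega) hdvd) fun h => hg ?_
    have hEt : E = ⊤ := by
      apply IntermediateField.eq_of_le_of_finrank_eq le_top
      rw [h, ← hdim, IntermediateField.finrank_top']
    symm
    have : Finite (Module.End F K) := Module.finite_of_finite F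
    apply Subgroup.eq_of_le_of_card_ge
    · intro u hu
      obtain ⟨a, ha⟩ := H25.mem_singer.1 hu
      exact (hmem u a ha).2 (hEt ▸ trivial)
    · exact (Subgroup.card_map_of_injective (MulAut.conj g).injective).le
  · let ψ : Eˣ →* (Module.End F K)ˣ :=
      (Units.map ((Algebra.lmul F K : K →ₐ[F] Module.End F K) : K →* Module.End F K)).comp
        (Units.map (E.val : E →* K))
    have hle : (H25.singer F K).map (MulAut.conj g).toMonoidHom ⊓ H25.singer F K ≤ ψ.range := by
      rintro u ⟨h1, a, rfl⟩
      have ha : a.1 ∈ E := (hmem _ a.1 fun x => rfl).1 h1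
      exact ⟨Units.mk0 ⟨a.1, ha⟩ fun h => a.ne_zero (congrArg Subtype.val h),
        Units.ext rfl⟩
    refine (Subgroup.card_dvd_of_le hle).trans ((Subgroup.card_range_dvd ψ).trans ?_)
    rw [Nat.card_units, Module.natCard_eq_pow_finrank (K := F), Nat.card_eq_fintype_card]

end Cfsg.Agent.S5739
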