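import Cfsg.Statements.S5746
import Cfsg.Agent.H9.Hj2
import Cfsg.Agent.H9.Hj3

set_option autoImplicit false
open Cfsg

namespace Cfsg.Agent.S5746

/-- The Chevalley group G₂(4) (over the field with 4 elements) has a maximal subgroup H isomorphic to the Hall–Janko group J₂ such that for every x outside H the intersection H ∩ xHx⁻¹ is a maximal subgroup of H; that is, the action of G₂(4) on the cosets of H is extremely primitive. -/
theorem result {F : Type*} [Field F] [Fintype F] (hF : Fintype.card F = 4) :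
    ∃ H : Subgroup (Cfsg.Lie.chevG2.group F), IsCoatom H ∧ Cfsg.Spor.IsoJ2 H ∧
      ∀ x : Cfsg.Lie.chevG2.group F, x ∉ H → IsCoatom ((H ⊓ H.map (MulAut.conj x).toMonoidHom).subgroupOf H) := by
    obtain ⟨q, St, d⟩ := H29.j2_ex
    obtain ⟨q2⟩ := H29.g24_ex hF
    have hN : Nat.card (Cfsg.Lie.chevG2.group F) = 251596800 :=
      (Cfsg.Agent.S1059.result hF).trans (show _ = 251596800 by norm_num)
    haveI := Nat.finite_of_card_ne_zero (hN.trans_ne (by norm_num))
    have hv : ∀ c ∈ H29.j21_g, q.M.In ⊤ c := H29.in_of_slpW _ q.valid H29.j2_yhok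
    obtain ⟨y, -, hy⟩ := hv _ List.mem_cons_self
    obtain ⟨x, -, hx⟩ := hv _ (List.mem_cons_of_mem _ List.mem_cons_self)
    obtain ⟨-, e1, -⟩ := H29.j2_main q.M rfl rfl rfl hy hx d.key
    have h3 : q.M.cl H29.j21_g = ⊤ := eq_top_iff.2 (q.cl_top.ge.trans (e1.1.cl_le_of_sift H29.j2_sift))
    obtain ⟨⟨m1, i1⟩, m2, i2⟩ := H9Hj.max_two q.M rfl rfl rfl q.valid d.key d.card q.cl_top hv h3 d.valid d.cardC
    obtain ⟨φ, a, b, ⟨w, hw⟩, a1, a2, b1, b2⟩ := H9Hj.p_hom q.M q2.M rfl rfl rfl rfl rfl rfl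
      (q.lt (by decide +kernel)) hv q2.valid h3 d.card
    haveI := d.simple
    have hφ : Function.Injective φ := by
      rw [← MonoidHom.ker_eq_bot_iff]
      exact (inferInstance : φ.ker.Normal).eq_bot_or_eq_top.resolve_right fun h => hw (h.ge (Subgroup.mem_top w))
    obtain ⟨c1, c2⟩ := H9Hj.stab_of_hom hφ m1 a1 a2
    obtain ⟨c3, c4⟩ := H9Hj.stab_of_hom hφ m2 b1 b2
    have hi : φ.range.index = 1 + 100 + 315 := by
      have := φ.range.index_mul_card
      rw [← Nat.card_congr (MonoidHom.ofInjective hφ).toEquiv, d.card, hN] at this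
      omega
    obtain ⟨r1, r2⟩ := H9Hj.ext_prim φ.range a b hi c1 c3 (c2.trans i1) (c4.trans i2) (by norm_num) (by norm_num)
      (by norm_num)
    exact ⟨φ.range, r1, ⟨(MonoidHom.ofInjective hφ).symm⟩, r2⟩

end Cfsg.Agent.S5746
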