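import Cfsg.Statements.S5747
import Mathlib

set_option autoImplicit false
open Cfsg

namespace Cfsg.Agent.S5747

variable (G : Type*) {Ω : Type*} [Group G] [MulAction G Ω]

/-- irredundant sequences -/
def Irr {t : ℕ} (f : Fin t → Ω) : Prop :=
  ∀ i : Fin t, ∃ g : G, (∀ j : Fin t, j < i → g • f j = f j) ∧ g • f i ≠ f i

/-- bases -/
def Base (S : Set Ω) : Prop := ∀ g : G, (∀ x ∈ S, g • x = x) → g = 1

/-- independent sets -/
def Indep (S : Set Ω) : Prop := ∀ x ∈ S, ∃ g : G, (∀ y ∈ S, y ≠ x → g • y = y) ∧ g • x ≠ x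

variable {G}

theorem base_range {t : ℕ} (f : Fin t → Ω) :
    Base G (Set.range f) ↔ ∀ g : G, (∀ i, g • f i = f i) → g = 1 := by
  simp [Base]

theorem Irr.inj {t : ℕ} {f : Fin t → Ω} (h : Irr G f) : Function.Injective f := by
  intro i j hij
  by_contra hne
  rcases lt_or_gt_of_ne hne with h' | h'
  · obtain ⟨g, h1, h2⟩ := h j
    exact h2 (hij ▸ h1 i h')
  · obtain ⟨g, h1, h2⟩ := h i
    exact h2 (hij ▸ h1 j h')

theorem Indep.exists_irr [Finite Ω] {S : Set Ω} (h : Indep G S) :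
    ∃ (t : ℕ) (f : Fin t → Ω), Irr G f ∧ Set.range f = S := by
  obtain ⟨t, ⟨e⟩⟩ := Finite.exists_equiv_fin S
  refine ⟨t, fun i => e.symm i, fun i => ?_, ?_⟩
  · obtain ⟨g, h1, h2⟩ := h _ (e.symm i).2
    exact ⟨g, fun j hj => h1 _ (e.symm j).2 fun h => hj.ne (e.symm.injective (Subtype.ext h)), h2⟩
  · ext x
    exact ⟨by rintro ⟨i, rfl⟩; exact (e.symm i).2, fun hx => ⟨e ⟨x, hx⟩, by simp⟩⟩

theorem Irr.snoc {t : ℕ} {f : Fin t → Ω} (h : Irr G f) {x : Ω} {g : G}
    (h1 : ∀ y ∈ Set.range f, g • y = y) (h2 : g • x ≠ x) :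
    Irr G (Fin.snoc f x : Fin (t + 1) → Ω) := by
  intro i
  induction i using Fin.lastCases with
  | last =>
    refine ⟨g, fun j hj => ?_, by simpa using h2⟩
    obtain ⟨j, rfl⟩ := Fin.exists_castSucc_eq.2 hj.ne
    simpa using h1 _ ⟨j, rfl⟩
  | cast i =>
    obtain ⟨k, h3, h4⟩ := h i
    refine ⟨k, fun j hj => ?_, by simpa using h4⟩
    obtain ⟨j, rfl⟩ := Fin.exists_castSucc_eq.2 (hj.trans_le (Fin.le_last _)).ne
    simpa using h3 j (by simpa using hj)

theorem exchange [Finite Ω]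
    (H : ∀ (t : ℕ) (f : Fin t → Ω), Irr G f → Base G (Set.range f) → Indep G (Set.range f))
    {B' : Set Ω} (hB' : Base G B') (hI' : Indep G B') (k : ℕ) :
    ∀ B : Set Ω, Base G B → Indep G B → (B \ B').ncard = k → B.ncard = B'.ncard := by
  induction k with
  | zero =>
    intro B hB _ hk
    rw [Set.ncard_eq_zero, Set.diff_eq_empty] at hk
    congr 1
    refine hk.antisymm fun x hx => ?_
    by_contra hxB
    obtain ⟨g, h1, h2⟩ := hI' x hx
    exact h2 (by rw [hB g fun y hy => h1 y (hk hy) fun h => hxB (h ▸ hy), one_smul])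
  | succ k ih =>
    intro B hB hI hk
    obtain ⟨a, haB, haB'⟩ : (B \ B').Nonempty := Set.nonempty_of_ncard_ne_zero (by omega)
    obtain ⟨g, hg1, hg2⟩ := hI a haB
    obtain ⟨b, hb, hgb⟩ : ∃ b ∈ B', g • b ≠ b := by
      by_contra hcon
      push Not at hcon
      exact hg2 (by rw [hB' g hcon, one_smul])
    have hba : b ≠ a := fun h => haB' (h ▸ hb)
    have hbB : b ∉ B := fun h => hgb (hg1 b h hba)
    obtain ⟨t, f, hf, hr⟩ := Indep.exists_irr (G := G) (S := B \ {a}) fun x hx => by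
      obtain ⟨u, hu1, hu2⟩ := hI x hx.1
      exact ⟨u, fun y hy => hu1 y hy.1, hu2⟩
    have hf' := hf.snoc (g := g) (x := b) (fun y hy => by
      rw [hr] at hy; exact hg1 y hy.1 hy.2) hgb
    have hr' : Set.range (Fin.snoc f b : Fin (t + 1) → Ω) = insert b (B \ {a}) := by
      rw [Fin.range_snoc, hr]
    have hbase : Base G (insert b (B \ {a})) := by
      intro u hu
      by_contra hu1
      have hua : u • a ≠ a := fun h => hu1 (hB u fun x hx => by
        by_cases hxa : x = a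
        · rw [hxa, h]
        · exact hu x (Or.inr ⟨hx, hxa⟩))
      have hf'' := hf'.snoc (g := u) (x := a) (hr' ▸ hu) hua
      have hsub : B ⊆ Set.range (Fin.snoc (Fin.snoc f b : Fin (t + 1) → Ω) a :
          Fin (t + 2) → Ω) := by
        rw [Fin.range_snoc, hr']
        intro x hx
        by_cases hxa : x = a
        · exact Or.inl hxa
        · exact Or.inr (Or.inr ⟨hx, hxa⟩)
      obtain ⟨v, hv1, hv2⟩ := H _ _ hf'' (fun v hv => hB v fun x hx => hv x (hsub hx)) b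
        (by rw [Fin.range_snoc, hr']; simp)
      exact hv2 (by rw [hB v fun x hx => hv1 x (hsub hx) fun h => hbB (h ▸ hx), one_smul])
    rw [← ih _ hbase (hr' ▸ H _ _ hf' (hr' ▸ hbase)) ?_, Set.ncard_exchange hbB haB]
    rw [Set.insert_diff_of_mem _ hb, Set.diff_diff_comm,
      Set.ncard_diff_singleton_of_mem (show a ∈ B \ B' from ⟨haB, haB'⟩), hk]
    rfl

theorem base_remove {t : ℕ} {f : Fin (t + 1) → Ω} (hf : ∀ g : G, (∀ i, g • f i = f i) → g = 1)
    (i : Fin (t + 1)) (hi : ¬ ∃ g : G, (∀ j, j < i → g • f j = f j) ∧ g • f i ≠ f i) :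
    ∀ g : G, (∀ j, g • f (i.succAbove j) = f (i.succAbove j)) → g = 1 := by
  intro g hg
  have h1 : ∀ j, j ≠ i → g • f j = f j := fun j hj => by
    obtain ⟨j, rfl⟩ := Fin.exists_succAbove_eq hj
    exact hg j
  push Not at hi
  refine hf g fun j => ?_
  by_cases hj : j = i
  · rw [hj]; exact hi g fun j hj => h1 j hj.ne
  · exact h1 j hj

/-- Let a finite group G act on a finite set Ω. An irredundant base is a sequence of points ω₁, …, ω_t whose pointwise stabiliser is trivial and in which each ω_i is moved by some element fixing ω₁, …, ω_{i−1}. Then all irredundant bases have the same length if and only if every reordering of an irredundant base is again an irredundant base. -/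
theorem result {G Ω : Type*} [Group G] [Finite G] [MulAction G Ω] [Fintype Ω] :
    (∀ (t t' : ℕ) (f : Fin t → Ω) (f' : Fin t' → Ω), ((∀ g : G, (∀ i : Fin t, g • f i = f i) → g = 1) ∧ ∀ i : Fin t, ∃ g : G, (∀ j : Fin t, j < i → g • f j = f j) ∧ g • f i ≠ f i) → ((∀ g : G, (∀ i : Fin t', g • f' i = f' i) → g = 1) ∧ ∀ i : Fin t', ∃ g : G, (∀ j : Fin t', j < i → g • f' j = f' j) ∧ g • f' i ≠ f' i) → t = t') ↔
    (∀ (t : ℕ) (f : Fin t → Ω) (σ : Equiv.Perm (Fin t)), ((∀ g : G, (∀ i : Fin t, g • f i = f i) → g = 1) ∧ ∀ i : Fin t, ∃ g : G, (∀ j : Fin t, j < i → g • f j = f j) ∧ g • f i ≠ f i) → ((∀ g : G, (∀ i : Fin t, g • (f ∘ σ) i = (f ∘ σ) i) → g = 1) ∧ ∀ i : Fin t, ∃ g : G, (∀ j : Fin t, j < i → g • (f ∘ σ) j = (f ∘ σ) j) ∧ g • (f ∘ σ) i ≠ (f ∘ σ) i)) := by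
  classical
  constructor
  · rintro H t f σ ⟨h1, h2⟩
    have h3 : ∀ g : G, (∀ i : Fin t, g • (f ∘ σ) i = (f ∘ σ) i) → g = 1 := fun g hg =>
      h1 g fun i => by simpa using hg (σ.symm i)
    refine ⟨h3, fun i => ?_⟩
    by_contra hi
    obtain ⟨t, rfl⟩ : ∃ s, t = s + 1 := ⟨t - 1, by have := i.2; omega⟩
    have hex : ∃ s, ∃ f : Fin s → Ω, ∀ g : G, (∀ i, g • f i = f i) → g = 1 := ⟨_, f, h1⟩
    obtain ⟨f', hf'⟩ := Nat.find_spec hex
    have hle : Nat.find hex ≤ t := Nat.find_min' hex ⟨_, base_remove h3 i hi⟩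
    have := H _ _ f f' ⟨h1, h2⟩ ⟨hf', fun j => ?_⟩
    · omega
    by_contra hj
    have hmin := fun s => Nat.find_min hex (m := s)
    generalize Nat.find hex = s at f' hf' j hj hmin
    obtain ⟨s, rfl⟩ : ∃ s', s = s' + 1 := ⟨s - 1, by have := j.2; omega⟩
    exact hmin s (by omega) ⟨_, base_remove hf' j hj⟩
  · rintro H t t' f f' ⟨h1, h2⟩ ⟨h1', h2'⟩
    have H' : ∀ (t : ℕ) (f : Fin t → Ω), Irr G f → Base G (Set.range f) →
        Indep G (Set.range f) := by
      rintro t f hf hb _ ⟨i, rfl⟩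
      obtain ⟨t, rfl⟩ : ∃ s, t = s + 1 := ⟨t - 1, by have := i.2; omega⟩
      obtain ⟨g, hg1, hg2⟩ := (H _ f (Equiv.swap i (Fin.last t)) ⟨(base_range f).1 hb, hf⟩).2
        (Fin.last t)
      refine ⟨g, ?_, by simpa using hg2⟩
      rintro _ ⟨j, rfl⟩ hj
      have := hg1 (Equiv.swap i (Fin.last t) j) (Fin.lt_last_iff_ne_last.2 fun h => hj (by
        rw [Equiv.swap_apply_eq_iff] at h; rw [h]; simp))
      simpa using this
    have := exchange H' ((base_range f').2 h1') (H' _ f' h2' ((base_range f').2 h1')) _ _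
      ((base_range f).2 h1) (H' _ f h2 ((base_range f).2 h1)) rfl
    rwa [Set.ncard_range_of_injective (Irr.inj h2), Set.ncard_range_of_injective (Irr.inj h2'),
      Nat.card_fin, Nat.card_fin] at this

end Cfsg.Agent.S5747
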