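import Cfsg.Statements.S5751
import Cfsg.Agent.H14.PC

set_option autoImplicit false
set_option linter.unusedVariables false
set_option linter.style.haveILetI false
open Cfsg H24 H14.SS

namespace Cfsg.Agent.S5751

open H14.PC Cfsg.Lie Subgroup

theorem chk : (allLt 240 fun r => band (ile (tabE8.rtv r 3) 6) <| band (bor (Nat.beq r (tabE8.simple 3))
    (ile (tabE8.wtv r 3) 1)) <| bor (bnot (ibeq (tabE8.rtv r 3) 1)) <| bor (Nat.beq r (tabE8.simple 3)) <|
    anyLt 8 fun i => band (bnot (Nat.beq i 3)) (ile 1 (tabE8.wtv r i))) = true := by decide +kernel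

theorem chk2 : (allLt 8 fun j => anyLt 240 fun a => band (ibeq (tabE8.rtv a 3) 1) <| anyLt 240 fun b =>
    band (ibeq (tabE8.rtv b 3) 1) <| bor (Nat.beq j 3) (tabE8.isComb a 1 b (tabE8.simple j))) = true := by
  decide +kernel

/-- An extremal example for iterated cores of conjugate maximal subgroups: there exist a finite group G and two distinct conjugate maximal subgroups M₁, M₂ of G, with M₁ having trivial core in G, such that, if we define two descending sequences of subgroups by A₀ = M₁, B₀ = M₂ and, for every i, A_{i+1} = the core in M₁ of A_i ∩ B_i and B_{i+1} = the core in M₂ of A_i ∩ B_i (the core in M of a subgroup Y ≤ M is the largest normal subgroup of M contained in Y), the subgroup A₆ is trivial while A₅ is not (so the index 6 cannot be lowered to 5). (One example is a maximal parabolic subgroup of the Chevalley group of type E₈ over a finite field and a suitable conjugate of it.) -/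
theorem result :
    ∃ (G : Type) (_ : Group G) (_ : Finite G) (M₁ M₂ : Subgroup G) (g : G) (A B : ℕ → Subgroup G),
      IsCoatom M₁ ∧ M₂ = M₁.map (MulAut.conj g).toMonoidHom ∧ M₁ ≠ M₂ ∧ M₁.normalCore = ⊥ ∧ A 0 = M₁ ∧ B 0 = M₂ ∧
      (∀ i, A (i + 1) = ((A i ⊓ B i).subgroupOf M₁).normalCore.map M₁.subtype) ∧
      (∀ i, B (i + 1) = ((A i ⊓ B i).subgroupOf M₂).normalCore.map M₂.subtype) ∧ A 6 = ⊥ ∧ A 5 ≠ ⊥ := by
  let S := tabE8_chk.grp (ZMod 2)
  let i0 : Fin chevE8.rank := ⟨3, by decide⟩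
  have hH : S.H = ⊥ := card_eq_one.1 (by rw [(ad tabE8_chk uniE8 (ZMod 2)).card_H]; simp)
  have c1 := chk
  have c2 := chk2
  simp only [allLt_iff, anyLt_iff, band_iff, bor_iff, bnot_iff, ile_iff, ibeq_iff, Nat.beq_eq] at c1 c2
  have hs : ∀ r : Fin chevE8.nroots, r ≠ tabE8_chk.cd.sim i0 → ¬ (r : ℕ) = tabE8.simple 3 := fun r h e =>
    h (Fin.ext (e.trans (tabE8_chk.val_sim i0).symm))
  have up := upper S (i0 := i0) hH (fun r e h => by
    obtain ⟨i, hi, h1, h2⟩ := (((c1 r r.2).2.2).resolve_left (not_not.2 e)).resolve_left (hs r h)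
    exact ⟨⟨i, hi⟩, fun e => h1 (congrArg Fin.val e), (tabE8_chk.A_sim ⟨i, hi⟩ r).symm ▸ h2⟩) (fun j => by
    obtain ⟨a, ha, h1, b, hb, h2, h3⟩ := c2 j j.2
    refine ⟨⟨a, ha⟩, ⟨b, hb⟩, h1, h2, h3.imp (fun e => Fin.ext e) fun e => ?_⟩
    rw [← tabE8_chk.val_sim j] at e
    exact ((tabE8_chk.isComb_iff ⟨a, ha⟩ ⟨b, hb⟩ _ 1).1 e).trans (by rw [Nat.cast_one, one_smul]; rfl))
  have lo := lower S (i0 := i0) (fun r h => (tabE8_chk.A_sim i0 r).symm ▸ (c1 r r.2).2.1.resolve_left (hs r h)) 5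
  set g := S.n (tabE8_chk.cd.sim i0) 1
  have hg : g * g = 1 := hH.le (S.n_mul_n_mem _ one_ne_zero one_ne_zero)
  have h6 : seq (S.PJ {i0}ᶜ) g 6 = ⊥ := eq_bot_iff.2 ((up 5).trans (S.XS_le.2 fun r hr =>
    absurd (le_trans hr (c1 r r.2).1) (by norm_num)))
  refine ⟨_, inferInstance, tabE8_chk.finite_grp (ZMod 2), S.PJ {i0}ᶜ, _, g, seq (S.PJ {i0}ᶜ) g,
    fun i => (seq (S.PJ {i0}ᶜ) g i).map (MulAut.conj g).toMonoidHom, coatom S (tabE8_chk.grp_Gr _), rfl, fun e => ?_,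
    ?_, rfl, rfl, fun i => rfl, fun i => cr_cj _ _ hg, h6, fun e => ?_⟩
  · have := mem_cj.1 (e.le (S.B_le_PJ _ (S.x_mem_B (tabE8_chk.cd.pos_sim i0) 1)))
    obtain ⟨c, hc, e⟩ := (S.n_rep_s i0 one_ne_zero).inv.exists_conj (tabE8_chk.cd.sim i0)
    rw [RS.s_inv, RS.s_sim, inv_inv] at e
    exact hc (mul_one c ▸ neg_not_mem S (i0 := i0) (c * 1) (e 1 ▸ this))
  · rw [eq_bot_iff, ← h6]
    have N : (S.PJ {i0}ᶜ).normalCore.Normal := inferInstance
    generalize 6 = i
    induction i with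
    | zero => exact normalCore_le _
    | succ i ih =>
      exact fun x hx => mem_cr.2 ⟨normalCore_le _ hx, fun m _ => ⟨ih (N.conj_mem _ hx m),
        mem_cj.2 (ih (N.conj_mem' _ (N.conj_mem _ hx m) g))⟩⟩
  · obtain ⟨r, hr⟩ : ∃ r, 6 ≤ tabE8_chk.rsys.rt r i0 :=
      ⟨⟨239, by decide⟩, by rw [tabE8_chk.rt_eq]; decide +kernel⟩
    exact one_ne_zero (S.x_eq_one_iff.1 (e.le (lo (S.x_mem (r := r) hr 1))))

end Cfsg.Agent.S5751
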