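import Cfsg.Statements.S5752
import Cfsg.Agent.H25.TW

set_option autoImplicit false
open Cfsg

namespace Cfsg.Agent.S5752

open H25.TW H5 Subgroup

/-- A form of the Thompson–Wielandt Theorem on primitive permutation groups. Let G be a finite group and M₁, M₂ two distinct conjugate maximal subgroups of G with trivial core in G; define two descending sequences of subgroups by A₀ = M₁, B₀ = M₂ and, for every i, A_{i+1} = the core in M₁ of A_i ∩ B_i and B_{i+1} = the core in M₂ of A_i ∩ B_i (the core in M of a subgroup Y ≤ M is the largest normal subgroup of M contained in Y). If A₂ and B₂ are both non-trivial, then for some prime p the subgroup generated by A₂ and B₂ is a p-group, and for each j the generalized Fitting subgroups of M_j and of its first core (A₁, resp. B₁) are their largest normal p-subgroups. -/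
theorem result {G : Type*} [Group G] [Finite G] (M₁ M₂ : Subgroup G) (hmax : IsCoatom M₁) (g : G)
    (hconj : M₂ = M₁.map (MulAut.conj g).toMonoidHom) (hne : M₁ ≠ M₂) (hcore : M₁.normalCore = ⊥)
    (A B : ℕ → Subgroup G) (hA0 : A 0 = M₁) (hB0 : B 0 = M₂)
    (hA : ∀ i, A (i + 1) = ((A i ⊓ B i).subgroupOf M₁).normalCore.map M₁.subtype)
    (hB : ∀ i, B (i + 1) = ((A i ⊓ B i).subgroupOf M₂).normalCore.map M₂.subtype) (hA2 : A 2 ≠ ⊥) (hB2 : B 2 ≠ ⊥) :
    ∃ p : ℕ, p.Prime ∧ IsPGroup p ↥(A 2 ⊔ B 2) ∧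
      Cfsg.generalizedFittingSubgroup ↥M₁ = Cfsg.pCore p ↥M₁ ∧ Cfsg.generalizedFittingSubgroup ↥(A 1) = Cfsg.pCore p ↥(A 1) ∧
      Cfsg.generalizedFittingSubgroup ↥M₂ = Cfsg.pCore p ↥M₂ ∧ Cfsg.generalizedFittingSubgroup ↥(B 1) = Cfsg.pCore p ↥(B 1) := by
  have h1 := prim_of_coatom hmax hcore
  have h : Pr M₁ M₂ := ⟨h1, hconj ▸ h1.cj g, hne, g, hconj⟩
  have a1 : A 1 = core M₁ (M₁ ⊓ M₂) := by rw [hA 0, hA0, hB0]; rfl
  have b1 : B 1 = core M₂ (M₁ ⊓ M₂) := by rw [hB 0, hA0, hB0]; rfl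
  have a2 : A 2 = core M₁ (core M₁ (M₁ ⊓ M₂) ⊓ core M₂ (M₁ ⊓ M₂)) := by rw [hA 1, a1, b1]; rfl
  have b2 : B 2 = core M₂ (core M₁ (M₁ ⊓ M₂) ⊓ core M₂ (M₁ ⊓ M₂)) := by rw [hB 1, a1, b1]; rfl
  rw [a2] at hA2 ⊢
  rw [b2] at hB2 ⊢
  obtain ⟨p, hp, p1, p2, f1, f2⟩ := h.tw hA2 hB2
  have := Fact.mk hp
  simp only [fstar_eq_pCore_iff_of, a1, b1]
  exact ⟨p, hp, p1.to_sup_of_normal_left' p2 ((core_le' _).trans (inf_le_left.trans
    ((core_le _).trans (le_norm_core _)))), f1,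
    (SN.of_normal (core_le _) (le_norm_core _)).fstarOf_eq_opOf f1, f2,
    (SN.of_normal (core_le _) (le_norm_core _)).fstarOf_eq_opOf f2⟩

end Cfsg.Agent.S5752
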