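import Cfsg.Statements.S5754
import Mathlib

set_option autoImplicit false
open Cfsg

namespace Cfsg.Agent.S5754

open QuadraticMap in
theorem exists_refl {F V : Type*} [Field F] [AddCommGroup V] [Module F V]
    (Q : QuadraticForm F V) (hQ : Q.Anisotropic) {x y : V} (h : Q x = Q y) :
    ∃ φ : Q.IsometryEquiv Q, φ x = y ∧ ∀ w, polar Q w x = polar Q w y → φ w = w := by
  by_cases hxy : x = y
  · exact ⟨QuadraticMap.IsometryEquiv.refl Q, hxy, fun _ _ => rfl⟩
  have hd : Q (x - y) ≠ 0 := fun h => hxy (sub_eq_zero.1 (hQ _ h))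
  let f : Module.Dual F V := (Q (x - y))⁻¹ • Q.polarBilin.flip (x - y)
  have hf : ∀ v, f v = (Q (x - y))⁻¹ * polar Q v (x - y) := fun v => by simp [f]
  have hfd : f (x - y) = 2 := by
    rw [hf, polar_self]; field_simp; ring
  refine ⟨⟨Module.reflection hfd, fun v => ?_⟩, ?_, fun w hw => ?_⟩
  · change Q (Module.reflection hfd v) = Q v
    rw [Module.reflection_apply, sub_eq_add_neg, ← neg_smul, QuadraticMap.map_add Q,
      polar_smul_right, QuadraticMap.map_smul, hf]
    simp only [smul_eq_mul]
    field_simp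
    ring
  · change Module.reflection hfd x = y
    have : polar Q x (x - y) = Q (x - y) := by
      rw [polar_sub_right, polar_self, sub_eq_add_neg x, QuadraticMap.map_add Q,
        QuadraticMap.map_neg, polar_neg_right, ← h]
      ring
    rw [Module.reflection_apply, hf, this, inv_mul_cancel₀ hd, one_smul, sub_sub_cancel]
  · change Module.reflection hfd w = w
    rw [Module.reflection_apply, hf, polar_sub_right, hw, sub_self, mul_zero, zero_smul, sub_zero]

open QuadraticMap in
theorem exists_isom {F V ι : Type*} [Field F] [AddCommGroup V] [Module F V]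
    (Q : QuadraticForm F V) (hQ : Q.Anisotropic) (w w' : ι → V) (h1 : ∀ i, Q (w i) = Q (w' i))
    (h2 : ∀ i j, Q (w i - w j) = Q (w' i - w' j)) (s : Finset ι) :
    ∃ φ : Q.IsometryEquiv Q, ∀ i ∈ s, φ (w i) = w' i := by
  classical
  induction s using Finset.induction_on with
  | empty => exact ⟨QuadraticMap.IsometryEquiv.refl Q, by simp⟩
  | insert k s hk ih =>
    obtain ⟨φ, hφ⟩ := ih
    obtain ⟨ψ, hψ1, hψ2⟩ := exists_refl Q hQ (x := φ (w k)) (y := w' k)
      (by rw [φ.map_app, h1])
    refine ⟨φ.trans ψ, fun i hi => ?_⟩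
    change ψ (φ (w i)) = _
    rcases Finset.mem_insert.1 hi with rfl | hi
    · exact hψ1
    · rw [hφ i hi]
      apply hψ2
      have key : ∀ a b : V, polar Q a b = Q a + Q b - Q (a - b) := fun a b => by
        rw [sub_eq_add_neg a, QuadraticMap.map_add Q, QuadraticMap.map_neg, polar_neg_right]
        ring
      rw [key, key, φ.map_app, h1, ← h2, ← hφ i hi, ← map_sub, φ.map_app, φ.map_app]

/-- Let V be a finite-dimensional vector space over a finite field F carrying an anisotropic quadratic form Q (Q(v) = 0 only for v = 0). Then the group of all maps v ↦ φ(v) + c, with φ an isometry of Q and c ∈ V, acts on V as a binary permutation group: given n ≥ 2 and two n-tuples u, u' of vectors such that every pair of corresponding entries of u is carried to that of u' by such a map, one such map carries u to u'. -/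
theorem result {F V : Type*} [Field F] [Finite F] [AddCommGroup V] [Module F V] [Module.Finite F V]
    (Q : QuadraticForm F V) (hQ : Q.Anisotropic) (n : ℕ) (hn : 2 ≤ n) (u u' : Fin n → V)
    (h2 : ∀ i j : Fin n, i ≠ j → ∃ (φ : Q.IsometryEquiv Q) (c : V), φ (u i) + c = u' i ∧ φ (u j) + c = u' j) :
    ∃ (φ : Q.IsometryEquiv Q) (c : V), ∀ i, φ (u i) + c = u' i := by
  let o : Fin n := ⟨0, by omega⟩
  have h3 : ∀ i j, Q (u i - u j) = Q (u' i - u' j) := by
    intro i j
    by_cases hij : i = j
    · simp [hij]
    obtain ⟨φ, c, hi, hj⟩ := h2 i j hij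
    rw [← hi, ← hj, add_sub_add_right_eq_sub, ← map_sub, φ.map_app]
  obtain ⟨φ, hφ⟩ := exists_isom Q hQ (fun i => u i - u o) (fun i => u' i - u' o)
    (fun i => h3 i o) (fun i j => by simpa using h3 i j) Finset.univ
  refine ⟨φ, u' o - φ (u o), fun i => ?_⟩
  have := hφ i (Finset.mem_univ i)
  rw [map_sub] at this
  rw [add_sub_left_comm, this]
  abel

end Cfsg.Agent.S5754
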