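import Cfsg.Statements.S5763
import Mathlib
import Cfsg.Agent.H25.PartStab

set_option autoImplicit false
open Cfsg

namespace Cfsg.Agent.S5763

open Equiv Equiv.Perm H25

def dig (T i : ℕ) : ℕ := Nat.mod (Nat.shiftRight T (Nat.mul 2 i)) 4
def ap (G i : ℕ) : ℕ := Nat.mod (Nat.shiftRight G (Nat.mul 4 i)) 8
def cands : List ℕ := [0x67452301, 0x54762301, 0x45672301, 0x67543210, 0x76453210, 0x76542310, 0x76543201, 0x32107654, 0x23106754, 0x32017645, 0x23016745, 0x10325476, 0x10234576, 0x1325467, 0x1234567]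
def good2 (a b c d : ℕ) : Bool :=
  ((Nat.beq a b) == (Nat.beq c d)) && (Nat.beq (Nat.div a 2) (Nat.div b 2) == Nat.beq (Nat.div c 2) (Nat.div d 2))
def good (T G : ℕ) : Bool := [0, 1, 2, 3, 4, 5, 6, 7].all fun i => [0, 1, 2, 3, 4, 5, 6, 7].all fun j =>
  good2 (dig T i) (dig T j) (dig T (ap G i)) (dig T (ap G j))
def wt (T : ℕ) : ℕ :=
  Nat.add (Nat.add (Nat.add (Nat.pow 16 (dig T 0)) (Nat.pow 16 (dig T 1))) (Nat.pow 16 (dig T 2)))
    (Nat.pow 16 (dig T 3))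
def L : List (ℕ × ℕ) := (List.range 256).map fun a => (a, wt a)
def chk0 (L : List (ℕ × ℕ)) : Bool := L.all fun a => L.all fun b =>
  !(Nat.beq (Nat.add b.2 a.2) 0x2222) || cands.any (good (Nat.add (Nat.mul a.1 256) b.1))

theorem chk : chk0 L = true := by decide +kernel

theorem dig_eq (T i : ℕ) : dig T i = T / 2 ^ (2 * i) % 4 := by
  rw [← Nat.shiftRight_eq_div_pow]; rfl

def gf (G : ℕ) (i : Fin 8) : Fin 8 := ⟨ap G i, Nat.mod_lt _ (by norm_num)⟩

theorem chk2 : ∀ G ∈ cands, (∀ i, gf G (gf G i) = i) ∧ (∃ i, gf G i ≠ i) ∧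
    (∀ i j : Fin 8, i.1 / 2 = j.1 / 2 ↔ (gf G i).1 / 2 = (gf G j).1 / 2) ∧
    (∀ i j : Fin 8, i.1 / 4 = j.1 / 4 ↔ (gf G i).1 / 4 = (gf G j).1 / 4) := by decide +kernel

def H0 : Subgroup (Perm (Fin 8)) :=
  partStab (fun i : Fin 8 => i.1 / 2) ⊓ partStab (fun i : Fin 8 => i.1 / 4)

theorem sq_fix {Ω ι κ : Type*} {f : Ω → ι} {h : Ω → κ} {g : Perm Ω} (hg : g ∈ partStab f)
    (hh : ∀ x, h (g x) = h x)
    (h3 : ∀ x y z, h y = h x → h z = h y → f x = f y ∨ f y = f z ∨ f x = f z) (x : Ω) :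
    f ((g ^ 2) x) = f x := by
  rw [sq, Perm.mul_apply]
  rcases h3 x (g x) (g (g x)) (hh _) (hh _) with h | h | h
  · rw [← (hg _ _).1 h, h]
  · rw [← h, (hg _ _).2 h]
  · exact h.symm

theorem H0_p : IsPGroup 2 H0 := by
  rintro ⟨g, hg1, hg2⟩
  refine ⟨3, Subtype.ext (Equiv.ext fun x => ?_)⟩
  have h1 := sq_fix (h := fun _ => ()) hg2 (fun _ => rfl) (fun x y z _ _ => by omega)
  have h2 := sq_fix (h := fun i : Fin 8 => i.1 / 4) (pow_mem hg1 2) h1 (fun x y z _ _ => by omega)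
  have h3 := sq_fix (f := id) (h := fun i : Fin 8 => i.1 / 2) (fun x y => (EmbeddingLike.apply_eq_iff_eq _).symm) h2
    (fun x y z _ _ => by simp only [id, Fin.ext_iff]; omega) x
  rw [← pow_mul, ← pow_mul] at h3
  exact h3

theorem key (x : Perm (Fin 8)) : ∃ g ∈ H0, g ≠ 1 ∧ x⁻¹ * g * x ∈ H0 := by
  let a : Fin 8 → ℕ := fun i => (x⁻¹ i).1 / 2
  have ha : ∀ i, a i < 4 := fun i => by simp only [a]; omega
  obtain ⟨T, hT, hd⟩ : ∃ T < 65536, ∀ i : Fin 8, dig T i = a i := by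
    have h0 := ha 0; have h1 := ha 1; have h2 := ha 2; have h3 := ha 3
    have h4 := ha 4; have h5 := ha 5; have h6 := ha 6; have h7 := ha 7
    refine ⟨a 0 + 4 * a 1 + 16 * a 2 + 64 * a 3 + 256 * a 4 + 1024 * a 5 + 4096 * a 6 +
      16384 * a 7, by omega, fun i => ?_⟩
    fin_cases i <;> simp [dig_eq] <;> omega
  have hw : wt (T % 256) + wt (T / 256) = 0x2222 := by
    have := Equiv.sum_comp x⁻¹ fun i : Fin 8 => 16 ^ (i.1 / 2)
    rw [Fin.sum_univ_eight, Fin.sum_univ_eight] at this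
    have h1 : ∀ i : Fin 4, dig (T % 256) i = dig T i := fun i => by
      fin_cases i <;> simp [dig_eq] <;> omega
    have h2 : ∀ i : Fin 4, dig (T / 256) i = dig T (i + 4) := fun i => by
      fin_cases i <;> simp [dig_eq] <;> omega
    have h : wt (T % 256) + wt (T / 256) = 16 ^ a 0 + 16 ^ a 1 + 16 ^ a 2 + 16 ^ a 3 +
        (16 ^ a 4 + 16 ^ a 5 + 16 ^ a 6 + 16 ^ a 7) := by
      simp only [← hd]
      exact congrArg₂ _
        (congrArg₂ _ (congrArg₂ _ (congrArg₂ _ (congrArg _ (h1 0)) (congrArg _ (h1 1)))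
          (congrArg _ (h1 2))) (congrArg _ (h1 3)))
        (congrArg₂ _ (congrArg₂ _ (congrArg₂ _ (congrArg _ (h2 0)) (congrArg _ (h2 1)))
          (congrArg _ (h2 2))) (congrArg _ (h2 3)))
    rw [h, ← add_assoc, ← add_assoc, ← add_assoc]; exact this
  have hc := chk
  simp only [chk0, L, List.all_eq_true, List.mem_range, Bool.or_eq_true, List.any_eq_true,
    List.forall_mem_map, Nat.add_eq, Nat.mul_eq] at hc
  have h1 := hc (T / 256) (by omega) (T % 256) (by omega)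
  rw [Nat.div_add_mod', hw] at h1
  obtain ⟨G, hG, hgood⟩ := h1.resolve_left (by decide)
  obtain ⟨h2, ⟨i, hi⟩, h3, h4⟩ := chk2 G hG
  have hb : ∀ a b c d : ℕ, (Nat.beq a b = Nat.beq c d) ↔ (a = b ↔ c = d) := fun a b c d => by
    rw [Bool.eq_iff_iff, Nat.beq_eq, Nat.beq_eq]
  simp only [good, good2, List.all_eq_true, Bool.and_eq_true, beq_iff_eq, hb] at hgood
  have h5 : ∀ i j : Fin 8, (a i = a j ↔ a (gf G i) = a (gf G j)) ∧
      (a i / 2 = a j / 2 ↔ a (gf G i) / 2 = a (gf G j) / 2) := fun i j => by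
    simp only [← hd]
    exact hgood i (by fin_cases i <;> simp) j (by fin_cases j <;> simp)
  refine ⟨Function.Involutive.toPerm _ h2, ⟨h3, h4⟩, fun h => hi (congrFun (congrArg DFunLike.coe h) i),
    fun i j => ?_, fun i j => ?_⟩
  · simpa [a, Function.Involutive.toPerm] using (h5 (x i) (x j)).1
  · simpa [a, Nat.div_div_eq_div_mul, Function.Involutive.toPerm] using (h5 (x i) (x j)).2

/-- In the symmetric group on 8 letters any two Sylow 2-subgroups have non-trivial intersection: for a Sylow 2-subgroup H and every element x, H ∩ xHx⁻¹ ≠ 1. -/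
theorem result (H : Sylow 2 (Equiv.Perm (Fin 8))) (x : Equiv.Perm (Fin 8)) :
    (H : Subgroup (Equiv.Perm (Fin 8))) ⊓ (H : Subgroup (Equiv.Perm (Fin 8))).map (MulAut.conj x).toMonoidHom ≠ ⊥ := by
  obtain ⟨P, hP⟩ := H0_p.exists_le_sylow
  obtain ⟨y, rfl⟩ := MulAction.exists_smul_eq (Equiv.Perm (Fin 8)) P H
  obtain ⟨g, h1, h2, h3⟩ := key (y⁻¹ * x * y)
  rw [Ne, Subgroup.eq_bot_iff_forall]
  intro h
  apply h2
  have := h (y * g * y⁻¹) ⟨⟨g, hP h1, rfl⟩, _, ⟨_, hP h3, rfl⟩, by simp [mul_assoc]⟩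
  simpa [mul_inv_eq_one] using this

end Cfsg.Agent.S5763
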