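import Cfsg.Statements.S5769
import Cfsg.Agent.H14.SS8
import Cfsg.Agent.H14.Sp3

set_option autoImplicit false
set_option linter.unusedVariables false
set_option linter.style.haveILetI false
open Cfsg H24 H14.SS

namespace Cfsg.Agent.S5769

open H14.Wall H16 H23 Polynomial

section
variable {F : Type*} [Field F]

theorem nm_map (σ : F →+* F) (s : Multiset F[X]) (h : P0 s) : nm (s.map (dual σ)) = (σ (nm s))⁻¹ := by
  induction s using Multiset.induction_on with
  | empty => simp [nm]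
  | cons a s ih =>
    rw [← Multiset.singleton_add] at h ⊢
    rw [Multiset.map_add, nm_add, nm_add, ih h.right, Multiset.map_singleton, nm_dual σ (h a (by simp)).1.monic
      (h a (by simp)).2, map_mul, mul_inv]

theorem ur_map [Fintype F] {q : ℕ} (hF : Fintype.card F = q ^ 2) (s : Multiset F[X]) (h : P0 s) :
    UR hF (s + s.map (dual (conj hF))) ∧ dgs (s + s.map (dual (conj hF))) = 2 * dgs s := by
  induction s using Multiset.induction_on with
  | empty => simp [UR, P0, dgs]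
  | cons a s ih =>
    rw [← Multiset.singleton_add] at h ⊢
    rw [Multiset.map_add, Multiset.map_singleton, add_add_add_comm, dgs_add, (ih h.right).2, dgs_add, dgs_add,
      dgs_single, dgs_single, natDegree_dual _ (h a (by simp)).2]
    exact ⟨(UR.pair hF h.left).add hF (ih h.right).1, by ring⟩

theorem tor [Fintype F] {j : ℕ} (hj : j ≠ 0) (h : Fintype.card F ^ j = 64) :
    (∃ i ≤ j, Tor F 65 i) ∧ ∃ s : Multiset F[X], P0 s ∧ dgs s = 2 * j ∧ nm s = 1 ∧ ∀ k, Sc s k → 65 ∣ k := by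
  obtain ⟨i, h1, -, h2⟩ := exists_tor (F := F) (m := 65) hj (.inr (by rw [h])) (by norm_num)
  obtain ⟨s, h3, h4, h5⟩ := h2.sy h1
  refine ⟨⟨i, h1, h2⟩, s, (RS.rv h3).1, h4, ?_, fun k hk => by have := h5 k hk; omega⟩
  have h6 := nm_map (RingHom.id F) s (RS.rv h3).1
  rw [_root_.funext dual_id, (RS.rv h3).2, RingHom.id_apply] at h6
  have h7 : (2 : F) ^ 6 = 0 := by
    have := congrArg (Nat.cast : ℕ → F) h
    rw [Nat.cast_pow, FiniteField.cast_card_eq_zero, zero_pow hj] at this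
    rw [this]; norm_num
  have h8 := mul_inv_cancel₀ (nm_ne (RS.rv h3).1)
  rw [← h6] at h8
  have : (nm s - 1) ^ 2 = 0 := by linear_combination h8 + (1 - nm s) * (pow_eq_zero_iff (by norm_num)).1 h7
  exact sub_eq_zero.1 (pow_eq_zero_iff two_ne_zero |>.1 this)

theorem key {H : Subgroup ↥(Cfsg.Lie.chevE7.group (ZMod 2))} {L : Type*} [Group L]
    (h : 65 ∈ Set.range (orderOf : L → ℕ)) : IsEmpty (↥H ≃* L) :=
  ⟨fun e => E7.no65 (e.symm h.choose : H) (by rw [Subgroup.orderOf_coe, MulEquiv.orderOf_eq, h.choose_spec])⟩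
end

/-- The Chevalley group of type E₇ over the field with two elements (generated by its root elements in the adjoint representation) has no subgroup isomorphic to any of PSL₂(64), PSp₄(8), PSL₄(8), PSU₄(8) or PSp₆(8). Here F₈ and F₆₄ denote fields with 8 and 64 elements. -/
theorem result {F₈ F₆₄ : Type*} [Field F₈] [Fintype F₈] (h8 : Fintype.card F₈ = 8) [Field F₆₄] [Fintype F₆₄] (h64 : Fintype.card F₆₄ = 64)
    (H : Subgroup ↥(Cfsg.Lie.chevE7.group (ZMod 2))) :
    IsEmpty (↥H ≃* Matrix.ProjectiveSpecialLinearGroup (Fin 2) F₆₄) ∧ IsEmpty (↥H ≃* Cfsg.PSp 2 F₈) ∧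
    IsEmpty (↥H ≃* Matrix.ProjectiveSpecialLinearGroup (Fin 4) F₈) ∧ IsEmpty (↥H ≃* Cfsg.PSU 4 F₆₄ 8) ∧ IsEmpty (↥H ≃* Cfsg.PSp 3 F₈) := by
  obtain ⟨⟨i, h1, h2⟩, s, s1, s2, s3, s4⟩ := tor (F := F₈) two_ne_zero (by rw [h8]; rfl)
  obtain ⟨-, t, t1, t2, t3, t4⟩ := tor (F := F₆₄) one_ne_zero (by rw [h64]; rfl)
  have h64' : Fintype.card F₆₄ = 8 ^ 2 := h64
  exact ⟨key ((sm_PSL 2).mem ⟨t1, t2, t3⟩ fun k _ => t4 k), key (h2.psp (sm_PSp (by norm_num)) h1 (by decide)),
    key ((sm_PSL 4).mem ⟨s1, s2, s3⟩ fun k _ => s4 k), key ((sm_PSU h64' (by norm_num)).mem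
      ⟨(ur_map h64' t t1).1, by rw [(ur_map h64' t t1).2, t2]; rfl, by rw [nm_add, nm_map _ _ t1, t3]; simp⟩
      fun k _ hk => t4 k hk.left), key (h2.psp (n := 3) (sm_PSp (by norm_num)) (by omega) (by decide))⟩

end Cfsg.Agent.S5769
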