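import Cfsg.Statements.S5885
import Mathlib


set_option autoImplicit false
open Cfsg

namespace Cfsg.Agent.S5885

open MulAction Subgroup Equiv

theorem aux {G Ω : Type*} [Group G] [Finite Ω] [MulAction G Ω] [IsPreprimitive G Ω] [Nontrivial Ω]
    (hodd : Odd (Nat.card Ω))
    (h3 : ∀ x y z : Ω, x ≠ y → y ≠ z → x ≠ z → ∃ g : G, g • x = y ∧ g • y = z ∧ g • z = x ∧
      ∀ w, w ≠ x → w ≠ y → w ≠ z → g • w = w)
    (a : Ω) (K : Subgroup G) (hK : IsCoatom K)
    (hmax : IsCoatom ((K ⊓ stabilizer G a).subgroupOf (stabilizer G a))) :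
    IsCoatom ((stabilizer G a).subgroupOf K) := by
  by_cases hN : (toPermHom G Ω).ker ≤ K
  swap
  · have h1 : K ⊔ (toPermHom G Ω).ker = ⊤ := hK.2 _ (left_lt_sup.2 hN)
    have h2 : ∀ g : G, ∃ k : K, ∀ x : Ω, g • x = k • x := fun g => by
      have : g ∈ ((K ⊔ (toPermHom G Ω).ker : Subgroup G) : Set G) := by rw [h1]; trivial
      rw [mul_normal] at this
      obtain ⟨k, hk, u, hu, rfl⟩ := this
      refine ⟨⟨k, hk⟩, fun x => ?_⟩
      have : u • x = x := DFunLike.congr_fun (MonoidHom.mem_ker.1 hu) x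
      rw [mul_smul, this]; rfl
    choose φ hφ using h2
    have : IsPreprimitive K Ω := IsPreprimitive.of_surjective (M := G) (α := Ω) (φ := φ)
      (f := ⟨id, fun g x => hφ g x⟩) Function.surjective_id
    exact IsPreprimitive.isCoatom_stabilizer_of_isPreprimitive K a
  have hM := IsPreprimitive.isCoatom_stabilizer_of_isPreprimitive G a
  refine ⟨fun h => ?_, fun L hL => ?_⟩
  · have h1 := subgroupOf_eq_top.1 h
    have h2 : K = stabilizer G a := by
      by_contra h2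
      exact hM.1 (hK.2 _ (lt_of_le_of_ne h1 h2))
    exact hmax.1 (subgroupOf_eq_top.2 (by rw [h2]; simp))
  by_contra hLt
  obtain ⟨l₀, hl₀, hl₀'⟩ := SetLike.exists_of_lt hL
  obtain ⟨k₀, -, hk₀⟩ := SetLike.exists_of_lt (lt_top_iff_ne_top.2 hLt)
  let B : Set Ω := {x | ∃ l ∈ L, l • a = x}
  have hB : ∀ k : K, k • a ∈ B ↔ k ∈ L := fun k => by
    refine ⟨fun ⟨l, hl, e⟩ => ?_, fun h => ⟨k, h, rfl⟩⟩
    have : l⁻¹ * k ∈ L := hL.le (show ((l⁻¹ * k : K) : G) • a = a by
      change (l⁻¹ * k) • a = a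
      rw [mul_smul, ← e, inv_smul_smul])
    simpa using L.mul_mem hl this
  have ha : a ∈ B := ⟨1, L.one_mem, one_smul _ _⟩
  have hb : l₀ • a ∈ B := ⟨l₀, hl₀, rfl⟩
  have hab : l₀ • a ≠ a := hl₀'
  have hc : k₀ • a ∉ B := fun h => hk₀ ((hB k₀).1 h)
  have hc' : ∀ x ∈ B, k₀ • x ∉ B := by
    rintro _ ⟨l, hl, rfl⟩ h
    rw [← mul_smul, hB] at h
    exact hk₀ ((L.mul_mem_cancel_right hl).1 h)
  have hcc : k₀ • a ≠ k₀ • l₀ • a := fun h => hab (smul_left_cancel k₀ h).symm
  -- the stabiliser of `B` in the point stabiliser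
  let S : Subgroup (stabilizer G a) :=
    { carrier := {g | ∀ x, g • x ∈ B ↔ x ∈ B}
      one_mem' := fun x => by rw [one_smul]
      mul_mem' := fun {g h} hg hh x => by rw [mul_smul, hg, hh]
      inv_mem' := fun {g} hg x => by rw [← hg, smul_inv_smul] }
  have hS : (K ⊓ stabilizer G a).subgroupOf (stabilizer G a) ≤ S := fun g hg x => by
    have hgK : (g : G) ∈ K := (mem_subgroupOf.1 hg).1
    have hgL : (⟨g, hgK⟩ : K) ∈ L := hL.le g.2
    constructor
    · rintro ⟨l, hl, e⟩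
      refine ⟨(⟨g, hgK⟩ : K)⁻¹ * l, L.mul_mem (L.inv_mem hgL) hl, ?_⟩
      rw [mul_smul, e, inv_smul_eq_iff]; rfl
    · rintro ⟨l, hl, rfl⟩
      exact ⟨(⟨g, hgK⟩ : K) * l, L.mul_mem hgL hl, by rw [mul_smul]; rfl⟩
  have hS' : S ≠ ⊤ := fun h => by
    obtain ⟨g, g1, -, -, g4⟩ := h3 (l₀ • a) (k₀ • a) (k₀ • l₀ • a) (fun e => hc (e ▸ hb)) hcc
      (fun e => hc' _ hb (e ▸ hb))
    have h1 : g • a = a := g4 a hab.symm (fun e => hc (e ▸ ha)) (fun e => hc' _ hb (e ▸ ha))
    have h2 : (⟨g, h1⟩ : stabilizer G a) ∈ S := h ▸ mem_top _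
    exact hc (g1 ▸ (h2 (l₀ • a)).2 hb)
  have hS'' : S = (K ⊓ stabilizer G a).subgroupOf (stabilizer G a) := by
    by_contra h
    exact hS' (hmax.2 _ (lt_of_le_of_ne hS (Ne.symm h)))
  obtain ⟨d, hd, hd'⟩ : ∃ d, d ∉ B ∧ d ∉ (fun x => k₀ • x) '' B := by
    by_contra! h
    have h1 : B ∪ (fun x => k₀ • x) '' B = Set.univ :=
      Set.eq_univ_of_forall fun x => or_iff_not_imp_left.2 (h x)
    have h2 := Set.ncard_union_eq (s := B) (t := (fun x => k₀ • x) '' B)
      (Set.disjoint_right.2 (by rintro _ ⟨x, hx, rfl⟩; exact hc' x hx))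
    rw [h1, Set.ncard_univ, Set.ncard_image_of_injective _ (MulAction.injective k₀)] at h2
    obtain ⟨m, hm⟩ := hodd
    omega
  obtain ⟨g, g1, g2, g3, g4⟩ := h3 (k₀ • a) d (k₀ • l₀ • a) (fun e => hd' ⟨a, ha, e⟩)
    (fun e => hd' ⟨_, hb, e.symm⟩) hcc
  have hfix : ∀ x ∈ B, g • x = x := fun x hx => g4 x (fun e => hc (e ▸ hx)) (fun e => hd (e ▸ hx))
    (fun e => hc' _ hb (e ▸ hx))
  have h2 : (⟨g, hfix a ha⟩ : stabilizer G a) ∈ S := fun x => by
    change g • x ∈ B ↔ _
    refine ⟨fun h => ?_, fun h => by rwa [hfix x h]⟩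
    have := smul_left_cancel g (hfix _ h)
    rwa [← this]
  rw [hS''] at h2
  have hgK : g ∈ K := (mem_subgroupOf.1 h2).1
  have h4 : k₀⁻¹ * ⟨g, hgK⟩ * k₀ * l₀ ∈ L := (hB _).1 (by
    rw [mul_smul, mul_smul, mul_smul]
    change k₀⁻¹ • g • k₀ • l₀ • a ∈ B
    rw [g3, inv_smul_smul]; exact ha)
  have h5 := (hB _).2 ((L.mul_mem_cancel_right hl₀).1 h4)
  refine hd' ⟨_, h5, ?_⟩
  simp only [mul_smul, smul_inv_smul]
  exact g1

/-- Let n be an odd positive integer such that every primitive permutation group of degree n contains the alternating group (so the symmetric and alternating groups are the only primitive groups of degree n). Let G be a finite group, M a maximal subgroup of G of index n, and H a maximal subgroup of M. Then H is a second maximal subgroup of G: H is maximal in every maximal subgroup K of G containing H. -/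
theorem result {G : Type*} [Group G]
    [Finite G] (n : ℕ) (hodd : Odd n)
    (hA : ∀ P : Subgroup (Equiv.Perm (Fin n)), MulAction.IsPreprimitive P (Fin n) → alternatingGroup (Fin n) ≤ P)
    (M : Subgroup G) (hM : IsCoatom M) (hn : M.index = n) (H : Subgroup G) (hHM : H ≤ M)
    (hmax : IsCoatom (H.subgroupOf M)) (K : Subgroup G) (hK : IsCoatom K) (hHK : H ≤ K) :
    IsCoatom (H.subgroupOf K) := by
  classical
  by_cases hKM : K = M
  · subst hKM; exact hmax
  have hH : H = K ⊓ M := by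
    have h1 : H.subgroupOf M ≤ (K ⊓ M).subgroupOf M := comap_mono (le_inf hHK hHM)
    have h2 : (K ⊓ M).subgroupOf M ≠ ⊤ := fun h => by
      have h3 : M ≤ K := (subgroupOf_eq_top.1 h).trans inf_le_left
      exact hK.1 (hM.2 _ (lt_of_le_of_ne h3 (Ne.symm hKM)))
    have h3 : H.subgroupOf M = (K ⊓ M).subgroupOf M := by
      by_contra h; exact h2 (hmax.2 _ (lt_of_le_of_ne h1 h))
    have h4 := subgroupOf_inj.1 h3
    rwa [inf_eq_left.2 hHM, inf_assoc, inf_idem] at h4
  have hs := stabilizer_quotient M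
  have : Nontrivial (G ⧸ M) := Finite.one_lt_card_iff_nontrivial.1 (one_lt_index_of_ne_top hM.1)
  have hp : IsPreprimitive G (G ⧸ M) :=
    (isCoatom_stabilizer_iff_preprimitive G ((1 : G) : G ⧸ M)).1 (by rwa [hs])
  obtain ⟨e⟩ : Nonempty ((G ⧸ M) ≃ Fin n) := Finite.card_eq.1 (by rw [Nat.card_eq_fintype_card (α := Fin n), Fintype.card_fin]; exact hn)
  let ψ : G →* Perm (Fin n) := e.permCongrHom.toMonoidHom.comp (toPermHom G (G ⧸ M))
  have hψ : ∀ g x, ψ g (e x) = e (g • x) := fun g x => by simp [ψ]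
  have h1 := hA ψ.range (IsPreprimitive.of_surjective (M := G) (α := G ⧸ M) (φ := ψ.rangeRestrict)
    (f := ⟨e, fun g x => (hψ g x).symm⟩) e.surjective)
  have key := aux (G := G) (Ω := G ⧸ M) (by rw [← index, hn]; exact hodd) (fun x y z hxy hyz hxz => by
    have hx : e x ≠ e y := e.injective.ne hxy
    have hy : e y ≠ e z := e.injective.ne hyz
    have hz : e x ≠ e z := e.injective.ne hxz
    obtain ⟨g, hg⟩ := h1 (Perm.isThreeCycle_swap_mul_swap_same hz hx hy.symm).mem_alternatingGroup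
    refine ⟨g, e.injective ?_, e.injective ?_, e.injective ?_, fun w w1 w2 w3 => e.injective ?_⟩ <;>
      rw [← hψ, hg, Perm.mul_apply]
    · rw [swap_apply_left, swap_apply_of_ne_of_ne hx.symm hy]
    · rw [swap_apply_right, swap_apply_left]
    · rw [swap_apply_of_ne_of_ne hz.symm hy.symm, swap_apply_right]
    · rw [swap_apply_of_ne_of_ne (e.injective.ne w1) (e.injective.ne w2),
        swap_apply_of_ne_of_ne (e.injective.ne w1) (e.injective.ne w3)])
    ((1 : G) : G ⧸ M) K hK (by rw [hs, ← hH]; exact hmax)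
  rw [hs] at key
  rwa [hH, inf_comm, inf_subgroupOf_right]

end Cfsg.Agent.S5885
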