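import Cfsg.Statements.S5890
import Cfsg.Agent.H4.Dk5

set_option autoImplicit false
open Cfsg

namespace Cfsg.Agent.S5890

/-- Let F be a finite field with q ≥ 4 elements, let L ≤ PGL₂(F) be the image of SL₂(F) (a copy of PSL₂(F), of index gcd(2, q − 1)), and let M be a maximal subgroup of PGL₂(F) that does not contain L. Suppose q ∉ {7, 9, 11} and that q is not a prime congruent to ±11 or ±19 modulo 40. Then M ∩ L is a maximal subgroup of L. (For the excluded q there are maximal subgroups of PGL₂(q) — dihedral groups of order 12 and 16 at q = 7, of order 20 and 16 at q = 9, of order 20 at q = 11, and S₄ at the excluded primes — whose intersection with L is not maximal in L.) -/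
theorem result {F : Type*} [Field F]
    [Fintype F] (h4 : 4 ≤ Fintype.card F) (h7 : Fintype.card F ≠ 7) (h9 : Fintype.card F ≠ 9) (h11 : Fintype.card F ≠ 11)
    (h40 : (Fintype.card F).Prime → Fintype.card F % 40 ∉ ({11, 19, 21, 29} : Finset ℕ))
    (M : Subgroup (Matrix.ProjGenLinGroup (Fin 2) F)) (hM : IsCoatom M)
    (hML : ¬ (Matrix.ProjGenLinGroup.mk.comp Matrix.SpecialLinearGroup.toGL).range ≤ M) :
    IsCoatom ((M ⊓ (Matrix.ProjGenLinGroup.mk.comp Matrix.SpecialLinearGroup.toGL).range).subgroupOf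
      (Matrix.ProjGenLinGroup.mk.comp Matrix.SpecialLinearGroup.toGL).range) := by
  rw [H4.range_smk] at hML ⊢
  rw [H4.isCoatom_iff_covBy (H4.pL F).subtype_injective, Subgroup.subgroupOf_map_subtype,
    Subgroup.range_subtype, inf_assoc, inf_idem]
  by_cases h2 : (2 : F) = 0
  · rw [H4.pL_eq_top h2, inf_top_eq]
    exact covBy_top_iff.2 hM
  have hq := H4.odd_card_of_two_ne_zero h2
  rcases H4.max_pgl h2 h4 hM hML with ⟨x, h⟩ | ⟨g, hg, h, h1⟩ | ⟨h1, h3, h⟩ |
    ⟨E, r, P, hr, ho, h1, h⟩
  · exact h ▸ H4.stab_covBy_pL x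
  · rw [h]
    rcases H4.card_pT hg with h5 | h5
    · exact H4.covBy_pN_ell hg h5 (by omega) h7 h9
    · refine H4.covBy_pN_sp hg h5 ?_
      have := h1 h5
      simp only [Finset.mem_insert, Finset.mem_singleton, not_or]
      omega
  · have h5 := h40 h1
    simp only [Finset.mem_insert, Finset.mem_singleton, not_or] at h5
    have h6 := H4.card_inf_pL hq (H := M) fun h0 => by
      have := (H4.s4_le_pL_iff h2 h).1 h0
      omega
    rw [H4.card_of_equiv h, H4.card_s4] at h6
    exact H4.covBy_a4 h1 (by omega) h3 (by omega)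
      (H4.a4_of_card_twelve h inf_le_left (by omega))
  · rw [h, ← H4.cj_inf_pL, H4.pglS_inf_pL h2 h1 ho]
    refine H4.covBy_cj (H4.covBy_pslS ?_ hr h1 (Or.inr ?_)) P
    · have := H4.odd_card_sub h2 E
      have := H4.one_lt_card_subfield E
      omega
    · rintro rfl
      exact absurd ho (by decide)

end Cfsg.Agent.S5890
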