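import Cfsg.Statements.S5893
import Cfsg.Agent.H4.Dk5

set_option autoImplicit false
open Cfsg

namespace Cfsg.Agent.S5893

/-- Let F be a finite field of even order q ≥ 4 and let M be a maximal subgroup of PSL₂(F) (= SL₂(F) = PGL₂(F)). Then one of the following holds: |M| = q(q − 1) (the stabiliser of a point of the projective line, elementary abelian of order q extended by a cyclic group of order q − 1); M is dihedral of order 2(q − 1); M is dihedral of order 2(q + 1); or q = q₀^r for a prime r with q₀ ≠ 2 and M ≅ PSL₂(F₀) with |F₀| = q₀. -/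
theorem result {F : Type*} [Field F] [Fintype F]
    (heven : Even (Fintype.card F)) (h4 : 4 ≤ Fintype.card F) (M : Subgroup (Matrix.ProjectiveSpecialLinearGroup (Fin 2) F)) (hM : IsCoatom M) :
    Nat.card M = Fintype.card F * (Fintype.card F - 1) ∨
    Nonempty (M ≃* DihedralGroup (Fintype.card F - 1)) ∨
    Nonempty (M ≃* DihedralGroup (Fintype.card F + 1)) ∨
    (∃ (F₀ : Type) (_ : Field F₀) (_ : Fintype F₀) (r : ℕ), r.Prime ∧ Fintype.card F₀ ≠ 2 ∧
        Fintype.card F = Fintype.card F₀ ^ r ∧ Nonempty (M ≃* Matrix.ProjectiveSpecialLinearGroup (Fin 2) F₀)) := by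
  have h2 := H4.two_eq_zero_of_even heven
  have hq := Nat.even_iff.1 heven
  have : CharP F 2 := CharTwo.of_one_ne_zero_of_two_eq_zero one_ne_zero h2
  have hM' := H4.isCoatom_psl_iff.1 hM
  have hd := H4.gcd_eq_one hq Fintype.card_pos
  rcases H4.max_pL 2 h4 hM' with ⟨x, h⟩ | ⟨g, hg, h⟩ | ⟨E, r, P, hE, hr, h1, h⟩ |
    ⟨h, -⟩ | ⟨h1, -⟩ | ⟨h1, -⟩
  · left
    rw [← H4.card_map_psl, h, ← H4.card_stab_pL x, hd, one_mul]
  · have h3 := H4.card_pT_pL hg
    have h4 := H4.equiv_of_map_psl (h ▸ H4.pN_pL_equiv hg)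
    rw [hd, one_mul] at h3
    rw [h3] at h4
    rcases H4.card_pT hg with h7 | h7 <;> rw [h7] at h4
    · exact Or.inr (Or.inr (Or.inl h4))
    · exact Or.inr (Or.inl h4)
  · obtain ⟨K, _, _, f, h3, h5⟩ := H4.exists_type_subfield E
    refine Or.inr (Or.inr (Or.inr ⟨K, inferInstance, inferInstance, r, hr, by omega, by rw [h1, h5],
      H4.equiv_of_map_psl ?_⟩))
    rw [h, H4.pL_eq_top h2, inf_top_eq, ← H4.pslS_eq_pglS h2, ← h3]
    exact H4.equiv_cj (H4.nonempty_pslS_equiv f) P
  · exact (h rfl).elim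
  · omega
  · omega

end Cfsg.Agent.S5893
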