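import Cfsg.Statements.S5895
import Mathlib

set_option autoImplicit false
open Cfsg

namespace Cfsg.Agent.S5895

open scoped LinearAlgebra.Projectivization

theorem exists_lin {k V : Type*} [Field k] [AddCommGroup V] [Module k V] {v w : V} (hv : v ≠ 0)
    (hw : w ≠ 0) : ∃ g : V ≃ₗ[k] V, g v = w := by
  obtain ⟨g, hg⟩ := Submodule.exists_linearEquiv_restrict_eq
    ((LinearEquiv.toSpanNonzeroSingleton k V v hv).symm.trans
      (LinearEquiv.toSpanNonzeroSingleton k V w hw))
  refine ⟨g, ?_⟩
  have := hg (LinearEquiv.toSpanNonzeroSingleton k V v hv 1)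
  rw [LinearEquiv.trans_apply, LinearEquiv.symm_apply_apply] at this
  simpa using this.symm

/-- For every prime p and every d ≥ 2 there is a finite group G with a maximal subgroup M of index p^d and a maximal subgroup H of M that is not second maximal in G: some maximal subgroup K of G contains H without H being maximal in K. (One may take G the affine group V ⋊ GL(V) of V = 𝔽_p^d, M = GL(V), H the stabiliser in M of a line W of V, and K = V ⋊ H, with H < W ⋊ H < K.) So the prime-index hypothesis in the second-maximality criterion cannot be relaxed to prime-power index. -/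
theorem result (p d : ℕ) (hp : p.Prime)
    (hd : 2 ≤ d) :
    ∃ (G : Type) (_ : Group G) (_ : Finite G) (M H K : Subgroup G), IsCoatom M ∧ M.index = p ^ d ∧ H ≤ M ∧
      IsCoatom (H.subgroupOf M) ∧ IsCoatom K ∧ H ≤ K ∧ ¬ IsCoatom (H.subgroupOf K) := by
  have := Fact.mk hp
  let k := ZMod p
  let V := Fin d → k
  let G := V ≃ᵃ[k] V
  letI : MulAction G V :=
    { smul := fun g x => g x, one_smul := fun _ => rfl, mul_smul := fun _ _ _ => rfl }
  have hsm : ∀ (g : G) (x : V), g • x = g x := fun _ _ => rfl
  have : Finite G := Finite.of_injective (fun g : G => (g : V → V)) DFunLike.coe_injective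
  have h2 : MulAction.IsMultiplyPretransitive G V 2 := by
    rw [MulAction.is_two_pretransitive_iff]
    intro a b c e hab hce
    obtain ⟨g, hg⟩ := exists_lin (k := k) (sub_ne_zero.2 hab) (sub_ne_zero.2 hce)
    refine ⟨g.toAffineEquiv.trans (AffineEquiv.constVAdd k V (e - g b)), ?_, ?_⟩
    · change (e - g b) + g a = c
      rw [map_sub] at hg
      linear_combination hg
    · change (e - g b) + g b = e
      abel
  have hprim := MulAction.isPreprimitive_of_is_two_pretransitive h2
  let e0 : V := Pi.single ⟨0, by omega⟩ 1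
  let e1 : V := Pi.single ⟨1, by omega⟩ 1
  have he0 : e0 ≠ 0 := fun h => by simpa [e0, V] using congrFun h ⟨0, by omega⟩
  have he1 : e1 ≠ 0 := fun h => by simpa [e1, V] using congrFun h ⟨1, by omega⟩
  have hne : ∀ c : k, c • e0 ≠ e1 := fun c h => by
    simpa [e0, e1, V, Pi.single_apply, Fin.ext_iff] using congrFun h ⟨1, by omega⟩
  have : Nontrivial V := ⟨e0, 0, he0⟩
  have : Nontrivial (ℙ k V) := ⟨Projectivization.mk k e1 he1, Projectivization.mk k e0 he0, fun h => by
    obtain ⟨c, hc⟩ := (Projectivization.mk_eq_mk_iff' _ _ _ _ _).1 h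
    exact hne c hc⟩
  have hprim' := MulAction.isPreprimitive_of_is_two_pretransitive
    (Projectivization.linearEquiv_is_two_pretransitive k V)
  let H0 := MulAction.stabilizer (V ≃ₗ[k] V) (Projectivization.mk k e0 he0)
  have hH0 : IsCoatom H0 := MulAction.IsPreprimitive.isCoatom_stabilizer_of_isPreprimitive _ _
  let π : G →* (V ≃ₗ[k] V) := AffineEquiv.linearHom
  let M := MulAction.stabilizer G (0 : V)
  have hπ : Function.Surjective (π.comp M.subtype) := fun g =>
    ⟨⟨g.toAffineEquiv, map_zero g⟩, rfl⟩
  have hmem : ∀ g : G, π g ∈ H0 ↔ ∃ c : k, c • e0 = g.linear e0 := fun g =>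
    Projectivization.mk_eq_mk_iff' _ _ _ _ _
  have hlin : ∀ (g : G) (x : V), g x = g.linear x + g 0 := fun g x => by
    simpa using g.map_vadd 0 x
  refine ⟨G, inferInstance, inferInstance, M, M ⊓ H0.comap π, H0.comap π,
    MulAction.IsPreprimitive.isCoatom_stabilizer_of_isPreprimitive _ _, ?_, inf_le_left, ?_,
    Subgroup.isCoatom_comap_of_surjective (φ := π) (Function.Surjective.of_comp (g := M.subtype) hπ) hH0, inf_le_right, fun h => ?_⟩
  · rw [MulAction.index_stabilizer_of_transitive, Nat.card_fun, Nat.card_zmod, Nat.card_fin]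
  · convert Subgroup.isCoatom_comap_of_surjective hπ hH0 using 1
    ext g
    simp [Subgroup.mem_subgroupOf]
  · let L : Subgroup (H0.comap π) :=
      { carrier := {g | ∀ x, x ∈ Submodule.span k {e0} ↔ g.1 x ∈ Submodule.span k {e0}}
        one_mem' := fun _ => Iff.rfl
        mul_mem' := fun {g h} hg hh x => (hh x).trans (hg _)
        inv_mem' := fun {g} hg x => by
          have := (hg (g.1⁻¹ x)).symm
          rwa [show g.1 (g.1⁻¹ x) = x from g.1.apply_symm_apply x] at this }
    have htr : ∀ v : V, AffineEquiv.constVAdd k V v ∈ H0.comap π := fun v =>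
      (hmem _).2 ⟨1, one_smul _ _⟩
    have h3 : L = ⊤ := by
      apply h.2
      refine lt_of_le_of_ne (fun g hg x => ?_) fun h => ?_
      · obtain ⟨c, hc⟩ := (hmem _).1 g.2
        rw [hlin, show g.1 0 = 0 from hg.1, add_zero]
        simp only [Submodule.mem_span_singleton]
        have hc0 : c ≠ 0 := by
          rintro rfl
          exact he0 (g.1.linear.map_eq_zero_iff.1 (by rw [← hc, zero_smul]))
        constructor
        · rintro ⟨a, rfl⟩
          exact ⟨a * c, by rw [map_smul, ← hc, mul_smul]⟩
        · rintro ⟨a, ha⟩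
          refine ⟨a * c⁻¹, g.1.linear.injective ?_⟩
          rw [map_smul, ← hc, ← ha, smul_smul, mul_assoc, inv_mul_cancel₀ hc0, mul_one]
      · have : (⟨_, htr e0⟩ : H0.comap π) ∈ L := fun x =>
          (Submodule.add_mem_iff_right _ (Submodule.mem_span_singleton_self e0)).symm
        rw [← h] at this
        exact he0 ((add_zero e0).symm.trans this.1)
    have : (⟨_, htr e1⟩ : H0.comap π) ∈ L := h3 ▸ trivial
    obtain ⟨c, hc⟩ := Submodule.mem_span_singleton.1 ((this 0).1 (Submodule.zero_mem _))
    exact hne c (hc.trans (add_zero e1))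

end Cfsg.Agent.S5895
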