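import Cfsg.Statements.S5896
import Mathlib
import Cfsg.Agent.H17.Central
import Cfsg.Agent.H25.Fix

set_option autoImplicit false
open Cfsg

namespace Cfsg.Agent.S5896

open RegularWreathProduct

variable {S Q : Type} [Group S] [Group Q]

/-- evaluation on the base group -/
def ev (q : Q) : (rightHom : S ≀ᵣ Q →* Q).ker →* S where
  toFun x := x.1.left q
  map_one' := rfl
  map_mul' x y := by
    have : x.1.right = 1 := x.2
    simp [this]

theorem solv_base [Group.IsSolvable S] : Group.IsSolvable (rightHom : S ≀ᵣ Q →* Q).ker := by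
  obtain ⟨n, hn⟩ := (inferInstance : Group.IsSolvable S)
  refine ⟨n, eq_bot_iff.2 fun x hx => ?_⟩
  refine Subtype.ext (RegularWreathProduct.ext (funext fun q => ?_) x.2)
  have := map_derivedSeries_le_derivedSeries (ev q) n ⟨x, hx, rfl⟩
  rw [hn] at this
  exact this

theorem der_ne_bot {G : Type} [Group G] (φ : G →* S ≀ᵣ Q) (hφ : Function.Injective φ)
    (h : ∀ s : S, ∃ x, (φ x).right = 1 ∧ (φ x).left 1 = s) {d : ℕ}
    (hd : derivedSeries S d ≠ ⊥) : derivedSeries G d ≠ ⊥ := by
  intro hG
  apply hd
  let N : Subgroup G := (rightHom.comp φ).ker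
  let ψ : N →* S := (ev 1).comp ((φ.comp N.subtype).codRestrict _ fun x => x.2)
  have hψ : Function.Surjective ψ := fun s => by
    obtain ⟨x, h1, h2⟩ := h s
    exact ⟨⟨x, h1⟩, h2⟩
  have h1 := map_derivedSeries_le_derivedSeries N.subtype d
  rw [hG, le_bot_iff, Subgroup.map_eq_bot_iff_of_injective _ N.subtype_injective] at h1
  rw [← map_derivedSeries_eq hψ, h1, Subgroup.map_bot]

theorem comm_elt (a : S ≀ᵣ Q) (ha : a.right ≠ 1) (s : S) :
    ∃ f : S ≀ᵣ Q, (f * a * f⁻¹ * a⁻¹).right = 1 ∧ (f * a * f⁻¹ * a⁻¹).left 1 = s := by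
  classical
  refine ⟨⟨Pi.mulSingle 1 s, 1⟩, by simp, ?_⟩
  simp [Pi.mulSingle_eq_of_ne (inv_ne_one.2 ha)]

theorem der_succ (G : Type) [Group G] (d : ℕ) :
    (derivedSeries (commutator G) d).map (commutator G).subtype = derivedSeries G (d + 1) := by
  induction d with
  | zero => rw [derivedSeries_zero, ← MonoidHom.range_eq_map, Subgroup.range_subtype]; rfl
  | succ d ih => rw [derivedSeries_succ, Subgroup.map_commutator, ih, derivedSeries_succ G (d + 1)]

theorem exists_solv (d : ℕ) : ∃ (S : Type) (_ : Group S) (_ : Finite S), Group.IsSolvable S ∧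
    derivedSeries S d ≠ ⊥ := by
  induction d with
  | zero => exact ⟨Multiplicative (ZMod 2), inferInstance, inferInstance, inferInstance, top_ne_bot⟩
  | succ d ih =>
    obtain ⟨S, _, _, hS, hd⟩ := ih
    refine ⟨S ≀ᵣ Multiplicative (ZMod 2), inferInstance, inferInstance, ?_, ?_⟩
    · have := solv_base (S := S) (Q := Multiplicative (ZMod 2))
      exact Group.isSolvable_of_ker_le_range (rightHom (D := S)).ker.subtype rightHom (by simp)
    · rw [← der_succ, Ne, Subgroup.map_eq_bot_iff_of_injective _ (Subgroup.subtype_injective _)]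
      refine der_ne_bot (Subgroup.subtype _) (Subgroup.subtype_injective _) (fun s => ?_) hd
      obtain ⟨f, h1, h2⟩ := comm_elt (inl (Multiplicative.ofAdd (1 : ZMod 2)) : S ≀ᵣ _)
        (by rw [right_inl]; decide) s
      exact ⟨⟨_, Subgroup.commutator_mem_commutator (Subgroup.mem_top f) (Subgroup.mem_top _)⟩,
        h1, h2⟩

/-- Finite perfect groups have solvable maximal subgroups of unbounded derived length: for every d there is a finite perfect group G (equal to its commutator subgroup) with a solvable maximal subgroup H whose derived length exceeds d, i.e. the d-th term of the derived series of H is non-trivial. (Take the derived subgroup of a wreath product S ≀ A₅ with S solvable of large derived length, and H the preimage of a maximal subgroup of A₅.) -/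
theorem result (d : ℕ) :
    ∃ (G : Type) (_ : Group G) (_ : Finite G) (H : Subgroup G), commutator G = ⊤ ∧ IsCoatom H ∧ Group.IsSolvable H ∧
      derivedSeries H d ≠ ⊥ := by
  obtain ⟨S, _, _, hS, hd⟩ := exists_solv d
  let Q := alternatingGroup (Fin 5)
  have hQ : commutator Q = ⊤ := commutator_alternatingGroup_eq_top (by simp)
  have hprim : MulAction.IsPreprimitive Q (Fin 5) :=
    alternatingGroup.isPreprimitive_of_three_le_card _ (by simp)
  let M := MulAction.stabilizer Q (0 : Fin 5)
  have hM : IsCoatom M := MulAction.IsPreprimitive.isCoatom_stabilizer_of_isPreprimitive _ _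
  have hMc : Nat.card M = 2 ^ 2 * 3 ^ 1 := by
    have h1 := H25.card_eq_card_mul_card_stabilizer (G := Q) (0 : Fin 5)
    rw [nat_card_alternatingGroup, Nat.card_fin] at h1
    change 60 = 5 * Nat.card M at h1
    omega
  have hMs : Group.IsSolvable M := H17.isSolvable_of_two_primes Nat.prime_two Nat.prime_three
    fun r hr h => by
      rw [hMc, pow_one] at h
      exact ((Nat.Prime.dvd_mul hr).1 h).imp
        (fun h => (Nat.prime_dvd_prime_iff_eq hr Nat.prime_two).1 (hr.dvd_of_dvd_pow h))
        (Nat.prime_dvd_prime_iff_eq hr Nat.prime_three).1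
  obtain ⟨G, -, ⟨hGn, hGm⟩, hmin⟩ := exists_minimal_le_of_wellFoundedLT
    (fun G : Subgroup (S ≀ᵣ Q) => G.Normal ∧ G.map RegularWreathProduct.rightHom = ⊤) ⊤
    ⟨inferInstance, Subgroup.map_top_of_surjective _ fun q => ⟨RegularWreathProduct.inl q, rfl⟩⟩
  let π : G →* Q := RegularWreathProduct.rightHom.comp G.subtype
  have hπ : Function.Surjective π := fun q => by
    obtain ⟨x, hx, rfl⟩ : q ∈ G.map RegularWreathProduct.rightHom := hGm ▸ trivial
    exact ⟨⟨x, hx⟩, rfl⟩
  refine ⟨G, inferInstance, inferInstance, M.comap π, ?_,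
    Subgroup.isCoatom_comap_of_surjective hπ hM, ?_, ?_⟩
  · apply Subgroup.map_injective G.subtype_injective
    rw [Subgroup.map_subtype_commutator, ← MonoidHom.range_eq_map, Subgroup.range_subtype]
    refine le_antisymm (Subgroup.commutator_le_left _ _) (hmin ⟨inferInstance, ?_⟩
      (Subgroup.commutator_le_left _ _))
    rw [Subgroup.map_commutator, hGm]
    exact hQ
  · have := solv_base (S := S) (Q := Q)
    let ρ : M.comap π →* M := (π.comp (M.comap π).subtype).codRestrict _ fun x => x.2
    have : Group.IsSolvable ρ.ker := Group.isSolvable_of_isSolvable_injective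
      (f := ((G.subtype.comp (M.comap π).subtype).comp ρ.ker.subtype).codRestrict
        (RegularWreathProduct.rightHom : S ≀ᵣ Q →* Q).ker fun x => congrArg Subtype.val x.2)
      fun x y h => Subtype.ext (Subtype.ext (Subtype.ext (by have := congrArg Subtype.val h; exact this)))
    exact Group.isSolvable_of_ker_le_range ρ.ker.subtype ρ (by simp)
  · refine der_ne_bot (G.subtype.comp (M.comap π).subtype)
      (G.subtype_injective.comp (Subgroup.subtype_injective _)) (fun s => ?_) hd
    obtain ⟨q, hq⟩ := exists_ne (1 : Q)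
    obtain ⟨a, rfl⟩ := hπ q
    obtain ⟨f, h1, h2⟩ := comm_elt a.1 hq s
    refine ⟨⟨⟨_, G.mul_mem (hGn.conj_mem _ a.2 f) (G.inv_mem a.2)⟩, ?_⟩, h1, h2⟩
    change (f * a * f⁻¹ * a.1⁻¹).right ∈ M
    rw [h1]; exact M.one_mem

end Cfsg.Agent.S5896
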