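import Cfsg.Statements.S5903
import Mathlib
import Cfsg.Agent.S5902

set_option autoImplicit false
open Cfsg

namespace Cfsg.Agent.S5903

/-- Let G be a finite simple group, X a subgroup lying in exactly one maximal subgroup M of G, and N a subgroup of prime order with N ≤ X that is central in M. If the subgroup lattice of X/N is complemented, then the subgroup lattice of G is complemented. -/
theorem result {G : Type*} [Group G] [Finite G] [IsSimpleGroup G] (X M N : Subgroup G)
    (hM : IsCoatom M) (hXM : X ≤ M) (huniq : ∀ M' : Subgroup G, IsCoatom M' → X ≤ M' → M' = M)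
    (hNX : N ≤ X) (hN : (Nat.card N).Prime) (hcen : ∀ n ∈ N, ∀ m ∈ M, m * n = n * m)
    [(N.subgroupOf X).Normal] (hK : ComplementedLattice (Subgroup (X ⧸ N.subgroupOf X))) :
    ComplementedLattice (Subgroup G) := by
  have := Fact.mk hN
  have hint : ∀ Y : Subgroup G, N ≤ Y → Y ≤ X →
      ∃ C : Subgroup G, N ≤ C ∧ C ≤ X ∧ Y ⊔ C = X ∧ Y ⊓ C = N := by
    intro Y hNY hY
    let π := QuotientGroup.mk' (N.subgroupOf X)
    have hπ : Function.Surjective π := QuotientGroup.mk'_surjective _
    obtain ⟨C, hC⟩ := exists_isCompl ((Y.subgroupOf X).map π)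
    have hker : π.ker ≤ Y.subgroupOf X := by
      rw [QuotientGroup.ker_mk']; exact Subgroup.subgroupOf_mono _ hNY
    have hY' : Y = (((Y.subgroupOf X).map π).comap π).map X.subtype := by
      rw [Subgroup.comap_map_eq_self hker, Subgroup.map_subgroupOf_eq_of_le hY]
    refine ⟨(C.comap π).map X.subtype, ?_, Subgroup.map_subtype_le _, ?_, ?_⟩
    · intro n hn
      refine ⟨⟨n, hNX hn⟩, ?_, rfl⟩
      have : π ⟨n, hNX hn⟩ = 1 := (QuotientGroup.eq_one_iff _).2 hn
      simp [this]
    · rw [hY', ← Subgroup.map_sup, Subgroup.comap_sup_eq _ _ _ hπ, hC.sup_eq_top,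
        Subgroup.comap_top, ← MonoidHom.range_eq_map, Subgroup.range_subtype]
    · rw [hY', ← Subgroup.map_inf _ _ _ X.subtype_injective, ← Subgroup.comap_inf,
        hC.inf_eq_bot, MonoidHom.comap_bot, QuotientGroup.ker_mk',
        Subgroup.map_subgroupOf_eq_of_le hNX]
  have hN0 : N ≠ ⊥ := fun h => hN.one_lt.ne' (by rw [h, Subgroup.card_bot])
  refine ⟨fun H => ?_⟩
  by_cases hH0 : H = ⊥
  · exact ⟨⊤, hH0 ▸ isCompl_bot_top⟩
  by_cases hH1 : H = ⊤
  · exact ⟨⊥, hH1 ▸ isCompl_top_bot⟩
  obtain ⟨g, hg1, hg2⟩ : ∃ g : G, ¬ H.map (MulAut.conj g).toMonoidHom ≤ M ∧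
      ¬ N ≤ H.map (MulAut.conj g).toMonoidHom := by
    by_contra hcon
    push Not at hcon
    have hle : Subgroup.normalClosure (N : Set G) ≤ Subgroup.normalizer (H : Set G) := by
      rw [Subgroup.normalClosure, Subgroup.closure_le]
      intro x hx
      obtain ⟨n, hn, hc⟩ := Group.mem_conjugatesOfSet_iff.1 hx
      obtain ⟨c, rfl⟩ := isConj_iff.1 hc
      by_cases hM' : H.map (MulAut.conj c⁻¹).toMonoidHom ≤ M
      · apply Subgroup.centralizer_le_normalizer
        intro h hh
        have := hcen n hn _ (hM' ⟨h, hh, rfl⟩)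
        simp only [MulEquiv.toMonoidHom_eq_coe, MonoidHom.coe_coe, MulAut.conj_apply,
          inv_inv] at this
        calc h * (c * n * c⁻¹) = c * (c⁻¹ * h * c * n) * c⁻¹ := by group
          _ = c * (n * (c⁻¹ * h * c)) * c⁻¹ := by rw [this]
          _ = _ := by group
      · obtain ⟨h, hh, he⟩ := hcon _ hM' hn
        apply Subgroup.le_normalizer
        simp only [MulEquiv.toMonoidHom_eq_coe, MonoidHom.coe_coe, MulAut.conj_apply,
          inv_inv] at he
        rw [← he]
        simpa [mul_assoc] using hh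
    rcases (Subgroup.normalClosure_normal (s := (N : Set G))).eq_bot_or_eq_top with h | h
    · exact hN0 (eq_bot_iff.2 (h ▸ Subgroup.le_normalClosure))
    · rw [h, top_le_iff, Subgroup.normalizer_eq_top_iff] at hle
      rcases hle.eq_bot_or_eq_top with h | h
      · exact hH0 h
      · exact hH1 h
  obtain ⟨C, h1, h2⟩ := Cfsg.Agent.S5902.conj_back H (MulAut.conj g)
    (Cfsg.Agent.S5901.result N X M hNX (fun h => hM.1 (top_le_iff.1 (h ▸ hXM))) hint hM hXM huniq
      _ hg1 (by
        rcases ((H.map (MulAut.conj g).toMonoidHom).subgroupOf N).eq_bot_or_eq_top_of_prime_card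
          with h | h
        · rwa [Subgroup.subgroupOf_eq_bot, disjoint_iff] at h
        · exact absurd (Subgroup.subgroupOf_eq_top.1 h) hg2))
  exact ⟨C, disjoint_iff.2 h2, codisjoint_iff.2 h1⟩

end Cfsg.Agent.S5903
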