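import Cfsg.Statements.S5908
import Cfsg.Agent.S0827

set_option autoImplicit false
open Cfsg

namespace Cfsg.Agent.S5908

def Z : Subgroup (QuaternionGroup 2) where
  carrier := {x | x ^ 2 = 1}
  one_mem' := by decide
  mul_mem' := by intro a b; simp only [Set.mem_setOf_eq]; revert a b; decide
  inv_mem' := by intro a; simp only [Set.mem_setOf_eq]; revert a; decide

/-- The subgroup lattice of PSU₃(2) (the solvable group of order 72, realised over the field with 4 elements) is not complemented: some subgroup H has no subgroup X with H ⊔ X = ⊤ and H ⊓ X = ⊥. -/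
theorem result {F : Type*} [Field F] [Fintype F] (hF : Fintype.card F = 4) :
    ¬ ComplementedLattice (Subgroup (Cfsg.PSU 3 F 2)) := by
  intro hc
  obtain ⟨N, _, hN, -, ⟨e⟩⟩ := Cfsg.Agent.S0827.result hF
  let φ := e.toMonoidHom.comp (QuotientGroup.mk' N)
  have hφ : Function.Surjective φ := e.surjective.comp (QuotientGroup.mk'_surjective N)
  obtain ⟨K, hK⟩ := hc.exists_isCompl (Z.comap φ)
  have h1 : K = ⊥ := by
    refine (Subgroup.eq_bot_iff_forall _).2 fun g hg => ?_
    have h2 : ∀ x : QuaternionGroup 2, (x ^ 2) ^ 2 = 1 := by decide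
    have h3 : g ^ 2 = 1 := Subgroup.mem_bot.1 (hK.disjoint.le_bot (Subgroup.mem_inf.2 ⟨by
      show φ (g ^ 2) ^ 2 = 1
      rw [map_pow]; exact h2 _, pow_mem hg 2⟩))
    exact Subgroup.mem_bot.1 (hK.disjoint.le_bot (Subgroup.mem_inf.2 ⟨by
      show φ g ^ 2 = 1
      rw [← map_pow, h3, map_one], hg⟩))
  have h4 := hK.sup_eq_top
  rw [h1, sup_bot_eq] at h4
  obtain ⟨g, hg⟩ := hφ (QuaternionGroup.a 1)
  have h5 : φ g ^ 2 = 1 := (Subgroup.eq_top_iff' _).1 h4 g
  rw [hg] at h5
  revert h5
  decide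

end Cfsg.Agent.S5908
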