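import Cfsg.Statements.S5909
import Mathlib
import Cfsg.Agent.H25.PartStab

set_option autoImplicit false
open Cfsg

namespace Cfsg.Agent.S5909

open Equiv Equiv.Perm H25

theorem three_of_share {Ω ι : Type*} [Fintype Ω] [DecidableEq Ω] {f : Ω → ι} (τ : Ω → Ω)
    (h1 : ∀ x, τ x ≠ x) (h2 : ∀ x, f (τ x) = f x) {L : Subgroup (Perm Ω)}
    (hL : partStab f ⊓ alternatingGroup Ω ≤ L) {h : Perm Ω} (hh : h ∈ L) {u z : Ω}
    (hu : f (h u) ≠ f (h (τ u))) (hz : f (h z) = f (h (τ z))) :
    ∃ g ∈ L, IsThreeCycle g := by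
  have key : ∀ x y x' y', x ≠ y → x' ≠ y' → f x = f y → f x' = f y' → swap x y * swap x' y' ∈ L :=
    fun x y x' y' a b c d => hL ⟨mul_mem (swap_mem_partStab c) (swap_mem_partStab d), by
      simp [mem_alternatingGroup, a, b]⟩
  have h3 := L.mul_mem (L.mul_mem hh (key u (τ u) z (τ z) (h1 u).symm (h1 z).symm (h2 u).symm
    (h2 z).symm)) (L.inv_mem hh)
  rw [← conj_mul, ← swap_apply_apply, ← swap_apply_apply] at h3
  have h4 := key (h z) (h (τ z)) (h u) (τ (h u)) (h.injective.ne (h1 z).symm) (h1 _).symm hz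
    (h2 _).symm
  refine ⟨_, L.mul_mem h3 h4, ?_⟩
  rw [mul_assoc, ← mul_assoc (swap (h z) _), swap_mul_self, one_mul]
  exact isThreeCycle_swap_mul_swap_same (h.injective.ne (h1 u).symm) (h1 _).symm
    fun h5 => hu (by rw [h5, h2])

theorem exists_three {Ω : Type*} [Fintype Ω] [DecidableEq Ω] {b : ℕ} (hb : b = 3 ∨ 5 ≤ b)
    {f : Ω → Fin b} (e : Ω ≃ Fin b × Fin 2) (he : ∀ x, (e x).1 = f x) {L : Subgroup (Perm Ω)}
    (hL : partStab f ⊓ alternatingGroup Ω ≤ L) (hL' : ¬ L ≤ partStab f) :
    ∃ g ∈ L, IsThreeCycle g := by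
  let τ : Ω → Ω := fun x => e.symm ((e x).1, (e x).2 + 1)
  have h1 : ∀ x, τ x ≠ x := fun x h => by
    have := congrArg (fun y => (e y).2) h
    simp [τ] at this
  have h2 : ∀ x, f (τ x) = f x := fun x => by rw [← he, ← he]; simp [τ]
  have h3 : ∀ x y, f y = f x → y = x ∨ y = τ x := fun x y h => by
    rw [← he, ← he] at h
    have : ∀ i j : Fin 2, i = j ∨ i = j + 1 := by decide
    refine (this (e y).2 (e x).2).imp (fun h' => e.injective (Prod.ext h h')) fun h' => ?_
    exact e.eq_symm_apply.2 (Prod.ext h h')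
  have hs : ∀ i, ∃ s, f s = i := fun i => ⟨_, apply_symm_of_equiv e he i 0⟩
  have key : ∀ x y x' y', x ≠ y → x' ≠ y' → f x = f y → f x' = f y' → swap x y * swap x' y' ∈ L :=
    fun x y x' y' a b c d => hL ⟨mul_mem (swap_mem_partStab c) (swap_mem_partStab d), by
      simp [mem_alternatingGroup, a, b]⟩
  obtain ⟨g, hg, u, hu⟩ : ∃ g ∈ L, ∃ u, f (g u) ≠ f (g (τ u)) := by
    by_contra hcon
    push Not at hcon
    refine hL' (le_partStab_of fun g hg x y hxy => ?_)
    rcases h3 x y hxy.symm with rfl | rfl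
    · rfl
    · exact hcon g hg x
  rcases hb with rfl | hb
  · by_cases hc : ∃ z, f (g z) = f (g (τ z))
    · obtain ⟨z, hz⟩ := hc
      exact three_of_share τ h1 h2 hL hg hu hz
    push Not at hc
    set x := g u with hx
    set y := g (τ u) with hy
    -- the element swapping the blocks of `x` and `y`
    have hxy' : x ≠ τ y := fun h => hu (by rw [h, h2])
    have hyx' : y ≠ τ x := fun h => hu (by rw [h, h2])
    have hxy : x ≠ y := fun h => hu (by rw [h])
    have hxy'' : τ x ≠ τ y := fun h => hu (by rw [← h2, h, h2])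
    have hw : swap x y * swap (τ x) (τ y) ∈ L := by
      refine hL ⟨mem_partStab_of (swap (f x) (f y)) (Equiv.injective _) fun t => ?_, by
        simp [mem_alternatingGroup, hxy, hxy'']⟩
      clear_value x y
      by_cases ht : f t = f x
      · rcases h3 x t ht with rfl | rfl
        · simp [swap_apply_of_ne_of_ne (h1 t).symm hxy']
        · simp [swap_apply_of_ne_of_ne hxy'.symm (h1 y), h2]
      by_cases ht' : f t = f y
      · rcases h3 y t ht' with rfl | rfl
        · simp [swap_apply_of_ne_of_ne hyx' (h1 t).symm]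
        · simp [swap_apply_of_ne_of_ne (h1 x) hyx'.symm, h2]
      rw [swap_apply_of_ne_of_ne ht ht', Perm.mul_apply, swap_apply_of_ne_of_ne (x := t),
        swap_apply_of_ne_of_ne]
      all_goals rintro rfl; simp_all
    set z := g⁻¹ (τ x) with hz
    have hgz : g z = τ x := by simp [hz]
    have hzu : f z ≠ f u := fun h => by
      rcases h3 u z h with h | h
      · exact h1 x (by rw [← hgz, h])
      · exact hyx' (by rw [← hgz, h])
    have hr : ∀ t, f t = f u → g (τ z) ≠ g t := fun t ht h =>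
      hzu (by rw [← h2, g.injective h, ht])
    have hry : g (τ z) ≠ τ y := by
      intro h
      obtain ⟨k, hk1, hk2⟩ : ∃ k, k ≠ f x ∧ k ≠ f y := by
        generalize f x = i; generalize f y = j; revert i j; decide
      obtain ⟨s, rfl⟩ := hs k
      have key2 : ∀ t, f t = f s → f (g⁻¹ t) ≠ f u ∧ f (g⁻¹ t) ≠ f z := by
        intro t ht
        constructor <;> intro h' <;> rcases h3 _ _ h' with h' | h' <;>
          rw [Perm.inv_eq_iff_eq] at h'
        · exact hk1 (by rw [← ht, h'])
        · exact hk2 (by rw [← ht, h'])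
        · exact hk1 (by rw [← ht, h', hgz, h2])
        · exact hk2 (by rw [← ht, h', h, h2])
      have h5 : f (g⁻¹ (τ s)) = f (g⁻¹ s) := by
        have := key2 s rfl
        have := key2 (τ s) (h2 s)
        omega
      rcases h3 _ _ h5 with h5 | h5
      · exact h1 s (g⁻¹.injective h5)
      · apply hc (g⁻¹ s)
        rw [← h5]; simp [h2]
    refine three_of_share τ h1 h2 hL (L.mul_mem (L.mul_mem (L.inv_mem hg) hw) hg) (u := z)
      (z := u) ?_ ?_
    · simp only [Perm.mul_apply, hgz, swap_apply_left]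
      rw [swap_apply_of_ne_of_ne hxy'.symm (h1 y), swap_apply_of_ne_of_ne (x := g (τ z))
        (hgz ▸ g.injective.ne (h1 z)) hry, swap_apply_of_ne_of_ne (hr u rfl) (hr _ (h2 u))]
      intro h
      rw [← Perm.mul_apply g⁻¹ g, inv_mul_cancel, Perm.one_apply, h2] at h
      rcases h3 _ _ h with h | h <;> rw [Perm.inv_eq_iff_eq] at h
      · exact hxy'' (by rw [h, hgz])
      · exact hry h.symm
    · simp only [Perm.mul_apply, ← hx, ← hy]
      rw [swap_apply_of_ne_of_ne (h1 x).symm hxy', swap_apply_of_ne_of_ne hyx' (h1 y).symm]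
      simp [hx, hy, h2]
  · have avoid : ∀ s : Finset (Fin b), s.card ≤ 4 → ∃ k, k ∉ s := fun s hs => by
      by_contra hcon
      push Not at hcon
      rw [Finset.eq_univ_of_forall hcon, Finset.card_fin] at hs
      omega
    set x := g u with hx
    set y := g (τ u) with hy
    obtain ⟨k, hk⟩ := avoid {f x, f y} (Finset.card_le_two.trans (by norm_num))
    obtain ⟨s, rfl⟩ := hs k
    simp only [Finset.mem_insert, Finset.mem_singleton, not_or] at hk
    obtain ⟨k, hk'⟩ := avoid {f (g⁻¹ x), f (g⁻¹ (τ x)), f (g⁻¹ s), f (g⁻¹ (τ s))}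
      Finset.card_le_four
    obtain ⟨z, rfl⟩ := hs k
    simp only [Finset.mem_insert, Finset.mem_singleton, not_or] at hk'
    have hfix : ∀ t, f t = f z → (g⁻¹ * (swap x (τ x) * swap s (τ s)) * g) t = t := by
      intro t ht
      simp only [Perm.mul_apply]
      rw [swap_apply_of_ne_of_ne (x := g t), swap_apply_of_ne_of_ne]
      · simp
      all_goals intro h; simp [← h, ht] at hk'
    refine three_of_share τ h1 h2 hL (L.mul_mem (L.mul_mem (L.inv_mem hg)
      (key x (τ x) s (τ s) (h1 x).symm (h1 s).symm (h2 x).symm (h2 s).symm)) hg) (u := u)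
      (z := z) ?_ (by rw [hfix z rfl, hfix _ (h2 z), h2])
    simp only [Perm.mul_apply, ← hx, ← hy]
    have hyx' : y ≠ τ x := fun h => hu (by rw [h, h2])
    rw [swap_apply_of_ne_of_ne (x := x), swap_apply_left, swap_apply_of_ne_of_ne (x := y),
      swap_apply_of_ne_of_ne (fun h => hu (by rw [h])) hyx']
    · intro h
      rw [hy, ← Perm.mul_apply g⁻¹ g, inv_mul_cancel, Perm.one_apply, h2] at h
      rcases h3 _ _ h with h | h <;> rw [Perm.inv_eq_iff_eq] at h
      · exact h1 x h
      · exact hyx' h.symm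
    all_goals intro h; simp [h, h2] at hk

/-- Let Ω be a finite set whose size is not 8, and f : Ω → Fin b a labelling with b ≥ 2 whose fibres all have the same size a ≥ 2 (a partition into b blocks of size a). Then the even permutations preserving the partition — the intersection of the imprimitive wreath product S_a ≀ S_b with the alternating group — form a maximal subgroup of the alternating group on Ω. -/
theorem result {Ω : Type*} [Fintype Ω] [DecidableEq Ω] (h8 : Fintype.card Ω ≠ 8) (a b : ℕ) (ha : 2 ≤ a) (hb : 2 ≤ b)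
    (f : Ω → Fin b) (hf : ∀ i : Fin b, Nat.card {x : Ω // f x = i} = a) :
    IsCoatom ((Subgroup.closure {g : Equiv.Perm Ω | ∀ x y : Ω, f x = f y ↔ f (g x) = f (g y)} ⊓ alternatingGroup Ω).subgroupOf (alternatingGroup Ω)) := by
  open Equiv Equiv.Perm H25 in
  rw [closure_partStab]
  obtain ⟨e, he⟩ := H25.exists_equiv_prod f hf
  have : Nontrivial (Fin b) := Fin.nontrivial_iff_two_le.2 hb
  have hcard : Fintype.card Ω = b * a := by simpa using Fintype.card_congr e
  have hoth : ∀ x, ∃ u v, u ≠ v ∧ f u ≠ f x ∧ f v = f u := fun x => by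
    obtain ⟨j, hj⟩ := exists_ne (f x)
    obtain ⟨u, v, huv, hu, hv⟩ := H25.exists_two_in_fibre e he ha j
    exact ⟨u, v, huv, hu ▸ hj, hv.trans hu.symm⟩
  refine ⟨fun h => ?_, fun L' hL' => ?_⟩
  · obtain ⟨x, y, hxy, hx, hy⟩ := H25.exists_two_in_fibre e he ha ⟨0, by omega⟩
    obtain ⟨u, -, -, hu, -⟩ := hoth x
    have hyu : y ≠ u := fun h => hu (by rw [← h, hx, hy])
    have := (Subgroup.subgroupOf_eq_top.1 h (x := Equiv.swap x y * Equiv.swap y u)
      (by simp [Equiv.Perm.mem_alternatingGroup, hxy, hyu])).1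
    exact H25.partStab_ne_top hxy (hx.trans hy.symm) hu.symm
      ((Subgroup.mul_mem_cancel_left _ (H25.swap_mem_partStab (hx.trans hy.symm))).1 this)
  let L := L'.map (alternatingGroup Ω).subtype
  have hL : H25.partStab f ⊓ alternatingGroup Ω ≤ L := fun g hg => ⟨⟨g, hg.2⟩, hL'.le hg, rfl⟩
  have hL2 : ¬ L ≤ H25.partStab f := fun h => hL'.not_ge fun g hg => ⟨h ⟨g, hg, rfl⟩, g.2⟩
  by_cases h22 : a = 2 ∧ b = 2
  · obtain ⟨rfl, rfl⟩ := h22
    set W := (H25.partStab f ⊓ alternatingGroup Ω).subgroupOf (alternatingGroup Ω)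
    have htr : MulAction.IsPretransitive W Ω := ⟨fun x y => by
      obtain ⟨x', -, -, hx', -⟩ := hoth x
      obtain ⟨u, v, huv, hu, hv⟩ := hoth y
      obtain ⟨w, hw, h1, -⟩ := H25.exists_partStab_pair e he hx'.symm hu.symm
      obtain ⟨w', hw', h2⟩ := H25.exists_even_of_swap hw huv (H25.swap_mem_partStab hv.symm)
      refine ⟨⟨⟨w', hw'.2⟩, hw'⟩, (h2 x ?_ ?_).trans h1⟩
      · rw [h1]; exact fun h => hu (by rw [h])
      · rw [h1]; exact fun h => hu (by rw [h, hv])⟩
    obtain ⟨x⟩ : Nonempty Ω := Fintype.card_pos_iff.1 (by omega)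
    have h1 := H25.card_eq_card_mul_card_stabilizer (G := W) x
    have h2 := Subgroup.card_dvd_of_le hL'.le
    have h3 := L'.card_subgroup_dvd_card
    have h4 : Nat.card W < Nat.card L' := Set.Finite.card_lt_card (Set.toFinite _) hL'
    have : Nontrivial Ω := Fintype.one_lt_card_iff_nontrivial.1 (by omega)
    have h5 := nat_card_alternatingGroup (α := Ω)
    rw [Nat.card_eq_fintype_card (α := Ω), hcard] at h1 h5
    apply Subgroup.eq_top_of_card_eq
    change _ = 12 at h5
    rw [h5] at h3 ⊢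
    have h6 : 0 < Nat.card W := Nat.card_pos
    have h7 : 4 ∣ Nat.card L' := (Dvd.intro _ h1.symm).trans h2
    have h8 := Nat.le_of_dvd (by norm_num) h3
    generalize Nat.card L' = n at *
    interval_cases n <;> omega
  have hprim : MulAction.IsPreprimitive L Ω := by
    refine H25.prim_of_partStab (fun x => (hoth x).imp fun u ⟨_, _, h, _⟩ => h.symm) ?_ ?_ hL2
    · intro x y x' y' h h'
      obtain ⟨w, hw, h1, h2⟩ := H25.exists_partStab_pair e he h h'
      obtain ⟨u, v, huv, hu, h3, h4, h5, h6⟩ : ∃ u v, u ≠ v ∧ f u = f v ∧ x' ≠ u ∧ x' ≠ v ∧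
          y' ≠ u ∧ y' ≠ v := by
        rcases ha.eq_or_lt with rfl | ha3
        · obtain ⟨k, hk⟩ : ∃ k, k ∉ ({f x', f y'} : Finset (Fin b)) := by
            by_contra hcon
            push Not at hcon
            have := Finset.card_le_two (a := f x') (b := f y')
            rw [Finset.eq_univ_of_forall hcon, Finset.card_fin] at this
            omega
          obtain ⟨u, v, huv, hu, hv⟩ := H25.exists_two_in_fibre e he ha k
          refine ⟨u, v, huv, hu.trans hv.symm, ?_, ?_, ?_, ?_⟩ <;> rintro rfl <;> simp_all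
        · obtain ⟨u, v, huv, hu, hv, h3, h4⟩ := H25.exists_two_in_fibre' e he ha3 x'
          exact ⟨u, v, huv, hu.trans hv.symm, h3.symm, h4.symm, fun h => h' (by rw [h, hu]),
            fun h => h' (by rw [h, hv])⟩
      obtain ⟨w', hw', h7⟩ := H25.exists_even_of_swap hw huv (H25.swap_mem_partStab hu)
      exact ⟨w', ⟨hL hw', hw'.1⟩, (h7 x (h1 ▸ h3) (h1 ▸ h4)).trans h1,
        (h7 y (h2 ▸ h5) (h2 ▸ h6)).trans h2⟩
    · intro x y y' h h' hy hy'
      obtain ⟨u, v, huv, hu, hv⟩ := hoth x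
      obtain ⟨w', hw', h7⟩ := H25.exists_even_of_swap (H25.swap_mem_partStab (h.trans h'.symm))
        huv (H25.swap_mem_partStab hv.symm)
      have h8 := Equiv.swap_apply_of_ne_of_ne hy.symm hy'.symm
      refine ⟨w', hL hw', (h7 x ?_ ?_).trans h8, (h7 y ?_ ?_).trans (Equiv.swap_apply_left _ _)⟩
      · rw [h8]; exact fun h => hu (by rw [h])
      · rw [h8]; exact fun h => hu (by rw [h, hv])
      · rw [Equiv.swap_apply_left]; exact fun h => hu (by rw [← h, h'])
      · rw [Equiv.swap_apply_left]; exact fun h => hu (by rw [← hv, ← h, h'])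
  obtain ⟨g, hg, hg3⟩ : ∃ g ∈ L, Equiv.Perm.IsThreeCycle g := by
    rcases ha.eq_or_lt with rfl | ha3
    · exact exists_three (by omega) e he hL hL2
    · obtain ⟨x, -, -, -, -⟩ := H25.exists_two_in_fibre e he ha ⟨0, by omega⟩
      obtain ⟨u, v, huv, hu, hv, h3, h4⟩ := H25.exists_two_in_fibre' e he ha3 x
      have := Equiv.Perm.isThreeCycle_swap_mul_swap_same h3.symm h4.symm huv
      exact ⟨_, hL ⟨mul_mem (H25.swap_mem_partStab hu.symm) (H25.swap_mem_partStab hv.symm),
        this.mem_alternatingGroup⟩, this⟩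
  rw [eq_top_iff]
  intro k _
  obtain ⟨k', hk', hk⟩ :=
    Equiv.Perm.alternatingGroup_le_of_isPreprimitive_of_isThreeCycle_mem hprim hg3 hg k.2
  exact (Subtype.ext hk : k' = k) ▸ hk'

end Cfsg.Agent.S5909
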