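import Cfsg.Statements.S5910
import Mathlib
import Cfsg.Agent.H25.PartStab

set_option autoImplicit false
open Cfsg

namespace Cfsg.Agent.S5910

open Equiv Equiv.Perm H25

def t1 (i j k : Fin 4) : Fin 4 := Fin.ofNat 4 (i.1 ^^^ j.1 ^^^ k.1)

def t (x y z : Fin 4 × Fin 2) : Fin 4 × Fin 2 := (t1 x.1 y.1 z.1, x.2 + y.2 + z.2)

def K0 : Subgroup (Perm (Fin 4 × Fin 2)) where
  carrier := {g | ∀ x y z, g (t x y z) = t (g x) (g y) (g z)}
  one_mem' := fun _ _ _ => rfl
  mul_mem' := fun {g h} hg hh x y z => by simp only [Perm.mul_apply]; rw [hh, hg]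
  inv_mem' := fun {g} hg x y z => by
    apply g.injective
    rw [hg]; simp

theorem c1 : ∀ (π : Perm (Fin 4)) i j k, π (t1 i j k) = t1 (π i) (π j) (π k) := by decide +kernel

theorem c2 : ∀ σ : Fin 4 → Perm (Fin 2), ∏ k, sign (σ k) = 1 → ∀ i j k a b c,
    σ (t1 i j k) (a + b + c) = σ i a + σ j b + σ k c := by decide +kernel

theorem le_K0 : partStab Prod.fst ⊓ alternatingGroup (Fin 4 × Fin 2) ≤ K0 := by
  rintro g ⟨hg, hs⟩
  have hπ : Function.Injective fun i : Fin 4 => (g (i, 0)).1 := fun i j h =>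
    (hg (i, 0) (j, 0)).2 h
  have hσ : ∀ i : Fin 4, Function.Injective fun a : Fin 2 => (g (i, a)).2 := fun i a b h =>
    (Prod.ext_iff.1 (g.injective (Prod.ext ((hg (i, a) (i, b)).1 rfl) h))).2
  let π : Perm (Fin 4) := Equiv.ofBijective _ hπ.bijective_of_finite
  let σ : Fin 4 → Perm (Fin 2) := fun i => Equiv.ofBijective _ (hσ i).bijective_of_finite
  have h1 : ∀ x, g x = (π x.1, σ x.1 x.2) := fun x =>
    Prod.ext ((hg x (x.1, 0)).1 rfl) rfl
  have h2 : g = prodCongrLeft (fun _ => π) * prodCongrRight σ := Equiv.ext h1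
  have h3 : sign g = 1 := hs
  rw [h2, map_mul, sign_prodCongrLeft, sign_prodCongrRight] at h3
  intro x y z
  simp only [h1, t, c1, c2 σ (by simpa using h3)]

def g1 : Perm (Fin 4 × Fin 2) := swap (1, 0) (0, 1) * swap (3, 0) (2, 1)
def g2 : Perm (Fin 4 × Fin 2) := swap (1, 0) (0, 1) * swap (1, 0) (2, 1)

theorem g1_mem : ∀ x y z, g1 (t x y z) = t (g1 x) (g1 y) (g1 z) := by decide +kernel
theorem g2_mem : ¬ ∀ x y z, g2 (t x y z) = t (g2 x) (g2 y) (g2 z) := by decide +kernel
theorem g1_sign : sign g1 = 1 := by simp [g1]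
theorem g2_sign : sign g2 = 1 := by simp [g2]

/-- Let Ω be a set with 8 elements and f : Ω → Fin 4 a labelling whose four fibres all have size 2 (a partition of the 8 points into 4 pairs). Then the group of even permutations preserving this partition, (S₂ ≀ S₄) ∩ A₈, is not a maximal subgroup of the alternating group A₈ (it lies in a subgroup isomorphic to the affine group AGL₃(2)). -/
theorem result {Ω : Type*} [Fintype Ω] [DecidableEq Ω] (h8 : Fintype.card Ω = 8)
    (f : Ω → Fin 4) (hf : ∀ i : Fin 4, Nat.card {x : Ω // f x = i} = 2) :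
    ¬ IsCoatom ((Subgroup.closure {g : Equiv.Perm Ω | ∀ x y : Ω, f x = f y ↔ f (g x) = f (g y)} ⊓ alternatingGroup Ω).subgroupOf (alternatingGroup Ω)) := by
  rw [H25.closure_partStab]
  obtain ⟨e, he⟩ := H25.exists_equiv_prod f hf
  intro h
  have h1 := h.2 ((K0.comap e.permCongrHom.toMonoidHom).subgroupOf (alternatingGroup Ω)) (by
    refine lt_of_le_of_ne (fun g hg => le_K0 ⟨fun x y => ?_, ?_⟩) fun h => ?_
    · have := hg.1 (e.symm x) (e.symm y)
      simpa [← he] using this
    · exact (Equiv.Perm.sign_permCongr e g.1).trans g.2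
    · have : (⟨e.symm.permCongr g1, (Equiv.Perm.sign_permCongr _ _).trans g1_sign⟩ :
          alternatingGroup Ω) ∈ (K0.comap e.permCongrHom.toMonoidHom).subgroupOf _ := by
        change e.permCongr (e.symm.permCongr g1) ∈ K0
        rw [← Equiv.permCongr_symm, Equiv.apply_symm_apply]
        exact g1_mem
      rw [← h] at this
      have := this.1 (e.symm (0, 0)) (e.symm (0, 1))
      simp only [← he, Equiv.permCongr_apply, Equiv.symm_symm, Equiv.apply_symm_apply,
        Subgroup.coe_subtype] at this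
      revert this
      decide)
  have : (⟨e.symm.permCongr g2, (Equiv.Perm.sign_permCongr _ _).trans g2_sign⟩ :
      alternatingGroup Ω) ∈ (K0.comap e.permCongrHom.toMonoidHom).subgroupOf _ := h1 ▸ trivial
  change e.permCongr (e.symm.permCongr g2) ∈ K0 at this
  rw [← Equiv.permCongr_symm, Equiv.apply_symm_apply] at this
  exact g2_mem this

end Cfsg.Agent.S5910
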