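import Cfsg.Statements.S5912
import Mathlib
import Cfsg.Agent.H25.SymIdx

set_option autoImplicit false
open Cfsg

namespace Cfsg.Agent.S5912

/-- The symmetric group on a 6-element set Ω has exactly two conjugacy classes of subgroups of index 6: there are two non-conjugate subgroups of index 6 (a point stabilizer and a transitive subgroup isomorphic to S₅), and every subgroup of index 6 is conjugate to one of them. -/
theorem result {Ω : Type*} [Fintype Ω] [DecidableEq Ω] (h6 : Fintype.card Ω = 6) :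
    ∃ H₁ H₂ : Subgroup (Equiv.Perm Ω), H₁.index = 6 ∧ H₂.index = 6 ∧
      (¬ ∃ g : Equiv.Perm Ω, Subgroup.map (MulAut.conj g).toMonoidHom H₁ = H₂) ∧
      ∀ H : Subgroup (Equiv.Perm Ω), H.index = 6 →
        ∃ g : Equiv.Perm Ω, Subgroup.map (MulAut.conj g).toMonoidHom H₁ = H ∨ Subgroup.map (MulAut.conj g).toMonoidHom H₂ = H := by
  rw [← Nat.card_eq_fintype_card] at h6
  obtain ⟨K, hK, htr, h⟩ := H25.index_six h6
  have : Nontrivial Ω := Finite.one_lt_card_iff_nontrivial.1 (by omega)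
  obtain ⟨a⟩ : Nonempty Ω := inferInstance
  refine ⟨MulAction.stabilizer _ a, K, by rw [MulAction.index_stabilizer_of_transitive, h6], hK,
    ?_, fun H hH => ?_⟩
  · rintro ⟨g, rfl⟩
    rw [← MulAction.stabilizer_smul_eq_stabilizer_map_conj] at htr
    obtain ⟨b, hb⟩ := exists_ne (g • a)
    obtain ⟨u, hu⟩ := htr.exists_smul_eq (g • a) b
    exact hb (hu.symm.trans u.2)
  · rcases h H hH with ⟨b, rfl⟩ | ⟨b, rfl⟩
    · obtain ⟨g, rfl⟩ := MulAction.exists_smul_eq (Equiv.Perm Ω) a b
      exact ⟨g, Or.inl (MulAction.stabilizer_smul_eq_stabilizer_map_conj _ _).symm⟩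
    · obtain ⟨g, rfl⟩ := MulAction.exists_smul_eq (Equiv.Perm Ω)
        ((1 : Equiv.Perm Ω) : Equiv.Perm Ω ⧸ K) b
      refine ⟨g, Or.inr ?_⟩
      rw [MulAction.stabilizer_smul_eq_stabilizer_map_conj, MulAction.stabilizer_quotient]

end Cfsg.Agent.S5912
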