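import Cfsg.Statements.S5914
import Mathlib
import Cfsg.Agent.S5913
import Cfsg.Agent.H25.MinNormal

set_option autoImplicit false
open Cfsg

namespace Cfsg.Agent.S5914

theorem aux {S : Type} [Group S] [IsSimpleGroup S] {n : ℕ} [Finite (Fin n → S)]
    (H : Subgroup (Fin n → S)) (hH : H.Characteristic) : H = ⊥ ∨ H = ⊤ := by
  classical
  rw [or_iff_not_imp_left]
  intro h0
  obtain ⟨x, hx, hx1⟩ := (Subgroup.ne_bot_iff_exists_ne_one).1 h0 |>.imp (fun (x : H) h => And.intro x.2 h)
  obtain ⟨i, hi⟩ : ∃ i, x.1 i ≠ 1 := by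
    by_contra hcon
    push Not at hcon
    exact hx1 (Subtype.ext (funext hcon))
  have hchar : ∀ (φ : (Fin n → S) ≃* (Fin n → S)), ∀ y ∈ H, φ y ∈ H := fun φ y hy =>
    (Subgroup.characteristic_iff_le_comap.1 hH φ) hy
  -- it is enough to find a non-trivial `mulSingle`
  suffices hs : ∃ (k : Fin n) (t : S), t ≠ 1 ∧ (Pi.mulSingle k t : Fin n → S) ∈ H by
    obtain ⟨k, t, ht, hk⟩ := hs
    have hk' : ∀ s : S, (Pi.mulSingle k s : Fin n → S) ∈ H := by
      rcases ((inferInstance : H.Normal).comap
        (MonoidHom.mulSingle (fun _ : Fin n => S) k)).eq_bot_or_eq_top with h | h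
      · have : t ∈ H.comap (MonoidHom.mulSingle (fun _ : Fin n => S) k) := hk
        rw [h] at this
        exact absurd this ht
      · intro s
        have : s ∈ H.comap (MonoidHom.mulSingle (fun _ : Fin n => S) k) := h ▸ trivial
        exact this
    rw [eq_top_iff]
    intro y _
    refine Subgroup.pi_mem_of_mulSingle_mem y fun j => ?_
    have := hchar (MulEquiv.arrowCongr (Equiv.swap k j) (MulEquiv.refl S)) _ (hk' (y j))
    convert this using 1
    ext l
    simp only [MulEquiv.arrowCongr_apply, Equiv.symm_swap, MulEquiv.refl_apply]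
    by_cases hl : l = j
    · subst hl; simp
    · rw [Pi.mulSingle_eq_of_ne hl, Pi.mulSingle_eq_of_ne]
      rw [Ne, Equiv.swap_apply_eq_iff]; simpa using hl
  by_cases hS : IsMulCommutative S
  · by_cases hk : ∃ k, k ≠ i
    · obtain ⟨k, hk⟩ := hk
      have hc : ∀ a b : S, a * b = b * a := fun a b => hS.1.1 a b
      let φ : (Fin n → S) ≃* (Fin n → S) :=
        { toFun := fun y => y * Pi.mulSingle k (y i)
          invFun := fun y => y * Pi.mulSingle k (y i)⁻¹
          left_inv := fun y => by
            simp [Pi.mulSingle_eq_of_ne hk.symm, mul_assoc, ← Pi.mulSingle_mul]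
          right_inv := fun y => by
            simp [Pi.mulSingle_eq_of_ne hk.symm, mul_assoc, ← Pi.mulSingle_mul]
          map_mul' := fun y z => by
            ext l
            simp only [Pi.mul_apply, Pi.mulSingle_mul, mul_assoc]
            congr 1
            rw [← mul_assoc, ← mul_assoc, hc (z l)] }
      refine ⟨k, x.1 i, hi, ?_⟩
      have := H.mul_mem (H.inv_mem hx) (hchar φ _ hx)
      simpa [φ] using this
    · push Not at hk
      refine ⟨i, x.1 i, hi, ?_⟩
      convert hx
      ext l
      rw [hk l]; simp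
  · obtain ⟨t, ht⟩ := exists_ne (1 : S)
    exact ⟨i, t, ht, H25.mulSingle_mem_of_normal hS H hx hi t⟩

/-- A non-trivial finite group G is characteristically simple (its only characteristic subgroups are 1 and G) if and only if G is isomorphic to a direct power S^n (n ≥ 1) of some simple group S (possibly cyclic of prime order). -/
theorem result {G : Type*} [Group G] [Finite G] [Nontrivial G] :
    (∀ H : Subgroup G, H.Characteristic → H = ⊥ ∨ H = ⊤) ↔
    ∃ (S : Type) (_ : Group S) (_ : IsSimpleGroup S) (n : ℕ), 1 ≤ n ∧ Nonempty (G ≃* (Fin n → S)) := by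
  constructor
  · intro h
    obtain ⟨T, _, m, e, hT, hm, -⟩ := H25.exists_pi_simple_decomp (MonoidHom.id (MulAut G))
      fun M _ hM => h M (Subgroup.characteristic_iff_le_comap.2 fun φ x hx => hM φ x hx)
    exact ⟨T, inferInstance, hT, m, hm, ⟨e⟩⟩
  · rintro ⟨S, _, _, n, -, ⟨e⟩⟩ H hH
    have : Finite (Fin n → S) := Finite.of_equiv _ e.toEquiv
    rcases aux (H.map e.toMonoidHom) (Subgroup.characteristic_iff_le_comap.2 fun φ x hx => by
      obtain ⟨y, hy, rfl⟩ := hx
      refine ⟨_, Subgroup.characteristic_iff_le_comap.1 hH (e.trans (φ.trans e.symm)) hy, ?_⟩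
      simp) with h | h
    · left
      exact (Subgroup.map_eq_bot_iff_of_injective _ e.injective).1 h
    · right
      apply e.mapSubgroup.injective
      rw [map_top]; exact h

end Cfsg.Agent.S5914
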