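import Cfsg.Statements.S5947
import Mathlib
import Cfsg.Agent.H25.Singer

set_option autoImplicit false
open Cfsg

namespace Cfsg.Agent.S5947

/-- Let F ⊆ K be finite fields with |F| = q and [K : F] = n ≥ 2, regard K as an n-dimensional F-vector space, and let M ≤ GL_F(K) be the Singer group of multiplications by non-zero elements of K (cyclic of order q^n − 1). Assume (n, q) ≠ (6, 2), and that it is not the case that n = 2 with q a prime such that q + 1 is a power of 2. Then every abelian subgroup of GL_F(K) of order q^n − 1 is conjugate to M. -/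
theorem result {F K : Type*} [Field F] [Fintype F] [Field K] [Fintype K] [Algebra F K] (n : ℕ) (hn : 2 ≤ n) (hdim : Module.finrank F K = n)
    (hex1 : ¬ (n = 6 ∧ Fintype.card F = 2))
    (hex2 : ¬ (n = 2 ∧ (Fintype.card F).Prime ∧ ∃ a : ℕ, Fintype.card F + 1 = 2 ^ a))
    (U : Subgroup (Module.End F K)ˣ) (hU : IsMulCommutative U) (hcard : Nat.card U = Fintype.card K - 1) :
    ∃ g : (Module.End F K)ˣ, U.map (MulAut.conj g).toMonoidHom = (Units.map ((Algebra.lmul F K : K →ₐ[F] Module.End F K) : K →* Module.End F K)).range := by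
  classical
  have : Module.Finite F K := Module.finite_of_finrank_pos (by omega)
  have : Finite (Module.End F K) := Module.finite_of_finite F
  let A : Subalgebra F (Module.End F K) := Algebra.adjoin F (Units.val '' (U : Set (Module.End F K)ˣ))
  have hcomm : ∀ a ∈ Units.val '' (U : Set (Module.End F K)ˣ),
      ∀ b ∈ Units.val '' (U : Set (Module.End F K)ˣ), a * b = b * a := by
    rintro _ ⟨a, ha, rfl⟩ _ ⟨b, hb, rfl⟩
    have := congrArg (fun u : U => u.1.1) (hU.1.1 ⟨a, ha⟩ ⟨b, hb⟩)
    exact this
  letI : CommRing A := Algebra.adjoinCommRingOfComm F hcomm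
  have hAc : ∀ a ∈ A, ∀ b ∈ A, a * b = b * a := fun a ha b hb =>
    congrArg Subtype.val (mul_comm (⟨a, ha⟩ : A) ⟨b, hb⟩)
  have hQ : Fintype.card K = Fintype.card F ^ n := by
    rw [Module.card_eq_pow_finrank (K := F), hdim]
  have hQ2 : 1 < Fintype.card K := Fintype.one_lt_card
  -- every element of `A` satisfies `a ^ Q = a`
  have hpow : ∀ a ∈ A, a ^ Fintype.card K = a := by
    intro a ha
    have key : ∀ x : A, (FiniteField.frobeniusAlgHom F A ^ n) x = x ^ Fintype.card K := by
      intro x
      rw [AlgHom.coe_pow, FiniteField.coe_frobeniusAlgHom, pow_iterate, hQ]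
    have : (FiniteField.frobeniusAlgHom F A ^ n) ⟨a, ha⟩ = ⟨a, ha⟩ := by
      induction ha using Algebra.adjoin_induction with
      | mem x hx =>
        obtain ⟨u, hu, rfl⟩ := hx
        rw [key]
        apply Subtype.ext
        have h1 := congrArg (fun u : U => u.1.1) (pow_card_eq_one' (x := (⟨u, hu⟩ : U)))
        rw [hcard] at h1
        simp only [SubmonoidClass.mk_pow, Units.val_pow_eq_pow_val, OneMemClass.coe_one,
          Units.val_one] at h1
        change u.1 ^ _ = u.1
        rw [← pow_sub_one_mul (by omega), h1, one_mul]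
      | algebraMap r => exact AlgHom.commutes _ r
      | add x y hx hy ihx ihy =>
        exact (map_add _ (⟨x, hx⟩ : A) ⟨y, hy⟩).trans (by rw [ihx, ihy]; rfl)
      | mul x y hx hy ihx ihy =>
        exact (map_mul _ (⟨x, hx⟩ : A) ⟨y, hy⟩).trans (by rw [ihx, ihy]; rfl)
    rw [key] at this
    exact congrArg Subtype.val this
  -- a vector with trivial annihilator
  obtain ⟨v, hv⟩ : ∃ v : K, ∀ a ∈ A, a v = 0 → a = 0 := by
    obtain ⟨v, hv⟩ := Finite.exists_min fun v : K => {a | a ∈ A ∧ a v = 0}.ncard
    refine ⟨v, fun a ha hav => ?_⟩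
    by_contra ha0
    set e := a ^ (Fintype.card K - 1) with he
    have heA : e ∈ A := A.pow_mem ha _
    have hea : e * a = a := by rw [he, pow_sub_one_mul (by omega), hpow a ha]
    have hea' : e = a ^ (Fintype.card K - 2) * a := by
      rw [he, ← pow_succ]; congr 1; omega
    have hee : e * e = e := by
      conv_lhs => rw [hAc e heA e heA]; enter [2]; rw [hea', hAc _ (A.pow_mem ha _) a ha]
      rw [← mul_assoc, hea, hAc _ ha _ (A.pow_mem ha _), ← hea']
    have hev : e v = 0 := by rw [hea', Module.End.mul_apply, hav, map_zero]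
    obtain ⟨w, hw⟩ : ∃ w, e w ≠ 0 := by
      by_contra hcon
      push Not at hcon
      apply ha0
      rw [← hea, LinearMap.ext (g := 0) hcon, zero_mul]
    have heew : e (e w) = e w := by rw [← Module.End.mul_apply, hee]
    refine absurd (hv (v + e w)) (not_le.2 (Set.ncard_lt_ncard ⟨?_, fun h => ?_⟩))
    · rintro b ⟨hb, hbv⟩
      refine ⟨hb, ?_⟩
      have h1 : b (e w) = 0 := by
        have := congrArg e hbv
        rwa [← Module.End.mul_apply, hAc e heA b hb, Module.End.mul_apply, map_add, hev, heew,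
          zero_add, map_zero] at this
      rwa [map_add, h1, add_zero] at hbv
    · have := (h ⟨heA, hev⟩).2
      rw [map_add, hev, heew, zero_add] at this
      exact hw this
  let ev : A →ₗ[F] K := (LinearMap.applyₗ v).comp A.val.toLinearMap
  have hinj : Function.Injective ev := by
    rw [injective_iff_map_eq_zero]
    intro a ha
    exact Subtype.ext (hv a a.2 ha)
  -- every non-zero element of `A` is in `U`
  let ι : Option U → A := fun o => o.elim 0 fun u => ⟨u.1.1, Algebra.subset_adjoin ⟨u, u.2, rfl⟩⟩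
  have hι : Function.Injective ι := by
    rintro (_ | u) (_ | u') h
    · rfl
    · exact absurd (congrArg Subtype.val h).symm u'.1.ne_zero
    · exact absurd (congrArg Subtype.val h) u.1.ne_zero
    · rw [Subtype.ext (Units.ext (congrArg Subtype.val h) : u.1 = u'.1)]
  have hb : Function.Bijective (ev ∘ ι) := by
    apply (hinj.comp hι).bijective_of_nat_card_le
    rw [Finite.card_option, hcard, Nat.card_eq_fintype_card]
    omega
  have hsurj : Function.Surjective ev := hb.2.of_comp
  have hιs : Function.Surjective ι := fun a => (hb.2 (ev a)).imp fun o ho => hinj ho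
  have hfield : IsField A := by
    refine ⟨exists_pair_ne A, mul_comm, fun {a} ha => ?_⟩
    obtain ⟨_ | u, rfl⟩ := hιs a
    · exact absurd rfl ha
    · exact ⟨ι (some u⁻¹), Subtype.ext u.1.mul_inv⟩
  letI : Field A := hfield.toField
  let e : A ≃ₗ[F] K := LinearEquiv.ofBijective ev ⟨hinj, hsurj⟩
  obtain ⟨φ⟩ := FiniteField.nonempty_algHom_of_finrank_dvd (F := F) (K := K) (L := A)
    (by rw [e.finrank_eq])
  have hφ : Function.Bijective φ := φ.toRingHom.injective.bijective_of_nat_card_le
    (Nat.card_congr e.toEquiv).le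
  let ψ : K ≃ₗ[F] K := (LinearEquiv.ofBijective φ.toLinearMap hφ).trans e
  have hψ : ∀ x, ψ x = (φ x).1 v := fun x => rfl
  refine ⟨(LinearMap.GeneralLinearGroup.ofLinearEquiv ψ)⁻¹, ?_⟩
  apply Subgroup.eq_of_le_of_card_ge
  · rintro _ ⟨u, hu, rfl⟩
    obtain ⟨a, ha⟩ := hφ.2 (ι (some ⟨u, hu⟩))
    refine H25.mem_singer.2 ⟨a, fun x => ?_⟩
    change ψ.symm (u.1 (ψ x)) = a * x
    rw [LinearEquiv.symm_apply_eq, hψ, hψ, map_mul, ha]
    rfl
  · rw [H25.card_singer, Subgroup.card_map_of_injective (MulAut.conj _).injective, hcard]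

end Cfsg.Agent.S5947
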